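import Cfsg.Agent.H27.Tx2
import Cfsg.Agent.H27.Spec16
import Cfsg.Agent.S5945

/-! Eichler group and rank parity, the unipotent radical, the exceptional case. -/

set_option autoImplicit false
set_option linter.unusedSectionVars false

namespace H27.Tx

open Module H11 H12 QuadraticMap

section Par

variable {F : Type*} [Field F] {V : Type*} [AddCommGroup V] [Module F V] {W : Type*} [AddCommGroup W] [Module F W]
  [FiniteDimensional F V] [FiniteDimensional F W] [Finite F] {Q : QuadraticForm F V}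

/-- extend an isometry by the identity -/
def emb (Q : QuadraticForm F V) (Q' : QuadraticForm F W) : orth Q →* orth (Q.prod Q') where
  toFun g := ⟨g.1.prodCongr (.refl F W), mem_orth.2 fun x => by simp [orth_Q]⟩
  map_one' := rfl
  map_mul' _ _ := rfl

theorem emb_apply (Q' : QuadraticForm F W) (g : orth Q) (x : V × W) : (emb Q Q' g).1 x = (g.1 x.1, x.2) := rfl

/-- the rank of `g - 1` -/
noncomputable def rk (g : V ≃ₗ[F] V) : ℕ := finrank F (LinearMap.range ((g : End F V) - 1))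

theorem dick_rk (hQ : QNondeg Q) (hne : NotExc F V) (g : orth Q) : dickson Q g = (-1) ^ rk g.1 := by
  have := LinearMap.finrank_range_add_finrank_ker (show End F V from (g.1 : End F V) - 1)
  rw [Sp.dickson_eq hQ hne, ← this, add_left_comm, pow_add, Even.neg_one_pow (n := _ + _) ⟨_, rfl⟩, mul_one, rk]

theorem rk_emb (Q' : QuadraticForm F W) (g : orth Q) : rk (emb Q Q' g).1 = rk g.1 := by
  rw [rk, rk, (Submodule.equivMapOfInjective _ (LinearMap.inl_injective (R := F) (M := V) (M₂ := W)) _).finrank_eq]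
  refine congrArg (fun X : Submodule F (V × W) => finrank F X) (le_antisymm ?_ ?_)
  · rintro _ ⟨x, rfl⟩
    exact ⟨_, ⟨x.1, rfl⟩, by ext <;> simp [emb_apply]⟩
  · rintro _ ⟨_, ⟨x, rfl⟩, rfl⟩
    exact ⟨(x, 0), by ext <;> simp [emb_apply]⟩

theorem exists_par (hQ : QNondeg Q) (h3 : 3 ≤ finrank F V) (h2 : (2 : F) = 0) : ∃ D : orth Q →* ℤˣ,
    (∀ g, D g = (-1) ^ rk g.1) ∧ eichGroup Q ≤ D.ker ∧ ∀ v, Q v ≠ 0 → D (refl Q v) = -1 := by
  let Q' : QuadraticForm F (F × F) := linMulLin (.fst F F F) (.snd F F F)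
  have nd : QNondeg (Q.prod Q') := fun x hx => Prod.ext (hQ _ fun y => by simpa [polar_prod] using hx (y, 0))
    (Sp.hyp_nd _ fun y => show polar Q' x.2 y = 0 by simpa [polar_prod] using hx (0, y))
  have ne : NotExc F (V × F × F) := .inr (by simp; omega)
  refine ⟨(dickson _).comp (emb Q Q'), fun g => by rw [MonoidHom.comp_apply, dick_rk nd ne, rk_emb], ?_, fun v hv => ?_⟩
  · refine (Subgroup.closure_le _).2 ?_
    rintro _ ⟨u, w, hu, hw, rfl⟩
    have h1 : (Q.prod Q') (u, 0) = 0 := by simp [hu]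
    have h3 : polar (Q.prod Q') (u, 0) (w, 0) = 0 := by simp [polar_prod, hw]
    have := eichGroup_le_commutator nd ne (eich_mem_eichGroup h1 h3)
    rw [commutator_eq_ker_dickson nd ne h2] at this
    rwa [show eich _ (u, 0) (w, 0) = emb Q Q' (eich Q u w) from orth_ext fun x => by
      rw [eich_apply h1 h3]; ext1 <;> simp [emb_apply, eich_apply hu hw, polar_prod]] at this
  · rw [MonoidHom.comp_apply, show emb Q Q' (refl Q v) = refl _ (v, 0) from orth_ext fun x => by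
      ext1 <;> simp [emb_apply, refl_apply, polar_prod], dickson_refl nd ne (by simpa)]

theorem over_eich (hQ : QNondeg Q) (h3 : 3 ≤ finrank F V) (h2 : (2 : F) = 0) (M : Subgroup (orth Q))
    (hM : eichGroup Q ≤ M) : M = ⊤ ∨ ∀ g, g ∈ M ↔ Even (rk g.1) := by
  obtain ⟨D, h1, h4, h5⟩ := exists_par hQ h3 h2
  obtain ⟨r, hr⟩ := exists_Q_eq hQ (by omega) one_ne_zero
  have r0 : Q r ≠ 0 := by simp [hr]
  have top : eichGroup Q ⊔ Subgroup.zpowers (refl Q r) = ⊤ := eq_top_of_refl_eich hQ _ (fun v hv => by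
    have := Subgroup.mul_mem_sup (refl_mul_refl_mem_eichGroup hQ h3 (exists_singular Q h3) hv r0
      (isSquare_of_two_eq_zero h2 _)) (Subgroup.mem_zpowers (refl Q r))
    rwa [mul_assoc, refl_mul_self, mul_one] at this) fun u w hu _ hw => Subgroup.mem_sup_left (eich_mem_eichGroup hu hw)
  have key : ∀ g, g ∈ eichGroup Q ∨ g * refl Q r ∈ eichGroup Q := fun g => by
    obtain ⟨e, he, _, ⟨k, rfl⟩, rfl⟩ := Subgroup.mem_sup_of_normal_left.1 (top.ge (Subgroup.mem_top g))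
    have z : refl Q r ^ (2 : ℤ) = 1 := by rw [zpow_two, refl_mul_self]
    obtain ⟨j, rfl | rfl⟩ := Int.even_or_odd' k
    · left; simpa [zpow_mul, z] using he
    · right; simpa [zpow_add, zpow_mul, z, mul_assoc, refl_mul_self] using he
  have ev : ∀ g, Even (rk g.1) ↔ g ∈ eichGroup Q := fun g => ⟨fun h => (key g).resolve_right fun h' => by
    have := h4 h'
    rw [MonoidHom.mem_ker, map_mul, h5 r r0, h1, h.neg_one_pow] at this
    simp at this, fun h => by
    have := h4 h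
    rwa [MonoidHom.mem_ker, h1, neg_one_pow_eq_one_iff_even (by decide)] at this⟩
  by_cases h : M ≤ eichGroup Q
  · exact .inr fun g => Iff.trans ⟨fun x => h x, fun x => hM x⟩ (ev g).symm
  obtain ⟨g, g1, g2⟩ := SetLike.not_le_iff_exists.1 h
  refine .inl (top_le_iff.1 (top ▸ sup_le hM (Subgroup.zpowers_le.2 ?_)))
  exact (M.mul_mem_cancel_left g1).1 (hM ((key g).resolve_left g2))

end Par

variable {F : Type*} [Field F] [CharP F 2] {V : Type*} [AddCommGroup V] [Module F V]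
  {C : CForm (altType F) V} {L : Subgroup C.isom} {s x y a b : V} {c d : F} {S : Set V}
  [Finite F] [FiniteDimensional F V]

theorem unip (hC : C.Nondeg) {N : Subgroup C.isom} (h2 : ∀ n ∈ N, ∃ k, n ^ 2 ^ k = 1) (hf : ∀ n ∈ N, n.1 a = a)
    (hn : ∀ h : C.isom, h.1 a = a → ∀ n ∈ N, h * n * h⁻¹ ∈ N) (hab : C.B a b = 1) {n : C.isom} (h : n ∈ N) :
    ∃ x c, C.B a x = 0 ∧ C.B b x = 0 ∧ ∀ v, n.1 v = tf C a x c v := by
  have m : ∀ n ∈ N, ∀ x, C.B a x = 0 → ∀ c, stv C (n.1 x) c * stv C x c ∈ N := fun n h x hx c => by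
    have := mul_mem h (hn (stv C x c) (by simp [stv_apply, sy a x, hx]) _ (inv_mem h))
    rwa [← stv_neg, CharTwo.neg_eq, ← mul_assoc, ← mul_assoc, stv_conj] at this
  have A : ∀ n ∈ N, ∀ x, C.B a x = 0 → C.B (n.1 x) x = 0 := fun n h x hx => by
    by_contra ne
    obtain ⟨k, hk⟩ := h2 _ (m n h x hx (C.B (n.1 x) x)⁻¹)
    generalize n.1 x = u at ne hk
    generalize hg : stv C u (C.B u x)⁻¹ * stv C x (C.B u x)⁻¹ = g at hk
    have g1 : g.1 x = x + u := by simp [← hg, isom_mul_apply, stv_apply, se, ne]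
    have g2 : g.1 u = x := by
      simp only [← hg, isom_mul_apply, stv_apply, se, sy u x, ar, sr]; mod2
    have : ∀ k, ((g ^ 2 ^ k).1 x = x + u ∧ (g ^ 2 ^ k).1 u = x) ∨ ((g ^ 2 ^ k).1 x = u ∧ (g ^ 2 ^ k).1 u = x + u) := by
      intro k
      induction k with
      | zero => exact .inl (by simp [g1, g2])
      | succ k ih =>
        rw [pow_succ, pow_mul, pow_two]
        rcases ih with ⟨h1, h2⟩ | ⟨h1, h2⟩
        · right; simp only [isom_mul_apply, h1, h2, map_add]; simp [add_right_comm x u x, vv F]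
        · left; simp only [isom_mul_apply, h1, h2, map_add]; simp [add_left_comm u x u, vv F]
    rcases this k with ⟨h1, -⟩ | ⟨h1, -⟩ <;> rw [hk, isom_one_apply] at h1
    · exact ne (by rw [left_eq_add.1 h1]; simp)
    · exact ne (by rw [h1, se])
  have B : ∀ v, C.B a v = 0 → ∃ k : F, n.1 v = v + k • a := fun v hv => by
    have : v + n.1 v ∈ Submodule.span F {a} := by
      rw [← hC.perp_perp (Submodule.span F {a}), C.mem_perp']
      intro y hy
      rw [C.mem_perp_singleton] at hy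
      have := A _ (m n h v hv 1) y hy
      simp only [isom_mul_apply, stv_apply, al, ar, sl, sr, se, A n h v hv] at this ⊢
      grind
    obtain ⟨k, hk⟩ := Submodule.mem_span_singleton.1 this
    exact ⟨k, by rw [hk, ← add_assoc, vv F, zero_add]⟩
  have e1 : C.B a (n.1 b) = 1 := by rw [← hab, ← iso n a b, hf n h]
  refine ⟨n.1 b + b + C.B b (n.1 b) • a, C.B b (n.1 b), ?_, ?_, fun v => ?_⟩
  · simp only [ar, sr, se, e1, hab]; grind
  · simp only [ar, sr, se, sy a b, hab]; grind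
  obtain ⟨k, hk⟩ := B (v + C.B a v • b) (by simp only [ar, sr, hab]; grind)
  have e2 := iso n b (v + C.B a v • b)
  have e3 : n.1 v = n.1 (v + C.B a v • b) + C.B a v • n.1 b := by rw [map_add, map_smul, add_assoc, vv F, add_zero]
  rw [hk] at e2 e3
  simp only [ar, sr, se, sy a (n.1 b), e1, sy b (n.1 b)] at e2
  simp only [e3, tf, al, sl]
  mod2

theorem onto (hC : C.Nondeg) {X : Subgroup C.isom} (hab : C.B a b = 1)
    (hX : ∀ n ∈ X, ∃ x c, C.B a x = 0 ∧ C.B b x = 0 ∧ ∀ v, n.1 v = tf C a x c v)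
    (hc : Nat.card X = Nat.card F ^ (finrank F V - 2)) (T : ∀ c, P X a 0 c → c = 0) (hx : C.B a x = 0) :
    ∃ c, P X a x c := by
  haveI := Module.finite_of_finite F (M := V)
  choose f g h1 h2 h3 using hX
  let φ : X → C.perp (Submodule.span F {a, b}) := fun n => ⟨f n n.2, C.mem_perp_pair.2 ⟨h1 _ _, h2 _ _⟩⟩
  have inj : Function.Injective φ := fun n n' e => Subtype.ext (isom_ext fun v => by
    have e' : f n n.2 = f n' n'.2 := congrArg Subtype.val e
    have := T _ (P.sub ⟨h1 _ _, n, n.2, h3 _ _⟩ ⟨h1 _ _, n', n'.2, fun v => e'.symm ▸ h3 _ n'.2 v⟩)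
    rw [h3 _ n.2, h3 _ n'.2, e', show g n n.2 = g n' n'.2 by grind])
  have d : finrank F (Submodule.span F {a, b}) = 2 := finrank_span_pair_of_not_mem (fun e => by simp [e] at hab) fun h => by
    obtain ⟨k, rfl⟩ := Submodule.mem_span_singleton.1 h
    simp [se] at hab
  obtain ⟨n, hn⟩ := (inj.bijective_of_nat_card_le (by
    rw [hc, Module.natCard_eq_pow_finrank (K := F), ← hC.finrank_add_finrank_perp (Submodule.span F {a, b}), d]
    simp)).2 ⟨x + C.B b x • a, C.mem_perp_pair.2 ⟨by simp [se, hx], by simp only [ar, sr, sy a b, hab]; grind⟩⟩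
  have e : f n n.2 = x + C.B b x • a := congrArg Subtype.val hn
  exact ⟨_, (P.shift ⟨h1 _ _, n, n.2, h3 _ _⟩ (C.B b x)).cast (by rw [e]; mod2) rfl⟩

theorem Cf.exc (K : Cf L S) (hq : Nat.card F = 2) (h4 : finrank F V = 4) (tr : ∀ s ∈ S, ∀ t ∈ S, ∃ g ∈ L, g.1 s = t)
    (h : ¬ St L S) : 120 ∣ Nat.card L := by
  haveI := Module.finite_of_finite F (M := V)
  have two : ∀ c : F, c ≠ 0 → c = 1 := fun c hc => by
    obtain ⟨y, -, hy⟩ := (Nat.card_eq_two_iff' (0 : F)).1 hq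
    rw [hy c hc, hy 1 one_ne_zero]
  simp only [St, not_forall] at h
  obtain ⟨s, hs, x, hx, h0, l, hl⟩ := h
  obtain rfl := two l fun e => hl (P.zero.cast (by simp [e]) rfl)
  obtain ⟨c, hc⟩ := K.ex s hs ((1 : F) • x) (by simp [h0])
  obtain rfl := two c fun e => hl (e ▸ hc)
  have hn : s ∉ Submodule.span F {x} := fun h => by
    obtain ⟨k, rfl⟩ := Submodule.mem_span_singleton.1 h
    obtain rfl := two k fun e => K.ne _ hs (by simp [e])
    exact hl (st_prop (by simp) 1)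
  obtain ⟨-, g1, hg1, e1⟩ := hc.gam K.nd hn (by rwa [sy]) (K.ex x hx) one_ne_zero 1
  obtain ⟨-, g2, hg2, e2⟩ := hc
  obtain ⟨b, hb, e⟩ := K.nd.exists_perp_eq hn 1
  rw [C.mem_perp_singleton] at hb
  let M := L ⊓ MulAction.stabilizer C.isom s
  have m1 : g2 * g1 ∈ M := ⟨mul_mem hg2 hg1, show g2.1 (g1.1 s) = s by simp [e1, e2, Tx.tf, se, sy s x, h0]⟩
  have m2 : (g2 * g1).1 b = b + s := by
    simp only [isom_mul_apply, e1, e2, Tx.tf, se, sy s x, h0, hb, e, ar, sr, sl]; mod2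
  have O : ∀ v, C.B s v = 1 → ∃ g ∈ M, g.1 b = v := fun v hv => by
    obtain ⟨d, -, g, hg, e3⟩ := K.ex s hs (v + b) (by rw [ar, hv, e]; grind)
    have m3 : g ∈ M := ⟨hg, show g.1 s = s by simp only [e3, Tx.tf, se, al, sy s v, sy s b, hv, e]; mod2⟩
    by_cases h : C.B v b + d = 0
    · exact ⟨g, m3, by simp only [e3, Tx.tf, se, al, e]; mod2⟩
    have := two _ h
    exact ⟨_, mul_mem m3 m1, by
      rw [isom_mul_apply, m2]; simp only [e3, Tx.tf, se, al, ar, e, sy s v, sy s b, hv]; mod2⟩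
  have S1 : ∀ v, C.B s v = 1 → v ∈ S := fun v hv => by
    obtain ⟨t, ht, e⟩ := K.exB (K.ne s hs) 1 one_ne_zero
    obtain ⟨g, hg, rfl⟩ := O t e
    obtain ⟨k, hk, rfl⟩ := O v hv
    simpa [isom_mul_apply, isom_inv_apply'] using K.act _ (mul_mem hk.1 (inv_mem hg.1)) _ ht
  have c16 : Nat.card V = 16 := by rw [Module.natCard_eq_pow_finrank (K := F), hq, h4]; rfl
  have o1 : MulAction.orbit L s = {0}ᶜ := Set.ext fun v => ⟨fun ⟨g, h⟩ => h ▸ K.ne _ (K.act _ g.2 s hs), fun h => by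
    obtain ⟨t, ht, e4⟩ := K.exB h 1 one_ne_zero
    obtain ⟨g, hg, rfl⟩ := tr t ht s hs
    obtain ⟨k, hk, e'⟩ := tr _ hs v (by
      simpa [isom_inv_apply'] using K.act _ (inv_mem hg) _ (S1 (g.1 v) (by rw [iso, sy v t, e4])))
    exact ⟨⟨k, hk⟩, e'⟩⟩
  have o2 : MulAction.orbit M b = (b + ·) '' (C.perp (Submodule.span F {s})) := Set.ext fun v => ⟨fun ⟨g, h⟩ => ⟨b + v, by
      rw [SetLike.mem_coe, C.mem_perp_singleton, ← h, ar, ← show g.1.1 s = s from g.2.2]
      change _ + C.B _ (g.1.1 b) = 0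
      rw [iso, show g.1.1 s = s from g.2.2, e]; grind, by simp [← add_assoc, vv F]⟩, by
    rintro ⟨w, hw, rfl⟩
    obtain ⟨g, hg, e'⟩ := O (b + w) (by rw [ar, e, C.mem_perp_singleton.1 hw, add_zero])
    exact ⟨⟨g, hg⟩, e'⟩⟩
  have d1 := (MulAction.stabilizer L s).index_dvd_card
  have d2 := (MulAction.stabilizer M b).index_dvd_card.trans (Subgroup.card_dvd_of_le (inf_le_left : M ≤ L))
  have := K.nd.finrank_add_finrank_perp (Submodule.span F {s})
  rw [finrank_span_singleton (K.ne s hs), h4] at this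
  rw [MulAction.index_stabilizer, o1, Set.ncard_compl, c16] at d1
  rw [MulAction.index_stabilizer, o2, Set.ncard_image_of_injective _ (add_right_injective b), ← Nat.card_coe_set_eq,
    SetLike.coe_sort_coe, Module.natCard_eq_pow_finrank (K := F), hq, show finrank F (C.perp _) = 3 by omega] at d2
  exact Nat.Coprime.mul_dvd_of_dvd_of_dvd (m := 15) (n := 8) (by decide) (by simpa using d1) d2

theorem s6 (H : Subgroup (Equiv.Perm (Fin 6))) (h : 120 ∣ Nat.card H) :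
    H = ⊤ ∨ H = alternatingGroup _ ∨ Nonempty (H ≃* Equiv.Perm (Fin 5)) := by
  by_cases h1 : H = ⊤
  · exact .inl h1
  by_cases h2 : H = alternatingGroup _
  · exact .inr (.inl h2)
  refine .inr (.inr (Cfsg.Agent.S5945.result.2.1 H ?_))
  have c := H.card_mul_index
  have e : Nat.card (Equiv.Perm (Fin 6)) = 720 := by rw [Nat.card_perm, Nat.card_fin]; rfl
  obtain ⟨k, hk⟩ := h
  have i : H.index ∣ 6 := Dvd.intro_left k (by rw [e, hk] at c; linarith)
  have := Subgroup.card_dvd_of_injective (MulAction.toPermHom (Equiv.Perm (Fin 6)) (_ ⧸ H)) (by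
    rw [← MonoidHom.ker_eq_bot_iff, ← Subgroup.normalCore_eq_ker, normalCore_eq_bot (by simp) h1 h2])
  rw [e, Nat.card_perm, ← Subgroup.index] at this
  have := Nat.le_of_dvd (by decide) i
  interval_cases H.index <;> simp_all [Nat.factorial]

theorem main (hC : C.Nondeg) (h4 : 4 ≤ finrank F V) (hev : Even (finrank F V)) (ha : a ≠ 0)
    (ex : ∀ x, C.B a x = 0 → ∃ c, P L a x c)
    (irr : ∀ W : Submodule F V, (∀ g ∈ L, ∀ w ∈ W, g.1 w ∈ W) → W = ⊥ ∨ W = ⊤) :
    L = ⊤ ∨ (∃ Q : QuadraticForm F V, (∀ u v, polar Q u v = C.B u v) ∧ ((∀ g, g ∈ L ↔ g.1 ∈ orth Q) ∨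
      ∀ g, g ∈ L ↔ g.1 ∈ orth Q ∧ Even (rk g.1))) ∨ (Nat.card F = 2 ∧ finrank F V = 4 ∧ 120 ∣ Nat.card L) := by
  let S : Set V := {s | ∃ g ∈ L, ∃ l : F, l ≠ 0 ∧ s = l • g.1 a}
  have aS : a ∈ S := ⟨1, one_mem _, 1, one_ne_zero, by simp⟩
  have act : ∀ g ∈ L, ∀ s ∈ S, g.1 s ∈ S := by
    rintro g hg _ ⟨k, hk, l, hl, rfl⟩
    exact ⟨g * k, mul_mem hg hk, l, hl, by simp⟩
  have K : Cf L S := ⟨by
    rintro _ ⟨g, hg, l, hl, rfl⟩ x hx
    obtain ⟨c, h⟩ := ex (l • (g⁻¹).1 x) (by rw [sr, isom_B_inv, ← sl, hx])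
    exact ⟨c / (l * l), P.smul ((h.conj hg).cast (by rw [map_smul, isom_inv_apply]) (by field_simp)) hl⟩, by
    rintro _ ⟨g, hg, l, hl, rfl⟩ m hm
    exact ⟨g, hg, m * l, mul_ne_zero hm hl, smul_smul _ _ _⟩, act,
    (irr _ fun g hg w hw => (Submodule.span_le.2 fun s hs => Submodule.subset_span (act g hg s hs) :
      Submodule.span F S ≤ (Submodule.span F S).comap (g.1 : V →ₗ[F] V)) hw).resolve_left
      fun h => ha ((Submodule.span_eq_bot.1 h) a aS), hC, by
    rintro _ ⟨g, hg, l, hl, rfl⟩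
    simpa [hl]⟩
  by_cases T : ∃ c ≠ 0, P L a 0 c
  · obtain ⟨c, hc, T⟩ := T
    refine .inl (K.top (by omega) ?_)
    rintro _ ⟨g, hg, l, hl, rfl⟩
    exact ⟨c / (l * l), by simp [hc, hl], P.smul ((T.conj hg).cast (by simp) (by field_simp)) hl⟩
  have T' : ∀ s ∈ S, ∀ c, P L s 0 c → c = 0 := by
    rintro _ ⟨g, hg, l, hl, rfl⟩ c h
    by_contra hc
    have := (P.smul (x := 0) (c := l * l * c) (l := l⁻¹) (h.cast (by simp) (by field_simp)) (inv_ne_zero hl)).conj (inv_mem hg)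
    rw [inv_smul_smul₀ hl, isom_inv_apply', map_zero] at this
    exact T ⟨_, by simp [hc, hl], this⟩
  by_cases st : St L S
  · obtain ⟨Q, hQ, h0⟩ := Cq.exQ ⟨K, T', st, by omega⟩ aS
    have nd : QNondeg Q := fun x hx => hC x fun y => (hQ x y).symm.trans (hx y)
    let M : Subgroup (orth Q) := (L.map C.isom.subtype).comap (orth Q).subtype
    have hM : ∀ (g : C.isom) (h : g.1 ∈ orth Q), (⟨g.1, h⟩ : orth Q) ∈ M ↔ g ∈ L := fun g h =>
      ⟨fun ⟨k, hk, e⟩ => Subtype.ext e ▸ hk, fun hg => ⟨g, hg, rfl⟩⟩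
    have inv : ∀ g ∈ L, g.1 ∈ orth Q := fun g hg => mem_orth.2 (K.inv hQ h0 hg)
    refine .inr (.inl ⟨Q, hQ, (over_eich nd (by omega) CharTwo.two_eq_zero M ((Subgroup.closure_le _).2 ?_)).imp
      (fun (h : M = ⊤) g => ⟨inv g, fun hg => (hM g hg).1 (h.ge trivial)⟩) fun h g => ⟨fun hg => ⟨inv g hg, (h ⟨_, inv g hg⟩).1
        ((hM g _).2 hg)⟩, fun hg => (hM g hg.1).1 ((h _).2 hg.2)⟩⟩)
    rintro _ ⟨u, w, hu, hw, rfl⟩
    by_cases u0 : u = 0
    · rw [u0, eich_zero_left]; exact one_mem _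
    obtain ⟨-, g, hg, e⟩ := K.val hQ h0 (K.sing hQ h0 u0 hu) ((hQ u w).symm.trans hw)
    exact ⟨g, hg, LinearEquiv.ext fun v => (e v).trans (by
      rw [Subgroup.coe_subtype, eich_apply hu hw]; simp only [tf, hQ]; mod2)⟩
  have hq : Nat.card F = 2 := (Nat.card_eq_two_iff' (0 : F)).2 ⟨1, one_ne_zero, fun y hy => by
    by_contra h; exact st (K.st_card T' ⟨y, hy, h⟩)⟩
  have hd : finrank F V = 4 := by
    by_contra h; exact st (K.st_dim T' (by omega))
  refine .inr (.inr ⟨hq, hd, K.exc hq hd ?_ st⟩)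
  rintro _ ⟨g, hg, l, hl, rfl⟩ _ ⟨k, hk, m, hm, rfl⟩
  obtain ⟨y, -, hy⟩ := (Nat.card_eq_two_iff' (0 : F)).1 hq
  exact ⟨k * g⁻¹, mul_mem hk (inv_mem hg), by rw [hy l hl, hy m hm, map_smul, isom_mul_apply, isom_inv_apply']⟩

end H27.Tx
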