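import Cfsg.Agent.H17.FV0

/-! S5720: the Vandermonde step `VD`. -/

set_option autoImplicit false

open Module Polynomial H17.FV

namespace H27.FY

universe v w

theorem vdm {K M R : Type*} [Field K] [AddCommGroup M] [Module K M] [CommRing R] (φ : R →+* End K M)
    (V : Submodule K M) (hV : ∀ r, ∀ m ∈ V, φ r m ∈ V) {n : ℕ} (x : Fin n → R)
    (hx : ∀ i j, i ≠ j → ∀ m ∈ V, φ (x i - x j) m = 0 → m = 0) (f : Fin n → M) (hf : ∀ i, f i ∈ V)
    (h : ∀ t, ∑ i : Fin n, φ (x t ^ (i : ℕ)) (f i) = 0) (k : Fin n) : f k = 0 := by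
  have mul : ∀ a b : R, (∀ m ∈ V, φ a m = 0 → m = 0) → (∀ m ∈ V, φ b m = 0 → m = 0) →
      ∀ m ∈ V, φ (a * b) m = 0 → m = 0 := fun a b ha hb m hm e =>
    hb m hm (ha _ (hV b m hm) (by rwa [map_mul] at e))
  have one : ∀ m ∈ V, φ 1 m = 0 → m = 0 := fun m _ e => by simpa using e
  have a : ∀ m ∈ V, φ (Matrix.vandermonde x).det m = 0 → m = 0 := by
    rw [Matrix.det_vandermonde]
    exact Finset.prod_induction _ (fun r => ∀ m ∈ V, φ r m = 0 → m = 0) mul one fun i _ =>
      Finset.prod_induction _ (fun r => ∀ m ∈ V, φ r m = 0 → m = 0) mul one fun j hj =>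
        hx j i (Finset.mem_Ioi.1 hj).ne'
  refine a _ (hf k) ?_
  have e : ∀ i : Fin n, ∑ t, (Matrix.vandermonde x).adjugate k t * x t ^ (i : ℕ) =
      if k = i then (Matrix.vandermonde x).det else 0 := fun i => by
    simpa [Matrix.mul_apply, Matrix.one_apply] using
      congrFun (congrFun (Matrix.adjugate_mul (Matrix.vandermonde x)) k) i
  calc _ = ∑ i : Fin n, φ (∑ t, (Matrix.vandermonde x).adjugate k t * x t ^ (i : ℕ)) (f i) := by
        rw [Finset.sum_eq_single k (fun i _ n => by rw [e, if_neg n.symm, map_zero]; rfl) (by simp), e, if_pos rfl]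
    _ = ∑ t, φ ((Matrix.vandermonde x).adjugate k t) (∑ i : Fin n, φ (x t ^ (i : ℕ)) (f i)) := by
        simp only [map_sum, map_mul, LinearMap.sum_apply, End.mul_apply]
        exact Finset.sum_comm
    _ = 0 := by simp only [h, map_zero, Finset.sum_const_zero]

theorem vd : VD.{v, w} := by
  intro K A M _ _ _ _ _ _ _ _ p _ D ν hp hν p0 hz
  have Un : ∀ (c : ZMod p) (n : ℕ), D.U (n * c) = D.U c ^ n := fun c n => by
    induction n with
    | zero => simp [D.U0]
    | succ n ih => rw [Nat.cast_succ, add_mul, one_mul, D.Uadd, ih, pow_succ]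
  have Uv : ∀ c : ZMod p, D.U c = D.U 1 ^ c.val := fun c => by rw [← Un, mul_one, ZMod.natCast_zmod_val]
  set V := LinearMap.range (act K M (D.U 1 - 1)) with hV
  let φ : K[X] →+* End K M := (aeval (act K M (D.U 1))).toRingHom
  have φX : ∀ (c : ZMod p) (i : ℕ) (m : M), φ ((X ^ c.val) ^ i) m = D.U c ^ i • m := fun c i m => by
    have : φ ((X ^ c.val) ^ i) = act K M (D.U c ^ i) := by
      simp only [φ, AlgHom.toRingHom_eq_coe, RingHom.coe_coe, map_pow, aeval_X, Uv c]
    rw [this]; rfl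
  have iv : ∀ r, ∀ m ∈ V, φ r m ∈ V := by
    rintro r _ ⟨m, rfl⟩
    have e : act K M (D.U 1 - 1) = φ (X - 1) := by simp [φ]
    exact ⟨φ r m, by rw [e, ← End.mul_apply, ← End.mul_apply, ← map_mul, ← map_mul, mul_comm]⟩
  have uv : ∀ c i, ∀ m ∈ V, D.U c ^ i • m ∈ V := fun c i m h => φX c i m ▸ iv _ m h
  have inj : ∀ c : ZMod p, c ≠ 0 → ∀ m ∈ V, D.U c • m = m → m = 0 := by
    rintro c c0 _ ⟨m, rfl⟩ e
    have pw : ∀ {y : A} {m : M}, y • m = m → ∀ n : ℕ, y ^ n • m = m := fun {y m} h n => by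
      induction n with
      | zero => simp
      | succ n ih => rw [pow_succ, mul_smul, h, ih]
    have e1 := pw e c⁻¹.val
    rw [← Un, ZMod.natCast_zmod_val, inv_mul_cancel₀ c0] at e1
    have e2 : (∑ i ∈ Finset.range p, D.U 1 ^ i) • act K M (D.U 1 - 1) m = 0 := by
      change _ • (D.U 1 - 1) • m = 0
      rw [← mul_smul, geom_sum_mul, ← Un, ZMod.natCast_self, zero_mul, D.U0, sub_self, zero_smul]
    rw [Finset.sum_smul, Finset.sum_congr rfl fun i _ => pw e1 i, Finset.sum_const, Finset.card_range,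
      ← Nat.cast_smul_eq_nsmul K] at e2
    exact (smul_eq_zero.1 e2).resolve_left p0
  have inj2 : ∀ a b : ZMod p, a ≠ b → ∀ m ∈ V, D.U a • m - D.U b • m = 0 → m = 0 := fun a b n m h e =>
    inj (a - b) (sub_ne_zero.2 n) m h (by
      rw [sub_eq_neg_add, D.Uadd, mul_smul, sub_eq_zero.1 e, ← mul_smul, ← D.Uadd, neg_add_cancel, D.U0, one_smul])
  have pw : ∀ i j : ℕ, i < 10 → j < 10 → (ν : ZMod p) ^ i = ν ^ j → i = j := fun i j a b e =>
    pow_injOn_Iio_orderOf (x := ν) (by rw [hν]; show i < _; omega) (by rw [hν]; show j < _; omega)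
      (Units.ext (by simpa using e))
  let c : ℕ → ZMod p := fun t => (((ν⁻¹ : (ZMod p)ˣ) : ZMod p) ^ 2) ^ t
  have cs : ∀ t i : ℕ, D.H ν⁻¹ * D.U (c t) ^ i = D.U (c (t + 1)) ^ i * D.H ν⁻¹ := fun t i => by
    rw [← Un, ← Un, D.HU]
    congr 2
    simp only [c]
    ring
  set F := LinearMap.ker (act K M (D.Y ν)) ⊓ V
  have key : ∀ f : Fin 5 → F, ∀ t, ∑ i : Fin 5, D.U (c t) ^ (i : ℕ) • (f i : M) = 0 →
      ∑ i : Fin 5, D.U (c (t + 1)) ^ (i : ℕ) • (f i : M) = 0 := fun f t h => by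
    refine inj2 (-(ν : ZMod p)) ((ν⁻¹ : (ZMod p)ˣ) : ZMod p) (fun e => ?_) _
      (V.sum_mem fun i _ => uv _ _ _ (f i).2.2) ?_
    · have : (ν : ZMod p) ^ 2 = -1 := by
        linear_combination -(ν : ZMod p) * e - Units.mul_inv ν
      exact absurd (pw 4 0 (by omega) (by omega) (by rw [show 4 = 2 * 2 from rfl, pow_mul, this]; simp)) (by omega)
    have cm : ∀ a b (i : ℕ) (m : M), D.U a • D.U b ^ i • m = D.U b ^ i • D.U a • m := fun a b i m => by
      rw [← Un, ← mul_smul, D.Ucomm, mul_smul]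
    have y : ∀ i, D.U (-(ν : ZMod p)) • (f i : M) - D.U ((ν⁻¹ : (ZMod p)ˣ) : ZMod p) • (f i : M) =
        D.H ν⁻¹ • (D.U (-1) • (f i : M) - D.U ((ν : ZMod p) ^ 2) • (f i : M)) := fun i => by
      have : D.Y ν • (f i : M) = 0 := (f i).2.1
      simp only [Dat.Y, sub_smul, mul_smul, add_smul, hz, ← sub_eq_add_neg] at this
      exact (sub_eq_zero.1 this).symm
    have := congrArg (fun m => D.H ν⁻¹ • (D.U (-1) • m - D.U ((ν : ZMod p) ^ 2) • m)) h
    simp only [smul_zero, sub_zero] at this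
    rw [← this]
    simp only [Finset.smul_sum, ← Finset.sum_sub_distrib]
    refine Finset.sum_congr rfl fun i _ => ?_
    rw [cm, cm, ← smul_sub, y, cm, cm, ← smul_sub, ← mul_smul, ← cs, mul_smul]
  let L : (Fin 5 → F) →ₗ[K] M := ∑ i : Fin 5, act K M (D.U (c 0) ^ (i : ℕ)) ∘ₗ F.subtype ∘ₗ LinearMap.proj i
  have hL : ∀ f, L f = ∑ i : Fin 5, D.U (c 0) ^ (i : ℕ) • (f i : M) := fun f => by
    simp only [L, LinearMap.sum_apply]; rfl
  have := LinearMap.finrank_le_finrank_of_injective (f := L.codRestrict V fun f =>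
    hL f ▸ V.sum_mem fun i _ => uv _ _ _ (f i).2.2) ((injective_iff_map_eq_zero _).2 fun f h => by
      have h0 : ∀ t, ∑ i : Fin 5, D.U (c t) ^ (i : ℕ) • (f i : M) = 0 := fun t => by
        induction t with
        | zero => exact hL f ▸ congrArg Subtype.val h
        | succ t ih => exact key f t ih
      refine funext fun k => Subtype.ext (vdm φ V iv (fun t : Fin 5 => X ^ (c t).val) (fun i j n m hm e => ?_)
        (fun i => f i) (fun i => (f i).2.2) (fun t => by simp only [φX, h0]) k)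
      refine inj2 (c i) (c j) (fun k => n (Fin.ext ?_)) m hm ?_
      · simp only [c, ← pow_mul, Units.val_inv_eq_inv_val, inv_pow, inv_inj] at k
        have := pw _ _ (by omega) (by omega) k
        omega
      · have a := φX (c i) 1 m
        have b := φX (c j) 1 m
        simp only [pow_one] at a b
        rwa [map_sub, LinearMap.sub_apply, a, b] at e)
  rwa [finrank_pi_fintype, Finset.sum_const, Finset.card_univ, Fintype.card_fin, smul_eq_mul] at this

end H27.FY
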