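/-
The group `B₂(F)`: centralizers of involutions and of unipotent subgroups in the automorphism group.
-/
import Cfsg.Agent.H27.W2

set_option autoImplicit false
set_option linter.unusedSectionVars false
set_option maxRecDepth 100000

namespace H27.S4
open Cfsg Subgroup H14 Cfsg.Lie
open H28.CY hiding aa h2
open H19 hiding PG
open H1.YG (Big h2 aa ng add0 sqadd ex_n four_le ex_sqrt sq_inj)

variable {F : Type} [Field F] [Big F] {r s : I} {c d t u v w t' u' v' w' : F} {g k x : Γ F} {m l m' l' : Fˣ} {σ τ : F ≃+* F}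
  {α β : MulAut (Γ F)} {H : Subgroup (Γ F)}

theorem w1 : ∃ w : F, w ≠ 0 ∧ w + 1 ≠ 0 ∧ w ^ 2 + 1 ≠ 0 := by
  obtain ⟨w, a, b⟩ := Big.ex (F := F)
  exact ⟨w, a, mt add0.1 b, fun h => b (sq_inj (by rw [add0.1 h, one_pow]))⟩
theorem exl : ∃ l : Fˣ, (l : F) + 1 ≠ 0 ∧ (l : F) ^ 2 + 1 ≠ 0 := let ⟨w, a, b⟩ := w1 (F := F); ⟨Units.mk0 w a, b⟩
theorem sqU (h : c ≠ 0) : ∃ l : Fˣ, (l : F) ^ 2 = c := by
  obtain ⟨e, rfl⟩ := ex_sqrt c
  exact ⟨Units.mk0 e fun k => h (by simp [k]), rfl⟩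
theorem ex_hh (hc : c ≠ 0) (hd : d ≠ 0) : ∃ l m : Fˣ, (l : F) * m = c ∧ (l : F) ^ 2 = d := by
  obtain ⟨l, e⟩ := sqU hd
  exact ⟨l, l⁻¹ * Units.mk0 c hc, by simp, e⟩
theorem cj2 {G : Type*} [Group G] (a b x : G) : a * b * x * (a * b)⁻¹ = a * (b * x * b⁻¹) * a⁻¹ := by group

/-! ### graph and field automorphisms on the torus -/

/-- the action of a field automorphism on the units -/
def uσ (σ : F ≃+* F) (l : Fˣ) : Fˣ := Units.map σ.toRingHom.toMonoidHom l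
theorem uσ_val (σ : F ≃+* F) (l : Fˣ) : (uσ σ l : F) = σ l := rfl
theorem φ_hh (σ : F ≃+* F) (l m : Fˣ) : φ σ (hh l m) = hh (uσ σ l) (uσ σ m) := ext_conj fun r => by
  rw [hh_conj, uσ, uσ, ← map_zpow, ← map_zpow, ← map_mul, ← map_one σ, ← φ_X, ← map_inv, ← map_mul, ← map_mul, hh_conj, φ_X, map_mul]
  rfl
theorem φ_na (σ : F ≃+* F) : φ σ (na F) = na F := by simp only [na_def, map_mul, φ_X, map_one]
theorem φ_nb (σ : F ≃+* F) : φ σ (nb F) = nb F := by simp only [nb_def, map_mul, φ_X, map_one]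
theorem γ_na : γ F (na F) = nb F := by simp only [na_def, nb_def, map_mul, γ_X, one_pow]; rfl
theorem γ_nb : γ F (nb F) = na F := by simp only [na_def, nb_def, map_mul, γ_X, one_pow]; rfl
theorem γ_hh (l m : Fˣ) : γ F (hh l m) = hh (l * m) (l * m⁻¹) := ext_conj fun r => by
  have e : X r (1 : F) = γ F (X (ρ r) 1) := by rw [γ_X, one_pow, (by decide : ∀ r, ρ (ρ r) = r)]
  rw [hh_conj, e, ← map_inv, ← map_mul, ← map_mul, hh_conj, γ_X, (by decide : ∀ r, ρ (ρ r) = r), mul_one, mul_one,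
    ← Units.val_pow_eq_pow_val]
  congr 2
  obtain ⟨a, b⟩ := (by decide : ∀ r, ca r + cb r = ca (ρ r) * ex (ρ r) ∧ ca r + -cb r = cb (ρ r) * ex (ρ r)) r
  rw [mul_zpow, mul_zpow, mul_mul_mul_comm, inv_zpow', ← zpow_add, ← zpow_add, a, b, mul_pow, zpow_mul, zpow_mul, zpow_natCast,
    zpow_natCast]
theorem γ5 (t : F) : γ F (X 5 t) = X 4 (t ^ 2) := γ_X ..
theorem γ2 (t : F) : γ F (X 2 t) = X 3 (t ^ 2) := γ_X ..
theorem γ6 (t : F) : γ F (X 6 t) = X 7 (t ^ 2) := γ_X ..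
theorem γ4 (t : F) : γ F (X 4 t) = X 5 t := (γ_X ..).trans (by rw [show ex 4 = 1 from rfl, pow_one]; rfl)
theorem γ3 (t : F) : γ F (X 3 t) = X 2 t := (γ_X ..).trans (by rw [show ex 3 = 1 from rfl, pow_one]; rfl)
theorem γ7 (t : F) : γ F (X 7 t) = X 6 t := (γ_X ..).trans (by rw [show ex 7 = 1 from rfl, pow_one]; rfl)
theorem γZ (v w : F) : γ F (el 0 0 v w) = el 0 0 w (v ^ 2) := by simp [γ_el]

/-! ### centralizers of involutions -/

variable (F) in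
/-- the centralizer of the short root group `X₆` -/
noncomputable def Y1 : Subgroup (Γ F) := U F ⊔ closure (Set.range (X 2))
variable (F) in
/-- the centralizer of the long root group `X₇` -/
noncomputable def Y2 : Subgroup (Γ F) := U F ⊔ closure (Set.range (X 3))
theorem UY1 : U F ≤ Y1 F := le_sup_left
theorem UY2 : U F ≤ Y2 F := le_sup_left
theorem X2Y (t : F) : X 2 t ∈ Y1 F := mem_sup_right (subset_closure ⟨t, rfl⟩)
theorem X3Y (t : F) : X 3 t ∈ Y2 F := mem_sup_right (subset_closure ⟨t, rfl⟩)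
theorem Y1_le (h : ∀ r : I, 4 ≤ r.val → ∀ t, X r t ∈ H) (h' : ∀ t, X 2 t ∈ H) : Y1 F ≤ H :=
  sup_le (U_le h) ((closure_le _).2 (by rintro _ ⟨t, rfl⟩; exact h' t))
theorem Y2_le (h : ∀ r : I, 4 ≤ r.val → ∀ t, X r t ∈ H) (h' : ∀ t, X 3 t ∈ H) : Y2 F ≤ H :=
  sup_le (U_le h) ((closure_le _).2 (by rintro _ ⟨t, rfl⟩; exact h' t))
theorem Y1_6 (hg : g ∈ Y1 F) (u : F) : g * X 6 u = X 6 u * g := mem_cent1.1 (Y1_le (H := C[X 6 u])
  (fun _ hr t => mem_cent1.2 (U_6 (X_mem_U t hr) u)) (fun t => mem_cent1.2 (comm (by decide +kernel) t u)) hg)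
theorem Y2_7 (hg : g ∈ Y2 F) (u : F) : g * X 7 u = X 7 u * g := mem_cent1.1 (Y2_le (H := C[X 7 u])
  (fun _ hr t => mem_cent1.2 (U_7 (X_mem_U t hr) u)) (fun t => mem_cent1.2 (comm (by decide +kernel) t u)) hg)
theorem naY : na F ∈ Y1 F := na_def (F := F) ▸ mul_mem (mul_mem (UY1 (X_mem_U _)) (X2Y _)) (UY1 (X_mem_U _))
theorem nbY : nb F ∈ Y2 F := nb_def (F := F) ▸ mul_mem (mul_mem (UY2 (X_mem_U _)) (X3Y _)) (UY2 (X_mem_U _))
theorem hY1 (l m : Fˣ) : hh l m ∈ N(Y1 F) := mem_norm_of_cj_le (cj_le_iff.2 (Y1_le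
  (fun _ hr t => mem_cj_inv.2 (UY1 (conj_mem_of_norm (hh_U l m) (X_mem_U t hr)))) fun t => mem_cj_inv.2 (by rw [hh_conj]; exact X2Y _)))
theorem hY2 (l m : Fˣ) : hh l m ∈ N(Y2 F) := mem_norm_of_cj_le (cj_le_iff.2 (Y2_le
  (fun _ hr t => mem_cj_inv.2 (UY2 (conj_mem_of_norm (hh_U l m) (X_mem_U t hr)))) fun t => mem_cj_inv.2 (by rw [hh_conj]; exact X3Y _)))
theorem γY1 (h : g ∈ Y1 F) : γ F g ∈ Y2 F := Y1_le (H := (Y2 F).comap (γ F).toMonoidHom)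
  (fun _ hr t => UY2 (γ_U (X_mem_U t hr))) (fun t => show γ F _ ∈ _ from γ2 t ▸ X3Y _) h
theorem γY2 (h : g ∈ Y2 F) : γ F g ∈ Y1 F := Y2_le (H := (Y1 F).comap (γ F).toMonoidHom)
  (fun _ hr t => UY1 (γ_U (X_mem_U t hr))) (fun t => show γ F _ ∈ _ from γ3 t ▸ X2Y _) h
theorem φY1 (h : g ∈ Y1 F) : φ σ g ∈ Y1 F := Y1_le (H := (Y1 F).comap (φ σ).toMonoidHom)
  (fun _ hr t => UY1 (φ_U (X_mem_U t hr))) (fun t => show φ σ _ ∈ _ from φ_X σ 2 t ▸ X2Y _) h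
theorem cardY : #(Y1 F) = #(Y2 F) := le_antisymm
  (Nat.card_le_card_of_injective (fun x : Y1 F => (⟨_, γY1 x.2⟩ : Y2 F)) fun _ _ e => Subtype.ext ((γ F).injective (congrArg Subtype.val e)))
  (Nat.card_le_card_of_injective (fun x : Y2 F => (⟨_, γY2 x.2⟩ : Y1 F)) fun _ _ e => Subtype.ext ((γ F).injective (congrArg Subtype.val e)))
theorem cent6 (hc : c ≠ 0) : C[X 6 c] = Y1 F := by
  refine le_antisymm ?_ fun g hg => mem_cent1.2 (Y1_6 hg c)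
  have := St.cent_root (sep (F := F)) hmul (a := 6) (i := 1) (B := {r | 4 ≤ r.val ∨ r = 2})
    (fs_single (6 : I) ▸ goodB2.idl two_eq (by decide +kernel)) (by decide +kernel) (fun r h => .inl ((pos_iff r).1 h))
    (by decide +kernel) fun r hr t => comm ((by decide +kernel : ∀ r : I, 4 ≤ r.val ∨ r = 2 → cm r 6 = true) r hr) t 1
  rw [top, top_inf_eq] at this
  rw [← mul_one c, ← one_mul c, show X 6 (1 * c * 1) = _ from (hh6 1 (Units.mk0 c hc) 1).symm, ← cj_cent1, ← cj_of_mem_norm (hY1 1 _)]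
  refine cj_mono _ (this.le.trans (PreSt.U_le.2 ?_))
  rintro r (h | rfl) t
  exacts [UY1 (X_mem_U t h), X2Y t]
theorem cent7 (hc : c ≠ 0) : C[X 7 c] = Y2 F := by
  refine le_antisymm (fun g hg => ?_) fun g hg => mem_cent1.2 (Y2_7 hg c)
  obtain ⟨g, rfl⟩ := (γ F).surjective g
  obtain ⟨e, rfl⟩ := ex_sqrt c
  refine γY1 (cent6 (c := e) (fun k => hc (by simp [k])) ▸ mem_cent1.2 ((γ F).injective ?_))
  rw [map_mul, map_mul, γ6, mem_cent1.1 hg]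
theorem U_Z (hg : g ∈ U F) (v w : F) : g * el 0 0 v w = el 0 0 v w * g := by
  obtain ⟨_, _, _, _, rfl⟩ := mem_U.1 hg; simp [el_mul, add_comm]
theorem elZ (v w : F) : el 0 0 v w = X 6 v * X 7 w := by simp [el, X_zero]
theorem cent67 (hc : c ≠ 0) (hd : d ≠ 0) : C[el 0 0 c d] = U F := by
  refine le_antisymm ?_ fun g hg => mem_cent1.2 (U_Z hg c d)
  have := St.cent_eq (sep (F := F)) hmul (A := fs [6, 7]) (L := {6, 7}) (J := fs []) (B := {r | goodB2.R.pos r}) (v := X 6 1 * X 7 1)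
    (goodB2.idl two_eq (by decide +kernel)) (by rintro _ (rfl | rfl) <;> decide)
    (by rintro _ (rfl | rfl) <;> exact fs_diff _ _ ▸ goodB2.idl two_eq (by decide +kernel)) (by
      rintro _ (rfl | rfl)
      · exact ⟨_, PreSt.x_mem_U (by decide) 1, rfl⟩
      · exact ⟨_, PreSt.x_mem_U (by decide) 1, comm (by decide +kernel) _ _⟩) (fun w hw e => by
      have : ∀ a ∈ fs [6, 7], ∀ s ∈ fs [6, 7], goodB2.R.d s = goodB2.R.d a → s = a := by decide +kernel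
      exact goodB2.R.mem_WJ_of_fix (r := 7) (by decide +kernel) (by decide +kernel)
        (goodB2.R.mem_WJ_of_fix (J' := fs [0]) (by decide +kernel) (by decide +kernel) hw
          (this 6 (by decide) _ (e 6 (by simp)) (RootSys.Aut.d_eq (goodB2.R.W_le_Aut hw) _)))
        (this _ (by decide) _ (e 7 (by simp)) (RootSys.Aut.d_eq (goodB2.R.W_le_Aut hw) _))) (fun c e j _ => by
      rcases (by decide : ∀ i : Fin chevB2.rank, i = 0 ∨ i = 1) j with rfl | rfl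
      · have := e 7 (by simp)
        rw [show (Finset.univ : Finset (Fin chevB2.rank)) = {0, 1} by decide, Finset.prod_pair (by decide),
          show goodB2.R.wt 7 0 = 2 by decide +kernel, show goodB2.R.wt 7 1 = 0 by decide +kernel] at this
        exact Units.ext (sq_inj (by simpa [zpow_ofNat] using congrArg Units.val this))
      · rw [← St.prod_single (R := goodB2.R) (a := 6) (by decide +kernel) c, e 6 (by simp)]) (by decide +kernel)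
    (fun r hr t => elZ (F := F) 1 1 ▸ U_Z (PreSt.x_mem_U hr t) 1 1) fun u hu _ => PreSt.U_mono (fun _ h => h.1) hu
  rw [top, top_inf_eq, ← elZ] at this
  obtain ⟨l, m, rfl, rfl⟩ := ex_hh hc hd
  have e := hh_el l m 0 0 1 1
  simp only [mul_zero, mul_one] at e
  rw [← e, ← cj_cent1, ← cj_of_mem_norm (hh_U l m)]
  exact cj_mono _ this.le
theorem bruhat2 (hg : g ∈ Y2 F) : ∃ u ∈ U F, ∃ m, g = u * hh 1 m ∨ ∃ s, g = u * hh 1 m * nb F * X 4 s := by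
  have P : g ∈ (S F).P {1} := Y2_le (fun r hr t => St.B_le_P _ (PreSt.U_le_B (X_mem_U t hr))) (fun t => St.U_inJ_le_P _ (PreSt.x_mem_U (by
    intro j hj
    obtain rfl : j = 0 := (by decide : ∀ j : Fin 2, j ≠ 1 → j = 0) j hj
    decide +kernel) t)) hg
  have f : ∀ l m : Fˣ, hh l m ∈ Y2 F → l = 1 := fun l m h => Units.ext (sq_inj (by
    simpa using X_inj ((hh7 l m 1).symm.trans (mul_inv_eq_iff_eq_mul.2 (Y2_7 h 1)))))
  obtain ⟨w, hw, hc⟩ := St.mem_P_iff.1 P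
  have s0 : goodB2.R.sr 1 = goodB2.R.refl 4 := by rw [RootSys.sr, s1]
  rw [RootSys.WJ, Set.image_singleton, ← zpowers_eq_closure, s0] at hw
  rcases (mem_zp (Equiv.ext fun r => RootSys.refl_refl ..)).1 hw with rfl | rfl
  · obtain ⟨u, hu, i, j, rfl⟩ := mem_B (St.cell_one_iff.1 hc)
    obtain rfl := f i j ((mul_mem_cancel_left (UY2 hu)).1 hg)
    exact ⟨u, hu, j, .inl rfl⟩
  · obtain ⟨b, hb, v, hv, rfl⟩ := hc.canonical (PreSt.n_mem_NW 4 one_ne_zero)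
    obtain ⟨u, hu, i, j, rfl⟩ := mem_B hb
    rw [show {r | goodB2.R.pos r ∧ ¬ goodB2.R.pos (goodB2.R.refl 4 r)} = {4} from Set.ext fun r => by
      rw [Set.mem_ofPred_eq, refl4, pos_iff, pos_iff]; revert r; decide] at hv
    obtain ⟨s, rfl⟩ := PreSt.mem_U_singleton.1 hv
    obtain rfl := f i j ((mul_mem_cancel_left (UY2 hu)).1 ((mul_mem_cancel_right nbY).1
      ((mul_mem_cancel_right (UY2 (X_mem_U (r := 4) s))).1 hg)))
    exact ⟨u, hu, j, .inr ⟨s, rfl⟩⟩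
theorem B_el (hu : x ∈ U F) (l m : Fˣ) (v w : F) :
    x * hh l m * el 0 0 v w * (x * hh l m)⁻¹ = el 0 0 (l * m * v) (l ^ 2 * w) := by
  rw [cj2, hh_el, mul_zero, mul_zero, U_Z hu, mul_inv_cancel_right]
theorem sep67 (h : k * X 6 c * k⁻¹ = X 7 d) : c = 0 := by
  obtain ⟨n, hn, e⟩ := burn syl_U (x := X 6 c) (g := k) (mem_cent.2 fun y hy => U_6 hy c) (h ▸ mem_cent.2 fun y hy => U_7 hy d)
  obtain ⟨u, hu, l, m, rfl⟩ := nU hn
  rw [h, el6, el7, B_el hu] at e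
  simpa using (el_inj e).2.2.1
theorem inv_Z (h : g * g = 1) : ∃ k v w, k * g * k⁻¹ = el 0 0 v w := by
  obtain ⟨y, -, hy⟩ := syl_U.scj_le le_top (piG_zpowers.2 (two_of_sq h))
  obtain ⟨t, u, v, w, e⟩ := mem_U.1 (hy (conj_mem_cj.2 (mem_zpowers g)))
  have : t * u = 0 := (el_one.1 ((el_sq ..).symm.trans (by rw [← e, conj_mul, h]; simp))).2.2.1
  by_cases t0 : t = 0
  · by_cases u0 : u = 0
    · exact ⟨y, v, w, by rw [e, t0, u0]⟩
    obtain ⟨a, ha⟩ := ex_sqrt (w / u)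
    refine ⟨na F * (el a 0 0 0 * y), v + a * u, u, ?_⟩
    rw [cj2, cj2, e, el_cj, t0, ha]
    simp [el, X_zero, u0, aa, ← conj_mul, na_conj, sa, comm (r := 7) (s := 6)]
  · refine ⟨nb F * (el 0 (v / t) 0 0 * y), t, w + t * v, ?_⟩
    rw [cj2, cj2, e, el_cj, (mul_eq_zero.1 this).resolve_left t0, mul_div_cancel₀ _ t0, pow_two t, mul_assoc t, mul_div_cancel₀ _ t0]
    simp [el, X_zero, aa, ← conj_mul, nb_conj, sb]
theorem X3_U (h : X 3 c ∈ U F) : c = 0 := by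
  have := congrArg (fun x => nb F * x * (nb F)⁻¹) (U_6 h 1)
  simp only [← conj_mul, nb_conj] at this
  rw [show X (sb 6) (1 : F) = _ from el5 1, show X (sb 3) c = _ from el4 c, el_mul, el_mul] at this
  simpa using (el_inj this).2.2.1
theorem hh_odd (l m : Fˣ) : PiE {2}ᶜ (hh l m) := by
  have o : ∀ l : Fˣ, l ^ (Nat.card F - 1) = 1 := fun l => by rw [← Nat.card_units, pow_card_eq_one']
  refine PiN.dvd (PiN.of_not_dvd ?_) (orderOf_dvd_of_pow_eq_one (n := Nat.card F - 1) (by rw [hh_pow, o, o, hh_one]))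
  rw [← even_iff_two_dvd, Nat.not_even_iff_odd]
  exact Nat.Even.sub_odd Nat.card_pos (ev F) odd_one
theorem B_two (hu : x ∈ U F) (h : PiE {2} (x * hh l m)) : x * hh l m ∈ U F :=
  syl_U.mem_of_norm (mem_top _) h (mul_mem (le_normalizer hu) (hh_U l m))
theorem hh_U1 (h : hh l m ∈ U F) : l = 1 ∧ m = 1 := by
  have := el_inj ((hh_el l m 0 0 1 1).symm.trans (mul_inv_eq_iff_eq_mul.2 (U_Z h 1 1)))
  obtain rfl : l = 1 := Units.ext (sq_inj (by simpa using this.2.2.2))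
  exact ⟨rfl, Units.ext (by simpa using this.2.2.1)⟩

/-! ### perfect subgroups -/

theorem cm_mem {G : Type*} [Group G] {D : Subgroup G} {a b c : G} (ha : a ∈ D) (hb : b ∈ D) (e : a * b * a⁻¹ * b⁻¹ = c) :
    c ∈ ⁅D, D⁆ := e ▸ commutator_mem_commutator ha hb
theorem hT0 (l : Fˣ) : hh l l⁻¹ ∈ Y1 F := cent6 (F := F) one_ne_zero ▸ mem_cent1.2 (mul_inv_eq_iff_eq_mul.1 (by simp [hh6]))
theorem hT2 (m : Fˣ) : hh 1 m ∈ Y2 F := cent7 (F := F) one_ne_zero ▸ mem_cent1.2 (mul_inv_eq_iff_eq_mul.1 (by simp [hh7]))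
theorem Y1_perf : Y1 F ≤ ⁅Y1 F, Y1 F⁆ := by
  obtain ⟨l, -, h⟩ := exl (F := F)
  have f : ∀ r : I, (∀ t, X r t ∈ Y1 F) → ((l ^ ca r * l⁻¹ ^ cb r : Fˣ) : F) + 1 ≠ 0 → ∀ t, X r t ∈ ⁅Y1 F, Y1 F⁆ := fun r hr e t =>
    cm_mem (hT0 l) (hr (t / (((l ^ ca r * l⁻¹ ^ cb r : Fˣ) : F) + 1))) (by
      rw [hh_conj, X_inv, X_add, ← add_one_mul, mul_div_cancel₀ _ e])
  have h' : ((l : F) ^ 2)⁻¹ + 1 ≠ 0 := fun k => h (by rw [inv_eq_one.1 (add0.1 k), aa])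
  have f5 := f 5 (fun _ => UY1 (X_mem_U _)) (by simpa [ca, cb, pow_two] using h)
  have f4 := f 4 (fun _ => UY1 (X_mem_U _)) (by simpa [ca, cb, zpow_ofNat] using h')
  have f7 := f 7 (fun _ => UY1 (X_mem_U _)) (by simpa [ca, cb, zpow_ofNat] using h)
  refine Y1_le (fun r hr t => ?_) (f 2 X2Y (by simpa [ca, cb, pow_two] using h'))
  rcases (by decide : ∀ r : I, 4 ≤ r.val → r = 4 ∨ r = 5 ∨ r = 6 ∨ r = 7) r hr with rfl | rfl | rfl | rfl
  exacts [f4 t, f5 t, (mul_mem_cancel_right (f7 t)).1 (cm_mem (UY1 (el_U 1 0 0 0)) (UY1 (el_U 0 t 0 0)) (by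
    rw [el_cj, el_inv, el_mul, ← elZ]; simp [aa])), f7 t]
theorem Y1_gen (h : ∀ s ∈ Y1 F, s * s = 1 → s ∈ H) : Y1 F ≤ H :=
  Y1_le (fun _ hr t => h _ (UY1 (X_mem_U t hr)) (X_sq ..)) fun t => h _ (X2Y t) (X_sq ..)
theorem perfect : commutator (Γ F) = ⊤ := ((simple F).1.eq_bot_or_eq_top_of_normal _ inferInstance).resolve_left fun e =>
  (simple F).2 ⟨⟨fun a b => commutatorElement_eq_one_iff_mul_comm.1 (mem_bot.1 (e.le (commutator_mem_commutator trivial trivial)))⟩⟩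

/-! ### centralizers in the automorphism group -/

theorem autU (h : ∀ x ∈ U F, α x ∈ U F) : ∃ u ∈ U F, ∃ l m σ, (∀ x, α x = u * hh l m * φ σ x * (u * hh l m)⁻¹) ∨
    ∀ x, α x = u * hh l m * γ F (φ σ x) * (u * hh l m)⁻¹ := by
  obtain ⟨g, β, hβ, rfl⟩ := aut α
  obtain ⟨u, hu, l, m, rfl⟩ := nU (g := g) (mem_norm_of fun x hx => by simpa using h _ (Φ_U (inv_mem hβ) hx))
  obtain ⟨σ, rfl | rfl⟩ := hβ
  exacts [⟨u, hu, l, m, σ, .inl fun _ => rfl⟩, ⟨u, hu, l, m, σ, .inr fun _ => rfl⟩]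
theorem σ1 (h : ∀ v, c * σ v = v) : σ = 1 ∧ c = 1 := by
  obtain rfl : c = 1 := by simpa using h 1
  exact ⟨RingEquiv.ext fun v => by simpa using h v, rfl⟩
theorem elZ_mul (v w v' w' : F) : el 0 0 v w * el 0 0 v' w' = el 0 0 (v + v') (w + w') := by simp [el_mul]
/-- an automorphism normalizing `U` and centralizing a subgroup of index at most two of `Z(U)` is inner -/
theorem fx (h : ∀ x ∈ U F, α x ∈ U F) (f : ∀ v w v' w', α (el 0 0 v w) = el 0 0 v w ∨ α (el 0 0 v' w') = el 0 0 v' w' ∨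
    α (el 0 0 (v + v') (w + w')) = el 0 0 (v + v') (w + w')) : ∃ k, ∀ x, α x = k * x * k⁻¹ := by
  obtain ⟨u, hu, l, m, σ, p | p⟩ := autU h <;> simp only [p, φ_el, map_zero, γZ, B_el hu, el_iff, true_and] at f
  · obtain rfl : σ = 1 := by
      by_contra k
      obtain ⟨v, hv⟩ := not_forall.1 fun e => k (σ1 (c := (l : F) * m) e).1
      obtain ⟨w, hw⟩ := not_forall.1 fun e => k (σ1 (c := (l : F) ^ 2) e).1
      simpa [hv, hw] using f v 0 0 w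
    exact ⟨_, fun x => by rw [p, φ_one]; rfl⟩
  · obtain ⟨w, a, b, -⟩ := w1 (F := F)
    simpa [a, b, eq_comm (a := (0 : F))] using f w 0 1 0
theorem cjC (e : α x = g) : ∀ y ∈ C[x], α y ∈ C[g] := fun y hy => mem_cent1.2 (by rw [← e, ← map_mul, ← map_mul, mem_cent1.1 hy])
theorem cZ' (h : ∀ x ∈ U F, α x ∈ U F) (h7 : ∀ w, α (X 7 w) = X 7 w) (h6 : ∃ e, α (X 6 1) = el 0 0 1 e) :
    ∃ t u v w, ∀ x, α x = el t u v w * x * (el t u v w)⁻¹ := by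
  obtain ⟨e, h6⟩ := h6
  obtain ⟨u, hu, l, m, σ, p | p⟩ := autU h <;> simp only [p, el6, el7, φ_el, map_zero, map_one, γZ, B_el hu, el_iff, true_and] at h6 h7
  · obtain ⟨rfl, k⟩ := σ1 fun w => (h7 w).2
    obtain rfl : l = 1 := Units.ext (sq_inj (by simpa using k))
    obtain rfl : m = 1 := Units.ext (by simpa using h6.1)
    obtain ⟨t, u, v, w, rfl⟩ := mem_U.1 hu
    exact ⟨t, u, v, w, fun x => by rw [p, φ_one, hh_one, mul_one]; rfl⟩
  · simp at h6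
theorem cZ (h6 : ∀ v, α (X 6 v) = X 6 v) (h7 : ∀ w, α (X 7 w) = X 7 w) : ∃ t u v w, ∀ x, α x = el t u v w * x * (el t u v w)⁻¹ :=
  cZ' (by simpa only [cent67 (F := F) one_ne_zero one_ne_zero] using cjC (α := α) (x := el 0 0 1 1) (g := el 0 0 1 1) (by
    rw [elZ, map_mul, h6, h7])) h7 ⟨0, (h6 1).trans (el6 1)⟩
theorem cA1 (h4 : ∀ u, α (X 4 u) = X 4 u) (h6 : ∀ v, α (X 6 v) = X 6 v) (h7 : ∀ w, α (X 7 w) = X 7 w) :
    ∃ u v w, ∀ x, α x = el 0 u v w * x * (el 0 u v w)⁻¹ := by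
  obtain ⟨t, u, v, w, p⟩ := cZ h6 h7
  have k := h4 1
  rw [p, el4, el_cj] at k
  obtain rfl : t = 0 := by simpa using (el_inj k).2.2.1
  exact ⟨u, v, w, p⟩
theorem cU (h5 : ∀ u, α (X 5 u) = X 5 u) (h4 : ∀ u, α (X 4 u) = X 4 u) (h6 : ∀ v, α (X 6 v) = X 6 v) (h7 : ∀ w, α (X 7 w) = X 7 w) :
    ∃ v w, ∀ x, α x = el 0 0 v w * x * (el 0 0 v w)⁻¹ := by
  obtain ⟨u, v, w, p⟩ := cA1 h4 h6 h7
  have k := h5 1
  rw [p, el5, el_cj] at k
  obtain rfl : u = 0 := by simpa using (el_inj k).2.2.1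
  exact ⟨v, w, p⟩
theorem el_hh (h : el t u v w * hh l m * (el t u v w)⁻¹ = hh l m) : el (l * m⁻¹ * t) (m ^ 2 * u) (l * m * v) (l ^ 2 * w) = el t u v w := by
  rw [← hh_el, ← mul_inv_eq_iff_eq_mul.1 h, mul_inv_cancel_right]
theorem fix0 (h : c * d = d) (hc : c + 1 ≠ 0) : d = 0 := (mul_eq_zero.1 (by rw [add_one_mul, h, aa])).resolve_left hc
theorem cA1T (h4 : ∀ u, α (X 4 u) = X 4 u) (h6 : ∀ v, α (X 6 v) = X 6 v) (h7 : ∀ w, α (X 7 w) = X 7 w)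
    (hl : (l : F) ^ 2 + 1 ≠ 0) (hT : α (hh l l⁻¹) = hh l l⁻¹) : ∃ v, ∀ x, α x = X 6 v * x * (X 6 v)⁻¹ := by
  obtain ⟨u, v, w, p⟩ := cA1 h4 h6 h7
  obtain ⟨-, a, -, b⟩ := el_inj (el_hh ((p _).symm.trans hT))
  obtain rfl := fix0 b hl
  obtain rfl := fix0 a fun k => hl (by simpa [add0] using k)
  exact ⟨v, by simpa only [el6] using p⟩
theorem cQ2 (h5 : ∀ u, ∃ e, α (X 5 u) = X 5 u * X 7 e) (h6 : ∀ v, ∃ e, α (X 6 v) = X 6 v * X 7 e) (h7 : ∀ w, α (X 7 w) = X 7 w) :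
    ∃ t v w, ∀ x, α x = el t 0 v w * x * (el t 0 v w)⁻¹ := by
  obtain ⟨e, p⟩ := h6 1
  obtain ⟨w, w0, we⟩ : ∃ w : F, w ≠ 0 ∧ e + w ≠ 0 := by
    obtain ⟨w, a, b, -⟩ := w1 (F := F)
    by_cases k : e = 1
    exacts [⟨w, a, by rwa [k, add_comm]⟩, ⟨1, one_ne_zero, mt add0.1 k⟩]
  obtain ⟨t, u, v, w, p⟩ := cZ' (by simpa only [cent67 (F := F) one_ne_zero w0, cent67 (F := F) one_ne_zero we] using (cjC (α := α)
    (x := el 0 0 1 w) (g := el 0 0 1 (e + w)) (by rw [elZ, map_mul, p, h7, mul_assoc, X_add, elZ]))) h7 ⟨e, p.trans (elZ ..).symm⟩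
  obtain ⟨e, k⟩ := h5 1
  rw [p, el5, el7, el_cj, el_mul] at k
  obtain rfl : u = 0 := by simpa using (el_inj k).2.2.1
  exact ⟨t, v, w, p⟩
theorem cZT (h7 : ∀ w, α (X 7 w) = X 7 w) (hm : (m : F) + 1 ≠ 0) (hT : α (hh 1 m) = hh 1 m) :
    ∃ w m', ∀ x, α x = X 7 w * hh 1 m' * x * (X 7 w * hh 1 m')⁻¹ := by
  obtain ⟨g, β, ⟨σ, rfl | rfl⟩, rfl⟩ := aut α <;> simp only [MulAut.mul_apply, MulAut.conj_apply, φ_X, γ7] at h7 hT ⊢
  swap
  · simpa using sep67 (h7 1)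
  have hg : g ∈ Y2 F := cent7 (F := F) one_ne_zero ▸ mem_cent1.2 (mul_inv_eq_iff_eq_mul.1 (by simpa using h7 1))
  obtain rfl : σ = 1 := RingEquiv.ext fun w => X_inj (r := 7) (by rw [← mul_inv_cancel_right (X 7 (σ w)) g, ← Y2_7 hg, h7]; rfl)
  have m2 : (m : F) ^ 2 + 1 ≠ 0 := fun k => hm (sq_inj (by rw [sqadd, one_pow, k, zero_pow two_ne_zero]))
  simp only [φ_one, MulAut.one_apply] at hT ⊢
  obtain ⟨u, hu, j, rfl | ⟨s, rfl⟩⟩ := bruhat2 hg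
  · obtain ⟨t, u, v, w, rfl⟩ := mem_U.1 hu
    rw [cj2, hh_comm, mul_inv_cancel_right] at hT
    obtain ⟨a, b, c, -⟩ := el_inj (el_hh hT)
    obtain rfl := fix0 b m2
    obtain rfl := fix0 c (by simpa using hm)
    obtain rfl := fix0 a fun k => hm (by simpa [add0] using k)
    exact ⟨w, j, by simp only [el7, implies_true]⟩
  · exfalso
    have e : X 4 s * hh 1 m * (X 4 s)⁻¹ = X 4 ((m ^ 2 + 1) * s) * hh 1 m := by
      rw [add_one_mul, add_comm, ← X_add, ← hh4 1 m, X_inv]; group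
    rw [cj2, cj2, e, ← conj_mul (b := nb F), nb_conj, nb_hh, mul_inv_eq_iff_eq_mul, ← eq_inv_mul_iff_mul_eq] at hT
    have B : ∀ {a b : Fˣ}, hh a b ∈ N(U F) := hh_U _ _
    have n := mul_mem (le_normalizer hu) (B (a := 1) (b := j))
    have k : X 3 ((m ^ 2 + 1) * s) ∈ N(U F) := (mul_mem_cancel_right B).1 (hT ▸ mul_mem (inv_mem n) (mul_mem B n))
    rw [show X (sb 4) _ = 1 by rw [X3_U (syl_U.mem_of_norm (mem_top _) (two_of_sq (X_sq ..)) k), X_zero], one_mul,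
      eq_inv_mul_iff_mul_eq, mul_assoc, hh_comm, ← mul_assoc, ← mul_assoc, mul_left_inj] at hT
    have := (mul_mem_cancel_right hu).1 (show hh 1 m * hh 1 m * u ∈ U F by
      rw [mul_assoc, ← hT, show hh 1 m⁻¹ = (hh 1 m)⁻¹ by rw [hh_inv, inv_one], ← mul_assoc]; exact conj_mem_of_norm B hu)
    rw [hh_mul] at this
    exact m2 (by rw [pow_two, ← Units.val_mul, (hh_U1 this).2, Units.val_one, aa])

end H27.S4
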