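/-
Standard subgroups of type `Sp₄(2ⁿ)`: the action of `C(t)` on `L`, the doublings, and the statements of the first steps.
-/
import Cfsg.Agent.H27.W3

set_option autoImplicit false
set_option linter.unusedSectionVars false

namespace H27.S4
open Cfsg Subgroup
open H28.CY hiding aa h2
open H19 hiding PG
open H1.YG (Big h2 aa ng add0 sqadd ex_n four_le ex_sqrt sq_inj)

universe u

section
variable {F : Type} [Field F] [Big F] {G : Type u} [Group G] [Finite G] {e ι : Γ F →* G} {g k t y h : G} {x : Γ F}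
  {D : Subgroup (Γ F)} {α α' : MulAut (Γ F)} {c d : F} {l m : Fˣ}

/-! ### generalities -/

theorem ht (e : g = y * k) (c : k * h = h * k) : g * h * g⁻¹ * h⁻¹ = y * h * y⁻¹ * h⁻¹ := by
  rw [e, cj2, c, mul_inv_cancel_right]
theorem lin {f : F → F} (p : ∀ (l : Fˣ) c, f (l * c) = l * f c) (c : F) : f c = f 1 * c := by
  by_cases c0 : c = 0
  · obtain ⟨l, hl, -⟩ := exl (F := F)
    rw [c0, mul_zero]; exact fix0 (by rw [← p, mul_zero]) hl
  · simpa [mul_comm] using p (Units.mk0 c c0) 1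
theorem wt0 {A : Type*} [AddGroup A] {f : F → A} (a : ∀ c d, f (c + d) = f c + f d) (hl : (l : F) + 1 ≠ 0) (p : ∀ c, f (l * c) = f c)
    (h2 : ∀ c, f c + f c = 0) (c : F) : f c = 0 := by
  rw [← mul_div_cancel₀ c hl, add_one_mul, a, p, h2]
/-- a normal `2`-subgroup containing the fixed points of `t` modulo itself is a Sylow subgroup -/
theorem sylt {Q M : Subgroup G} (tt : t * t = 1) (n : Q ⊴ M) (tM : t ∈ N(M)) (tQ : t ∈ N(Q)) (p : H19.PG 2 Q) (t1 : t ∉ M)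
    (f : ∀ x ∈ M, PiE {2} x → x * t * x⁻¹ * t⁻¹ ∈ Q → x ∈ Q) : ∀ x ∈ M, PiE {2} x → x ∈ Q := by
  have pt := piG_zpowers.2 (two_of_sq tt)
  obtain ⟨S, hS, l⟩ := PiN.exists_syl (p.sup pt (zpowers_le.2 tQ)) (sup_le_sup_right n.1 _)
  have nL := left_normal_sup (zpowers_le.2 tM)
  have s := hS.inf_normal nL
  have ti := inv_eq_of_mul_eq_one_right tt
  have i : ∀ x ∈ Q ⊔ zpowers t, x ∈ M → x ∈ Q := fun x hx hM => by
    obtain ⟨a, ha, b, hb, rfl⟩ := (mem_sup_of_norm (zpowers_le.2 tQ)).1 hx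
    rcases (mem_zp tt).1 hb with rfl | rfl
    exacts [by rwa [mul_one], absurd ((mul_mem_cancel_left (n.1 ha)).1 hM) t1]
  have : S ⊓ M ≤ Q := fun z hz => i z (by_contra fun k => by
    obtain ⟨g, hg, g1⟩ := SetLike.exists_of_lt (hS.pi.lt_norm (lt_of_le_of_ne l fun e => k (e ▸ hz.1)))
    have tq : t ∈ Q ⊔ zpowers t := mem_sup_right (mem_zpowers t)
    have key : ∀ a ∈ M, a ∈ S ⊓ N(Q ⊔ zpowers t) → a ∈ Q ⊔ zpowers t := fun a ha hg => mem_sup_left (f a ha (hS.pi.elt hg.1)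
      (i _ (mul_mem (conj_mem_of_norm hg.2 tq) (inv_mem tq)) (by
        rw [mul_assoc, mul_assoc, ← mul_assoc t]; exact mul_mem ha (conj_mem_of_norm tM (inv_mem ha)))))
    obtain ⟨a, ha, b, hb, rfl⟩ := (mem_sup_of_norm (zpowers_le.2 tM)).1 (hS.le hg.1)
    have hb' : b ∈ Q ⊔ zpowers t := mem_sup_right hb
    exact g1 (mul_mem (key a ha ((mul_mem_cancel_right (mem_inf.2 ⟨l hb', le_normalizer hb'⟩)).1 hg)) hb')) hz.2
  exact fun x hx => (le_antisymm this (le_inf (le_sup_left.trans l) n.1) ▸ s).mem_of_normal n.2 hx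

/-! ### the action on `L` -/

/-- `g` acts on the image of `e` as `α` -/
def Ac (e : Γ F →* G) (g : G) (α : MulAut (Γ F)) : Prop := ∀ x, g * e x * g⁻¹ = e (α x)
/-- `g` acts on the image of `e` as an inner automorphism -/
def In (e : Γ F →* G) (g : G) : Prop := ∃ k, ∀ x, g * e x * g⁻¹ = e (k * x * k⁻¹)

theorem exA (he : Function.Injective e) (hg : g ∈ N(e.range)) : ∃ α, Ac e g α := by
  choose f hf using fun x => conj_mem_of_norm hg (MonoidHom.mem_range.2 ⟨x, rfl⟩)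
  let f' : Γ F →* Γ F := MonoidHom.mk' f fun x y => he (by rw [map_mul, hf, hf, hf, map_mul]; group)
  have i : Function.Injective f' := fun x y h => he (by
    have : e (f x) = e (f y) := congrArg e h
    rwa [hf, hf, mul_left_inj, mul_right_inj] at this)
  exact ⟨MulEquiv.ofBijective f' (Finite.injective_iff_bijective.1 i), fun x => (hf x).symm⟩
theorem Ac.mul (p : Ac e g α) (q : Ac e k α') : Ac e (g * k) (α * α') := fun x => by rw [cj2, q, p]; rfl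
theorem Ac.inv (p : Ac e g α) : Ac e g⁻¹ α⁻¹ := fun x => by
  rw [← MulAut.apply_inv_self _ α x, ← p, MulAut.inv_apply_self]; group
theorem Ac.fix (he : Function.Injective e) (p : Ac e g α) (c : g * e x = e x * g) : α x = x :=
  he (by rw [← p, c, mul_inv_cancel_right])
theorem Ac.inn (p : Ac e g α) (q : (α : Out (Γ F)) = 1) : In e g :=
  let ⟨k, r⟩ := (QuotientGroup.eq_one_iff _).1 q; ⟨k, fun x => by rw [p, ← r]; rfl⟩
theorem Ac.out (he : Function.Injective e) (p : Ac e g α) (q : In e g) : (α : Out (Γ F)) = 1 :=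
  let ⟨k, r⟩ := q; (QuotientGroup.eq_one_iff _).2 ⟨k, MulEquiv.ext fun x => he ((r x).symm.trans (p x))⟩
theorem inn {a : Γ F} (p : ∀ x, g * e x * g⁻¹ = e (a * x * a⁻¹)) : ∃ c ∈ C(e.range), g = e a * c :=
  ⟨(e a)⁻¹ * g, mem_cent.2 (by
    rintro _ ⟨x, rfl⟩
    rw [mul_assoc, mul_inv_eq_iff_eq_mul.1 (p x), map_mul, map_mul, map_inv]; group), by group⟩
theorem In.mul (p : In e g) (q : In e k) : In e (g * k) :=
  let ⟨a, p⟩ := p; let ⟨b, q⟩ := q; ⟨a * b, fun x => by rw [cj2, q, p, cj2]⟩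
theorem In.inv (p : In e g) : In e g⁻¹ := let ⟨a, p⟩ := p; ⟨a⁻¹, fun x => by
  rw [show x = a * (a⁻¹ * x * a) * a⁻¹ by group, ← p]; group⟩
theorem In.self (e : Γ F →* G) (k : Γ F) : In e (e k) := ⟨k, fun x => by simp⟩
theorem In.cent (p : g ∈ C(e.range)) : In e g := ⟨1, fun x => by simp [← mem_cent.1 p _ ⟨x, rfl⟩]⟩
theorem In.der (he : Function.Injective e) {P : Subgroup G} (hP : P ≤ N(e.range)) (hg : g ∈ ⁅P, P⁆) : In e g := by
  let D : Subgroup G := { carrier := {g | In e g}, one_mem' := In.cent (one_mem _), mul_mem' := In.mul, inv_mem' := In.inv }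
  refine (commutator_le.2 fun a ha b hb => ?_ : ⁅P, P⁆ ≤ D) hg
  obtain ⟨σ, p⟩ := exA he (hP ha)
  obtain ⟨τ, q⟩ := exA he (hP hb)
  have := (out F).1
  refine (((p.mul q).mul p.inv).mul q.inv).inn ?_
  simp only [QuotientGroup.mk_mul, QuotientGroup.mk_inv]
  rw [(IsCyclic.commGroup (α := Out (Γ F))).mul_comm (σ : Out (Γ F)) τ]; group
/-- the outer automorphism group has at most one involution -/
theorem In.two (he : Function.Injective e) (hg : g ∈ N(e.range)) (hk : k ∈ N(e.range)) (gg : In e (g * g)) (kk : In e (k * k)) :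
    In e g ∨ In e k ∨ In e (g * k) := by
  classical
  obtain ⟨σ, p⟩ := exA he hg
  obtain ⟨τ, q⟩ := exA he hk
  have a := (p.mul p).out he gg
  have b := (q.mul q).out he kk
  by_contra! n
  have := (out F).1
  have : Finite (Out (Γ F)) := Quotient.finite _
  have := Fintype.ofFinite (Out (Γ F))
  have c := IsCyclic.card_pow_eq_one_le (α := Out (Γ F)) two_pos
  rw [QuotientGroup.mk_mul, ← pow_two] at a b
  exact absurd c (not_le.2 (Finset.two_lt_card_iff.2 ⟨1, (σ : Out (Γ F)), (τ : Out (Γ F)), by simp, by simpa using a, by simpa using b, fun e => n.1 (p.inn e.symm),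
    fun e => n.2.1 (q.inn e.symm), fun e => n.2.2 ((p.mul q).inn (by rw [QuotientGroup.mk_mul, ← e, ← pow_two, a]))⟩))
theorem LK (he : Function.Injective e) (p : e x ∈ C(e.range)) : x = 1 :=
  eq_one fun r => he (by rw [map_mul, map_mul, mem_cent.1 p _ ⟨_, rfl⟩])
theorem ι_cj (a x : Γ F) : ι a * ι x * (ι a)⁻¹ = ι (a * x * a⁻¹) := by simp
theorem map_norm (p : x ∈ N(D)) : ι x ∈ N(D.map ι) := mem_norm_of (by
  rintro _ ⟨y, hy, rfl⟩; exact ⟨_, conj_mem_of_norm p hy, by simp⟩)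
theorem syl_L (ι : Γ F →* G) : Syl 2 ((U F).map ι) ι.range := MonoidHom.range_eq_map ι ▸ syl_U.map ι
theorem ix2 (r : I) (c : F) : ι (X r c) * ι (X r c) = 1 := by rw [← map_mul, X_sq, map_one]
theorem ixa (r : I) (c d : F) : ι (X r c) * ι (X r d) = ι (X r (c + d)) := by rw [← map_mul, X_add]
theorem ixi (r : I) (c : F) : (ι (X r c))⁻¹ = ι (X r c) := by rw [← map_inv, X_inv]
theorem ix0 (r : I) : ι (X r (0 : F)) = 1 := by rw [X_zero, map_one]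
theorem ixc {r s : I} (h : cm r s = true := by decide +kernel) (c d : F) : ι (X r c) * ι (X s d) = ι (X s d) * ι (X r c) := by
  rw [← map_mul, comm h, map_mul]
/-- the conjugate embedding -/
noncomputable def cjh (g : G) (ι : Γ F →* G) : Γ F →* G := (MulAut.conj g).toMonoidHom.comp ι
theorem cjh_ap (g : G) (ι : Γ F →* G) (x : Γ F) : cjh g ι x = g * ι x * g⁻¹ := rfl
theorem cjh_range (g : G) (ι : Γ F →* G) : (cjh g ι).range = cj g ι.range := by rw [cjh, MonoidHom.range_comp, cj_def]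
/-- the embedding twisted by an automorphism -/
noncomputable def tw (ι : Γ F →* G) (α : MulAut (Γ F)) : Γ F →* G := ι.comp α.toMonoidHom
theorem tw_ap (ι : Γ F →* G) (α : MulAut (Γ F)) (x : Γ F) : tw ι α x = ι (α x) := rfl
theorem tw_range (ι : Γ F →* G) (α : MulAut (Γ F)) : (tw ι α).range = ι.range := by
  rw [tw, MonoidHom.range_comp, MonoidHom.range_eq_top.2 α.surjective, ← MonoidHom.range_eq_map]
/-- the elements of odd order of `C(L) ∩ C(t)` -/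
def O1 (ι : Γ F →* G) (t : G) : Set G := {o | o ∈ C(ι.range) ∧ o * t = t * o ∧ PiE {2}ᶜ o}

namespace Hyp
variable (H : Hyp ι t)
include H
theorem tinv : t⁻¹ = t := inv_eq_of_mul_eq_one_right H.tt
theorem tK : t ∈ C(ι.range) := mem_cent.2 (by rintro _ ⟨x, rfl⟩; exact (H.cen x).symm)
theorem LC (x : Γ F) : ι x ∈ C[t] := mem_cent1.2 (H.cen x).symm
theorem tL (x : Γ F) : ι x ≠ t := fun h => H.t1 (by rw [← h, LK (x := x) H.inj (h ▸ H.tK), map_one])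
theorem Kt (h : ι x * k ∈ C[t]) : k * t = t * k := mem_cent1.1 ((mul_mem_cancel_left (H.LC x)).1 h)
theorem tcj (x : Γ F) : ι x * t * (ι x)⁻¹ = t := by rw [← H.cen, mul_inv_cancel_right]
theorem cct (p : y * t * y⁻¹ = t * ι x) (a : Γ F) : ι a * y * (ι a)⁻¹ * t * (ι a * y * (ι a)⁻¹)⁻¹ = t * ι (a * x * a⁻¹) := by
  calc _ = ι a * (y * (ι a⁻¹ * t * (ι a⁻¹)⁻¹) * y⁻¹) * (ι a)⁻¹ := by rw [map_inv]; group
    _ = _ := by rw [H.tcj, p, ← conj_mul, H.tcj, ι_cj]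
theorem ex (hg : g ∈ C[t]) : ∃ α, Ac ι g α := exA H.inj (H.nor hg)
/-- involutions of `L C(L) ∩ C(t)` -/
theorem inv (hg : g ∈ C[t]) (p : In ι g) (gg : g * g = 1) : ∃ x, x * x = 1 ∧ (g = ι x ∨ g = ι x * t) := by
  obtain ⟨x, p⟩ := p
  obtain ⟨k, hk, rfl⟩ := inn p
  have e : ι (x * x) * (k * k) = 1 := by
    rw [← gg, map_mul, mul_assoc, mul_assoc, ← mul_assoc k, ← mem_cent.1 hk _ ⟨x, rfl⟩, mul_assoc]
  have x1 : x * x = 1 := LK H.inj ((eq_inv_of_mul_eq_one_left e).symm ▸ inv_mem (mul_mem hk hk))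
  rw [x1, map_one, one_mul] at e
  exact ⟨x, x1, (H.rk k hk e (H.Kt hg)).imp (fun h => by rw [h, mul_one]) fun h => by rw [h]⟩
/-- perfect subgroups of `C(t)` generated by involutions -/
theorem perf (hD : ∀ x ∈ D, e x ∈ C[t]) (p : D ≤ ⁅D, D⁆) (gn : ∀ M : Subgroup (Γ F), (∀ s ∈ D, s * s = 1 → s ∈ M) → D ≤ M) :
    D.map e ≤ ι.range := by
  have n : zpowers t ≤ C(ι.range) := zpowers_le.2 H.tK
  have hP : D.map e ≤ C[t] := by rintro _ ⟨x, h, rfl⟩; exact hD x h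
  have p' : D.map e ≤ ⁅D.map e, D.map e⁆ := map_commutator D D e ▸ map_mono p
  have : D.map e ≤ ι.range ⊔ zpowers t := map_le_iff_le_comap.2 (gn _ fun s hs ss => by
    obtain ⟨x, -, r | r⟩ := H.inv (hD s hs) (In.der H.inj (hP.trans H.nor) (p' (mem_map_of_mem e hs))) (by rw [← map_mul, ss, map_one])
    exacts [mem_comap.2 (r ▸ mem_sup_left ⟨x, rfl⟩), mem_comap.2 (r ▸ mul_mem_sup ⟨x, rfl⟩ (mem_zpowers t))])
  refine p'.trans ((der_mono this).trans ((der_sup_le (n.trans (cent_le_norm _))).trans (sup_le le_rfl ?_)))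
  rw [comm_iff_der.1 (comm_zpowers t)]; exact bot_le
theorem YL (p : ∀ x ∈ Y1 F, e x ∈ C[t]) : (Y1 F).map e ≤ ι.range := H.perf p Y1_perf fun _ => Y1_gen
theorem conj (g : G) : Hyp (cjh g ι) (g * t * g⁻¹) where
  inj := (MulAut.conj g).injective.comp H.inj
  tt := by rw [conj_mul, H.tt]; simp
  t1 h := H.t1 (by simpa using h)
  cen x := by rw [cjh_ap, conj_mul, conj_mul, H.cen]
  nor := by rw [cjh_range, ← cj_cent1, ← cj_norm]; exact cj_mono g H.nor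
  rk k hk kk kt := by
    rw [cjh_range, ← cj_cent, H19.mem_cj'] at hk
    obtain ⟨k, hk, rfl⟩ := hk
    rw [conj_mul] at kk
    rw [conj_mul, conj_mul, mul_left_inj, mul_right_inj] at kt
    exact (H.rk k hk (by simpa using kk) kt).imp (fun h => by simp [h]) fun h => by rw [h]
theorem tw (α : MulAut (Γ F)) : Hyp (tw ι α) t :=
  ⟨H.inj.comp α.injective, H.tt, H.t1, fun _ => H.cen _, tw_range ι α ▸ H.nor, tw_range ι α ▸ H.rk⟩
variable (hg : g * t = t * g)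
include hg
theorem cA1 (h4 : ∀ u, g * ι (X 4 u) = ι (X 4 u) * g) (h6 : ∀ u, g * ι (X 6 u) = ι (X 6 u) * g)
    (h7 : ∀ u, g * ι (X 7 u) = ι (X 7 u) * g) : ∃ u v w, ∃ k ∈ C(ι.range), g = ι (el 0 u v w) * k := by
  obtain ⟨α, p⟩ := H.ex (mem_cent1.2 hg)
  obtain ⟨u, v, w, q⟩ := S4.cA1 (fun u => p.fix H.inj (h4 u)) (fun u => p.fix H.inj (h6 u)) fun u => p.fix H.inj (h7 u)
  exact ⟨u, v, w, inn fun x => q x ▸ p x⟩
theorem cU (h5 : ∀ u, g * ι (X 5 u) = ι (X 5 u) * g) (h4 : ∀ u, g * ι (X 4 u) = ι (X 4 u) * g) (h6 : ∀ u, g * ι (X 6 u) = ι (X 6 u) * g)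
    (h7 : ∀ u, g * ι (X 7 u) = ι (X 7 u) * g) : ∃ v w, ∃ k ∈ C(ι.range), g = ι (el 0 0 v w) * k := by
  obtain ⟨α, p⟩ := H.ex (mem_cent1.2 hg)
  obtain ⟨v, w, q⟩ := S4.cU (fun u => p.fix H.inj (h5 u)) (fun u => p.fix H.inj (h4 u)) (fun u => p.fix H.inj (h6 u))
    fun u => p.fix H.inj (h7 u)
  exact ⟨v, w, inn fun x => q x ▸ p x⟩
theorem cA1T (h4 : ∀ u, g * ι (X 4 u) = ι (X 4 u) * g) (h6 : ∀ u, g * ι (X 6 u) = ι (X 6 u) * g)
    (h7 : ∀ u, g * ι (X 7 u) = ι (X 7 u) * g) (hl : (l : F) ^ 2 + 1 ≠ 0) (hT : g * ι (hh l l⁻¹) = ι (hh l l⁻¹) * g) :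
    ∃ v, ∃ k ∈ C(ι.range), g = ι (X 6 v) * k := by
  obtain ⟨α, p⟩ := H.ex (mem_cent1.2 hg)
  obtain ⟨v, q⟩ := S4.cA1T (fun u => p.fix H.inj (h4 u)) (fun u => p.fix H.inj (h6 u)) (fun u => p.fix H.inj (h7 u)) hl (p.fix H.inj hT)
  exact ⟨v, inn fun x => q x ▸ p x⟩
theorem cQ2 (h5 : ∀ u, ∃ e, g * ι (X 5 u) * g⁻¹ = ι (X 5 u) * ι (X 7 e)) (h6 : ∀ u, ∃ e, g * ι (X 6 u) * g⁻¹ = ι (X 6 u) * ι (X 7 e))
    (h7 : ∀ u, g * ι (X 7 u) = ι (X 7 u) * g) : ∃ u v w, ∃ k ∈ C(ι.range), g = ι (el u 0 v w) * k := by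
  obtain ⟨α, p⟩ := H.ex (mem_cent1.2 hg)
  obtain ⟨u, v, w, q⟩ := S4.cQ2 (fun u => (h5 u).imp fun _ r => H.inj (by rw [← p, r, map_mul]))
    (fun u => (h6 u).imp fun _ r => H.inj (by rw [← p, r, map_mul])) fun u => p.fix H.inj (h7 u)
  exact ⟨u, v, w, inn fun x => q x ▸ p x⟩
theorem cZT (h7 : ∀ u, g * ι (X 7 u) = ι (X 7 u) * g) (hm : (m : F) + 1 ≠ 0) (hT : g * ι (hh 1 m) = ι (hh 1 m) * g) :
    ∃ w m', ∃ k ∈ C(ι.range), g = ι (X 7 w * hh 1 m') * k := by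
  obtain ⟨α, p⟩ := H.ex (mem_cent1.2 hg)
  obtain ⟨w, m', q⟩ := S4.cZT (fun u => p.fix H.inj (h7 u)) hm (p.fix H.inj hT)
  exact ⟨w, m', inn fun x => q x ▸ p x⟩
end Hyp

/-! ### the doublings -/

/-- `t` is fused to `t x₆(c)` in the normalizer of `C_L(X₆)` -/
def D1 (ι : Γ F →* G) (t : G) : Prop := ∃ g ∈ N((Y1 F).map ι), ∃ c ≠ 0, g * t * g⁻¹ = t * ι (X 6 c)
/-- `t` is not fused to `t x₇(d)` -/
def N2 (ι : Γ F →* G) (t : G) : Prop := ∀ g d, g * t * g⁻¹ = t * ι (X 7 d) → d = 0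

/-- the doubling of the root group `X₆` -/
structure Db (ι : Γ F →* G) (t : G) (β : F → G) (κ s : F) : Prop where
  ct : ∀ c, β c * t * (β c)⁻¹ = t * ι (X 6 c)
  mul : ∀ c d, β (c ^ 2) * β (d ^ 2) = β (c ^ 2 + d ^ 2) * ι (X 6 (s * c * d))
  c4 : ∀ c u, β c * ι (X 4 u) = ι (X 4 u) * β c
  c6 : ∀ c u, β c * ι (X 6 u) = ι (X 6 u) * β c
  c7 : ∀ c u, β c * ι (X 7 u) = ι (X 7 u) * β c
  c5 : ∀ c u, β c * ι (X 5 u) * (β c)⁻¹ = ι (X 5 u) * ι (X 7 (κ * c * u))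
  c2 : ∀ c u, β c * ι (X 2 u) * (β c)⁻¹ = ι (X 2 u) * ι (X 4 (κ * c * u))
  tor : ∀ l m c, ι (hh l m) * β c * (ι (hh l m))⁻¹ = β (l * m * c)
  hk : ∀ k ∈ C(ι.range), k * t = t * k → k ∈ O1 ι t ∨ t * k ∈ O1 ι t
  hO : ∀ o ∈ O1 ι t, ∀ c, o * β c = β c * o

/-- the doubling of the root group `X₇` (the doubling of `X₆` for the embedding twisted by the graph automorphism) -/
structure Dl (ι : Γ F →* G) (t : G) (δ : F → G) (κ s : F) : Prop where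
  ct : ∀ c, δ c * t * (δ c)⁻¹ = t * ι (X 7 (c ^ 2))
  mul : ∀ c d, δ c * δ d = δ (c + d) * ι (X 7 (s ^ 2 * c * d))
  c5 : ∀ c u, δ c * ι (X 5 u) = ι (X 5 u) * δ c
  c6 : ∀ c u, δ c * ι (X 6 u) = ι (X 6 u) * δ c
  c7 : ∀ c u, δ c * ι (X 7 u) = ι (X 7 u) * δ c
  c4 : ∀ c u, δ c * ι (X 4 (u ^ 2)) * (δ c)⁻¹ = ι (X 4 (u ^ 2)) * ι (X 6 (κ * c * u))
  c3 : ∀ c u, δ c * ι (X 3 (u ^ 2)) * (δ c)⁻¹ = ι (X 3 (u ^ 2)) * ι (X 5 (κ * c * u))
  tor : ∀ l m c, ι (hh l m) * δ c * (ι (hh l m))⁻¹ = δ (l * c)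
  hO : ∀ o ∈ O1 ι t, ∀ c, o * δ c = δ c * o

theorem Db.dl {δ : F → G} {κ s : F} (D : Db (tw ι (γ F)) t δ κ s) : Dl ι t δ κ s where
  ct c := γ6 c ▸ D.ct c
  mul c d := by
    obtain ⟨c, rfl⟩ := ex_sqrt c
    obtain ⟨d, rfl⟩ := ex_sqrt d
    rw [D.mul, tw_ap, γ6, mul_pow, mul_pow]
  c5 c u := γ4 u ▸ D.c4 c u
  c6 c u := γ7 u ▸ D.c7 c u
  c7 c u := by
    obtain ⟨u, rfl⟩ := ex_sqrt u
    exact γ6 u ▸ D.c6 c u
  c4 c u := γ5 u ▸ γ7 (κ * c * u) ▸ D.c5 c u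
  c3 c u := γ2 u ▸ γ4 (κ * c * u) ▸ D.c2 c u
  tor l m c := by
    obtain ⟨a, ha⟩ := sqU (l * m).ne_zero
    have e : l * m = a * a := Units.ext (by rw [← ha, pow_two]; rfl)
    have := D.tor a (a⁻¹ * l) c
    rwa [tw_ap, γ_hh, mul_inv_cancel_left, mul_inv_rev, inv_inv, mul_left_comm, ← e, inv_mul_cancel_left, ← Units.val_mul,
      mul_inv_cancel_left] at this
  hO o ho := D.hO o (by rwa [O1, tw_range])

/-- conjugation by `n_a` -/
noncomputable def Na (ι : Γ F →* G) (y : G) : G := ι (na F) * y * (ι (na F))⁻¹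
/-- conjugation by `n_b` -/
noncomputable def Nb (ι : Γ F →* G) (y : G) : G := ι (nb F) * y * (ι (nb F))⁻¹

/-- the positive relations when the short root groups are doubled as in `L₄(q)`, `U₄(q)` -/
structure P4 (ι : Γ F →* G) (t : G) (β : F → G) (ρ : F) : Prop extends Db ι t β 1 0 where
  b56 : ∀ c d, Nb ι (β c) * β d = β d * Nb ι (β c)
  b45 : ∀ u c, ι (X 4 u) * Nb ι (β c) * (ι (X 4 u))⁻¹ = Nb ι (β c) * β (c * u) * ι (X 7 (ρ * c ^ 2 * u))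

/-- the positive relations when the root groups are doubled as in `L₅(q)`, `U₅(q)` -/
structure P5 (ι : Γ F →* G) (t : G) (β δ : F → G) (ρ : F) : Prop extends P4 ι t β ρ where
  dl : Dl ι t δ 0 1
  bd : ∀ c d, β c * δ d = δ d * β c
  dd : ∀ c d, Na ι (δ c) * δ d = δ d * Na ι (δ c) * ι (X 6 (c * d))
  d54 : ∀ u c, ι (X 5 u) * Na ι (δ c) * (ι (X 5 u))⁻¹ = Na ι (δ c) * δ (u * c) * β (u * c ^ 2)

/-- the positive relations when the root groups are doubled as in `Sp₄(q²)`, `Sp₄(q) × Sp₄(q)` -/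
structure Pd (ι : Γ F →* G) (t : G) (β δ : F → G) (ρ : F) : Prop extends Db ι t β 0 0 where
  dl : Dl ι t δ 0 0
  bd : ∀ c d, β c * δ d = δ d * β c
  b56 : ∀ c d, Nb ι (β c) * β d = β d * Nb ι (β c)
  dd : ∀ c d, Na ι (δ c) * δ d = δ d * Na ι (δ c)
  b45 : ∀ u c, ι (X 4 (u ^ 2)) * Nb ι (β c) * (ι (X 4 (u ^ 2)))⁻¹ = Nb ι (β c) * β (c * u ^ 2) * δ (c * u) * ι (X 7 (ρ * c ^ 2 * u ^ 2))
  d54 : ∀ u c, ι (X 5 u) * Na ι (δ c) * (ι (X 5 u))⁻¹ = Na ι (δ c) * δ (u * c) * β (u * c ^ 2)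

/-- the group generated by `L` and one doubling -/
noncomputable def G1 (ι : Γ F →* G) (β : F → G) : Subgroup G := ι.range ⊔ closure (Set.range β)
/-- the group generated by `L` and two doublings -/
noncomputable def G2 (ι : Γ F →* G) (β δ : F → G) : Subgroup G := G1 ι β ⊔ closure (Set.range δ)
end

/-- fusion -/
def FB : Prop := All.{u} fun {F} _ _ _ _ _ ι t => Hyp ι t → ∀ g, g * t * g⁻¹ ≠ t → g * t * g⁻¹ * t = t * (g * t * g⁻¹) →
  ∃ ι', (ι' = ι ∨ ι' = tw ι (γ F)) ∧ D1 ι' t ∧ (N2 ι' t ∨ D1 (tw ι' (γ F)) t)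
/-- existence of the doubling -/
def DB : Prop := All.{u} fun ι t => Hyp ι t → D1 ι t → ∃ β κ s, Db ι t β κ s
/-- `C(t)` normalizes the group generated by the doublings, which has centralizer of odd order -/
def NR : Prop := All.{u} fun {F} _ _ _ _ _ ι t => Hyp ι t → ∀ β κ s, Db ι t β κ s →
  (N2 ι t → C[t] ≤ N(G1 ι β)) ∧ (∀ δ κ' s', Db (tw ι (γ F)) t δ κ' s' → C[t] ≤ N(G2 ι β δ)) ∧
    ∀ M, G1 ι β ≤ M → t ∈ N(M) → PiG {2}ᶜ C(M)
/-- the positive relations -/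
def D0 : Prop := All.{u} fun {F _ _ G _ _} ι t => Hyp ι t → ∀ β κ s, Db ι t β κ s → (N2 ι t → ∃ ρ, P4 ι t β ρ) ∧
  ∀ δ κ' s', Db (tw ι (γ F)) t δ κ' s' → ∃ (ι' : Γ F →* G) (β' δ' : F → G) (ρ : F), Hyp ι' t ∧ G2 ι' β' δ' = G2 ι β δ ∧ (P5 ι' t β' δ' ρ ∨ Pd ι' t β' δ' ρ)
/-- the relations of `L₄(q)`, `U₄(q)` -/
def D4 : Prop := All.{u} fun ι t => Hyp ι t → ∀ β ρ, P4 ι t β ρ →
  ∃ ξ, R4 ι t ρ ξ ∧ (∀ v c, ξ 6 ⟨v, c⟩ = ι (X 6 v) * β c) ∧ G4 ι ξ = G1 ι β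
/-- the relations of `L₅(q)`, `U₅(q)` -/
def D5 : Prop := All.{u} fun ι t => Hyp ι t → ∀ β δ ρ ξ, P5 ι t β δ ρ → R4 ι t ρ ξ → (∀ v c, ξ 6 ⟨v, c⟩ = ι (X 6 v) * β c) →
  G4 ι ξ = G1 ι β → ∃ w, R5 ι t ρ ξ w ∧ G5 ι ξ w = G2 ι β δ
/-- the relations of `Sp₄(F[ω])` -/
def DD : Prop := All.{u} fun ι t => Hyp ι t → ∀ β δ ρ, Pd ι t β δ ρ → ∃ ξ, Fd ι t ρ ξ ∧ Gd ξ = G2 ι β δ

end H27.S4
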