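/-
Standard subgroups of type `Sp₄(2ⁿ)`: the doubling of a short root group.
-/
import Cfsg.Agent.H27.W4

set_option autoImplicit false
set_option linter.unusedSectionVars false

namespace H27.S4
open Cfsg Subgroup
open H28.CY hiding aa h2
open H19 hiding PG
open H1.YG (Big h2 aa ng add0 sqadd ex_n four_le ex_sqrt sq_inj)

universe u
variable {F : Type} [Field F] [Big F] {G : Type u} [Group G] [Finite G] {ι : Γ F →* G} {g k t y : G} {x : Γ F}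
  {c d u v w : F} {l m : Fˣ} {Y : Subgroup G} {n : ℕ}

variable (F) in
/-- the radical of the parabolic subgroup normalizing `X₆` -/
noncomputable def A1 : Subgroup (Γ F) where
  carrier := {x | ∃ u v w, x = el 0 u v w}
  one_mem' := ⟨0, 0, 0, el0.symm⟩
  mul_mem' := by rintro _ _ ⟨_, _, _, rfl⟩ ⟨_, _, _, rfl⟩; exact ⟨_, _, _, by rw [el_mul, add_zero]⟩
  inv_mem' := by rintro _ ⟨_, _, _, rfl⟩; exact ⟨_, _, _, el_inv ..⟩
theorem eA (u v w : F) : el 0 u v w ∈ A1 F := ⟨u, v, w, rfl⟩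
theorem elA (u v w : F) : el 0 u v w = X 4 u * X 6 v * X 7 w := by simp [el, X_zero]
theorem na_el (u v w : F) : na F * el 0 u v w * (na F)⁻¹ = el 0 w v u := by
  rw [elA, ← conj_mul, ← conj_mul, na_conj, na_conj, na_conj]
  show X 7 u * X 6 v * X 4 w = _
  rw [el7, el6, el4, el_mul, el_mul]; simp
theorem UA : U F ≤ N(A1 F) := fun x hx => mem_norm_of (by
  obtain ⟨_, _, _, _, rfl⟩ := mem_U.1 hx
  rintro _ ⟨_, _, _, rfl⟩; exact ⟨_, _, _, el_cj ..⟩)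
theorem naA : na F ∈ N(A1 F) := mem_norm_of (by rintro _ ⟨_, _, _, rfl⟩; exact ⟨_, _, _, na_el ..⟩)
theorem hA (l m : Fˣ) : hh l m ∈ N(A1 F) := mem_norm_of (by rintro _ ⟨_, _, _, rfl⟩; exact ⟨_, _, _, by rw [hh_el, mul_zero]⟩)
theorem YA : Y1 F ≤ N(A1 F) := Y1_le (fun _ hr t => UA (X_mem_U t hr)) fun t =>
  na_conj 5 t ▸ mul_mem (mul_mem naA (UA (X_mem_U t))) (inv_mem naA)
theorem AU : A1 F ≤ U F := by rintro _ ⟨_, _, _, rfl⟩; exact el_U _ _ _ _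
theorem A1_of (h : x ∈ U F) (h' : na F * x * (na F)⁻¹ ∈ U F) : x ∈ A1 F := by
  obtain ⟨t, u, v, w, rfl⟩ := mem_U.1 h
  rw [show el t u v w = X 5 t * el 0 u v w by rw [el5, el_mul]; simp, ← conj_mul, na_el, na_conj, mul_mem_cancel_right (el_U _ _ _ _)] at h'
  have := γ_U h'
  rw [show γ F (X (sa 5) t) = _ from γ2 t] at this
  rw [pow_eq_zero_iff two_ne_zero |>.1 (X3_U this)]; exact eA ..
theorem CA1 (h : ∀ a ∈ A1 F, x * a * x⁻¹ = a) : x ∈ A1 F := by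
  obtain ⟨u, v, w, p⟩ := cA1 (α := MulAut.conj x) (fun u => h _ (el4 u ▸ eA ..)) (fun u => h _ (el6 u ▸ eA ..)) fun u => h _ (el7 u ▸ eA ..)
  exact ext_conj (fun _ => p _) ▸ eA u v w
theorem pmap {π : Set ℕ} {D : Subgroup (Γ F)} (h : PiG π D) : PiG π (D.map ι) := PiN.dvd h (card_map_dvd D ι)
theorem nA (hi : Function.Injective ι) (hg : g ∈ N((Y1 F).map ι)) : g ∈ N((A1 F).map ι) := mem_norm_of_cj_le fun z hz => by
  have s : Syl 2 ((U F).map ι) ((Y1 F).map ι) := (syl_U.of_le UY1 le_top).map ι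
  have l : cj g ((A1 F).map ι) ≤ (Y1 F).map ι := cj_le_of_mem_norm hg (map_mono (AU.trans UY1))
  have p : H19.PG 2 (cj g ((A1 F).map ι)) := (pmap (pg_U.of_le AU)).J g
  have nn : (Y1 F).map ι ≤ N(cj g ((A1 F).map ι)) := by
    rw [← cj_of_mem_norm hg, ← cj_norm]; exact cj_mono g (by rintro _ ⟨x, hx, rfl⟩; exact map_norm (YA hx))
  obtain ⟨x, hx, rfl⟩ := s.le_of_norm' l p (s.le.trans nn) hz
  obtain ⟨x', hx', e⟩ := s.le_of_norm' l p (s.le.trans nn) (conj_mem_of_norm (nn (mem_map_of_mem ι naY)) hz)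
  exact mem_map_of_mem ι (A1_of hx (hi (e.trans (ι_cj ..)) ▸ hx'))
theorem endo {f : F × F × F → F × F × F} (a : ∀ p q, f (p + q) = f p + f q)
    (h5 : ∀ t u v w, f (u, v + t * u, w + t ^ 2 * u) = ((f (u, v, w)).1, (f (u, v, w)).2.1 + t * (f (u, v, w)).1,
      (f (u, v, w)).2.2 + t ^ 2 * (f (u, v, w)).1))
    (hn : ∀ u v w, f (w, v, u) = ((f (u, v, w)).2.2, (f (u, v, w)).2.1, (f (u, v, w)).1))
    (hT : ∀ (l : Fˣ) w, (f (0, 0, l ^ 2 * w)).2.1 = (f (0, 0, w)).2.1) : ∃ μ, ∀ u v w, f (u, v, w) = (μ * u, μ * v, μ * w) := by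
  obtain ⟨l, -, hl⟩ := exl (F := F)
  have e1 : ∀ v w, (f (0, v, w)).1 = 0 := fun v w => by simpa using congrArg (·.2.1) (h5 1 0 v w)
  have e2 : ∀ w, (f (0, 0, w)).2.1 = 0 := wt0 (f := fun w => (f (0, 0, w)).2.1) (l := l ^ 2)
    (fun c d => by simpa using congrArg (·.2.1) (a (0, 0, c) (0, 0, d))) hl (hT l) fun _ => aa _
  have e3 : ∀ v, (f (0, v, 0)).2.2 = 0 := fun v => (congrArg (·.1) (hn 0 v 0)).symm.trans (e1 v 0)
  have s : ∀ u v w, f (u, v, w) = ((f (0, 0, u)).2.2, (f (0, v, 0)).2.1, (f (0, 0, w)).2.2) := fun u v w => by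
    rw [show (u, v, w) = (u, 0, 0) + (0, v, 0) + (0, 0, w) by simp, a, a, hn 0 0 u]; exact Prod.ext (by simp [e1]) (Prod.ext (by simp [e2]) (by simp [e1, e3]))
  have k := fun t => h5 t 1 0 0
  simp only [s 1, zero_add, mul_one, Prod.mk.injEq, true_and] at k
  have z0 : f 0 = 0 := by simpa using a 0 0
  rw [show ((0, 0, 0) : F × F × F) = 0 from rfl, z0] at k
  have k2 : ∀ w, (f (0, 0, w)).2.2 = (f (0, 0, 1)).2.2 * w := fun w => by
    obtain ⟨w, rfl⟩ := ex_sqrt w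
    simpa [mul_comm] using (k w).2
  exact ⟨(f (0, 0, 1)).2.2, fun u v w => by rw [s, k2 u, k2 w, (k v).1]; simp [mul_comm]⟩

/-- the elements centralizing `A₁` and normalizing `t X₆` -/
def B0 (ι : Γ F →* G) (t : G) : Subgroup G where
  carrier := {y | y ∈ C((A1 F).map ι) ∧ ∃ c, y * t * y⁻¹ = t * ι (X 6 c)}
  one_mem' := ⟨one_mem _, 0, by simp [X_zero]⟩
  mul_mem' := by
    rintro a b ⟨a1, v, a3⟩ ⟨b1, w, b3⟩
    refine ⟨mul_mem a1 b1, v + w, ?_⟩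
    rw [cj2, b3, ← conj_mul, a3, ← mem_cent.1 a1 _ (mem_map_of_mem ι (el6 w ▸ eA ..)), ← ixa]; group
  inv_mem' := by
    rintro a ⟨a1, v, a3⟩
    refine ⟨inv_mem a1, v, ?_⟩
    rw [← ixi, eq_mul_inv_iff_mul_eq, inv_inv, mul_assoc, ← mem_cent.1 a1 _ (mem_map_of_mem ι (el6 v ▸ eA ..)), mul_assoc,
      ← mul_assoc t, ← a3]; group
variable (F) in
/-- the torus centralizing `X₆` -/
noncomputable def T0 : Subgroup (Γ F) where
  carrier := {x | ∃ l, x = hh l l⁻¹}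
  one_mem' := ⟨1, by rw [inv_one, hh_one]⟩
  mul_mem' := by rintro _ _ ⟨a, rfl⟩ ⟨b, rfl⟩; exact ⟨a * b, by rw [hh_mul, mul_inv]⟩
  inv_mem' := by rintro _ ⟨a, rfl⟩; exact ⟨a⁻¹, hh_inv ..⟩
theorem cA (h : y ∈ C((A1 F).map ι)) (u v w : F) : y * ι (el 0 u v w) = ι (el 0 u v w) * y :=
  (mem_cent.1 h _ (mem_map_of_mem ι (eA ..))).symm
theorem c4 (h : y ∈ C((A1 F).map ι)) (u : F) : y * ι (X 4 u) = ι (X 4 u) * y := el4 u ▸ cA h ..
theorem c6 (h : y ∈ C((A1 F).map ι)) (u : F) : y * ι (X 6 u) = ι (X 6 u) * y := el6 u ▸ cA h ..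
theorem c7 (h : y ∈ C((A1 F).map ι)) (u : F) : y * ι (X 7 u) = ι (X 7 u) * y := el7 u ▸ cA h ..
theorem cT (h : y ∈ C((T0 F).map ι)) (l : Fˣ) : y * ι (hh l l⁻¹) = ι (hh l l⁻¹) * y :=
  (mem_cent.1 h _ (mem_map_of_mem ι ⟨l, rfl⟩)).symm
theorem odd_pow (h : g * g = 1) (hm : Odd n) : g ^ n = g := by
  obtain ⟨j, rfl⟩ := hm
  rw [pow_succ, pow_mul, pow_two, h, one_pow, one_mul]
theorem pw_conj (h : y * t * y⁻¹ = t * g) (c : y * g = g * y) (n : ℕ) : y ^ n * t * (y ^ n)⁻¹ = t * g ^ n := by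
  induction n with
  | zero => simp
  | succ n ih => rw [pow_succ', cj2, ih, ← conj_mul, h, (Commute.pow_right c n).eq, pow_succ']; group
theorem bm {y' : G} (h : y * ι (X 6 d) = ι (X 6 d) * y) (p : y * t * y⁻¹ = t * ι (X 6 c)) (q : y' * t * y'⁻¹ = t * ι (X 6 d)) :
    y * y' * t * (y * y')⁻¹ = t * ι (X 6 (c + d)) := by rw [cj2, q, ← conj_mul, p, h, mul_inv_cancel_right, mul_assoc, ixa]
theorem nine {β : F → G} (cm : ∀ c d, β c * β d = β d * β c) (a b c p q r : F) : β a * β b * β c * (β p * β p * (β q * β q) * (β r * β r)) =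
    β a * β p * β q * (β p * β b * β r) * (β q * β r * β c) := by
  have cl : ∀ c d x, β c * (β d * x) = β d * (β c * x) := fun c d x => by rw [← mul_assoc, cm, mul_assoc]
  simp only [mul_assoc, cm, cl]
theorem hN (l m : Fˣ) : hh l m ∈ N(T0 F) := mem_norm_of (by rintro _ ⟨a, rfl⟩; exact ⟨a, by rw [hh_comm, mul_inv_cancel_right]⟩)
theorem naT : na F ∈ N(T0 F) := mem_norm_of (by rintro _ ⟨a, rfl⟩; exact ⟨a⁻¹, by rw [na_hh, inv_inv]⟩)

namespace Hyp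
variable (H : Hyp ι t)
include H
theorem b0 (h : D1 ι t) : ∃ y ∈ C((A1 F).map ι), ∃ c ≠ 0, y * t * y⁻¹ = t * ι (X 6 c) := by
  obtain ⟨g, hg, c, c0, e⟩ := h
  obtain ⟨l, -, hl⟩ := exl (F := F)
  have gA := nA H.inj hg
  have hA' : g * ι (hh l l) * g⁻¹ ∈ N((A1 F).map ι) := mul_mem (mul_mem gA (map_norm (hA l l))) (inv_mem gA)
  have : ∀ p : F × F × F, ∃ q : F × F × F, g * ι (hh l l) * g⁻¹ * ι (el 0 p.1 p.2.1 p.2.2) * (g * ι (hh l l) * g⁻¹)⁻¹ =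
      ι (el 0 q.1 q.2.1 q.2.2) := fun p =>
    let ⟨_, ⟨u, v, w, e⟩, r⟩ := conj_mem_of_norm hA' (mem_map_of_mem ι (eA p.1 p.2.1 p.2.2)); ⟨(u, v, w), by rw [← r, e]⟩
  choose f hf using this
  have un : ∀ {p q : F × F × F}, ι (el 0 p.1 p.2.1 p.2.2) = ι (el 0 q.1 q.2.1 q.2.2) → p = q := fun e =>
    let ⟨_, a, b, c⟩ := el_inj (H.inj e); Prod.ext a (Prod.ext b c)
  have cY : ∀ x ∈ Y1 F, hh l l * x * (hh l l)⁻¹ * x⁻¹ ∈ A1 F := fun x hx => by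
    let M : Subgroup (Γ F) :=
      { carrier := {x | x ∈ N(A1 F) ∧ hh l l * x * (hh l l)⁻¹ * x⁻¹ ∈ A1 F}
        one_mem' := ⟨one_mem _, by simpa using one_mem _⟩
        mul_mem' := fun {a b} p q => ⟨mul_mem p.1 q.1, by convert mul_mem p.2 (conj_mem_of_norm p.1 q.2) using 1; group⟩
        inv_mem' := fun {a} p => ⟨inv_mem p.1, by convert conj_mem_of_norm' p.1 (inv_mem p.2) using 1; group⟩ }
    refine (Y1_le (H := M) (fun r hr u => ⟨UA (X_mem_U u hr), ?_⟩) (fun u => ⟨YA (X2Y u), by simp [hh_conj, ca, cb, one_mem]⟩) hx).2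
    obtain ⟨a, b, c, d, e⟩ := mem_U.1 (X_mem_U u hr)
    rw [e, hh_el, el_inv, el_mul, Units.mul_inv, one_mul, aa]; exact eA ..
  have eq : ∀ x ∈ Y1 F, ∀ p q : F × F × F, x * el 0 p.1 p.2.1 p.2.2 * x⁻¹ = el 0 q.1 q.2.1 q.2.2 →
      x * el 0 (f p).1 (f p).2.1 (f p).2.2 * x⁻¹ = el 0 (f q).1 (f q).2.1 (f q).2.2 := fun x hx p q r => H.inj (by
    obtain ⟨x', hx', k⟩ := conj_mem_of_norm' hg (mem_map_of_mem ι hx)
    obtain ⟨a, ha, k'⟩ := conj_mem_of_norm' gA (mem_map_of_mem ι (eA p.1 p.2.1 p.2.2))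
    obtain ⟨u, v, w, j⟩ := cY x' hx'
    obtain ⟨u', v', w', j'⟩ := conj_mem_of_norm (YA hx') (conj_mem_of_norm (hA l l) ha)
    have : hh l l * (x' * a * x'⁻¹) * (hh l l)⁻¹ = x' * (hh l l * a * (hh l l)⁻¹) * x'⁻¹ := by
      calc _ = hh l l * x' * (hh l l)⁻¹ * x'⁻¹ * (x' * (hh l l * a * (hh l l)⁻¹) * x'⁻¹) * (hh l l * x' * (hh l l)⁻¹ * x'⁻¹)⁻¹ := by group
        _ = _ := by rw [j, j', el_cj]; simp
    have := congrArg ι this
    simp only [map_mul, map_inv, k, k'] at this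
    rw [← ι_cj, ← hf, ← hf, ← r, ← ι_cj]
    calc _ = g * (g⁻¹ * ι x * g * (ι (hh l l) * (g⁻¹ * ι (el 0 p.1 p.2.1 p.2.2) * g) * (ι (hh l l))⁻¹) * (g⁻¹ * ι x * g)⁻¹) * g⁻¹ := by group
      _ = _ := by rw [← this]; group)
  have un' : ∀ {a b c : F} {q : F × F × F}, el 0 a b c = el 0 q.1 q.2.1 q.2.2 → q = (a, b, c) := fun e => (un (p := (_, _, _)) (congrArg ι e)).symm
  obtain ⟨μ, hμ⟩ := endo (f := f) (fun p q => un (by
      have := congrArg₂ (· * ·) (hf p) (hf q)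
      simp only [conj_mul, ← map_mul, el_mul, add_zero, zero_mul, zero_pow two_ne_zero] at this
      exact (hf (p + q)).symm.trans this))
    (fun t u v w => un' (by simpa [el_cj] using eq _ (UY1 (el_U t 0 0 0)) (u, v, w) (u, v + t * u, w + t ^ 2 * u) (by simp [el_cj])))
    (fun u v w => un' (by simpa [na_el] using eq _ naY (u, v, w) (w, v, u) (na_el ..)))
    fun l w => by simpa using (el_inj ((hh_el ..).symm.trans (eq _ (hT0 l) (0, 0, w) (0, 0, l ^ 2 * w) (by simp [hh_el])))).2.2.1.symm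
  have hf' := fun u v w => hf (u, v, w)
  simp only [hμ] at hf'
  have μ0 : μ ≠ 0 := fun k => by
    have := hf' 1 0 0
    rw [k, zero_mul, zero_mul, el0, map_one, conj_eq_one_iff, map_eq_one_iff _ H.inj, el_one] at this
    exact one_ne_zero this.2.1
  have μ1 : 1 + μ ≠ 0 := fun k => by
    obtain ⟨_, ⟨u, v, w, rfl⟩, k'⟩ := conj_mem_of_norm gA (mem_map_of_mem ι (eA 1 0 0))
    have := hf' u v w
    rw [← add0.1 k, one_mul, one_mul, one_mul, k', conj_mul, conj_inv, conj_mul, mul_left_inj, mul_right_inj, ι_cj, hh_el] at this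
    exact hl (add0.2 (by simpa using (el_inj (H.inj this)).2.1))
  obtain ⟨j, hj⟩ := sqU (inv_ne_zero μ0)
  refine ⟨ι (hh j j) * (g * ι (hh l l) * g⁻¹), mem_cent.2 ?_, μ⁻¹ * ((1 + μ) * c), by simp [*], ?_⟩
  · rintro _ ⟨_, ⟨u, v, w, rfl⟩, rfl⟩
    rw [eq_comm, ← mul_inv_eq_iff_eq_mul, cj2, hf', ι_cj, hh_el, ← pow_two, hj]; simp [μ0]
  have e1 : g * ι (hh l l) * g⁻¹ * (t * ι (X 6 c)) * (g * ι (hh l l) * g⁻¹)⁻¹ = t * ι (X 6 c) := by
    rw [← e, conj_mul, conj_inv, conj_mul, H.tcj]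
  rw [← conj_mul, el6, hf', mul_zero, ← el6, ← el6, ← eq_mul_inv_iff_mul_eq, ixi, mul_assoc t, ixa] at e1
  rw [cj2, e1, ← conj_mul, H.tcj, ι_cj, hh6, ← pow_two, hj, add_mul, one_mul]
theorem nY (h : y ∈ B0 ι t) (hx : x ∈ Y1 F) : ∃ u v w, y * ι x * y⁻¹ = ι (x * el 0 u v w) := by
  obtain ⟨h, c, e⟩ := h
  have : y ∈ N((Y1 F).map ι) := by
    by_cases c0 : c = 0
    · obtain ⟨u, v, w, k, hk, rfl⟩ := H.cA1 (g := y) (by rwa [c0, ix0, mul_one, mul_inv_eq_iff_eq_mul] at e) (c4 h) (c6 h) (c7 h)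
      exact mul_mem (le_normalizer (mem_map_of_mem ι (UY1 (el_U _ _ _ _)))) (cent_le_norm _ (cent_mono (map_le_range _ _) hk))
    refine mem_norm_of_le_cj ?_
    rintro _ ⟨x, hx, rfl⟩
    obtain ⟨x', r⟩ := (H.conj y).YL (e := ι) (fun x hx => mem_cent1.2 (by
      rw [e, ← mul_assoc, ← H.cen, mul_assoc, mul_assoc, ← map_mul, ← map_mul, Y1_6 hx])) (mem_map_of_mem ι hx)
    refine r ▸ conj_mem_cj.2 (mem_map_of_mem ι (cent6 c0 ▸ mem_cent1.2 ((H.conj y).inj ?_)))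
    rw [map_mul, map_mul, r, cjh_ap, c6 h, mul_inv_cancel_right, ← map_mul, ← map_mul, Y1_6 hx]
  obtain ⟨x', -, r⟩ := conj_mem_of_norm this (mem_map_of_mem ι hx)
  obtain ⟨u, v, w, p⟩ := CA1 (x := x⁻¹ * x') fun a ha => H.inj (by
    have p := mem_cent.1 h _ (mem_map_of_mem ι ha)
    have q := mem_cent.1 h _ (mem_map_of_mem ι (conj_mem_of_norm (YA hx) ha))
    simp only [map_mul, map_inv, r] at q ⊢
    calc _ = (ι x)⁻¹ * y * ι x * (y⁻¹ * (ι a * y)) * (ι x)⁻¹ * y⁻¹ * ι x := by group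
      _ = (ι x)⁻¹ * y * (ι x * ι a * (ι x)⁻¹) * y⁻¹ * ι x := by rw [p]; group
      _ = _ := by rw [mul_assoc _ y, ← q]; group)
  exact ⟨u, v, w, by rw [← r, ← p, mul_inv_cancel_left]⟩
theorem nB (h : x ∈ N(A1 F)) (h6 : ∀ c, ∃ d, x * X 6 c * x⁻¹ = X 6 d) : ι x ∈ N(B0 ι t) := mem_norm_of fun y ⟨p, c, e⟩ =>
  ⟨conj_mem_of_norm (norm_le_norm_cent _ (map_norm h)) p, let ⟨d, r⟩ := h6 c; ⟨d, r ▸ H.cct e x⟩⟩
theorem nB1 (h : x ∈ N(A1 F)) (h6 : ∀ c, ∃ d, x * X 6 c * x⁻¹ = X 6 d) (hT : x ∈ N(T0 F)) : ι x ∈ N(B0 ι t ⊓ C((T0 F).map ι)) :=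
  norms_inf inf_le_left inf_le_right (mem_inf.2 ⟨H.nB h h6, norm_le_norm_cent _ (map_norm hT)⟩)
theorem b1 (h : D1 ι t) : ∃ y ∈ B0 ι t ⊓ C((T0 F).map ι), ∃ c ≠ 0, y * t * y⁻¹ = t * ι (X 6 c) := by
  obtain ⟨y, hy, c, c0, e⟩ := H.b0 h
  have p : H19.PG 2 ((A1 F).map ι) := pmap (pg_U.of_le AU)
  obtain ⟨_, ⟨a, ha, rfl⟩, r⟩ := exists_mul_mem_cent (A := (T0 F).map ι) (H := (A1 F).map ι) (k := y)
    (by rintro _ ⟨_, ⟨l, rfl⟩, rfl⟩; exact map_norm (hA _ _)) (p.coprime (pmap (PiN.of_elt (by rintro _ ⟨l, rfl⟩; exact hh_odd _ _))))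
    (.inr p.sol) (by
      rintro _ ⟨_, ⟨l, rfl⟩, rfl⟩
      obtain ⟨u, v, w, r⟩ := H.nY ⟨hy, c, e⟩ (inv_mem (hT0 l))
      exact ⟨_, eA u v w, by rw [← mul_inv_cancel_left (hh l l⁻¹) (el _ _ _ _), map_mul, ← r, map_inv]; group⟩)
  have e' : ι a * y * t * (ι a * y)⁻¹ = t * ι (X 6 c) := by rw [cj2, e, ← conj_mul, H.tcj, ι_cj, U_6 (AU ha), mul_inv_cancel_right]
  exact ⟨_, ⟨⟨mul_mem (mem_cent.2 (by
    obtain ⟨_, _, _, rfl⟩ := ha
    rintro _ ⟨_, ⟨_, _, _, rfl⟩, rfl⟩; simp [← map_mul, el_mul, add_comm])) hy, c, e'⟩, r⟩, c, c0, e'⟩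
theorem a5 (h : y ∈ B0 ι t ⊓ C((T0 F).map ι)) : ∃ κ, ∀ u, y * ι (X 5 u) * y⁻¹ = ι (X 5 u) * ι (X 7 (κ * u)) := by
  choose p q r e using fun u => H.nY h.1 (UY1 (X_mem_U (r := 5) u))
  simp only [el5, el_mul, add_zero, zero_add, zero_mul, zero_pow two_ne_zero] at e
  have ad := fun a b => el_inj ((H.inj ((e (a + b)).symm.trans (show _ = ι (el a (p a) (q a) (r a) * el b (p b) (q b) (r b)) by
    rw [show el (a + b) 0 0 0 = el a 0 0 0 * el b 0 0 0 by simp [el_mul], map_mul, ← conj_mul, e a, e b, ← map_mul]))).trans (el_mul ..))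
  have p0 : ∀ u, p u = 0 := fun u => by
    by_cases u0 : u = 0
    · simpa [u0] using (ad 0 0).2.1
    · exact (mul_eq_zero.1 (el_one.1 ((el_sq ..).symm.trans (H.inj (by
        rw [map_mul, ← e, conj_mul, ← map_mul, ← el5, X_sq]; simp)))).2.2.1).resolve_left u0
  have tr := fun l : Fˣ => fun u => el_inj ((H.inj ((e (l ^ 2 * u)).symm.trans
    (show _ = ι (hh l l⁻¹ * el u (p u) (q u) (r u) * (hh l l⁻¹)⁻¹) by
    rw [show el (l ^ 2 * u) 0 0 0 = hh l l⁻¹ * el u 0 0 0 * (hh l l⁻¹)⁻¹ by simp [hh_el, pow_two], ← ι_cj, ← cj2, cT h.2, cj2, e u,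
      ι_cj]))).trans (hh_el ..))
  obtain ⟨l, -, hl⟩ := exl (F := F)
  have q0 := wt0 (f := q) (l := l ^ 2) (fun a b => by simpa [p0] using (ad a b).2.2.1) hl (fun u => by simpa using (tr l u).2.2.1) fun _ => aa _
  exact ⟨r 1, fun u => by
    rw [el5, e, p0, q0, ← map_mul, el7, el_mul, lin (f := r) fun l u => let ⟨j, hj⟩ := sqU l.ne_zero; hj ▸ (tr j u).2.2.2]; simp⟩
theorem a52 (h : y ∈ B0 ι t ⊓ C((T0 F).map ι)) : ∃ κ, (∀ u, y * ι (X 5 u) * y⁻¹ = ι (X 5 u) * ι (X 7 (κ * u))) ∧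
    ∀ u, y * ι (X 2 u) * y⁻¹ = ι (X 2 u) * ι (X 4 (κ * u)) := by
  obtain ⟨κ, p⟩ := H.a5 h
  obtain ⟨κ', q⟩ := H.a5 (conj_mem_of_norm' (H.nB1 naA (fun c => ⟨c, na_conj 6 c⟩) naT) h)
  have q' : ∀ u, y * ι (X 2 u) * y⁻¹ = ι (X 2 u) * ι (X 4 (κ' * u)) := fun u => by
    have := congrArg (fun z => ι (na F) * z * (ι (na F))⁻¹) (q u)
    simp only [← conj_mul (b := ι (na F)) (a := ι (X 5 u)), ι_cj, na_conj] at this
    exact .trans (by rw [show X 2 u = _ from (na_conj 5 u).symm, ← ι_cj]; group) this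
  refine ⟨κ, p, ?_⟩
  obtain ⟨l, -, hl⟩ := exl (F := F)
  have e : y * ι (na F) * y⁻¹ = ι (na F * el 0 (κ + κ') κ' (κ' + κ)) := by
    have : X 2 (1 : F) = X 5 1 * na F * X 5 1 := by rw [na_def]; simp only [← mul_assoc, X_sq, one_mul]; rw [mul_assoc, X_sq, mul_one]
    nth_rw 1 [na_def]
    rw [map_mul, map_mul, ← conj_mul, ← conj_mul, p, q', mul_one, mul_one, this]
    simp only [← map_mul]
    congr 1
    calc _ = X 5 1 * X 7 κ * X 5 1 * na F * (X 5 1 * X 4 κ' * X 5 1 * X 7 κ) := by group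
      _ = na F * (na F * el 0 0 0 κ * (na F)⁻¹ * (X 5 1 * X 4 κ' * X 5 1 * X 7 κ)) := by
        rw [comm (r := 5) (s := 7), mul_assoc (X 7 κ), X_sq, mul_one, el7, na_inv]; simp only [← mul_assoc, na_sq, one_mul]
      _ = _ := by simp [na_el, el5, el4, el7, el_mul, aa]
  have := H.inj (show ι (na F * el 0 (κ + κ') κ' (κ' + κ) * hh l l⁻¹ * (na F * el 0 (κ + κ') κ' (κ' + κ))⁻¹) = ι (na F * hh l l⁻¹ * (na F)⁻¹) by
    rw [← ι_cj, ← e, ← mul_inv_cancel_right (ι (hh l l⁻¹)) y, ← cT h.2, conj_mul, conj_inv, conj_mul, ι_cj, na_hh]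
    exact mul_inv_eq_iff_eq_mul.2 (inv_inv l ▸ cT h.2 l⁻¹))
  rw [cj2, mul_left_inj, mul_right_inj] at this
  rwa [← add0.1 (fix0 (el_inj (el_hh this)).2.2.2 hl)]
theorem ker (h : y ∈ B0 ι t ⊓ C((T0 F).map ι)) (c : y * t = t * y) : ∃ v, ∃ k ∈ C(ι.range), y = ι (X 6 v) * k :=
  let ⟨l, _, hl⟩ := exl (F := F); H.cA1T c (c4 h.1.1) (c6 h.1.1) (c7 h.1.1) hl (cT h.2 l)
theorem KB (hk : k ∈ C(ι.range)) (kt : k * t = t * k) : k ∈ B0 ι t ⊓ C((T0 F).map ι) :=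
  ⟨⟨cent_mono (map_le_range _ _) hk, 0, by rw [kt, ix0, mul_one, mul_inv_cancel_right]⟩, cent_mono (map_le_range _ _) hk⟩
theorem cjK (h : y ∈ B0 ι t ⊓ C((T0 F).map ι)) (hk : k ∈ C(ι.range)) (kt : k * t = t * k) :
    ∃ c, ∃ k' ∈ C(ι.range), y * k * y⁻¹ = ι (X 6 c) * k' := by
  have p := mul_mem (mul_mem h (H.KB hk kt)) (inv_mem h)
  obtain ⟨c, e⟩ := h.1.2
  refine H.ker p (mem_cent1.1 (mem_cent1_symm.1 ((mul_mem_cancel_right (mem_cent1_symm.1 (mem_cent1.2 (c6 p.1.1 c)))).1 ?_)))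
  rw [← e, ← cj_cent1, conj_mem_cj, mem_cent1, kt]
theorem pw (hk : k ∈ C(ι.range)) (x : Γ F) (n : ℕ) : (ι x * k) ^ n = ι (x ^ n) * k ^ n := by
  rw [Commute.mul_pow (mem_cent.1 hk _ ⟨x, rfl⟩), map_pow]
theorem pw1 (hk : k ∈ C(ι.range)) (h : (ι x * k) ^ n = 1) : x ^ n = 1 := by
  rw [H.pw hk] at h
  exact LK H.inj ((eq_inv_of_mul_eq_one_left h).symm ▸ inv_mem (pow_mem hk n))
theorem two (h : y ∈ B0 ι t ⊓ C((T0 F).map ι)) (e : y * t * y⁻¹ = t * ι (X 6 c)) (c0 : c ≠ 0) (hk : k ∈ C(ι.range)) (kt : k * t = t * k)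
    (p : k ^ 2 ^ n = 1) : k = 1 ∨ k = t := by
  induction n generalizing k with
  | zero => exact .inl (by simpa using p)
  | succ m ih =>
    refine H.rk k hk ((ih (mul_mem hk hk) (by rw [mul_assoc, kt, ← mul_assoc, kt, mul_assoc])
      (by rw [← pow_two, ← pow_mul, ← pow_succ', p])).resolve_right fun p => c0 ?_) kt
    obtain ⟨c, k', h', r⟩ := H.cjK h hk kt
    rw [← p, ← conj_mul, r, ← pow_two, H.pw h', pow_two, X_sq, map_one, one_mul, p] at e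
    exact X_eq1 (LK H.inj ((mul_mem_cancel_left H.tK).1 (e ▸ pow_mem h' 2)))
theorem odd_or (h : y ∈ B0 ι t ⊓ C((T0 F).map ι)) (e : y * t * y⁻¹ = t * ι (X 6 c)) (c0 : c ≠ 0) (hk : k ∈ C(ι.range))
    (kt : k * t = t * k) : k ∈ O1 ι t ∨ t * k ∈ O1 ι t := by
  obtain ⟨a, o, rfl, -, a2, o2, ha, ho⟩ := parts k
  obtain ⟨j, p⟩ := pow_of_two a2
  have f : ∀ z ∈ zpowers (a * o), z ∈ C(ι.range) ∧ z * t = t * z := fun z hz =>
    ⟨zpowers_le.2 hk hz, mem_cent1.1 (zpowers_le.2 (mem_cent1.2 kt) hz)⟩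
  exact (H.two h e c0 (f a ha).1 (f a ha).2 p).imp (fun r => by rw [r, one_mul]; exact ⟨(f o ho).1, (f o ho).2, o2⟩)
    fun r => by rw [r, ← mul_assoc, H.tt, one_mul]; exact ⟨(f o ho).1, (f o ho).2, o2⟩
theorem hO (x : Γ F) : ι x ∈ centralizer (O1 ι t) := fun _ ho => (mem_cent.1 ho.1 _ ⟨_, rfl⟩).symm
theorem nY2 (hY : Syl 2 Y (B0 ι t ⊓ C((T0 F).map ι) ⊓ centralizer (O1 ι t))) :
    B0 ι t ⊓ C((T0 F).map ι) ⊓ centralizer (O1 ι t) ≤ N(Y) := le_of_exists_syl fun p hp _ => by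
  by_cases p2 : p = 2
  · exact ⟨Y, p2 ▸ hY, le_normalizer⟩
  obtain ⟨P, hP⟩ := exists_syl p (B0 ι t ⊓ C((T0 F).map ι) ⊓ centralizer (O1 ι t))
  refine ⟨P, hP, fun y hy => cent_le_norm _ (mem_cent.2 fun w hw => ((hY.le hw).2 y ?_).symm)⟩
  have o : PiE {2}ᶜ y := (hP.pi.elt hy).mono (by simpa using Ne.symm p2)
  obtain ⟨h, -⟩ := hP.le hy
  obtain ⟨v, p⟩ := h.1.2
  have := pw_conj p (c6 h.1.1 v) (orderOf y)
  rw [pow_orderOf_eq_one, odd_pow (ix2 ..) (odd_of o), ← p, one_mul, inv_one, mul_one, eq_mul_inv_iff_mul_eq] at this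
  clear p
  obtain ⟨w, k, hk, rfl⟩ := H.ker h this.symm
  have w1 := H.pw1 hk (pow_orderOf_eq_one (ι (X 6 w) * k))
  rw [odd_pow (X_sq ..) (odd_of o)] at w1
  rw [w1, map_one, one_mul] at this o ⊢
  exact ⟨hk, this.symm, o⟩

theorem db (h : D1 ι t) : ∃ β κ s, Db ι t β κ s := by
  obtain ⟨d, hd, κ, κ0, e⟩ := H.b1 h
  obtain ⟨Y, hY⟩ := exists_syl 2 (B0 ι t ⊓ C((T0 F).map ι) ⊓ centralizer (O1 ι t))
  have nB := fun l m => H.nB1 (hA l m) (fun c => ⟨_, hh6 l m c⟩) (hN l m)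
  have hn : ∀ l m, ι (hh l m) ∈ N(Y) := fun l m => mem_norm_iff_cj.2 (hY.eq_of_normal (H.nY2 hY) (hY.Jnorm
    (norms_inf inf_le_left inf_le_right (mem_inf.2 ⟨nB l m, le_normalizer (H.hO _)⟩))))
  have zc : ∀ y ∈ Y, ∀ a, y * ι (X 6 a) = ι (X 6 a) * y := fun y hy => c6 (hY.le hy).1.1.1
  have ker : ∀ y ∈ Y, y * t = t * y → ∃ a, y = ι (X 6 a) ∨ y = ι (X 6 a) * t := fun y hy c => by
    obtain ⟨v, k, hk, rfl⟩ := H.ker (hY.le hy).1 c
    obtain ⟨j, r⟩ := pow_of_two (hY.pi.elt hy)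
    have r' := r
    rw [H.pw hk, H.pw1 hk r, map_one, one_mul] at r'
    exact ⟨v, (H.two hd e κ0 hk (H.Kt (mem_cent1.2 c)) r').imp (fun h => by rw [h, mul_one]) fun h => by rw [h]⟩
  have sq : ∀ y ∈ Y, ∃ a, y * y = ι (X 6 a) := fun y hy => by
    obtain ⟨v, p⟩ := (hY.le hy).1.1.2
    have := pw_conj p (zc y hy v) 2
    rw [pow_two, pow_two, ix2, mul_one, mul_inv_eq_iff_eq_mul] at this
    obtain ⟨w, r | r⟩ := ker _ (mul_mem hy hy) this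
    · exact ⟨w, r⟩
    have c : y * t = t * y := by
      rw [← mul_right_inj (ι (X 6 w)), ← mul_assoc, ← zc y hy, mul_assoc, ← mul_assoc (ι _), ← r, mul_assoc]
    obtain ⟨u, rfl | rfl⟩ := ker y hy c
    · exact ⟨_, ixa ..⟩
    · exact ⟨u + u, by rw [mul_assoc, ← mul_assoc t, H.cen, mul_assoc, H.tt, mul_one, ixa]⟩
  have cm : ∀ a ∈ Y, ∀ b ∈ Y, ∃ e, a * b = b * a * ι (X 6 e) := fun a ha b hb => by
    obtain ⟨e1, p1⟩ := sq a ha
    obtain ⟨e2, p2⟩ := sq b hb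
    obtain ⟨e3, p3⟩ := sq _ (mul_mem hb ha)
    refine ⟨e1 + e3 + e2, ?_⟩
    calc _ = a * a * ((b * a * (b * a))⁻¹ * (b * a)) * (b * b) := by group
      _ = _ := by rw [p1, p2, p3, ixi, ← zc _ (mul_mem hb ha), ← mul_assoc, ← zc _ (mul_mem hb ha), ← ixa, ← ixa]; group
  obtain ⟨l, -, hl⟩ := exl (F := F)
  let T : G → G := fun y => y * ι (hh l l) * y⁻¹ * (ι (hh l l))⁻¹
  have TY : ∀ y ∈ Y, T y ∈ Y := fun y hy => by
    have := mul_mem hy (conj_mem_of_norm (hn l l) (inv_mem hy)); rwa [← mul_assoc, ← mul_assoc] at this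
  have Tt : ∀ y ∈ B0 ι t, ∀ c, y * t * y⁻¹ = t * ι (X 6 c) → T y * t * (T y)⁻¹ = t * ι (X 6 ((l ^ 2 + 1) * c)) := fun y hy c p => by
    have q : y⁻¹ * t * y⁻¹⁻¹ = t * ι (X 6 c) := by
      rw [inv_inv, ← ixi, eq_mul_inv_iff_mul_eq, mul_assoc, c6 hy.1, ← mul_assoc, mul_assoc _ t, ← p]; group
    rw [show T y = y * (ι (hh l l) * y⁻¹ * (ι (hh l l))⁻¹) by simp only [T]; group, bm (c6 hy.1 _) p (hh6 l l c ▸ H.cct q _),
      add_one_mul, pow_two, add_comm]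
  have Tm : ∀ a ∈ Y, ∀ b ∈ Y, ∃ e, T (a * b) = T b * T a * ι (X 6 e) := fun a ha b hb => by
    obtain ⟨e, p⟩ := cm a ha _ (TY b hb)
    refine ⟨e, ?_⟩
    calc _ = a * T b * a⁻¹ * T a := by simp only [T]; group
      _ = _ := by rw [p, mul_assoc (T b), zc a ha, ← mul_assoc (T b), mul_inv_cancel_right, mul_assoc, ← zc _ (TY a ha), ← mul_assoc]
  have Th : ∀ a b y, ι (hh a b) * T y * (ι (hh a b))⁻¹ = T (ι (hh a b) * y * (ι (hh a b))⁻¹) := fun a b y => by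
    have : ι (hh a b) * ι (hh l l) * (ι (hh a b))⁻¹ = ι (hh l l) := by rw [ι_cj, hh_comm, mul_inv_cancel_right]
    simp only [T]
    nth_rw 3 4 [← this]
    group
  obtain ⟨y, hy, e1⟩ : ∃ y ∈ Y, T y * t * (T y)⁻¹ = t * ι (X 6 1) := by
    have dD : T d ∈ B0 ι t ⊓ C((T0 F).map ι) ⊓ centralizer (O1 ι t) := ⟨by
      have := mul_mem hd (conj_mem_of_norm (nB l l) (inv_mem hd)); rwa [← mul_assoc, ← mul_assoc] at this, fun o ho => by
      obtain ⟨c, k, hk, r⟩ := H.cjK (inv_mem hd) ho.1 ho.2.1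
      have := H.pw1 (n := orderOf o) hk (by rw [← r, conj_pow, pow_orderOf_eq_one]; simp)
      rw [odd_pow (X_sq ..) (odd_of ho.2.2)] at this
      rw [this, map_one, one_mul] at r
      have c1 := mem_cent.1 ho.1 _ ⟨(hh l l)⁻¹, rfl⟩
      have c2 := mem_cent.1 hk _ ⟨hh l l, rfl⟩
      rw [map_inv] at c1
      calc _ = d * (d⁻¹ * o * d⁻¹⁻¹ * ι (hh l l)) * d⁻¹ * (ι (hh l l))⁻¹ := by simp only [T]; group
        _ = d * ι (hh l l) * d⁻¹ * (o * (ι (hh l l))⁻¹) := by rw [r, ← c2, ← r]; group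
        _ = _ := by rw [← c1]; simp only [T]; group⟩
    have p := Tt d hd.1 κ e
    generalize T d = d' at p dD
    obtain ⟨j, m, hm, r⟩ := Nat.exists_eq_two_pow_mul_odd (orderOf_pos d').ne'
    have p' := pw_conj p (c6 dD.1.1.1 _) m
    rw [odd_pow (ix2 ..) hm] at p'
    have yY : d' ^ m ∈ Y := hY.mem_of_normal (H.nY2 hY) (pow_mem dD m) (two_of_pow (j := j) (by rw [← pow_mul, mul_comm, ← r, pow_orderOf_eq_one]))
    obtain ⟨u, hu⟩ := sqU (inv_ne_zero (mul_ne_zero hl (mul_ne_zero hl κ0)))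
    refine ⟨_, conj_mem_of_norm (hn u u) yY, ?_⟩
    rw [← Th, H.cct (Tt _ (hY.le yY).1.1 _ p'), hh6, ← pow_two, hu, inv_mul_cancel₀ (mul_ne_zero hl (mul_ne_zero hl κ0))]
  have bY := TY y hy
  obtain ⟨s, hs⟩ := sq _ bY
  obtain ⟨κ', p5, p2⟩ := H.a52 (hY.le bY).1
  classical
  choose r hr using fun c : Fˣ => sqU c.ne_zero
  let β : F → G := fun c => if h : c = 0 then 1 else ι (hh (r (Units.mk0 c h)) (r (Units.mk0 c h))) * T y * (ι (hh (r (Units.mk0 c h)) (r (Units.mk0 c h))))⁻¹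
  have β0 : β 0 = 1 := dif_pos rfl
  have βu : ∀ a b : Fˣ, β (a * b) = ι (hh a b) * T y * (ι (hh a b))⁻¹ := fun a b => by
    have n0 : (a : F) * b ≠ 0 := by simp
    have := hr (Units.mk0 _ n0)
    simp only [β, dif_neg n0]
    generalize r _ = j at this ⊢
    have e : hh a b = hh j j * hh (j⁻¹ * a) (j⁻¹ * a)⁻¹ := by
      rw [hh_mul, mul_inv_cancel_left]; congr 1; apply Units.ext; simp [← pow_two, this]; field_simp; rw [this]; simp [mul_comm]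
    rw [e, map_mul, cj2, ← cT (hY.le bY).1.2, mul_inv_cancel_right]
  clear_value β
  have ind : ∀ P : F → G → Prop, P 0 1 → (∀ a : Fˣ, P (a * a) (ι (hh a a) * T y * (ι (hh a a))⁻¹)) → ∀ c, P c (β c) := fun P p0 p1 c => by
    by_cases c0 : c = 0
    · rwa [c0, β0]
    · obtain ⟨a, rfl⟩ := sqU c0
      rw [pow_two, βu]; exact p1 a
  have βY : ∀ c, β c ∈ Y := ind (fun _ y => y ∈ Y) (one_mem _) fun a => conj_mem_of_norm (hn a a) bY
  have ct : ∀ c, β c * t * (β c)⁻¹ = t * ι (X 6 c) := ind (fun c y => y * t * y⁻¹ = t * ι (X 6 c)) (by simp [X_zero]) fun a => by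
    rw [H.cct e1, hh6, mul_one]
  have tor : ∀ l m c, ι (hh l m) * β c * (ι (hh l m))⁻¹ = β (l * m * c) :=
    fun l m => ind (fun c y => ι (hh l m) * y * (ι (hh l m))⁻¹ = β (l * m * c)) (by simp [β0]) fun a => by
      rw [← cj2, ← map_mul, hh_mul, ← βu]; congr 1; push_cast; ring
  have ss : ∀ c, β c * β c = ι (X 6 (s * c)) := ind (fun c y => y * y = ι (X 6 (s * c))) (by simp [X_zero]) fun a => by
    rw [conj_mul, hs, ι_cj, hh6, mul_comm s]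
  have tri : ∀ a b c : Fˣ, (a : F) + b + c = 0 → ∃ e, β a * β b * β c = ι (X 6 e) := fun a b c p => by
    have Yh := fun a => conj_mem_of_norm (hn a 1) hy
    obtain ⟨e1, q1⟩ := Tm _ (mul_mem (Yh c) (Yh b)) _ (Yh a)
    obtain ⟨e2, q2⟩ := Tm _ (Yh c) _ (Yh b)
    rw [q2, ← Th, ← Th, ← Th, ← βu, ← βu, ← βu, Units.val_one, mul_one, mul_one, mul_one] at q1
    obtain ⟨v, e3⟩ := (hY.le hy).1.1.2
    obtain ⟨f, q3⟩ : ∃ f, T (ι (hh c 1) * y * (ι (hh c 1))⁻¹ * (ι (hh b 1) * y * (ι (hh b 1))⁻¹) * (ι (hh a 1) * y * (ι (hh a 1))⁻¹)) = ι (X 6 f) := by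
      obtain ⟨w, r⟩ := ker _ (mul_mem (mul_mem (Yh c) (Yh b)) (Yh a)) (mul_inv_eq_iff_eq_mul.1 (by
        have k := fun a => hh6 a 1 v ▸ H.cct e3 (hh a 1)
        rw [bm (zc _ (mul_mem (Yh c) (Yh b)) _) (bm (zc _ (Yh c) _) (k c) (k b)) (k a), ← add_mul, ← add_mul]
        simp [show (c : F) + b + a = 0 by rw [← p]; ring, X_zero]))
      refine ⟨w + l * l * w, ?_⟩
      rw [← ixa, ← hh6, ← ι_cj, ← ixi 6 w]
      rcases r with r | r <;> simp only [r, T]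
      · rw [ixi]; group
      · rw [ht rfl (H.cen _), ixi]; group
    refine ⟨f + e1 + e2, ?_⟩
    rw [← ixa, ← ixa, ← q3, q1, mul_assoc _ (ι (X 6 e1)) (ι (X 6 e1)), ix2, mul_one, mul_assoc (β a), mul_assoc (β a), mul_assoc _ (ι _),
      ix2, mul_one]
  have u0 : ∀ {c : F}, c ≠ 0 → ∃ a : Fˣ, c = a := fun h => ⟨Units.mk0 _ h, rfl⟩
  have cm' : ∀ c d, β c * β d = β d * β c := fun c d => by
    by_cases c0 : c = 0
    · simp [c0, β0]
    by_cases d0 : d = 0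
    · simp [d0, β0]
    by_cases cd : c + d = 0
    · rw [add0.1 cd]
    obtain ⟨a, rfl⟩ := u0 c0
    obtain ⟨b, rfl⟩ := u0 d0
    obtain ⟨e, k⟩ := u0 cd
    obtain ⟨f, p⟩ := tri a b e (by rw [k, aa])
    have : β a * β b * (β a * β b) = β a * β a * (β b * β b) := by
      rw [eq_mul_inv_of_mul_eq p, ← zc _ (inv_mem (βY _)), mul_assoc, ← mul_assoc (ι _), ← zc _ (inv_mem (βY _)), mul_assoc _ (ι _), ix2,
        mul_one, ← mul_inv_rev, ss, ss, ss, ixa, ixi, ← k, mul_add]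
    rw [mul_assoc, mul_assoc, mul_right_inj, ← mul_assoc, ← mul_assoc, mul_left_inj] at this
    exact this.symm
  refine ⟨β, κ', s, ct, fun c d => ?_, fun c => c4 (hY.le (βY c)).1.1.1, fun c => zc _ (βY c), fun c => c7 (hY.le (βY c)).1.1.1,
    ind (fun c y => ∀ u, y * ι (X 5 u) * y⁻¹ = ι (X 5 u) * ι (X 7 (κ' * c * u))) (by simp [X_zero]) fun a u => ?_,
    ind (fun c y => ∀ u, y * ι (X 2 u) * y⁻¹ = ι (X 2 u) * ι (X 4 (κ' * c * u))) (by simp [X_zero]) fun a u => ?_, tor,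
    fun k => H.odd_or hd e κ0, fun o ho c => (hY.le (βY c)).2 o ho⟩
  · by_cases c0 : c = 0
    · simp [c0, β0, X_zero]
    by_cases d0 : d = 0
    · simp [d0, β0, X_zero]
    by_cases cd : c + d = 0
    · rw [add0.1 cd, aa, ss, β0, one_mul, pow_two, mul_assoc]
    obtain ⟨a, rfl⟩ := u0 c0
    obtain ⟨b, rfl⟩ := u0 d0
    obtain ⟨e, k⟩ := u0 cd
    obtain ⟨f, p⟩ := tri a b e (by rw [k, aa])
    have q : ∀ j : Fˣ, β (j * a) * β (j * b) * β (j * e) = ι (X 6 (j * f)) := fun j => by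
      simpa only [← conj_mul, tor, ι_cj, hh6, Units.val_one, mul_one] using congrArg (fun z => ι (hh j 1) * z * (ι (hh j 1))⁻¹) p
    have := congrArg₂ (· * ·) (congrArg₂ (· * ·) (q a) (q b)) (q e)
    simp only [ixa, ← add_mul, k, aa, zero_mul, ix0, mul_comm (b : F) a, mul_comm (e : F) a, mul_comm (e : F) b] at this
    have r := (nine cm' ..).trans this
    rw [ss, ss, ss, ixa, ixa, mul_assoc, mul_eq_one_iff_eq_inv, mul_inv_rev, ixi, ← mul_inv_cancel_right (β (e * e))⁻¹ (β (e * e))⁻¹,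
      ← mul_inv_rev, ss, ixi, inv_inv, ← mul_assoc, ixa, ← zc _ (βY _)] at r
    rw [← sqadd, k, pow_two, pow_two, pow_two, r, ← k]
    congr 3; linear_combination (s * (2 * a * b + a ^ 2 + b ^ 2)) * (h2 : (2 : F) = 0)
  · rw [show X 5 u = hh a a * X 5 u * (hh a a)⁻¹ by simp [hh5], ← ι_cj, conj_mul, conj_inv, conj_mul, p5, ← conj_mul, ι_cj _ (X 7 _), hh7]
    congr 3; ring
  · rw [show X 2 u = hh a a * X 2 u * (hh a a)⁻¹ by simp [hh_conj, ca, cb], ← ι_cj, conj_mul, conj_inv, conj_mul, p2, ← conj_mul,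
      ι_cj _ (X 4 _), hh4]
    congr 3; ring
end Hyp

theorem db : DB.{u} := fun _ _ H => H.db

end H27.S4
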