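/-
Standard subgroups of type `Sp₄(2ⁿ)`: neighbouring doubled root groups.
-/
import Cfsg.Agent.H27.W5

set_option autoImplicit false
set_option linter.unusedSectionVars false

namespace H27.S4
open Cfsg Subgroup
open H28.CY hiding aa h2
open H19 hiding PG
open H1.YG (Big h2 aa ng add0 sqadd ex_n four_le ex_sqrt sq_inj)

universe u
variable {F : Type} [Field F] [Big F] {G : Type u} [Group G] [Finite G] {ι : Γ F →* G} {g k t y y' : G} {x : Γ F}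
  {c d u v w κ s κ' s' : F} {l m : Fˣ} {B : Subgroup G} {β δ : F → G}

/-- conjugation -/
def cn (g x : G) : G := g * x * g⁻¹
@[inherit_doc] scoped infixr:73 " ⋆ " => cn
theorem cnm (g a b : G) : g ⋆ (a * b) = g ⋆ a * g ⋆ b := conj_mul.symm
theorem cni (g a : G) : g ⋆ a⁻¹ = (g ⋆ a)⁻¹ := conj_inv.symm
theorem cn1 (g : G) : g ⋆ 1 = 1 := by simp [cn]
theorem cn0 (g : G) : 1 ⋆ g = g := by simp [cn]
theorem mcn (a b x : G) : (a * b) ⋆ x = a ⋆ b ⋆ x := cj2 ..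
theorem cnn (g a b : G) : g ⋆ a ⋆ b = (g ⋆ a) ⋆ g ⋆ b := by simp only [cn]; group
theorem icn (g a : G) : g⁻¹ ⋆ g ⋆ a = a := by simp only [cn]; group
theorem cnci (g a : G) : g ⋆ g⁻¹ ⋆ a = a := by simp only [cn]; group
theorem cjc (h : y * g = g * y) : y ⋆ g = g := by rw [cn, h, mul_inv_cancel_right]
theorem cjc' (h : y ⋆ g = g) : y * g = g * y := mul_inv_eq_iff_eq_mul.1 h
theorem cic (h : y * g = g * y) : y⁻¹ ⋆ g = g := cjc (Commute.inv_left h)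
theorem cji (h : y ⋆ g = g * k) (c : y * k = k * y) (kk : k * k = 1) : y⁻¹ ⋆ g = g * k := by
  rw [← icn y (g * k), cnm, h, cjc c, mul_assoc, kk, mul_one]
theorem swp (h : y ⋆ g = g * k) (gg : g * g = 1) (c : y * k = k * y) : g ⋆ y = y * k := by
  rw [cn, inv_eq_of_mul_eq_one_right gg, mul_assoc, mul_inv_eq_iff_eq_mul.1 h, ← mul_assoc, ← mul_assoc, gg, one_mul, c]
theorem ιn (a x : Γ F) : ι a ⋆ ι x = ι (a * x * a⁻¹) := ι_cj ..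
theorem Na_eq (a : G) : Na ι a = ι (na F) ⋆ a := rfl
theorem Nb_eq (a : G) : Nb ι a = ι (nb F) ⋆ a := rfl
theorem Na_mul (a b : G) : Na ι (a * b) = Na ι a * Na ι b := conj_mul.symm
theorem Nb_mul (a b : G) : Nb ι (a * b) = Nb ι a * Nb ι b := conj_mul.symm
theorem Na_inv (a : G) : Na ι a⁻¹ = (Na ι a)⁻¹ := conj_inv.symm
theorem Nb_inv (a : G) : Nb ι a⁻¹ = (Nb ι a)⁻¹ := conj_inv.symm
theorem Na_cn (a b : G) : Na ι (a ⋆ b) = Na ι a ⋆ Na ι b := cnn ..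
theorem Nb_cn (a b : G) : Nb ι (a ⋆ b) = Nb ι a ⋆ Nb ι b := cnn ..
theorem Na_one : Na ι 1 = 1 := cn1 _
theorem Nb_one : Nb ι 1 = 1 := cn1 _
theorem Na_X (r : I) (c : F) : Na ι (ι (X r c)) = ι (X (sa r) c) := by rw [Na, ι_cj, na_conj]
theorem Nb_X (r : I) (c : F) : Nb ι (ι (X r c)) = ι (X (sb r) c) := by rw [Nb, ι_cj, nb_conj]
theorem sab : sa 5 = 2 ∧ sa 2 = 5 ∧ sa 4 = 7 ∧ sa 7 = 4 ∧ sa 6 = 6 ∧ sb 5 = 6 ∧ sb 6 = 5 ∧ sb 4 = 3 ∧ sb 3 = 4 ∧ sb 7 = 7 := by decide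
theorem Na_h (l m : Fˣ) : Na ι (ι (hh l m)) = ι (hh m l) := by rw [Na, ι_cj, na_hh]
theorem Nb_h (l m : Fˣ) : Nb ι (ι (hh l m)) = ι (hh l m⁻¹) := by rw [Nb, ι_cj, nb_hh]
theorem Na_Na (a : G) : Na ι (Na ι a) = a := by rw [Na, Na, ← cj2, ← map_mul, na_sq]; simp
theorem Nb_Nb (a : G) : Nb ι (Nb ι a) = a := by rw [Nb, Nb, ← cj2, ← map_mul, nb_sq]; simp
theorem Hyp.xt (H : Hyp ι t) (x : Γ F) : ι x ⋆ t = t := H.tcj _
theorem Hyp.tx (H : Hyp ι t) (x : Γ F) : t ⋆ ι x = ι x := cjc (H.cen x)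
theorem Hyp.Na_t (H : Hyp ι t) : Na ι t = t := H.tcj _
theorem Hyp.Nb_t (H : Hyp ι t) : Nb ι t = t := H.tcj _
theorem ιZ (v w : F) : ι (el 0 0 v w) = ι (X 6 v) * ι (X 7 w) := by rw [elZ, map_mul]
theorem ι45 (u c : F) : ι (X 4 u) ⋆ ι (X 5 c) = ι (X 5 c) * ι (X 6 (c * u)) * ι (X 7 (c ^ 2 * u)) := by
  rw [ιn, el4, el5, el_cj]; simp [-map_mul, ← map_mul, el6, el7, el_mul]
theorem ι54 (u c : F) : ι (X 5 u) ⋆ ι (X 4 c) = ι (X 4 c) * ι (X 6 (u * c)) * ι (X 7 (u ^ 2 * c)) := by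
  rw [ιn, el4, el5, el_cj]; simp [-map_mul, ← map_mul, el6, el7, el_mul]
theorem ι27 (u c : F) : ι (X 2 u) ⋆ ι (X 7 c) = ι (X 7 c) * ι (X 6 (u * c)) * ι (X 4 (u ^ 2 * c)) := by
  simpa only [Na_mul, Na_cn, Na_X, sab] using congrArg (Na ι) (ι54 (ι := ι) u c)
theorem ι36 (u c : F) : ι (X 3 u) ⋆ ι (X 6 c) = ι (X 6 c) * ι (X 5 (c * u)) * ι (X 7 (c ^ 2 * u)) := by
  simpa only [Nb_mul, Nb_cn, Nb_X, sab] using congrArg (Nb ι) (ι45 (ι := ι) u c)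
theorem xx' {r s : I} (h : cm r s = true := by decide +kernel) (c d : F) : ι (X r c) ⋆ ι (X s d) = ι (X s d) := cjc (ixc h c d)
theorem h4 (l m : Fˣ) (u : F) : ι (hh l m) ⋆ ι (X 4 u) = ι (X 4 (m ^ 2 * u)) := by rw [ιn, hh4]
theorem h5 (l m : Fˣ) (u : F) : ι (hh l m) ⋆ ι (X 5 u) = ι (X 5 (l * m⁻¹ * u)) := by rw [ιn, hh5]
theorem h6 (l m : Fˣ) (u : F) : ι (hh l m) ⋆ ι (X 6 u) = ι (X 6 (l * m * u)) := by rw [ιn, hh6]
theorem h7 (l m : Fˣ) (u : F) : ι (hh l m) ⋆ ι (X 7 u) = ι (X 7 (l ^ 2 * u)) := by rw [ιn, hh7]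
/-- the commutator with `h` -/
theorem ht' {h : G} (e : g = y * k) (c : k * h = h * k) : g * h ⋆ g⁻¹ = y * h ⋆ y⁻¹ := by
  have := ht e c; simp only [cn]; rwa [← mul_assoc, ← mul_assoc, ← mul_assoc, ← mul_assoc]
theorem tw_γγ (ι : Γ F →* G) : tw (tw ι (γ F)) (γ F) = tw ι (φ (fr F)) := by rw [← γγ]; rfl
theorem ex_hh' (hc : c ≠ 0) (hd : d ≠ 0) : ∃ l m : Fˣ, (l : F) * m⁻¹ = c ∧ (l : F) * m = d ∧ (l : F) ^ 2 = c * d := by
  obtain ⟨a, b, e1, e2⟩ := ex_hh hd (mul_ne_zero hc hd)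
  exact ⟨a, b, by rw [← mul_left_inj' hd, ← e2, ← e1]; simp [pow_two, mul_assoc, mul_left_comm (b : F)⁻¹], e1, e2⟩

namespace Db
variable (D : Db ι t β κ s)
include D
theorem zero : β 0 = 1 := by simpa [X_zero] using D.mul 0 0
theorem mul' (c d : F) : ∃ e, β c * β d = β (c + d) * ι (X 6 e) := by
  obtain ⟨c, rfl⟩ := ex_sqrt c
  obtain ⟨d, rfl⟩ := ex_sqrt d
  exact ⟨_, D.mul c d⟩
theorem comm (c d : F) : β c * β d = β d * β c := by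
  obtain ⟨c, rfl⟩ := ex_sqrt c
  obtain ⟨d, rfl⟩ := ex_sqrt d
  rw [D.mul, D.mul, add_comm, mul_right_comm]
theorem sq (c : F) : β c * β c = ι (X 6 (s * c)) := by
  obtain ⟨c, rfl⟩ := ex_sqrt c
  rw [D.mul, aa, D.zero, one_mul, pow_two, mul_assoc]
theorem inv (c : F) : (β c)⁻¹ = β c * ι (X 6 (s * c)) := inv_eq_of_mul_eq_one_right (by rw [← mul_assoc, D.sq, ix2])
theorem bt (c : F) : β c ⋆ t = t * ι (X 6 c) := D.ct c
theorem b4 (c u : F) : β c ⋆ ι (X 4 u) = ι (X 4 u) := cjc (D.c4 ..)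
theorem b6 (c u : F) : β c ⋆ ι (X 6 u) = ι (X 6 u) := cjc (D.c6 ..)
theorem b7 (c u : F) : β c ⋆ ι (X 7 u) = ι (X 7 u) := cjc (D.c7 ..)
theorem b5 (c u : F) : β c ⋆ ι (X 5 u) = ι (X 5 u) * ι (X 7 (κ * c * u)) := D.c5 ..
theorem it (c : F) : (β c)⁻¹ ⋆ t = t * ι (X 6 c) := cji (D.ct c) (D.c6 ..) (ix2 ..)
theorem i4 (c u : F) : (β c)⁻¹ ⋆ ι (X 4 u) = ι (X 4 u) := cic (D.c4 ..)
theorem i6 (c u : F) : (β c)⁻¹ ⋆ ι (X 6 u) = ι (X 6 u) := cic (D.c6 ..)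
theorem i7 (c u : F) : (β c)⁻¹ ⋆ ι (X 7 u) = ι (X 7 u) := cic (D.c7 ..)
theorem i5 (c u : F) : (β c)⁻¹ ⋆ ι (X 5 u) = ι (X 5 u) * ι (X 7 (κ * c * u)) := cji (D.c5 ..) (D.c7 ..) (ix2 ..)
theorem hb (l m : Fˣ) (c : F) : ι (hh l m) ⋆ β c = β (l * m * c) := D.tor ..
theorem hc (l m : Fˣ) (c : F) : ∃ e, β c * ι (hh l m) ⋆ (β c)⁻¹ = β ((l * m + 1) * c) * ι (X 6 e) := by
  obtain ⟨e, p⟩ := D.mul' c (l * m * c)
  exact ⟨e + s * (l * m * c), by rw [cni, D.hb, D.inv, ← mul_assoc, p, mul_assoc, ixa, add_one_mul, add_comm c]⟩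
theorem tb (H : Hyp ι t) (c : F) : t ⋆ β c = β c * ι (X 6 c) := swp (D.ct c) H.tt (D.c6 ..)
theorem x4 (u c : F) : ι (X 4 u) ⋆ β c = β c := cjc (D.c4 ..).symm
theorem x6 (u c : F) : ι (X 6 u) ⋆ β c = β c := cjc (D.c6 ..).symm
theorem x7 (u c : F) : ι (X 7 u) ⋆ β c = β c := cjc (D.c7 ..).symm
theorem x5 (u c : F) : ι (X 5 u) ⋆ β c = β c * ι (X 7 (κ * c * u)) := swp (D.c5 c u) (ix2 ..) (D.c7 ..)
theorem x2 (u c : F) : ι (X 2 u) ⋆ β c = β c * ι (X 4 (κ * c * u)) := swp (D.c2 c u) (ix2 ..) (D.c4 ..)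
theorem na (c : F) : Na ι (β c) = β c * ι (X 6 (κ * c)) := by
  simp only [Na_eq, na_def, map_mul, mcn, cnm, D.x5, D.x2, ι27, ι54, xx' (r := 5) (s := 7), xx' (r := 5) (s := 6)]
  simp [-map_mul, mul_assoc, ← map_mul, el4, el6, el7, el_mul, aa]
theorem fld (σ : F ≃+* F) : Db (tw ι (φ σ)) t (fun c => β (σ c)) (σ.symm κ) (σ.symm s) where
  ct c := by rw [tw_ap, φ_X, D.ct]
  mul c d := by simp only [tw_ap, φ_X, map_pow, map_add, map_mul, D.mul, RingEquiv.apply_symm_apply]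
  c4 c u := by rw [tw_ap, φ_X, D.c4]
  c6 c u := by rw [tw_ap, φ_X, D.c6]
  c7 c u := by rw [tw_ap, φ_X, D.c7]
  c5 c u := by simp only [tw_ap, φ_X, map_mul, D.c5, RingEquiv.apply_symm_apply]
  c2 c u := by simp only [tw_ap, φ_X, map_mul, D.c2, RingEquiv.apply_symm_apply]
  tor l m c := by simp only [tw_ap, φ_hh, map_mul, D.tor, uσ_val]
  hk := by simpa only [O1, tw_range] using D.hk
  hO o ho c := D.hO o (by simpa only [O1, tw_range] using ho) _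
theorem gg : Db (tw (tw ι (γ F)) (γ F)) t (fun c => β (c ^ 2)) ((fr F).symm κ) ((fr F).symm s) := tw_γγ ι ▸ D.fld (fr F)
theorem c5' (c u : F) : Nb ι (β c) * ι (X 5 u) = ι (X 5 u) * Nb ι (β c) := by simpa only [Nb_mul, Nb_X, sab] using congrArg (Nb ι) (D.c6 c u)
theorem c3' (c u : F) : Nb ι (β c) * ι (X 3 u) = ι (X 3 u) * Nb ι (β c) := by simpa only [Nb_mul, Nb_X, sab] using congrArg (Nb ι) (D.c4 c u)
theorem c7' (c u : F) : Nb ι (β c) * ι (X 7 u) = ι (X 7 u) * Nb ι (β c) := by simpa only [Nb_mul, Nb_X, sab] using congrArg (Nb ι) (D.c7 c u)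
theorem nt (H : Hyp ι t) (c : F) : Nb ι (β c) ⋆ t = t * ι (X 5 c) := by
  simpa only [Nb_mul, Nb_cn, Nb_X, H.Nb_t, sab] using congrArg (Nb ι) (D.bt c)
theorem n5 (c u : F) : Nb ι (β c) ⋆ ι (X 5 u) = ι (X 5 u) := cjc (D.c5' ..)
theorem n7 (c u : F) : Nb ι (β c) ⋆ ι (X 7 u) = ι (X 7 u) := cjc (D.c7' ..)
theorem n6 (c u : F) : Nb ι (β c) ⋆ ι (X 6 u) = ι (X 6 u) * ι (X 7 (κ * c * u)) := by
  simpa only [Nb_mul, Nb_cn, Nb_X, sab] using congrArg (Nb ι) (D.b5 c u)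
theorem jt (H : Hyp ι t) (c : F) : (Nb ι (β c))⁻¹ ⋆ t = t * ι (X 5 c) := cji (D.nt H c) (D.c5' ..) (ix2 ..)
theorem j5 (c u : F) : (Nb ι (β c))⁻¹ ⋆ ι (X 5 u) = ι (X 5 u) := cic (D.c5' ..)
theorem j7 (c u : F) : (Nb ι (β c))⁻¹ ⋆ ι (X 7 u) = ι (X 7 u) := cic (D.c7' ..)
theorem j6 (c u : F) : (Nb ι (β c))⁻¹ ⋆ ι (X 6 u) = ι (X 6 u) * ι (X 7 (κ * c * u)) := cji (D.n6 ..) (D.c7' ..) (ix2 ..)
theorem hn (l m : Fˣ) (c : F) : ι (hh l m) ⋆ Nb ι (β c) = Nb ι (β (l * m⁻¹ * c)) := by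
  simpa only [Nb_cn, Nb_h, inv_inv, Units.val_inv_eq_inv_val] using congrArg (Nb ι) (D.hb l m⁻¹ c)
theorem nh (l : Fˣ) (c : F) : Nb ι (β c) ⋆ ι (hh l l) = ι (hh l l) := cjc (cjc' (by simpa using D.hn l l c)).symm
theorem mul5 (c d : F) : ∃ e, Nb ι (β c) * Nb ι (β d) = Nb ι (β (c + d)) * ι (X 5 e) :=
  (D.mul' c d).imp fun _ p => by simpa only [Nb_mul, Nb_X, sab] using congrArg (Nb ι) p
theorem n56 (H : Hyp ι t) : ∃ ρ, ∀ c d, Nb ι (β c) ⋆ β d = β d * ι (X 7 (ρ * c * d)) := by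
  obtain ⟨l, -, hl⟩ := exl (F := F)
  have B : ∀ c d, ∃ v w, Nb ι (β c) ⋆ β d = β d * ι (X 6 v) * ι (X 7 w) := fun c d => by
    obtain ⟨e, q'⟩ := D.hc l l (d / (l ^ 2 + 1))
    rw [← pow_two, mul_div_cancel₀ _ hl] at q'
    generalize d / (l ^ 2 + 1) = d' at q'
    have f : ∀ x, ((β d')⁻¹ * Nb ι (β c) ⋆ β d') ⋆ x = (β d')⁻¹ ⋆ Nb ι (β c) ⋆ β d' ⋆ (Nb ι (β c))⁻¹ ⋆ x := fun x => by simp only [cn]; group
    obtain ⟨p, v, w, k, hk, r⟩ := H.cQ2 (g := (β d')⁻¹ * Nb ι (β c) ⋆ β d') (cjc' (by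
        simp only [f, cnm, D.jt H, D.bt, D.b5, D.nt H, D.n5, D.n6, D.n7, D.it, D.i5, D.i6, D.i7]
        simp [-map_mul, mul_assoc, ← map_mul, el5, el6, el7, el_mul, aa, el0, mul_comm, mul_left_comm]))
      (fun u => ⟨_, (f _).trans (by simp only [cnm, D.j5, D.b5, D.n5, D.n7, D.i5, D.i7]; rw [mul_assoc, ixa])⟩)
      (fun u => ⟨_, (f _).trans (by simp only [cnm, D.j6, D.b6, D.b7, D.n6, D.n7, D.i6, D.i7]; rw [mul_assoc, ixa])⟩)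
      fun u => cjc' ((f _).trans (by rw [D.j7, D.b7, D.n7, D.i7]))
    have q := ht' (h := ι (hh l l)) (inv_mul_eq_iff_eq_mul.1 r |>.trans (mul_assoc ..).symm) (mem_cent.1 hk _ ⟨_, rfl⟩).symm
    rw [← cni, ← D.nh l c, ← cnn, ← cnm, q', D.nh, mul_inv_rev, cnm, cnm, D.n6, mul_assoc (β d'), ← mul_assoc (ι (el _ _ _ _)), ← map_inv, ιn, ← map_mul _ (el _ _ _ _),
      show el p 0 v w * (hh l l * (el p 0 v w)⁻¹ * (hh l l)⁻¹) = el 0 0 (v + l ^ 2 * v) (w + l ^ 2 * w) by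
        simp [el_inv, hh_el, el_mul, aa, pow_two], ← mul_assoc (β d'), ιZ, ← mul_assoc (β d'), D.c6, mul_assoc _ (β d'), D.c7,
      mul_assoc (ι (X 6 _)), mul_assoc _ (β d'), q', ← mul_assoc (ι (X 7 _)), ← D.c7, ← mul_assoc (ι (X 6 (v + _))), ← mul_assoc (ι (X 6 (v + _))), ← D.c6,
      ← eq_mul_inv_iff_mul_eq, mul_inv_rev, ixi, ixi] at q
    exact ⟨_, _, q.trans (by simp only [mul_assoc, ← map_mul, el6, el7, el_mul, add_zero, zero_add, mul_zero, zero_pow two_ne_zero]; rfl)⟩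
  choose v w B using B
  have un : ∀ {d v w v' w'}, β d * ι (X 6 v) * ι (X 7 w) = β d * ι (X 6 v') * ι (X 7 w') → v = v' := fun e => by
    rw [mul_assoc, mul_assoc, mul_right_inj, ← ιZ, ← ιZ] at e; exact (el_inj (H.inj e)).2.2.1
  have v0 : ∀ d c, v c d = 0 := fun d => wt0 (f := fun c => v c d) (l := l ^ 2) (fun a b => by
      obtain ⟨e, p⟩ := D.mul5 a b
      exact un ((B ..).symm.trans (by
        simp only [← mul_inv_eq_iff_eq_mul.2 p, ixi, mcn, cnm, D.x5, B, D.n7, D.n6]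
        simp only [mul_assoc, ← map_mul, el6, el7, el_mul, add_zero, zero_add, mul_zero, zero_pow two_ne_zero]; rfl))) hl (fun c => by
      have := congrArg (ι (hh l l⁻¹) ⋆ ·) (B c d)
      simp only [cnm, cnn (ι _), D.hn, D.hb, h6, h7, Units.mul_inv, one_mul, inv_inv, ← pow_two] at this
      exact un ((B ..).symm.trans this)) fun _ => aa _
  simp only [v0, ix0, mul_one] at B
  refine ⟨w 1 1, fun c d => ?_⟩
  by_cases c0 : c = 0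
  · simp [c0, D.zero, Nb_one, X_zero, cn0]
  by_cases d0 : d = 0
  · simp [d0, D.zero, X_zero, cn1]
  obtain ⟨a, b, e0, e1, e2⟩ := ex_hh' c0 d0
  have := congrArg (ι (hh a b) ⋆ ·) (B 1 1)
  simp only [cnm, cnn (ι _), D.hn, D.hb, h7, mul_one, e0, e1, e2] at this
  rwa [mul_comm (c * d), ← mul_assoc] at this
end Db

end H27.S4
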