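/-
Unbalancing triples: models of the groups of Lie type in odd characteristic.
-/
import Cfsg.Agent.H27.BL14

set_option autoImplicit false
set_option linter.unusedSectionVars false

namespace H27.UA

open Matrix H14 H14.RootSys H14.St H14.PreSt H14.St.Tw H11 Function H27.ID H27.BL H27.LB H11.AS Cfsg Cfsg.Lie

section
variable {ι κ : Type} [Fintype κ] [DecidableEq κ] [Fintype ι] [DecidableEq ι] {R : RootSys ι κ} {C : Chev R}
  {K G G0 Γ : Type} [Field K] [Group G] [Group G0] [Group Γ] {S : St C K G}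

/-- `Γ = G0 / Z(G0)` and `G0` is embedded in the fixed points -/
structure Mo (F : S.Fr) (p : ℕ) (e : G0 →* G) (π : G0 →* Γ) : Prop where
  sw : Sw F Set.univ p
  conn : R.Conn
  em : Em p F e
  sur : Surjective π
  ker : π.ker = Subgroup.center G0

/-- `β` is induced by `σ` followed by conjugation with `a` -/
def Iq (π : G0 →* Γ) (e : G0 →* G) (β : MulAut Γ) (a : G) (σ : G → G) : Prop :=
  ∀ y, ∃ y', β (π y) = π y' ∧ e y' = a * σ (e y) * a⁻¹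

/-- involutions are inner-diagonal or balanced -/
def D1 (π : G0 →* Γ) (e : G0 →* G) : Prop :=
  ∀ β : MulAut Γ, β ^ 2 = 1 → β ≠ 1 → (∃ a, Iq π e β a id) ∨ ∀ s, Cr 2 β s → s = 1

/-- automorphisms of odd order lift -/
def D2 (F : S.Fr) (p : ℕ) (π : G0 →* Γ) (e : G0 →* G) : Prop :=
  Nontrivial κ ∧ (F.ρ = 1 ∨ ∀ s, R.d s = 1) ∧ (∃ f, ∀ s, q F s = p ^ f) ∧ ∀ β : MulAut Γ, Odd (orderOf β) →
    ∃ a, ∃ T : S.Tw, ∃ m, Un p T m ∧ (T.ρ = 1 ∨ ∀ s, R.d s = 1) ∧ Iq π e β a T.σ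
end

/-- a model for `K1L` -/
def M1 (p : ℕ) (Γ : Type) [Group Γ] : Prop := ∃ (ι κ : Type) (_ : Fintype κ) (_ : DecidableEq κ) (_ : Fintype ι)
  (_ : DecidableEq ι) (R : RootSys ι κ) (C : Chev R) (K G G0 : Type) (_ : Field K) (_ : Group G) (_ : Group G0) (S : St C K G)
  (_ : CharP K p) (_ : IsAlgClosed K) (F : S.Fr) (e : G0 →* G) (π : G0 →* Γ), Mo F p e π ∧ D1 π e
/-- a model for `K2` -/
def M2 (p : ℕ) (Γ : Type) [Group Γ] : Prop := ∃ (ι κ : Type) (_ : Fintype κ) (_ : DecidableEq κ) (_ : Fintype ι)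
  (_ : DecidableEq ι) (R : RootSys ι κ) (C : Chev R) (K G G0 : Type) (_ : Field K) (_ : Group G) (_ : Group G0) (S : St C K G)
  (_ : CharP K p) (_ : IsAlgClosed K) (F : S.Fr) (e : G0 →* G) (π : G0 →* Γ), Mo F p e π ∧ D2 F p π e

/-- statements about finite fields of odd characteristic -/
def Fo (P : ∀ (F : Type) [Field F] [Fintype F], ℕ → Prop) : Prop :=
  ∀ (F : Type) [Field F] [Fintype F] (p : ℕ) [Fact p.Prime] [CharP F p], p ≠ 2 → P F p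

def U1 : Prop := Fo fun F _ _ p => ∀ n q, 3 ≤ n → Fintype.card F = q ^ 2 → IsSimpleGroup (PSU n F q) → M1 p (PSU n F q)
def U2 : Prop := Fo fun F _ _ p => ∀ n q, 3 ≤ n → Fintype.card F = q ^ 2 → IsSimpleGroup (PSU n F q) → M2 p (PSU n F q)
def N1 : Prop := Fo fun F _ _ p => ∀ m (a b : F), 3 ≤ m → (∀ z₁ z₂ : F, z₁ ^ 2 + a * z₁ * z₂ + b * z₂ ^ 2 = 0 → z₁ = 0 ∧ z₂ = 0) →
  IsSimpleGroup (POmega F (quadFormMinus m F a b)) → M1 p (POmega F (quadFormMinus m F a b))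
def N2 : Prop := Fo fun F _ _ p => ∀ m (a b : F), 3 ≤ m → (∀ z₁ z₂ : F, z₁ ^ 2 + a * z₁ * z₂ + b * z₂ ^ 2 = 0 → z₁ = 0 ∧ z₂ = 0) →
  IsSimpleGroup (POmega F (quadFormMinus m F a b)) → M2 p (POmega F (quadFormMinus m F a b))
def O1 : Prop := Fo fun F _ _ p => ∀ m, 4 ≤ m → IsSimpleGroup (POmega F (quadFormPlus m F)) → M1 p (POmega F (quadFormPlus m F))
def O2 : Prop := Fo fun F _ _ p => ∀ m, 4 ≤ m → IsSimpleGroup (POmega F (quadFormPlus m F)) → M2 p (POmega F (quadFormPlus m F))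
def B1 : Prop := Fo fun F _ _ p => ∀ m, 3 ≤ m → IsSimpleGroup (POmega F (quadFormOdd m F)) → M1 p (POmega F (quadFormOdd m F))
def B2 : Prop := Fo fun F _ _ p => ∀ m, 3 ≤ m → M2 p (POmega F (quadFormOdd m F))
def C1 : Prop := Fo fun F _ _ p => ∀ m, 2 ≤ m → IsSimpleGroup (PSp m F) → M1 p (PSp m F)
def C2 : Prop := Fo fun F _ _ p => ∀ m, 2 ≤ m → M2 p (PSp m F)
def L2 : Prop := Fo fun F _ _ p => ∀ n, 3 ≤ n → M2 p (ProjectiveSpecialLinearGroup (Fin n) F)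
def LI : Prop := Fo fun F _ _ _ => 4 ≤ Fintype.card F → ∀ β σ : MulAut (ProjectiveSpecialLinearGroup (Fin 2) F),
  σ * β * σ⁻¹ = β⁻¹ → Odd (orderOf β) → IsInnerDiagonalAutPSL β
def E2 : Prop := Fo fun F _ _ p => ∀ D ∈ [chevG2, chevD4, chevF4, chevE6, chevE7, chevE8], M2 p (D.group F)
def T1 : Prop := Fo fun F _ _ p => ∀ q, IsPrimePow q → (Fintype.card F = q ^ 2 → M1 p (twistedE6 F q)) ∧
  (Fintype.card F = q ^ 3 → M1 p (twistedD4 F q))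
def T2 : Prop := Fo fun F _ _ p => ∀ q, IsPrimePow q → (Fintype.card F = q ^ 2 → M2 p (twistedE6 F q)) ∧
  (Fintype.card F = q ^ 3 → M2 p (twistedD4 F q))
/-- field involutions are balanced -/
def F2 : Prop := ∀ (ι κ : Type) [Fintype κ] [DecidableEq κ] [Fintype ι] [DecidableEq ι] (R : RootSys ι κ) (C : Chev R)
  (K G Γ : Type) [Field K] [Group G] [Group Γ] (S : St C K G) (p : ℕ) [Fact p.Prime] [CharP K p] [IsAlgClosed K] (F F0 : S.Fr)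
  (e : Γ →* G) (β : MulAut Γ) (a : G) (k : ℕ), p ≠ 2 → Sw F Set.univ p → Sw F0 Set.univ p → Subgroup.center G = ⊥ → Em p F e →
  (∀ g, F0.σ^[2] g = F.σ g) → β ^ 2 = 1 → ¬ 2 ∣ k → In β e a F0.σ^[k] → ∀ s, Cr 2 β s → s = 1

variable {p : ℕ} {Γ Γ' : Type} [Group Γ] [Group Γ']

theorem Iq.congr {G G0 : Type} [Group G] [Group G0] {π : G0 →* Γ} {e : G0 →* G} (φ : Γ ≃* Γ') {β : MulAut Γ'} {a : G}
    {σ : G → G} (h : Iq π e (MulAut.congr φ.symm β) a σ) : Iq (φ.toMonoidHom.comp π) e β a σ :=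
  fun y => (h y).imp fun _ c => ⟨by simpa using congrArg φ c.1, c.2⟩

theorem M1.congr (h : M1 p Γ) (φ : Γ ≃* Γ') : M1 p Γ' := by
  obtain ⟨ι, κ, _, _, _, _, R, C, K, G, G0, _, _, _, S, _, _, F, e, π, a, b⟩ := h
  refine ⟨ι, κ, _, _, _, _, R, C, K, G, G0, _, _, _, S, ‹_›, ‹_›, F, e, φ.toMonoidHom.comp π, ⟨a.sw, a.conn, a.em,
    φ.surjective.comp a.sur, a.ker ▸ by ext; simp⟩, fun β b1 b2 => (b (MulAut.congr φ.symm β) (by rw [← map_pow, b1, map_one])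
      ((map_ne_one_iff _ (MulEquiv.injective _)).2 b2)).imp (.imp fun _ => .congr φ) fun c s d => ?_⟩
  exact (map_eq_one_iff _ φ.symm.injective).1 (c _ (d.congr φ.symm))

theorem M2.congr (h : M2 p Γ) (φ : Γ ≃* Γ') : M2 p Γ' := by
  obtain ⟨ι, κ, _, _, _, _, R, C, K, G, G0, _, _, _, S, _, _, F, e, π, a, b1, b2, b3, b⟩ := h
  refine ⟨ι, κ, _, _, _, _, R, C, K, G, G0, _, _, _, S, ‹_›, ‹_›, F, e, φ.toMonoidHom.comp π, ⟨a.sw, a.conn, a.em,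
    φ.surjective.comp a.sur, a.ker ▸ by ext; simp⟩, b1, b2, b3, fun β o => ?_⟩
  obtain ⟨g, T, m, c1, c2, c3⟩ := b (MulAut.congr φ.symm β) (by rwa [MulEquiv.orderOf_eq])
  exact ⟨g, T, m, c1, c2, c3.congr φ⟩

end H27.UA
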