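/-
Unbalancing triples: odd cores of centralizers of inner-diagonal involutions.
-/
import Cfsg.Agent.H27.UA0

set_option autoImplicit false
set_option linter.unusedSectionVars false

namespace H27.UA

open Matrix H14 H14.RootSys H14.St H14.PreSt H14.St.Tw H11 Function H27.ID H27.BL H27.LB H11.AS Cfsg
open scoped commutatorElement

variable {ι κ : Type*} [Fintype κ] [DecidableEq κ] [Fintype ι] [DecidableEq ι] {R : RootSys ι κ}
  {C : Chev R} {K G Γ : Type*} [Field K] [Group G] [Group Γ] {S : St C K G} {F F0 : S.Fr} {A : Set ι} {p : ℕ} [IsAlgClosed K]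
  {c d : κ → Kˣ} {a g s y : G} [hp : Fact p.Prime] [CharP K p] {e : Γ →* G} {β : MulAut Γ}

theorem two (h : Sw F A p) (hA : A.Nonempty) : 2 ∣ Nat.card (L F A) := by
  have := h.finite
  obtain ⟨r, hr⟩ := hA
  obtain ⟨-, -, i, -⟩ := h.cl.sys.exists_W_simple ⟨r, hr⟩
  by_contra c
  exact h.bn.s_not_mem i (mem_of_sq (Nat.not_even_iff_odd.1 (mt even_iff_two_dvd.1 c)) pow_card_eq_one' (h.bn.s_sq i))

theorem tor2 (Y : Wk F p) (h0 : p ≠ 2) (ha : a ∈ F.fix) (a2 : a ^ 2 = 1) (h : Loc F p 2 a s) :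
    ∃ x c d n, a = x * F.hmul.tor c * x⁻¹ ∧ s = x * F.hmul.tor d * x⁻¹ ∧ c ^ 2 ^ n = 1 ∧ ∀ r, R.chi c r = 1 → R.chi d r = 1 := by
  obtain ⟨y, c, m, rfl, hc⟩ := Y.exists_tor h0.symm a2
  obtain ⟨z, a1, n, w, hn, a2, a3, a4⟩ := Y.twist ha
  have a5 := h.tw hn a2
  rw [a3] at a5
  have a6 := a4.le_cls (M := Subgroup.centralizer {(y * z)⁻¹ * s * (y * z)}) fun r hr u hu =>
    Subgroup.mem_centralizer_singleton_iff.2 (a5.cent a4 h0.symm hc hr (two (a4.cls hr) ⟨r, mem_cls r⟩) u (L_le_U hu)).symm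
  obtain ⟨b3, b4, N, b5, b6, -⟩ := a5
  obtain ⟨k, b7, b8⟩ := b6 _ b5
  obtain ⟨k, d1, -, x, d2, e⟩ := a4.bru b3 (mem_M (F := F) (pow_pos two_pos m) hc b4 b8
    ((Nat.prime_two.coprime_iff_not_dvd.2 b7).pow_left m))
  have d3 : ∀ u ∈ L (F.tw hn) {r | R.chi c r = 1}, Commute (k * x) u := fun u hu =>
    e ▸ (Subgroup.mem_centralizer_singleton_iff.1 (a6 hu)).symm
  obtain ⟨d, e'⟩ := F.hmul.exists_tor (a4.mem_H' d1 d2 d3)
  exact ⟨y * z, c, d, m, by conv_rhs => rw [← a3]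
                            group, by rw [← e', ← e]; group, hc, a4.chi_one (e' ▸ d3)⟩

theorem sq_mem (Y : Wk F p) (hc : ∀ r, R.chi c r ^ 2 = 1) (hg : Commute (F.hmul.tor c) g) :
    g * g ∈ S.U {r | R.chi c r = 1} ⊔ S.H := by
  obtain ⟨u', h1, n, w, h2, h3, u, h4, rfl⟩ := F.hmul.cent_bruhat F.sep F.top hg
  have a1 := U_mono (B := {r | R.chi c r = 1}) (fun _ => And.right) h1
  have a2 := U_mono (B := {r | R.chi c r = 1}) (fun _ => And.right) h4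
  have a3 := NW.mem_of_WA (chi_symm c) (NW.mul h2 h2) (sq_WA (Y.alg.finOrder c) (NW.mem_W h2) hc
    (chi_congr (F := F) ((F.hmul.conj_tor h2 c).symm.trans h3.symm.mul_inv_cancel)))
  have a4 := NW.conj_mem_U (B := {r | R.chi c r = 1}) h2 (fun r h => (F.hmul.chi_of_commute F.sep h2 h3 r).trans h) (mul_mem a2 a1)
  simpa [mul_assoc] using mul_mem (mul_mem (mul_mem (Subgroup.mem_sup_left a1) (Subgroup.mem_sup_left a4)) a3)
    (Subgroup.mem_sup_left a2)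

/-- the core centralizes perfect groups of fixed points -/
def Bq (β : MulAut Γ) : Prop := ∀ s, Cr 2 β s → ∀ P : Subgroup Γ, (∀ x ∈ P, β x = x) → ⁅P, P⁆ = P → ∀ x ∈ P, Commute s x

theorem cj_comm {x u v : G} : Commute (x * u * x⁻¹) v ↔ Commute u (x⁻¹ * v * x) :=
  ⟨fun h => by simpa [mul_assoc] using h.conj x⁻¹, fun h => by simpa [mul_assoc] using h.conj x⟩

variable (h : Sw F Set.univ p) (hZ : Subgroup.center G = ⊥) (h0 : p ≠ 2) (he : Em p F e)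
include h hZ h0 he

theorem ex_tor (c : In β e a id) (b2 : β ^ 2 = 1) {s : Γ} (hs : Cr 2 β s) : ∃ x c d n, a = x * F.hmul.tor c * x⁻¹ ∧
    e s = x * F.hmul.tor d * x⁻¹ ∧ c ^ 2 ^ n = 1 ∧ (∀ r, R.chi c r = 1 → R.chi d r = 1) ∧ ∀ r, R.chi c r ^ 2 = 1 := by
  obtain ⟨N, b1, b3, b4⟩ := hs
  have a2 := (h.in_one hZ he (c.pow 2)).2 b2
  obtain ⟨x, c', d, n, rfl, d2, d3, d4⟩ := tor2 h.toWk h0 (h.fix_of hZ he c) a2 (s := e s)
    ⟨he.fix s, mul_inv_eq_iff_eq_mul.1 ((c s).symm.trans (congrArg e (b3 s b1).1)), N.map e, ⟨s, b1, rfl⟩, by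
      rintro _ ⟨x, f, rfl⟩
      exact (b3 x f).2.imp fun m k => ⟨k.1, by rw [← map_pow, k.2, map_one]⟩, by
      rintro u f k m o _ ⟨x, r, rfl⟩
      obtain ⟨u, rfl⟩ := he.mem u f m o
      exact ⟨_, b4 u (he.inj ((c u).trans k.mul_inv_cancel)) x r, by simp⟩⟩
  exact ⟨x, c', d, n, rfl, d2, d3, d4, F.hmul.chi_pow F.sep (by rwa [conj_pow, conj_eq_one_iff] at a2)⟩

theorem bq (c : In β e a id) (b2 : β ^ 2 = 1) : Bq β := fun s hs P f pf => by
  obtain ⟨x, c', d, n, rfl, d2, -, d4, d5⟩ := ex_tor h hZ h0 he c b2 hs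
  have k : ∀ u ∈ P, x⁻¹ * e u * x * (x⁻¹ * e u * x) ∈ S.U {r | R.chi c' r = 1} ⊔ S.H := fun u hu =>
    sq_mem h.toWk d5 (cj_comm.1 (mul_inv_eq_iff_eq_mul.1 ((c u).symm.trans (congrArg e (f u hu)))))
  have a1 : P ≤ (S.U {r | R.chi c' r = 1} ⊔ S.H).comap ((MulAut.conj x⁻¹).toMonoidHom.comp e) :=
    pf.ge.trans (Subgroup.commutator_le.2 fun a ha b hb => by
      simpa [Subgroup.mem_comap, commutatorElement_def, mul_assoc] using
        mul_mem (mul_mem (k a ha) (k _ (mul_mem (inv_mem ha) hb))) (k _ (inv_mem hb)))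
  exact fun u hu => he.inj (by
    rw [map_mul, map_mul, d2]
    exact cj_comm.2 (F.hmul.commute_U d4 (show _ ∈ S.U {r | R.chi c' r = 1} ⊔ S.H by simpa [Subgroup.mem_comap] using a1 hu)))

theorem oa (c : In β e a id) (b2 : β ^ 2 = 1) {s : Γ} (hs : Cr 2 β s) :
    (∃ m, ¬ p ∣ m ∧ s ^ m = 1) ∧ ∀ u k, β u = u → u ^ p ^ k = 1 → Commute s u := by
  obtain ⟨x, c', d, n, rfl, d2, d3, d4, -⟩ := ex_tor h hZ h0 he c b2 hs
  refine ⟨(h.pow_H (tor_H F d)).imp fun m b => ⟨b.1, he.inj (by rw [map_pow, d2, conj_pow, b.2]; simp)⟩, fun u k f o => he.inj ?_⟩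
  rw [map_mul, map_mul, d2]
  exact cj_comm.2 (F.hmul.commute_U d4 (mem_M (F := F) (pow_pos two_pos n) d3 (k := p ^ k)
    (cj_comm.1 (mul_inv_eq_iff_eq_mul.1 ((c u).symm.trans (congrArg e f))))
    (by rw [← inv_inv x, inv_inv x⁻¹, conj_pow, ← map_pow, o]; simp)
    (((Nat.coprime_primes Nat.prime_two hp.1).2 h0.symm).pow n k)))

theorem inn (c : In β e g id) (o : Odd (orderOf β)) {a b : Γ} (a2 : a ^ 2 = 1) (b2 : b ^ 2 = 1) (ab : Commute a b)
    (f : ∀ v ∈ [a, b, a * b], β v = v ∧ ∀ u k, Commute v u → u ^ p ^ k = 1 → β u = u) : β = 1 := by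
  obtain ⟨θ, hθ⟩ := exists_isHom_of_center (S' := C.adG K) F.sep F.top fun z _ a =>
    (C.adG_center K).le (Subgroup.mem_center_iff.2 fun g => a g ((C.adG_top K).ge trivial))
  have a0 := ker_eq_center (C.adG_sep K) F.top (C.adG_top K) (C.adG_center K) hθ
  let φ : G →* Matrix (κ ⊕ ι) (κ ⊕ ι) K := (Units.coeHom _).comp ((Subgroup.subtype _).comp θ)
  have a1 : ∀ c, φ (F.hmul.tor c) = diagonal fun a => ((∏ i, c i ^ C.adRep.wt a i : Kˣ) : K) := fun c =>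
    (congrArg (·.1.1) (F.hmul.map (C.adG_hmul K) hθ c)).trans ((congrArg Units.val ((C.adG_hmul K).map (C.ad_hmul K)
      (St.isHom_restrict _ _) c)).trans (C.adRep.coe_tor K c))
  have g1 := (h.in_one hZ he (c.pow _)).2 (pow_orderOf_eq_one β)
  have cm : ∀ u, β u = u → Commute g (e u) := fun u k => mul_inv_eq_iff_eq_mul.1 ((c u).symm.trans (congrArg e k))
  have a3 : ∀ v ∈ [a, b, a * b], v ^ 2 = 1 → (φ g - 1) * (1 + φ (e v)) = 0 := fun v hv v2 => by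
    have b0 : e v ^ 2 = 1 := by rw [← map_pow, v2, map_one]
    obtain ⟨x, c', d, -, b1, rfl, -, b4⟩ := tor2 h.toWk h0 (he.fix v) b0 ⟨h.fix_of hZ he c, (cm v (f v hv).1).symm, _,
      Subgroup.mem_zpowers g, by
        rintro _ ⟨i, rfl⟩
        exact ⟨_, o.not_two_dvd_nat, by
          rw [← zpow_natCast, zpow_comm, zpow_natCast, g1, _root_.one_zpow]⟩, by
        rintro u k l m n _ ⟨i, rfl⟩
        obtain ⟨u, rfl⟩ := he.mem u k m n
        exact ⟨i, ((cm u ((f v hv).2 u m (he.inj (by rw [map_mul, map_mul, l.eq])) (he.inj (by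
          rw [map_pow, n, map_one])))).zpow_left i).symm.mul_inv_cancel.symm⟩⟩
    rw [b1, conj_pow, conj_eq_one_iff] at b0
    have b5 : (φ (F.hmul.tor d) - 1) * (1 + φ (F.hmul.tor c')) = 0 := by
      rw [a1, a1, ← diagonal_one, diagonal_sub, diagonal_add, diagonal_mul_diagonal, ← diagonal_zero, diagonal_eq_diagonal_iff]
      rintro (i | r)
      · simp [Chev.adRep, PreChev.adWt]
      by_cases k : R.chi c' r = 1
      · exact mul_eq_zero_of_left (sub_eq_zero.2 (congrArg Units.val (b4 r k))) _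
      · exact mul_eq_zero_of_right _ (add_eq_zero_iff_neg_eq.2 (congrArg Units.val (eq_neg_one (F.hmul.chi_pow F.sep b0 r) k)).symm)
    have b6 : φ x⁻¹ * φ x = 1 := by simp [← map_mul]
    have b7 : φ x * φ x⁻¹ = 1 := by simp [← map_mul]
    have := congrArg (φ x * · * φ x⁻¹) b5
    simp only [mul_zero, zero_mul] at this
    rw [← this, b1]
    simp only [map_mul, sub_mul, mul_sub, mul_add, add_mul, mul_assoc, one_mul, mul_one, ← mul_assoc (φ x⁻¹), b6, b7]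
  have d1 := a3 a (by simp) a2
  have d2 := a3 b (by simp) b2
  have d3 := a3 (a * b) (by simp) (by rw [ab.mul_pow, a2, b2, one_mul])
  have d4 : (2 : K) • (φ g - 1) = 0 := by
    have : (φ g - 1) * (1 + φ (e a)) + (φ g - 1) * (1 + φ (e b)) + (φ g - 1) * (1 + φ (e (a * b))) -
      (φ g - 1) * (1 + φ (e a)) * (1 + φ (e b)) = (2 : K) • (φ g - 1) := by
      rw [map_mul, map_mul, two_smul]; noncomm_ring
    rw [← this, d1, d2, d3]; simp
  have d5 : (2 : K) ≠ 0 := fun b => h0 ((Nat.prime_dvd_prime_iff_eq hp.1 Nat.prime_two).1 ((CharP.cast_eq_zero_iff K p _).1 b))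
  exact (h.in_one hZ he c).1 (hZ.le (a0.le (Subtype.ext (Units.ext (sub_eq_zero.1 ((smul_eq_zero.1 d4).resolve_left d5))))))

theorem fld2 (h' : Sw F0 Set.univ p) (h1 : ∀ g, F0.σ^[2] g = F.σ g) (h2 : β ^ 2 = 1) {k : ℕ} (hk : ¬ 2 ∣ k)
    (h4 : In β e a F0.σ^[k]) (s : Γ) (h5 : Cr 2 β s) : s = 1 := by
  obtain ⟨β, x, ⟨N, b1, b2, b3⟩, a2, a3⟩ := h.lang hZ he F0 (fun y => (h1 _).trans (he.fix y)) h2 hk h4 h5
  have a4 : x ∈ F.fix := (h1 x).symm.trans a3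
  have a5 : ∀ y, β y = y ↔ x⁻¹ * e y * x ∈ F0.fix := fun y => by simp [Fr.mem_fix, ← a2, he.inj.eq_iff]
  obtain ⟨y, c, d, -, d1, d2, -, d3⟩ := tor2 h'.toWk h0 (one_mem _) (one_pow 2) (s := x⁻¹ * e s * x⁻¹⁻¹)
    ⟨by simpa using (a5 s).1 (b2 s b1).1, .one_left _, N.map ((MulAut.conj x⁻¹).toMonoidHom.comp e), ⟨s, b1, rfl⟩, by
      rintro _ ⟨y, c, rfl⟩
      exact (b2 y c).2.imp fun m k => ⟨k.1, by rw [← map_pow, k.2, map_one]⟩, by
      rintro u c - m d _ ⟨y, f, rfl⟩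
      obtain ⟨v, k⟩ := he.mem _ (cfix a4 ((h1 u).symm.trans (iterate_fixed c 2))) m (by rw [conj_pow, d]; simp)
      exact ⟨_, b3 v ((a5 v).2 (by simpa [k, mul_assoc] using c)) y f, by simp [k, mul_assoc]⟩⟩
  have d4 := F0.hmul.chi_pow F0.sep (c := c) (m := 1) (by rw [pow_one]; exact conj_eq_one_iff.1 d1.symm)
  have d5 := hZ.le ((F0.hmul.tor_mem_center F0.sep F0.top (c := d)).2 (funext fun j => by
    simpa [RootSys.chi, wt_simple, mpow_apply] using d3 (R.simple j) (by simpa using d4 _)))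
  rw [Subgroup.mem_bot.1 d5, mul_one, mul_inv_cancel, conj_eq_one_iff] at d2
  exact (map_eq_one_iff e he.inj).1 d2

omit h hZ h0 he in
theorem f2 : F2 := fun _ _ _ _ _ _ _ _ _ _ _ _ _ _ _ _ _ _ _ _ _ _ _ _ _ h0 h h' hZ he h1 h2 hk h4 =>
  fld2 h hZ h0 he h' h1 h2 hk h4

end H27.UA
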