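/-
Unbalancing triples: the remaining steps for the groups of Lie type.
-/
import Cfsg.Agent.H27.UA1

set_option autoImplicit false
set_option linter.unusedSectionVars false

namespace H27.UA

open Matrix H14 H14.RootSys H14.St H14.PreSt H14.St.Tw H11 Function H27.ID H27.BL H27.LB H11.AS Cfsg Cfsg.Lie

universe u

/-- a model in which the automorphisms with `I` are inner-diagonal -/
def M3 (p : ℕ) (Γ : Type) [Group Γ] (I : MulAut Γ → Prop) : Prop := ∃ (ι κ : Type) (_ : Fintype κ) (_ : DecidableEq κ)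
  (_ : Fintype ι) (_ : DecidableEq ι) (R : RootSys ι κ) (C : Chev R) (K G G0 : Type) (_ : Field K) (_ : Group G) (_ : Group G0)
  (S : St C K G) (_ : CharP K p) (_ : IsAlgClosed K) (F : S.Fr) (e : G0 →* G) (π : G0 →* Γ), Mo F p e π ∧
    ∀ β, I β → ∃ a, Iq π e β a id

section
variable {Γ : Type*} [Group Γ]
/-- `β` lies in the odd core of the centralizer of `v` -/
def Oc (β : MulAut Γ) (v : Γ) : Prop := ∃ N : Subgroup (MulAut Γ), β ∈ N ∧ (∀ x ∈ N, x v = v ∧ Odd (orderOf x)) ∧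
  ∀ u, Commute v u → ∀ x ∈ N, MulAut.conj u * x * (MulAut.conj u)⁻¹ ∈ N
def Iv (β : MulAut Γ) : Prop := ∃ v, v ^ 2 = 1 ∧ v ≠ 1 ∧ Oc β v
variable (Γ)
def P1 : Prop := ∀ β : MulAut Γ, β ^ 2 = 1 → β ≠ 1 → Bq β
def P2 (I : MulAut Γ → Prop) : Prop := ∀ β, I β → ∀ a b : Γ, a ^ 2 = 1 → b ^ 2 = 1 → a ≠ 1 → b ≠ 1 → a ≠ b → Commute a b →
  Oc β a → Oc β b → Oc β (a * b) → β = 1
/-- `L₂(q)` with `q` odd -/
def L2o : Prop := ∃ (F : Type) (_ : Field F) (_ : Fintype F), Odd (Fintype.card F) ∧ 4 ≤ Fintype.card F ∧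
  Nonempty (Γ ≃* ProjectiveSpecialLinearGroup (Fin 2) F)
end

def L1 : Prop := Fo fun F _ _ p => ∀ n, 2 ≤ n → IsSimpleGroup (ProjectiveSpecialLinearGroup (Fin n) F) →
  M1 p (ProjectiveSpecialLinearGroup (Fin n) F)
def L3 : Prop := Fo fun F _ _ p => M3 p (ProjectiveSpecialLinearGroup (Fin 2) F) IsInnerDiagonalAutPSL
def E1 : Prop := Fo fun F _ _ p => ∀ D ∈ [chevG2, chevF4, chevE6, chevE7, chevE8], IsSimpleGroup (D.group F) → M1 p (D.group F)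
def R1 : Prop := ∀ (F : Type) [Field F] [Fintype F] (m : ℕ), 1 ≤ m → Fintype.card F = 3 ^ (2 * m + 1) → M1 3 (twistedG2 F (3 ^ m))
def RI : Prop := ∀ (F : Type) [Field F] [Fintype F] (m : ℕ), 1 ≤ m → Fintype.card F = 3 ^ (2 * m + 1) →
  P2 (twistedG2 F (3 ^ m)) fun _ => True
def G1 : Prop := ∀ (p : ℕ) [Fact p.Prime] (Γ : Type) [Group Γ], p ≠ 2 → M1 p Γ → P1 Γ
def G2 : Prop := ∀ (p : ℕ) [Fact p.Prime] (Γ : Type) [Group Γ], p ≠ 2 → M2 p Γ → P2 Γ fun _ => True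
def G3 : Prop := ∀ (p : ℕ) [Fact p.Prime] (Γ : Type) [Group Γ] (I : MulAut Γ → Prop), p ≠ 2 → M3 p Γ I → P2 Γ I
def Z1 : Prop := ∀ (Γ : Type u) [Group Γ] [Finite Γ] (p : ℕ), p.Prime → p ≠ 2 → IsLieTypeChar p Γ → P1 Γ
def Z2 : Prop := ∀ (Γ : Type u) [Group Γ] [Finite Γ] (p : ℕ), p.Prime → p ≠ 2 → IsLieTypeChar p Γ → L2o Γ ∨ P2 Γ fun _ => True

end H27.UA
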