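/-
A vertex of the prime graph adjacent to all the others: the abstract part.
-/
import Cfsg.Agent.H11.PQ1
import Cfsg.Agent.H24.FrobStruct
import Cfsg.Agent.H10.Syl
import Cfsg.Agent.S0204

set_option autoImplicit false
set_option linter.unusedSectionVars false

namespace H27.AD
open Cfsg Subgroup H27.Sp H22.KG H11.PQ Function

universe u
variable {G A O S S' : Type*} [Group G] [Group A] [Group O] [Group S] [Group S'] {p r s : ℕ}

theorem exists_lift [Finite G] [Fact p.Prime] (f : G →* A) {E : Subgroup A} (h : E ≤ f.range) (hE : IsPGroup p E) :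
    ∃ B : Subgroup G, IsPGroup p B ∧ B.map f = E := by
  have h1 : Surjective (f.subgroupComap E) := fun y => (h y.2).elim fun x e => ⟨⟨x, (show f x ∈ E from e ▸ y.2)⟩, Subtype.ext e⟩
  have := Finite.of_surjective _ h1
  let P : Sylow p (E.comap f) := default
  have h2 : P.1.map (f.subgroupComap E) = ⊤ := ((P.mapSurjective h1).3 (hE.to_subgroup ⊤) le_top).symm
  refine ⟨P.1.map (Subgroup.subtype _), P.2.map _, ?_⟩
  rw [map_map, show f.comp (Subgroup.subtype _) = E.subtype.comp (f.subgroupComap E) from rfl, ← map_map, h2,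
    ← MonoidHom.range_eq_map, range_subtype]

theorem CycP.surj [Finite G] [Fact p.Prime] (h : CycP p (⊤ : Subgroup G)) (f : G →* A) (hf : Surjective f) :
    CycP p (⊤ : Subgroup A) := fun E _ hE => by
  obtain ⟨B, a, rfl⟩ := exists_lift f (MonoidHom.range_eq_top.2 hf ▸ le_top) hE
  have := h B le_top a
  exact isCyclic_of_surjective _ (f.subgroupMap_surjective B)

/-- the primes which witness that a group is not cyclic -/
def Q (r : ℕ) (A : Type*) [Group A] : Prop := ¬ CycP r (⊤ : Subgroup A) ∨ r ≠ 2 ∧ r ∣ Nat.card (commutator A)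

theorem exists_Q [Finite A] (h : ¬ IsCyclic A) : ∃ r, r.Prime ∧ Q r A := by
  by_contra! c
  have h1 : ∀ r, r.Prime → CycP r (⊤ : Subgroup A) := fun r hr => not_not.1 fun a => c r hr (.inl a)
  have : IsZGroup A := ⟨fun r hr P => h1 r hr P le_top P.2⟩
  obtain ⟨r, hr, h2⟩ := Nat.exists_prime_and_dvd (n := Nat.card (commutator A)) fun e => h (by
    have : Group.IsNilpotent A := Subgroup.nilpotent_iff_lowerCentralSeries.2 ⟨1, card_eq_one.1 e⟩
    infer_instance)
  obtain rfl : r = 2 := not_not.1 fun a => c r hr (.inr ⟨a, h2⟩)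
  let T : Sylow 2 A := default
  have h3 := h1 2 hr T le_top T.2
  obtain ⟨N, _, hN⟩ := H10.exists_normal_complement_of_cyclic T h3
  have : IsCyclic (A ⧸ N) := isCyclic_of_surjective _ hN.symm.QuotientMulEquiv.symm.surjective
  exact T.not_dvd_index (hN.index_eq_card ▸ h2.trans (card_dvd_of_le (Normal.quotient_commutative_iff_commutator_le.1
    inferInstance)))

theorem Q.ker [Finite G] (hr : r.Prime) (h : Q r A) (f : G →* A) (hf : Surjective f) {C : Type*} [Group C] [IsCyclic C]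
    (ψ : G →* C) : r ∣ Nat.card ψ.ker := by
  have := Fact.mk hr
  rcases h with h | ⟨-, h⟩
  · by_contra c
    exact h (CycP.surj (fun P _ hP => cyc_of_inj ψ fun x hx e => eq_one_of_pg hr hP c hx e) f hf)
  · rw [commutator_def, ← map_top_of_surjective f hf, ← map_commutator] at h
    exact (h.trans (card_dvd_of_surjective _ (f.subgroupMap_surjective _))).trans (card_dvd_of_le
      (commutator_le.2 fun a _ b _ => by simp [commutatorElement_eq_one_iff_mul_comm, mul_comm' (ψ a)]))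

theorem Q.dvd [Finite A] (hr : r.Prime) (h : Q r A) : r ∣ Nat.card A := by
  simpa using h.ker hr (.id A) surjective_id (1 : A →* Unit)

theorem frattini [Finite G] (hr : r.Prime) (hs : s.Prime) (hrs : r ≠ s) (h : Q r A) (f : G →* A) (hf : Surjective f)
    {N : Subgroup G} [N.Normal] (h1 : N ≤ f.ker) (h2 : CycP s N) (h3 : s ∣ Nat.card N) : r * s ∈ om G := by
  have := Fact.mk hs
  have := Fact.mk hr
  let P : Sylow s N := default
  obtain ⟨⟨z, hz⟩, h4⟩ := exists_prime_orderOf_dvd_card' (G := P.1.map N.subtype) s (by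
    rw [card_map_of_injective N.subtype_injective]; exact P.dvd_card_of_dvd_card h3)
  rw [orderOf_mk] at h4
  have h5 := H23.normalizer_le_normalizer_of_isCyclic (h2 _ (map_subtype_le _) (P.2.map _)) (zpowers_le.2 hz)
  have : IsCyclic (MulAut (zpowers z)) := by
    have := ZMod.isCyclic_units_prime hs
    exact isCyclic_of_surjective _ (IsCyclic.mulAutMulEquiv _).symm.surjective (hH := by rwa [Nat.card_zpowers, h4])
  obtain ⟨⟨⟨x, hx⟩, h6⟩, h7⟩ := exists_prime_orderOf_dvd_card' r (h.ker hr (f.comp (Subgroup.subtype _)) (by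
    rw [← MonoidHom.range_eq_top, MonoidHom.range_comp, range_subtype, eq_top_iff, ← map_top_of_surjective f hf,
      ← P.normalizer_sup_eq_top, Subgroup.map_sup, (Subgroup.map_eq_bot_iff _).2 h1, sup_bot_eq]
    exact map_mono h5) (zpowers z).normalizerMonoidHom)
  rw [normalizerMonoidHom_ker] at h6
  exact om_mul (show Commute z x from h6 z (mem_zpowers z)).symm hr hs hrs (by simp [← h7]) h4.symm.dvd

theorem exists_conj [Finite O] {N B : Subgroup O} [N.Normal] [IsCyclic (O ⧸ N)] (h : ¬ 4 ∣ Nat.card N)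
    (h1 : ¬ CycP 2 (⊤ : Subgroup B)) : 2 ∣ N.index ∧ ∀ y : O, y ^ 2 = 1 → ∃ g, g * y * g⁻¹ ∈ B := by
  simp only [CycP, not_forall] at h1
  obtain ⟨P, -, h2, h3⟩ := h1
  replace h3 : ¬ IsCyclic (P.map B.subtype) := fun a => h3 (isCyclic_of_surjective _ (P.equivMapOfInjective _
    B.subtype_injective).symm.surjective)
  replace h2 := h2.map B.subtype
  have h4 := map_subtype_le P
  generalize P.map B.subtype = P at *
  have h5 : ∀ T : Subgroup O, IsPGroup 2 T → Nat.card ↥(T ⊓ N) ∣ 2 := fun T hT => by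
    obtain ⟨k, hk⟩ := IsPGroup.iff_card.1 (hT.to_le (inf_le_left (b := N)))
    have : ¬ 2 ≤ k := fun a => h (((pow_dvd_pow 2 a).trans hk.symm.dvd).trans (card_dvd_of_le inf_le_right))
    exact hk ▸ pow_dvd_pow 2 (show k ≤ 1 by omega)
  have h6 : 2 ∣ Nat.card (P.map (QuotientGroup.mk' N)) := (h2.map _).card_eq_or_dvd.resolve_left fun a => h3 (by
    rw [card_eq_one, Subgroup.map_eq_bot_iff, QuotientGroup.ker_mk'] at a
    exact isCyclic_of_card_dvd_prime (p := 2) (inf_of_le_left a ▸ h5 P h2))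
  refine ⟨h6.trans (card_subgroup_dvd_card _), fun y hy => ?_⟩
  obtain ⟨T, hT⟩ := (pg_of_exp (A := zpowers y) (p := 2) (by
      rintro _ ⟨i, rfl⟩; rw [← zpow_natCast, zpow_comm, zpow_natCast, hy, one_zpow])).exists_le_sylow
  obtain ⟨U, hU⟩ := h2.exists_le_sylow
  obtain ⟨g, rfl⟩ := MulAction.exists_smul_eq O T U
  have h7 : g * y * g⁻¹ ∈ (g • T).1 := ⟨_, hT (mem_zpowers _), by simp⟩
  obtain ⟨a, h8, h9⟩ := H23.mem_of_orderOf_dvd_card (K := P.map (QuotientGroup.mk' N)) (a := QuotientGroup.mk' N (g * y * g⁻¹))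
    ((orderOf_dvd_of_pow_eq_one (by rw [← map_pow, conj_pow, hy]; simp)).trans h6)
  have h10 : P ⊓ N = (g • T).1 ⊓ N := eq_of_le_of_card_ge (inf_le_inf_right _ hU) ((Nat.le_of_dvd two_pos (h5 _ (g • T).2)).trans
    ((one_lt_card_iff_ne_bot _).2 fun e => h3 (cyc_of_inj (QuotientGroup.mk' N) fun x a b =>
      e.le ⟨a, (QuotientGroup.eq_one_iff x).1 b⟩)))
  exact ⟨g, h4 (by simpa using P.mul_mem h8 (h10.ge ⟨(g • T).1.mul_mem ((g • T).1.inv_mem (hU h8)) h7,
    QuotientGroup.eq.1 h9⟩).1)⟩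

variable (S) in
/-- the conclusion for the groups of automorphisms of `S` -/
def Adj : Prop := ∀ (X : Type u) [Group X] [Finite X] (θ : X →* MulAut S) (Y : Subgroup X) [Y.Normal], Inn S ≤ θ.range →
  (∀ x, x ∈ Y ↔ θ x ∈ Inn S) → ∀ r : ℕ, r.Prime → Q r (X ⧸ Y) →
    r ∣ Nat.card S ∧ ∀ s : ℕ, s.Prime → s ≠ r → s ∣ Nat.card θ.range → r * s ∈ om X

theorem Adj.equiv (e : S ≃* S') (h : Adj.{u} S') : Adj.{u} S := fun X _ _ θ Y _ h1 h2 r hr h3 => by
  have := h X ((MulAut.congr e).toMonoidHom.comp θ) Y (by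
    rintro _ ⟨a, rfl⟩
    obtain ⟨x, hx⟩ := h1 ⟨e.symm a, rfl⟩
    exact ⟨x, by ext y; simp [hx, MulAut.congr]⟩) (fun x => (h2 x).trans ⟨fun ⟨a, ha⟩ => ⟨e a, by ext y; simp [← ha, MulAut.congr]⟩,
      fun ⟨a, ha⟩ => ⟨e.symm a, by
        ext y
        simpa [MulAut.congr] using congrArg e.symm (DFunLike.congr_fun ha (e y))⟩⟩) r hr h3
  rwa [← Nat.card_congr e.toEquiv, MonoidHom.range_comp, card_map_of_injective (MulAut.congr e).injective] at this

theorem adj_of [Finite S] (hZ : center S = ⊥) {C : Type*} [Group C] [IsCyclic C] (φ : Out S →* C)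
    (h1 : ∀ r : ℕ, r.Prime → r ∣ Nat.card φ.ker → r ∣ Nat.card S)
    (h2 : ∀ r s : ℕ, r.Prime → s.Prime → r ∣ Nat.card φ.ker → ¬ s ∣ Nat.card S → s ∣ φ.ker.index → Fix S s r)
    (h3 : ∀ r s : ℕ, r.Prime → s.Prime → r ≠ s → r ∣ Nat.card φ.ker → s ∣ Nat.card S → CycP s (⊤ : Subgroup S) ∨
      r * s ∈ om S ∨ Sp S r s ∨ r = 2 ∧ ¬ 4 ∣ Nat.card φ.ker ∧ (2 ∣ φ.ker.index → Fix S 2 s)) : Adj.{u} S := by
  intro X _ _ θ Y _ hH hY r hr hQ
  let q := QuotientGroup.mk' (Inn S)
  let j : X ⧸ Y →* Out S := QuotientGroup.map Y _ θ fun x => (hY x).1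
  have a1 : Injective j := (injective_iff_map_eq_one _).2 fun x => QuotientGroup.induction_on x fun x e =>
    (QuotientGroup.eq_one_iff x).2 ((hY x).2 ((QuotientGroup.eq_one_iff _).1 e))
  have a2 : j.range = θ.range.map q := by
    rw [← MonoidHom.range_comp, MonoidHom.range_eq_map, ← map_top_of_surjective _ (QuotientGroup.mk'_surjective Y), map_map,
      ← MonoidHom.range_eq_map]; rfl
  have a3 : r ∣ Nat.card φ.ker := (hQ.ker hr (.id _) surjective_id (φ.comp j)).trans (card_comap_dvd_of_injective _ j a1)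
  have a4 : r ∣ Nat.card (θ.range.map q) := a2 ▸ Nat.card_congr (MonoidHom.ofInjective a1).toEquiv ▸ hQ.dvd hr
  refine ⟨h1 r hr a3, fun s hs hsr a5 => om_of_surj _ θ.rangeRestrict_surjective ?_⟩
  by_cases a6 : s ∣ Nat.card S
  swap
  · have a7 : s ∣ Nat.card (θ.range.map q) := by
      rw [← ((Inn S).subgroupOf θ.range).card_mul_index, H1.card_subgroupOf_of_le hH,
        ← Nat.card_congr (MonoidHom.ofInjective (H22.conjInj hZ)).toEquiv, hs.dvd_mul] at a5
      rw [← relIndex_ker, QuotientGroup.ker_mk']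
      exact a5.resolve_left a6
    have a8 := mt (h1 s hs) a6
    exact mul_comm s r ▸ om_of_fix hZ hH hs hr hsr (fun P _ hP => cyc_of_inj φ fun x hx e => eq_one_of_pg hs hP a8 hx e) a7
      (h2 r s hr hs a3 a6 ((hs.dvd_mul.1 (φ.ker.card_mul_index ▸ a7.trans (card_subgroup_dvd_card _))).resolve_left a8))
  rcases h3 r s hr hs hsr.symm a3 a6 with a | a | a | ⟨rfl, a, b⟩
  · have := Fact.mk hs
    let i : S →* θ.range := MulAut.conj.codRestrict _ fun x => hH ⟨x, rfl⟩
    have b1 : i.range = (Inn S).subgroupOf θ.range := by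
      ext ⟨x, hx⟩
      exact exists_congr fun y => Subtype.ext_iff
    refine frattini hr hs hsr.symm hQ (θ.rangeRestrict.liftOfSurjective θ.rangeRestrict_surjective ⟨QuotientGroup.mk' Y, fun x hx =>
      (QuotientGroup.eq_one_iff x).2 ((hY x).2 (by rw [show θ x = 1 from congrArg Subtype.val hx]; exact one_mem _))⟩)
      (fun y => QuotientGroup.induction_on y fun x => ⟨θ.rangeRestrict x, MonoidHom.liftOfRightInverse_comp_apply ..⟩)
      (N := (Inn S).subgroupOf θ.range) (fun y hy => ?_) (fun P b2 b3 => ?_) ?_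
    · obtain ⟨x, rfl⟩ := θ.rangeRestrict_surjective y
      exact (MonoidHom.liftOfRightInverse_comp_apply ..).trans ((QuotientGroup.eq_one_iff x).2 ((hY x).2 hy))
    · obtain ⟨B, b4, rfl⟩ := exists_lift i (b1 ▸ b2) b3
      have := a B le_top b4
      exact isCyclic_of_surjective _ (i.subgroupMap_surjective B)
    · rwa [H1.card_subgroupOf_of_le hH, ← Nat.card_congr (MonoidHom.ofInjective (H22.conjInj hZ)).toEquiv]
  · exact om_inn hZ hH a
  · exact om_of_fix hZ hH hr hs hsr.symm (fun P _ hP => cyc_of_not_sq hr hP fun e => a.2.1 (e.trans (card_subgroup_dvd_card _)))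
      a4 a.2.2
  have := isCyclic_of_injective _ (QuotientGroup.kerLift_injective φ)
  obtain ⟨b1, b2⟩ := exists_conj (B := θ.range.map q) a fun c => hQ.elim (· (CycP.surj (a2 ▸ c)
    (MonoidHom.ofInjective a1).symm.toMonoidHom (MulEquiv.surjective _))) (·.1 rfl)
  obtain ⟨ψ, b3, x, b4, b5⟩ := b b1
  obtain ⟨g, hg⟩ := b2 (q ψ) (by rw [← map_pow, ← b3, pow_orderOf_eq_one, map_one])
  obtain ⟨g, rfl⟩ := QuotientGroup.mk'_surjective (Inn S) g
  rw [← map_inv, ← map_mul, ← map_mul, ← mem_comap, comap_map_eq, QuotientGroup.ker_mk', sup_eq_left.2 hH] at hg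
  refine om_mul (a := (⟨_, hg⟩ : θ.range)) (b := ⟨MulAut.conj (g x), hH ⟨_, rfl⟩⟩) (Subtype.ext ?_) hr hs hsr.symm ?_ ?_
  · exact (H22.commute_conj (x := g * ψ * g⁻¹) (by simp [b5])).symm.eq
  · rw [orderOf_mk, ← b3]; exact dvd_of_eq (SemiconjBy.orderOf_eq g (by simp [SemiconjBy]))
  · rw [orderOf_mk, orderOf_injective _ (H22.conjInj hZ), g.orderOf_eq, b4]

theorem adj_cyc [Finite S] (hZ : center S = ⊥) (h : IsCyclic (Out S)) : Adj.{u} S :=
  have k : ∀ r : ℕ, r.Prime → ¬ r ∣ Nat.card (MonoidHom.id (Out S)).ker := fun r hr => by simp [hr.ne_one]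
  adj_of hZ (.id _) (fun r hr a => (k r hr a).elim) (fun r _ hr _ a => (k r hr a).elim) fun r _ hr _ _ a => (k r hr a).elim

theorem main {G : Type u} [Group G] [Finite G] [Finite S] [IsSimpleGroup S] (hS : ¬ IsMulCommutative S) (h : Adj.{u} S)
    (θ : G →* MulAut S) (H : Subgroup G) [H.Normal] (h1 : Inn S ≤ θ.range) (h2 : ∀ x, x ∈ H ↔ θ x ∈ Inn S)
    (hK : Group.IsNilpotent θ.ker) (h3 : ¬ IsCyclic (G ⧸ H)) : ∃ r : ℕ, r.Prime ∧ r ∣ Nat.card (G ⧸ H) ∧
      ∀ s : ℕ, s.Prime → s ∣ Nat.card G → s ≠ r → ∃ g : G, orderOf g = r * s := by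
  obtain ⟨r, hr, hQ⟩ := exists_Q h3
  obtain ⟨a1, a2⟩ := h G θ H h1 h2 r hr hQ
  refine ⟨r, hr, hQ.dvd hr, fun s hs a3 a4 => ?_⟩
  rw [← θ.ker.card_mul_index, index_ker, hs.dvd_mul] at a3
  refine a3.symm.elim (a2 s hs a4) fun a3 => ?_
  have := Fact.mk hr
  have := Fact.mk hs
  have hc := (Nat.coprime_primes hr hs).2 a4.symm
  by_cases a5 : r ∣ Nat.card θ.ker
  · obtain ⟨a, ha⟩ := exists_prime_orderOf_dvd_card' r a5
    obtain ⟨b, hb⟩ := exists_prime_orderOf_dvd_card' s a3
    exact om_mono _ (subtype_injective _) (om_mul (H1.commute_of_isNilpotent_of_coprime hK (ha ▸ hb ▸ hc)) hr hs a4.symm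
      ha.symm.dvd hb.symm.dvd)
  by_contra c
  let P : Sylow s θ.ker := default
  have : P.1.Normal := inferInstance
  have : P.1.Characteristic := P.characteristic_of_normal this
  have : Nontrivial P := (nontrivial_iff_ne_bot _).2 (P.ne_bot_of_dvd_card a3)
  have hZ : center S = ⊥ := (IsSimpleGroup.eq_bot_or_eq_top_of_normal _ inferInstance).resolve_right fun e =>
    hS ⟨⟨fun x y => (mem_center_iff.1 (e.ge trivial) x)⟩⟩
  have a6 : ∀ B : Subgroup G, IsPGroup r B → IsMulCommutative B → IsCyclic B := fun B hB a => by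
    have : Nontrivial (P.1.map θ.ker.subtype) := (P.1.equivMapOfInjective _ θ.ker.subtype_injective).symm.toEquiv.nontrivial
    have := H24.isCyclic_of_fpf (V := P.1.map θ.ker.subtype) (MulAut.conjNormal.comp B.subtype) (fun a ha v e => Subtype.ext
      (by_contra fun hv => c (om_mul (a := a.1) (b := v.1) (mul_inv_eq_iff_eq_mul.1 (congrArg Subtype.val e)) hr hs a4.symm
        (H23.dvd_orderOf_of_ne_one hB a.2 fun e => ha (Subtype.ext e)) (H23.dvd_orderOf_of_ne_one (P.2.map _) v.2 hv)))) ⊤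
      inferInstance
    exact isCyclic_of_surjective _ topEquiv.surjective
  rcases eq_or_ne r 2 with rfl | h4
  · obtain ⟨E, hE⟩ := Agent.S0204.result (G := S) fun a => hS inferInstance
    let e := E.equivMapOfInjective _ (H22.conjInj hZ)
    obtain ⟨B, b1, b2⟩ := exists_lift θ (E := E.map MulAut.conj) ((map_le_range _ _).trans h1)
      ((IsPGroup.of_card (p := 2) (n := 2) hE.card_four).map _)
    have := a6 B b1 ⟨⟨fun x y => Subtype.ext (commutatorElement_eq_one_iff_mul_comm.1 (eq_one_of_pg hr b1 a5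
      (mul_mem (mul_mem (mul_mem x.2 y.2) (inv_mem x.2)) (inv_mem y.2)) (by
        obtain ⟨a, b3, b4⟩ := b2.le ⟨_, x.2, rfl⟩
        obtain ⟨b, b5, b6⟩ := b2.le ⟨_, y.2, rfl⟩
        have := hE.isMulCommutative
        rw [MonoidHom.mem_ker, map_commutatorElement, ← b4, ← b6, ← map_commutatorElement,
          commutatorElement_eq_one_iff_mul_comm.2 (congrArg Subtype.val (mul_comm' (⟨a, b3⟩ : E) ⟨b, b5⟩)), map_one])))⟩⟩
    have : IsCyclic (E.map MulAut.conj) := b2 ▸ isCyclic_of_surjective _ (θ.subgroupMap_surjective B)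
    exact IsKleinFour.not_isCyclic (isCyclic_of_surjective _ e.symm.surjective)
  obtain ⟨x, hx⟩ := exists_prime_orderOf_dvd_card' r (hQ.dvd hr)
  let Y := (zpowers x).comap (QuotientGroup.mk' H)
  let T : Sylow r Y := default
  have : IsCyclic T := (H4.cyclic_or_quaternion T.2 fun A hA => by
    let f := (Y.subtype.comp T.1.subtype)
    have hf : Injective f := Y.subtype_injective.comp T.1.subtype_injective
    have := a6 (A.map f) ((T.2.to_subgroup A).map _) inferInstance
    exact isCyclic_of_surjective _ (A.equivMapOfInjective f hf).symm.surjective).resolve_right fun a => h4 a.1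
  refine T.not_dvd_card_commutator_or_not_dvd_index_commutator.elim (· ?_) (· ?_)
  · have b1 : Inn S ≤ Y.map θ := fun a ha => by
      obtain ⟨y, rfl⟩ := h1 ha
      exact ⟨y, by simp [Y, (QuotientGroup.eq_one_iff y).2 ((h2 y).2 ha)], rfl⟩
    have b2 : ⁅(⊤ : Subgroup S), ⊤⁆ = ⊤ := (IsSimpleGroup.eq_bot_or_eq_top_of_normal _ inferInstance).resolve_left fun e =>
      hS ⟨⟨fun x y => commutatorElement_eq_one_iff_mul_comm.1 (e.le (commutator_mem_commutator trivial trivial))⟩⟩
    refine (a1.trans ?_).trans (card_dvd_of_surjective _ ((θ.comp Y.subtype).subgroupMap_surjective _))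
    rw [Nat.card_congr (MonoidHom.ofInjective (H22.conjInj hZ)).toEquiv, ← map_map, map_subtype_commutator, map_commutator]
    refine card_dvd_of_le ?_
    rw [MonoidHom.range_eq_map, ← b2, map_commutator, ← MonoidHom.range_eq_map]
    exact commutator_mono b1 b1
  · let f := (QuotientGroup.mk' H).subgroupComap (zpowers x)
    refine dvd_trans ?_ (index_dvd_of_le (K := f.ker) (commutator_le.2 fun a _ b _ => by
      simp [commutatorElement_eq_one_iff_mul_comm, mul_comm' (f a)]))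
    rw [index_ker, MonoidHom.range_eq_top.2 (MonoidHom.subgroupComap_surjective_of_surjective _ _
      (QuotientGroup.mk'_surjective H)), card_top, Nat.card_zpowers, hx]

end H27.AD
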