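/-
A vertex of the prime graph adjacent to all the others: noncyclic Sylow subgroups.
-/
import Cfsg.Agent.H27.AD1
import Cfsg.Agent.H27.ID10

set_option autoImplicit false
set_option linter.unusedSectionVars false

namespace H27.AD
open H14 H14.RootSys H14.St H14.PreSt H14.St.Tw H11 Function Cfsg Polynomial MatrixGroups H27.ID H22.KG H11.PQ

theorem pow_scal {K A : Type*} [Field K] [Ring A] [Algebra K A] {M : A} {a b : K}
    (h : (M - algebraMap K A a) * (M - algebraMap K A b) = 0) (h1 : a ≠ b) {n : ℕ} (e : a ^ n = b ^ n) :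
    M ^ n = algebraMap K A (a ^ n) := by
  obtain ⟨c, hc⟩ : (X - C a) * (X - C b) ∣ X ^ n - C (a ^ n) := (isCoprime_X_sub_C_of_isUnit_sub (sub_ne_zero.2 h1).isUnit).mul_dvd
    (dvd_iff_isRoot.2 (by simp)) (dvd_iff_isRoot.2 (by simp [e]))
  simpa [h, sub_eq_zero] using congrArg (aeval M) hc

theorem mem_of_coprime {G : Type*} [Group G] {M : Subgroup G} {x : G} {a b : ℕ} (h : a.Coprime b) (ha : x ^ a ∈ M)
    (hb : x ^ b ∈ M) : x ∈ M := by
  have := mul_mem (zpow_mem ha (a.gcdA b)) (zpow_mem hb (a.gcdB b))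
  rwa [← zpow_natCast, ← zpow_natCast, ← zpow_mul, ← zpow_mul, ← zpow_add, ← Nat.gcd_eq_gcd_ab, h, Nat.cast_one, zpow_one] at this

theorem exists_m {r p Q : ℕ} (hr : r.Prime) (hp : p.Prime) (h : r ≠ p) (h1 : r ∣ Q ^ 2 - 1) (h0 : 0 < Q) :
    ∃ m, m ∣ 2 * r ∧ ¬ m ∣ 2 ∧ ¬ p ∣ m ∧ (m ∣ Q - 1 ∨ m ∣ Q + 1) := by
  rw [show Q ^ 2 - 1 = (Q + 1) * (Q - 1) by simpa using Nat.sq_sub_sq Q 1, hr.dvd_mul] at h1
  rcases eq_or_ne r 2 with rfl | a
  · exact ⟨4, dvd_rfl, by decide, fun e => h ((Nat.prime_dvd_prime_iff_eq hp hr).1 (hp.dvd_of_dvd_pow (n := 2) e)).symm, by omega⟩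
  · exact ⟨r, dvd_mul_left _ _, mt (Nat.prime_dvd_prime_iff_eq hr Nat.prime_two).1 a,
      fun e => h ((Nat.prime_dvd_prime_iff_eq hp hr).1 e).symm, h1.symm⟩

/-- a Sylow `s`-subgroup is cyclic or centralizers contain `SL₂(q)` -/
def Wk (q s : ℕ) (S : Type*) [Group S] : Prop :=
  CycP s (⊤ : Subgroup S) ∨ ∀ r : ℕ, r.Prime → r ≠ s → r ∣ q * (q ^ 2 - 1) → r * s ∈ om S

theorem Wk.equiv {q s : ℕ} {S S' : Type*} [Group S] [Group S'] [Finite S] [Fact s.Prime] (h : Wk q s S) (e : S ≃* S') :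
    Wk q s S' :=
  h.imp (CycP.surj · e.toMonoidHom e.surjective) fun h r a b c => H27.Sp.om_mono e.toMonoidHom e.injective (h r a b c)

variable {ι κ : Type*} [Fintype κ] [DecidableEq κ] [Fintype ι] [DecidableEq ι] {R : RootSys ι κ}
  {C : Chev R} {K G : Type*} [Field K] [Group G] {S : St C K G} {F : S.Fr} {A : Set ι} {p q r s : ℕ}
  [hp : Fact p.Prime] [CharP K p] [IsAlgClosed K]

theorem cent_pow (hh : S.HMul) (β : ι) {l t : K} (h0 : l ≠ 0) (h1 : l ^ 2 ≠ 1) (h2 : l ^ (2 * r) = 1) (ht : t ≠ 0) :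
    ∀ v ∈ S.U {β, R.neg β}, Commute ((S.x β (t * (2 - (l + l⁻¹))) * S.x (R.neg β) (-t⁻¹)) ^ r) v := by
  obtain ⟨φ, a1, a2⟩ := St.exists_SL2 β (hh β)
  let U : K → SL(2, K) := fun b => ⟨!![1, b; 0, 1], by simp⟩
  let L : K → SL(2, K) := fun b => ⟨!![1, 0; b, 1], by simp⟩
  rw [← a1, ← (a2 (U _) _).1 rfl, ← (a2 (L _) _).2 rfl, ← map_mul, ← map_pow]
  rintro _ ⟨v, rfl⟩
  refine Commute.map (Matrix.SpecialLinearGroup.ext _ _ fun i j => congrFun (congrFun ?_ i) j : _ * v = v * _) φ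
  have := pow_scal (M := (!![1, t * (2 - (l + l⁻¹)); 0, 1] * !![1, 0; -t⁻¹, 1] : Matrix (Fin 2) (Fin 2) K)) (a := l) (b := l⁻¹)
    (by ext i j; fin_cases i <;> fin_cases j <;> simp [Matrix.algebraMap_matrix_apply, Matrix.mul_apply] <;> field_simp <;> ring)
    (fun e => h1 (by rw [sq]; nth_rw 1 [e]; exact inv_mul_cancel₀ h0)) (n := r)
    (by rw [inv_pow]; exact eq_inv_of_mul_eq_one_left (by rwa [← pow_add, ← two_mul]))
  exact (show Commute (_ ^ r) v.1 from this ▸ Algebra.commutes _ _).eq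

variable (F p q) in
/-- the standing hypotheses -/
structure Am : Prop where
  alg : S.Alg p
  hq : ∀ r, F.p ^ F.e r = q
  lt : 1 < q
  pw : ∃ f, q = p ^ f
  aut : F.ρ ∈ R.Aut

namespace Am
variable (Y : Am F p q)
include Y

theorem iter (j : ℕ) (r : ι) : ∃ c : K, c ≠ 0 ∧ (∀ t, F.σ^[j] (S.x r t) = S.x ((F.ρ ^ j) r) (c * t ^ q ^ j)) ∧
    ∀ t, t ≠ 0 → F.σ^[j] (S.n r t) = S.n ((F.ρ ^ j) r) (c * t ^ q ^ j) := by
  induction j with
  | zero => exact ⟨1, one_ne_zero, by simp, by simp⟩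
  | succ j ih =>
    obtain ⟨c, a, b, d⟩ := ih
    refine ⟨F.c ((F.ρ ^ j) r) * c ^ q, mul_ne_zero (F.c_ne _) (pow_ne_zero _ a), fun t => ?_, fun t ht => ?_⟩
    · rw [iterate_succ_apply', b, F.σ_x, Y.hq, mul_pow, ← pow_mul, ← pow_succ, mul_assoc, pow_succ' F.ρ]; rfl
    · rw [iterate_succ_apply', d t ht, F.σ_n _ _ (mul_ne_zero a (pow_ne_zero _ ht)), Y.hq, mul_pow, ← pow_mul, ← pow_succ,
        mul_assoc, pow_succ' F.ρ]; rfl

theorem exists_top (h1 : R.Closed A) (h2 : ∀ r ∈ A, R.neg r ∈ A)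
    (h3 : ∀ r ∈ {r | R.pos r ∧ r ∈ A}, R.pos r ∧ F.ρ r ∈ {r | R.pos r ∧ r ∈ A}) (h4 : A.Nonempty) :
    ∃ β, (∀ i : ℕ, (F.ρ ^ i) β ∈ {r | R.pos r ∧ r ∈ A}) ∧ ∀ i j : ℕ, ¬ R.IsSum ((F.ρ ^ i) β) ((F.ρ ^ j) β) ∧
      ¬ R.IsSum (R.neg ((F.ρ ^ i) β)) ((F.ρ ^ j) β) := by
  obtain ⟨f, a1, a2⟩ := exists_inv_form Y.aut h3
  obtain ⟨β, a3, a4⟩ := Set.exists_max_image {r | R.pos r ∧ r ∈ A} (fun r => f (R.cf r)) (Set.toFinite _) (by
    obtain ⟨r, hr⟩ := h4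
    exact (R.pos_or_pos_neg r).elim (⟨r, ·, hr⟩) (⟨_, ·, h2 r hr⟩))
  have a5 : ∀ i : ℕ, (F.ρ ^ i) β ∈ {r | R.pos r ∧ r ∈ A} ∧ f (R.cf ((F.ρ ^ i) β)) = f (R.cf β) := fun i => by
    induction i with
    | zero => exact ⟨a3, rfl⟩
    | succ i ih => rw [pow_succ', Equiv.Perm.mul_apply, a1]; exact ⟨(h3 _ ih.1).2, ih.2⟩
  have a6 : ∀ k ∈ A, f (R.cf k) ≠ 0 ∧ f (R.cf k) ≤ f (R.cf β) := fun k hk => (R.pos_or_pos_neg k).elim
    (fun a => ⟨(a2 k ⟨a, hk⟩).ne', a4 k ⟨a, hk⟩⟩) fun a => by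
      have := a2 _ ⟨a, h2 k hk⟩
      have := a2 β a3
      rw [cf_neg, map_neg] at *
      omega
  refine ⟨β, fun i => (a5 i).1, fun i j => ⟨fun ⟨k, e⟩ => ?_, fun ⟨k, e⟩ => ?_⟩⟩
  · have := (a6 k (h1 _ (a5 i).1.2 _ (a5 j).1.2 k 1 1 one_pos one_pos (by simpa using e))).2
    have := a2 β a3
    rw [e, map_add, (a5 i).2, (a5 j).2] at *
    omega
  · exact (a6 k (h1 _ (h2 _ (a5 i).1.2) _ (a5 j).1.2 k 1 1 one_pos one_pos (by simpa using e))).1 (by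
      rw [e, map_add, cf_neg, map_neg, (a5 i).2, (a5 j).2, neg_add_cancel])

theorem core (h1 : R.Closed A) (h2 : ∀ r ∈ A, R.neg r ∈ A)
    (h3 : ∀ r ∈ {r | R.pos r ∧ r ∈ A}, R.pos r ∧ F.ρ r ∈ {r | R.pos r ∧ r ∈ A}) (h4 : A.Nonempty) {M : Subgroup G}
    (hM : ∀ g ∈ F.fix, g ^ p = 1 → g ∈ M) (hr : r.Prime) (h5 : r ∣ q * (q ^ 2 - 1)) :
    ∃ g ∈ M ⊓ S.U A, ∃ a ∈ M, Commute (g ^ r) a ∧ ¬ Commute g a := by
  obtain ⟨β, a1, a2⟩ := Y.exists_top h1 h2 h3 h4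
  have a0 := fun i => Aut.neg (pow_mem Y.aut i) β
  obtain ⟨j, hj⟩ := Nat.exists_eq_succ_of_ne_zero (minimalPeriod_pos_of_mem_periodicPts (F.ρ.injective.mem_periodicPts β)).ne'
  have a3 : (F.ρ ^ (j + 1)) β = β := (hj ▸ iterate_minimalPeriod : F.ρ^[j.succ] β = β)
  have a4 : ∀ i < j, (F.ρ ^ (i + 1)) β ≠ β := fun i a e =>
    not_isPeriodicPt_of_pos_of_lt_minimalPeriod i.succ_ne_zero (hj ▸ Nat.succ_lt_succ a) e
  let V := S.U {β, R.neg β}
  have a5 : ∀ x ∈ V, ∀ y ∈ V, ∀ i ≤ j, Commute y (F.σ (Nm F.σ i x)) := fun x hx y hy i hi => by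
    refine S.commute_U (B := {r | ∃ k < j, ∃ d ∈ ({β, R.neg β} : Set ι), r = (F.ρ ^ (k + 1)) d}) ?_ y hy _ (F.σ_mem_U (by
      rintro _ ⟨k, a, d, b, rfl⟩
      exact ⟨k, by omega, d, b, by rw [pow_succ']; rfl⟩) (Nm_mem hx i))
    have b1 := fun i => (R.pos_neg_iff β).not.2 (not_not.2 (a1 0).1) ∘ fun e : (F.ρ ^ i) β = R.neg β => e ▸ (a1 i).1
    rintro _ (rfl | rfl) _ ⟨k, a, _, rfl | rfl, rfl⟩ t u <;> refine S.commute_of_not ?_ ?_ t u
    · exact b1 _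
    · exact (a2 0 _).1
    · rw [a0]; exact fun e => a4 k a (R.neg_inj e)
    · exact fun e => (a2 0 (k + 1)).2 (by simpa [a0, R.neg_neg] using e.neg_neg)
    · rw [R.neg_neg]; exact a4 k a
    · exact (a2 0 _).2
    · rw [a0, R.neg_neg]; exact fun e => b1 (k + 1) (by rw [← R.neg_neg ((F.ρ ^ (k + 1)) _), e])
    · exact fun e => (a2 0 (k + 1)).1 (by simpa [a0, R.neg_neg] using e.neg_neg)
  have a6 : ∀ x ∈ V, ∀ y ∈ V, ∀ i ≤ j + 1, Nm F.σ i (x * y) = Nm F.σ i x * Nm F.σ i y := fun x hx y hy i hi => by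
    induction i with
    | zero => simp [Nm]
    | succ i ih =>
      rw [Nm, Nm, Nm, ih (by omega), map_mul, mul_assoc, mul_assoc, ← mul_assoc y, (a5 x hx y hy i (by omega)).eq, mul_assoc]
  let ν : V →* G := MonoidHom.mk' (fun x => Nm F.σ (j + 1) x) fun x y => a6 x x.2 y y.2 _ le_rfl
  have a7 : ∀ x : V, F.σ^[j + 1] x = x → x ^ p = 1 → ν x ∈ M := fun x e hx => hM _ (by
    have a := Nm_succ F.σ (j + 1) x
    rw [e, ← (show Commute x.1 (Nm F.σ (j + 1) x) from (Commute.refl _).mul_right (a5 x x.2 x x.2 j le_rfl)).eq, Nm] at a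
    exact mul_left_cancel a) (by rw [← map_pow, hx, map_one])
  let X : K → V := fun t => ⟨S.x β t, x_mem_U (by simp) t⟩
  let Z : K → V := fun t => ⟨S.x (R.neg β) t, x_mem_U (by simp) t⟩
  have b1 : ∀ t, ν (X t) ∈ S.U {r | R.pos r} := fun t => U_mono (by rintro _ ⟨i, -, _, rfl, rfl⟩; exact (a1 i).1)
    (Nm_mem (x_mem_U (Set.mem_singleton β) t) _)
  have b2 : ∀ t, ν (Z t) ∈ S.U {r | ¬ R.pos r} := fun t => U_mono (by
    rintro _ ⟨i, -, _, rfl, rfl⟩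
    exact a0 i ▸ (R.pos_neg_iff _).not.2 (not_not.2 (a1 i).1)) (Nm_mem (x_mem_U (Set.mem_singleton _) t) _)
  have b3 : ∀ v, ν v ∈ S.U A := fun v => U_mono (by
    rintro _ ⟨i, -, _, rfl | rfl, rfl⟩
    exacts [(a1 i).2, a0 i ▸ h2 _ (a1 i).2]) (Nm_mem v.2 _)
  have b4 : ∀ t, t ≠ 0 → ¬ Commute (ν (X t)) (ν (Z (-t⁻¹))) := fun t ht e => by
    obtain ⟨u, hu⟩ : ∃ u, X t * Z (-t⁻¹) * X t * X t = Z u * (X t * Z (-t⁻¹) * X t) :=
      ⟨_, Subtype.ext (R.refl_self β ▸ S.nconj β β t ht t :)⟩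
    have c1 : ν (X t) = 1 := F.sep.tri_pos (b1 t) (b2 u) (one_mem _) (by
      have := congrArg ν hu
      simp only [map_mul] at this
      rw [← (((Commute.refl _).mul_right e).mul_right (Commute.refl _)).eq] at this
      simpa using this)
    have c2 : Commute (X t).1 (X t * Z (-t⁻¹) * X t).1 := by
      rw [eq_inv_of_mul_eq_one_left c1]
      exact (a5 _ (X t).2 _ (X t * Z (-t⁻¹) * X t).2 j le_rfl).symm.inv_left
    exact ht (F.sep.x_eq_one.1 (F.sep.tri_pos (x_mem_U (a1 0).1 t) (x_mem_U ((R.pos_neg_iff β).not.2 (not_not.2 (a1 0).1)) u)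
      (one_mem _) ((mul_right_cancel (c2.eq.trans (congrArg Subtype.val hu))).trans (mul_one _).symm)))
  obtain ⟨c, c1, c2, c3⟩ := Y.iter (j + 1) β
  rw [a3] at c2 c3
  obtain ⟨t, ht, c4⟩ := exists_sol c1 (Nat.one_lt_pow j.succ_ne_zero Y.lt)
  have b5 : ∀ t, c * t ^ q ^ (j + 1) = t → ν (X t) ∈ M := fun t e => a7 _ ((c2 t).trans (congrArg _ e))
    (Subtype.ext (by simp [X, PreSt.x_pow]))
  have b6 : ν (Z (-t⁻¹)) ∈ M := a7 _ (by
    have := c3 t ht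
    rwa [c4, PreSt.n, iterate_map_mul, iterate_map_mul, c2, c4, mul_left_inj, mul_right_inj] at this)
    (Subtype.ext (by simp [Z, PreSt.x_pow]))
  obtain ⟨u, d1, d2⟩ : ∃ u, c * u ^ q ^ (j + 1) = u ∧ ∀ v : V, Commute ((X u * Z (-t⁻¹)) ^ r) v := by
    obtain ⟨f, hf⟩ := Y.pw
    rcases eq_or_ne r p with rfl | d0
    · exact ⟨0, by simp [(zero_lt_one.trans Y.lt).ne'], fun v => by
        rw [show (X 0 * Z (-t⁻¹)) ^ r = 1 from Subtype.ext (by simp [X, Z, PreSt.x_pow])]; exact .one_left v⟩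
    obtain ⟨m, d1, d2, d3, d4⟩ := exists_m hr hp.1 d0 (Q := q ^ (j + 1)) (((hr.dvd_mul.1 h5).resolve_left fun e =>
      d0 ((Nat.prime_dvd_prime_iff_eq hr hp.1).1 (hr.dvd_of_dvd_pow (hf ▸ e)))).trans (by
        rw [← pow_mul, mul_comm, pow_mul]; simpa using Nat.sub_dvd_pow_sub_pow (q ^ 2) 1 (j + 1)))
      (pow_pos (zero_lt_one.trans Y.lt) _)
    have : NeZero (m : K) := ⟨mt (CharP.cast_eq_zero_iff K p m).1 d3⟩
    obtain ⟨l, hl⟩ := HasEnoughRootsOfUnity.exists_primitiveRoot K m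
    have d5 := hl.ne_zero (by rintro rfl; exact d3 (dvd_zero p))
    refine ⟨t * (2 - (l + l⁻¹)), ?_, fun v => Subtype.ext (cent_pow F.hmul β d5 (mt (hl.2 2) d2)
      ((hl.pow_eq_one_iff_dvd _).2 d1) ht v v.2).eq⟩
    have d6 : ∀ x : K, x ^ q ^ (j + 1) = iterateFrobenius K p (f * (j + 1)) x := fun x => by rw [hf, ← pow_mul]; rfl
    rw [mul_pow, ← mul_assoc, c4, d6, map_sub, map_add, map_inv₀, map_ofNat, ← d6]
    rcases d4 with d4 | d4
    · rw [← Nat.sub_add_cancel (Nat.one_le_pow (j + 1) q (zero_lt_one.trans Y.lt)), pow_succ, (hl.pow_eq_one_iff_dvd _).2 d4,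
        one_mul]
    · rw [eq_inv_of_mul_eq_one_left ((pow_succ l _).symm.trans ((hl.pow_eq_one_iff_dvd _).2 d4)), inv_inv, add_comm]
  have d3 : ∀ v, Commute (ν (X u * Z (-t⁻¹)) ^ r) (ν v) := fun v => map_pow ν _ r ▸ (d2 v).map ν
  refine ⟨_, ⟨map_mul ν _ _ ▸ mul_mem (b5 u d1) b6, b3 _⟩, _, b5 t c4, d3 _, fun e => b4 t ht ?_⟩
  have d4 : Commute (X u) (X t) := Subtype.ext (by simp [X, ← x_add, add_comm])
  simpa using ((d4.map ν).inv_left.mul_left e).symm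

theorem wk {Γ : Type*} [Group Γ] [Finite Γ] {e : Γ →* G} (he : AS.Em p F e) (hs : s.Prime) (h1 : s ≠ p) (h2 : s ≠ 2)
    (hl : Injective F.hmul.tor ∨ ∃ e : ℕ, ¬ s ∣ e ∧ ∃ B, R.A * B = (e : ℤ) • 1) (hz : ¬ s ∣ Nat.card (Subgroup.center Γ)) :
    Wk q s (Γ ⧸ Subgroup.center Γ) := by
  have := Fact.mk hs
  have hc : ∀ c, F.hmul.tor c ^ s = 1 → F.hmul.Cn c := fun c a => hl.elim (F.hmul.cn_of_inj · (Y.alg.finOrder c))
    fun ⟨e, he, B, hB⟩ => F.hmul.cn_of_coprime F.sep (AS.mul_comm_of_smul (by rintro h; simp_all) hB) (Y.alg.finOrder c) a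
      (hs.coprime_iff_not_dvd.2 he)
  refine or_iff_not_imp_left.2 fun a0 r hr h3 h4 => ?_
  obtain ⟨B, a1, a2, a3⟩ : ∃ B : Subgroup Γ, IsPGroup s B ∧ IsMulCommutative B ∧ ¬ IsCyclic B := by
    by_contra! c
    refine a0 (CycP.surj (fun P _ hP => (H4.cyclic_or_quaternion hP fun B hB => ?_).resolve_right fun a => h2 a.1) _
      (QuotientGroup.mk'_surjective _))
    have := c (B.map P.subtype) ((hP.to_subgroup B).map _) inferInstance
    exact isCyclic_of_surjective _ (B.equivMapOfInjective _ P.subtype_injective).symm.surjective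
  obtain ⟨z, a4, a5, g, c, a6, a7⟩ : ∃ z ∈ B, z ≠ 1 ∧ ∃ g c, g * F.hmul.tor c * g⁻¹ = e z ∧ ∃ α, R.chi c α = 1 := by
    obtain ⟨z, hz⟩ := exists_prime_orderOf_dvd_card' s (a1.card_eq_or_dvd.resolve_left fun a => a3 (by
      rw [Subgroup.card_eq_one.1 a]; infer_instance))
    have b0 : z.1 ≠ 1 := fun a => hs.one_lt.ne' (by rw [← hz, show z = 1 from Subtype.ext a, orderOf_one])
    have b1 : e z ^ s = 1 := by rw [← map_pow, ← Subgroup.coe_pow, ← hz, pow_orderOf_eq_one]; simp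
    obtain ⟨g, -, b2⟩ := Y.alg.exists_conj_prime (c := 1) (fun _ _ h _ => W_le_WA (by simp [RootSys.chi]) (NW.mem_W h))
      (s := e z) (by simp) hs h1 (b := 1) (by simpa using b1)
    obtain ⟨c, b3⟩ := F.hmul.exists_tor b2
    by_contra! b4
    have b5 := b4 z z.2 b0 g c (by rw [← b3]; group)
    have b6 : ∀ y : B, ∃ d, g⁻¹ * e y * g = F.hmul.tor d := fun y => F.hmul.exists_tor (by
      have := ((hc c (by rw [← b3, ← inv_inv g, inv_inv g⁻¹, conj_pow, b1]; simp)).commute_iff F.sep F.top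
        (g := g⁻¹ * e y * g)).1 (by
          simpa [← b3] using ((show Commute z y from mul_comm' z y).map (e.comp B.subtype)).conj g⁻¹)
      rwa [Set.eq_empty_of_forall_notMem (s := {r | R.chi c r = 1}) b5, U_empty, bot_sup_eq] at this)
    choose d hd using b6
    obtain ⟨j⟩ : Nonempty κ := not_isEmpty_iff.1 fun _ => b0 (he.inj (by
      rw [Subsingleton.elim c 1, map_one, mul_assoc, inv_mul_eq_one, right_eq_mul] at b3
      simpa using b3))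
    refine a3 (isCyclic_of_injective_ringHom ((Units.coeHom K).comp (MonoidHom.mk' (fun y => R.chi (d y) (R.simple j))
      fun x y => (chi_congr (F := F) (by rw [map_mul, ← hd, ← hd, ← hd]; simp [mul_assoc]) _).trans (chi_mul ..)))
      ((injective_iff_map_eq_one _).2 fun y a => Subtype.ext (by_contra fun b => ?_)))
    exact b4 y y.2 b g (d y) (by rw [← hd]; group) _ (Units.ext a)
  obtain ⟨x, m, w, h, b1, b2, b3⟩ := IR.exists_tw F Y.aut (a6 ▸ he.fix z)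
  obtain ⟨_, ⟨⟨N, b4⟩, b5⟩, _, ⟨a, b6⟩, b7, b8⟩ := Am.core (F := F.tw h) ⟨Y.alg, Y.hq, Y.lt, Y.pw, F.tw_aut Y.aut h⟩
    (closed_chi c) (chi_symm c) b3 a7 (M := ((MulAut.conj x⁻¹).toMonoidHom.comp e).range) (fun y a b => by
      obtain ⟨u, hu⟩ := he.mem (x * y * x⁻¹) (by
        rw [Fr.mem_fix, Fr.tw_σ, ← b2, ← (MulAut.conj x).injective.eq_iff] at a
        simpa [Fr.mem_fix, mul_assoc] using a) 1 (by rw [pow_one, conj_pow, b]; simp)
      exact ⟨u, by simp [hu, mul_assoc]⟩) hr h4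
  subst b4 b6
  have b0 : Injective ((MulAut.conj x⁻¹).toMonoidHom.comp e) := (MulAut.conj x⁻¹).injective.comp he.inj
  have b9 : Commute z N := Commute.of_map b0 (by
    convert F.hmul.commute_U (fun _ => id) (Subgroup.mem_sup_left b5)
    simp [← a6, ← b1, mul_assoc])
  refine om_mul (b9.symm.map (QuotientGroup.mk' _)) hr hs h3 (by_contra fun b => b8 (Commute.map ?_ _))
    (H23.dvd_orderOf_of_ne_one (a1.map _) ⟨z, a4, rfl⟩ fun b => a5 (eq_one_of_pg hs a1 hz a4 ((QuotientGroup.eq_one_iff _).1 b)))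
  exact Subgroup.mem_centralizer_singleton_iff.1 (mem_of_coprime (hr.coprime_iff_not_dvd.2 b)
    (Subgroup.mem_centralizer_singleton_iff.2 (Commute.of_map b0 (by rwa [map_pow])))
    (Subgroup.center_le_centralizer _ ((QuotientGroup.eq_one_iff _).1 ((QuotientGroup.mk_pow ..).trans
      (pow_orderOf_eq_one _)))))

end Am

end H27.AD
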