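/-
A vertex of the prime graph adjacent to all the others: noncyclic Sylow subgroups, family by family.
-/
import Cfsg.Agent.H27.AD2
import Cfsg.Agent.H27.ID13

set_option autoImplicit false
set_option linter.unusedSectionVars false
set_option maxRecDepth 100000

namespace H27.AD
open Function Matrix H14 H14.RootSys H14.PreSt H14.St Cfsg Cfsg.Lie H11 H11.AS
open H27.ID (alg_rep alg_good)

section Gen
variable {ι κ ν : Type*} [Fintype κ] [DecidableEq κ] [Fintype ι] [DecidableEq ι] [Fintype ν] [DecidableEq ν] {R : RootSys ι κ}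
  {C : Chev R} {G F G0 Γ : Type*} [Group G] [Field F] [Fintype F] [Group G0] [Group Γ] {p s : ℕ} [hp : Fact p.Prime] [CharP F p]
  {S : St C (AlgebraicClosure F) G} {S0 : St C F G0} {μ : G0 →* G}

theorem exists_em (A : S.Alg p) (hμ : Injective μ)
    (hx : ∀ s t, μ (S0.x s t) = S.x s (algebraMap F _ t)) {q m : ℕ} (hq : Fintype.card F = q ^ m) (hm : m ≠ 0) (T0 : S0.Tw)
    (T : ℕ → S.Tw) (h1 : ∀ f, (T f).ρ = T0.ρ) {c : ι → ℤ} (h2 : ∀ s t, T0.f s t = c s * t ^ q)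
    (h3 : ∀ f s t, (T f).f s t = c s * t ^ p ^ f)
    (h4 : ∀ f s t, (T f).σ^[m] (S.x s t) = S.x s ((t ^ p ^ f) ^ p ^ (f * (m - 1)))) (hd : T0.ρ = 1 ∨ ∀ s, R.d s = 1)
    {e : Γ →* G0} (he : Injective e) (h5 : ∀ g, e g ∈ T0.fix) (h6 : ∀ g ∈ T0.fix, ∀ a, g ^ p ^ a = 1 → g ∈ e.range) :
    ∃ Φ : S.Fr, Φ.ρ = T0.ρ ∧ Am Φ p q ∧ Em p Φ (μ.comp e) := by
  obtain ⟨k, -, hk⟩ := FiniteField.card F p
  obtain ⟨f, -, rfl⟩ := (Nat.dvd_prime_pow hp.1).1 (hk ▸ hq ▸ dvd_pow_self q hm)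
  have a0 : ∀ s t, (T f).σ^[m] (S.x s t) = S.x s (t ^ p ^ (k : ℕ)) := fun s t => by
    rw [h4, ← hk, hq, ← pow_mul, ← pow_add, ← pow_mul, ← mul_one_add, Nat.add_sub_cancel' (Nat.one_le_iff_ne_zero.2 hm)]
  have a1 : ∀ g, (T f).σ (μ g) = μ (T0.σ g) := DFunLike.congr_fun (hom_ext T0.top (α := (T f).σ.comp μ) (β := μ.comp T0.σ)
    fun s t => by simp [hx, (T f).σ_x, T0.σ_x, h1, h2, h3])
  let Φ := (T f).fr A.hmul p _ (fun _ => f) (h3 f) hm.bot_lt (hk ▸ Fintype.one_lt_card) a0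
  refine ⟨Φ, h1 f, ⟨A, fun _ => rfl, ?_, ⟨f, rfl⟩, hd.elim (fun a => (show Φ.ρ = 1 from (h1 f).trans a) ▸ one_mem _)
    (fr_aut Φ (q := p ^ f) fun _ => rfl)⟩, hμ.comp he, fun g => (a1 _).trans (congrArg _ (h5 g)), fun g hg a ha => ?_⟩
  · exact (Nat.one_lt_pow_iff hm).1 (hq ▸ Fintype.one_lt_card)
  have a3 : ∀ n t, ((show Monoid.End G from (T f).σ) ^ n) t = (T f).σ^[n] t := fun n => congrFun (Monoid.End.coe_pow _ _ n)
  have a4 : (A.tw k).Fld (algebraMap F _) (iterateFrobenius _ p k) :=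
    ⟨(A.tw k).σ_x, fun t => by rw [← pow_card_eq_iff, hk]; rfl⟩
  obtain ⟨l, hl, x, hx', rfl⟩ := a4.decomp ((DFunLike.congr_fun (hom_ext A.top (β := (show Monoid.End G from (T f).σ) ^ m) fun s t =>
    (A.tw_x ..).trans ((a0 s t).symm.trans (a3 m _).symm)) g).trans ((a3 m g).trans (iterate_fixed hg m)))
  obtain ⟨d, rfl⟩ := A.hmul.exists_tor hx'.1
  obtain ⟨j, b1, b2⟩ := A.exists_pow d
  obtain ⟨y, -, e1⟩ := (IsHom.map_U (S := S0.toPreSt) (S' := (S.base _).toPreSt) hx _).ge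
    (mem_of_pel hl (fun y => a4.conj_mem (inv_mem hx')) (by rw [← map_pow, b2, map_one]; exact one_mem _) b1 ha)
  rw [← e1] at hg ha ⊢
  obtain ⟨z, rfl⟩ := h6 y (hμ ((a1 y).symm.trans hg)) a (hμ (by rw [map_pow, ha, map_one]))
  exact ⟨z, rfl⟩

theorem exists_em₁ (A : S.Alg p) (hμ : Injective μ)
    (hx : ∀ s t, μ (S0.x s t) = S.x s (algebraMap F _ t)) (h1 : S0.Sep) (h2 : S0.U Set.univ = ⊤) :
    ∃ Φ : S.Fr, Φ.ρ = 1 ∧ Am Φ p (Fintype.card F) ∧ Em p Φ μ :=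
  exists_em A hμ hx (pow_one _).symm one_ne_zero (Tw.id h1 h2) A.tw (fun _ => rfl) (c := fun _ => 1)
    (fun _ t => by simp [Tw.id, FiniteField.pow_card]) (fun _ _ _ => by simp [Alg.tw, Tw.ofField, iterateFrobenius_def])
    (fun f s t => by simp [A.tw_x]) (.inl rfl) (e := .id _) injective_id (fun _ => rfl) fun g _ _ _ => ⟨g, rfl⟩

theorem wk_rep {V : Rep C.toPreChev ν} {j : G →* GL ν _} (h : S.toPreSt.IsHom (V.st _).toPreSt j) (hj : Injective j)
    (hG : S.U Set.univ = ⊤) (hS : S.Sep) [Finite G0] {j0 : G0 →* GL ν F} (a : S0.toPreSt.IsHom (V.st F).toPreSt j0)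
    (b : Injective j0) (c : S0.U Set.univ = ⊤) (d : S0.Sep) (hs : s.Prime) (h1 : s ≠ p) (h2 : s ≠ 2)
    (hl : Injective ((V.hmul _).comap h hj).tor ∨ ∃ e : ℕ, ¬ s ∣ e ∧ ∃ B, R.A * B = (e : ℤ) • 1)
    (hz : ¬ s ∣ Nat.card (Subgroup.center G0)) : Wk (Fintype.card F) s (G0 ⧸ Subgroup.center G0) := by
  obtain ⟨μ, a1, a2⟩ := pull_map a b c h hj (algebraMap F _)
  obtain ⟨Φ, -, b2, b3⟩ := exists_em₁ (alg_rep h hj hG hS) a1 a2 d c
  exact b2.wk b3 hs h1 h2 hl hz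

end Gen

variable {F : Type*} [Field F] [Fintype F] {p s : ℕ} [hp : Fact p.Prime] [CharP F p] [hs : Fact s.Prime] (h1 : s ≠ p) (h2 : s ≠ 2)
include h1 h2

theorem wk_psl {n : ℕ} (hn : n ≠ 0) (h : ¬ s ∣ n.gcd (Fintype.card F - 1)) :
    Wk (Fintype.card F) s (ProjectiveSpecialLinearGroup (Fin n) F) := by
  obtain ⟨n, rfl⟩ := Nat.exists_eq_succ_of_ne_zero hn
  exact wk_rep (slSt_isHom n _) SpecialLinearGroup.toGL_injective (slSt_top n _) (slSt_sep n _) (slSt_isHom n F)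
    SpecialLinearGroup.toGL_injective (slSt_top n F) (slSt_sep n F) hs.1 h1 h2 (.inl (slSt_tor n _))
    (by rwa [card_center_sl, Fintype.card_fin])

theorem wk_psp {n : ℕ} (hn : 1 ≤ n) : Wk (Fintype.card F) s (PSp n F) :=
  have : Nonempty (Fin n) := ⟨⟨0, hn⟩⟩
  wk_rep (spSt_isHom n _) spToGL_injective (spSt_top n _) (spSt_sep n _) (spSt_isHom n F) spToGL_injective (spSt_top n F)
    (spSt_sep n F) hs.1 h1 h2 (.inl (spSt_tor n _)) fun h =>
      not_dvd_two h2 (k := 1) (h.trans (card_center_sp (F := F) (ι := Fin n) ▸ Nat.gcd_dvd_left _ _))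

theorem wk_omB {n : ℕ} (hn : 1 ≤ n) (h : (2 : F) ≠ 0) : Wk (Fintype.card F) s (POmega F (quadFormOdd n F)) :=
  wk_rep (stPull_isHom _ (Subgroup.subtype_injective _) (Subgroup.range_subtype _)) (Subgroup.subtype_injective _)
    (stPull_top ..) (stPull_sep _ _ _ ((wbB n).nat_sep _)) (stPull_isHom _ (omToGL_injective F _) (range_omB n F hn h))
    (omToGL_injective F _) (stPull_top ..) (stPull_sep _ _ _ ((wbB n).nat_sep F)) hs.1 h1 h2
    (.inr ⟨4, not_dvd_two h2 (k := 2), invB n⟩) (by simp [center_omegaOdd h hn, hs.1.ne_one])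

theorem wk_omD {n : ℕ} (hn : 3 ≤ n) : Wk (Fintype.card F) s (POmega F (quadFormPlus n F)) :=
  wk_rep (stPull_isHom _ (Subgroup.subtype_injective _) (Subgroup.range_subtype _)) (Subgroup.subtype_injective _)
    (stPull_top ..) (stPull_sep _ _ _ ((wbD n (by omega)).nat_sep _))
    (stPull_isHom _ (omToGL_injective F _) (range_omD n F _ (.inr (by simp; omega)))) (omToGL_injective F _) (stPull_top ..)
    (stPull_sep _ _ _ ((wbD n _).nat_sep F)) hs.1 h1 h2 (.inr ⟨4, not_dvd_two h2 (k := 2), invD _⟩) (by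
      rw [card_center_omegaPlus (by omega) (.inr (by omega))]
      split_ifs
      exacts [not_dvd_two h2 (k := 1), not_dvd_two h2 (k := 0)])

theorem wk_psu {n q : ℕ} (hn : 2 ≤ n) (hF : Fintype.card F = q ^ 2) (h : ¬ s ∣ n.gcd (q + 1)) : Wk q s (PSU n F q) := by
  obtain ⟨m, rfl⟩ : ∃ m, n = m + 1 := ⟨n - 1, by omega⟩
  obtain ⟨e⟩ := nonempty_suMat_equiv hF (M := H8.SUT.J m F) (n := m + 1) (by
    ext a b
    simp [-frob_apply, H8.SUT.J, one_apply, apply_ite (frob hF), Fin.rev_eq_iff, eq_comm (a := b)])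
    (left_ne_zero_of_mul_eq_one (by rw [← det_mul, H8.SUT.J_J, det_one])) (Fintype.card_fin _)
  obtain ⟨μ, a1, a2⟩ := pull_map (slSt_isHom m F) SpecialLinearGroup.toGL_injective (slSt_top m F) (slSt_isHom m _)
    SpecialLinearGroup.toGL_injective (algebraMap F (AlgebraicClosure F))
  obtain ⟨Φ, -, b2, b3⟩ := exists_em (alg_rep (slSt_isHom m _) SpecialLinearGroup.toGL_injective (slSt_top m _) (slSt_sep m _))
    a1 a2 hF two_ne_zero (H8.SUT.T m (frob hF)) (fun f => H8.SUT.T m (iterateFrobenius _ p f)) (fun _ => rfl)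
    (c := fun _ => -1) (fun _ _ => by simp [H8.SUT.T]) (fun _ _ _ => by simp [H8.SUT.T, iterateFrobenius_def]) (fun f s t => by
      rw [iterate_succ_apply', iterate_one, Tw.σ_x, Tw.σ_x]
      exact congrArg₂ _ (H8.SUT.ρ.left_inv s) (by simp [H8.SUT.T, ← iterateFrobenius_def])) (.inr hdA)
    (e := (suMat hF (H8.SUT.J m F)).subtype) Subtype.val_injective (fun g => (H8.SUT.σ_eq_iff _ _).2 g.2)
    fun g hg _ _ => ⟨⟨g, (H8.SUT.σ_eq_iff _ _).1 hg⟩, rfl⟩
  exact (b2.wk b3 hs.1 h1 h2 (.inl (slSt_tor m _)) (by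
    rwa [card_center_congr e, card_center_SU hF hn])).equiv (quotCenterCongr e)

theorem wk_omM (h0 : p ≠ 2) {m : ℕ} (hm : 2 ≤ m) {a b : F} (hab : ∀ z₁ z₂ : F, z₁ ^ 2 + a * z₁ * z₂ + b * z₂ ^ 2 = 0 → z₁ = 0 ∧ z₂ = 0) :
    Wk (Fintype.card F) s (POmega F (quadFormMinus m F a b)) := by
  have := fact_of_aniso hab
  have : CharP (QuadraticAlgebra F (-b) a) p := charP_of_injective_algebraMap (algebraMap F _).injective p
  have hm' : 2 ≤ m + 1 := by omega
  have h := H8.OmT.twE hm' (φ := starRingEnd (QuadraticAlgebra F (-b) a)) (F := F) (a := a) (b := b)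
    (ω := ⟨0, 1⟩) (by simp) (fun t => ⟨fun h => ⟨_, eq_algebraMap_of_star h⟩, by
      rintro ⟨c, rfl⟩; ext <;> simp [starRingEnd_apply]⟩) (fun e => by simpa using congrArg QuadraticAlgebra.im (eq_algebraMap_of_star e))
    (by ext <;> simp [starRingEnd_apply]) (by ext <;> simp [starRingEnd_apply])
  have b1 := fun (K : Type _) [Field K] => (H8.OmT.T hm' (.id K)).sep
  have b2 := fun (K : Type _) [Field K] => (H8.OmT.T hm' (.id K)).top
  have b3 : ∀ (K : Type _) [Field K], (H8.OmT.S0 hm' K).toPreSt.IsHom _ (H8.OmT.G0 hm' K).subtype := fun K _ => H8.OmT.S0_x hm'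
  obtain ⟨μ, a1, a2⟩ := pull_map (b3 (QuadraticAlgebra F (-b) a)) (Subgroup.subtype_injective _) (b2 _) (b3 _)
    (Subgroup.subtype_injective _) (algebraMap _ (AlgebraicClosure (QuadraticAlgebra F (-b) a)))
  obtain ⟨M, hM⟩ := invD hm'
  obtain ⟨Φ, -, c2, c3⟩ := exists_em (alg_rep (b3 _) (Subgroup.subtype_injective _) (b2 _) (b1 _)) a1 a2
    (card_quadAlg _ _) two_ne_zero _ (fun f => H8.OmT.T hm' (iterateFrobenius _ p f)) (fun _ => rfl) (c := fun _ => 1)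
    (fun _ _ => by simp [H8.OmT.T, quadAlg_pow_card, starRingEnd_apply])
    (fun _ _ _ => by simp [H8.OmT.T, iterateFrobenius_def]) (fun f s t => by
      rw [iterate_succ_apply', iterate_one, Tw.σ_x, Tw.σ_x]
      exact congrArg₂ _ ((H8.OmT.ρ hm').left_inv s) (by simp [H8.OmT.T, ← iterateFrobenius_def])) (.inr (hdD _)) h.inj h.fix
    fun g hg _ => pel_of_orth h.hh h.ex (ψ := fun _ => (starRingEnd _).toMonoidHom) (fun _ _ => rfl) (fun i j c d =>
      H8.OmT.orth (φ := .id F) hm' i i (Tw.mem_orb _ _) j d c) (not_dvd_two h0 (k := 2)) (fun c hc => pow_eq_one_of_mpow (B := M)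
        (hM.trans (smul_one_eq_diagonal _)) ((h.hh.tor_mem_center (b1 _) (b2 _)).1 (hc ▸ one_mem _))) h.big hg
  let e := (MulEquiv.subgroupCongr (H12.eichGroup_eq_commutator (qMinus_nondeg m (disc_ne_zero_of_aniso hab)) (.inr (by simp; omega)) (by simp; omega)
    ⟨Pi.single (.inl (.inl ⟨0, by omega⟩)) 1, by simp, by simp [quadFormMinus]⟩)).trans (omegaEquiv _ (coe_qMinus m a b)).symm
  refine (c2.wk c3 hs.1 h1 h2 (.inr ⟨4, not_dvd_two h2 (k := 2), M, hM⟩) ?_).equiv (quotCenterCongr e)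
  rw [card_center_congr e, card_center_omegaMinus (by omega) (.inr (by omega)) hab]
  split_ifs
  exacts [not_dvd_two h2 (k := 1), not_dvd_two h2 (k := 0)]

variable {D : ChevalleyDatum} (X : Good D)

theorem wk_good [Finite (D.group F)] {e : ℕ} (he : ¬ s ∣ e) (B : List (List ℤ)) (h : X.R.A * lmat _ B = (e : ℤ) • 1) :
    Wk (Fintype.card F) s (D.group F) := by
  obtain ⟨Φ, -, b2, b3⟩ := exists_em₁ (alg_good X) (X.mapG_inj (algebraMap F _)) (X.mapG_x _) (X.SG_sep F) (X.SG_top F)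
  exact (b2.wk b3 hs.1 h1 h2 (.inr ⟨e, he, _, h⟩) (by simp [X.center_eq_bot, hs.1.ne_one])).equiv
    ((QuotientGroup.quotientMulEquivOfEq (X.center_eq_bot F)).trans QuotientGroup.quotientBot)

theorem wk_2E6 {q : ℕ} (hq : IsPrimePow q) (hK : Fintype.card F = q ^ 2) [Finite (twistedE6 F q)] (h3 : s ≠ 3)
    (hZ : Subgroup.center (twistedE6 F q) = ⊥) : Wk q s (twistedE6 F q) := by
  obtain ⟨φ, a1, hφ⟩ := E6.exists_hom hq hK
  have hT := E6.isTw (h2 := a1) hφ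
  obtain ⟨Φ, -, b2, b3⟩ := exists_em (alg_good goodE6) (goodE6.mapG_inj (algebraMap F _))
    (goodE6.mapG_x _) hK two_ne_zero _ (fun f => goodE6.tw okgrE6 (GrD.fits_zero rfl rfl _)
      (iterateFrobenius _ p f) fun x => IsAlgClosed.exists_pow_nat_eq x (pow_pos hp.1.pos f)) (fun _ => rfl)
    (fun s t => hφ t ▸ goodE6.tw_f' okgrE6 rfl rfl _ _ s t) (fun f => goodE6.tw_f' okgrE6 rfl rfl _ _) (fun f s t => by
      have := (by decide +kernel : ∀ s, okgrE6.rho (okgrE6.rho s) = s ∧ grE6.gam (okgrE6.rho s) * (grE6.gam s * 1) = 1) s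
      exact (Tw.iter _ (goodE6.tw_f' okgrE6 rfl rfl _ _) 2 s t).trans (congrArg₂ _ this.1
        ((congrArg (fun z : ℤ => (z : AlgebraicClosure F) * _) this.2).trans (by simp [iterateFrobenius_def]))))
    (.inr (by decide +kernel)) hT.emb.inj hT.emb.mem fun g hg _ _ => hT.emb.lift hg
  exact (b2.wk b3 hs.1 h1 h2 (.inr ⟨3, not_dvd_three h3, lmat _ tabE6.invT, by decide +kernel⟩) (by simp [hZ, hs.1.ne_one])).equiv
    ((QuotientGroup.quotientMulEquivOfEq hZ).trans QuotientGroup.quotientBot)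

end H27.AD
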