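/-
A vertex of the prime graph adjacent to all the others: classical groups.
-/
import Cfsg.Agent.H27.AD3
import Cfsg.Agent.H11.PQ5

set_option autoImplicit false
set_option linter.unusedSectionVars false

namespace H27.AD
open Matrix Function H22 H12 Cfsg H27.Sp H22.KG H12.CForm H11 H11.PQ

universe u

theorem dvd_of_om {S : Type*} [Group S] {m : ℕ} (h : m ∈ om S) : m ∣ Nat.card S := h.elim fun x e => e ▸ orderOf_dvd_natCard x

theorem dvd_six {r : ℕ} (hr : r.Prime) (h : r ∣ 24) (q : ℕ) : r ∣ q * (q ^ 2 - 1) := by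
  rcases hr.dvd_mul.1 (show r ∣ 2 ^ 3 * 3 from h) with h | h
  · rw [(Nat.prime_dvd_prime_iff_eq hr Nat.prime_two).1 (hr.dvd_of_dvd_pow h)]
    exact (Nat.even_or_odd q).elim (·.two_dvd.mul_right _) fun a => (a.pow.tsub_odd odd_one).two_dvd.mul_left _
  · rw [(Nat.prime_dvd_prime_iff_eq hr Nat.prime_three).1 h]
    exact (three_dvd q).elim (·.mul_right _) (·.mul_left _)

theorem adj_hom {S C : Type*} [Group S] [Finite S] [Group C] [IsCyclic C] (hZ : Subgroup.center S = ⊥) (φ : Out S →* C) {k f : ℕ}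
    (hk : Nat.card φ.ker ∣ k) (hf : Nat.card C ∣ f) (h1 : ∀ r : ℕ, r.Prime → r ∣ k → r ∈ om S)
    (h2 : ∀ r s : ℕ, r.Prime → s.Prime → r ∣ k → ¬ s ∣ Nat.card S → s ∣ f → Fix S s r)
    (h3 : ∀ r s : ℕ, r.Prime → s.Prime → r ≠ s → r ∣ k → CycP s (⊤ : Subgroup S) ∨
      r * s ∈ om S ∨ Sp S r s ∨ r = 2 ∧ ¬ 4 ∣ k ∧ (2 ∣ f → Fix S 2 s)) : Adj.{u} S :=
  have h : φ.ker.index ∣ f := Subgroup.index_ker φ ▸ (Subgroup.card_subgroup_dvd_card _).trans hf
  adj_of hZ φ (fun r hr a => dvd_of_om (h1 r hr (a.trans hk))) (fun r s hr hs a b c => h2 r s hr hs (a.trans hk) b (c.trans h))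
    fun r s hr hs a b _ => (h3 r s hr hs a (b.trans hk)).imp_right (Or.imp_right (Or.imp_right (And.imp_right
      (And.imp (mt (·.trans hk)) fun c d => c (d.trans h)))))

theorem lin {K : Type*} [Field K] {p n q r s : ℕ} {Q : ℤ} {G : Type*} [Group G] [Fact p.Prime] [CharP K p] [IsAlgClosed K]
    [Finite G] (hQ : H27.Sp.QP p Q) (hS : Spec (K := K) G p (Adm Q n)) (hn : 3 ≤ n)
    (h3 : n = 3 → 3 ∣ Q - 1 → ¬ 9 ∣ Q - 1 → Sp G 3 p) (hr : r.Prime) (hs : s.Prime) (h : r ≠ s) (h1 : piL Q n r)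
    (h2 : r = 2 ∨ (r : ℤ) ∣ Q - 1) (h4 : r ∣ q * (q ^ 2 - 1)) (h5 : s ≠ p → s ≠ 2 → ¬ (s ∣ n ∧ (s : ℤ) ∣ Q - 1) → Wk q s G) :
    CycP s (⊤ : Subgroup G) ∨ r * s ∈ om G ∨ Sp G r s ∨ r = p ∧ r = 2 ∧ n = 3 ∧ piL Q n s := by
  rcases eq_or_ne s p with rfl | a
  · exact .inr ((pair_r hQ hS hn h3 hr h h1).imp_right .inl)
  have k : ∀ {t : ℕ}, t ≠ p → t = 2 → (t : ℤ) ∣ Q - 1 := fun a b => by subst b; simpa using fermat hQ Nat.prime_two a
  by_cases b : s ≠ 2 ∧ ¬ (s ∣ n ∧ (s : ℤ) ∣ Q - 1)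
  · exact (h5 a b.1 b.2).imp_right fun c => .inl (c r hr h h4)
  rw [not_and_or, not_not, not_not] at b
  have c := b.elim (k a) And.right
  rcases eq_or_ne r p with rfl | d
  · have e := h2.resolve_right fun e => hQ.not_dvd one_pos (by simpa using e) dvd_rfl
    rcases hn.eq_or_lt with rfl | f
    · exact .inr (.inr (.inr ⟨rfl, e, rfl, piL_one c (Nat.le_of_dvd three_pos (b.resolve_left fun f => h (e.trans f.symm)).1)⟩))
    · exact .inr (.inl (mul_comm s r ▸ rp_mem_of hQ hS hs a one_pos (by omega) f (by simpa using c)))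
  exact .inr (.inl ((blk_two hQ (by
    simpa using (Nat.isCoprime_iff_coprime.2 ((Nat.coprime_primes hr hs).2 h)).mul_dvd (h2.elim (k d) id) c)).mem hS hn))

variable {F : Type*} [Field F] [Fintype F] {n m : ℕ}

local notation "𝕂" => AlgebraicClosure F

theorem adj_psl2 (h4 : 4 ≤ Fintype.card F) : Adj.{u} (ProjectiveSpecialLinearGroup (Fin 2) F) := by
  obtain ⟨p, f, hp, _, hf, hF⟩ := exists_pf F
  have := Fact.mk hp
  have : NeZero f := ⟨by omega⟩
  have hK := Nat.card_eq_fintype_card.trans hF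
  obtain ⟨φ, -, -, h2⟩ := Agent.S2602.result hf hF (hF ▸ h4)
  refine adj_hom (psl_center (by simp)) φ (h2 ▸ Nat.gcd_dvd_left _ _) (f := f) (by simp) (fun r hr a => ?_)
    (fun r s hr hs a _ b => ?_) fun r s hr hs a b => ?_
  all_goals obtain rfl := (Nat.prime_dvd_prime_iff_eq hr Nat.prime_two).1 ‹_›
  · exact pi_mem (qp_nat (F := F)) qp_nat (psl_spec F 𝕂 2) le_rfl hr (piL_two qp_nat le_rfl)
  · have := Fact.mk hs
    exact fix_psl le_rfl hK b hr (piL_two qp_nat le_rfl)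
  have := Fact.mk hs
  rcases eq_or_ne s p with rfl | c
  · exact .inr (.inr (.inr ⟨rfl, by decide, fun d => fix_psl le_rfl hK d hs (piL_self qp_nat)⟩))
  · exact (wk_psl c a.symm two_ne_zero fun d => AS.not_dvd_two a.symm (k := 1) (d.trans (Nat.gcd_dvd_left _ _))).imp_right
      fun d => .inl (d 2 hr a (dvd_six hr (by decide) _))

theorem adj_psl (hn : 3 ≤ n) : Adj.{u} (ProjectiveSpecialLinearGroup (Fin n) F) := by
  obtain ⟨p, f, hp, _, hf, hF⟩ := exists_pf F
  have := Fact.mk hp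
  have : NeZero f := ⟨by omega⟩
  have hK := Nat.card_eq_fintype_card.trans hF
  obtain ⟨φ, h1, -, h2⟩ := Agent.S2601.result hf hF hn
  have a0 : ∀ {r : ℕ}, (r : ℤ) ∣ (Nat.card F : ℕ) - 1 ↔ r ∣ p ^ f - 1 := by
    rw [hK, ← Nat.cast_pred (pow_pos hp.pos f)]; exact Int.natCast_dvd_natCast
  have a : ∀ r : ℕ, r.Prime → r ∣ n.gcd (p ^ f - 1) * 2 → piL (Nat.card F : ℕ) n r := fun r hr h =>
    (hr.dvd_mul.1 h).elim (fun h => piL_one (a0.2 (h.trans (Nat.gcd_dvd_right _ _)))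
      (Nat.le_of_dvd (by omega) (h.trans (Nat.gcd_dvd_left _ _))))
      fun h => (Nat.prime_dvd_prime_iff_eq hr Nat.prime_two).1 h ▸ piL_two qp_nat (by omega)
  have b : Nat.card (Out _) = Nat.card φ.ker * (f * 2) := (card_of_surj φ h1).trans (by simp)
  let e := (MulEquiv.prodMultiplicative (ZMod f) (ZMod 2)).trans MulEquiv.prodComm
  have h3 : (e.toMonoidHom.comp φ).ker = φ.ker := MonoidHom.ker_comp_of_injective _ _ e.injective
  refine adj_hom (psl_center (by simp; omega)) _ ((card_ker_comp (e.toMonoidHom.comp φ)).trans (by rw [h3, h2]; simp)) (f := f) (by simp)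
    (fun r hr c => pi_mem qp_nat qp_nat (psl_spec F 𝕂 n) (by omega) hr (a r hr c))
    (fun r s hr hs c _ d => have := Fact.mk hs; fix_psl (by omega) hK d hr (a r hr c)) fun r s hr hs c d => ?_
  have := Fact.mk hs
  have d' := (hr.dvd_mul.1 d).symm.imp (Nat.prime_dvd_prime_iff_eq hr Nat.prime_two).1 (·.trans (Nat.gcd_dvd_right _ _))
  refine (lin qp_nat (psl_spec F 𝕂 n) hn (fun e c' g => ?_) hr hs c (a r hr d) (d'.imp_right a0.2) (d'.elim
    (fun e => dvd_six hr (by simp [e]) _) fun e => (e.trans ?_).mul_left _) fun a1 a2 a3 => wk_psl a1 a2 (by omega) fun e =>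
      a3 ⟨e.trans (Nat.gcd_dvd_left _ _), a0.2 (hF ▸ e.trans (Nat.gcd_dvd_right _ _))⟩).imp_right
    (Or.imp_right (Or.imp_right fun ⟨_, a1, a2, a3⟩ => ⟨a1, fun e => ?_, fun e => fix_psl (by omega) hK e hs a3⟩))
  · subst e
    exact sp_psl hF c' g (b ▸ h2 ▸ mul_dvd_mul_right (Nat.gcd_dvd_left _ _) _)
  · simpa [hF] using Nat.sub_dvd_pow_sub_pow (p ^ f) 1 2
  · exact absurd (e.trans (mul_dvd_mul_right (Nat.gcd_dvd_left _ _) 2)) (by rw [a2]; decide)

theorem adj_psu {q : ℕ} (hF : Fintype.card F = q ^ 2) (hn : 3 ≤ n) (h4 : ¬ (n = 3 ∧ q = 2)) : Adj.{u} (PSU n F q) := by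
  obtain ⟨p, f, hp, _, hf, hq⟩ := exists_pf' two_ne_zero hF
  have := Fact.mk hp
  have : NeZero (2 * f) := ⟨by omega⟩
  obtain ⟨φ, h1, -, h2⟩ := Agent.S2603.result hf hq hF hn h4
  have a0 : ∀ {r : ℕ}, (r : ℤ) ∣ -q - 1 ↔ r ∣ q + 1 := by
    intro r; rw [← neg_add', dvd_neg]; exact_mod_cast Iff.rfl
  have a : ∀ r : ℕ, r ∣ n.gcd (q + 1) → piL (-q) n r := fun r h => piL_one (a0.2 (h.trans (Nat.gcd_dvd_right _ _)))
    (Nat.le_of_dvd (by omega) (h.trans (Nat.gcd_dvd_left _ _)))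
  have b : Nat.card (Out _) = Nat.card φ.ker * (2 * f) := (card_of_surj φ h1).trans (by simp)
  have hS := psu_spec F 𝕂 hF (n := n) (by omega)
  refine adj_hom (suData hF hn).center_eq_bot φ h2.dvd (f := 2 * f) (by simp)
    (fun r hr c => pi_mem (qp_neg hF) (qp_neg hF) hS (by omega) hr (a r c)) (fun r s hr hs c d e => ?_) fun r s hr hs c d => ?_
  all_goals have := Fact.mk hs
  · have h5 : s ≠ 2 := by
      rintro rfl
      exact d (dvd_of_om (pi_mem (qp_neg hF) (qp_neg hF) hS (by omega) hs (piL_two (qp_neg hF) (by omega))))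
    exact fix_psu hF hn hq h5 (((Nat.coprime_primes hs Nat.prime_two).2 h5).dvd_of_dvd_mul_left e) hr (a r c)
  have d' := d.trans (Nat.gcd_dvd_right _ _)
  refine (lin (qp_neg hF) hS hn (fun e c' g => ?_) hr hs c (a r d) (.inr (a0.2 d')) ((d'.trans ?_).mul_left _)
    fun a1 a2 a3 => wk_psu a1 a2 (by omega) hF fun e => a3 ⟨e.trans (Nat.gcd_dvd_left _ _),
      a0.2 (e.trans (Nat.gcd_dvd_right _ _))⟩).imp_right (Or.imp_right (Or.imp_right fun ⟨a1, _⟩ => ?_))
  · subst e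
    exact sp_psu hF hq c' g (b ▸ h2 ▸ mul_dvd_mul_right (Nat.gcd_dvd_left _ _) _)
  · exact ⟨q - 1, by simpa using Nat.sq_sub_sq q 1⟩
  · exact ((qp_neg hF).not_dvd (m := r) one_pos (by simpa using a0.2 d') a1.symm.dvd).elim

theorem adj_form {ι : Type} [Fintype ι] [DecidableEq ι] {T : FormType F} {C : CForm T (ι → F)} {H : Type*} [Group H] {p f : ℕ}
    [Fact p.Prime] [CharP F p] (D : FormData C H) (hF : Nat.card F = p ^ f) {A : Type*} [Group A] [IsCyclic A]
    (φ : Out (PQ H) →* A) {k : ℕ} (h1 : Nat.card φ.ker ∣ k) (h0 : k ∣ 24)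
    (hk : ∀ r : ℕ, r.Prime → r ∣ k → r * (r - 1) ≤ Fintype.card ι)
    (h2 : Nat.card A ∣ 2 * f) {M c : ℕ} (hN : Fintype.card ι ≤ 2 * M + 1) (hc : c = 1 ∧ 2 ≤ M ∨ c = 3 ∧ 4 ≤ M)
    (h3 : In 𝕂 (Nat.card F : ℕ) p M c (PQ H)) (h4 : ∀ σ : RingAut F, (orderOf σ).Prime → Odd (orderOf σ) → ∀ s : ℕ, s.Prime →
      (∀ G : Type _, [Group G] → In (AlgebraicClosure (H22.fixF σ)) (Nat.card (H22.fixF σ) : ℕ) p M c G → s ∈ om G) →
        Fix (PQ H) (orderOf σ) s)
    (h5 : ∀ s : ℕ, [Fact s.Prime] → s ≠ p → s ≠ 2 → Wk (Fintype.card F) s (PQ H)) : Adj.{u} (PQ H) := by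
  have := D.finite
  have a : ∀ r : ℕ, r.Prime → r ∣ k → piS (Nat.card F : ℕ) (Fintype.card ι) r := fun r hr h => piS_small qp_nat hr (hk r hr h)
  have b : piS (Nat.card F : ℕ) (Fintype.card ι) 2 := piS_small qp_nat Nat.prime_two (by have := D.dim; omega)
  refine adj_hom D.center_eq_bot φ h1 h2 (fun r hr c => h3.mem qp_nat hN hc qp_nat hr (a r hr c)) (fun r s hr hs c d e => ?_)
    fun r s hr hs c d => ?_
  all_goals have := Fact.mk hs
  · have h5 : s ≠ 2 := by rintro rfl; exact d (dvd_of_om (h3.mem qp_nat hN hc qp_nat hs b))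
    obtain ⟨σ, rfl⟩ := exists_aut hF (((Nat.coprime_primes hs Nat.prime_two).2 h5).dvd_of_dvd_mul_left e)
    have := (H22.fixF σ).subtype.charP (H22.fixF σ).subtype.injective p
    exact h4 σ hs (hs.odd_of_ne_two h5) r hr fun G _ h => h.mem qp_nat hN hc qp_nat hr (a r hr c)
  by_cases e : s ≠ p ∧ s ≠ 2
  · exact (h5 s e.1 e.2).imp_right fun g => .inl (g r hr c (dvd_six hr (d.trans h0) _))
  · exact .inr (.inl (h3.pair qp_nat hN hc r s hr hs c (a r hr d) ((not_and_or.1 e).elim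
      (fun e => not_not.1 e ▸ ⟨piL_self qp_nat, piL_self (QP.neg qp_nat)⟩) fun e => not_not.1 e ▸ b)))

theorem adj_psp (hm : 2 ≤ m) : Adj.{u} (PSp m F) := by
  obtain ⟨r, f, hr, _, hf, hF⟩ := exists_pf F
  have := Fact.mk hr
  have := fin_sum_nonempty hm
  by_cases h : (2 : F) ≠ 0 ∨ 3 ≤ m
  · obtain ⟨φ, -, h2⟩ := (spData F hm).exists_out_rS (sp_Th_surj hm h)
    obtain ⟨e'⟩ := (spData F hm).out_range_equiv (MonoidHom.id _) _ (spδ_surj hm) (spδ_eq_one hm)
    rw [MonoidHom.comp_id, ← h2] at e'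
    have := H14.isCyclic_ringAut F
    exact adj_form (spData F hm) (Nat.card_eq_fintype_card.trans hF) φ (k := 2 ^ 1)
      (by rw [Nat.card_congr e'.toEquiv, card_SqQ]; exact Nat.gcd_dvd_left _ _) (by decide) (two_pow 1 (by simp; omega))
      (card_ringAut hF ▸ dvd_mul_left _ _) (by simp; omega) (.inl ⟨rfl, hm⟩) (in_psp (by omega)) (fun σ hp _ s hs h =>
        have := Fact.mk hp
        have := (H22.fixF σ).subtype.charP (H22.fixF σ).subtype.injective r
        fix_form (spData F hm) rfl (sp_isSS_inr σ) (spData _ hm) (fun s => spGL_iff.1 (by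
          simpa using (sp_desc (m := m) (H22.fixF σ).subtype).isSS_emb ((spData _ hm).isSS_ρ s))) hs (h _ (in_psp (by omega))))
      fun s _ a b => wk_psp a b (by omega)
  · obtain rfl : m = 2 := by omega
    obtain rfl : r = 2 := by_contra fun c => h (.inl (two_ne_zero_of_ne (Ne.symm c)))
    have := (spData F hm).finite
    exact adj_cyc (spData F hm).center_eq_bot (Agent.S2600.result hf hF).1

theorem adj_odd (hm : 3 ≤ m) (h2 : (2 : F) ≠ 0) : Adj.{u} (POmega F (quadFormOdd m F)) := by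
  obtain ⟨r, f, hr, _, hf, hF⟩ := exists_pf F
  have := Fact.mk hr
  have : NeZero f := ⟨by omega⟩
  obtain ⟨e⟩ := Agent.S2604.result hf hF (by rintro rfl; exact h2 CharTwo.two_eq_zero) hm
  exact adj_form (oddData h2 (by omega)) (Nat.card_eq_fintype_card.trans hF) _
    (ker_snd (e.trans (MulEquiv.prodMultiplicative _ _))) (by simp) (by simpa using two_pow 1 (by omega)) (by simp)
    (by simp; omega) (.inl ⟨rfl, by omega⟩) (in_odd h2 (by omega) (coe_qOdd m)) (fun σ hp _ s hs h =>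
      have := (H22.fixF σ).subtype.charP (H22.fixF σ).subtype.injective r
      fix_om (coe_qOdd m) (qOdd_nondeg h2 m) (five_odd (by omega)) hp (odd_isSS_inr σ) (odd_desc _ h2) hs
        (h _ (in_odd (fun e => h2 (congrArg (H22.fixF σ).subtype e)) (by omega) rfl))) fun s _ a b => wk_omB a b (by omega) h2

theorem adj_plus (hm : 4 ≤ m) : Adj.{u} (POmega F (quadFormPlus m F)) := by
  obtain ⟨r, f, hr, _, hf, hF⟩ := exists_pf F
  have := Fact.mk hr
  have : NeZero f := ⟨by omega⟩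
  have k := fun {T : Type} [Group T] [Finite T] (e : Out (POmega F (quadFormPlus m F)) ≃* T × Multiplicative (ZMod f)) h0 hk =>
    adj_form.{u} (plusData F (by omega)) (Nat.card_eq_fintype_card.trans hF) _ (ker_snd e) h0 hk (by simp)
      (by simp; omega) (.inr ⟨rfl, hm⟩) (in_om (coe_qPlus m) (qPlus_nondeg m) (by omega) (by simp [two_mul])) (fun σ hp _ s hs h =>
        have := (H22.fixF σ).subtype.charP (H22.fixF σ).subtype.injective r
        fix_om (coe_qPlus m) (qPlus_nondeg m) (five_plus (by omega)) hp (plus_isSS_inr σ) (plus_desc _) hs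
          (h _ (in_om rfl (qPlus_nondeg m) (by omega) (by simp [two_mul])))) fun s _ a b => wk_omD a b (by omega)
  have h4 : 2 ≤ Fintype.card (Fin m ⊕ Fin m) := by simp; omega
  by_cases h2 : r = 2
  · subst h2
    have := Agent.S2607.result hf hF hm
    split_ifs at this with h
    · obtain ⟨e⟩ := this
      subst h
      exact k e (by simp [Fintype.card_perm, Nat.factorial]) fun p hp h => six_pow p hp
        (h.trans (by simp [Fintype.card_perm, Nat.factorial]))
    · obtain ⟨e⟩ := this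
      exact k (e.trans (MulEquiv.prodMultiplicative _ _)) (by simp) fun p hp h => two_pow 1 h4 p hp (by simpa using h)
  have := Agent.S2608.result hf hF h2 hm
  split_ifs at this with h
  · obtain ⟨e⟩ := this
    subst h
    exact k e (by simp [Fintype.card_perm, Nat.factorial]) fun p hp h => six_pow p hp
      (h.trans (by simp [Fintype.card_perm, Nat.factorial]))
  · obtain ⟨e⟩ := this
    exact k (e.trans ((MulEquiv.prodMultiplicative _ _).trans ((MulEquiv.prodCongr (MulEquiv.refl _)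
      (MulEquiv.prodMultiplicative _ _)).trans MulEquiv.prodAssoc.symm))) (by simp)
      fun p hp h => two_pow 2 h4 p hp (by simpa using h)
  · obtain ⟨e⟩ := this
    exact k e (DihedralGroup.nat_card.dvd.trans (by decide)) fun p hp h => two_pow 3 h4 p hp (h.trans DihedralGroup.nat_card.dvd)

theorem adj_minus' {r f : ℕ} [Fact r.Prime] [CharP F r] (h0 : r ≠ 2) (hF : Nat.card F = r ^ f) (hm : 4 ≤ m) {a b : F}
    (hab : Aniso a b) {A : Type*} [Group A] [IsCyclic A] (φ : Out (POmega F (quadFormMinus (m - 1) F a b)) →* A)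
    (h1 : Nat.card φ.ker ∣ 2 ^ 3) (h2 : Nat.card A ∣ 2 * f) : Adj.{u} (POmega F (quadFormMinus (m - 1) F a b)) :=
  have h4 : Fintype.card ((Fin (m - 1) ⊕ Fin (m - 1)) ⊕ Fin 2) = 2 * m := by simp; omega
  adj_form (minusData hab (by omega)) hF φ h1 (by decide) (two_pow 3 (by omega)) h2
    (by omega) (.inr ⟨rfl, hm⟩) (in_om (coe_qMinus _ a b) (hab.nondeg _) (by omega) h4) (fun σ hp ho s hs h => by
      have := (H22.fixF σ).subtype.charP (H22.fixF σ).subtype.injective r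
      obtain ⟨c, d, h1⟩ := H22.exists_aniso (H22.fixF σ)
      have h2 := h1.map_odd (fix_subtype σ) ho
      obtain ⟨u, hu⟩ := exists_simTo_of_iso (quad_iso_qMinus (hab.nondeg (m - 1)) (by simp; omega)
        (qMinus_not_hasTS _ (disc_ne_zero_of_aniso hab) hab) h2)
      obtain ⟨e, -⟩ := exists_omega_congr (q := quadFormMinus (m - 1) F a b) (q' := quadFormMinus (m - 1) F c d) (u := u)
        fun x => by simpa using hu.N x
      exact (fix_om (coe_qMinus ..) (h2.nondeg _) (five_minus (by omega)) hp (minus_isSS_inr (mem_fixF.1 c.2) (mem_fixF.1 d.2))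
        (minus_desc _ (disc_ne_zero_of_aniso h1)) hs (h _ (in_om rfl (h1.nondeg _) (by omega) h4))).equiv (pqCongr e))
    fun s _ c d => wk_omM c d h0 (by omega) hab

theorem adj_minus (hm : 4 ≤ m) {a b : F} (hab : Aniso a b) : Adj.{u} (POmega F (quadFormMinus (m - 1) F a b)) := by
  obtain ⟨r, f, hr, _, hf, hF⟩ := exists_pf F
  have := Fact.mk hr
  have : NeZero f := ⟨by omega⟩
  have : NeZero (2 * f) := ⟨by omega⟩
  have hK := Nat.card_eq_fintype_card.trans hF
  have := (minusData hab (m := m - 1) (by omega)).finite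
  by_cases h2 : r = 2
  · subst h2
    exact adj_cyc (minusData hab (m := m - 1) (by omega)).center_eq_bot (Agent.S2605.result hf hF hm a b hab).1
  have := Agent.S2606.result hf hF h2 hm a b hab
  split_ifs at this
  · obtain ⟨e⟩ := this
    exact adj_minus' h2 hK hm hab _ ((ker_snd e).trans DihedralGroup.nat_card.dvd) (by simp)
  · obtain ⟨e⟩ := this
    exact adj_minus' h2 hK hm hab _ ((ker_snd (e.trans (MulEquiv.prodMultiplicative _ _))).trans (by simp)) (by simp)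

end H27.AD
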