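/-
A vertex of the prime graph adjacent to all the others: exceptional groups and the conclusion.
-/
import Cfsg.Agent.H27.AD4
import Cfsg.Agent.H11.PQ8

set_option autoImplicit false
set_option linter.unusedSectionVars false
set_option maxRecDepth 100000

namespace H27.AD
open Function H14 H14.RootSys H14.PreSt H14.St H14.St.Tw H14.Good Cfsg Cfsg.Lie H27.Sp H22.KG Subgroup H11 H11.PQ
open scoped commutatorElement

universe u

theorem exists_hom {O : Type*} [Group O] [Finite O] {D F : Subgroup O} [D.Normal] (h2 : (D ⊔ F).index ∣ 2) (hF : IsCyclic F)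
    (h3 : ∀ x : O, ∀ f ∈ F, ⁅x, f⁆ ∈ D) : ∃ φ : O →* F.map (QuotientGroup.mk' D), ∀ r : ℕ, r.Prime → r ∣ Nat.card φ.ker →
      r ∣ 2 ∨ r ∣ Nat.card D := by
  let q := QuotientGroup.mk' D
  have hc : F.map q ≤ center _ := by
    rintro _ ⟨f, hf, rfl⟩
    refine mem_center_iff.2 fun y => ?_
    obtain ⟨y, rfl⟩ := QuotientGroup.mk'_surjective D y
    rw [← commutatorElement_eq_one_iff_mul_comm, ← map_commutatorElement]
    exact (QuotientGroup.eq_one_iff _).2 (h3 y f hf)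
  have hi : (F.map q).index ∣ 2 := by
    rwa [index_map, MonoidHom.range_eq_top.2 (QuotientGroup.mk'_surjective D), index_top, mul_one,
      QuotientGroup.ker_mk', sup_comm]
  have : (F.map q).Normal := ⟨fun a ha g => by simpa [mem_center_iff.1 (hc ha) g] using ha⟩
  have : IsCyclic ((O ⧸ D) ⧸ F.map q) := isCyclic_of_card_dvd_prime (p := 2) hi
  have hA : ∀ a b : O ⧸ D, a * b = b * a := (MonoidHom.isMulCommutative_of_isCyclic_of_ker_le_center
    (QuotientGroup.mk' (F.map q)) (by rwa [QuotientGroup.ker_mk'])).1.1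
  have hs : ∀ a : O ⧸ D, a ^ 2 ∈ F.map q := fun a => by
    obtain ⟨k, hk⟩ := hi
    rw [hk, pow_mul]
    exact pow_mem (pow_index_mem _ a) k
  let s : O ⧸ D →* F.map q := MonoidHom.mk' (fun a => ⟨a ^ 2, hs a⟩) fun a b => Subtype.ext (Commute.mul_pow (hA a b) 2)
  refine ⟨s.comp q, fun r hr a => or_iff_not_imp_left.2 fun b => ?_⟩
  have := Fact.mk hr
  obtain ⟨⟨x, hx⟩, h⟩ := exists_prime_orderOf_dvd_card' r a
  rw [orderOf_mk] at h
  exact h ▸ D.orderOf_dvd_natCard ((QuotientGroup.eq_one_iff x).1 ((pow_eq_one_iff_of_coprime (hr.coprime_iff_not_dvd.2 b)).1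
    ⟨by rw [← QuotientGroup.mk_pow, ← h, pow_orderOf_eq_one]; rfl, congrArg Subtype.val hx⟩))

section ld
variable {D : ChevalleyDatum} {G : H14.Good D} {K : Type*} [Field K] [Finite K] {T : (G.SG K).Tw} {Γ : Type*} [Group Γ] [Finite Γ]
  {e : Γ →* D.group K} {ψ : Fin D.rank → K →* K} (h : LD T e ψ)
include h

theorem adj_one (hc : Nat.card (Out Γ) = Nat.card (K ≃+* K)) : Adj.{u} Γ := by
  have := H14.isCyclic_ringAut K
  refine adj_cyc (h.emb.center_eq_bot h.ad h.supp) (isCyclic_of_surjective ((QuotientGroup.mk' (Inn Γ)).comp h.Φ)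
    ((Nat.bijective_iff_injective_and_card _).2 ⟨(injective_iff_map_eq_one _).2 fun σ a => ?_, hc.symm⟩).2)
  obtain ⟨g, hg⟩ := (QuotientGroup.eq_one_iff _).1 a
  obtain ⟨t, b⟩ := h.rs_conj (h.emb.conj_mem_stab.1 (hg ▸ h.Φ_mem σ))
  exact ((h.rs_Φ σ).uniq (hg ▸ b)).2

theorem exists_surj (hall : ∀ θ ∈ (G.SG K).Stab e, ∃ c φ, h.Rs θ c φ) : ∃ f : Out Γ →* (K ≃+* K), Surjective f := by
  choose c φ hφ using hall
  let f : (G.SG K).Stab e →* (K ≃+* K) := MonoidHom.mk' (fun θ => φ θ θ.2) fun a b =>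
    ((hφ _ (a * b).2).uniq ((hφ _ a.2).mul (hφ _ b.2))).2
  let q := (QuotientGroup.mk' (Inn Γ)).comp ((G.SG K).Stab e).subtype
  have hq : Function.Surjective q := MonoidHom.range_eq_top.1 (by
    rw [MonoidHom.range_comp, range_subtype, h.emb.map_stab h.ad.hmul])
  have hk : q.ker ≤ f.ker := fun θ hθ => by
    obtain ⟨g, hg⟩ := (QuotientGroup.eq_one_iff _).1 hθ
    have hg : MulAut.conj g = θ.1 := hg
    obtain ⟨c', h1⟩ := h.rs_conj (h.emb.conj_mem_stab.1 (hg ▸ θ.2))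
    exact ((hφ _ θ.2).uniq (hg ▸ h1)).2
  exact ⟨q.liftOfSurjective hq ⟨f, hk⟩, fun a => ⟨q ⟨_, h.Φ_mem a⟩,
    (q.liftOfRightInverse_comp_apply _ _ ⟨f, hk⟩ _).trans ((hφ _ (h.Φ_mem a)).uniq (h.rs_Φ a)).2⟩⟩

variable {p q : ℕ} [hp : Fact p.Prime] [CharP K p]

theorem adj_ld {C : Type*} [Group C] [IsCyclic C] (φ : Out Γ →* C) (hk : ∀ r : ℕ, r.Prime → r ∣ Nat.card φ.ker → r ∈ [2, 3])
    (hc : Nat.card C ∣ Nat.card (K ≃+* K)) (hw : ∀ s : ℕ, [Fact s.Prime] → s ≠ p → s ≠ 2 → s ≠ 3 → Wk q s Γ)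
    {X : Type*} [Group X] (f : X →* D.group (ZMod p)) (hf : Injective f)
    (h1 : ∀ a, G.mapG (ZMod.castHom dvd_rfl K) (f a) ∈ T.fix) {L : List ℕ} (h2 : Pr p (2 :: 3 :: L) X) : Adj.{u} Γ := by
  have : Finite (K ≃+* K) := .of_injective _ h.Φ_inj
  choose j hj using fun a => h.emb.lift (h1 a)
  let j' : X →* Γ := MonoidHom.mk' j fun a b => h.emb.inj (by simp [hj])
  have h5 : Injective j' := fun a b c => hf (G.mapG_inj _ ((hj a).symm.trans ((congrArg e c).trans (hj b))))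
  have := Finite.of_injective _ h5
  have h6 : ∀ r ∈ [2, 3], r ∈ om X := fun r hr => om_dvd (h2 2 3 Nat.prime_two Nat.prime_three (by decide) (by simp) (by simp))
    (by revert r; decide)
  refine adj_of (h.emb.center_eq_bot h.ad h.supp) φ (fun r hr a => dvd_of_om (om_mono j' h5 (h6 r (hk r hr a))))
    (fun r s hr hs a _ b => ?_) fun r s hr hs a b _ => ?_
  all_goals have := Fact.mk hs
  · obtain ⟨σ, hσ⟩ := exists_prime_orderOf_dvd_card' (G := K ≃+* K) s (b.trans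
      ((index_ker φ ▸ card_subgroup_dvd_card _).trans hc))
    obtain ⟨x, hx⟩ := h6 r (hk r hr a)
    refine ⟨h.Φ σ, (orderOf_injective _ h.Φ_inj σ).trans hσ, j' x, (orderOf_injective _ h5 x).trans hx,
      h.emb.inj ((h.rs_Φ σ _).trans ?_)⟩
    change h.ad.df 1 σ (e (j x)) = e (j x)
    rw [hj]
    exact DFunLike.congr_fun (hom_ext (G.SG_top _) (β := G.mapG (ZMod.castHom dvd_rfl K))
      (α := (h.ad.df 1 σ).toMonoidHom.comp (G.mapG (ZMod.castHom dvd_rfl K))) fun r t => by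
        have := RingHom.ext_zmod (σ.toRingHom.comp (ZMod.castHom dvd_rfl K)) (ZMod.castHom dvd_rfl K)
        simpa [G.mapG_x, h.ad.df_x] using congrArg _ (DFunLike.congr_fun this t)) _
  have c := hk r hr b
  by_cases d : s ∈ p :: 2 :: 3 :: L
  · exact .inr (.inl (h2.mono j' h5 r s hr hs a (.tail _ (List.mem_append_left L c)) d))
  · simp only [List.mem_cons, not_or] at d
    exact (hw s d.1 d.2.1 d.2.2.1).imp_right fun g => .inl (g r hr a (dvd_six hr (by clear * - c; revert r; decide) _))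

end ld

theorem two_three {n r : ℕ} (hr : r.Prime) (h : n ∣ 2 ∨ n ∣ 3) (a : r ∣ 2 ∨ r ∣ n) : r ∈ [2, 3] :=
  a.elim (fun a => small (.inl a) hr le_rfl) fun a => small (h.imp a.trans a.trans) hr le_rfl

variable {F : Type*} [Field F] [Fintype F]

section
variable {p : ℕ} [hp : Fact p.Prime] [CharP F p]
include hp

theorem adj_good {D : ChevalleyDatum} (G : H14.Good D) [Finite (D.group F)] (h1 : ∀ π ∈ (G.ad F).pi.range, G.Gr F π)
    (h2 : Nat.card (G.ad F).pi.range ∣ 2) (h3 : Nat.card (mpow Fˣ G.R.A).ker ∣ 2 ∨ Nat.card (mpow Fˣ G.R.A).ker ∣ 3)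
    {e : ℕ} (he : e ∣ 2 ∨ e ∣ 3) (B : List (List ℤ)) (hB : G.R.A * lmat _ B = (e : ℤ) • 1) {L : List ℕ}
    (h4 : Pr p (2 :: 3 :: L) (D.group (ZMod p))) : Adj.{u} (D.group F) := by
  have h := G.ad F
  let d : (Fin D.rank → Fˣ) →* MulAut (D.group F) := MonoidHom.mk' (h.df · 1) fun a b => by rw [h.df_mul]; rfl
  let f : (F ≃+* F) →* MulAut (D.group F) := MonoidHom.mk' (h.df 1 ·) fun a b => by rw [h.df_mul]; congr 1; ext; simp
  let q := QuotientGroup.mk' (Inn (D.group F))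
  obtain ⟨h5, -, h7, -, h8, -⟩ := h.out_structure (Ds := d.range) (Fs := f.range)
    (fun θ => exists_congr fun _ => eq_comm) (fun θ => exists_congr fun _ => eq_comm) rfl rfl
  rw [Subgroup.closure_eq] at h5 h7
  rw [Subgroup.closure_eq, Subgroup.closure_eq] at h8
  have h9 : Nat.card (d.range.map q) ∣ Nat.card (mpow Fˣ G.R.A).ker := by
    rw [← MonoidHom.range_comp, ← index_ker]
    refine (index_dvd_of_le (H := (mpow Fˣ G.R.A).range) ?_).trans (dvd_of_eq ?_)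
    · rintro _ ⟨c, rfl⟩
      exact (QuotientGroup.eq_one_iff _).2 ⟨_, conj_tor h c⟩
    · refine Nat.eq_of_mul_eq_mul_left (Nat.card_pos (α := (mpow Fˣ G.R.A).range)) ?_
      rw [card_mul_index, mul_comm, ← index_ker, card_mul_index]
  obtain ⟨φ, hφ⟩ := exists_hom (h8 ▸ h2) h7 fun x y hy => by
    obtain ⟨_, ⟨φ, rfl⟩, rfl⟩ := hy
    obtain ⟨θ, rfl⟩ := QuotientGroup.mk'_surjective _ x
    obtain ⟨x, c, g, φ', h10, rfl⟩ := h.exists_decomp h1 θ
    have h11 : Commute (f φ' * g) (f φ) := Commute.mul_left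
      (by have := H14.isCyclic_ringAut F; rw [Commute, SemiconjBy, ← map_mul, ← map_mul, mul_comm' φ])
      (G.field_graph (G.isFieldAut_iff.2 ⟨φ, rfl⟩) h10).symm
    rw [← QuotientGroup.eq_one_iff, ← QuotientGroup.mk'_apply, map_commutatorElement, mul_assoc, mul_assoc, map_mul,
      map_mul, map_mul, map_mul, show q (MulAut.conj x) = 1 from (QuotientGroup.eq_one_iff _).2 ⟨x, rfl⟩, map_one, one_mul,
      show QuotientGroup.mk' (d.range.map q) (q (h.df c 1)) = 1 from (QuotientGroup.eq_one_iff _).2 ⟨_, ⟨c, rfl⟩, rfl⟩,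
      one_mul, commutatorElement_eq_one_iff_commute]
    exact (h11.map q).map _
  have := isCyclic_of_surjective _ ((QuotientGroup.mk' (d.range.map q)).subgroupMap_surjective (f.range.map q))
  refine adj_ld (ld_id h) φ (fun r hr a => two_three hr h3 ((hφ r hr a).imp_right (·.trans h9))) ?_
    (fun s hs a b c => wk_good a b G (fun g => ?_) B hB) (.id _) injective_id (fun _ => rfl) h4
  · rw [← MonoidHom.range_comp q f, ← MonoidHom.range_comp _ (q.comp f), ← index_ker]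
    exact index_dvd_card _
  · simpa [b, c] using two_three hs.1 he (.inr g)

theorem adj_2E6 {q : ℕ} (hq : IsPrimePow q) (hF : Fintype.card F = q ^ 2) [Finite (twistedE6 F q)] : Adj.{u} (twistedE6 F q) := by
  obtain ⟨φ, h2, hφ⟩ := E6.exists_hom hq hF
  have hK := Nat.card_eq_fintype_card.trans hF
  have h := (E6.isTw (h2 := h2) hφ).emb
  obtain ⟨f, h3, h4, -⟩ := E6.exists_fold (ZMod p)
  have h5 := ldE6 hφ h
  obtain ⟨g, hg⟩ := exists_surj h5 (allE6 hφ h hq.one_lt hK)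
  have := H14.isCyclic_ringAut F
  have : Finite (F ≃+* F) := .of_surjective g hg
  have h6 := Nat.eq_of_mul_eq_mul_right Nat.card_pos ((card_of_surj g hg).symm.trans (E6.card_out hφ hq.one_lt hK h))
  exact adj_ld h5 g (fun r hr a => two_three hr (.inr (h6 ▸ Nat.gcd_dvd_left _ _)) (.inr a)) dvd_rfl
    (fun s _ a b c => wk_2E6 a b hq hF c (h5.emb.center_eq_bot h5.ad h5.supp)) f h3 (fun a => tw_sub _ (h4.le ⟨a, rfl⟩)) pr_F4

theorem adj_G2 : Adj.{u} (chevG2.group F) :=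
  adj_good goodG2 (gr_of_range (fun _ => rangeG2 F) (grG2' F)) (range_G2 F) (.inl (card_kerG2 Fˣ ▸ one_dvd _))
    (.inl (one_dvd _)) tabG2.invT (by decide +kernel) (pr_G2 (r := p))

theorem adj_F4 : Adj.{u} (chevF4.group F) :=
  adj_good goodF4 (gr_of_range (fun _ => rangeF4 F) (grF4' F)) (range_F4 F) (.inl (card_kerF4 Fˣ ▸ one_dvd _))
    (.inl (one_dvd _)) tabF4.invT (by decide +kernel) (pr_F4 (r := p))

theorem adj_E6 : Adj.{u} (chevE6.group F) :=
  have ⟨f, h, _⟩ := E6.exists_fold (ZMod p)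
  adj_good goodE6 (gr_of_range (P := True) (fun _ h => by simpa using symE6 (range_adj h)) fun _ => grE6' F)
    (card_rangeE6 F).dvd (.inr (card_kerE6 Fˣ ▸ Nat.gcd_dvd_left _ _)) (.inr dvd_rfl) tabE6.invT (by decide +kernel)
    ((pr_F4 (r := p)).mono f h)

theorem adj_E7 : Adj.{u} (chevE7.group F) :=
  adj_good goodE7 (fun π h => List.mem_singleton.1 (symE7 (range_adj h)) ▸ goodE7.gr_one F) (card_rangeE7 F ▸ one_dvd _)
    (.inl (card_kerE7 Fˣ ▸ Nat.gcd_dvd_left _ _)) (.inl dvd_rfl) tabE7.invT (by decide +kernel) (pr_E7 (r := p))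

theorem adj_E8 : Adj.{u} (chevE8.group F) :=
  adj_good goodE8 (fun π h => List.mem_singleton.1 (symE8 (range_adj h)) ▸ goodE8.gr_one F) (card_rangeE8 F ▸ one_dvd _)
    (.inl (card_kerE8 Fˣ ▸ one_dvd _)) (.inl (one_dvd _)) tabE8.invT (by decide +kernel) (pr_E8 (r := p))

end

theorem adj_3D4 {q : ℕ} (hq : IsPrimePow q) (hF : Fintype.card F = q ^ 3) [Finite (twistedD4 F q)] : Adj.{u} (twistedD4 F q) := by
  obtain ⟨φ, h2, hφ⟩ := D4.exists_hom hq hF
  have h := (D4.isTw (h3 := h2) hφ).emb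
  exact adj_one (ldD4 hφ h) (D4.card_out hφ hq.one_lt (Nat.card_eq_fintype_card.trans hF) h)

theorem adj_sz {m : ℕ} (hm : 1 ≤ m) (hF : Fintype.card F = 2 ^ (2 * m + 1)) : Adj.{u} (Lie.Sz F (2 ^ (m + 1))) := by
  open H23.Sz in
  let := titsOfCard hF
  have := big_of_card_eq hm hF
  let := lieModel hF
  set G := Lie.Sz F (2 ^ (m + 1))
  have := finite_G F G
  have := H14.isCyclic_ringAut F
  exact adj_cyc (eq_bot_iff.2 fun z hz => (eq_one_of_fieldAut_eq_conj (F := F) (σ := 1) (by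
    rw [map_one]; exact MulEquiv.ext fun a => by simp [← mem_center_iff.1 hz a])).1)
    (isCyclic_of_surjective _ (bijective_out (F := F)).2)

theorem adj_lie {S : Type*} [Group S] [Finite S] {r : ℕ} (h : IsLieTypeChar r S) : Adj.{u} S := by
  have k : ∀ (F : Type) [Field F] [Fintype F] [CharP F r], Fact r.Prime := fun F _ _ _ => ⟨CharP.char_is_prime F r⟩
  rcases h with ⟨F, _, _, _, n, hn, h, ⟨φ⟩⟩ | ⟨F, _, _, _, m, hm, -, ⟨φ⟩⟩ | ⟨F, _, _, _, n, q, hF, hn, h, ⟨φ⟩⟩ |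
    ⟨F, _, _, _, m, hm, ho, ⟨φ⟩⟩ | ⟨F, _, _, _, m, hm, ⟨φ⟩⟩ | ⟨F, _, _, _, m, a, b, hm, hab, ⟨φ⟩⟩ |
    ⟨F, _, _, _, h⟩ | ⟨F, _, _, _, q, hq, h⟩ |
    ⟨-, F, _, _, m, hm, hF, ⟨φ⟩⟩ | ⟨-, F, _, _, m, hm, hF, ⟨φ⟩⟩ | ⟨-, F, _, _, m, hm, hF, ⟨φ⟩⟩
  · rcases hn.eq_or_lt with rfl | hn
    exacts [.equiv φ (adj_psl2 (h rfl)), .equiv φ (adj_psl hn)]
  · exact .equiv φ (adj_psp hm)
  · exact .equiv φ (adj_psu hF hn h)
  · exact .equiv φ (adj_odd hm fun h => Nat.not_even_iff_odd.2 ho (even_card_of_two_eq_zero h))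
  · exact .equiv φ (adj_plus hm)
  · exact .equiv φ (adj_minus hm hab)
  · have := k F
    rcases h with ⟨-, ⟨φ⟩⟩ | ⟨⟨φ⟩⟩ | ⟨⟨φ⟩⟩ | ⟨⟨φ⟩⟩ | ⟨⟨φ⟩⟩
    exacts [(adj_G2 (p := r)).equiv φ, (adj_F4 (p := r)).equiv φ, (adj_E6 (p := r)).equiv φ, (adj_E7 (p := r)).equiv φ,
      (adj_E8 (p := r)).equiv φ]
  · have := k F
    rcases h with ⟨hF, ⟨φ⟩⟩ | ⟨hF, ⟨φ⟩⟩ <;> have := Finite.of_equiv _ φ.toEquiv
    exacts [(adj_2E6 (p := r) hq hF).equiv φ, (adj_3D4 hq hF).equiv φ]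
  · exact .equiv φ (adj_sz hm hF)
  · have := Finite.of_equiv _ φ.toEquiv
    obtain ⟨_, ψ, h2, hψ, h, hc⟩ := out_F4 hm hF
    exact .equiv φ (adj_one (ldF4 hψ h.emb) hc)
  · have := Finite.of_equiv _ φ.toEquiv
    obtain ⟨_, ψ, h2, hψ, h, hc⟩ := out_G2 hm hF
    exact .equiv φ (adj_one (ldG2 hψ h.emb) hc)

end H27.AD
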