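/-
The Blok-Hoffman amalgam: the universal completion is `Sp₂ₙ`.
-/
import Cfsg.Agent.H27.BH3

set_option autoImplicit false
set_option linter.unusedSectionVars false

namespace H27.BH
open Subgroup H11 H14

variable {n : ℕ} {K Γ : Type*} [Field K] [Group Γ] {a b c d : I n} {i j k : Fin n}

theorem inJ_ex {r : (wbC n).wd.Rt} (h : (wbC n).R.InJ ({i, j} : Finset (Fin n)) r) :
    ∃ a b, r.1 = μ2 a + μ2 b ∧ b ≠ a.swap ∧ (ix a : ℕ) ≤ ix b ∧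
      ∀ k < n, (ix a : ℕ) ≤ k → (k < ix b ∨ sg a = sg b) → k = i ∨ k = j := by
  obtain ⟨a, b, e, h0, h1⟩ : ∃ a b, r.1 = μ2 a + μ2 b ∧ b ≠ a.swap ∧ (ix a : ℕ) ≤ ix b := by
    obtain ⟨a, b, e, h0⟩ := IR.ex r.2
    rcases le_total (ix a : ℕ) (ix b) with h | h
    exacts [⟨a, b, e, h0, h⟩, ⟨b, a, e.trans (add_comm _ _), by rintro rfl; simp at h0, h⟩]
  refine ⟨a, b, e, h0, h1, fun k hk h2 h3 => by_contra fun h4 => ?_⟩
  have : FC n ⟨k, hk⟩ ⬝ᵥ r.1 / 2 = 0 := h ⟨k, hk⟩ (by simpa [Fin.ext_iff] using h4)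
  have := (ix b).2
  have := sg_cases a; have := sg_cases b
  simp only [e, dotProduct_add, dot_μ2, FC] at *
  split_ifs at * <;> omega

theorem simple_eq (i : Fin n) : ((wbC n).R.simple i).1 = μ2 (.inl i) + μ2 (nx .inr .inl i) := by
  change μ2 (.inl i) - μ2 (nx .inl .inr i) = _
  rw [add_eq, nx, nx]; split_ifs <;> rfl

theorem arith {n i j a b c d : ℕ} {P Q : Prop} (h3 : a ≤ b) (k3 : c ≤ d) (hb : b < n) (hd : d < n)
    (h4 : ∀ k < n, a ≤ k → (k < b ∨ P) → k = i ∨ k = j) (k4 : ∀ k < n, c ≤ k → (k < d ∨ Q) → k = i ∨ k = j)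
    (hP : a = b → P) (hQ : c = d → Q) (le : a < c ∨ (a = c ∧ b ≤ d)) :
    (b ≤ a + 1 ∧ d ≤ a + 1) ∨ (a + 1 = b ∧ b < c ∧ (c = d ∨ c + 1 = d)) ∨ (a + 1 = b ∧ c = b ∧ b + 1 = d) ∨
      (a + 1 = b ∧ c = a ∧ b + 1 = d) ∨ (a + 1 = c ∧ c + 1 = b ∧ d = b) ∨ (c = a ∧ d = b ∧ ¬ P ∧ ¬ Q) := by
  have T : ∀ x y z, x < y → y < z → (x = i ∨ x = j) → (y = i ∨ y = j) → (z = i ∨ z = j) → False := by omega
  have k : ∀ {a b : ℕ} {P : Prop}, a ≤ b → b < n → (∀ k < n, a ≤ k → (k < b ∨ P) → k = i ∨ k = j) → (a = b → P) →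
      ∃ x, (x = n ∨ (x = b ∧ ¬ P)) ∧ a < x ∧ x ≤ a + 2 ∧ ∀ k, a ≤ k → k < x → k = i ∨ k = j := fun {a b P} h3 hb h4 hP => by
    obtain ⟨x, h1, h2, h⟩ : ∃ x, (x = n ∨ (x = b ∧ ¬ P)) ∧ a < x ∧ ∀ k, a ≤ k → k < x → k = i ∨ k = j := by
      by_cases p : P
      exacts [⟨n, .inl rfl, by omega, fun k h h' => h4 k h' h (.inr p)⟩, ⟨b, .inr ⟨rfl, p⟩,
        lt_of_le_of_ne h3 fun e => p (hP e), fun k h h' => h4 k (h'.trans hb) h (.inl h')⟩]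
    exact ⟨x, h1, h2, by_contra fun e => T a (a + 1) (a + 2) (by omega) (by omega) (h _ (by omega) (by omega))
      (h _ (by omega) (by omega)) (h _ (by omega) (by omega)), h⟩
  obtain ⟨x, x1, x2, x3, x4⟩ := k h3 hb h4 hP
  obtain ⟨y, y1, y2, y3, y4⟩ := k k3 hd k4 hQ
  have e1 : a < c → y = c + 1 := fun h => by_contra fun e => T a c (c + 1) h (by omega) (x4 _ le_rfl x2)
    (y4 _ le_rfl y2) (y4 _ (by omega) (by omega))
  have e2 : a + 1 < c → x = a + 1 := fun h => by_contra fun e => T a (a + 1) c (by omega) h (x4 _ le_rfl x2)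
    (x4 _ (by omega) (by omega)) (y4 _ le_rfl y2)
  clear h4 k4 x4 y4 T k hP hQ
  rcases x1 with x1 | ⟨x1, p⟩ <;> rcases y1 with y1 | ⟨y1, q⟩
  iterate 3 rw [← or_assoc, ← or_assoc, ← or_assoc, ← or_assoc]; left; omega
  simp only [p, q, not_false_iff, and_true]; omega

namespace Am
variable {π : Γ →* Sp n K} (A : Am π) (hK : ∃ a : K, a ≠ 0 ∧ a ≠ 1) (hn : 2 ≤ n)
include hK hn

theorem rel {r s : (wbC n).wd.Rt} (hr : (wbC n).R.InJ ({i, j} : Finset (Fin n)) r)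
    (hs : (wbC n).R.InJ ({i, j} : Finset (Fin n)) s) (e1 : s ≠ r) (e2 : r.1 + s.1 ≠ 0) : A.Rel r.1 s.1 := by
  obtain ⟨a, b, h1, h2, h3, h4⟩ := inJ_ex hr
  obtain ⟨c, d, k1, k2, k3, k4⟩ := inJ_ex hs
  wlog le : (ix a : ℕ) < ix c ∨ ((ix a : ℕ) = ix c ∧ (ix b : ℕ) ≤ ix d) generalizing r s a b c d
  · exact (this hs hr e1.symm (add_comm r.1 _ ▸ e2) c d k1 k2 k3 k4 a b h1 h2 h3 h4 (by omega)).symm
  have H := arith h3 k3 (ix b).2 (ix d).2 h4 k4 (fun e => by rw [eq_of_ix (Fin.ext e) h2])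
    (fun e => by rw [eq_of_ix (Fin.ext e) k2]) le
  clear h4 k4 hr hs
  have hb := (ix b).2; have hd := (ix d).2
  have ne : ∀ {x y : Fin n}, (x : ℕ) ≠ y → x ≠ y := Fin.ne_of_val_ne
  rcases H with hC | ⟨f1, f2, f3⟩ | ⟨f1, f2, f3⟩ | ⟨f1, f2, f3⟩ | ⟨f1, f2, f3⟩ | ⟨f1, f2, f3, f4⟩
  · refine relC (i := ⟨min (ix a : ℕ) (n - 2), by omega⟩) (j := ⟨min (ix a : ℕ) (n - 2) + 1, by omega⟩) (.inl rfl)
      r.2 s.2 (fun m m1 m2 => ?_) e2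
    simp only [h1, k1, Pi.add_apply, μ2_apply, ne_eq, Fin.ext_iff] at m1 m2 ⊢
    have := m.2
    split_ifs <;> omega
  · rw [h1, k1]
    exact (relD (f3.imp (fun e => eq_of_ix (Fin.ext e) k2) .inl) (.inl f1) (ne (by omega)) (ne (by omega))
      (ne (by omega)) (ne (by omega))).symm
  · rw [h1, k1, add_comm (μ2 c)]
    exact relA1 ⟨.inl f1, .inr f3, ne (by omega)⟩ rfl (Fin.ext f2)
  · rw [h1, k1, add_comm (μ2 c), add_comm (μ2 a)]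
    exact relA2 hK ⟨.inr f3, .inl f1, ne (by omega)⟩ rfl (Fin.ext f2)
  · rw [h1, k1]
    exact (relA2 hK ⟨.inl f1, .inr (f3 ▸ f2), ne (by omega)⟩ rfl (Fin.ext f3.symm)).symm
  have s1 := sg_cases a; have s2 := sg_cases b
  obtain rfl | rfl := ix_eq_iff.1 (Fin.ext f1) <;> obtain rfl | rfl := ix_eq_iff.1 (Fin.ext f2)
  · exact absurd (Subtype.ext (k1.trans h1.symm)) e1
  · rw [sg_swap] at f4; omega
  · rw [sg_swap] at f4; omega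
  · exact absurd (by rw [h1, k1, μ2_swap, μ2_swap]; abel) e2
end Am

end H27.BH
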