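/-
The Blok-Hoffman amalgam: the universal completion is `Sp₂ₙ`.
-/
import Cfsg.Agent.H27.BH4

set_option autoImplicit false
set_option linter.unusedSectionVars false

namespace H27.BH
open Subgroup H11 H14

variable {n : ℕ} {K Γ : Type*} [Field K] [Group Γ] {a b c d : I n} {i j k : Fin n}

theorem cov {r : (wbC n).wd.Rt} (hr : (wbC n).R.InJ ({i, j} : Finset (Fin n)) r) : Cov r.1 := by
  obtain ⟨a, b, h1, h2, h3, h4⟩ := inJ_ex hr
  have hb := (ix b).2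
  have a1 := h4 (ix a); have a2 := h4 (ix a + 1); have a3 := h4 (ix a + 2)
  refine ⟨a, b, h1, by_cases (fun e : ix a = ix b => .inl (eq_of_ix e h2)) fun e => .inr (by_cases (fun e' => .inl (.inl e'))
    fun e' => .inr ⟨⟨ix a + 1, ?_⟩, .inl rfl, .inr ?_, e⟩)⟩ <;> simp only [Fin.ext_iff] at * <;> omega
theorem j1 (i : Fin n) : (wbC n).R.InJ ({i, i} : Finset (Fin n)) ((wbC n).R.simple i) :=
  (wbC n).R.inJ_simple.2 (by simp)
theorem j2 (i : Fin n) : (wbC n).R.InJ ({i, i} : Finset (Fin n)) ((wbC n).R.neg ((wbC n).R.simple i)) :=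
  (wbC n).R.inJ_neg.2 (j1 i)
theorem s2 (i : Fin n) : ((wbC n).R.neg ((wbC n).R.simple i)).1 = μ2 (.inr i) + μ2 (nx .inl .inr i) := by
  refine ((wbC n).wd.neg_val _).trans ((congrArg Neg.neg (simple_eq i)).trans ?_)
  rw [neg_add, ← μ2_swap, ← μ2_swap, nx, nx]; split_ifs <;> rfl
theorem s1a (h : (i : ℕ) + 1 < n) : ((wbC n).R.simple i).1 = μ2 (.inl i) + μ2 (.inr ⟨i + 1, h⟩) := by
  rw [simple_eq, nx, dif_pos h]
theorem s1b (h : ¬ (i : ℕ) + 1 < n) : ((wbC n).R.simple i).1 = μ2 (.inl i) + μ2 (.inl i) := by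
  rw [simple_eq, nx, dif_neg h]
theorem s2a (h : (i : ℕ) + 1 < n) : ((wbC n).R.neg ((wbC n).R.simple i)).1 = μ2 (.inr i) + μ2 (.inl ⟨i + 1, h⟩) := by
  rw [s2, nx, dif_pos h]
theorem s2b (h : ¬ (i : ℕ) + 1 < n) : ((wbC n).R.neg ((wbC n).R.simple i)).1 = μ2 (.inr i) + μ2 (.inr i) := by
  rw [s2, nx, dif_neg h]
theorem ind (p : Fin n → Prop) (h1 : ∀ i : Fin n, ¬ (i : ℕ) + 1 < n → p i)
    (h2 : ∀ (i : Fin n) h, p ⟨i + 1, h⟩ → p i) (i : Fin n) : p i := by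
  induction hi : n - i generalizing i with
  | zero => omega
  | succ m ih => exact by_cases (fun h => h2 i h (ih _ (by simp; omega))) (h1 i)
theorem pair_nx (h : (i : ℕ) + 1 < n) : (wbC n).R.pair ((wbC n).R.simple ⟨i + 1, h⟩) ((wbC n).R.simple i) = -1 := by
  rw [RootSys.pair_simple_simple, Wd.A_eq]
  show (wbC n).wd.φ (μ2 (.inl i) - μ2 (nx .inl .inr i)) _ = _
  rw [φC, nx, dif_pos h]
  split_ifs <;> simp [μ2_apply] <;> omega

namespace Am
variable {π : Γ →* Sp n K} (A : Am π)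

theorem eW {j : Fin n} (H : Adj (ix a) j) {E : Subgroup Γ} (h : Sg A.L j ≤ E) (s : K) :
    A.R a (.inr j) s ∈ E ↔ A.R a (.inl j) s ∈ E := by
  have m := h (A.W_mem (.inr j))
  rw [A.R_symm (b := .inr j) H, A.R_symm (b := .inl j) H, show A.R (.inr j) a s = A.W (.inr j) * A.R (.inl j) a s *
    (A.W (.inr j))⁻¹ by simp [R, W], mul_mem_cancel_right (inv_mem m), mul_mem_cancel_left m]
theorem eP {j : Fin n} (H : Adj (ix a) j) (s : K) : A.L (.inr j) s * A.R a (.inl j) 1 * (A.L (.inr j) s)⁻¹ =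
    A.R a (.inl j) 1 * A.R a (.inr j) (-s) * A.L a s := by
  have m := A.L_mem (.inr j) s
  have o := ω_ix (K := K) (a := a) (b := .inl j) H.ne
  have o' := ω_ix (K := K) (a := a) (b := .inr j) H.ne
  have r1 := A.R_P a (b := .inl j) (j := j) rfl
  have r2 := A.R_P a (b := .inr j) (j := j) rfl
  refine (A.fP H).eq (mul_mem (mul_mem (A.S_le H m) (r1 _)) (inv_mem (A.S_le H m)))
    (mul_mem (mul_mem (r1 _) (r2 _)) (A.L_P a j s)) ?_
  rw [map_mul, map_mul, map_mul, map_mul, map_inv, A.πR (b := .inl j) H, A.πR (b := .inr j) H,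
    (A.πL a s).trans (q_zero _ _).symm, q_mul (u := e a) (by simp [o]) (by simp [o']),
    q_mul (by simp [o, o']) (by simp), conj_q, A.πL]
  simp [t_app, o']

theorem of_simple {E : Subgroup Γ} (e0 : ∀ i r, (wbC n).R.InJ ({i, i} : Finset (Fin n)) r → ∀ g s, A.Rt r.1 g →
    π g = (spSt n K).x r s → g ∈ E) : (∀ a s, A.L a s ∈ E) ∧ ∀ i j, Adj i j → ∀ s, A.N i j s ∈ E := by
  have eL : ∀ i r a, (wbC n).R.InJ ({i, i} : Finset (Fin n)) r → r.1 = μ2 a + μ2 a → ∀ s, A.L a s ∈ E :=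
    fun i r a hr e s => by
      obtain ⟨ε, h1, h2⟩ := x_long (K := K) e
      exact e0 i r hr _ (ε * s) ⟨a, a, s, e, .inl ⟨rfl, rfl⟩⟩ (by rw [h2, A.πL, ← mul_assoc, h1, one_mul])
  have eR : ∀ i r a b, (wbC n).R.InJ ({i, i} : Finset (Fin n)) r → r.1 = μ2 a + μ2 b → Adj (ix a) (ix b) →
      ∀ s, A.R a b s ∈ E := fun i r a b hr e H s => by
    obtain ⟨ε, h1, h2⟩ := x_short (K := K) e H.ne
    exact e0 i r hr _ (ε * s) ⟨a, b, s, e, .inr (.inl ⟨H, rfl⟩)⟩ (by rw [h2, A.πR H, ← mul_assoc, h1, one_mul])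
  have eS : ∀ j, Sg A.L j ≤ E := ind _ (fun i hi => (closure_le _).2 (by
      rintro _ ⟨a | a, s, rfl, rfl⟩
      exacts [eL _ _ _ (j1 a) (s1b hi) s, eL _ _ _ (j2 a) (s2b hi) s]))
    fun i h ih => (closure_le _).2 (by
      rintro _ ⟨a, s, rfl, rfl⟩
      have H : Adj (ix a) ⟨ix a + 1, h⟩ := .inl rfl
      have k : ∀ s, A.R a (.inl ⟨_, h⟩) s ∈ E := fun s => by
        cases a with
        | inl a => exact (A.eW H ih s).1 (eR _ _ (.inl a) (.inr ⟨_, h⟩) (j1 a) (s1a h) H s)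
        | inr a => exact eR _ _ (.inr a) (.inl ⟨_, h⟩) (j2 a) (s2a h) H s
      have m := ih (A.L_mem (.inr ⟨_, h⟩) s)
      exact (mul_mem_cancel_left (mul_mem (k 1) ((A.eW H ih _).2 (k _)))).1
        (A.eP H s ▸ mul_mem (mul_mem m (k 1)) (inv_mem m)))
  refine ⟨fun a s => eS _ (A.L_mem a s), fun i j H s => ?_⟩
  wlog h : (i : ℕ) + 1 = j generalizing i j
  · rw [A.N_symm]; exact this j i H.symm (H.resolve_left h)
  have h' : (i : ℕ) + 1 < n := h ▸ j.2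
  obtain rfl : j = ⟨_, h'⟩ := Fin.ext h.symm
  simpa [R, W] using (A.eW (a := .inl i) H (eS _) s).1 (eR _ _ (.inl i) (.inr ⟨_, h'⟩) (j1 i) (s1a h') H s)

theorem exists_S0 (hK : ∃ a : K, a ≠ 0 ∧ a ≠ 1) (hn : 2 ≤ n) : ∃ S0 : PreSt (wbC n).C.toPreChev K Γ,
    ∀ i j r, (wbC n).R.InJ ({i, j} : Finset (Fin n)) r → ∀ s, A.Rt r.1 (S0.x r s) ∧ π (S0.x r s) = (spSt n K).x r s := by
  haveI : Nontrivial (Fin n) := Fin.nontrivial_iff_two_le.2 hn
  have hx : ∀ (r : (wbC n).wd.Rt) s, ∃ g, Cov r.1 → A.Rt r.1 g ∧ π g = (spSt n K).x r s := fun r s => by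
    by_cases h : Cov r.1
    exacts [(Cov.ex A h s).imp fun _ h _ => h, ⟨1, fun h' => absurd h' h⟩]
  choose x hx using hx
  obtain ⟨S0, hS⟩ := exists_preSt_of_rel (wbC n).mb.cok connC x (fun i j r hr s u => by
      obtain ⟨M, f, hM⟩ := Cov.fa A (cov hr)
      have := fun s => hx r s (cov hr)
      exact f.eq (hM _ (this _).1) (mul_mem (hM _ (this _).1) (hM _ (this _).1)) (by
        rw [map_mul, (this _).2, (this _).2, (this _).2, PreSt.x_add]))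
    fun i j r s hr hs e1 e2 t u => by
      obtain ⟨c1, c2, M, f, h1, h2⟩ := A.rel hK hn hr hs e1 fun e => e2 ((wbC n).wd.eq_neg_iff.2 e)
      have h3 := fun c (hc : c ∈ (wbC n).C.terms r s) => h1 c.1.1 _ _ c.1.2 (Int.natCast_pos.2 (PreChev.terms_sound _ hc).1)
        (Int.natCast_pos.2 (PreChev.terms_sound _ hc).2.1) ((wbC n).wd.cf_iff.1 (PreChev.terms_sound _ hc).2.2)
      refine inv_mul_eq_iff_eq_mul.1 (f.eq (h2 _ _ (hx r t c1).1 (hx s u c2).1) (list_prod_mem fun g hg => ?_) ?_)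
      · obtain ⟨c, hc, rfl⟩ := List.mem_map.1 hg
        exact (h3 c hc).2 _ (hx _ _ (h3 c hc).1).1
      rw [map_mul, map_inv, map_mul, map_mul, (hx r t c1).2, (hx s u c2).2, (spSt n K).comm r s e1 e2 t u,
        inv_mul_cancel_left, map_list_prod, List.map_map]
      exact congrArg _ (List.map_congr_left fun c hc => (hx _ _ (h3 c hc).1).2.symm)
  exact ⟨S0, fun i j r hr s => hS i j r hr ▸ hx r s (cov hr)⟩

theorem exists_hom (hK : ∃ a : K, a ≠ 0 ∧ a ≠ 1) (hn : 2 ≤ n) : ∃ Φ : Sp n K →* Γ, (∀ a s, Φ (π (A.L a s)) = A.L a s) ∧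
    ∀ i j, Adj i j → ∀ s, Φ (π (A.N i j s)) = A.N i j s := by
  haveI : Nontrivial (Fin n) := Fin.nontrivial_iff_two_le.2 hn
  obtain ⟨S0, hS⟩ := A.exists_S0 hK hn
  obtain ⟨Φ, hΦ⟩ := exists_hom_of_mul (S' := S0.toSt connC) (spSt_sep n K) (spSt_top n K) (spSt_hmul n K)
    (spSt_tor n K) (ind _ (fun i hi t u ht hu => by
      have m1 := fun s => hS _ _ _ (j1 i) s
      have m2 := fun s => hS _ _ _ (j2 i) s
      have n1 : ∀ s, S0.x ((wbC n).R.simple i) s ∈ Sg A.L i := fun s =>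
        (Rt.L (a := .inl i) ((congrArg (A.Rt · _) (s1b hi)).mp (m1 s).1)).elim fun u e => e ▸ A.L_mem (.inl i) u
      have n2 : ∀ s, S0.x ((wbC n).R.neg ((wbC n).R.simple i)) s ∈ Sg A.L i := fun s =>
        (Rt.L (a := .inr i) ((congrArg (A.Rt · _) (s2b hi)).mp (m2 s).1)).elim fun u e => e ▸ A.L_mem (.inr i) u
      have m3 : ∀ s, S0.h ((wbC n).R.simple i) s ∈ Sg A.L i := fun s =>
        mul_mem (mul_mem (mul_mem (n1 _) (n2 _)) (n1 _)) (mul_mem (mul_mem (n1 _) (n2 _)) (n1 _))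
      have m4 : ∀ s, π (S0.h ((wbC n).R.simple i) s) = (spSt n K).h ((wbC n).R.simple i) s := fun s => by
        simp only [PreSt.h, PreSt.n, map_mul, (m1 _).2, (m2 _).2]
      exact ((A.fSS i i).mono le_sup_left).eq (mul_mem (m3 t) (m3 u)) (m3 (t * u)) ((map_mul π _ _).trans
        ((congrArg₂ _ (m4 t) (m4 u)).trans ((spSt_hmul n K _ t u ht hu).trans (m4 _).symm)))) fun i h ih t u ht hu => by
      have c := (S0.toSt connC).h_conj_h ((wbC n).R.simple i) ((wbC n).R.simple ⟨i + 1, h⟩) ht u⁻¹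
      rw [mul_comm _ u⁻¹, ← ih _ _ (inv_ne_zero hu) (zpow_ne_zero _ ht), mul_inv_cancel_right, mul_inv_eq_iff_eq_mul] at c
      have := (S0.toSt connC).h_conj_h ((wbC n).R.simple ⟨i + 1, h⟩) ((wbC n).R.simple i) (inv_ne_zero hu) t
      rwa [← c, mul_inv_cancel_right, pair_nx, zpow_neg_one, inv_inv, eq_mul_inv_iff_mul_eq, mul_comm u] at this)
  refine ⟨Φ, A.of_simple (E := (Φ.comp π).eqLocus (MonoidHom.id Γ)) fun i r hr g s h1 h2 => ?_⟩
  obtain ⟨M, f, hM⟩ := Cov.fa A (cov hr)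
  have := hS _ _ r hr s
  rw [f.eq (hM _ h1) (hM _ this.1) (h2.trans this.2.symm)]
  exact (congrArg Φ this.2).trans (hΦ r s)

theorem top_of {E : Subgroup (Sp n K)} (h1 : ∀ a s, π (A.L a s) ∈ E) (h2 : ∀ i j, Adj i j → ∀ s, π (A.N i j s) ∈ E) :
    E = ⊤ := by
  have hW : ∀ a, π (A.W a) ∈ E := fun a => (closure_le (E.comap π)).2 (by
    rintro _ ⟨b, s, -, rfl⟩; exact h1 b s) (A.W_mem a)
  have kL : ∀ (r : (wbC n).wd.Rt) a, r.1 = μ2 a + μ2 a → ∀ s, (spSt n K).x r s ∈ E := fun r a e s =>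
    (x_long (K := K) e).elim fun ε h => by rw [h.2, ← A.πL]; exact h1 _ _
  have kR : ∀ (r : (wbC n).wd.Rt) a b, r.1 = μ2 a + μ2 b → Adj (ix a) (ix b) → ∀ s, (spSt n K).x r s ∈ E :=
    fun r a b e H s => (x_short (K := K) e H.ne).elim fun ε h => by
      rw [h.2, ← A.πR H, R]
      simp only [map_mul, map_inv]
      exact mul_mem (mul_mem (hW _) (mul_mem (mul_mem (hW _) (h2 _ _ H _)) (inv_mem (hW _)))) (inv_mem (hW _))
  refine top_le_iff.1 (spSt_top n K ▸ (PreSt.U_mono fun r _ => (wbC n).R.inJ_univ r).trans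
    (St.U_le_of_simple (J := Set.univ) fun j _ s => ?_))
  by_cases h : (j : ℕ) + 1 < n
  exacts [⟨kR _ _ _ (s1a h) (.inl rfl) s, kR _ _ _ (s2a h) (.inl rfl) s⟩, ⟨kL _ _ (s1b h) s, kL _ _ (s2b h) s⟩]
end Am

/-- graphs -/
def Gr {G H : Type*} [Group G] [Group H] {B : Subgroup G} (f : B →* H) : Subgroup (G × H) := (B.subtype.prod f).range
section
variable {G H : Type*} [Group G] [Group H] {B C : Subgroup G} {f : B →* H}
theorem mem_Gr {x : G × H} : x ∈ Gr f ↔ ∃ h : x.1 ∈ B, x.2 = f ⟨x.1, h⟩ :=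
  ⟨by rintro ⟨b, rfl⟩; exact ⟨b.2, rfl⟩, fun ⟨h, e⟩ => ⟨⟨_, h⟩, Prod.ext rfl e.symm⟩⟩
theorem fa_Gr (f : B →* H) : Fa (MonoidHom.fst G H) (Gr f) := by
  rintro _ ⟨b, rfl⟩ e
  rw [show b = 1 from Subtype.ext e, map_one]
theorem Gr_le {f' : C →* H} (le : ∀ {g}, g ∈ B → g ∈ C) (h : ∀ g hg, f' ⟨g, le hg⟩ = f ⟨g, hg⟩) : Gr f ≤ Gr f' :=
  fun _ hx => (mem_Gr.1 hx).elim fun hg e => mem_Gr.2 ⟨le hg, e.trans (h _ hg).symm⟩
end

end H27.BH
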