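import Cfsg.Agent.H27.CN9

/-! Class numbers of odd-dimensional orthogonal groups. -/

set_option autoImplicit false
set_option linter.unusedSectionVars false

namespace H27.CN

open Module Finset Function H22 H27.Sp H11 H12 H12.CForm QuadraticMap

theorem idx2 {G : Type*} [Group G] [Finite G] (χ : G →* ℤˣ) (h : Surjective χ) :
    Nat.card (ConjClasses G) ≤ 2 * Nat.card (ConjClasses χ.ker) ∧ 2 * Nat.card (ConjClasses χ.ker) ≤
      Nat.card (ConjClasses G) + 3 * Nat.card {c : ConjClasses G // ∀ x, Commute x c.out → χ x = 1} := by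
  classical
  have := Fintype.ofFinite G
  let c : G → G → ℤ := fun g h => if Commute g h then 1 else 0
  have e1 : ∑ g, ∑ h, c g h * χ g = ∑ g, ∑ h, c g h * χ h := by rw [sum_comm]; simp only [c, Commute.symm_iff]
  have e2 : ∑ g, ∑ h, c g h * (χ g * χ h) = ∑ g, ∑ h, c g h * χ h := sum_congr rfl fun g _ => by
    rw [← Equiv.sum_comp (.mulLeft g) fun h => c g h * χ h]; simp [c, commute_iff_eq, mul_assoc]
  have e3 : ∑ g, ∑ h, c g h = (Nat.card (ConjClasses G) * Nat.card G : ℕ) := by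
    rw [← card_comm_eq_card_conjClasses_mul_card, ← sum_product', Nat.card_eq_fintype_card, Fintype.card_subtype]; simp [c]
  have e4 : ∑ g, ∑ h, c g h * ((1 + χ g) * (1 + χ h)) = 4 * (Nat.card (ConjClasses χ.ker) * Nat.card χ.ker : ℕ) := by
    rw [← card_comm_eq_card_conjClasses_mul_card, Nat.card_congr (α := {p : χ.ker × χ.ker // Commute p.1 p.2}) (β := {p : G × G // (χ p.1 = 1 ∧ χ p.2 = 1) ∧
      Commute p.1 p.2}) ⟨fun p => ⟨(p.1.1, p.1.2), ⟨p.1.1.2, p.1.2.2⟩, congrArg Subtype.val p.2.eq⟩, fun p =>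
      ⟨(⟨_, p.2.1.1⟩, ⟨_, p.2.1.2⟩), Subtype.ext p.2.2.eq⟩, fun _ => rfl, fun _ => rfl⟩, ← sum_product',
      Nat.card_eq_fintype_card, Fintype.card_subtype, card_filter, Nat.cast_sum, mul_sum]
    exact sum_congr rfl fun p _ => by
      rcases Int.units_eq_one_or (χ p.1) with a | a <;> rcases Int.units_eq_one_or (χ p.2) with b | b <;> simp [c, a, b]
  have e5 : ∑ g, ∑ h, c g h * χ h = Nat.card {p : G × G // (∀ x, Commute x p.1 → χ x = 1) ∧ Commute p.1 p.2} := by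
    rw [Nat.card_eq_fintype_card, Fintype.card_subtype, card_filter, Nat.cast_sum, ← univ_product_univ, sum_product]
    refine sum_congr rfl fun g _ => ?_
    by_cases hg : ∀ x, Commute x g → χ x = 1
    · exact sum_congr rfl fun h _ => by
        by_cases e : Commute g h
        exacts [by simp [c, e, hg h e.symm, eq_true hg], by simp [c, e]]
    have := sum_hom_units_eq_zero (((Units.coeHom ℤ).comp χ).comp (Subgroup.centralizer {g}).subtype) fun e => hg fun x hx =>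
      Units.ext (DFunLike.congr_fun e ⟨x, Subgroup.mem_centralizer_singleton_iff.2 hx⟩ :)
    simp only [hg, false_and, c, ite_mul, one_mul, zero_mul, ← sum_filter, if_false, Nat.cast_zero, sum_const_zero]
    exact (sum_subtype _ (fun x => by simp [Subgroup.mem_centralizer_singleton_iff, commute_iff_eq, eq_comm]) _).trans this
  choose t ht using fun g : G => isConj_iff.1 (Quotient.mk_out (s := IsConj.setoid G) g)
  have e6 := Nat.card_le_card_of_injective (α := {p : G × G // (∀ x, Commute x p.1 → χ x = 1) ∧ Commute p.1 p.2})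
    (β := {c : ConjClasses G // ∀ x, Commute x c.out → χ x = 1} × G) (fun p => (⟨.mk p.1.1, fun x hx => by
      simpa [mul_right_comm _ (χ x)] using p.2.1 _ ((ht p.1.1).subst (hx.conj (t p.1.1)))⟩, p.1.2 * t p.1.1)) fun p p' e => by
    have k : ∀ p : {p : G × G // (∀ x, Commute x p.1 → χ x = 1) ∧ Commute p.1 p.2}, p.1.2 * t p.1.1 * (ConjClasses.mk p.1.1).out * (p.1.2 * t p.1.1)⁻¹ =
      p.1.1 := fun p => by
        rw [mul_inv_rev, mul_assoc _ (t _), ← mul_assoc, mul_assoc _ _ (t _)⁻¹]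
        exact (congrArg (_ * · * _) (ht _)).trans (by rw [← p.2.2.eq, mul_inv_cancel_right])
    simp only [Prod.mk.injEq, Subtype.mk.injEq] at e
    have : p.1.1 = p'.1.1 := by rw [← k p, e.1, e.2, k]
    exact Subtype.ext (Prod.ext this (by simpa [this] using e.2))
  have e7 : Nat.card G = 2 * Nat.card χ.ker := by
    rw [← χ.ker.card_mul_index, Subgroup.index_ker, MonoidHom.range_eq_top.2 h, Subgroup.card_top, mul_comm]; simp
  simp only [add_mul, mul_add, mul_one, one_mul, sum_add_distrib, e1, e2, e3, e5, e7] at e4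
  rw [Nat.card_prod, e7] at e6
  have := Nat.card_pos (α := χ.ker)
  constructor <;> refine Nat.le_of_mul_le_mul_right ?_ (mul_pos two_pos this) <;>
    zify at * <;> linarith

variable {F K : Type*} [Field F] [Field K] [Algebra F K] [Finite F] [Algebra.IsAlgebraic F K] [IsAlgClosed K]
  {V W : Type*} [AddCommGroup V] [Module F V] [FiniteDimensional F V] {Q : QuadraticForm F V} [AddCommGroup W]
  [Module F W] [FiniteDimensional F W] {Q' : QuadraticForm F W} {g : orth Q} {g' : orth Q'} {D : Multiset (K × ℕ)}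
  {δ s s' : ℤˣ} {n i : ℕ}

open Classical in
/-- the centraliser has controlled spinor norm -/
def PS (g : orth Q) (δ : ℤˣ) : Prop :=
  ∀ c : orth Q, Commute c g → spinor Q c = if LinearMap.det c.1.toLinearMap = 1 then 1 else δ

theorem ng_comm (c : orth Q) : Commute (H12.negOne Q) c := orth_ext fun _ => (map_neg _ _).symm
theorem PS.ng (h : PS (ng g) δ) : PS g δ := fun c hc => h c ((ng_comm c).symm.mul_right hc)
theorem det_ng (g : orth Q) : LinearMap.det (ng g).1.toLinearMap = (-1) ^ finrank F V * LinearMap.det g.1.toLinearMap := by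
  rw [← LinearMap.det_smul]; congr 1; ext; simp [H12.negOne_apply]

theorem pol_comp (φ : W →ₗ[F] V) (x y : W) : polar (Q.comp φ) x y = polar Q (φ x) (φ y) := by simp [polar]

variable (F) in
/-- a single Jordan block with given invariants -/
def Blk (i : ℕ) (s δ : ℤˣ) : Prop := ∃ Q : QuadraticForm F ((Σ _ : Fin 1, Fin i) → F), QNondeg Q ∧
  InvF (Matrix.toLin' (Cfsg.jordanTypeMatrix (fun _ : Fin 1 => i) F)) (ofQuad Q).B ∧
    qsign ((stdJB F fun _ : Fin 1 => i).gram (ofQuad Q).B i).det = s ∧ spinor Q (H12.negOne Q) = δ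

variable (f2 : (2 : F) ≠ 0)
include f2

theorem PS.fs (h : PS g' δ) (hQ : QNondeg Q) (e : FS g g') : PS g δ := fun c hc => by
  obtain ⟨e, h1, h2⟩ := e
  have k : FS c (CForm.isomCongr e h1 c) := ⟨e, h1, fun x => by simp [CForm.isomCongr_apply]⟩
  rw [(fsim_inv f2 hQ k).2, h _ (orth_ext fun x => by
    obtain ⟨x, rfl⟩ := e.surjective x
    have := h2 (c.1 x)
    simp only [LinearEquiv.coe_coe] at h2 this
    change (CForm.isomCongr e h1 c).1 (g'.1 _) = g'.1 ((CForm.isomCongr e h1 c).1 _)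
    simp only [CForm.isomCongr_apply, ← h2, e.symm_apply_apply]
    exact congrArg (fun k : orth Q => e (k.1 x)) hc), ← LinearMap.det_conj c.1.toLinearMap e]
  rfl

theorem PS.sum (h : PS (sumH Q Q' (g, g')) δ) (hQ : QNondeg Q) (hQ' : QNondeg Q') : PS g δ ∧ PS g' δ := by
  classical
  have k := fun c c' hc => ((sum_inv f2 hQ hQ' c c').2.symm.trans (h (sumH _ _ (c, c')) (Commute.map hc _))).trans
    (if_congr (by rw [show (sumH Q Q' (c, c')).1.toLinearMap = c.1.toLinearMap.prodMap c'.1.toLinearMap from rfl,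
      LinearMap.det_prodMap]) rfl rfl)
  exact ⟨fun c hc => by simpa [LinearMap.det_id] using k c 1 (hc.prod (.one_left _)), fun c hc => by
    simpa [LinearMap.det_id] using k 1 c ((Commute.one_left _).prod hc)⟩

theorem spinor_neg (hQ : QNondeg Q) (hd : finrank F V = n + 1) :
    spinor Q (H12.negOne Q) = qsign ((2 : F) ^ (n + 1)) * dq Q := by
  obtain ⟨b, b1, b2, b3⟩ := exists_orth_basis f2 hQ one_ne_zero hd
  have hb : ∀ i, Q (b i) ≠ 0 := fun i => by
    by_cases h : i = Fin.last _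
    exacts [h ▸ b3, (b2 i h).trans_ne one_ne_zero]
  rw [map_negOne b hb b1 b.span_eq, dq_eq hQ b, det_gram_of_orth b1]
  simp only [ofQuad_N]
  rw [qsign_mul (pow_ne_zero _ f2) (prod_ne_zero_iff.2 fun i _ => hb i), qsign_prod _ _ fun i _ => hb i, Fintype.card_fin,
    ← mul_assoc, Int.units_mul_self, one_mul]
  simp only [spinor_refl hQ (notExc_of_two_ne_zero f2) (hb _)]

theorem Blk.uniq (h : Blk F i s δ) (h' : Blk F i s' δ) (hi : Odd i) : s = s' := by
  obtain ⟨Q, a, b, rfl, c⟩ := h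
  obtain ⟨Q', a', b', rfl, c'⟩ := h'
  obtain ⟨i, rfl⟩ := Nat.exists_eq_add_of_le' hi.pos
  rw [← c', spinor_neg f2 a (n := i) (by simp), spinor_neg f2 a' (n := i) (by simp), mul_right_inj,
    dq_rel (by simp) (stdJB F _) (stdJB F _) a' a b' b (s := i + 2) (by simp), mul_eq_left, prod_eq_single (i + 1)
      (fun j _ h => by
        have : IsEmpty (Bk (fun _ : Fin 1 => i + 1) j) := ⟨fun k => h k.2.symm⟩
        simp) (by simp)] at c
  revert c; generalize qsign (F := F) _ = x; generalize qsign (F := F) _ = y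
  rcases Int.units_eq_one_or x with rfl | rfl <;> rcases Int.units_eq_one_or y with rfl | rfl <;> simp [hi.neg_one_pow]

theorem PS.blk (h : PS g δ) (hQ : QNondeg Q) (hi : Odd i) {v : V} (h1 : ((g.1.toLinearMap - 1) ^ i) v = 0)
    (h2 : polar Q (((g.1.toLinearMap - 1) ^ (i - 1)) v) v ≠ 0) :
    Blk F i (qsign (polar Q (((g.1.toLinearMap - 1) ^ (i - 1)) v) v)) δ := by
  let J := stdJB F fun _ : Fin 1 => i
  let φ := J.lift (g.1.toLinearMap - 1) fun _ => v
  have c : ∀ x, φ (Matrix.toLin' (Cfsg.jordanTypeMatrix (fun _ : Fin 1 => i) F) x) = g.1 (φ x) := by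
    simpa using J.lift_comm (v := fun _ => v) fun _ => h1
  have iv : InvF (Matrix.toLin' (Cfsg.jordanTypeMatrix (fun _ : Fin 1 => i) F)) (ofQuad (Q.comp φ)).B := fun x y => by
    simpa only [ofQuad_B, pol_comp, c] using orth_polar g (φ x) (φ y)
  have : Unique (Bk (fun _ : Fin 1 => i) i) := ⟨⟨⟨0, rfl⟩⟩, fun _ => Subsingleton.elim _ _⟩
  have e : (J.gram (ofQuad (Q.comp φ)).B i).det = polar Q (((g.1.toLinearMap - 1) ^ (i - 1)) v) v := by
    rw [Matrix.det_unique, JB.gram_apply, ← J.lift_pow (v := fun _ => v) (fun _ => h1) 0, Subsingleton.elim (Subtype.val _) 0]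
    simp [pol_comp, φ, J.lift_e (v := fun _ => v) fun _ => h1]
  have nd : QNondeg (Q.comp φ) := nondeg_of_inj (J.inj_of_gram (fun _ => hi.pos) iv (fun _ => rfl) fun j => by
    rcases eq_or_ne j i with rfl | h
    · rwa [e]
    have : IsEmpty (Bk (fun _ : Fin 1 => i) j) := ⟨fun k => h k.2.symm⟩
    simp)
  refine ⟨_, nd, iv, congrArg _ e, ?_⟩
  have inj : Injective φ := (injective_iff_map_eq_zero _).2 fun x hx => nd x fun y => by simp [pol_comp, hx]
  obtain ⟨i, rfl⟩ := Nat.exists_eq_add_of_le' hi.pos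
  obtain ⟨k, k1, k2, k3, k4⟩ := exists_isom_scal hQ (U := LinearMap.range φ) ((nondegOn_iff _).2 (Submodule.disjoint_def.2 (by
    rintro _ ⟨x, rfl⟩ hx
    rw [nd x fun y => by simpa [pol_comp, polar_comm] using hx _ ⟨y, rfl⟩, map_zero]))) g
    (by rintro _ ⟨x, rfl⟩; exact ⟨_, c x⟩) (-1) (by simp [quadType])
  obtain ⟨b, b1, b2, b3⟩ := exists_orth_basis f2 nd one_ne_zero (n := i) (by simp)
  have hb : ∀ i, Q (φ (b i)) ≠ 0 := fun i => by
    by_cases h : i = Fin.last _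
    exacts [h ▸ b3, (b2 i h).trans_ne one_ne_zero]
  have := h k k1
  rw [if_neg (by
    rw [← LinearEquiv.coe_det, k2, LinearMap.finrank_range_of_inj inj]
    simpa [hi.neg_one_pow] using fun e => f2 (by linear_combination -e)), map_negOn f2 _ hb (by simpa [pol_comp] using b1) k
      (fun i => by simpa using k3 _ ⟨_, rfl⟩) fun x hx => k4 x (by
        rintro _ ⟨y, rfl⟩
        exact DFunLike.congr_fun (b.ext (f₁ := ((ofQuad Q).B.flip x).comp φ) (f₂ := 0) hx) y)] at this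
  rw [map_negOne b hb b1 b.span_eq, ← this]
  exact prod_congr rfl fun j _ => (spinor_refl nd (notExc_of_two_ne_zero f2) (hb j)).trans
    (spinor_refl hQ (notExc_of_two_ne_zero f2) (hb j)).symm

theorem PS.uo (h : PS g δ) (hQ : QNondeg Q) {x : Multiset ℕ × Finset ℕ} (hx : UO Q g.1 x) (v : VU x) (hi : Odd i)
    (hm : i ∈ x.1) : x.1.count i = 1 ∧ Blk F i (if i ∈ x.2 then -1 else 1) δ := by
  obtain ⟨J, e⟩ := hx
  have hp := pos_fin v.1
  have k : ∀ y : Bk _ i → F, Matrix.toBilin' (J.gram (ofQuad Q).B i) y y ≠ 0 →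
      Blk F i (qsign (Matrix.toBilin' (J.gram (ofQuad Q).B i) y y)) δ := fun y => by
    rw [show Matrix.toBilin' (J.gram (ofQuad Q).B i) y y = polar Q (((g.1.toLinearMap - 1) ^ (i - 1))
      (∑ k, y k • J.e k)) (∑ k, y k • J.e k) by
        change _ = (ofQuad Q).B _ _
        rw [map_sum (_ ^ _ : End F V), map_sum (ofQuad Q).B, LinearMap.sum_apply, Matrix.toBilin'_apply]
        exact sum_congr rfl fun k _ => by rw [map_sum]; exact sum_congr rfl fun l _ => by simp [JB.gram_apply]; simp [quadType]; ring]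
    exact h.blk f2 hQ hi (by simp [J.nil_Bk])
  have n0 : (J.gram (ofQuad Q).B i).det ≠ 0 := J.det_gram_ne hp (toSQ hQ) g.2.1 i
  have hc : Fintype.card (Bk (exists_fin_map x.1).choose i) = x.1.count i := by
    rw [card_Bk_count, (exists_fin_map x.1).choose_spec]
  have h1 : x.1.count i = 1 := le_antisymm (not_lt.1 fun h => by
    have sy : (J.gram (ofQuad Q).B i).IsSymm := Matrix.IsSymm.ext fun k l => (J.gram_symm hp g.2.1 (ofQuad Q).symm i l k).trans
      (by simp [(Nat.Odd.sub_odd hi odd_one).neg_one_pow, quadType])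
    have nd : QNondeg (Matrix.toBilin' (J.gram (ofQuad Q).B i)).toQuadraticMap := (nondeg_iff_det_gram (Pi.basisFun F _)).2 (by
      rw [show (ofQuad _).gram _ = (2 : F) • J.gram (ofQuad Q).B i by
        ext k l; simp [LinearMap.BilinMap.polar_toQuadraticMap, sy.apply k l, two_mul, -ofQuad_B, ofQuad_B]]
      simp [n0, f2])
    obtain ⟨c, c0, hc'⟩ := exists_nonsquare' f2
    obtain ⟨y, hy⟩ := exists_Q_eq nd (by rwa [finrank_fintype_fun_eq_card, hc]) c0
    obtain ⟨z, hz⟩ := exists_Q_eq nd (by rwa [finrank_fintype_fun_eq_card, hc]) one_ne_zero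
    have := (k y (hy.trans_ne c0)).uniq f2 (k z (hz.trans_ne one_ne_zero)) hi
    exact hc' (qsign_eq_one.1 (hy ▸ this.trans ((congrArg _ hz).trans qsign_one)))) (Multiset.count_pos.2 hm)
  obtain ⟨_⟩ := Fintype.card_eq_one_iff_nonempty_unique.1 (hc.trans h1)
  rw [Matrix.det_unique] at n0
  simpa [h1, ← e i hi, Matrix.toBilin'_apply] using k 1 (by simpa [Matrix.toBilin'_apply])

omit f2 in
theorem tb_map (q : ℤ) (m k j : ℕ) (a : K) : (tb q m a k).map (pm (· ^ j)) = tb q m (a ^ j) k := by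
  have := orb_map (φ := pm (K := K) (· ^ q)) (ψ := pm (· ^ q)) (pm (· ^ j)) (fun x => Prod.ext (zpow_comm' ..) rfl) m
  rw [tb, Multiset.map_add, this, this]; simp [tb]
omit f2 in
theorem rq_pow (h : Rq F D δ s) (h1 : ∀ x ∈ D, x.2 = 1) {j : ℕ} (hj : 0 < j) : Rq F (D.map (pm (· ^ j))) δ (s ^ j) :=
  let ⟨m, Q, g, a, b, c, d⟩ := h; ⟨m, Q, g ^ j, a, coe_pow' g.1 j ▸ b.pow_ss h1 hj, c, d ▸ map_pow _ _ _⟩
theorem rq_smul (h : Rq F D δ s) (m : ℕ) : ∃ δ, Rq F ((m + 1) • D) δ (s ^ (m + 1)) := by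
  induction m with
  | zero => exact ⟨δ, by simpa⟩
  | succ m ih => exact ⟨_, by rw [succ_nsmul, pow_succ]; exact ih.choose_spec.add f2 h⟩

omit f2
variable {p c : ℕ} [Fact p.Prime] [CharP F p] [CharP K p] (hc : Nat.card F = 2 * c + 1)
include hc p

theorem plane_gen (oc : Odd c) {t : K} (t2 : t ^ 2 ≠ 1) (t1 : t ^ (((Nat.card F : ℕ) : ℤ) ^ 1 - -1) = 1)
    (ht : ∀ a : K, a ^ (((Nat.card F : ℕ) : ℤ) ^ 1 - -1) = 1 → ∃ i, 0 < i ∧ t ^ i = a) :
    ¬ Rq F (tb (Nat.card F : ℕ) 1 t 1) δ 1 := fun r => by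
  obtain ⟨f2, k2, p2⟩ := facts (K := K) (p := p) hc
  have k2' : (-1 : K) ≠ 1 := fun e => k2 (by linear_combination -e)
  have hQ := qp_nat (F := F) (p := p)
  obtain ⟨E, r', d1, d2⟩ := rq_plane (K := K) f2 p2 1 (-1)
  by_cases h : ∀ x ∈ E, x.1 ^ 2 = 1
  · obtain ⟨A, Z, _, _, _, s, rfl, r1, r2, e1, e2, a, z⟩ := r'.split f2 (c := 1) (by simp)
    rw [map_one] at a z
    have z' : ∀ x ∈ Z, x.1 = -1 := fun x hx => (sq_eq_one_iff.1 (h x (by simp [hx]))).resolve_left (z x hx)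
    rw [r1.unip p2 a, one_mul] at e2
    rw [detD_add, detD_const a, detD_const z', one_pow, one_mul, neg_one_pow_eq_one_iff_even k2'] at d2
    rw [dimD_add] at d1
    obtain ⟨_ | _ | l, hl⟩ := d2
    · obtain rfl := r2.rl.pre.eq_zero hl
      exact absurd (e2.trans (r2.unip p2 (by simp))) (by decide)
    · obtain rfl := r1.rl.pre.eq_zero (by omega)
      rw [zero_add] at r'
      exact absurd ((r'.neg f2 (m := 0) hl).unip p2 (Multiset.forall_mem_map_iff.2 fun x h => by simp [z' x h])) (by decide)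
    omega
  push Not at h
  obtain ⟨⟨b, k⟩, hx, h⟩ := h
  obtain ⟨m, ε, D', m0, hε, h4, rfl, sy⟩ := r'.rl.sy'.peel hQ hx h
  have k0 : 0 < k := r'.rl.pre.pos _ hx
  simp only [dimD_add, dimD_tb] at d1 h h4
  obtain rfl : m = 1 := by nlinarith
  obtain rfl : k = 1 := by omega
  obtain rfl := sy.toPre.eq_zero (by omega)
  rw [add_zero] at r' hx
  have := r'.disc f2 hc (tb_sq hQ h)
  rw [chi_tb hc (r'.rl.pre.ne _ hx) h hε h4, one_mul, oc.neg_one_pow] at this
  obtain rfl : ε = -1 := hε.resolve_left (by rintro rfl; simp [k2'] at this)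
  obtain ⟨i, i0, rfl⟩ := ht b h4
  exact absurd ((tb_map _ 1 1 i t ▸ rq_pow r (fun x hx => (mem_tb hx).1) i0).uniq f2 r' (tb_sq hQ h)) (by simp)

theorem PS.reg (h : PS g δ) (hQ : QNondeg Q) (j : JD (g.1 : End F V) D) (h1 : ∀ x ∈ D, x.1 ^ 2 ≠ 1) :
    ∀ x ∈ D, x.2 ≠ 1 := by
  rintro ⟨a, _⟩ hx rfl
  obtain ⟨f2, k2, p2⟩ := facts (K := K) (p := p) hc
  have hq := qp_nat (F := F) (p := p)
  obtain ⟨m, ε, D', m0, hε, h4, rfl, sy⟩ := (Rl.of hQ g.2 j).sy'.peel hq hx (h1 _ hx)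
  have pr : ∀ {m ε}, 0 < m → ε = 1 ∨ ε = -1 → ∃ t : K, t ≠ 0 ∧ (∀ l : ℤ, t ^ l = 1 ↔ ((Nat.card F : ℕ) : ℤ) ^ m - ε ∣ l) ∧
      ∀ a : K, a ^ (((Nat.card F : ℕ) : ℤ) ^ m - ε) = 1 → ∃ i, 0 < i ∧ t ^ i = a := fun {m ε} m0 hε => by
    have n := hq.not_dvd' m0 hε dvd_rfl
    obtain ⟨t, t0, h1, h2⟩ := exists_primz (K := K) n
    refine ⟨t, t0, h1, fun a ha => (h2 a ha).elim fun i e => ⟨i + (((Nat.card F : ℕ) : ℤ) ^ m - ε).natAbs,
      add_pos_of_nonneg_of_pos i.zero_le (Nat.pos_of_ne_zero fun e => n (e ▸ dvd_zero p)), ?_⟩⟩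
    rw [pow_add, e, ← zpow_natCast, (h1 _).2 (Int.dvd_natAbs.2 dvd_rfl), mul_one]
  obtain ⟨t, t0, t1, ht⟩ := pr m0 hε
  obtain ⟨i, i0, rfl⟩ := ht a h4
  have t2 : t ^ 2 ≠ 1 := fun e => h1 _ hx (by rw [← pow_mul, mul_comm, pow_mul, e, one_pow])
  have t3 := (t1 _).2 dvd_rfl
  obtain ⟨_, _, r⟩ := ((sy_tb t0 hε t3 one_pos).quad (tb_sq hq t2)).rq f2
  obtain ⟨_, _, _, Q', g', n', j', -⟩ := (sy.quad fun x hx => h1 x (by simp [hx])).rq f2
  obtain ⟨_, Q₁, u, n1, j1, rfl, rfl⟩ := id r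
  have ss : ∀ x ∈ tb (Nat.card F : ℕ) m t 1, x.2 = 1 := fun x hx => (mem_tb hx).1
  have P := ((h.fs f2 (prod_nd n1 n') (reg_fs (g := sumH _ _ (u ^ i, g')) (prod_nd n1 n') hQ
    ((tb_map _ m 1 i t ▸ coe_pow' u.1 i ▸ j1.pow_ss ss i0).prod j') j h1)).sum f2 n1 n').1
  have s1 : spinor Q₁ u = 1 := (P u (.self_pow _ _)).trans (if_pos ((algebraMap F K).injective (by
    rw [j1.det, detD_tb t0, map_one])))
  obtain ⟨m, rfl⟩ := Nat.exists_eq_add_of_le' m0
  have c0 : 0 < c := by have := Finite.one_lt_card (α := F); omega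
  rcases hε with rfl | rfl
  · have := (t1 _).1 ((r.levi (p := p) f2 hc t2 t3 m0).trans (by simp [s1]))
    have h0 : 0 < gs (Nat.card F : ℕ) (m + 1) * c := by simp [gs, Finset.sum_range_succ']; positivity
    rw [show ((Nat.card F : ℕ) : ℤ) ^ (m + 1) - 1 = gs (Nat.card F : ℕ) (m + 1) * c * 2 by
      rw [← gs_mul, hc]; push_cast; ring] at this
    have := Int.le_of_dvd h0 this; omega
  have d : finrank F (Fin _ → F) = 2 * m + 1 + 1 := j1.dim.trans (by simp; ring)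
  have s2 := (P _ (ng_comm _)).trans (if_pos (by simpa [d, pow_succ] using det_ng (1 : orth Q₁)))
  rw [spinor_neg f2 n1 d, show (2 : F) ^ (2 * m + 1 + 1) = 2 ^ (m + 1) * 2 ^ (m + 1) by ring, qsign_mul_self, one_mul] at s2
  have := r.disc f2 hc (tb_sq hq t2)
  rw [chi_tb hc t0 t2 (.inr rfl) t3, s2] at this
  obtain ⟨o1, o2⟩ := Nat.odd_mul.1 (Nat.not_even_iff_odd.1 fun e : Even ((m + 1) * c) => k2 (by
    simp [e.neg_one_pow] at this; linear_combination -this))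
  obtain ⟨s, s0, s3, hs⟩ := pr one_pos (.inr rfl)
  have s4 := (s3 _).2 dvd_rfl
  have s5 : s ^ 2 ≠ 1 := fun e => absurd (Int.le_of_dvd two_pos ((s3 2).1 (by rwa [zpow_ofNat]))) (by rw [hc, pow_one]; omega)
  obtain ⟨e, e0, he⟩ := ht s (zpow_of_dvd s4 (by simpa using o1.add_dvd_pow_add_pow (Nat.card F : ℤ) 1))
  obtain ⟨_, σ, r1⟩ := ((sy_tb s0 (.inr rfl) s4 one_pos).quad (tb_sq hq s5)).rq f2
  obtain ⟨_, r2⟩ := rq_smul f2 r1 m
  have e1 : s ^ ((Nat.card F : ℕ) : ℤ) ^ 1 = s⁻¹ := by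
    rw [sub_neg_eq_add, zpow_add_one₀ s0] at s4; exact eq_inv_of_mul_eq_one_left s4
  have e2 : tb (Nat.card F : ℕ) (m + 1) s 1 = (m + 1) • tb (Nat.card F : ℕ) 1 s 1 := by
    have : s ^ ((Nat.card F : ℕ) : ℤ) ^ 2 = s := by rw [pow_one] at e1; rw [pow_two, zpow_mul, e1, inv_zpow, e1, inv_inv]
    rw [tb_eq e1, tb_eq, orb_mul (by rw [pm_iter, zp_iter, this])]
    obtain ⟨l, hl⟩ := o1
    rw [hl, pow_add, pow_mul, zpow_mul, fix_pow this, e1]
  have := (e2 ▸ he ▸ tb_map _ _ 1 e t ▸ rq_pow r ss e0).uniq f2 r2 (e2 ▸ tb_sq hq s5)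
  rw [s1, one_pow, Int.units_pow_eq_pow_mod_two, Nat.odd_iff.1 o1, pow_one] at this
  exact plane_gen (p := p) hc o2 s5 s4 hs (this ▸ r1)

omit hc p
variable (hQ : QNondeg Q) (hd : finrank F V = 2 * n + 1)
include f2 hQ hd
local notation "𝕂" => AlgebraicClosure F

theorem dick_ng (g : orth Q) : dickson Q (ng g) = -dickson Q g := by
  rw [map_mul, Int.units_ne_iff_eq_neg.1 (mt (dickson_eq_one_iff hQ f2 (H12.negOne Q)).1 fun e => f2 (by
    have := det_ng (1 : orth Q)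
    simp [e, hd, pow_succ, LinearMap.det_id] at this; linear_combination this)), neg_one_mul]

theorem so_conj {g g' : (dickson Q).ker} {ε ε' : Bool}
    (h : IsConj (if ε then ng g.1 else g.1) (if ε' then ng g'.1 else g'.1)) : ε = ε' ∧ IsConj g g' := by
  have k : ∀ {g g' : (dickson Q).ker}, IsConj g.1 g'.1 → IsConj g g' := fun h => by
    obtain ⟨c, hc⟩ := isConj_iff.1 h
    rcases Int.units_eq_one_or (dickson Q c) with e | e
    · exact isConj_iff.2 ⟨⟨c, e⟩, Subtype.ext hc⟩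
    · exact isConj_iff.2 ⟨⟨ng c, by simp [dick_ng f2 hQ hd, e]⟩, Subtype.ext (by
        change ng c * _ * (ng c)⁻¹ = _
        rw [mul_inv_rev, mul_assoc (H12.negOne Q), mul_assoc (H12.negOne Q), ← mul_assoc (c * _), hc, ← mul_assoc,
          (ng_comm _).eq, mul_inv_cancel_right])⟩
  have := isConj_iff_eq.1 ((dickson Q).map_isConj h)
  cases ε <;> cases ε' <;> simp [dick_ng f2 hQ hd, MonoidHom.mem_ker.1 g.2, MonoidHom.mem_ker.1 g'.2, -map_mul] at this
  · exact ⟨rfl, k h⟩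
  · obtain ⟨c, hc⟩ := isConj_iff.1 h
    exact ⟨rfl, k (isConj_iff.2 ⟨c, mul_left_cancel (a := H12.negOne Q) (.trans (by
      simp [← mul_assoc, (ng_comm c).eq]) hc)⟩)⟩

theorem so_low : Nat.card F ^ n ≤ Nat.card (ConjClasses (dickson Q).ker) := by
  have : Finite V := Module.finite_of_finite F
  choose g hg using fun f : {f : Polynomial F // PP n f} => (ss_rq f2 (f.2.sy (K := 𝕂)).1 (fun x hx => (mem_ssd.1 hx).2)
    (.inl rfl) (dq Q)).elim fun _ r => rq_in f2 hQ r (by simp [f.2.sy.2.1, hd, add_comm])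
  rw [← card_pp]
  exact Nat.card_le_card_of_injective (fun f => .mk ⟨g f, (dickson_eq_one_iff hQ f2 _).2 ((algebraMap F 𝕂).injective (by
    simp [(hg f).det, f.2.sy.2.2]))⟩) fun f f' e => Subtype.ext (eq_of_ssd (add_left_cancel (((hg f).of_sim (sim_of_isConj
      ((Subgroup.subtype _).map_isConj (ConjClasses.mk_eq_mk_iff_isConj.1 e)))).unique (hg f')))
      (f.2.1.1.trans f'.2.1.1.symm))

theorem so_up : 4 * (Nat.card (ConjClasses (dickson Q).ker) : ℝ) ≤ 28.5 * Nat.card F ^ n := by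
  obtain ⟨c, c0, hc⟩ := exists_nonsquare' f2
  have a0 : ∀ η : Bool, (if η then c else 1) ≠ 0 := fun η => by cases η <;> simp [c0]
  choose z h1 h2 using fun x : ConjClasses (dickson Q).ker × Bool × Bool => exists_dt (K := 𝕂) f2
    (qNondeg_smul hQ (a0 x.2.2)) ⟨_, (orth_smul (a0 _)).ge (if x.2.1 then ng x.1.out.1 else x.1.out.1).2⟩
  rw [hd] at h2
  have := (card_vl (K := 𝕂) (L := Icc 1 (2 * n + 13)) (A := Od (2 * n + 13)) (B := Od (2 * n + 13)) f2 (by simp)
    (2 * n + 1)).1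
  refine le_trans ?_ (vl_le (K := 𝕂) f2 (M := 2 * n + 13) (by omega) n).2.2.1
  refine mod_cast le_of_eq_of_le (by simp [mul_comm]) (Nat.card_le_card_of_injective (fun x => ⟨z x, (h2 x).vl (by omega)⟩)
    fun ⟨x, ε, η⟩ ⟨y, ε', η'⟩ e => ?_)
  have k := (h1 _).fs f2 ((Subtype.mk.inj e).symm ▸ h1 _) (h2 _)
  obtain rfl : η = η' := by
    have := (fsim_inv f2 (qNondeg_smul hQ (a0 _)) k).1
    have n0 := (nondeg_iff_det_gram (finBasis F V)).1 hQ
    simp only [dq, gram_smul, Matrix.det_smul, qsign_mul (pow_ne_zero _ (a0 _)) n0, qsign_pow (a0 _), Fintype.card_fin,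
      hd, mul_left_inj] at this
    cases η <;> cases η' <;> simp [qsign_eq_neg_one.2 hc, pow_succ] at this ⊢
  obtain ⟨e, k1, k2⟩ := k
  obtain ⟨rfl, h⟩ := so_conj f2 hQ hd (isConj_iff.2 ⟨⟨e, (orth_smul (a0 _)).le k1⟩, mul_inv_eq_iff_eq_mul.2 (orth_ext k2)⟩)
  exact Prod.ext (Quotient.out_equiv_out.1 h) rfl

theorem so_split : 2 * (Nat.card {c : ConjClasses (dickson Q).ker // ∀ x, Commute x c.out →
    ((spinor Q).comp (Subgroup.subtype _)) x = 1} : ℝ) ≤ 3.8 * Nat.card F ^ n := by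
  have := Fintype.ofFinite F
  obtain ⟨c, hc⟩ := odd_card_iff.2 f2
  rw [← Nat.card_eq_fintype_card] at hc
  have := Fact.mk (CharP.char_is_prime F (ringChar F))
  have k : ∀ x : {c : ConjClasses (dickson Q).ker // ∀ x, Commute x c.out → ((spinor Q).comp (Subgroup.subtype _)) x = 1} ×
      Bool, ∃ z : Z 𝕂, Dt (if x.2 then ng x.1.1.out.1 else x.1.1.out.1) z ∧ VZ F (2 * n + 1) z ∧ (∀ y ∈ z.1, y.2 ≠ 1) ∧
      ∀ y ∈ [z.2.1, z.2.2], ∀ i ∈ y.1, Odd i → y.1.count i = 1 ∧ Blk F i (if i ∈ y.2 then -1 else 1)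
        (spinor Q (H12.negOne Q)) := fun x => by
    have P : PS x.1.1.out.1 (spinor Q (H12.negOne Q)) := fun c hc => by
      split_ifs with h
      · exact x.1.2 ⟨c, (dickson_eq_one_iff hQ f2 _).2 h⟩ (Subtype.ext hc)
      have := x.1.2 ⟨ng c, by simp [dick_ng f2 hQ hd, Int.units_ne_iff_eq_neg.1 (mt (dickson_eq_one_iff hQ f2 _).1 h),
        -map_mul]⟩ (Subtype.ext ((ng_comm _).mul_left hc))
      exact (eq_inv_of_mul_eq_one_right ((map_mul (spinor Q) _ c).symm.trans this)).trans (Int.units_inv_eq_self _)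
    obtain ⟨z, ⟨A, B, C, a, b, c', d⟩, v⟩ := exists_dt (K := 𝕂) f2 hQ (if x.2 then ng x.1.1.out.1 else x.1.1.out.1)
    have P1 := (PS.fs f2 (by split_ifs; exacts [.ng (by rwa [ng_ng]), P]) (prod_nd B.nd (prod_nd C.nd A.nd)) d).sum f2 B.nd
      (prod_nd C.nd A.nd)
    have P2 := P1.2.ng.sum f2 C.nd A.nd
    exact ⟨z, ⟨A, B, C, a, b, c', d⟩, hd ▸ v, P2.2.reg (p := ringChar F) hc A.nd a v.1.2, List.forall_mem_cons.2
      ⟨fun i h e => P1.1.uo f2 B.nd b v.2.1 e h, List.forall_mem_singleton.2 fun i h e => P2.1.uo f2 C.nd c' v.2.2.1 e h⟩⟩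
  choose z h1 h2 h3 h4 using k
  have := (card_vl (K := 𝕂) (L := Icc 2 (2 * n + 13)) (A := Od (2 * n + 13)) (B := ∅) f2 (by simp) (2 * n + 1)).1
  refine le_trans ?_ (vl_le (K := 𝕂) f2 (M := 2 * n + 13) (by omega) n).2.2.2
  have v := fun x => (h2 x).vl (M := 2 * n + 13) (by omega)
  have w : ∀ x, ∀ y ∈ [(z x).2.1, (z x).2.2], VU y := fun x => List.forall_mem_cons.2 ⟨(h2 x).2.1,
    List.forall_mem_singleton.2 (h2 x).2.2.1⟩
  have u : ∀ x, ∀ y ∈ [(z x).2.1, (z x).2.2], (∅ : Finset ℕ) ⊆ ∅ ∧ (∀ k ∈ y.1, Odd k → k ∈ Od (2 * n + 13)) ∧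
      ∀ k, 2 ≤ y.1.count k → k ∈ Icc 2 (2 * n + 13) := fun x y hy => ⟨Subset.rfl, ((v x).2.2 y hy).2.1, fun k hk => by
    have := mem_Icc.1 (((v x).2.2 y hy).2.2 k hk)
    have := mt (fun e : k = 1 => (h4 x y hy k (Multiset.count_pos.1 (by omega)) (e ▸ odd_one)).1) (by omega)
    rw [mem_Icc]; omega⟩
  have t : ∀ x x', ∀ y ∈ [(z x).2.1, (z x).2.2], ∀ y' ∈ [(z x').2.1, (z x').2.2], y.1 = y'.1 → y.2 ⊆ y'.2 :=
    fun x x' y hy y' hy' e i hi => by
      have a := (w x y hy).2.2 i hi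
      have := (h4 x y hy i a.2 a.1).2.uniq f2 (h4 x' y' hy' i (e ▸ a.2) a.1).2 a.1
      by_contra h; simp [hi, h] at this
  refine mod_cast le_of_eq_of_le (by simp [mul_comm]) (Nat.card_le_card_of_injective (fun x => ⟨((z x).1, ((z x).2.1.1, ∅),
    ((z x).2.2.1, ∅)), ⟨(h2 x).1, ⟨(h2 x).2.1.1, (h2 x).2.1.2.1, by simp⟩, ⟨(h2 x).2.2.1.1, (h2 x).2.2.1.2.1, by simp⟩,
    (h2 x).2.2.2⟩, fun y hy => by have := mem_Icc.1 ((v x).2.1 y hy); have := h3 x y hy; rw [mem_Icc]; omega,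
    List.forall_mem_cons.2 ⟨u x (z x).2.1 (by simp), List.forall_mem_singleton.2 (u x (z x).2.2 (by simp))⟩⟩) fun x y e => ?_)
  replace e := congrArg Subtype.val e
  simp only [Prod.mk.injEq, and_true] at e
  have : z x = z y := Prod.ext e.1 (Prod.ext (Prod.ext e.2.1 ((t x y _ (by simp) _ (by simp) e.2.1).antisymm
    (t y x _ (by simp) _ (by simp) e.2.1.symm))) (Prod.ext e.2.2 ((t x y _ (by simp) _ (by simp) e.2.2).antisymm
    (t y x _ (by simp) _ (by simp) e.2.2.symm))))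
  obtain ⟨a, h⟩ := so_conj f2 hQ hd (isConj_of_fsim ((h1 x).fs f2 (this ▸ h1 y) (h2 x)))
  exact Prod.ext (Subtype.ext (Quotient.out_equiv_out.1 h)) a

theorem om_bound (hn : 0 < n) : Nat.card F ^ n ≤ 2 * Nat.card (ConjClasses (commutator (orth Q))) ∧
    10 * Nat.card (ConjClasses (commutator (orth Q))) ≤ 73 * Nat.card F ^ n := by
  have : Finite V := Module.finite_of_finite F
  obtain ⟨a, b⟩ := idx2 ((spinor Q).comp (dickson Q).ker.subtype) fun s =>
    let ⟨g, h⟩ := dickson_spinor_surjective hQ f2 (by omega) (1, s); ⟨⟨g, congrArg Prod.fst h⟩, congrArg Prod.snd h⟩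
  rw [card_cc ((Subgroup.equivMapOfInjective _ _ (Subgroup.subtype_injective _)).trans (MulEquiv.subgroupCongr
    (K := commutator (orth Q)) (by ext; simp [mem_commutator_iff hQ (notExc_of_two_ne_zero f2), and_comm])))] at a b
  refine ⟨(so_low f2 hQ hd).trans a, ?_⟩
  have := so_up f2 hQ hd
  have := so_split f2 hQ hd
  have : (0 : ℝ) ≤ Nat.card F ^ n := by positivity
  rw [← Nat.cast_le (α := ℝ)] at b ⊢
  push_cast at *; linarith

end H27.CN
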