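import Mathlib
import Cfsg.Agent.H12.DirPow

/-! Composition length via subnormal chains. -/

set_option autoImplicit false

namespace H27.Comp

open Subgroup ArithmeticFunction
open scoped ArithmeticFunction.Omega

variable {G G' : Type*} [Group G] [Group G']

/-- Subnormal chains of given length. -/
inductive Ch (A : Subgroup G) : Subgroup G → ℕ → Prop
  | refl : Ch A A 0
  | step {B C : Subgroup G} {l : ℕ} : Ch A B l → B < C → (B.subgroupOf C).Normal → Ch A C (l + 1)

theorem Ch.trans {A B C : Subgroup G} {l m : ℕ} (h : Ch A B l) (h' : Ch B C m) : Ch A C (l + m) := by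
  induction h' with
  | refl => exact h
  | step _ a b ih => exact ih.step a b

theorem nrm {B C : Subgroup G} (h : B ≤ C) :
    (B.subgroupOf C).Normal ↔ ∀ c ∈ C, ∀ b ∈ B, c * b * c⁻¹ ∈ B :=
  ⟨fun H c hc b hb => H.conj_mem ⟨b, h hb⟩ hb ⟨c, hc⟩, fun H => ⟨fun b hb c => H c c.2 b hb⟩⟩

theorem Ch.step' {A B C : Subgroup G} {l : ℕ} (h : Ch A B l) (h1 : B ≤ C)
    (h2 : ∀ c ∈ C, ∀ b ∈ B, c * b * c⁻¹ ∈ B) : ∃ m, Ch A C m ∧ l ≤ m ∧ (B ≠ C → l < m) := by
  rcases h1.eq_or_lt with rfl | h3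
  · exact ⟨l, h, le_rfl, fun e => absurd rfl e⟩
  · exact ⟨l + 1, h.step h3 ((nrm h1).2 h2), by omega, fun _ => by omega⟩

theorem Ch.split (f : G →* G') {B : Subgroup G} {l : ℕ} (h : Ch ⊥ B l) :
    ∃ a b, l ≤ a + b ∧ Ch ⊥ (B ⊓ f.ker) a ∧ Ch ⊥ (B.map f) b := by
  induction h with
  | refl => exact ⟨0, 0, le_rfl, by simpa using Ch.refl, by simpa using Ch.refl⟩
  | @step B C l _ h1 h2 ih =>
    obtain ⟨a, b, e, ha, hb⟩ := ih
    rw [nrm h1.le] at h2
    obtain ⟨a', a1, a2, a3⟩ := ha.step' (C := C ⊓ f.ker) (inf_le_inf_right _ h1.le)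
      fun c hc x hx => ⟨h2 c hc.1 x hx.1, f.normal_ker.conj_mem x hx.2 c⟩
    obtain ⟨b', b1, b2, b3⟩ := hb.step' (C := C.map f) (map_mono h1.le) (by
      rintro _ ⟨c, hc, rfl⟩ _ ⟨x, hx, rfl⟩
      exact ⟨_, h2 c hc x hx, by simp⟩)
    refine ⟨a', b', ?_, a1, b1⟩
    by_cases e1 : B ⊓ f.ker = C ⊓ f.ker
    · by_cases e2 : B.map f = C.map f
      · refine absurd (fun c hc => ?_) h1.not_ge
        obtain ⟨x, hx, e3⟩ := e2.ge ⟨c, hc, rfl⟩
        have : x⁻¹ * c ∈ B ⊓ f.ker := e1.ge ⟨C.mul_mem (C.inv_mem (h1.le hx)) hc, by simp [e3]⟩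
        simpa using B.mul_mem hx this.1
      · have := b3 e2; omega
    · have := a3 e1; omega

theorem Ch.pull (f : G →* G') (K : Subgroup G) {A B : Subgroup G'} {l : ℕ} (h : Ch A B l)
    (hB : B ≤ K.map f) : Ch (K ⊓ A.comap f) (K ⊓ B.comap f) l := by
  induction h with
  | refl => exact Ch.refl
  | @step B C l _ h1 h2 ih =>
    have h3 : K ⊓ B.comap f ≤ K ⊓ C.comap f := inf_le_inf_left _ (comap_mono h1.le)
    rw [nrm h1.le] at h2
    refine (ih (h1.le.trans hB)).step (h3.lt_of_ne fun e => h1.not_ge fun c hc => ?_)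
      ((nrm h3).2 fun c hc x hx => ⟨K.mul_mem (K.mul_mem hc.1 hx.1) (K.inv_mem hc.1), by
        simpa using h2 _ hc.2 _ hx.2⟩)
    obtain ⟨x, hx, rfl⟩ := hB hc
    exact (e.ge ⟨hx, hc⟩).2

theorem omega_pos {n : ℕ} (h0 : n ≠ 0) (h1 : n ≠ 1) : 1 ≤ Ω n :=
  Nat.one_le_iff_ne_zero.2 fun h => by
    rw [cardFactors_apply, List.length_eq_zero_iff, Nat.primeFactorsList_eq_nil] at h
    omega

theorem Ch.le_omega [Finite G] {B : Subgroup G} {l : ℕ} (h : Ch ⊥ B l) : l ≤ Ω (Nat.card B) := by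
  induction h with
  | refl => exact Nat.zero_le _
  | @step B C l _ h1 h2 ih =>
    have e := card_mul_index (B.subgroupOf C)
    rw [Nat.card_congr (subgroupOfEquivOfLe h1.le).toEquiv] at e
    rw [← e, cardFactors_mul Nat.card_pos.ne' index_ne_zero_of_finite]
    have := omega_pos (index_ne_zero_of_finite (H := B.subgroupOf C)) fun e =>
      h1.not_ge (subgroupOf_eq_top.1 (index_eq_one.1 e))
    omega

/-- Composition length of a subgroup. -/
noncomputable def cl (K : Subgroup G) : ℕ := sSup {l | Ch ⊥ K l}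

variable [Finite G]

theorem Ch.le_cl {K : Subgroup G} {l : ℕ} (h : Ch ⊥ K l) : l ≤ cl K :=
  le_csSup ⟨_, fun _ h => Ch.le_omega h⟩ h

theorem ch_cl (K : Subgroup G) : Ch ⊥ K (cl K) := by
  obtain ⟨m, h, -⟩ := (Ch.refl (A := (⊥ : Subgroup G))).step' (C := K) bot_le (by simp)
  exact Nat.sSup_mem (s := {l | Ch ⊥ K l}) ⟨m, h⟩ ⟨_, fun _ h => Ch.le_omega h⟩

theorem cl_le_omega (K : Subgroup G) : cl K ≤ Ω (Nat.card K) := (ch_cl K).le_omega

theorem cl_bot : cl (⊥ : Subgroup G) = 0 := by simpa using cl_le_omega (⊥ : Subgroup G)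

theorem cl_lt {B C : Subgroup G} (h : B < C) (h2 : ∀ c ∈ C, ∀ b ∈ B, c * b * c⁻¹ ∈ B) :
    cl B < cl C := ((ch_cl B).step h ((nrm h.le).2 h2)).le_cl

theorem cl_add [Finite G'] (f : G →* G') (K : Subgroup G) :
    cl K = cl (K ⊓ f.ker) + cl (K.map f) := by
  refine le_antisymm ?_ ?_
  · obtain ⟨a, b, e, ha, hb⟩ := (ch_cl K).split f
    exact e.trans (add_le_add ha.le_cl hb.le_cl)
  · have := (ch_cl (K.map f)).pull f K le_rfl
    rw [inf_eq_left.2 (le_comap_map f K)] at this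
    exact ((ch_cl _).trans this).le_cl

theorem cl_map [Finite G'] {f : G →* G'} (hf : Function.Injective f) (K : Subgroup G) :
    cl (K.map f) = cl K := by
  rw [cl_add f K, (MonoidHom.ker_eq_bot_iff f).2 hf, inf_bot_eq, cl_bot, zero_add]

theorem cl_top (K : Subgroup G) : cl (⊤ : Subgroup K) = cl K := by
  rw [← cl_map K.subtype_injective, ← MonoidHom.range_eq_map, range_subtype]

theorem cl_simple [IsSimpleGroup G] (K : Subgroup G) [hK : K.Normal] : cl K ≤ 1 := by
  rcases hK.eq_bot_or_eq_top with rfl | rfl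
  · simp [cl_bot]
  suffices ∀ (C : Subgroup G) l, Ch ⊥ C l → C = ⊤ → l ≤ 1 from this _ _ (ch_cl _) rfl
  intro C l h e
  cases h with
  | refl => simp
  | @step B _ l h1 h2 h3 =>
    subst e
    have : B.Normal := ⟨fun b hb c => (nrm h2.le).1 h3 c trivial b hb⟩
    obtain rfl := this.eq_bot_or_eq_top.resolve_right h2.ne
    have := h1.le_cl
    rw [cl_bot] at this
    omega

theorem omega_le_log {n : ℕ} (h : n ≠ 0) : Ω n ≤ Nat.log 2 n := by
  refine Nat.le_log_of_pow_le (by norm_num) ?_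
  conv_rhs => rw [← Nat.prod_primeFactorsList h]
  exact List.pow_card_le_prod _ _ fun p hp => (Nat.prime_of_mem_primeFactorsList hp).two_le

theorem omega_aut (H : Subgroup G) (K : Subgroup (MulAut G)) (h : ∀ a ∈ K, ∀ x ∈ H, a x = x) :
    Ω (Nat.card K) ≤ Ω H.index * Nat.log 2 (Nat.card G - 1) := by
  induction' e : H.index using Nat.strong_induction_on with m ih generalizing H K
  subst e
  by_cases hH : H = ⊤
  · have : K = ⊥ := eq_bot_iff.2 fun a ha => MulEquiv.ext fun x => h a ha x (hH ▸ trivial)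
    simp [this]
  obtain ⟨x, -, hx⟩ := SetLike.exists_of_lt (lt_top_iff_ne_top.2 hH)
  have h1 : H ≤ H ⊔ zpowers x := le_sup_left
  have h2 := relIndex_mul_index h1
  have h3 : H.relIndex (H ⊔ zpowers x) ≠ 1 := fun e =>
    hx (relIndex_eq_one.1 e (mem_sup_right (mem_zpowers x)))
  have h4 : H.relIndex (H ⊔ zpowers x) ≠ 0 := index_ne_zero_of_finite
  have h5 : (H ⊔ zpowers x).index ≠ 0 := index_ne_zero_of_finite
  have h6 := ih _ (by rw [← h2]; nlinarith [Nat.pos_of_ne_zero h5, (by omega : 2 ≤ H.relIndex (H ⊔ zpowers x))])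
    (H ⊔ zpowers x) ((MulAction.stabilizer K x).map K.subtype) (by
      rintro _ ⟨a, ha, rfl⟩
      exact fun y hy => (sup_le (fun z hz => h a a.2 z hz) (zpowers_le.2 ha) :
        H ⊔ zpowers x ≤ (a : MulAut G).toMonoidHom.eqLocus (MonoidHom.id G)) hy) rfl
  rw [card_map_of_injective K.subtype_injective] at h6
  have h7 : (MulAction.stabilizer K x).index ≤ Nat.card G - 1 := by
    rw [MulAction.index_stabilizer, ← Set.ncard_univ, ← Set.ncard_diff_singleton_of_mem (Set.mem_univ 1)]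
    refine Set.ncard_le_ncard ?_
    rintro _ ⟨a, rfl⟩
    exact ⟨trivial, fun e => hx (((a : MulAut G).map_eq_one_iff.1 e).symm ▸ H.one_mem)⟩
  have h8 := (omega_le_log index_ne_zero_of_finite).trans (Nat.log_mono_right h7)
  rw [← card_mul_index (MulAction.stabilizer K x), cardFactors_mul Nat.card_pos.ne'
    index_ne_zero_of_finite, ← h2, cardFactors_mul h4 h5]
  nlinarith [omega_pos h4 h3]

theorem arith {n : ℕ} (hn : 2 ≤ n) : 3 * (Ω n + Ω n * Nat.log 2 (n - 1)) + 4 ≤ 4 * n := by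
  have h1 := omega_le_log (n := n) (by omega)
  by_cases h5 : n = 5
  · rw [h5, cardFactors_apply_prime (by norm_num)]; decide
  by_cases h9 : n = 9
  · rw [h9, show 9 = 3 ^ 2 by rfl, cardFactors_apply_prime_pow (by norm_num)]; decide
  refine le_trans (by gcongr : _ ≤ 3 * (Nat.log 2 n + Nat.log 2 n * Nat.log 2 (n - 1)) + 4) ?_
  by_cases h : n < 32
  · interval_cases n <;> first | decide | contradiction
  have h2 : Nat.log 2 (n - 1) ≤ Nat.log 2 n := Nat.log_mono_right (by omega)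
  have h3 := Nat.pow_log_le_self 2 (x := n) (by omega)
  have h4 : 5 ≤ Nat.log 2 n := Nat.le_log_of_pow_le (by norm_num) (by omega)
  generalize Nat.log 2 n = j at *
  have : 3 * (j + j * j) + 4 ≤ 4 * 2 ^ j := by
    clear h1 h2 h3
    induction j, h4 using Nat.le_induction with
    | base => norm_num
    | succ j hj ih => rw [pow_succ]; nlinarith
  nlinarith

end H27.Comp
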