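import Cfsg.Agent.H27.Comp1

/-! Composition length of permutation groups (Fisher's bound). -/

set_option autoImplicit false

namespace H27.Comp

open Subgroup
open scoped commutatorElement

section pow
variable {S : Type*} [Group S] [IsSimpleGroup S] (hS : ¬ IsMulCommutative S) {k : ℕ}
include hS

theorem eq_one_of_comm {x : S} (h : ∀ s : S, Commute s x) : x = 1 := by
  by_contra hx
  obtain ⟨s, hs⟩ := H12.exists_comm_ne_one hS hx
  exact hs (commutatorElement_eq_one_iff_commute.2 (h s))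

theorem aut_single (a : MulAut (Fin k → S)) (i : Fin k) :
    ∃ j, ∀ s, ∃ t, a (Pi.mulSingle i s) = Pi.mulSingle j t := by
  obtain ⟨s, hs⟩ := exists_ne (1 : S)
  obtain ⟨j, hj⟩ : ∃ j, a (Pi.mulSingle i s) j ≠ 1 := by
    by_contra! h
    exact hs (by simpa using a.map_eq_one_iff.1 (funext h))
  obtain ⟨u, hu⟩ := H12.exists_comm_ne_one hS hj
  let T : Fin k → Subgroup (Fin k → S) := fun l => (MonoidHom.mulSingle (fun _ => S) l).range
  have hT : ∀ l, (T l).Normal := fun l => ⟨by
    rintro _ ⟨v, rfl⟩ g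
    refine ⟨g l * v * (g l)⁻¹, funext fun m => ?_⟩
    by_cases e : m = l
    · subst e; simp
    · simp [Pi.mulSingle_eq_of_ne e]⟩
  let W := ((T j).comap a.toMonoidHom).comap (MonoidHom.mulSingle (fun _ => S) i)
  have hW : W.Normal := ((hT j).comap _).comap _
  refine ⟨j, fun v => (hW.eq_bot_or_eq_top.resolve_left fun e => ?_).ge (mem_top v) |>.imp
    fun t h => h.symm⟩
  have h1 : ⁅(Pi.mulSingle j u : Fin k → S), a (Pi.mulSingle i s)⁆ ∈ T j := by
    rw [commutatorElement_def, mul_assoc, mul_assoc, ← mul_assoc (a _)]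
    exact (T j).mul_mem ⟨u, rfl⟩ ((hT j).conj_mem _ ((T j).inv_mem ⟨u, rfl⟩) _)
  obtain ⟨v, hv⟩ : ⁅a.symm (Pi.mulSingle j u), Pi.mulSingle i s⁆ ∈ T i :=
    (T i).mul_mem ((hT i).conj_mem _ ⟨s, rfl⟩ _) ((T i).inv_mem ⟨s, rfl⟩)
  have h2 := congrArg a hv
  rw [map_commutatorElement, a.apply_symm_apply] at h2
  have : v = 1 := e.le (show a (MonoidHom.mulSingle (fun _ => S) i v) ∈ T j from h2 ▸ h1)
  rw [this, map_one, map_one] at h2
  exact hu (by simpa [commutatorElement_def] using (congrFun h2 j).symm)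

theorem aut_ker (a : MulAut (Fin k → S)) (j : Fin k) :
    ∃ i, ∀ x y : Fin k → S, x i = y i → a x j = a y j := by
  obtain ⟨i, hi⟩ := aut_single hS a⁻¹ j
  refine ⟨i, fun x y e => ?_⟩
  have : a (x * y⁻¹) j = 1 := eq_one_of_comm hS fun s => by
    obtain ⟨t, ht⟩ := hi s
    have h1 : Commute (Pi.mulSingle i t : Fin k → S) (x * y⁻¹) := funext fun m => by
      by_cases h : m = i
      · subst h; simp [e]
      · simp [Pi.mulSingle_eq_of_ne h]
    have h2 := h1.map a
    rw [← ht, MulAut.apply_inv_self] at h2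
    simpa [commute_iff_eq] using congrFun h2 j
  simpa [mul_inv_eq_one] using this

variable [Finite S]

/-- Elements supported on the first `j` coordinates. -/
def low (S : Type*) [Group S] (k j : ℕ) : Subgroup (Fin k → S) :=
  Subgroup.pi {i | j ≤ i.1} fun _ => ⊥

omit hS [IsSimpleGroup S] [Finite S] in
theorem low_top : low S k k = ⊤ := eq_top_iff.2 fun _ _ i hi => absurd i.2 (not_lt.2 hi)

omit hS in
theorem cl_pow : cl (⊤ : Subgroup (Fin k → S)) ≤ k := by
  have : ∀ j ≤ k, cl (low S k j) ≤ j := fun j hj => by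
    induction j with
    | zero =>
      have : low S k 0 = ⊥ := eq_bot_iff.2 fun x hx => funext fun i => hx i (Nat.zero_le _)
      rw [this, cl_bot]
    | succ j ih =>
      let f := Pi.evalMonoidHom (fun _ : Fin k => S) ⟨j, hj⟩
      have h1 : low S k (j + 1) ⊓ f.ker = low S k j := by
        ext x
        refine ⟨fun h i hi => ?_, fun h => ⟨fun i hi => h i (Nat.le_of_succ_le hi), h ⟨j, hj⟩ (le_refl j)⟩⟩
        rcases (show j ≤ i.1 from hi).eq_or_lt with rfl | h2
        exacts [h.2, h.1 i h2]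
      have : (low S k (j + 1)).Normal := ⟨fun x hx g i hi => by
        simp [show x i = 1 from hx i hi]⟩
      have := this.map f (Function.surjective_eval _)
      have := cl_simple ((low S k (j + 1)).map f)
      have := ih (by omega)
      rw [cl_add f, h1]
      omega
  exact low_top (S := S) (k := k) ▸ this k le_rfl

theorem pow_cases (A : Subgroup (MulAut (Fin k → S))) (R : Subgroup (Fin k → S)) (h0 : R ≠ ⊥)
    (h1 : R ≠ ⊤) (hR : ∀ a ∈ A, ∀ x ∈ R, a x ∈ R)
    (hmax : ∀ Y, R ≤ Y → (∀ a ∈ A, ∀ x ∈ Y, a x ∈ Y) → Y = R ∨ Y = ⊤)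
    (hmin : ∀ Y : Subgroup (Fin k → S), Y.Normal → (∀ a ∈ A, ∀ x ∈ Y, a x ∈ Y) → Y = ⊥ ∨ Y = ⊤) :
    k ≤ cl R + 1 ∨ k * Nat.card S ≤ R.index := by
  classical
  rcases hmax (Subgroup.pi Set.univ fun i => R.map (Pi.evalMonoidHom (fun _ => S) i))
    (fun x hx i _ => ⟨x, hx, rfl⟩) (fun a ha x hx j _ => by
      obtain ⟨i, hi⟩ := aut_ker hS a j
      obtain ⟨r, r1, r2⟩ := hx i trivial
      exact ⟨a r, hR a ha r r1, hi _ _ r2⟩) with h | h
  · have h2 : normalClosure (R : Set (Fin k → S)) = ⊤ :=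
      (hmin _ inferInstance fun a ha x hx => (normalClosure_le_normal (N := (normalClosure
        (R : Set (Fin k → S))).comap a.toMonoidHom) fun r hr =>
          subset_normalClosure (hR a ha r hr)) hx).resolve_left
        fun e => h0 (eq_bot_iff.2 (le_normalClosure.trans e.le))
    have h3 : ∀ i, ∃ s ≠ 1, Pi.mulSingle i s ∈ R := fun i => by
      by_contra! hc
      obtain ⟨s, hs⟩ := exists_ne (1 : S)
      refine hs ((normalClosure_le_normal (N := (Pi.evalMonoidHom (fun _ => S) i).ker)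
        fun r hr => ?_) (h2.ge (mem_top (fun _ => s))))
      by_contra e
      refine hc (r i) e (h.le fun j _ => ?_)
      by_cases e : j = i
      · exact ⟨r, hr, by simp [e]⟩
      · rw [Pi.mulSingle_eq_of_ne e]; exact ⟨1, R.one_mem, rfl⟩
    have : ∀ j ≤ k, j ≤ cl (R ⊓ low S k j) := fun j hj => by
      induction j with
      | zero => exact Nat.zero_le _
      | succ j ih =>
        obtain ⟨s, s1, s2⟩ := h3 ⟨j, hj⟩
        refine (ih (by omega)).trans_lt (cl_lt (lt_of_le_not_ge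
          (fun x hx => ⟨hx.1, fun i hi => hx.2 i (Nat.le_of_succ_le hi)⟩) fun e => s1 ?_)
          fun c hc x hx => ⟨R.mul_mem (R.mul_mem hc.1 hx.1) (R.inv_mem hc.1), fun i hi => by
            simp [show x i = 1 from hx.2 i hi]⟩)
        simpa using (e ⟨s2, fun i hi => Pi.mulSingle_eq_of_ne (fun e => by
          subst e; simp at hi) _⟩).2 ⟨j, hj⟩ (le_refl j)
    have := this k le_rfl
    rw [low_top, inf_top_eq] at this
    omega
  have hs : ∀ i s, ∃ r ∈ R, r i = s := fun i s => h.ge (mem_top fun _ => s) i trivial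
  have h2 : ∀ i s, Pi.mulSingle i s ∈ R → s = 1 := fun i s hi => by
    have hW : (R.comap (MonoidHom.mulSingle (fun _ => S) i)).Normal := ⟨fun v hv u => by
      obtain ⟨r, r1, rfl⟩ := hs i u
      have := R.mul_mem (R.mul_mem r1 hv) (R.inv_mem r1)
      rw [mem_comap]
      convert this using 1
      funext m
      by_cases e : m = i
      · subst e; simp
      · simp [Pi.mulSingle_eq_of_ne e]⟩
    refine (hW.eq_bot_or_eq_top.resolve_right fun e => ?_).le hi
    rcases hmin R.normalCore inferInstance (fun a ha x hx g => by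
      simpa using hR a ha _ (hx (a.symm g))) with h3 | h3
    · obtain ⟨t, ht⟩ := exists_ne (1 : S)
      refine ht (Pi.mulSingle_eq_one_iff.1
        (h3.le (show Pi.mulSingle i t ∈ R.normalCore from fun g => ?_)))
      convert e.ge (mem_top (g i * t * (g i)⁻¹)) using 1
      rw [mem_comap]
      congr! 1
      funext m
      by_cases e : m = i
      · subst e; simp
      · simp [Pi.mulSingle_eq_of_ne e]
    · exact h1 (eq_top_iff.2 (h3.ge.trans R.normalCore_le))
  obtain ⟨I, hI, hm⟩ := Set.Finite.exists_maximal (Set.toFinite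
    {I : Finset (Fin k) | ∀ r ∈ R, (∀ i ∉ I, r i = 1) → r = 1}) ⟨∅, fun r _ h => funext fun i =>
      h i (by simp)⟩
  have h3 : ∀ i ∉ I, ∃ j ∈ I, ∃ r ∈ R, r j ≠ 1 ∧ ∀ l ∉ I, l ≠ i → r l = 1 := fun i hi => by
    by_contra! hc
    refine hi (hm (y := insert i I) (fun r hr h => ?_) (Finset.subset_insert _ _)
      (Finset.mem_insert_self _ _))
    have e : r = Pi.mulSingle i (r i) := funext fun m => by
      by_cases e : m = i
      · simp [e]
      rw [Pi.mulSingle_eq_of_ne e]
      by_cases hm : m ∈ I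
      · by_contra h4
        obtain ⟨l, l1, l2, l3⟩ := hc m hm r hr h4
        exact l3 (h l (by simp [l1, l2]))
      · exact h m (by simp [e, hm])
    rw [e, h2 i (r i) (e ▸ hr), Pi.mulSingle_one]
  choose! j j1 r r1 r2 r3 using h3
  have h4 : Iᶜ.card ≤ I.card := Finset.card_le_card_of_injOn j (fun i hi => j1 i (by simpa using hi))
    fun i hi i' hi' e => by
      by_contra ne
      have hi : i ∉ I := by simpa using hi
      have hi' : i' ∉ I := by simpa using hi'
      refine r2 i hi (eq_one_of_comm hS fun s => ?_)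
      have : normalClosure {r i' (j i)} = ⊤ := ((inferInstance : (normalClosure
        {r i' (j i)}).Normal).eq_bot_or_eq_top).resolve_left fun e' =>
          r2 i' hi' (e ▸ e'.le (subset_normalClosure rfl))
      refine (mem_centralizer_singleton_iff.1 ((closure_le (centralizer {r i (j i)})).2 ?_
        (this.ge (mem_top s))))
      rintro _ hx
      obtain ⟨_, rfl, hx⟩ := Group.mem_conjugatesOfSet_iff.1 hx
      obtain ⟨v, rfl⟩ := isConj_iff.1 hx
      obtain ⟨u, u1, rfl⟩ := hs (j i) v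
      have h5 := R.mul_mem (R.mul_mem u1 (r1 i' hi')) (R.inv_mem u1)
      have := congrFun (hI ⁅u * r i' * u⁻¹, r i⁆ (R.mul_mem (R.mul_mem (R.mul_mem h5 (r1 i hi))
        (R.inv_mem h5)) (R.inv_mem (r1 i hi))) fun l hl => by
          by_cases e : l = i
          · simp [commutatorElement_def, r3 i' hi' l hl (e ▸ ne)]
          · simp [commutatorElement_def, r3 i hi l hl e]) (j i)
      exact mem_centralizer_singleton_iff.2 (commutatorElement_eq_one_iff_commute.1 this)
  rw [Finset.card_compl, Fintype.card_fin] at h4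
  by_cases h5 : I.card ≤ 1
  · have := cl_lt (bot_lt_iff_ne_bot.2 h0) (by simp)
    omega
  have h6 : Nat.card S ^ I.card ≤ R.index := by
    rw [← Fintype.card_coe, ← Nat.card_eq_fintype_card, ← Nat.card_fun]
    refine Nat.card_le_card_of_injective (fun x : I → S =>
      ((fun i => if h : i ∈ I then x ⟨i, h⟩ else 1 : Fin k → S) : (Fin k → S) ⧸ R))
      fun x y e => funext fun i => ?_
    simpa [inv_mul_eq_one] using congrFun (hI _ (QuotientGroup.eq.1 e) fun l hl => by simp [hl]) i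
  have h7 : 4 ≤ Nat.card S := by
    by_contra! h
    have := Finite.one_lt_card (α := S)
    have : (Nat.card S).Prime := by interval_cases Nat.card S <;> norm_num
    have := Fact.mk this
    exact hS (isCyclic_of_prime_card rfl).isMulCommutative
  refine Or.inr (le_trans ?_ h6)
  obtain ⟨m, hm⟩ : ∃ m, I.card = m + 1 := ⟨I.card - 1, by omega⟩
  rw [hm, pow_succ]
  refine Nat.mul_le_mul_right _ (le_trans (by omega : k ≤ 2 * (m + 1)) (le_trans ?_
    (Nat.pow_le_pow_left h7 m)))
  have : 1 ≤ m := by omega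
  clear hm
  induction m, this using Nat.le_induction with
  | base => norm_num
  | succ m _ ih => rw [pow_succ]; omega

end pow

open MulAction

/-- Number of orbits. -/
noncomputable def orb (G Ω : Type*) [Group G] [MulAction G Ω] : ℕ :=
  Nat.card (Quotient (orbitRel G Ω))

theorem le_orb {G Ω β : Type*} [Group G] [MulAction G Ω] [Finite Ω] (φ : Ω → β)
    (hs : Function.Surjective φ) (h : ∀ (g : G) x, φ (g • x) = φ x) : Nat.card β ≤ orb G Ω :=
  Nat.card_le_card_of_surjective (Quotient.lift φ (by rintro _ b ⟨g, rfl⟩; exact h g b))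
    fun b => (hs b).imp' (Quotient.mk _) fun _ e => e

theorem one_le_orb {G Ω : Type*} [Group G] [MulAction G Ω] [Finite Ω] [Nonempty Ω] :
    1 ≤ orb G Ω := by
  simpa using le_orb (G := G) (fun _ : Ω => ()) (fun _ => ⟨Classical.arbitrary _, rfl⟩)
    fun _ _ => rfl

theorem prim {G Ω : Type} [Group G] [Finite G] [MulAction G Ω] [FaithfulSMul G Ω] [Finite Ω]
    [IsPretransitive G Ω] (a : Ω) (hM : IsCoatom (stabilizer G a))
    (ih : ∀ (X : Type) [Finite X] [MulAction (stabilizer G a) X] [FaithfulSMul (stabilizer G a) X],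
      3 * cl (stabilizer G a) + 4 * orb (stabilizer G a) X ≤ 4 * Nat.card X) :
    3 * cl (⊤ : Subgroup G) + 4 ≤ 4 * Nat.card Ω := by
  classical
  set M := stabilizer G a
  have hc : ∀ Y : Subgroup G, Y.Normal → Y ≤ M → Y = ⊥ := fun Y hY h => eq_bot_iff.2 fun y hy =>
    eq_of_smul_eq_smul (M := G) (α := Ω) fun x => by
      obtain ⟨g, rfl⟩ := exists_smul_eq G a x
      have : (g⁻¹ * y * g⁻¹⁻¹) • a = a := h (hY.conj_mem y hy _)
      rw [inv_inv, mul_smul, mul_smul, inv_smul_eq_iff] at this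
      rw [this, one_smul]
  obtain ⟨N, ⟨hN, h0⟩, hm⟩ := Set.Finite.exists_minimal (Set.toFinite
    {N : Subgroup G | N.Normal ∧ N ≠ ⊥}) ⟨⊤, inferInstance, fun e => hM.1 (eq_top_iff.2
      (e.le.trans bot_le))⟩
  have hmin : ∀ L : Subgroup G, L.Normal → L ≤ N → L = ⊥ ∨ L = N := fun L a b =>
    or_iff_not_imp_left.2 fun c => le_antisymm b (hm ⟨a, c⟩ b)
  have hNM : M ⊔ N = ⊤ := hM.2 _ (left_lt_sup.2 fun e => h0 (hc N hN e))
  have hG : ∀ g : G, ∃ m ∈ M, ∃ n ∈ N, m * n = g := fun g =>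
    (mem_sup_of_normal_right (s := M) (t := N)).1 (hNM ▸ mem_top g)
  have hn : ∀ Y : Subgroup G, (∀ m ∈ M, ∀ y ∈ Y, m * y * m⁻¹ ∈ Y) →
      (∀ m ∈ N, ∀ y ∈ Y, m * y * m⁻¹ ∈ Y) → Y.Normal := fun Y a b => ⟨fun y hy g => by
    obtain ⟨m, m1, n, n1, rfl⟩ := hG g
    simpa [mul_assoc] using a m m1 _ (b n n1 y hy)⟩
  have e1 := cl_add (QuotientGroup.mk' N) ⊤
  have e2 := cl_add (QuotientGroup.mk' N) M
  rw [QuotientGroup.ker_mk'] at e1 e2
  rw [top_inf_eq, ← hNM, Subgroup.map_sup, (map_eq_bot_iff N).2 (QuotientGroup.ker_mk' N).ge, sup_bot_eq,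
    hNM] at e1
  have e3 : Nat.card Ω = M.relIndex N := by
    have h1 := relIndex_mul_index (inf_le_left : M ⊓ N ≤ M)
    have h2 := relIndex_mul_index (inf_le_right : M ⊓ N ≤ N)
    rw [inf_relIndex_left, index_stabilizer_of_transitive, ← relIndex_sup_right, hNM,
      relIndex_top_right, ← h2, inf_relIndex_right, mul_comm] at h1
    exact mul_right_cancel₀ index_ne_zero_of_finite h1
  let ψ : M →* MulAut N := MulAut.conjNormal.comp M.subtype
  have hψ : Function.Injective ψ := (injective_iff_map_eq_one _).2 fun m hm => by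
    have := hc (M ⊓ centralizer N) (hn _ (fun u hu y hy => ⟨M.mul_mem (M.mul_mem hu hy.1)
      (M.inv_mem hu), (normal_centralizer (H := N)).conj_mem y hy.2 u⟩) fun u hu y hy => by
        rwa [hy.2 u hu, mul_inv_cancel_right]) inf_le_left
    exact Subtype.ext (this.le ⟨m.2, fun n hn => by
      have := congrArg Subtype.val (DFunLike.congr_fun hm ⟨n, hn⟩)
      simp [ψ, mul_inv_eq_iff_eq_mul] at this
      exact this.symm⟩)
  have n2 : 2 ≤ Nat.card Ω := by
    have : M.relIndex N ≠ 0 := index_ne_zero_of_finite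
    have : M.relIndex N ≠ 1 := fun e => h0 (hc N hN (relIndex_eq_one.1 e))
    omega
  by_cases hR : M ⊓ N = ⊥
  · rw [← inf_relIndex_right, hR, relIndex_bot_left] at e3
    have h1 := omega_aut ⊥ ψ.range (by simp)
    rw [← Nat.card_congr (MonoidHom.ofInjective hψ).toEquiv, index_bot, ← e3] at h1
    have h2 := cl_le_omega N
    have h3 := cl_le_omega M
    have := arith n2
    rw [← e3] at h2
    omega
  obtain ⟨S, _, _, k, hk, ⟨e⟩⟩ := H12.exists_equiv_pi_of_minNormal N h0 hmin
  have : Finite S := Finite.of_injective (fun s => e.symm fun _ => s) fun s t h =>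
    congrFun (e.symm.injective h) ⟨0, hk⟩
  have hS : ¬ IsMulCommutative S := fun h => hR (hc _ (hn _ (fun u hu y hy => ⟨M.mul_mem
    (M.mul_mem hu hy.1) (M.inv_mem hu), hN.conj_mem y hy.2 u⟩) fun u hu y hy => by
      have : (⟨u, hu⟩ * ⟨y, hy.2⟩ : N) = ⟨y, hy.2⟩ * ⟨u, hu⟩ := e.injective (by
        rw [map_mul, map_mul]; exact funext fun i => h.is_comm.comm _ _)
      rwa [show u * y = y * u from congrArg Subtype.val this, mul_inv_cancel_right]) inf_le_left)
  let ι : (Fin k → S) →* G := N.subtype.comp e.symm.toMonoidHom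
  have ι1 : Function.Injective ι := N.subtype_injective.comp e.symm.injective
  have ι2 : ∀ x, ι x ∈ N := fun x => (e.symm x).2
  have ι3 : ∀ n ∈ N, ∃ x, ι x = n := fun n hn => ⟨e ⟨n, hn⟩, by simp [ι]⟩
  let θ : M →* MulAut (Fin k → S) := (MulAut.congr e).toMonoidHom.comp ψ
  have hθ : ∀ m x, ι (θ m x) = m * ι x * m⁻¹ := fun m x => by simp [ι, θ, ψ]
  have e4 : (M.comap ι).map ι = M ⊓ N := le_antisymm (by rintro _ ⟨x, hx, rfl⟩; exact ⟨hx, ι2 x⟩)
    fun y hy => (ι3 y hy.2).imp fun x hx => ⟨show ι x ∈ M from hx ▸ hy.1, hx⟩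
  have e5 : (⊤ : Subgroup _).map ι = N := le_antisymm (by rintro _ ⟨x, -, rfl⟩; exact ι2 x)
    fun y hy => (ι3 y hy).imp fun x hx => ⟨trivial, hx⟩
  have e6 := cl_pow (S := S) (k := k)
  rw [← cl_map ι1, e5] at e6
  have hY : ∀ Y : Subgroup (Fin k → S), (∀ a ∈ θ.range, ∀ x ∈ Y, a x ∈ Y) →
      ∀ m ∈ M, ∀ y ∈ Y.map ι, m * y * m⁻¹ ∈ Y.map ι := by
    rintro Y h m hm _ ⟨y, hy, rfl⟩
    exact ⟨_, h _ ⟨⟨m, hm⟩, rfl⟩ y hy, hθ _ _⟩
  rcases pow_cases hS θ.range (M.comap ι) (fun h => hR (by rw [← e4, h, Subgroup.map_bot]))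
    (fun h => h0 (hc N hN (by rw [← e5, ← h]; exact map_comap_le _ _)))
    (by
      rintro _ ⟨m, rfl⟩ x hx
      rw [mem_comap, hθ]
      exact M.mul_mem (M.mul_mem m.2 hx) (M.inv_mem m.2))
    (fun Y h1 h2 => by
      rcases (le_sup_left : M ≤ M ⊔ Y.map ι).eq_or_lt with h | h
      · exact Or.inl (le_antisymm (fun y hy => h.ge (mem_sup_right ⟨y, hy, rfl⟩)) h1)
      refine Or.inr (eq_top_iff.2 fun x _ => ?_)
      have h3 : ι x ∈ ((M ⊔ Y.map ι : Subgroup G) : Set G) := hM.2 _ h ▸ mem_top _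
      rw [coe_mul_of_left_le_normalizer_right _ _ fun m hm => mem_normalizer_fintype (hY Y h2 m hm)]
        at h3
      obtain ⟨m, hm, _, ⟨y, hy, rfl⟩, h4⟩ := h3
      have : x * y⁻¹ ∈ Y := h1 (by simpa [← h4] using hm)
      simpa using Y.mul_mem this hy)
    (fun Y h1 h2 => (hmin (Y.map ι) (hn _ (hY Y h2) (by
      rintro n hn _ ⟨y, hy, rfl⟩
      obtain ⟨x, rfl⟩ := ι3 n hn
      exact ⟨_, h1.conj_mem y hy x, by simp⟩)) (e5 ▸ map_mono le_top)).imp
        (fun h => (map_eq_bot_iff_of_injective _ ι1).1 h)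
        fun h => map_injective ι1 (h.trans e5.symm)) with h | h
  · rw [← cl_map ι1, e4] at h
    have h1 := ih Ω
    have := le_orb (G := M) (fun x => x = a) (fun p => by
      have := Finite.one_lt_card_iff_nontrivial.1 n2
      obtain ⟨b, hb⟩ := exists_ne a
      by_cases h : p
      exacts [⟨a, by simp [h]⟩, ⟨b, by simp [h, hb]⟩]) fun g x => propext
        ⟨fun h => smul_left_cancel g (h.trans g.2.symm), fun h => h.symm ▸ (show g • a = a from g.2)⟩
    rw [Nat.card_eq_fintype_card, Fintype.card_prop] at this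
    omega
  · rw [index_comap, MonoidHom.range_eq_map, e5, ← e3] at h
    let X := {x : Fin k → S // x ≠ 1 ∧ ∃ i s, x = Pi.mulSingle i s}
    letI : MulAction M X :=
      { smul := fun m x => ⟨θ m x, (θ m).map_ne_one_iff.2 x.2.1, by
          obtain ⟨i, s, h⟩ := x.2.2
          obtain ⟨j, hj⟩ := aut_single hS (θ m) i
          exact ⟨j, h ▸ hj s⟩⟩
        one_smul := fun x => Subtype.ext (show θ 1 x = x by simp)
        mul_smul := fun m n x => Subtype.ext (show θ (m * n) x = θ m (θ n x) by simp) }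
    haveI : FaithfulSMul M X := ⟨fun {m n} h => hψ ((MulAut.congr e).injective (MulEquiv.ext fun x =>
      H12.mem_of_mulSingle_mem (N := (θ m).toMonoidHom.eqLocus (θ n).toMonoidHom) fun i => by
        by_cases hx : x i = 1
        · rw [hx, Pi.mulSingle_one]; exact one_mem _
        · exact congrArg Subtype.val (h ⟨_, by simpa using hx, i, _, rfl⟩)))⟩
    obtain ⟨s, hs⟩ := exists_ne (1 : S)
    haveI : Nonempty X := ⟨⟨_, by simpa using hs, ⟨0, hk⟩, s, rfl⟩⟩
    have h1 := ih X
    have h2 := one_le_orb (G := M) (Ω := X)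
    have h3 : Nat.card X ≤ k * (Nat.card S - 1) := by
      have := Nat.card_le_card_of_surjective (fun p : Fin k × {s : S // s ≠ 1} =>
        (⟨_, by simpa using p.2.2, p.1, p.2.1, rfl⟩ : X)) (by
          rintro ⟨_, h, i, s, rfl⟩
          exact ⟨(i, ⟨s, by simpa using h⟩), rfl⟩)
      cases nonempty_fintype S
      simpa using this
    rw [Nat.mul_sub_one] at h3
    have := Nat.le_mul_of_pos_right k (Nat.card_pos (α := S))
    omega

theorem fisher (n : ℕ) : ∀ (m : ℕ) (G Ω : Type) [Group G] [Finite G] [MulAction G Ω]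
    [FaithfulSMul G Ω] [Finite Ω], Nat.card G = n → Nat.card Ω = m →
    3 * cl (⊤ : Subgroup G) + 4 * orb G Ω ≤ 4 * Nat.card Ω := by
  classical
  induction' n using Nat.strong_induction_on with n ihn
  intro m
  induction' m using Nat.strong_induction_on with m ihm
  rintro G Ω _ _ _ _ _ hn rfl
  have sub : ∀ K : Subgroup G, K ≠ ⊤ → ∀ (X : Type) [Finite X] [MulAction K X] [FaithfulSMul K X],
      3 * cl K + 4 * orb K X ≤ 4 * Nat.card X := fun K hK X _ _ _ => by
    rw [← cl_top]
    exact ihn _ (hn ▸ lt_of_le_of_ne K.card_le_card_group fun e => hK (eq_top_of_card_eq _ e))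
      _ K X rfl rfl
  have quo : ∀ (X : Type) [Finite X] [Nonempty X] [MulAction G X], Nat.card X < Nat.card Ω →
      3 * cl (⊤ : Subgroup G) + 4 ≤ 3 * cl (toPermHom G X).ker + 4 * Nat.card X :=
    fun X _ _ _ hX => by
      rw [cl_add (toPermHom G X), top_inf_eq, ← MonoidHom.range_eq_map, ← cl_top (MonoidHom.range _)]
      have := one_le_orb (G := (toPermHom G X).range) (Ω := X)
      rcases (Nat.card_le_card_of_surjective _
        (toPermHom G X).rangeRestrict_surjective).eq_or_lt with h | h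
      · have := ihm _ hX (toPermHom G X).range X (h.trans hn) rfl
        omega
      · have := ihn _ (hn ▸ h) _ (toPermHom G X).range X rfl rfl
        omega
  by_cases h0 : ∀ (g : G) (a : Ω), g • a = a
  · have : (⊤ : Subgroup G) = ⊥ := eq_bot_iff.2 fun g _ =>
      eq_of_smul_eq_smul (M := G) (α := Ω) fun x => by rw [h0, one_smul]
    have h1 : orb G Ω ≤ Nat.card Ω := Nat.card_le_card_of_surjective _ Quotient.mk_surjective
    rw [this, cl_bot]
    omega
  push Not at h0
  obtain ⟨g, a, hg⟩ := h0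
  by_cases ht : IsPretransitive G Ω
  · have : orb G Ω = 1 := Nat.card_eq_one_iff_unique.2 ⟨⟨fun x y => Quotient.inductionOn₂ x y
      fun x y => Quotient.sound (exists_smul_eq G y x)⟩, ⟨⟦a⟧⟩⟩
    rw [this]
    by_cases hM : IsCoatom (stabilizer G a)
    · exact prim a hM (sub _ hM.1)
    obtain ⟨L, h1, h2⟩ : ∃ L, stabilizer G a < L ∧ L ≠ ⊤ := by
      by_contra! h
      exact hM ⟨fun e => hg (e.ge (mem_top g)), h⟩
    have h3 := quo (G ⧸ L) (by
      have h3 := relIndex_mul_index h1.le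
      have h4 : (stabilizer G a).relIndex L ≠ 1 := fun e => h1.not_ge (relIndex_eq_one.1 e)
      have h5 : (stabilizer G a).relIndex L ≠ 0 := index_ne_zero_of_finite
      rw [← index_stabilizer_of_transitive G a, ← h3]
      exact lt_mul_left Nat.card_pos (by omega))
    have h4 := sub (toPermHom G (G ⧸ L)).ker (fun e => h2 (eq_top_iff.2 (by
      rw [← e, ← normalCore_eq_ker]; exact L.normalCore_le))) Ω
    choose t ht' using exists_smul_eq G a
    have h5 : ∀ (u : G) x, (t (u • x) : G ⧸ L) = u • (t x : G ⧸ L) := fun u x =>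
      QuotientGroup.eq.2 (h1.le (show ((t (u • x))⁻¹ * (u * t x)) • a = a by
        rw [mul_smul, mul_smul, ht', inv_smul_eq_iff, ht']))
    have := le_orb (G := (toPermHom G (G ⧸ L)).ker) (fun x => (t x : G ⧸ L)) (fun q => by
      obtain ⟨u, hu⟩ := exists_smul_eq G (t a : G ⧸ L) q
      exact ⟨u • a, (h5 u a).trans hu⟩) fun u x => (h5 u x).trans (Equiv.congr_fun u.2 (t x : G ⧸ L))
    omega
  haveI : Nonempty (orbit G a) := ⟨⟨a, mem_orbit_self a⟩⟩
  have h3 := quo (orbit G a) (by
    rw [← Set.ncard_univ Ω, Nat.card_coe_set_eq]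
    refine Set.ncard_lt_ncard (Set.ssubset_univ_iff.2 fun e => ht ?_) (Set.finite_univ (α := Ω))
    exact (isPretransitive_iff_orbit_eq_univ a).2 e)
  have hk : ∀ u ∈ (toPermHom G (orbit G a)).ker, ∀ x ∈ orbit G a, u • x = x := fun u hu x hx => by
    have := congrArg Subtype.val (Equiv.congr_fun hu ⟨x, hx⟩)
    exact this
  have h4 := sub (toPermHom G (orbit G a)).ker (fun e => hg (hk g (e.ge (mem_top g)) a
    (mem_orbit_self a))) Ω
  have h5 := le_orb (G := (toPermHom G (orbit G a)).ker)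
    (β := orbit G a ⊕ {q : Quotient (orbitRel G Ω) // q ≠ ⟦a⟧})
    (fun x => if h : x ∈ orbit G a then .inl ⟨x, h⟩ else .inr ⟨⟦x⟧, fun e => h (Quotient.exact e)⟩)
    (by
      rintro (⟨x, hx⟩ | ⟨q, hq⟩)
      · exact ⟨x, by simp [hx]⟩
      · obtain ⟨x, rfl⟩ := Quotient.exists_rep q
        exact ⟨x, dif_neg fun e => hq (Quotient.sound e)⟩) fun u x => by
      by_cases h : x ∈ orbit G a
      · rw [show u • x = x from hk u u.2 x h]
      · rw [dif_neg h, dif_neg fun e => h (by
          obtain ⟨v, hv⟩ := e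
          exact ⟨(u : G)⁻¹ * v, by simp only [mul_smul, inv_smul_eq_iff]; exact hv⟩)]
        exact congrArg _ (Subtype.ext (Quotient.sound ⟨u, rfl⟩))
  have h6 : orb G Ω ≤ Nat.card {q : Quotient (orbitRel G Ω) // q ≠ ⟦a⟧} + 1 := by
    cases nonempty_fintype (Quotient (orbitRel G Ω))
    simp [orb]
    omega
  rw [Nat.card_sum] at h5
  omega

end H27.Comp
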