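import Cfsg.Agent.H27.Spec14
import Cfsg.Agent.H12.Lin
import Cfsg.Agent.H12.StabBridge

/-! Coverings by two conjugacy classes of subgroups, I: generalities and linear groups. -/

set_option autoImplicit false

namespace H27.Cov

open Module Polynomial Function H22 H12 Subgroup

/-- `G` is the union of the conjugates of two proper subgroups -/
def Cov (G : Type*) [Group G] : Prop :=
  ∃ H K : Subgroup G, H ≠ ⊤ ∧ K ≠ ⊤ ∧ ∀ g : G, ∃ x : G, x * g * x⁻¹ ∈ H ∨ x * g * x⁻¹ ∈ K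

variable {F : Type*} [Field F] {V : Type*} [AddCommGroup V] [Module F V] {G : Subgroup (V ≃ₗ[F] V)}
  {ι κ : Type*} {S : ι → Subgroup (V ≃ₗ[F] V)} {P : ι → Prop}

/-- a conjugacy class of proper subgroups containing the scalars -/
def Fam (G : Subgroup (V ≃ₗ[F] V)) (S : ι → Subgroup (V ≃ₗ[F] V)) (P : ι → Prop) : Prop :=
  (∀ i j, P i → P j → ∃ x ∈ G, ∀ g ∈ S i, x * g * x⁻¹ ∈ S j) ∧
    ∀ i, P i → ¬ G ≤ S i ∧ ∀ g ∈ G, ∀ a : F, (∀ x, g x = a • x) → g ∈ S i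

section
variable {Γ : Type*} [Group Γ] (φ : Γ →* (V ≃ₗ[F] V)) (hφ : φ.range = G)
  (hz : ∀ z ∈ center Γ, ∃ a : F, ∀ x, φ z x = a • x)
include hφ hz

theorem Fam.aux (h : Fam G S P) {i : ι} (hi : P i) : ∃ H : Subgroup (Γ ⧸ center Γ), H ≠ ⊤ ∧
    ∀ j, P j → ∀ g, φ g ∈ S j → ∃ x, x * (g : Γ ⧸ center Γ) * x⁻¹ ∈ H := by
  subst hφ
  refine ⟨((S i).comap φ).map (QuotientGroup.mk' _), fun e => (h.2 i hi).1 ?_, fun j hj g hg => ?_⟩
  · rintro _ ⟨g, rfl⟩
    obtain ⟨k, hk, e⟩ := e.ge (mem_top (g : Γ ⧸ center Γ))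
    obtain ⟨a, ha⟩ := hz _ (QuotientGroup.eq.1 e)
    simpa using (S i).mul_mem hk ((h.2 i hi).2 _ ⟨_, rfl⟩ a ha)
  · obtain ⟨_, ⟨x, rfl⟩, hx⟩ := h.1 j i hj hi
    exact ⟨x, x * g * x⁻¹, by simpa using hx _ hg, rfl⟩

theorem cov_fam {T : κ → Subgroup (V ≃ₗ[F] V)} {Q : κ → Prop} (hS : Fam G S P) (hT : Fam G T Q)
    (h : ∀ g ∈ G, (∃ i, P i ∧ g ∈ S i) ∨ ∃ k, Q k ∧ g ∈ T k) : Cov (Γ ⧸ center Γ) := by
  have hg := fun g => h (φ g) (hφ ▸ ⟨g, rfl⟩)
  by_cases h1 : ∃ i, P i <;> by_cases h2 : ∃ k, Q k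
  · obtain ⟨H, a1, a2⟩ := hS.aux φ hφ hz h1.choose_spec
    obtain ⟨K, b1, b2⟩ := hT.aux φ hφ hz h2.choose_spec
    refine ⟨H, K, a1, b1, fun g => g.induction_on fun g => ?_⟩
    rcases hg g with ⟨i, c1, c2⟩ | ⟨i, c1, c2⟩
    exacts [(a2 i c1 g c2).imp fun _ => .inl, (b2 i c1 g c2).imp fun _ => .inr]
  · obtain ⟨H, a1, a2⟩ := hS.aux φ hφ hz h1.choose_spec
    refine ⟨H, H, a1, a1, fun g => g.induction_on fun g => ?_⟩
    rcases hg g with ⟨i, c1, c2⟩ | ⟨i, c1, c2⟩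
    exacts [(a2 i c1 g c2).imp fun _ => .inl, absurd ⟨i, c1⟩ h2]
  · obtain ⟨H, a1, a2⟩ := hT.aux φ hφ hz h2.choose_spec
    refine ⟨H, H, a1, a1, fun g => g.induction_on fun g => ?_⟩
    rcases hg g with ⟨i, c1, c2⟩ | ⟨i, c1, c2⟩
    exacts [absurd ⟨i, c1⟩ h1, (a2 i c1 g c2).imp fun _ => .inl]
  · rcases hg 1 with ⟨i, c1, -⟩ | ⟨i, c1, -⟩
    exacts [absurd ⟨i, c1⟩ h1, absurd ⟨i, c1⟩ h2]

end

theorem fam_stab {P : Submodule F V → Prop} [FiniteDimensional F V]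
    (h1 : ∀ W W', P W → P W' → ∃ x ∈ G, W.map (x : V →ₗ[F] V) = W') (h2 : ∀ W, P W → ¬ G ≤ glStab W) :
    Fam G glStab P :=
  ⟨fun W W' a b => let ⟨x, c, d⟩ := h1 W W' a b; ⟨x, c, fun _ hg => d ▸ conj_mem_glStab.2 hg⟩,
    fun W a => ⟨h2 W a, fun _ _ c h => mem_glStab_of_mapsTo fun v hv => h v ▸ W.smul_mem c hv⟩⟩

/-- the elements `g` with `g e g⁻¹ - e` a scalar in `A` -/
def Nz (A : AddSubgroup F) (e : End F V) : Subgroup (V ≃ₗ[F] V) where
  carrier := {g | ∃ a ∈ A, ∀ x, g (e x) = e (g x) + a • g x}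
  mul_mem' := by
    rintro g h ⟨a, a1, a2⟩ ⟨b, b1, b2⟩
    exact ⟨a + b, A.add_mem a1 b1, fun x => by simp [a2, b2, add_smul, add_assoc]⟩
  one_mem' := ⟨0, A.zero_mem, by simp⟩
  inv_mem' := by
    rintro g ⟨a, a1, a2⟩
    exact ⟨-a, A.neg_mem a1, fun x => g.injective (by simp [a2])⟩

theorem fam_nz {A : AddSubgroup F} {P : End F V → Prop}
    (h1 : ∀ e e', P e → P e' → ∃ x ∈ G, ∀ v, x (e v) = e' (x v)) (h2 : ∀ e, P e → ¬ G ≤ Nz A e) :
    Fam G (Nz A) P := by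
  refine ⟨fun e e' a b => ?_, fun e a => ⟨h2 e a, fun g _ c h => ⟨0, A.zero_mem, by simp [h]⟩⟩⟩
  obtain ⟨x, c, d⟩ := h1 e e' a b
  refine ⟨x, c, ?_⟩
  rintro g ⟨a, a1, a2⟩
  refine ⟨a, a1, fun v => ?_⟩
  obtain ⟨v, rfl⟩ := x.surjective v
  simp [← d, a2]

theorem no_ev {e : End F V} {f : F[X]} (h : aeval e f = 0) (hf : ∀ c, f.eval c ≠ 0) {v : V} {c : F}
    (hv : e v = c • v) : v = 0 := by
  have := End.aeval_apply_of_mem_apply_eq_smul (p := f) hv
  rw [h, LinearMap.zero_apply, eq_comm, smul_eq_zero] at this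
  exact this.resolve_left (hf c)

theorem irr_ne {f : F[X]} (h : Irreducible f) (hd : f.natDegree ≠ 1) (c : F) : f.eval c ≠ 0 := fun e =>
  hd (natDegree_eq_of_degree_eq_some (degree_eq_one_of_irreducible_of_root h e))

theorem exists_comp_aux {f : F[X]} (χ : F[X]) : χ ≠ 0 → (∀ p, Irreducible p → p ∣ χ → ∃ h, p ∣ f.comp h) →
    ∃ h k, χ ∣ f.comp h ^ k := by
  have key : ∀ {a h h' : F[X]}, a ∣ h - h' → a ∣ f.comp h - f.comp h' := fun e => e.trans (by
    simpa only [Polynomial.comp, eval₂_eq_eval_map] using sub_dvd_eval_sub _ _ (f.map C))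
  induction χ using UniqueFactorizationMonoid.induction_on_prime with
  | h₁ => simp
  | h₂ x hx => exact fun _ _ => ⟨0, 0, hx.dvd⟩
  | h₃ a p ha hp ih =>
    intro _ H
    obtain ⟨h, k, e⟩ := ih ha fun r hr hd => H r hr (hd.mul_left _)
    by_cases hd : p ∣ a
    · exact ⟨h, k + 1, by rw [pow_succ']; exact mul_dvd_mul (hp.dvd_of_dvd_pow (hd.trans e)) e⟩
    obtain ⟨s, t, hst⟩ := (hp.irreducible.coprime_iff_not_dvd.2 hd)
    obtain ⟨h', e'⟩ := H p hp.irreducible (dvd_mul_right _ _)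
    refine ⟨h * (s * p) + h' * (t * a), k + 1, ?_⟩
    rw [pow_succ']
    refine mul_dvd_mul ?_ ?_
    · exact (dvd_sub_left e').1 (key ⟨(h - h') * s, by linear_combination h' * hst⟩)
    · exact (dvd_sub_left e).1 ((key ⟨(h' - h) * t, by linear_combination h * hst⟩).trans (sub_dvd_pow_sub_pow _ _ k))

variable [Finite F]

theorem exists_irr (F : Type*) [Field F] [Finite F] (d : ℕ) [NeZero d] :
    ∃ f : F[X], f.Monic ∧ Irreducible f ∧ f.natDegree = d := by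
  obtain ⟨p, hp⟩ := CharP.exists F
  haveI : Fact p.Prime := ⟨CharP.char_is_prime F p⟩
  obtain ⟨a, ha⟩ := Field.exists_primitive_element F (FiniteField.Extension F p d)
  have hi : IsIntegral F a := Algebra.IsIntegral.isIntegral a
  exact ⟨_, minpoly.monic hi, minpoly.irreducible hi,
    ((Field.primitive_element_iff_minpoly_natDegree_eq F a).1 ha).trans (FiniteField.finrank_extension F p d)⟩

theorem exists_comp {f p : F[X]} (hf : Irreducible f) (hp : Irreducible p) (hd : f.natDegree ∣ p.natDegree) :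
    ∃ h, p ∣ f.comp h := by
  haveI := Fact.mk hf
  haveI := Fact.mk hp
  haveI := (AdjoinRoot.powerBasis hp.ne_zero).finite
  haveI : Finite (AdjoinRoot p) := Module.finite_of_finite F
  obtain ⟨ψ⟩ := FiniteField.nonempty_algHom_of_finrank_dvd (F := F) (K := AdjoinRoot f) (L := AdjoinRoot p) (by
    rwa [(AdjoinRoot.powerBasis hp.ne_zero).finrank, (AdjoinRoot.powerBasis hf.ne_zero).finrank])
  obtain ⟨h, e⟩ := AdjoinRoot.mk_surjective (ψ (AdjoinRoot.root f))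
  refine ⟨h, AdjoinRoot.mk_eq_zero.1 ?_⟩
  rw [← AdjoinRoot.aeval_eq, aeval_comp, AdjoinRoot.aeval_eq, e, aeval_algHom_apply, AdjoinRoot.aeval_eq,
    AdjoinRoot.mk_self, map_zero]

/-- a root of `f` in the algebra generated by `u` -/
theorem exists_root {u : End F V} {f χ : F[X]} (hf : Irreducible f) (h0 : χ ≠ 0) (hχ : aeval u χ = 0)
    (H : ∀ p, Irreducible p → p ∣ χ → f.natDegree ∣ p.natDegree) : ∃ h : F[X], aeval (aeval u h) f = 0 := by
  obtain ⟨h, k, e⟩ := exists_comp_aux χ h0 fun p a b => exists_comp hf a (H p a b)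
  haveI := Fintype.ofFinite F
  have key : ∀ n, f.comp (h ^ Fintype.card F ^ n) = f.comp h ^ Fintype.card F ^ n := fun n => by
    induction n with
    | zero => simp
    | succ n ih => rw [pow_succ, pow_mul, pow_mul, ← ih, ← pow_comp, ← FiniteField.expand_card f,
        expand_eq_comp_X_pow, Polynomial.comp_assoc, X_pow_comp]
  refine ⟨h ^ Fintype.card F ^ k, ?_⟩
  rw [← aeval_comp, key]
  exact aeval_eq_zero_of_dvd_aeval_eq_zero (e.trans (pow_dvd_pow _ (Nat.lt_pow_self Fintype.one_lt_card).le)) hχ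

variable [FiniteDimensional F V] {e e' : End F V} {f : F[X]}

theorem type_irr (hm : f.Monic) (hf : Irreducible f) (h : aeval e f = 0) :
    ∃ n, HasType e (.replicate n f) ∧ finrank F V = n * f.natDegree := by
  obtain ⟨s, h1, h2⟩ := exists_ssType hf.squarefree h
  rw [Multiset.eq_replicate_of_mem fun a ha => eq_of_monic_of_associated (h1 a ha).1 hm
    ((h1 a ha).2.1.associated_of_dvd hf (h1 a ha).2.2)] at h2
  exact ⟨_, h2, by simpa using h2.finrank⟩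

theorem sim_irr (hm : f.Monic) (hf : Irreducible f) (h : aeval e f = 0) (h' : aeval e' f = 0) : Sim e e' := by
  obtain ⟨n, a, b⟩ := type_irr hm hf h
  obtain ⟨n', a', b'⟩ := type_irr hm hf h'
  obtain rfl := Nat.eq_of_mul_eq_mul_right hf.natDegree_pos (b.symm.trans b')
  exact a.sim a'

theorem conj_sl [Nontrivial V] (hm : f.Monic) (hf : Irreducible f) (h : aeval e f = 0) (h' : aeval e' f = 0) :
    ∃ x ∈ SLV F V, ∀ v, x (e v) = e' (x v) := by
  obtain ⟨x, hx⟩ := sim_irr hm hf h h'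
  obtain ⟨n, a, b⟩ := type_irr hm hf h
  obtain ⟨y, h1, h2⟩ := a.exists_comm_det (fun a ha => Multiset.eq_of_mem_replicate ha ▸ hf.ne_zero)
    (Multiset.mem_replicate.2 ⟨by rintro rfl; simp [finrank_pos.ne'] at b, rfl⟩) hf (LinearEquiv.det x)⁻¹.1
  obtain ⟨y, rfl⟩ := (LinearMap.isUnit_iff_isUnit_det _).2 (h2 ▸ Units.isUnit _)
  refine ⟨x * LinearMap.GeneralLinearGroup.toLinearEquiv y, ?_, fun v => ?_⟩
  · rw [mem_SLV, LinearEquiv.coe_toLinearMap_mul, map_mul]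
    exact (congrArg _ h2).trans (by rw [← LinearEquiv.coe_det, Units.mul_inv])
  · exact (congrArg x (LinearMap.congr_fun h1 v)).trans (hx _)

theorem fam_point (h : 2 ≤ finrank F V) : Fam (SLV F V) glStab fun W => finrank F W = 1 := by
  refine fam_stab (fun W W' a b => ?_) fun W a => not_SLV_le_glStab (by rintro rfl; simp at a)
    (by rintro rfl; simp at a; omega)
  obtain ⟨x, hx⟩ := Submodule.exists_linearEquiv_restrict_eq (LinearEquiv.ofFinrankEq W W' (a.trans b.symm))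
  obtain ⟨y, h1, h2⟩ := exists_glStab_det (W := W) (by rintro rfl; simp at a) (LinearEquiv.det x)⁻¹
  refine ⟨x * y, by simp [SLV, h2], Submodule.eq_of_le_of_finrank_eq ?_ (by
    rw [LinearEquiv.finrank_map_eq, a, b])⟩
  rintro _ ⟨v, hv, rfl⟩
  exact (hx ⟨_, (h1 v).1 hv⟩).subst (motive := (· ∈ W')) (Subtype.coe_prop _)

theorem fam_cent (h : 2 ≤ finrank F V) (hm : f.Monic) (hf : Irreducible f) (hd : f.natDegree ≠ 1) :
    Fam (SLV F V) (Nz ⊥) fun e => aeval e f = 0 := by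
  haveI := nontrivial_of_finrank_pos (R := F) (M := V) (by omega)
  refine fam_nz (fun e e' => conj_sl hm hf) fun e he H => ?_
  obtain ⟨v, hv⟩ := exists_ne (0 : V)
  obtain ⟨w, hw⟩ := exists_not_mem_of_ne_top (W := F ∙ v) fun e => by
    have := finrank_span_singleton (K := F) hv
    rw [e, finrank_top] at this; omega
  obtain ⟨φ, h1, h2⟩ := exists_dual_eq_one hw
  obtain ⟨g, hg, h3⟩ := tr_SLV (h1 v (Submodule.mem_span_singleton_self v))
  obtain ⟨a, rfl, ha⟩ := H hg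
  exact hv (no_ev he (irr_ne hf hd) (c := φ (e w)) (by simpa [h3, h2] using (ha w).symm))

theorem ev_or (g : V ≃ₗ[F] V) : (∃ W : Submodule F V, finrank F W = 1 ∧ g ∈ glStab W) ∨
    ∀ c, (g : End F V).charpoly.eval c ≠ 0 := by
  refine or_iff_not_imp_right.2 fun h => ?_
  push Not at h
  obtain ⟨c, hc⟩ := h
  obtain ⟨v, h1, h2⟩ := ((End.hasEigenvalue_iff_isRoot_charpoly _ c).2 hc).exists_hasEigenvector
  refine ⟨F ∙ v, finrank_span_singleton h2, mem_glStab_of_mapsTo fun x hx => ?_⟩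
  obtain ⟨a, rfl⟩ := Submodule.mem_span_singleton.1 hx
  exact Submodule.mem_span_singleton.2 ⟨a * c, by
    rw [map_smul, mul_smul]; exact congrArg _ (End.mem_eigenspace_iff.1 h1).symm⟩

omit [Finite F] [FiniteDimensional F V] in
theorem deg_or {p χ : F[X]} (h0 : χ ≠ 0) (H : ∀ c, χ.eval c ≠ 0) (hp : Irreducible p) (h : p ∣ χ) :
    2 ≤ p.natDegree ∧ (p.natDegree = χ.natDegree ∨ p.natDegree + 2 ≤ χ.natDegree) := by
  obtain ⟨r, rfl⟩ := h
  have key : ∀ a : F[X], a ∣ p * r → a.natDegree ≠ 1 := fun a ha e => by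
    obtain ⟨c, hc⟩ := exists_root_of_degree_eq_one (p := a) ((degree_eq_iff_natDegree_eq_of_pos one_pos).2 e)
    exact H c (eval_eq_zero_of_dvd_of_eval_eq_zero ha hc)
  have := key p (dvd_mul_right _ _)
  have := key r (dvd_mul_left _ _)
  have := hp.natDegree_pos
  rw [natDegree_mul hp.ne_zero (right_ne_zero_of_mul h0)]
  omega

omit [Finite F] [FiniteDimensional F V] in
theorem comm_aeval (u : End F V) (h : F[X]) (x : V) : u (aeval u h x) = aeval u h (u x) :=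
  aeval_intertw (e := u) (fun _ => rfl) h x

theorem cov_sl (F : Type*) [Field F] [Finite F] {n : ℕ} (h2 : 2 ≤ n) (h4 : n ≤ 4) :
    Cov (Matrix.ProjectiveSpecialLinearGroup (Fin n) F) := by
  obtain ⟨d, _, hd, H⟩ : ∃ d : ℕ, NeZero d ∧ d ≠ 1 ∧ ∀ k, 2 ≤ k → (k = n ∨ k + 2 ≤ n) → d ∣ k := by
    by_cases h : n = 3
    exacts [⟨3, inferInstance, by omega, by omega⟩, ⟨2, inferInstance, by omega, by omega⟩]
  obtain ⟨f, f1, f2, rfl⟩ := exists_irr F d
  refine cov_fam Matrix.SpecialLinearGroup.toLin' ?_ (fun z hz => ?_) (fam_point (by simpa))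
    (fam_cent (by simpa) f1 f2 hd) fun g _ => (ev_or g).imp_right fun hg => ?_
  · ext g
    refine ⟨?_, fun h => ⟨⟨LinearMap.toMatrix' g, by simpa using mem_SLV.1 h⟩, ?_⟩⟩
    · rintro ⟨g, rfl⟩
      simp [mem_SLV, Matrix.SpecialLinearGroup.toLin'_to_linearMap]
    · exact LinearEquiv.toLinearMap_injective (Matrix.toLin'_toMatrix' _)
  · obtain ⟨a, -, ha⟩ := Matrix.SpecialLinearGroup.mem_center_iff.1 hz
    exact ⟨a, fun x => by rw [Matrix.SpecialLinearGroup.toLin'_apply, ← ha]; simp⟩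
  · have h0 := (g : End F (Fin n → F)).charpoly_monic.ne_zero
    obtain ⟨h, e⟩ := exists_root f2 h0 (LinearMap.aeval_self_charpoly _) fun p a b =>
      H _ (deg_or h0 hg a b).1 (by simpa [LinearMap.charpoly_natDegree] using (deg_or h0 hg a b).2)
    exact ⟨_, e, 0, rfl, fun x => by simpa using comm_aeval (g : End F (Fin n → F)) h x⟩

end H27.Cov
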