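import Cfsg.Agent.H27.Cov1

/-! Coverings by two conjugacy classes of subgroups, II: `SU₄`. -/

set_option autoImplicit false

namespace H27.Cov

open Module Polynomial Function H22 H12 H12.CForm H11 H27.Sp Submodule

section comb
variable {α : Type*} {τ : α → α} (hτ : Injective τ) {E : Multiset α} (h : E.map τ = E)

theorem pair_eq {a b c d : α} (h : ({a, b} : Multiset α) = {c, d}) : a = c ∧ b = d ∨ a = d ∧ b = c := by
  rcases Multiset.cons_eq_cons.1 h with ⟨h1, h2⟩ | ⟨-, s, h1, h2⟩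
  exacts [.inl ⟨h1, Multiset.singleton_inj.1 h2⟩,
    .inr ⟨((Multiset.singleton_eq_cons_iff _).1 h2).1.symm, ((Multiset.singleton_eq_cons_iff _).1 h1).1⟩]

include h

theorem fix_two (hc : E.card = 2) : ∃ a ∈ E, τ^[2] a = a := by
  obtain ⟨a, b, rfl⟩ := Multiset.card_eq_two.1 hc
  refine ⟨a, by simp, ?_⟩
  rcases pair_eq (by simpa using h : ({τ a, τ b} : Multiset α) = {a, b}) with e | e <;> simp [e]

include hτ in
theorem fix_four (hc : E.card = 4) : ∃ a ∈ E, τ^[4] a = a := by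
  classical
  obtain ⟨a, ha⟩ := Multiset.card_pos_iff_exists_mem.1 (hc ▸ four_pos)
  by_contra! H
  have m : ∀ x ∈ E, τ x ∈ E := fun x hx => h ▸ Multiset.mem_map_of_mem τ hx
  have h1 : τ a ≠ a := fun e => H a ha (by simp [e])
  have h2 : τ (τ a) ≠ a := fun e => H a ha (by simp [e])
  obtain ⟨s, rfl⟩ := Multiset.le_iff_exists_add.1 ((Multiset.le_iff_subset (s := {a, τ a, τ (τ a)}) (by
    simp [h1.symm, h2.symm, hτ.ne h1.symm])).2 fun x hx => by
      simp only [Multiset.insert_eq_cons, Multiset.mem_cons, Multiset.mem_singleton] at hx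
      rcases hx with rfl | rfl | rfl
      exacts [ha, m _ ha, m _ (m _ ha)])
  obtain ⟨y, rfl⟩ := Multiset.card_eq_one.1 (by simpa using hc : s.card = 1)
  have : ({τ a, τ (τ a)} : Multiset α) + {τ (τ (τ a)), τ y} = {τ a, τ (τ a)} + {a, y} := by
    refine Eq.trans ?_ (h.trans ?_) <;> simp only [Multiset.insert_eq_cons, ← Multiset.singleton_add, Multiset.map_add,
      Multiset.map_singleton] <;> abel
  rcases pair_eq (add_left_cancel this) with e | e
  exacts [H y (by simp) (by simp [e.2]), H a ha (by simp [e])]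

end comb

variable {F : Type*} [Field F] {V : Type*} [AddCommGroup V] [Module F V] [FiniteDimensional F V]
  {T : FormType F} {C : CForm T V} {u : End F V}

theorem tv_not_le {G : Subgroup (V ≃ₗ[F] V)} (hG : C.isom ⊓ SLV F V ≤ G) {c : F} (hc : TvOk T c) (h0 : c ≠ 0)
    {W : Submodule F V} {v w : V} (hv : C.N v = 0) (h1 : v ∉ W) (hw : w ∈ W) (h : C.B v w ≠ 0) : ¬ G ≤ glStab W :=
  fun H => h1 ((W.smul_mem_iff (mul_ne_zero h0 h)).1 ((W.add_mem_iff_right hw).1
    ((H (hG ⟨(tv C hv hc).2, det_tv hv hc⟩) w).1 hw)))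

theorem ev_of_one {W : Submodule F V} (h : finrank F W = 1) (hu : ∀ x ∈ W, u x ∈ W) :
    ∃ w ∈ W, w ≠ 0 ∧ ∃ c : F, u w = c • w := by
  obtain ⟨w, h1, h2⟩ := finrank_eq_one_iff'.1 h
  obtain ⟨c, hc⟩ := h2 ⟨_, hu w w.2⟩
  exact ⟨w, w.2, by simpa using h1, c, congrArg Subtype.val hc.symm⟩

theorem perp_inv (hC : C.Nondeg) (hu : C.IsIsomTo C u) {W : Submodule F V} (h : ∀ x ∈ W, u x ∈ W) :
    ∀ x ∈ C.perp W, u x ∈ C.perp W := fun x hx => C.mem_perp.2 fun y hy => by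
  obtain ⟨y, rfl⟩ := (LinearMap.injective_iff_surjective (f := u.restrict h)).1 (fun a b e =>
    Subtype.ext (hC.injective_of_isIsomTo hu.1 (congrArg Subtype.val e))) ⟨y, hy⟩ |>.imp fun _ e => congrArg Subtype.val e
  exact (hu.1 _ _).trans (C.mem_perp.1 hx _ y.2)

omit [FiniteDimensional F V] in
theorem span_inv {s : Set V} (h : ∀ x ∈ s, u x ∈ span F s) : ∀ x ∈ span F s, u x ∈ span F s :=
  fun _ hx => (span_le (p := (span F s).comap u)).2 h hx

omit [FiniteDimensional F V] in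
theorem ev_inv {v : V} {c : F} (h : u v = c • v) : ∀ x ∈ F ∙ v, u x ∈ F ∙ v :=
  span_inv fun x hx => by rw [show x = v from hx, h]; exact smul_mem _ _ (mem_span_singleton_self v)

omit [FiniteDimensional F V] in
theorem finrank_pair {v w : V} (hv : v ≠ 0) (h : ∀ c : F, c • v ≠ w) : finrank F (span F {v, w}) = 2 := by
  have := finrank_span_eq_card ((LinearIndependent.pair_iff' hv).2 h)
  rwa [Matrix.range_cons_cons_empty] at this

variable [Fintype F] {q : ℕ} {hF : Fintype.card F = q ^ 2} {C : CForm (hermT hF) V} (hC : C.Nondeg)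
include hC

theorem exists_small (hu : C.IsIsomTo C u) {n : ℕ} (hn : finrank F V = 2 * n) (h : n = 1 ∨ n = 2) :
    ∃ f : F[X], f.Monic ∧ f.natDegree = n ∧ ∃ v ≠ 0, aeval u f v = 0 := by
  obtain ⟨D, hD⟩ := exists_jd (K := AlgebraicClosure F) u
  have h1 := JD.herm_inv hF (toSQ hC) hu.1 hD
  have hq := two_le_of_card_sq hF
  have hi : Injective fun a : AlgebraicClosure F => a ^ (-q : ℤ) := fun a b e => by
    obtain ⟨τ, hτ⟩ := exists_frq (K := AlgebraicClosure F) hF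
    exact τ.injective (by simpa [hτ] using e)
  have h2 : (D.bind fun x => .replicate x.2 x.1).map (· ^ (-q : ℤ)) = D.bind fun x => .replicate x.2 x.1 := by
    conv_rhs => rw [← h1]
    simp [Multiset.map_bind, Multiset.bind_map]
  have h3 : (D.bind fun x => Multiset.replicate x.2 x.1).card = 2 * n := by simpa [dimD, hn] using hD.dim.symm
  obtain ⟨a, ha, e⟩ : ∃ a ∈ D.bind fun x => .replicate x.2 x.1, (· ^ (-q : ℤ))^[2 * n] a = a := by
    rcases h with rfl | rfl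
    exacts [fix_two h2 h3, fix_four hi h2 h3]
  obtain ⟨x, hx, ha⟩ := Multiset.mem_bind.1 ha
  obtain rfl := Multiset.eq_of_mem_replicate ha
  rw [iterate_mul, show (· ^ (-q : ℤ))^[2] = fr F from funext fun a => by simp [fr, hF, ← pow_mul, sq],
    ← deg_dvd_iff] at e
  have m := minpoly.monic (integ (F := F) x.1)
  have := hD.kd _ m.ne_zero
  obtain ⟨v, h4, h5⟩ := exists_mem_ne_zero_of_ne_bot (p := LinearMap.ker (aeval u (minpoly F x.1))) fun e' => by
    rw [H22.kd, e', finrank_bot, eq_comm, Multiset.sum_eq_zero_iff] at this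
    have := this _ (Multiset.mem_map_of_mem _ hx)
    have := hD.pos x hx
    have := (mu_pos (α := x.1) m.ne_zero).2 (minpoly.aeval F x.1)
    omega
  refine ⟨X ^ (n - (minpoly F x.1).natDegree) * minpoly F x.1, (monic_X_pow _).mul m, ?_, v, h5, by
    rw [map_mul, End.mul_apply, h4, map_zero]⟩
  rw [(monic_X_pow _).natDegree_mul m, natDegree_X_pow, Nat.sub_add_cancel (Nat.le_of_dvd (by omega) e)]

theorem ev_two (hu : C.IsIsomTo C u) (hn : finrank F V = 2) : ∃ v ≠ 0, ∃ c : F, u v = c • v := by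
  obtain ⟨f, h1, h2, v, h3, h4⟩ := exists_small hC hu (n := 1) hn (.inl rfl)
  rw [h1.eq_X_add_C h2] at h4
  exact ⟨v, h3, -f.coeff 0, by simpa [add_eq_zero_iff_eq_neg] using h4⟩

theorem ev_two' (hu : C.IsIsomTo C u) (hn : finrank F V = 2) (a : F) :
    ∃ v ≠ 0, ∃ c : F, u v = c • v ∧ (c ≠ a ∨ C.N v = 0) := by
  by_contra! H
  obtain ⟨v, h1, c, h2⟩ := ev_two hC hu hn
  obtain ⟨rfl, h3⟩ := H v h1 c h2
  obtain ⟨w, a1, a2, d, a3⟩ := ev_of_one (W := C.perp (F ∙ v)) (by have := finrank_perp_singleton hC h1; omega)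
    (perp_inv hC hu (ev_inv h2))
  obtain ⟨rfl, -⟩ := H w a2 d a3
  obtain ⟨z, b1, b2⟩ := herm_exists_singular hC hn.ge
  refine (H z b1 d ?_).2 b2
  have : span F {v, w} = ⊤ := eq_top_of_finrank_eq ((finrank_pair h1 fun c e => a2 (by
    have := C.mem_perp_singleton.1 a1
    rw [← e, C.B_smul_right, H11.herm_B_self, mul_eq_zero] at this
    rw [← e, this.resolve_right h3, zero_smul])).trans hn.symm)
  obtain ⟨s, t, rfl⟩ := mem_span_pair.1 (this.ge (mem_top (x := z)))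
  simp [h2, a3, smul_comm d]

theorem adj_det {W W' : Submodule F V} {g : V ≃ₗ[F] V} (hg : g ∈ C.isom) (e : W.map (g : V →ₗ[F] V) = W')
    (h : ∀ a : F, a ≠ 0 → ∃ k ∈ C.stab W, (LinearEquiv.det k.1 : F) = a * (a ^ q)⁻¹) :
    ∃ x ∈ C.isom ⊓ SLV F V, W.map (x : V →ₗ[F] V) = W' := by
  obtain ⟨a, h1, h2⟩ := exists_pow_pred_eq hF (herm_det_norm hC ⟨g, hg⟩)
  obtain ⟨k, h3, h4⟩ := h a h1
  refine ⟨g * k, ⟨C.isom.mul_mem hg k.2, Units.ext ?_⟩, ?_⟩
  · rw [map_mul, Units.val_mul, h4, ← mul_assoc, ← h2, mul_inv_cancel₀ (pow_ne_zero _ h1), Units.val_one]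
  · rw [LinearEquiv.coe_toLinearMap_mul, End.mul_eq_comp, Submodule.map_comp, mem_stab_iff_map.1 h3, e]

theorem fam_nd (h3 : 3 ≤ finrank F V) :
    Fam (C.isom ⊓ SLV F V) glStab fun W => ∃ v, C.N v ≠ 0 ∧ W = F ∙ v := by
  have nz : ∀ {v}, C.N v ≠ 0 → v ≠ 0 := fun h e => h (e ▸ C.N_zero)
  refine fam_stab ?_ ?_
  · rintro _ _ ⟨v, hv, rfl⟩ ⟨w, hw, rfl⟩
    obtain ⟨a, ha⟩ := exists_norm_eq hF (c := C.N w / C.N v) (by rw [div_pow, herm_N_pow, herm_N_pow])
    have e : C.N (a • v) = C.N w := by rw [H11.herm_N_smul, ha, div_mul_cancel₀ _ hv]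
    obtain ⟨g, g1, g2⟩ := hC.witt_one (nz (e ▸ hw)) (nz hw) e.symm
    refine adj_det hC g1 (by rw [← g2, ← span_singleton_smul_eq (IsUnit.mk0 a (left_ne_zero_of_smul (nz (e ▸ hw)))),
      map_span, Set.image_singleton]; rfl) fun b hb => ?_
    have n := nondegOn_singleton (C := C) (u := v) (by rwa [H11.herm_B_self])
    obtain ⟨e, e1, e2⟩ := herm_exists_singular (hC.restrict_perp n) (by
      have := finrank_perp_singleton hC (nz hv); omega)
    obtain ⟨f, f1, f2, f3⟩ := hC.exists_partner (Z := F ∙ v) (x := e)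
      (fun h => e1 (Subtype.ext (disjoint_def.1 (C.nondegOn_iff.1 n) _ h e.2))) e2 e.2
    obtain ⟨k, -, -, k1, k2⟩ := IsHypPair.exists_torus hC ⟨e2, f2, f3⟩ hb
    exact ⟨k, mem_stab_of_mapsTo (ev_inv (u := k.1.toLinearMap) ((k1 v (C.B_swap_zero (C.mem_perp_singleton.1 e.2))
      (C.B_swap_zero (C.mem_perp_singleton.1 f1))).trans (one_smul F v).symm)), k2⟩
  · rintro _ ⟨v, hv, rfl⟩
    obtain ⟨e, e1, e2⟩ := herm_exists_singular hC (by omega)
    obtain ⟨f, hf⟩ := exists_hypPair hC e1 e2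
    obtain ⟨a, ha⟩ := C.N_mem v
    have e' : C.N ((hermT hF).σ a • e + (1 : F) • f) = C.N v := by rw [hf.N_comb, FormType.σσ, mul_one, ha]
    obtain ⟨g, g1, g2⟩ := hC.witt_one (nz (e' ▸ hv)) (nz hv) e'.symm
    obtain ⟨c, c1, c2⟩ := exists_trace_zero hF
    have b : C.B (g e) v = 1 := by rw [← g2, isom_B g1]; simp [hf.B_ee, hf.pair]
    refine tv_not_le le_rfl (tvOk_hermT.2 c2) c1 ((isom_N g1 _).trans e2) (fun h => ?_) (mem_span_singleton_self v)
      (b ▸ one_ne_zero)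
    obtain ⟨t, ht⟩ := mem_span_singleton.1 h
    have := (isom_N g1 _).trans e2
    rw [← ht, H11.herm_N_smul, mul_eq_zero, mul_eq_zero] at this
    obtain rfl : t = 0 := (this.resolve_right hv).elim id eq_zero_of_pow_eq_zero
    simp [← ht] at b

theorem fam_ts : Fam (C.isom ⊓ SLV F V) glStab fun W => C.TS W ∧ finrank F W = 2 := by
  have nz : ∀ {W : Submodule F V}, finrank F W = 2 → W ≠ ⊥ := by rintro _ h rfl; simp at h
  refine fam_stab (fun W W' a b => ?_) fun W a => ?_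
  · obtain ⟨g, g1, g2⟩ := a.1.exists_map_eq hC b.1 (a.2.trans b.2.symm)
    exact adj_det hC g1 g2 fun c hc => exists_stab_det hC a.1 (nz a.2) hc
  · obtain ⟨w, h1, h2⟩ := exists_mem_ne_zero_of_ne_bot (nz a.2)
    obtain ⟨f, hf⟩ := exists_hypPair hC h2 (a.1.1 w h1)
    obtain ⟨c, c1, c2⟩ := exists_trace_zero hF
    exact tv_not_le le_rfl (tvOk_hermT.2 c2) c1 hf.right (fun h => one_ne_zero (hf.pair.symm.trans (a.1.2 _ h1 _ h))) h1
      (C.B_swap_ne (hf.pair ▸ one_ne_zero))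

/-- the isometry induced on `e^⊥ / e` -/
theorem exists_quot (hu : C.IsIsomTo C u) {e f : V} (h : IsHypPair C e f) {a : F} (he : u e = a • e) :
    ∃ k : End F (C.perp (span F {e, f})), (C.restrict _).IsIsomTo (C.restrict _) k ∧
      ∀ x : C.perp (span F {e, f}), u x = k x + C.B f (u x) • e := by
  have h1 : ∀ x ∈ C.perp (span F {e, f}), C.B e (u x) = 0 := fun x hx => C.mem_perp_singleton.1
    (perp_inv hC hu (ev_inv he) x
      (C.perp_anti (span_mono (by simp)) hx))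
  have h2 : C.B f e = 1 := h.B_fe
  have h3 : ∀ x y : C.perp (span F {e, f}), C.B (u x - C.B f (u x) • e) (u y - C.B f (u y) • e) = C.B x y := fun x y => by
    simp [C.B_sub_left, C.B_smul_left, h.B_ee, h1 _ y.2, C.B_swap_zero (h1 _ x.2), hu.1]
  refine ⟨((u - (C.B f ∘ₗ u).smulRight e) ∘ₗ Submodule.subtype _).codRestrict _ fun x => C.mem_perp_pair.2 (by
    simp [h1 _ x.2, h.B_ee, h2]), ⟨h3, fun x => ?_⟩, fun x => by simp⟩
  rw [← H11.herm_B_self, ← H11.herm_B_self]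
  exact h3 x x

theorem su4_main (hn : finrank F V = 4) (hu : C.IsIsomTo C u) (H : ∀ v (c : F), u v = c • v → C.N v = 0) :
    ∃ W, (C.TS W ∧ finrank F W = 2) ∧ ∀ x ∈ W, u x ∈ W := by
  by_cases h : ∃ e ≠ 0, ∃ a : F, u e = a • e
  · obtain ⟨e, e0, a, he⟩ := h
    obtain ⟨f, hf⟩ := exists_hypPair hC e0 (H e a he)
    obtain ⟨k, k1, k2⟩ := exists_quot hC hu hf he
    obtain ⟨w, w0, c, w1, w2⟩ := ev_two' (hf.nondeg_perp hC) k1 (by have := hf.finrank_perp hC; omega) a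
    have w3 := (C.mem_perp_pair.1 w.2).1
    have w4 := k2 w
    rw [w1] at w4
    replace w2 : C.N w = 0 := w2.elim (fun h => by
      generalize C.B f (u w) = b at w4
      have := H (w + (b / (c - a)) • e) c (by
        rw [map_add, map_smul, he, w4, Submodule.coe_smul]
        have := sub_ne_zero.2 h
        match_scalars <;> field)
      rwa [C.N_add_of_orth (by simp [C.B_swap_zero w3]), C.N_smul_of_zero hf.left, add_zero] at this) id
    refine ⟨span F {e, w.1}, ⟨ts_span (by simp [hf.left, w2]) (by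
      simp [hf.B_ee, w3, C.B_swap_zero w3, C.B_self_of_zero w2]), finrank_pair e0 fun t ht => w0 (Subtype.ext ?_)⟩,
      span_inv ?_⟩
    · have := (C.mem_perp_pair.1 w.2).2
      rw [← ht, C.B_smul_right, hf.B_fe, mul_eq_zero] at this
      simp [← ht, this.resolve_right (hermT hF).ε_ne]
    · rintro _ (rfl | rfl) <;> rw [mem_span_pair]
      exacts [⟨a, 0, by simp [he]⟩, ⟨_, c, by rw [add_comm]; exact w4.symm⟩]
  push Not at h
  obtain ⟨f, f1, f2, v, h3, h4⟩ := exists_small hC hu (n := 2) hn (.inr rfl)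
  rw [f1.as_sum, f2] at h4
  have d := finrank_pair h3 fun c e => h v h3 c e.symm
  have i : ∀ x ∈ span F {v, u v}, u x ∈ span F {v, u v} := span_inv (by
    rintro _ (rfl | rfl) <;> rw [mem_span_pair]
    exacts [⟨0, 1, by simp⟩, ⟨-f.coeff 0, -f.coeff 1, by
      simp [Finset.sum_range_succ, sq, add_eq_zero_iff_eq_neg] at h4; simp [h4, add_comm]⟩])
  generalize span F {v, u v} = W at d i
  have := finrank_mono (inf_le_left : W ⊓ C.perp W ≤ W)
  obtain e | e | e : finrank F ↥(W ⊓ C.perp W) = 0 ∨ finrank F ↥(W ⊓ C.perp W) = 1 ∨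
    finrank F ↥(W ⊓ C.perp W) = finrank F W := by omega
  · obtain ⟨w, w0, c, w1⟩ := ev_two (C.restrict_nondeg_iff.2 (C.nondegOn_iff.2 (disjoint_iff.2 (finrank_eq_zero.1 e))))
      (u := u.restrict i) ⟨fun x y => hu.1 x y, fun x => hu.2 x⟩ d
    exact absurd (congrArg Subtype.val w1) (h _ (by simpa using w0) c)
  · obtain ⟨w, -, w0, c, w1⟩ := ev_of_one e fun x hx => ⟨i x hx.1, perp_inv hC hu i x hx.2⟩
    exact absurd w1 (h _ w0 c)
  · have := inf_eq_left.1 (eq_of_le_of_finrank_eq inf_le_left e)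
    exact ⟨W, ⟨⟨fun x hx => H11.herm_B_self C x ▸ C.mem_perp.1 (this hx) x hx, fun x hx y hy =>
      C.mem_perp.1 (this hy) x hx⟩, d⟩, i⟩

omit hC in
theorem nd_or (g : V ≃ₗ[F] V) : (∃ W : Submodule F V, (∃ v, C.N v ≠ 0 ∧ W = F ∙ v) ∧ g ∈ glStab W) ∨
    ∀ v (c : F), g v = c • v → C.N v = 0 :=
  or_iff_not_imp_right.2 fun h => by
    push Not at h
    obtain ⟨v, c, h1, h2⟩ := h
    exact ⟨_, ⟨v, h2, rfl⟩, mem_glStab_of_mapsTo (ev_inv (u := g.toLinearMap) h1)⟩

omit hC in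
theorem cov_su {n : ℕ} (hn : 3 ≤ n) {κ : Type*} {T : κ → Subgroup ((Fin n → F) ≃ₗ[F] (Fin n → F))} {Q : κ → Prop}
    (hT : Fam ((hermC (Fin n) hF).isom ⊓ SLV F _) T Q) (h : ∀ g ∈ (hermC (Fin n) hF).isom ⊓ SLV F _,
      (∀ v (c : F), g v = c • v → (hermC (Fin n) hF).N v = 0) → ∃ k, Q k ∧ g ∈ T k) : Cov (Cfsg.PSU n F q) := by
  refine cov_fam ((Subgroup.subtype _).comp ((Subgroup.subtype _).comp (H11.suEquivSisom hF n).toMonoidHom)) ?_
    (fun z hz => ?_) (fam_nd (hermC_nondeg hF) (by simpa)) hT fun g hg => (nd_or g).imp_right (h g hg)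
  · ext g
    refine ⟨?_, fun h => ⟨(H11.suEquivSisom hF n).symm ⟨⟨g, h.1⟩, h.2⟩, by simp⟩⟩
    rintro ⟨g, rfl⟩
    exact ⟨(H11.suEquivSisom hF n g).1.2, (H11.suEquivSisom hF n g).2⟩
  · obtain ⟨a, ha⟩ := (su_mem_center_iff hF (by omega) z).1 hz
    exact ⟨a, fun x => (H11.suEquivSisom_apply hF n z x).trans (by simp [ha])⟩

omit hC in
theorem cov_su4 (hF : Fintype.card F = q ^ 2) : Cov (Cfsg.PSU 4 F q) :=
  cov_su (hF := hF) (by omega) (fam_ts (hermC_nondeg hF)) fun g hg h =>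
    (su4_main (u := g.toLinearMap) (hermC_nondeg hF) (by simp) hg.1 h).imp fun _ h => ⟨h.1, mem_glStab_of_mapsTo h.2⟩

end H27.Cov
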