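import Cfsg.Agent.H27.Cov2
import Cfsg.Agent.H8.EAG2a

/-! Coverings by two conjugacy classes of subgroups, IV: `Sp` and `G₂` in characteristic two. -/

set_option autoImplicit false

namespace H27.Cov

open Module Function H22 H12 H12.CForm H11 Submodule

variable {F : Type*} [Field F] {V : Type*} [AddCommGroup V] [Module F V] [FiniteDimensional F V]

theorem fix_coset {T : FormType F} {C : CForm T V} (hC : C.Nondeg) {g : V ≃ₗ[F] V} (hg : g ∈ C.isom) {o : V}
    (ho : g o = o) : (∃ a, C.B a o ≠ 0 ∧ ∃ c : F, g a = a + c • o) ∨ ∃ z, C.B o z = 0 ∧ g z = z + o := by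
  refine or_iff_not_imp_left.2 fun h => ?_
  obtain ⟨z, h1, h2⟩ : o ∈ (C.perp (F ∙ o)).map (g.toLinearMap - 1) := by
    rw [← hC.perp_perp (Submodule.map _ _)]
    refine C.mem_perp.2 fun x hx => by_contra fun e => h ⟨x, e, ?_⟩
    obtain ⟨x, rfl⟩ := g.surjective x
    obtain ⟨c, hc⟩ : ∃ c : F, c • o = g x - x := mem_span_singleton.1 (hC.perp_perp (F ∙ o) ▸ C.mem_perp.2 fun y hy => by
      have := C.mem_perp.1 hx _ ⟨y, hy, rfl⟩
      simp only [LinearMap.sub_apply, End.one_apply, C.B_sub_left, LinearEquiv.coe_coe, isom_B hg] at this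
      rw [map_sub, sub_eq_zero.1 this, sub_self])
    exact ⟨c, by rw [← ho, ← map_smul, hc, map_sub, add_sub_cancel]⟩
  exact ⟨z, C.mem_perp_singleton.1 h1, by rw [← h2]; simp⟩

variable [Finite F] [CharP F 2]

theorem as_two {a b : F} (h : (∃ s, s ^ 2 + s = a) ↔ ∃ s, s ^ 2 + s = b) : ∃ s, s ^ 2 + s = a + b := by
  let φ : F →+ F := (frobenius F 2).toAddMonoidHom + AddMonoidHom.id F
  refine (AddSubgroup.add_mem_iff_of_index_two (H := φ.range) ?_).2 h
  rw [AddSubgroup.index_range, ← Set.ncard_pair (zero_ne_one' F), ← Nat.card_coe_set_eq]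
  refine Nat.card_congr (Equiv.setCongr (Set.ext fun x => ?_))
  change x ^ 2 + x = 0 ↔ x = 0 ∨ x = 1
  rw [sq, ← mul_add_one, mul_eq_zero, CharTwo.add_eq_zero]

theorem exists_as2 : ∃ c : F, ∀ s, s ^ 2 + s ≠ c := by
  by_contra! H
  exact zero_ne_one ((Finite.injective_iff_surjective.2 H) (by simp [CharTwo.add_self_eq_zero] :
    (0 : F) ^ 2 + 0 = 1 ^ 2 + 1))

section sp
variable {C : CForm (altType F) V} (hC : C.Nondeg) {Q : V → F} (h1 : ∀ x y, Q (x + y) = Q x + Q y + C.B x y)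
  (h2 : ∀ (c : F) x, Q (c • x) = c ^ 2 * Q x)

/-- the stabiliser of a function -/
def Fx (R : V → F) : Subgroup (V ≃ₗ[F] V) where
  carrier := {g | ∀ x, R (g x) = R x}
  mul_mem' hg hh x := (hg _).trans (hh x)
  one_mem' _ := rfl
  inv_mem' {g} hg x := by rw [← hg, H12.apply_inv_apply]

include h1 h2

omit [FiniteDimensional F V] [Finite F] in
theorem q_stv (v u x : V) (c : F) : Q ((stv C u c).1 x) + C.B v ((stv C u c).1 x) ^ 2 =
    Q x + C.B v x ^ 2 + (c + c ^ 2 * (Q u + C.B v u ^ 2)) * C.B u x ^ 2 := by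
  have h : (2 : F) = 0 := CharTwo.two_eq_zero
  rw [stv_apply, h1, h2, map_add, map_smul, map_smul, alt_B_swap u x]
  simp only [smul_eq_mul]
  linear_combination (C.B v x * c * C.B u x * C.B v u - c * C.B u x ^ 2) * h

include hC

theorem fam_q (h3 : 3 ≤ finrank F V) {P : V → Prop} (hP : ∀ v w, P v → P w → ∃ s, s ^ 2 + s = Q v + Q w) :
    Fam C.isom (fun v => Fx fun x => Q x + C.B v x ^ 2) P := by
  have h : (2 : F) = 0 := CharTwo.two_eq_zero
  haveI := nontrivial_of_finrank_pos (R := F) (M := V) (by omega)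
  obtain ⟨e, e0⟩ := exists_ne (0 : V)
  refine ⟨fun v w a b => ?_, fun v _ => ⟨fun H => ?_, fun g hg a ha x => ?_⟩⟩
  · obtain ⟨s, hs⟩ := hP v w a b
    obtain ⟨c, hc⟩ : ∃ c : F, c + c ^ 2 * (Q (v + w) + C.B w (v + w) ^ 2) = 1 := by
      have : Q (v + w) + C.B w (v + w) ^ 2 = (s + C.B v w) ^ 2 + (s + C.B v w) := by
        rw [h1, map_add, H11.alt_B_self, alt_B_swap v w, ← hs]; linear_combination (-s * C.B v w) * h
      by_cases h0 : Q (v + w) + C.B w (v + w) ^ 2 = 0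
      · exact ⟨1, by rw [h0]; simp⟩
      · exact ⟨(s + C.B v w) / (Q (v + w) + C.B w (v + w) ^ 2), by field_simp; linear_combination -this⟩
    have k : ∀ x, Q ((stv C (v + w) c).1 x) + C.B w ((stv C (v + w) c).1 x) ^ 2 = Q x + C.B v x ^ 2 := fun x => by
      rw [q_stv h1 h2, hc, C.B_add_left]; linear_combination (C.B w x ^ 2 + C.B v x * C.B w x) * h
    refine ⟨_, (stv C (v + w) c).2, fun g hg x => ?_⟩
    obtain ⟨x, rfl⟩ := (stv C (v + w) c).1.surjective x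
    simpa [k] using hg x
  · obtain ⟨u, u0, hu⟩ : ∃ u ≠ 0, Q u + C.B v u ^ 2 ≠ 1 := by
      by_contra! H
      obtain ⟨f, f1, f2⟩ := exists_perp_not_mem hC (F ∙ e) (by rw [finrank_span_singleton e0]; omega)
      have := H (e + f) fun e' => f2 (mem_span_singleton.2 ⟨-1, by simp [neg_eq_of_add_eq_zero_right e']⟩)
      rw [h1, C.mem_perp_singleton.1 f1, map_add] at this
      exact zero_ne_one (α := F) (by
        linear_combination this - H e e0 - H f (fun e' => f2 (e' ▸ zero_mem _)) - (C.B v e * C.B v f + 1) * h)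
    obtain ⟨x, hx⟩ := hC.exists_eq u0 1
    have := (q_stv h1 h2 v u x 1).symm.trans (H (stv C u 1).2 x)
    rw [hx] at this
    exact hu (by linear_combination this - h)
  · obtain ⟨f, hf⟩ := hC.exists_eq e0 1
    have := isom_B hg e f
    rw [ha, ha, H11.alt_B_smul_left, C.B_smul_right, hf] at this
    simp only [ha, h2, C.B_smul_right]; linear_combination (Q x + C.B v x ^ 2) * this

theorem fix_q {g : V ≃ₗ[F] V} (hg : g ∈ C.isom) : ∃ v, g ∈ Fx fun x => Q x + C.B v x ^ 2 := by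
  have h : (2 : F) = 0 := CharTwo.two_eq_zero
  let r := (frobeniusEquiv F 2).symm
  have hr : ∀ a, r a ^ 2 = a := frobenius_apply_frobeniusEquiv_symm F 2
  obtain ⟨c, hc⟩ := hC.exists_rep
    { toFun x := r (Q (g x) + Q x)
      map_add' x y := by
        rw [← map_add, map_add g, h1, h1, isom_B hg]; congr 1; linear_combination C.B x y * h
      map_smul' a x := by
        rw [map_smul, h2, h2, ← mul_add, map_mul]; exact congrArg (· * _) (frobeniusEquiv_symm_apply_frobenius F 2 a) }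
  obtain ⟨y, rfl⟩ : c ∈ LinearMap.range (g.toLinearMap - algebraMap F (End F V) 1) := by
    rw [← hC.perp_perp (LinearMap.range _), perp_range hC hg (by simp)]
    refine C.mem_perp'.2 fun x hx => ?_
    have : g x = x := by simpa [sub_eq_zero] using hx
    simp [hc, this, CharTwo.add_self_eq_zero]
  refine ⟨g y, fun x => ?_⟩
  have a := hr (Q (g x) + Q x)
  rw [show r _ = C.B (g y) x - C.B y x by simpa using (hc x).symm] at a
  simp only [isom_B hg]
  linear_combination -a + (C.B y x ^ 2 - C.B (g y) x * C.B y x - Q x) * h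

end sp

omit [CharP F 2] in
theorem cov_spf {m : ℕ} (hm : 0 < m) {ι κ : Type*} {S : ι → Subgroup _} {P : ι → Prop} {T : κ → Subgroup _}
    {Q : κ → Prop} (hS : Fam (spForm (Fin m) F).isom S P) (hT : Fam (spForm (Fin m) F).isom T Q)
    (h : ∀ g ∈ (spForm (Fin m) F).isom, (∃ i, P i ∧ g ∈ S i) ∨ ∃ k, Q k ∧ g ∈ T k) : Cov (Cfsg.PSp m F) := by
  haveI : Nonempty (Fin m) := ⟨⟨0, hm⟩⟩
  refine cov_fam ((Subgroup.subtype _).comp spEquivIsom.toMonoidHom) ?_ (fun z hz => ?_) hS hT h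
  · rw [MonoidHom.range_comp, MonoidHom.range_eq_top.2 spEquivIsom.surjective, ← MonoidHom.range_eq_map,
      Subgroup.range_subtype]
  · rcases (alt_mem_center_iff spForm_nondeg _).1 ((mem_center_equiv spEquivIsom z).2 hz) with h | h
    exacts [⟨1, by simpa using h⟩, ⟨-1, by simpa using h⟩]

theorem cov_sp2 {m : ℕ} (hm : 2 ≤ m) : Cov (Cfsg.PSp m F) := by
  have h : (2 : F) = 0 := CharTwo.two_eq_zero
  let Q : (Fin m ⊕ Fin m → F) → F := fun x => ∑ i, x (.inl i) * x (.inr i)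
  have h1 : ∀ x y, Q (x + y) = Q x + Q y + (spForm (Fin m) F).B x y := fun x y => by
    rw [spForm_B, J_form_apply, ← Finset.sum_add_distrib, ← Finset.sum_add_distrib]
    exact Finset.sum_congr rfl fun i _ => by simp only [Pi.add_apply]; linear_combination (x (.inl i) * y (.inr i)) * h
  have h2 : ∀ (c : F) x, Q (c • x) = c ^ 2 * Q x := fun c x => by
    rw [Finset.mul_sum]
    exact Finset.sum_congr rfl fun i _ => by simp only [Pi.smul_apply, smul_eq_mul]; ring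
  have h3 : 3 ≤ finrank F (Fin m ⊕ Fin m → F) := by simp; omega
  refine cov_spf (by omega) (fam_q spForm_nondeg h1 h2 h3 (P := fun v => ∃ s, s ^ 2 + s = Q v)
    fun _ _ a b => as_two (iff_of_true a b)) (fam_q spForm_nondeg h1 h2 h3 (P := fun v => ¬ ∃ s, s ^ 2 + s = Q v)
    fun _ _ a b => as_two (iff_of_false a b)) fun g hg => ?_
  obtain ⟨v, hv⟩ := fix_q spForm_nondeg h1 h2 hg
  exact (em _).imp (⟨v, ·, hv⟩) (⟨v, ·, hv⟩)

section g2
open H8 Cfsg.Lie
omit [Finite F] [CharP F 2]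

/-- the norm -/
def nz (x : Fin 8 → F) : F := x 0 * x 7 - (x 1 * x 4 + x 2 * x 5 + x 3 * x 6)

theorem zorn_sq (x : Fin 8 → F) : zornMul x x = (x 0 + x 7) • x - nz x • oneZ F := by
  apply fin8_ext <;> simp [zornMul_eq, oneZ, nz] <;> ring

theorem aut_inv (g : autZ F) (x : Fin 8 → F) : g.1 x 0 + g.1 x 7 = x 0 + x 7 ∧ nz (g.1 x) = nz x := by
  have h := autZ_mul g x x
  rw [zorn_sq, zorn_sq, map_sub, map_smul, map_smul, autZ_one] at h
  by_cases e : g.1 x 0 + g.1 x 7 = x 0 + x 7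
  · exact ⟨e, by simpa [e, oneZ] using congrFun h.symm 0⟩
  have : g.1 x = ((nz (g.1 x) - nz x) / (g.1 x 0 + g.1 x 7 - (x 0 + x 7))) • oneZ F := by
    rw [div_eq_inv_mul, mul_smul, eq_inv_smul_iff₀ (sub_ne_zero.2 e)]
    linear_combination (norm := module) -h
  rw [← autZ_one g, ← map_smul, g.1.injective.eq_iff] at this
  rw [this, map_smul, autZ_one]
  exact ⟨rfl, rfl⟩

/-- long root elements -/
def trL (u w : Fin 3 → F) : (Fin 8 → F) →ₗ[F] (Fin 8 → F) where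
  toFun x := ![x 0, x 1 + (w 0 * x 1 + w 1 * x 2 + w 2 * x 3) * u 0, x 2 + (w 0 * x 1 + w 1 * x 2 + w 2 * x 3) * u 1,
    x 3 + (w 0 * x 1 + w 1 * x 2 + w 2 * x 3) * u 2, x 4 - (u 0 * x 4 + u 1 * x 5 + u 2 * x 6) * w 0,
    x 5 - (u 0 * x 4 + u 1 * x 5 + u 2 * x 6) * w 1, x 6 - (u 0 * x 4 + u 1 * x 5 + u 2 * x 6) * w 2, x 7]
  map_add' x y := by apply fin8_ext <;> simp <;> ring
  map_smul' c x := by apply fin8_ext <;> simp <;> ring

theorem trL_apply (u w : Fin 3 → F) (x : Fin 8 → F) : trL u w x =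
  ![x 0, x 1 + (w 0 * x 1 + w 1 * x 2 + w 2 * x 3) * u 0, x 2 + (w 0 * x 1 + w 1 * x 2 + w 2 * x 3) * u 1,
    x 3 + (w 0 * x 1 + w 1 * x 2 + w 2 * x 3) * u 2, x 4 - (u 0 * x 4 + u 1 * x 5 + u 2 * x 6) * w 0,
    x 5 - (u 0 * x 4 + u 1 * x 5 + u 2 * x 6) * w 1, x 6 - (u 0 * x 4 + u 1 * x 5 + u 2 * x 6) * w 2, x 7] := rfl

theorem exists_tr (u w : Fin 3 → F) (h : u 0 * w 0 + u 1 * w 1 + u 2 * w 2 = 0) : ∃ g : autZ F, ∀ x, g.1 x = trL u w x :=
  have k : ∀ u : Fin 3 → F, u 0 * w 0 + u 1 * w 1 + u 2 * w 2 = 0 → ∀ x, trL u w (trL (-u) w x) = x := fun u h x => by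
    apply fin8_ext <;> simp [trL_apply] <;> grind
  ⟨⟨LinearEquiv.ofLinear (trL u w) (trL (-u) w) (LinearMap.ext (k u h))
    (LinearMap.ext fun x => by simpa using k (-u) (by simp; grind) x), fun x y => by
    change trL u w _ = zornMul (trL u w x) (trL u w y)
    apply fin8_ext <;> simp [trL_apply, zornMul_eq] <;> grind⟩, fun _ => rfl⟩

/-- normal forms -/
def NF (x : Fin 8 → F) : Prop := ∃ g : autZ F, ∃ n, g.1 x = ![0, -n, 0, 0, 1, 0, 0, 1]

variable {x : Fin 8 → F}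

theorem NF.of (g : autZ F) (h : NF (g.1 x)) : NF x := let ⟨k, n, e⟩ := h; ⟨k * g, n, e⟩

theorem NF.tr (u w : Fin 3 → F) (h : u 0 * w 0 + u 1 * w 1 + u 2 * w 2 = 0) (h' : NF (trL u w x)) : NF x :=
  let ⟨g, e⟩ := exists_tr u w h; .of g (e x ▸ h')

theorem NF.xv (v : Fin 3 → F) (h : NF (xvL v x)) : NF x := .of (H8.xv v) h

theorem nf_four (h : x 0 + x 7 = 1) (h4 : x 4 = 1) : NF x := by
  have l0 : ∀ x : Fin 8 → F, x 0 = 0 → x 2 = 0 → x 3 = 0 → x 4 = 1 → x 7 = 1 → NF x := fun x a b c d e =>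
    .tr ![1, 0, 0] ![0, x 5, x 6] (by simp) ⟨1, -x 1, by apply fin8_ext <;> simp [trL_apply, *]⟩
  have l1 : ∀ x : Fin 8 → F, x 0 = 0 → x 4 = 1 → x 5 = 0 → x 6 = 0 → x 7 = 1 → NF x := fun x a b c d e =>
    .xv ![0, x 2, x 3] (by apply l0 <;> simp [xvL_apply, mul_comm, *])
  have l2 : ∀ x : Fin 8 → F, x 0 = 0 → x 4 = 1 → x 7 = 1 → NF x := fun x a b c =>
    .tr ![1, 0, 0] ![0, x 5, x 6] (by simp) (by apply l1 <;> simp [trL_apply, *])
  exact .xv ![x 0, 0, 0] (by apply l2 <;> simp [xvL_apply, add_comm (x 7), *])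

theorem nf_B (h : x 0 + x 7 = 1) (h4 : x 4 ≠ 0 ∨ x 5 ≠ 0 ∨ x 6 ≠ 0) : NF x := by
  have l5 : ∀ x : Fin 8 → F, x 0 + x 7 = 1 → x 5 ≠ 0 → NF x := fun x a b =>
    .tr ![0, 1, 0] ![(x 4 - 1) / x 5, 0, 0] (by simp) (by apply nf_four <;> simp [trL_apply, mul_div_cancel₀, *])
  by_cases h5 : x 5 = 0
  · rcases h4 with h4 | h4 | h4
    exacts [.tr ![1, 0, 0] ![0, 1, 0] (by simp) (by apply l5 <;> simp [trL_apply, *]), absurd h5 h4,
      .tr ![0, 0, 1] ![0, 1, 0] (by simp) (by apply l5 <;> simp [trL_apply, *])]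
  exact l5 x h h5

theorem nf_all [CharP F 2] (h : x 0 + x 7 = 1) : NF x := by
  have l : ∀ x : Fin 8 → F, x 0 + x 7 = 1 → x 1 ≠ 0 ∨ x 2 ≠ 0 ∨ x 3 ≠ 0 → NF x := fun x a b =>
    .of (sw F) (nf_B (x := swL x) (by simpa [swL_apply, add_comm] using a) (by simpa [swL_apply] using b))
  by_contra H
  have a := mt (l x h) H
  have b := mt (nf_B h) H
  push Not at a b
  exact H (.xv ![1, 0, 0] (by apply l <;> simp [xvL_apply, CharTwo.sub_eq_add, *]))

/-- the stabiliser of a quadratic subalgebra -/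
def Sz (a : Fin 8 → F) : Subgroup (autZ F) where
  carrier := {g | ∃ c : F, g.1 a = a + c • oneZ F}
  mul_mem' := by
    rintro g h ⟨c, hc⟩ ⟨d, hd⟩
    exact ⟨c + d, by simp [hc, hd, autZ_one, add_smul, add_assoc]⟩
  one_mem' := ⟨0, by simp⟩
  inv_mem' := by
    rintro g ⟨c, hc⟩
    exact ⟨-c, g.1.injective (by simp [hc, autZ_one])⟩

theorem Cov.congr {G H : Type*} [Group G] [Group H] (e : G ≃* H) (h : Cov H) : Cov G := by
  obtain ⟨A, B, h1, h2, h⟩ := h
  have k : ∀ A : Subgroup H, A ≠ ⊤ → A.comap e.toMonoidHom ≠ ⊤ := fun A h e' =>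
    h (eq_top_iff.2 fun x _ => by simpa using e'.ge (Subgroup.mem_top (e.symm x)))
  exact ⟨_, _, k A h1, k B h2, fun g => let ⟨x, hx⟩ := h (e g); ⟨e.symm x, by simpa using hx⟩⟩

theorem cov_g2 [Finite F] [CharP F 2] : Cov (G2 F) := by
  have h2 : (2 : F) = 0 := CharTwo.two_eq_zero
  obtain ⟨n, hn⟩ := exists_as2 (F := F)
  have pr : ∀ n : F, Sz ![0, -n, 0, 0, 1, 0, 0, 1] ≠ ⊤ := fun n e => by
    obtain ⟨g, hg⟩ := exists_tr (F := F) ![1, 0, 0] ![0, 1, 0] (by simp)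
    obtain ⟨c, hc⟩ := e.ge (Subgroup.mem_top g)
    simpa [hg, trL_apply, oneZ] using congrFun hc 5
  refine .congr (g2Equiv F) ⟨_, _, pr 0, pr n, fun g => ?_⟩
  let Q : QuadraticForm F (Fin 8 → F) := .proj 0 7 - (.proj 1 4 + .proj 2 5 + .proj 3 6)
  have hQ : ∀ x, Q x = nz x := fun x => by simp [Q, nz]
  have hB : ∀ x y, (ofQuad Q).B x y = x 0 * y 7 + x 7 * y 0 - (x 1 * y 4 + x 4 * y 1 + x 2 * y 5 + x 5 * y 2 +
      x 3 * y 6 + x 6 * y 3) := fun x y => by simp [QuadraticMap.polar, hQ, nz]; ring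
  have hC : (ofQuad Q).Nondeg := fun x h => by
    have := fun i => (hB _ _).symm.trans (h (Pi.single i 1))
    apply fin8_ext
    exacts [by simpa using this 7, by simpa using this 4, by simpa using this 5, by simpa using this 6,
      by simpa using this 1, by simpa using this 2, by simpa using this 3, by simpa using this 0]
  rcases fix_coset hC (mem_isom_ofQuad.2 fun x => by rw [hQ, hQ, (aut_inv g x).2]) (autZ_one g) with
    ⟨a, a1, c, a2⟩ | ⟨z, z1, z2⟩
  swap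
  · have := (aut_inv g z).2
    rw [z2] at this
    simp [hB, oneZ, nz] at z1 this
    exact absurd (by linear_combination this - z1) (one_ne_zero' F)
  replace a1 : a 0 + a 7 ≠ 0 := by simpa [hB, oneZ] using a1
  have key : ∀ s, ∃ x : autZ F, x * g * x⁻¹ ∈
      Sz ![0, -(nz ((a 0 + a 7)⁻¹ • a) + (s ^ 2 + s)), 0, 0, 1, 0, 0, 1] := fun s => by
    have t : ((a 0 + a 7)⁻¹ • a) 0 + ((a 0 + a 7)⁻¹ • a) 7 = 1 := by simp [← mul_add, a1]
    have e : g.1 ((a 0 + a 7)⁻¹ • a) = (a 0 + a 7)⁻¹ • a + ((a 0 + a 7)⁻¹ * c) • oneZ F := by simp [a2, mul_smul]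
    generalize (a 0 + a 7)⁻¹ • a = b at t e
    obtain ⟨k, m, hk⟩ := nf_all (x := b + s • oneZ F) (by simp [oneZ]; linear_combination t + s * h2)
    have := (aut_inv k (b + s • oneZ F)).2
    rw [hk] at this
    obtain rfl : m = nz b + (s ^ 2 + s) := by simp [nz, oneZ] at this ⊢; linear_combination this + s * t
    exact ⟨k, (a 0 + a 7)⁻¹ * c, by
      rw [← hk]; simp [e, autZ_one, add_right_comm, show k.1.symm (oneZ F) = _ from autZ_one k⁻¹]⟩
  generalize nz ((a 0 + a 7)⁻¹ • a) = m at key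
  by_cases h : ∃ s, s ^ 2 + s = m
  · obtain ⟨s, rfl⟩ := h
    exact (key s).imp fun x hx => .inl (by rwa [CharTwo.add_self_eq_zero] at hx)
  · obtain ⟨s, hs⟩ := as_two (iff_of_false h fun ⟨s, hs⟩ => hn s hs)
    exact (key s).imp fun x hx => .inr (by rwa [hs, ← add_assoc, CharTwo.add_self_eq_zero, zero_add] at hx)

end g2

end H27.Cov
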