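import Mathlib

/-! The largest prime divisor of a binomial coefficient forces a carry in the last digit. -/

set_option autoImplicit false

namespace H27.DA

open Nat

theorem choose_mono {m j k : ℕ} (h : j ≤ k) (hk : k ≤ m / 2) : m.choose j ≤ m.choose k := by
  induction k, h using Nat.le_induction with
  | base => exact le_rfl
  | succ k _ ih => exact (ih (by omega)).trans (choose_le_succ_of_lt_half_left (by omega))

theorem choose_mono' {m j k : ℕ} (h : j ≤ k) (hk : j + k ≤ m) : m.choose j ≤ m.choose k := by
  rcases le_total k (m / 2) with a | a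
  · exact choose_mono h a
  · rcases le_or_gt (m - k) (m / 2) with b | b
    · rw [← choose_symm (show k ≤ m by omega)]
      exact choose_mono (by omega) b
    · exact choose_mono h (by omega)

theorem choose_le_pow {m k : ℕ} (hk : k ≤ m) (hm : 0 < m) (S : Finset ℕ)
    (hS : ∀ s, s.Prime → s ∣ m.choose k → s ∈ S) : m.choose k ≤ m ^ S.card := by
  have h0 := (choose_pos hk).ne'
  conv_lhs => rw [← factorization_prod_pow_eq_self h0]
  refine (Finset.prod_le_pow_card _ _ m fun p _ => pow_factorization_choose_le hm).trans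
    (Nat.pow_le_pow_right hm (Finset.card_le_card fun s hs => ?_))
  rw [support_factorization, mem_primeFactors] at hs
  exact hS s hs.1 hs.2.1

theorem desc_ge {m r : ℕ} (h : r ≤ m) (i : ℕ) (hi : i ≤ r) :
    m ^ i * r.descFactorial i ≤ r ^ i * m.descFactorial i := by
  induction i with
  | zero => simp
  | succ i ih =>
    rw [descFactorial_succ, descFactorial_succ, pow_succ, pow_succ]
    have h1 : m * (r - i) ≤ r * (m - i) := by
      rw [Nat.mul_sub, Nat.mul_sub, mul_comm m r]
      exact Nat.sub_le_sub_left (Nat.mul_le_mul_right _ h) _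
    calc m ^ i * m * ((r - i) * r.descFactorial i) = (m ^ i * r.descFactorial i) * (m * (r - i)) := by ring
      _ ≤ (r ^ i * m.descFactorial i) * (r * (m - i)) := Nat.mul_le_mul (ih (by omega)) h1
      _ = _ := by ring

theorem pow_le_choose_sq {m r : ℕ} (hr : 0 < r) (h : r * r ≤ m) : m ^ r ≤ m.choose r ^ 2 := by
  have hrm : r ≤ m := (Nat.le_mul_self r).trans h
  have h1 := desc_ge hrm r le_rfl
  rw [descFactorial_self, descFactorial_eq_factorial_mul_choose, mul_comm r !, ← mul_assoc,
    Nat.mul_le_mul_right_iff r.factorial_pos] at h1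
  have h2 : (r ^ r) ^ 2 ≤ m ^ r := by
    rw [← pow_mul, mul_comm r 2, pow_mul, sq]; exact Nat.pow_le_pow_left h r
  have pos : 0 < m ^ r := Nat.pow_pos (by omega)
  refine Nat.le_of_mul_le_mul_left ?_ pos
  calc m ^ r * m ^ r ≤ (r ^ r * m.choose r) * (r ^ r * m.choose r) := Nat.mul_le_mul h1 h1
    _ = (r ^ r) ^ 2 * m.choose r ^ 2 := by ring
    _ ≤ _ := Nat.mul_le_mul_right _ h2

theorem small {m r e : ℕ} (h : r ! * m ^ e < m.descFactorial r) : m ^ e < m.choose r := by
  rw [descFactorial_eq_factorial_mul_choose] at h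
  exact Nat.lt_of_mul_lt_mul_left h

theorem big {m r : ℕ} (hr : r.Prime) (h : r * r ≤ m) :
    ∃ S : Finset ℕ, (∀ s, s.Prime → s ≤ r → s ∈ S) ∧ m ^ S.card < m.choose r := by
  by_cases h11 : 11 ≤ r
  · refine ⟨{2, 3, 5, 7} ∪ (Finset.range ((r - 9) / 2)).image fun i => 2 * i + 11, fun s hs hsr => ?_, ?_⟩
    · simp only [Finset.mem_union, Finset.mem_image, Finset.mem_range, Finset.mem_insert, Finset.mem_singleton]
      by_cases s11 : 11 ≤ s
      · obtain ⟨a, ha⟩ := hs.odd_of_ne_two (by omega)
        exact .inr ⟨a - 5, by omega, by omega⟩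
      · have := hs.two_le
        left
        interval_cases s <;> first | omega | exact absurd hs (by decide)
    · have c : (({2, 3, 5, 7} : Finset ℕ) ∪ (Finset.range ((r - 9) / 2)).image fun i => 2 * i + 11).card
          ≤ 4 + (r - 9) / 2 :=
        (Finset.card_union_le _ _).trans (Nat.add_le_add (by decide) (Finset.card_image_le.trans (by simp)))
      have h1 := pow_le_choose_sq hr.pos h
      have m1 : 1 < m := by nlinarith
      refine lt_of_pow_lt_pow_left₀ 2 (Nat.zero_le _) (lt_of_lt_of_le ?_ h1)
      rw [← pow_mul]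
      exact Nat.pow_lt_pow_right m1 (by omega)
  · have := hr.two_le
    have hr' : r = 2 ∨ r = 3 ∨ r = 5 ∨ r = 7 := by
      interval_cases r <;> first | omega | exact absurd hr (by decide)
    obtain ⟨t, rfl⟩ := Nat.exists_eq_add_of_le' h
    rcases hr' with rfl | rfl | rfl | rfl
    · refine ⟨{2}, fun s hs h => by have := hs.two_le; simp; omega, small ?_⟩
      simp [descFactorial, factorial]
    · refine ⟨{2, 3}, fun s hs h => by have := hs.two_le; simp; omega, small ?_⟩
      simp [descFactorial, factorial]; ring_nf; omega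
    · refine ⟨{2, 3, 5}, fun s hs h => ?_, small ?_⟩
      · have := hs.two_le
        interval_cases s <;> first | decide | exact absurd hs (by decide)
      · simp [descFactorial, factorial]; ring_nf; omega
    · refine ⟨{2, 3, 5, 7}, fun s hs h => ?_, small ?_⟩
      · have := hs.two_le
        interval_cases s <;> first | decide | exact absurd hs (by decide)
      · simp [descFactorial, factorial]; ring_nf; omega

theorem carry {m k r : ℕ} (hk : k ≤ m) (hr : r.Prime) (hd : r ∣ m.choose k)
    (hmax : ∀ s, s.Prime → s ∣ m.choose k → s ≤ r) : m % r < k % r := by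
  have := Fact.mk hr
  by_contra! h
  have nd : ∀ {a b : ℕ}, b ≤ a → a < r → ¬ r ∣ a.choose b := fun {a b} h1 h2 d => by
    have : r ∣ a ! := by
      rw [← choose_mul_factorial_mul_factorial h1, mul_assoc]; exact d.mul_right _
    exact absurd (hr.dvd_factorial.1 this) (by omega)
  have h1 : r ∣ (m / r).choose (k / r) :=
    (hr.dvd_mul.1 (((Choose.choose_modEq_choose_mod_mul_choose_div_nat (n := m) (k := k)
      (p := r)).dvd_iff dvd_rfl).1 hd)).resolve_left (nd h (Nat.mod_lt _ hr.pos))
  have h2 : k / r ≤ m / r := Nat.div_le_div_right hk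
  have h3 : r ≤ m / r := not_lt.1 fun a => nd h2 a h1
  have h4 : k / r ≠ 0 := fun a => by
    rw [a, choose_zero_right] at h1; exact hr.ne_one (Nat.dvd_one.1 h1)
  have h5 : k / r ≠ m / r := fun a => by
    rw [a, choose_self] at h1; exact hr.ne_one (Nat.dvd_one.1 h1)
  have e1 := Nat.div_add_mod m r
  have e2 := Nat.div_add_mod k r
  have h6 : r * r ≤ m := (Nat.mul_le_mul_left r h3).trans (by omega)
  have h7 : r * 1 ≤ r * (k / r) := Nat.mul_le_mul_left r (Nat.pos_of_ne_zero h4)
  replace h7 : r ≤ k := by omega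
  have h8 : r * (k / r + 1) ≤ r * (m / r) := Nat.mul_le_mul_left r (lt_of_le_of_ne h2 h5)
  replace h8 : r + k ≤ m := by rw [mul_add] at h8; omega
  obtain ⟨S, hS, hlt⟩ := big hr h6
  have := choose_le_pow hk (by nlinarith [hr.pos]) S fun s a b => hS s a (hmax s a b)
  have := choose_mono' h7 h8
  omega

theorem four_dvd {m k : ℕ} (hm : 5 ≤ m) (hk : k ≤ m) (hd : 2 ∣ m.choose k)
    (hmax : ∀ s, s.Prime → s ∣ m.choose k → s ≤ 2) : 4 ∣ m := by
  have c := carry hk prime_two hd hmax
  have h1 := choose_le_pow hk (by omega) {2} fun s a b => by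
    have := a.two_le; have := hmax s a b; simp; omega
  have e : m.choose k = m := by
    by_cases a : k = 1
    · rw [a, choose_one_right]
    by_cases b : k = m - 1
    · rw [b, choose_symm (by omega), choose_one_right]
    obtain ⟨S, hS, hlt⟩ := big prime_two (show 2 * 2 ≤ m by omega)
    have := choose_mono' (show 2 ≤ k by omega) (show 2 + k ≤ m by omega)
    have : m ^ 1 ≤ m ^ S.card := Nat.pow_le_pow_right (by omega) (Finset.card_pos.2 ⟨2, hS 2 prime_two le_rfl⟩)
    simp only [Finset.card_singleton] at h1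
    omega
  rw [e] at hmax
  by_contra h4
  have hs := minFac_prime (n := m / 2) (by omega)
  have h2 := hmax _ hs ((minFac_dvd _).trans (Nat.div_dvd_of_dvd (by omega)))
  have h3 := minFac_dvd (m / 2)
  rw [le_antisymm h2 hs.two_le] at h3
  omega

end H27.DA
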