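import Cfsg.Agent.H27.DA1
import Cfsg.Agent.S0713
import Cfsg.Agent.S2119

/-! Derangements of largest prime order in primitive groups with alternating socle. -/

set_option autoImplicit false

namespace H27.DA

open Equiv Equiv.Perm MulAction Subgroup
open scoped Pointwise

section perm
variable {α : Type*} [Fintype α] [DecidableEq α]

theorem exists_cyc {r j : ℕ} (hr : r.Prime) (hj : 0 < j) (h : j * r ≤ Fintype.card α) (hp : r = 2 → 2 ∣ j) :
    ∃ g ∈ alternatingGroup α, orderOf g = r ∧ g.cycleType = Multiset.replicate j r := by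
  obtain ⟨g, hg⟩ := (exists_with_cycleType_iff α (m := Multiset.replicate j r)).2
    ⟨by simpa using h, fun a ha => (Multiset.eq_of_mem_replicate ha).symm ▸ hr.two_le⟩
  refine ⟨g, ?_, ?_, hg⟩
  · rw [mem_alternatingGroup, sign_of_cycleType, hg]
    refine Even.neg_one_pow ?_
    simp only [Multiset.sum_replicate, smul_eq_mul, Multiset.card_replicate]
    rcases hr.eq_two_or_odd' with a | a
    · exact ((even_iff_two_dvd.2 (hp a)).mul_right _).add (even_iff_two_dvd.2 (hp a))
    · rw [← Nat.mul_add_one]; exact a.add_one.mul_left _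
  · obtain ⟨j, rfl⟩ := Nat.exists_eq_add_one_of_ne_zero hj.ne'
    rw [← lcm_cycleType, hg]
    refine Nat.dvd_antisymm (Multiset.lcm_dvd.2 fun b hb => (Multiset.eq_of_mem_replicate hb).symm ▸ dvd_rfl)
      (Multiset.dvd_lcm (by simp))

theorem exists_cyc1 {r : ℕ} (hr : r.Prime) (h : r ≤ Fintype.card α) (hp : r ≠ 2) :
    ∃ g ∈ alternatingGroup α, orderOf g = r ∧ g.IsCycle ∧ g.support.card = r := by
  obtain ⟨g, h1, h2, h3⟩ := exists_cyc (α := α) hr one_pos (by simpa using h) fun a => absurd a hp
  refine ⟨g, h1, h2, card_cycleType_eq_one.1 (by simp [h3]), ?_⟩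
  rw [← sum_cycleType, h3]; simp

theorem mod_le {r : ℕ} (hr : r.Prime) {g : Perm α} (hg : orderOf g = r)
    (hc : g.cycleType = Multiset.replicate (Fintype.card α / r) r) {S : Finset α} (hS : g • S = S) :
    S.card % r ≤ Fintype.card α % r := by
  have := Fact.mk hr
  have hm : ∀ x, g x ∈ S ↔ x ∈ S := fun x => by
    conv_lhs => rw [← hS]
    exact Finset.smul_mem_smul_finset_iff g
  have h1 := card_fixedPoints_modEq (α := {x // x ∈ S}) (f := ⇑(g.subtypePerm hm)) (p := r) (n := 1) (by
    funext x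
    have : (g.subtypePerm hm) ^ r = 1 := by
      rw [subtypePerm_pow]; ext y; simp [← hg]
    rw [pow_one]
    exact congrFun ((Perm.iterate_eq_pow _ r).trans (congrArg _ this)) x)
  have h2 : Fintype.card (Function.fixedPoints ⇑(g.subtypePerm hm)) ≤ g.supportᶜ.card := by
    rw [← Fintype.card_coe]
    exact Fintype.card_le_of_injective (fun x => ⟨x.1.1, by simpa using congrArg Subtype.val x.2⟩)
      fun x y h => Subtype.ext (Subtype.ext (Subtype.mk.inj h))
  rw [Finset.card_compl, ← sum_cycleType, hc] at h2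
  simp only [Multiset.sum_replicate, smul_eq_mul] at h2
  have e := Nat.div_add_mod' (Fintype.card α) r
  rw [Fintype.card_coe] at h1
  rw [h1]
  exact (Nat.mod_le _ _).trans (h2.trans (by omega))

theorem prim_of_cyc {H : Subgroup (Perm α)} [IsPretransitive H α] {c : Perm α} (hc : c.IsCycle) (hH : c ∈ H)
    (hp : c.support.card.Prime) (h : Fintype.card α < 2 * c.support.card) : IsPreprimitive H α := by
  have := isPretransitive_of_isCycle_mem hc hH
  have e : Nat.card (SubMulAction.ofFixingSubgroup H (c.support : Set α)ᶜ) = c.support.card := by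
    rw [← Fintype.card_coe, ← Nat.card_eq_fintype_card]
    exact Nat.card_congr (Equiv.subtypeEquivRight fun x => by
      rw [SubMulAction.mem_ofFixingSubgroup_iff]; simp)
  have := IsPreprimitive.of_prime_card (G := fixingSubgroup H (c.support : Set α)ᶜ) (e ▸ hp)
  refine IsPreprimitive.of_card_lt (f := SubMulAction.ofFixingSubgroup_equivariantMap H (c.support : Set α)ᶜ) ?_
  rw [Set.ncard_range_of_injective SubMulAction.ofFixingSubgroup_equivariantMap_injective, e,
    Nat.card_eq_fintype_card]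
  exact h

end perm

section core
variable {α : Type*} [Fintype α] [DecidableEq α] {G : Type*} [Group G] [Finite G] {φ : G →* Perm α}
  {H : Subgroup G}

/-- an element of order `r` none of whose conjugates lies in `H` -/
def Der (H : Subgroup G) (r : ℕ) : Prop := ∃ g : G, orderOf g = r ∧ ∀ x : G, x * g * x⁻¹ ∉ H

theorem Der.dvd {r : ℕ} (h : Der H r) (hr : r.Prime) : r ∣ H.index := by
  have := Fact.mk hr
  obtain ⟨g, o, h⟩ := h
  by_contra n
  obtain ⟨q, hq⟩ := (IsPGroup.of_card (n := 1) (G := zpowers g) (by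
    rw [Nat.card_zpowers, o, pow_one])).nonempty_fixed_point_of_prime_not_dvd_card (G ⧸ H) n
  obtain ⟨x, rfl⟩ := QuotientGroup.mk_surjective q
  have := QuotientGroup.eq.1 (hq ⟨g, mem_zpowers g⟩ : ((g * x : G) : G ⧸ H) = x).symm
  exact h x⁻¹ (by simpa [mul_assoc] using this)

theorem der_big (hφ : Function.Injective φ) {r : ℕ} (hr : r.Prime) (hd : r ∣ H.index)
    (h : Fintype.card α < 2 * r) : Der H r := by
  have := Fact.mk hr
  obtain ⟨g, hg⟩ := exists_prime_orderOf_dvd_card' r (hd.trans H.index_dvd_card)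
  refine ⟨g, hg, fun x hx => ?_⟩
  have h1 : r ∣ Nat.card H := by
    have := orderOf_dvd_natCard (⟨_, hx⟩ : H)
    rwa [← orderOf_coe, show orderOf (x * g * x⁻¹) = r from
      (MulEquiv.orderOf_eq (MulAut.conj x) g).trans hg] at this
  have h2 : r ^ 2 ∣ (Fintype.card α).factorial := by
    rw [← Fintype.card_perm, ← Nat.card_eq_fintype_card]
    refine dvd_trans ?_ (card_dvd_of_injective φ hφ)
    rw [← H.card_mul_index, sq]; exact mul_dvd_mul h1 hd
  rw [hr.pow_dvd_factorial_iff (b := 2) (Nat.log_lt_of_lt_pow' (by norm_num)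
    (h.trans_le (by rw [sq]; exact Nat.mul_le_mul_right _ hr.two_le)))] at h2
  simp only [Nat.Ico_succ_singleton, Finset.sum_singleton, pow_one] at h2
  rw [Nat.le_div_iff_mul_le hr.pos] at h2
  omega

theorem der_cyc (hφ : Function.Injective φ) (hA : alternatingGroup α ≤ φ.range) {s : ℕ} (hs : s.Prime)
    (h : s ≤ Fintype.card α) (h2 : s ≠ 2)
    (hn : ∀ c ∈ H.map φ, c.IsCycle → c.support.card = s → False) : Der H s := by
  obtain ⟨c, h1, o, h3, h4⟩ := exists_cyc1 hs h h2
  obtain ⟨g, rfl⟩ := hA h1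
  refine ⟨g, (orderOf_injective φ hφ g).symm.trans o, fun x hx => hn _ (mem_map_of_mem φ hx) ?_ ?_⟩
  · simpa using h3.conj (g := φ x)
  · simpa using h4

theorem der_trans (hφ : Function.Injective φ) (hA : alternatingGroup α ≤ φ.range) (h5 : 5 ≤ Fintype.card α)
    (hH : ¬ alternatingGroup α ≤ H.map φ) [IsPretransitive (H.map φ) α] {r : ℕ} (hr : r.Prime)
    (hd : r ∣ H.index) (hmax : ∀ s, s.Prime → s ∣ H.index → s ≤ r) : Der H r := by
  refine (lt_or_ge (Fintype.card α) (2 * r)).elim (der_big hφ hr hd) fun h => ?_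
  by_cases hp : IsPreprimitive (H.map φ) α
  · have h3 := hmax 3 Nat.prime_three ((der_cyc hφ hA Nat.prime_three (by omega) (by norm_num)
      fun c hc _ k => hH (alternatingGroup_le_of_isPreprimitive_of_isThreeCycle_mem hp
        (card_support_eq_three_iff.1 k) hc)).dvd Nat.prime_three)
    exact der_cyc hφ hA hr (by omega) (by omega) fun c hc a k =>
      hH (Cfsg.Agent.S0713.result _ hp hr h5 (by omega) a k hc)
  · obtain ⟨s, hs, s1, s2⟩ := Nat.exists_prime_lt_and_le_two_mul (Fintype.card α / 2) (by omega)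
    have := hmax s hs ((der_cyc hφ hA hs (by omega) (by omega) fun c hc a k =>
      hp (prim_of_cyc a hc (k ▸ hs) (by omega))).dvd hs)
    omega

theorem der_intrans (hφ : Function.Injective φ) (hA : alternatingGroup α ≤ φ.range) (h5 : 5 ≤ Fintype.card α)
    (hH : ¬ IsPretransitive (H.map φ) α) : ∃ (k : ℕ) (L : Subgroup G), 0 < k ∧ k < Fintype.card α ∧ H ≤ L ∧
      L.index = (Fintype.card α).choose k ∧ ∀ r, r.Prime → r ∣ L.index →
        (∀ s, s.Prime → s ∣ L.index → s ≤ r) → Der L r := by
  classical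
  obtain ⟨a, b, hab⟩ : ∃ a b : α, ∀ g : H.map φ, g • a ≠ b := by
    by_contra! k
    exact hH ⟨k⟩
  let S : Finset α := (orbit (H.map φ) a).toFinset
  let s : Set.powersetCard α S.card := ⟨S, rfl⟩
  let _ : MulAction G (Set.powersetCard α S.card) := MulAction.compHom _ φ
  have sm : ∀ (g : G) (t : Set.powersetCard α S.card), ((g • t : Set.powersetCard α S.card) : Finset α)
      = φ g • (t : Finset α) := fun _ _ => rfl
  have tr : IsPretransitive G (Set.powersetCard α S.card) := ⟨fun x y => by
    obtain ⟨⟨g, hg⟩, e⟩ := (Set.powersetCard.isPretransitive_alternatingGroup (α := α) (n := S.card)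
      (by rw [Nat.card_eq_fintype_card]; omega)).1 x y
    obtain ⟨g, rfl⟩ := hA hg
    exact ⟨g, e⟩⟩
  have ix : (stabilizer G s).index = (Fintype.card α).choose S.card := by
    rw [index_stabilizer_of_transitive, Set.powersetCard.card, Nat.card_eq_fintype_card]
  have k0 : 0 < S.card := Finset.card_pos.2 ⟨a, by simp [S]⟩
  have k1 : S.card < Fintype.card α := Finset.card_lt_card
    ⟨Finset.subset_univ _, fun h => by
      obtain ⟨g, hg⟩ := Set.mem_toFinset.1 (h (Finset.mem_univ b))
      exact hab g hg⟩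
  refine ⟨S.card, stabilizer G s, k0, k1, fun h hh => Subtype.ext ?_, ix, fun r hr hd hmax => ?_⟩
  · rw [sm]
    apply Finset.coe_injective
    rw [Finset.coe_smul_finset, Set.coe_toFinset]
    exact smul_orbit (⟨φ h, mem_map_of_mem φ hh⟩ : H.map φ) a
  · rw [ix] at hd hmax
    have c := carry k1.le hr hd hmax
    have rm : r ≤ Fintype.card α := hr.dvd_factorial.1 (hd.trans ⟨_, by
      rw [← Nat.choose_mul_factorial_mul_factorial k1.le, mul_assoc]⟩)
    obtain ⟨g, h1, o, hc⟩ := exists_cyc (α := α) hr (Nat.div_pos rm hr.pos) (Nat.div_mul_le_self _ _)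
      (by rintro rfl; have := four_dvd h5 k1.le hd hmax; omega)
    obtain ⟨g, rfl⟩ := hA h1
    refine ⟨g, (orderOf_injective φ hφ g).symm.trans o, fun x hx => ?_⟩
    have := mod_le (g := φ (x * g * x⁻¹)) hr
      (by rw [map_mul, map_mul, map_inv]; exact (MulEquiv.orderOf_eq (MulAut.conj (φ x)) _).trans o)
      (by rw [map_mul, map_mul, map_inv, cycleType_conj, hc]) (S := S) (congrArg Subtype.val hx)
    omega

theorem Der.mono {L : Subgroup G} {r : ℕ} (h : Der L r) (hl : H ≤ L) : Der H r :=
  let ⟨g, o, k⟩ := h; ⟨g, o, fun x hx => k x (hl hx)⟩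

theorem Der.fix {Ω : Type*} [MulAction G Ω] [IsPretransitive G Ω] {ω : Ω} {r : ℕ}
    (h : Der (stabilizer G ω) r) : ∃ g : G, orderOf g = r ∧ ∀ ω : Ω, g • ω ≠ ω := by
  obtain ⟨g, o, h⟩ := h
  refine ⟨g, o, fun w hw => ?_⟩
  obtain ⟨x, rfl⟩ := exists_smul_eq G ω w
  refine h x⁻¹ ?_
  rw [mem_stabilizer_iff, inv_inv, mul_smul, mul_smul, hw, inv_smul_smul]

end core

theorem main {G Ω : Type*} [Group G] [Finite G] [MulAction G Ω] [FaithfulSMul G Ω] [Finite Ω]
    (T : Subgroup G) (hT : T.Normal) (hTc : Subgroup.centralizer (T : Set G) = ⊥) (m : ℕ) (hm : 5 ≤ m)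
    (eT : ↥T ≃* ↥(alternatingGroup (Fin m))) (hprim : MulAction.IsPreprimitive G Ω) (hΩ : 2 ≤ Nat.card Ω)
    (r : ℕ) (hr : r.Prime) (hrd : r ∣ Nat.card Ω) (hmax : ∀ s : ℕ, s.Prime → s ∣ Nat.card Ω → s ≤ r) :
    ∃ g : G, orderOf g = r ∧ ∀ ω : Ω, g • ω ≠ ω := by
  have nt : Nontrivial Ω := Finite.one_lt_card_iff_nontrivial.1 hΩ
  obtain ⟨ω⟩ : Nonempty Ω := inferInstance
  have hA := alternatingGroup.isSimpleGroup (α := Fin m) (by simpa using hm)
  have tr : IsPretransitive T Ω := IsQuasiPreprimitive.isPretransitive_of_normal fun h => by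
    obtain ⟨t, ht⟩ := exists_ne (1 : alternatingGroup (Fin m))
    refine ht (eT.symm.injective (Subtype.ext (FaithfulSMul.eq_of_smul_eq_smul (α := Ω) fun w => ?_)))
    rw [map_one, OneMemClass.coe_one, one_smul]
    exact (h ▸ Set.mem_univ w : w ∈ fixedPoints T Ω) (eT.symm t)
  have nT : ¬ ∀ t : T, (t : G) • ω = ω := fun h => by
    obtain ⟨w, hw⟩ := exists_ne ω
    obtain ⟨t, rfl⟩ := exists_smul_eq T ω w
    exact hw (h t)
  have h5 : 5 ≤ Fintype.card (Fin m) := by simpa using hm
  by_cases h6 : m = 6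
  · let φ : T →* Perm (Fin m) := (alternatingGroup _).subtype.comp eT
    have hφ : Function.Injective φ := (subtype_injective _).comp eT.injective
    have hA : alternatingGroup (Fin m) ≤ φ.range := fun a ha => ⟨eT.symm ⟨a, ha⟩, by simp [φ]⟩
    have ix := index_stabilizer_of_transitive T ω
    rw [← ix] at hrd hmax
    suffices h : Der (stabilizer T ω) r by
      obtain ⟨g, o, h⟩ := h.fix
      exact ⟨g, (orderOf_coe g).trans o, h⟩
    by_cases hH : IsPretransitive ((stabilizer T ω).map φ) (Fin m)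
    · refine der_trans hφ hA h5 (fun h => nT fun t => ?_) hr hrd hmax
      obtain ⟨u, hu, e⟩ := h (eT t).2
      exact (hφ e : u = t) ▸ hu
    · refine (lt_or_ge (Fintype.card (Fin m)) (2 * r)).elim (der_big hφ hr hrd) fun h => ?_
      obtain ⟨k, L, k0, k1, hl, e, hd⟩ := der_intrans hφ hA h5 hH
      have d := index_dvd_of_le hl
      subst h6
      rw [Fintype.card_fin] at k1 e h
      have n5 : ¬ 5 ∣ L.index := fun a => by have := hmax 5 (by norm_num) (a.trans d); omega
      have d3 : 3 ∣ L.index := by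
        rw [e] at n5 ⊢
        interval_cases k <;> first | decide | exact absurd (by decide) n5
      have := hmax 3 (by norm_num) (d3.trans d)
      obtain rfl : r = 3 := by omega
      exact (hd 3 hr d3 fun s a b => hmax s a (b.trans d)).mono hl
  · let e := MulEquiv.ofBijective _ (Cfsg.Agent.S2119.result m (by omega) h6)
    let φ : G →* Perm (Fin m) := e.symm.toMonoidHom.comp
      ((MulAut.congr eT).toMonoidHom.comp (MulAut.conjNormal (H := T)))
    have hφ : Function.Injective φ := by
      refine e.symm.injective.comp ((MulAut.congr eT).injective.comp ((injective_iff_map_eq_one _).2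
        fun g hg => mem_bot.1 (hTc ▸ fun t ht => ?_)))
      have := congrArg Subtype.val (DFunLike.congr_fun hg ⟨t, ht⟩)
      simp only [MulAut.conjNormal_apply, MulAut.one_apply] at this
      exact (mul_inv_eq_iff_eq_mul.1 this).symm
    have φT : ∀ t : T, φ t = eT t := fun t => by
      refine e.symm_apply_eq.2 (MulEquiv.ext fun a => ?_)
      obtain ⟨a, rfl⟩ := eT.surjective a
      have : MulAut.conjNormal (H := T) (t : G) a = t * a * t⁻¹ := Subtype.ext rfl
      change eT (MulAut.conjNormal (H := T) (t : G) (eT.symm (eT a))) = _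
      rw [MulEquiv.symm_apply_apply, this, map_mul, map_mul, map_inv]
      rfl
    have hA : alternatingGroup (Fin m) ≤ φ.range := fun a ha => ⟨eT.symm ⟨a, ha⟩, by simp [φT]⟩
    have ix := index_stabilizer_of_transitive G ω
    rw [← ix] at hrd hmax
    refine Der.fix (ω := ω) ?_
    by_cases hH : IsPretransitive ((stabilizer G ω).map φ) (Fin m)
    · refine der_trans hφ hA h5 (fun h => nT fun t => ?_) hr hrd hmax
      obtain ⟨u, hu, e⟩ := h (eT t).2
      exact (hφ (e.trans (φT t).symm) : u = t) ▸ hu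
    · obtain ⟨k, L, k0, k1, hl, e, hd⟩ := der_intrans hφ hA h5 hH
      have : L = stabilizer G ω := by
        refine (((isCoatom_stabilizer_iff_preprimitive G ω).2 hprim).le_iff.1 hl).resolve_left fun a => ?_
        rw [a, index_top] at e
        have := choose_mono' (m := Fintype.card (Fin m)) (show 1 ≤ k from k0) (by omega)
        rw [Nat.choose_one_right] at this
        omega
      exact this ▸ hd r hr (this ▸ hrd) (this ▸ hmax)

end H27.DA
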