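import Mathlib

/-! Two-point stabilisers in 2-transitive groups: the bound behind Guralnick–Wan's theorem. -/

set_option autoImplicit false

namespace H27.Der

open MulAction Finset

variable {G Ω : Type*} [Group G] [MulAction G Ω]

/-- 2-transitivity. -/
def T2 (G Ω : Type*) [Group G] [MulAction G Ω] : Prop :=
  ∀ a b c d : Ω, a ≠ b → c ≠ d → ∃ g : G, g • a = c ∧ g • b = d

/-- Two-point stabiliser. -/
def st (G : Type*) [Group G] [MulAction G Ω] (a b : Ω) : Subgroup G :=
  stabilizer G a ⊓ stabilizer G b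

theorem mem_st {a b : Ω} {g : G} : g ∈ st G a b ↔ g • a = a ∧ g • b = b := Iff.rfl

theorem conj_st {a b : Ω} {g : G} (k : G) : k * g * k⁻¹ ∈ st G (k • a) (k • b) ↔ g ∈ st G a b := by
  simp [mem_st, mul_smul]

/-- Conjugation between two-point stabilisers. -/
def stEquiv (k : G) (a b : Ω) : st G a b ≃ st G (k • a) (k • b) :=
  (MulAut.conj k).toEquiv.subtypeEquiv fun _ => (conj_st k).symm

theorem card_st (h : T2 G Ω) {a b c d : Ω} (h1 : a ≠ b) (h2 : c ≠ d) :
    Nat.card (st G a b) = Nat.card (st G c d) := by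
  obtain ⟨k, rfl, rfl⟩ := h a b c d h1 h2
  exact Nat.card_congr (stEquiv k a b)

variable [Fintype Ω] [DecidableEq Ω]

open Classical in
/-- The line through two points. -/
noncomputable def ln (G : Type*) [Group G] [MulAction G Ω] (a b : Ω) : Finset Ω :=
  univ.filter fun z => ∀ g ∈ st G a b, g • z = z

theorem mem_ln {a b z : Ω} : z ∈ ln G a b ↔ ∀ g ∈ st G a b, g • z = z := by simp [ln]

theorem card_ln (h : T2 G Ω) {a b c d : Ω} (h1 : a ≠ b) (h2 : c ≠ d) :
    (ln G a b).card = (ln G c d).card := by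
  obtain ⟨k, rfl, rfl⟩ := h a b c d h1 h2
  refine card_equiv (toPerm k) fun z => ?_
  simp only [mem_ln]
  refine ⟨fun H g hg => ?_, fun H g hg => by simpa [mul_smul] using H _ ((conj_st k).2 hg)⟩
  have := H (k⁻¹ * g * k) ((conj_st k).1 (by simpa [mul_assoc] using hg))
  simpa [mul_smul, inv_smul_eq_iff] using this

variable [Finite G]

theorem st_eq (h : T2 G Ω) {a b u v : Ω} (h1 : a ≠ b) (h2 : u ≠ v) (hu : u ∈ ln G a b)
    (hv : v ∈ ln G a b) : st G a b = st G u v :=
  Subgroup.eq_of_le_of_card_ge (fun g hg => ⟨mem_ln.1 hu g hg, mem_ln.1 hv g hg⟩)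
    (card_st h h2 h1).le

/-- Number of fixed points. -/
def fx (Ω : Type*) [MulAction G Ω] [Fintype Ω] [DecidableEq Ω] (g : G) : ℕ :=
  (univ.filter fun x : Ω => g • x = x).card

variable [FaithfulSMul G Ω]

omit [Fintype Ω] [DecidableEq Ω] [Finite G] in
theorem exists_move {g : G} (hg : g ≠ 1) : ∃ x : Ω, g • x ≠ x := by
  by_contra! h
  exact hg (eq_of_smul_eq_smul (M := G) (α := Ω) fun x => by rw [h, one_smul])

theorem fx_le (h : T2 G Ω) {a b : Ω} (hab : a ≠ b) {g : G} (hg : g ≠ 1) :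
    fx Ω g * ((ln G a b).card - 1) + 1 ≤ Fintype.card Ω := by
  obtain ⟨x, hx⟩ := exists_move (Ω := Ω) hg
  have h1 : ∀ u ∈ univ.filter fun x : Ω => g • x = x, x ≠ u := fun u hu e =>
    hx (e ▸ (mem_filter.1 hu).2)
  have h2 := card_biUnion (s := univ.filter fun x : Ω => g • x = x)
    (t := fun u => (ln G x u).erase x) fun u hu v hv e => disjoint_left.2 fun z z1 z2 => by
      obtain ⟨a1, a2⟩ := mem_erase.1 z1
      have e1 := st_eq h (h1 u hu) a1.symm (mem_ln.2 fun _ h => h.1) a2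
      have e2 := st_eq h (h1 v hv) a1.symm (mem_ln.2 fun _ h => h.1) (mem_erase.1 z2).2
      have e3 := st_eq h (h1 u hu) e (mem_ln.2 fun _ h => h.2) (mem_ln.2 fun _ h =>
        (e2.ge (e1.le h)).2)
      exact hx (e3.ge ⟨(mem_filter.1 hu).2, (mem_filter.1 hv).2⟩).1
  rw [sum_const_nat (m := (ln G a b).card - 1) fun u hu => by
    rw [card_erase_of_mem (mem_ln.2 fun _ h => h.1), card_ln h (h1 u hu) hab]] at h2
  have h3 := card_le_card (show _ ⊆ univ.erase x from fun z hz => by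
    obtain ⟨u, -, hu⟩ := mem_biUnion.1 hz
    exact mem_erase.2 ⟨(mem_erase.1 hu).1, mem_univ _⟩ : (univ.filter fun x : Ω => g • x = x).biUnion
      (fun u => (ln G x u).erase x) ⊆ _)
  have := card_erase_add_one (mem_univ x)
  rw [h2] at h3
  rw [← card_univ, ← this]
  exact Nat.add_le_add_right h3 1

omit [Fintype Ω] [Finite G] in
theorem comm_of_small {x y : Ω} (Z : ∀ g ∈ st G x y, ∀ k ∈ st G x y, ∀ z : Ω, g • z ≠ z → k • z ≠ z →
    g • z = k • z) {g k : G} (hg : g ∈ st G x y) (hk : k ∈ st G x y) : g * k = k * g := by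
  have h1 : ∀ g ∈ st G x y, ∀ k ∈ st G x y, ∀ z : Ω, g • z = z → g • k • z = k • z :=
    fun g hg k hk z hz => by
      by_cases e : k • z = z
      · rw [e, hz]
      rw [← mul_smul]
      exact Z _ (mul_mem hg hk) k hk z (fun e' => e (smul_left_cancel g (by
        rw [← mul_smul, e', hz]))) e
  have h2 : ∀ g ∈ st G x y, ∀ z : Ω, g • z ≠ z → g • g • z = z := fun g hg z hz => by
    by_contra e
    exact hz (smul_left_cancel g (by
      rw [← mul_smul] at e ⊢; exact Z _ (mul_mem hg hg) g hg z e hz))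
  refine eq_of_smul_eq_smul (M := G) (α := Ω) fun z => ?_
  rw [mul_smul, mul_smul]
  by_cases e1 : g • z = z
  · rw [h1 g hg k hk z e1, e1]
  by_cases e2 : k • z = z
  · rw [h1 k hk g hg z e2, e2]
  have := Z g hg k hk z e1 e2
  rw [← this, h2 g hg z e1, this, h2 k hk z e2]

theorem small (h : T2 G Ω) {a b : Ω} (hab : a ≠ b) (hf : (ln G a b).card ≤ 3)
    (Z : ∀ g ∈ st G a b, ∀ k ∈ st G a b, ∀ z : Ω, g • z ≠ z → k • z ≠ z → g • z = k • z)
    {c : Ω} (hc : c ∉ ln G a b) {m : G} (hm : m ∈ st G a b) (hmc : m • c = c) : m = 1 := by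
  by_contra h1
  obtain ⟨d, hd⟩ := exists_move (Ω := Ω) h1
  have Z' : ∀ x y : Ω, x ≠ y → ∀ g ∈ st G x y, ∀ k ∈ st G x y, ∀ z : Ω, g • z ≠ z → k • z ≠ z →
      g • z = k • z := fun x y hxy g hg k hk z e1 e2 => by
    obtain ⟨u, rfl, rfl⟩ := h x y a b hxy hab
    simpa [mul_smul] using Z _ ((conj_st u).2 hg) _ ((conj_st u).2 hk) (u • z)
      (by simpa [mul_smul] using e1) (by simpa [mul_smul] using e2)
  have key : ∀ a b : Ω, a ≠ b → c ∉ ln G a b → m ∈ st G a b → ∃ x ∈ st G c d, x • a = a ∧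
      x • b ∈ ((ln G a b).erase a).erase b := fun a b hab hc hm => by
    have ac : a ≠ c := fun e => hc (mem_ln.2 fun _ h => e ▸ h.1)
    have ad : a ≠ d := fun e => hd (e ▸ hm.1)
    obtain ⟨x, x1, x2, x3⟩ : ∃ x ∈ st G a c, x • d = d ∧ x • b ≠ b := by
      obtain ⟨k, k1, k2⟩ : ∃ k ∈ st G a c, k • b ≠ b := by
        by_contra! e
        exact hc (mem_ln.2 fun g hg =>
          ((st_eq h ac hab (mem_ln.2 fun _ h => h.1) (mem_ln.2 e)).ge hg).2)
      by_cases e : k • d = d
      · exact ⟨k, k1, e, k2⟩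
      refine ⟨m⁻¹ * k, mul_mem (inv_mem ⟨hm.1, hmc⟩) k1, ?_, ?_⟩
      · rw [mul_smul, inv_smul_eq_iff, Z' a c ac k k1 m ⟨hm.1, hmc⟩ d e hd]
      · rwa [mul_smul, Ne, inv_smul_eq_iff, (mem_st.1 hm).2]
    have f1 : ∀ g ∈ st G a b, g • c = c → g • x • b = x • b := fun g hg e => by
      rw [← mul_smul, comm_of_small (Z' a c ac) ⟨hg.1, e⟩ x1, mul_smul, (mem_st.1 hg).2]
    have f2 : ∀ g ∈ st G a b, g • d = d → g • x • b = x • b := fun g hg e => by
      rw [← mul_smul, comm_of_small (Z' a d ad) ⟨hg.1, e⟩ ⟨x1.1, x2⟩, mul_smul, (mem_st.1 hg).2]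
    refine ⟨x, ⟨x1.2, x2⟩, x1.1, mem_erase.2 ⟨x3, mem_erase.2 ⟨fun e => hab (smul_left_cancel x
      ((mem_st.1 x1).1.trans e.symm)), mem_ln.2 fun g hg => ?_⟩⟩⟩
    by_cases e : g • d = d
    · exact f2 g hg e
    have := f2 _ (mul_mem (inv_mem hm) hg) (by
      rw [mul_smul, inv_smul_eq_iff, Z' a b hab g hg m hm d e hd])
    rwa [mul_smul, inv_smul_eq_iff, f1 m hm hmc] at this
  have e : ln G b a = ln G a b := by rw [ln, ln, st, st, inf_comm]
  obtain ⟨x, x1, x2, x3⟩ := key a b hab hc hm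
  obtain ⟨y, y1, y2, y3⟩ := key b a hab.symm (e ▸ hc) ⟨hm.2, hm.1⟩
  rw [e, erase_right_comm] at y3
  have e1 : x • b = y • a := card_le_one.1 (by
    rw [card_erase_of_mem (mem_erase.2 ⟨hab.symm, mem_ln.2 fun _ h => h.2⟩),
      card_erase_of_mem (mem_ln.2 fun _ h => h.1)]
    omega) _ x3 _ y3
  have := congrArg (· • a) (comm_of_small (Z' c d fun e => hd (e ▸ hmc)) x1 y1)
  simp only [mul_smul, x2, ← e1] at this
  exact (mem_erase.1 x3).1 (smul_left_cancel x this)

theorem no_three (h : T2 G Ω) {a b : Ω} (hab : a ≠ b) (hn : 7 ≤ Fintype.card Ω) (B : Finset Ω)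
    (h3 : B.card = 3) (ha : a ∉ B) (hb : b ∉ B) (hB : ∀ g ∈ st G a b, ∀ x, g • x ∈ B → x ∈ B)
    {g : G} (hg : orderOf g = 3) (hx : ∀ x ∉ B, g • x = x) : False := by
  have hp : IsPreprimitive G Ω := by
    have : IsMultiplyPretransitive G Ω 2 := is_two_pretransitive_iff.2 fun h1 h2 => h _ _ _ _ h1 h2
    exact isPreprimitive_of_is_two_pretransitive this
  let φ := toPermHom G Ω
  let f : Ω →ₑ[φ.rangeRestrict] Ω := ⟨id, fun _ _ => rfl⟩
  have h1 : orderOf (φ g) = 3 := (orderOf_injective φ toPerm_injective g).trans hg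
  have h2 : (φ g).support.card ≤ 3 := h3 ▸ card_le_card fun x hx' => by
    by_contra e
    exact Equiv.Perm.mem_support.1 hx' (hx x e)
  have hA := Equiv.Perm.alternatingGroup_le_of_isPreprimitive_of_isThreeCycle_mem
    (IsPreprimitive.of_surjective (f := f) Function.surjective_id) (g := φ g)
    (card_support_eq_three_iff.1 (by
      rw [← (Equiv.Perm.isCycle_of_prime_order (h1 ▸ Nat.prime_three) (by omega)).orderOf, h1]))
    ⟨g, rfl⟩
  obtain ⟨x, x1⟩ : ∃ x, x ∉ insert a (insert b B) := by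
    by_contra! e
    have := card_le_card (show univ ⊆ _ from fun x _ => e x)
    rw [card_insert_of_notMem (by simp [hab, ha]), card_insert_of_notMem hb, card_univ] at this
    omega
  simp only [mem_insert, not_or] at x1
  obtain ⟨y, y1, z, z1, yz⟩ := one_lt_card.1 (by omega : 1 < B.card)
  have xy : x ≠ y := fun e => x1.2.2 (e ▸ y1)
  have xz : x ≠ z := fun e => x1.2.2 (e ▸ z1)
  obtain ⟨k, hk⟩ := hA (Equiv.Perm.isThreeCycle_swap_mul_swap_same xz xy yz.symm).mem_alternatingGroup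
  have hk' : ∀ w, k • w = Equiv.swap x z (Equiv.swap x y w) := fun w => Equiv.congr_fun hk w
  have : ∀ w ∉ B, w ≠ x → k • w = w := fun w w1 w2 => by
    rw [hk', Equiv.swap_apply_of_ne_of_ne w2 (fun e => w1 (e ▸ y1)),
      Equiv.swap_apply_of_ne_of_ne w2 (fun e => w1 (e ▸ z1))]
  refine x1.2.2 (hB k ⟨this a ha (Ne.symm x1.1), this b hb (Ne.symm x1.2.1)⟩ x ?_)
  rwa [hk', Equiv.swap_apply_left, Equiv.swap_apply_of_ne_of_ne xy.symm yz]

omit [FaithfulSMul G Ω] in
theorem sum_fx (H : Subgroup G) [Fintype H] :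
    ∑ h : H, fx Ω (h : G) = ∑ x : Ω, Nat.card (stabilizer H x) := by
  simp only [fx, card_filter]
  rw [sum_comm]
  refine sum_congr rfl fun x _ => ?_
  rw [← card_filter, Nat.card_eq_fintype_card, Fintype.card_subtype]
  rfl

theorem key (h : T2 G Ω) {a b : Ω} (hab : a ≠ b) (hn : 7 ≤ Fintype.card Ω)
    (hf : (ln G a b).card ≤ 3) [Fintype (st G a b)] :
    2 * ∑ h : st G a b, fx Ω (h : G) + 2 * Nat.card (st G a b) ≤
      Nat.card (st G a b) * (Fintype.card Ω + (ln G a b).card) ∨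
    ∀ c ∉ ln G a b, ∀ g ∈ st G a b, ∀ k ∈ st G a b, g ≠ 1 → k ≠ 1 → g • c ≠ c ∧ g = k := by
  classical
  set H := st G a b
  let o : Ω → Finset Ω := fun x => (orbit H x).toFinset
  have ho : ∀ x, Nat.card (stabilizer H x) * (o x).card = Nat.card H := fun x => by
    rw [← (stabilizer H x).card_mul_index, index_stabilizer, Set.ncard_eq_toFinset_card']
  have h3 : ∀ x, (o x).card < 3 → ∀ g ∈ H, ∀ k ∈ H, g • x ≠ x → k • x ≠ x → g • x = k • x :=
    fun x hx g hg k hk e1 e2 => by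
      by_contra e
      exact hx.not_ge (two_lt_card_iff.2 ⟨x, g • x, k • x, by simp [o], by simpa [o] using ⟨⟨g, hg⟩, rfl⟩,
        by simpa [o] using ⟨⟨k, hk⟩, rfl⟩, e1.symm, e2.symm, e⟩)
  let B := univ.filter fun x => 3 ≤ (o x).card
  have hB : ∀ x, x ∈ B ↔ 3 ≤ (o x).card := fun x => by simp [B]
  rcases B.eq_empty_or_nonempty with h0 | ⟨x, hx⟩
  · have Z : ∀ g ∈ H, ∀ k ∈ H, ∀ z : Ω, g • z ≠ z → k • z ≠ z → g • z = k • z :=
      fun g hg k hk z => h3 z (not_le.1 fun e => by simpa [h0] using (hB z).2 e) g hg k hk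
    refine Or.inr fun c hc g hg k hk g1 k1 => ?_
    have e1 := mt (small h hab hf Z hc hg) g1
    refine ⟨e1, (inv_mul_eq_one.1 (small h hab hf Z hc (mul_mem (inv_mem hk) hg) ?_)).symm⟩
    rw [mul_smul, inv_smul_eq_iff, Z g hg k hk c e1 (mt (small h hab hf Z hc hk) k1)]
  have ho2 : ∀ x, ∀ y ∈ o x, o y = o x := fun x y hy => by
    simp only [o, Set.mem_toFinset] at hy ⊢
    simp only [orbit_eq_iff.2 hy]
  have hoB : ∀ x ∈ B, o x ⊆ B := fun x hx y hy => by rwa [hB, ho2 x y hy, ← hB]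
  have hF : ∀ x ∈ ln G a b, o x = {x} := fun x hx => eq_singleton_iff_unique_mem.2 ⟨by simp [o],
    fun y hy => by
      obtain ⟨g, rfl⟩ := Set.mem_toFinset.1 hy
      exact mem_ln.1 hx g g.2⟩
  have hFB : ∀ x ∈ ln G a b, x ∉ B := fun x hx => by simp [hB, hF x hx]
  have h4 : 2 * ∑ y ∈ B, Nat.card (stabilizer H y) + 2 * Nat.card H ≤ Nat.card H * B.card := by
    by_cases h6 : 6 ≤ B.card
    · have := sum_le_card_nsmul B (fun y => 3 * Nat.card (stabilizer H y)) (Nat.card H)
        fun y hy => by rw [← ho y, mul_comm]; exact Nat.mul_le_mul_left _ ((hB y).1 hy)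
      rw [← mul_sum, smul_eq_mul] at this
      nlinarith
    have h7 : ∀ y ∈ B, o y = B := fun y hy => (hoB y hy).antisymm fun z hz => by
      by_contra e
      have := card_le_card (union_subset (hoB y hy) (hoB z hz))
      rw [card_union_of_disjoint (disjoint_left.2 fun w w1 w2 => e (by
        rw [← ho2 y w w1, ho2 z w w2]; simp [o]))] at this
      have := (hB y).1 hy
      have := (hB z).1 hz
      omega
    have h8 : ∑ y ∈ B, Nat.card (stabilizer H y) = Nat.card H := by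
      refine Nat.eq_of_mul_eq_mul_right (card_pos.2 ⟨x, hx⟩) ?_
      rw [sum_mul, sum_const_nat fun y hy => h7 y hy ▸ ho y, mul_comm]
    have h9 : B.card ≠ 3 := fun e => by
      have : Fact (Nat.Prime 3) := ⟨Nat.prime_three⟩
      obtain ⟨g, hg⟩ := exists_prime_orderOf_dvd_card' (G := H) 3 (by
        rw [← ho x, h7 x hx, e]; exact dvd_mul_left _ _)
      refine no_three h hab hn B e (hFB a (mem_ln.2 fun _ h => h.1))
        (hFB b (mem_ln.2 fun _ h => h.2)) (fun k hk y hy => ?_) (g := g) (by simpa using hg)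
        fun y hy => ?_
      · rwa [hB, ← ho2 y (k • y) (by simpa [o] using ⟨⟨k, hk⟩, rfl⟩), ← hB]
      by_contra e1
      refine e1 (smul_left_cancel (g : G) ?_)
      rw [← mul_smul]
      refine h3 y (by simpa [hB] using hy) _ (mul_mem g.2 g.2) _ g.2 (fun e2 => e1 ?_) e1
      have : (g : G) * (g * g) = 1 := by
        have := congrArg Subtype.val (pow_orderOf_eq_one g)
        simpa [hg, pow_succ, mul_assoc] using this
      rw [← e2, ← mul_smul, this, one_smul, e2]
    have := (hB x).1 hx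
    rw [h7 x hx] at this
    rw [h8]
    nlinarith [(by omega : 4 ≤ B.card)]
  left
  have h5 : ∀ x, 2 * Nat.card (stabilizer H x) + (if x ∈ B then Nat.card H else 0) ≤
      Nat.card H + (if x ∈ ln G a b then Nat.card H else 0) +
        2 * if x ∈ B then Nat.card (stabilizer H x) else 0 := fun x => by
    by_cases e : x ∈ B
    · simp [e]; omega
    simp only [e, if_false]
    split_ifs with e1
    · have := (stabilizer H x).card_le_card_group
      omega
    obtain ⟨g, g1, g2⟩ : ∃ g ∈ H, g • x ≠ x := by simpa [mem_ln] using e1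
    have := one_lt_card.2 ⟨x, (by simp [o] : x ∈ o x), g • x, by simpa [o] using ⟨⟨g, g1⟩, rfl⟩,
      g2.symm⟩
    have := ho x
    nlinarith
  have := sum_le_sum fun x (_ : x ∈ univ) => h5 x
  simp only [sum_add_distrib, ← mul_sum, sum_ite_mem, univ_inter, sum_const, smul_eq_mul,
    card_univ] at this
  rw [sum_fx]
  nlinarith

theorem not_seven (h : T2 G Ω) {a b : Ω} (hab : a ≠ b) (hn : Fintype.card Ω = 7)
    (hG : Nat.card G = 84) {t : G} (ht : t ∈ st G a b) : t = 1 := by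
  have : Fact (Nat.Prime 7) := ⟨by norm_num⟩
  obtain ⟨P⟩ : Nonempty (Sylow 7 G) := inferInstance
  have h1 : Nat.card P = 7 := by
    rw [P.card_eq_multiplicity, hG, show 84 = 7 ^ 1 * 12 by rfl, Nat.factorization_mul (by norm_num)
      (by norm_num), Nat.Prime.factorization_pow (by norm_num)]
    simp [Nat.factorization_eq_zero_of_not_dvd]
  have h2 : (P : Subgroup G).index = 12 := by
    have := (P : Subgroup G).card_mul_index
    rw [h1] at this; omega
  have h3 := card_sylow_modEq_one 7 G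
  have h4 := h2 ▸ P.card_dvd_index
  have h5 := Nat.le_of_dvd (by norm_num) h4
  have h6 : Nat.card (Sylow 7 G) = 1 := by
    generalize Nat.card (Sylow 7 G) = k at *
    interval_cases k <;> simp_all [Nat.ModEq]
  have := (Nat.card_eq_one_iff_unique.1 h6).1
  have hP := P.normal_of_subsingleton
  have h7 : stabilizer P a = ⊥ := ((stabilizer P a).eq_bot_or_eq_top_of_prime_card
    (hp := ⟨by rw [h1]; norm_num⟩)).resolve_right fun e => by
      obtain ⟨g, hg⟩ := @exists_ne P (Finite.one_lt_card_iff_nontrivial.1 (by omega)) 1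
      obtain ⟨x, hx⟩ := exists_move (Ω := Ω) (g := (g : G)) (by simpa using hg)
      obtain ⟨y, hy⟩ := @exists_ne Ω ⟨a, b, hab⟩ x
      obtain ⟨k, rfl, -⟩ := h a b x y hab hy.symm
      have : (k⁻¹ * g * k⁻¹⁻¹) • a = a := e.ge (Subgroup.mem_top ⟨_, hP.conj_mem _ g.2 _⟩)
      exact hx (by simpa [mul_smul, inv_smul_eq_iff] using this)
  have h8 : orbit P a = Set.univ := Set.eq_of_subset_of_ncard_le (Set.subset_univ _) (by
    rw [← index_stabilizer, h7, Subgroup.index_bot, h1, Set.ncard_univ, Nat.card_eq_fintype_card, hn])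
  obtain ⟨g, hg⟩ : b ∈ orbit P a := h8 ▸ trivial
  have hg : (g : G) • a = b := hg
  have h9 : g⁻¹ * ⟨_, hP.conj_mem _ g.2 t⟩ = 1 := h7.le (show ((g : G)⁻¹ * (t * g * t⁻¹)) • a = a by
    rw [mul_smul, mul_smul, mul_smul, inv_smul_eq_iff.2 (mem_st.1 ht).1.symm, hg, (mem_st.1 ht).2,
      inv_smul_eq_iff, hg])
  have h10 : Commute t g := by
    have := congrArg Subtype.val (inv_mul_eq_one.1 h9)
    exact mul_inv_eq_iff_eq_mul.1 this.symm
  refine eq_of_smul_eq_smul (M := G) (α := Ω) fun x => ?_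
  obtain ⟨k, rfl⟩ : x ∈ orbit P a := h8 ▸ trivial
  obtain ⟨i, rfl⟩ := mem_zpowers_of_prime_card h1 (g := g) (g' := k) (by
    rintro rfl; exact hab (by simpa using hg))
  show t • (g : G) ^ i • a = (1 : G) • (g : G) ^ i • a
  rw [← mul_smul, (h10.zpow_right i).eq, mul_smul, (mem_st.1 ht).1, one_smul]

theorem local_bound (h : T2 G Ω) {a b : Ω} (hab : a ≠ b) (hn : 7 ≤ Fintype.card Ω)
    (hH : st G a b ≠ ⊥)
    (hG : Nat.card G = Fintype.card Ω * (Fintype.card Ω - 1) * Nat.card (st G a b))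
    [Fintype (st G a b)] : (Nat.card (st G a b) : ℚ) ≤
      ∑ h : st G a b, ((Fintype.card Ω : ℚ) - fx Ω (h : G)) / fx Ω (h : G) := by
  classical
  set n := Fintype.card Ω
  set f := (ln G a b).card with hf
  have p1 : ∀ g : (st G a b), f ≤ fx Ω (g : G) := fun g => card_le_card fun x hx =>
    mem_filter.2 ⟨mem_univ _, mem_ln.1 hx g g.2⟩
  have f2 : 2 ≤ f := one_lt_card.2 ⟨a, mem_ln.2 fun _ h => h.1, b, mem_ln.2 fun _ h => h.2, hab⟩
  have p0 : ∀ g : (st G a b), (0 : ℚ) < fx Ω (g : G) := fun g => by have := p1 g; norm_cast; omega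
  have p2 : fx Ω ((1 : (st G a b)) : G) = n := by simp [fx, n]
  have h2 : 2 ≤ Nat.card (st G a b) := (Subgroup.one_lt_card_iff_ne_bot (st G a b)).2 hH
  have hc : ((univ.erase (1 : (st G a b))).card : ℚ) = Nat.card (st G a b) - 1 := by
    rw [Nat.card_eq_fintype_card, ← card_univ, ← card_erase_add_one (mem_univ (1 : (st G a b)))]; simp
  have p3 : ∀ g ∈ univ.erase (1 : (st G a b)), fx Ω (g : G) * (f - 1) + 1 ≤ n := fun g hg =>
    fx_le h hab (by simpa using hg)
  rw [← add_sum_erase _ _ (mem_univ 1), p2, sub_self, zero_div, zero_add]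
  have two : (∀ g ∈ univ.erase (1 : (st G a b)), 3 * fx Ω (g : G) ≤ n) → (Nat.card (st G a b) : ℚ) ≤
      ∑ h ∈ univ.erase (1 : (st G a b)), ((n : ℚ) - fx Ω (h : G)) / fx Ω (h : G) := fun e => by
    refine le_trans ?_ (card_nsmul_le_sum _ _ 2 fun g hg => ?_)
    · rw [nsmul_eq_mul, hc]; qify at h2; linarith
    · rw [le_div_iff₀ (p0 g)]
      have := e g hg
      qify at this; linarith
  by_cases f4 : 4 ≤ f
  · exact two fun g hg => by have := p3 g hg; nlinarith [(by omega : 3 ≤ f - 1)]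
  rcases key h hab hn (by omega) with k | k
  · rw [← add_sum_erase _ _ (mem_univ 1), p2, ← hf] at k
    have n0 : (7 : ℚ) ≤ n := by exact_mod_cast hn
    rw [show Fintype.card Ω = n from rfl] at k
    qify at k
    obtain e | e : f = 2 ∨ f = 3 := by omega
    · refine le_trans ?_ (sum_le_sum (f := fun g : (st G a b) => 3 - 4 / n * (fx Ω (g : G) : ℚ))
        fun g _ => ?_)
      · rw [sum_sub_distrib, ← mul_sum, sum_const, nsmul_eq_mul, hc, le_sub_comm, div_mul_eq_mul_div,
          div_le_iff₀ (by linarith)]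
        simp only [e] at k
        push_cast at k
        linarith
      · rw [le_div_iff₀ (p0 g)]
        field_simp
        nlinarith [sq_nonneg ((n : ℚ) - 2 * fx Ω (g : G))]
    have p4 : ∀ g ∈ univ.erase (1 : (st G a b)), 2 * (fx Ω (g : G) : ℚ) + 1 ≤ n := fun g hg => by
      have := p3 g hg
      rw [e] at this
      norm_cast; omega
    have := sum_le_sum p4
    rw [sum_add_distrib, ← mul_sum, sum_const, sum_const, nsmul_eq_mul, nsmul_eq_mul, hc] at this
    refine le_trans ?_ (sum_le_sum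
      (f := fun g : (st G a b) => 1 + 2 / (n - 1) * (n - 2 * (fx Ω (g : G) : ℚ))) fun g hg => ?_)
    · rw [sum_add_distrib, ← mul_sum, sum_sub_distrib, ← mul_sum, sum_const, sum_const, nsmul_eq_mul,
        nsmul_eq_mul, hc, ← sub_le_iff_le_add', div_mul_eq_mul_div, le_div_iff₀ (by linarith)]
      simp only [e] at k
      push_cast at k
      linarith
    · have := p4 g hg
      have : (0 : ℚ) < n - 1 := by linarith
      rw [le_div_iff₀ (p0 g)]
      field_simp
      nlinarith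
  obtain ⟨t, ht⟩ := @exists_ne (st G a b) (Finite.one_lt_card_iff_nontrivial.1 h2) 1
  obtain ⟨c, hc⟩ := exists_move (Ω := Ω) (g := (t : G)) (by simpa using ht)
  have k1 : ∀ g : (st G a b), g ≠ 1 → g = t := fun g hg => Subtype.ext (k c (fun e => hc (mem_ln.1 e t t.2))
    g g.2 t t.2 (by simpa using hg) (by simpa using ht)).2
  have k2 : Nat.card (st G a b) = 2 := (Nat.card_eq_two_iff' 1).2 ⟨t, ht, k1⟩
  refine two fun g hg => ?_
  have k3 : fx Ω (g : G) ≤ f := card_le_card fun x hx => by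
    by_contra e
    have : (g : G) ≠ 1 := by simpa using hg
    exact (k x e g g.2 g g.2 this this).1 (mem_filter.1 hx).2
  have k4 : n ≠ 7 := fun e => ht (Subtype.ext (not_seven h hab e (by rw [hG, e, k2]) t.2))
  have := (IsPGroup.of_card (p := 2) (n := 1) k2).card_modEq_card_fixedPoints Ω
  rw [Nat.card_eq_fintype_card, show Nat.card (fixedPoints (st G a b) Ω) = f from
    Nat.subtype_card _ fun x => by simp [mem_ln, Subgroup.smul_def], Nat.ModEq] at this
  omega

theorem sum_pairs (h : T2 G Ω) {a b : Ω} (hab : a ≠ b) [Fintype G] [Fintype (st G a b)] (w : ℕ → ℚ) :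
    ∑ g : G, ((fx Ω g : ℚ) * fx Ω g - fx Ω g) * w (fx Ω g) =
      (Fintype.card Ω * Fintype.card Ω - Fintype.card Ω : ℚ) * ∑ g : st G a b, w (fx Ω (g : G)) := by
  classical
  have h0 : ∀ s : Finset Ω, (s.offDiag.card : ℚ) = s.card * s.card - s.card := fun s => by
    rw [offDiag_card, Nat.cast_sub (Nat.le_mul_self _), Nat.cast_mul]
  have h1 : ∀ g : G, ((fx Ω g : ℚ) * fx Ω g - fx Ω g) * w (fx Ω g) =
      ∑ p ∈ (univ : Finset Ω).offDiag, if g ∈ st G p.1 p.2 then w (fx Ω g) else 0 := fun g => by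
    rw [← sum_filter, sum_const, nsmul_eq_mul, fx, ← h0]
    congr 3
    ext p
    simp [mem_st, and_comm, and_left_comm]
  simp only [h1]
  rw [sum_comm, ← card_univ, ← h0, ← nsmul_eq_mul, ← sum_const]
  refine sum_congr rfl fun ⟨c, d⟩ hp => ?_
  obtain ⟨k, rfl, rfl⟩ := h a b c d hab (mem_offDiag.1 hp).2.2
  rw [← sum_filter, sum_subtype (p := (· ∈ st G (k • a) (k • b))) _ (by simp)]
  refine (Fintype.sum_equiv (stEquiv k a b) _ _ fun g => congrArg w ?_).symm
  exact card_equiv (toPerm k) fun x => by simp [stEquiv, mul_smul]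

omit [FaithfulSMul G Ω] in
theorem card_eq (h : T2 G Ω) {a b : Ω} (hab : a ≠ b) :
    Nat.card G = Fintype.card Ω * (Fintype.card Ω - 1) * Nat.card (st G a b) := by
  classical
  have := Fintype.ofFinite G
  rw [Nat.mul_sub_one, ← card_univ, ← offDiag_card, Nat.card_eq_fintype_card, ← card_univ,
    card_eq_sum_card_fiberwise (f := fun g : G => (g • a, g • b)) (t := univ.offDiag)
      fun g _ => by simpa using hab]
  refine sum_const_nat fun p hp => ?_
  obtain ⟨k, k1, k2⟩ := h a b p.1 p.2 hab (mem_offDiag.1 hp).2.2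
  rw [Nat.card_eq_fintype_card, Fintype.card_subtype]
  exact card_equiv (Equiv.mulLeft k⁻¹) fun g => by
    simp [mem_st, mul_smul, inv_smul_eq_iff, k1, k2, Prod.ext_iff]

end H27.Der
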