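import Mathlib

/-!
Two-by-two matrices: products of two classes with an irreducible characteristic polynomial.
-/

namespace H27.GT

open Matrix

theorem conj_of_fpf {G : Type*} [Group G] (V : Subgroup G) [Finite V] {x : G} (hn : ∀ v ∈ V, x * v * x⁻¹ ∈ V)
    (hc : ∀ v ∈ V, x * v = v * x → v = 1) {v : G} (hv : v ∈ V) : ∃ y ∈ V, v * x = y⁻¹ * x * y := by
  let f : V → V := fun y => ⟨y⁻¹ * (x * y * x⁻¹), mul_mem (inv_mem y.2) (hn _ y.2)⟩
  have hf : Function.Injective f := fun a b e => by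
    have e1 : (a : G)⁻¹ * (x * a * x⁻¹) = (b : G)⁻¹ * (x * b * x⁻¹) := congrArg Subtype.val e
    have e2 : x * ((a : G) * (b : G)⁻¹) = (a : G) * (b : G)⁻¹ * x := by
      calc x * ((a : G) * (b : G)⁻¹) = a * ((a : G)⁻¹ * (x * a * x⁻¹)) * x * (b : G)⁻¹ := by group
        _ = a * ((b : G)⁻¹ * (x * b * x⁻¹)) * x * (b : G)⁻¹ := by rw [e1]
        _ = _ := by group
    exact Subtype.ext (mul_inv_eq_one.1 (hc _ (mul_mem a.2 (inv_mem b.2)) e2))
  obtain ⟨y, hy⟩ := Finite.surjective_of_injective hf ⟨v, hv⟩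
  have e : (y : G)⁻¹ * (x * y * x⁻¹) = v := congrArg Subtype.val hy
  exact ⟨y, y.2, by rw [← e]; group⟩

theorem conj_of_fpf' {G : Type*} [Group G] (V : Subgroup G) [Finite V] {x : G} (hn : ∀ v ∈ V, x * v * x⁻¹ ∈ V)
    (hc : ∀ v ∈ V, x * v = v * x → v = 1) {v : G} (hv : v ∈ V) : ∃ y ∈ V, x * v = y⁻¹ * x * y := by
  obtain ⟨y, hy, e⟩ := conj_of_fpf V hn hc (hn v hv)
  exact ⟨y, hy, by rw [← e]; group⟩

variable {F : Type*} [Field F]

/-- a matrix whose lower left entry is nonzero is conjugate to its companion matrix -/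
theorem conj_comp (X : GL (Fin 2) F) (h : X.1 1 0 ≠ 0) (C : GL (Fin 2) F)
    (hC : C.1 = !![0, -X.1.det; 1, X.1.trace]) : ∃ P : GL (Fin 2) F, X = P * C * P⁻¹ := by
  refine ⟨GeneralLinearGroup.mkOfDetNeZero !![1, X.1 0 0; 0, X.1 1 0] (by simpa [det_fin_two] using h), ?_⟩
  rw [eq_mul_inv_iff_mul_eq]
  ext i j
  simp only [Units.val_mul, hC, GeneralLinearGroup.val_mkOfDetNeZero, det_fin_two, trace_fin_two]
  fin_cases i <;> fin_cases j <;> simp [mul_apply, Fin.sum_univ_two] <;> ring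

/-- matrices with the same characteristic polynomial without roots are conjugate -/
theorem conj_of_irr {τ δ : F} (h : ∀ l : F, l ^ 2 - τ * l + δ ≠ 0) {X Y : GL (Fin 2) F} (hX : X.1.det = δ)
    (hX' : X.1.trace = τ) (hY : Y.1.det = δ) (hY' : Y.1.trace = τ) : ∃ P : GL (Fin 2) F, X = P * Y * P⁻¹ := by
  have key : ∀ Z : GL (Fin 2) F, Z.1.det = δ → Z.1.trace = τ → Z.1 1 0 ≠ 0 := fun Z h1 h2 h3 => by
    rw [det_fin_two] at h1
    rw [trace_fin_two] at h2
    refine h (Z.1 0 0) ?_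
    rw [← h1, ← h2, h3]; ring
  have hδ : δ ≠ 0 := by simpa using h 0
  let C : GL (Fin 2) F := GeneralLinearGroup.mkOfDetNeZero !![0, -δ; 1, τ] (by simpa [det_fin_two] using hδ)
  obtain ⟨P, hP⟩ := conj_comp X (key X hX hX') C (by rw [hX, hX']; rfl)
  obtain ⟨Q, hQ⟩ := conj_comp Y (key Y hY hY') C (by rw [hY, hY']; rfl)
  exact ⟨P * Q⁻¹, by rw [hP, hQ]; group⟩

theorem det_conj (P X : GL (Fin 2) F) : (P * X * P⁻¹).1.det = X.1.det := by
  rw [Units.val_mul, Units.val_mul, det_mul, det_mul, mul_right_comm, ← det_mul, ← Units.val_mul, mul_inv_cancel]; simp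

theorem trace_conj (P X : GL (Fin 2) F) : (P * X * P⁻¹).1.trace = X.1.trace := by
  rw [Units.val_mul, Units.val_mul, trace_mul_comm, ← mul_assoc, ← Units.val_mul, inv_mul_cancel]; simp

/-- a nonscalar matrix is conjugate to one with nonzero lower left entry -/
theorem conj_nonscalar (A : GL (Fin 2) F) (h : ¬ (A.1 1 0 = 0 ∧ A.1 0 1 = 0 ∧ A.1 0 0 = A.1 1 1)) :
    ∃ P : GL (Fin 2) F, (P * A * P⁻¹).1 1 0 ≠ 0 := by
  by_cases h1 : A.1 1 0 = 0
  · by_cases h2 : A.1 0 1 = 0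
    · have h3 : A.1 0 0 ≠ A.1 1 1 := fun e => h ⟨h1, h2, e⟩
      refine ⟨⟨!![1, 0; 1, 1], !![1, 0; -1, 1], by ext i j; fin_cases i <;> fin_cases j <;> simp,
        by ext i j; fin_cases i <;> fin_cases j <;> simp⟩, ?_⟩
      simp [mul_apply, Fin.sum_univ_two, vecMul, dotProduct, h1, h2]
      exact fun e => h3 (by linear_combination e)
    · refine ⟨⟨!![0, 1; 1, 0], !![0, 1; 1, 0], by ext i j; fin_cases i <;> fin_cases j <;> simp,
        by ext i j; fin_cases i <;> fin_cases j <;> simp⟩, ?_⟩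
      simpa [mul_apply, Fin.sum_univ_two, vecMul, dotProduct] using h2
  · exact ⟨1, by simpa using h1⟩

theorem conic [Finite F] (τ s : F) (hs : s ≠ 2) : ∃ x y : F, x ^ 2 - s * x * y + y ^ 2 - τ * x + τ * y - 1 = 0 := by
  classical
  have := Fintype.ofFinite F
  by_cases h2 : (2 : F) = 0
  · have hs0 : s ≠ 0 := fun e => hs (by rw [e, h2])
    have : CharP F 2 := (CharP.charP_iff_prime_eq_zero Nat.prime_two).2 (by exact_mod_cast h2)
    obtain ⟨X, hX⟩ := FiniteField.isSquare_of_char_two (ringChar.eq F 2) (1 + τ ^ 2 / s)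
    refine ⟨X + τ / s, τ / s, ?_⟩
    have e : X ^ 2 = 1 + τ ^ 2 / s := by rw [hX]; ring
    field_simp at e ⊢
    linear_combination s * e + (τ * X * s - τ * X * s ^ 2 + τ ^ 2) * h2
  by_cases hs2 : s = -2
  · refine ⟨1 / 2, 1 / 2, ?_⟩
    rw [hs2]; field_simp; ring
  have hodd : Fintype.card F % 2 = 1 := FiniteField.odd_card_of_char_ne_two fun e => h2 (by
    have := ringChar.Nat.cast_ringChar (R := F); rw [e] at this; exact_mod_cast this)
  have h4 : 1 - s ^ 2 / 4 ≠ 0 := by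
    have h4 : (4 : F) ≠ 0 := by
      have : (4 : F) = 2 * 2 := by norm_num
      rw [this]; exact mul_ne_zero h2 h2
    intro e
    field_simp at e
    have : (s - 2) * (s + 2) = 0 := by linear_combination -e
    rcases mul_eq_zero.1 this with h | h
    · exact hs (by linear_combination h)
    · exact hs2 (by linear_combination h)
  obtain ⟨a, b, hab⟩ := FiniteField.exists_root_sum_quadratic
    (f := Polynomial.C 1 * Polynomial.X ^ 2 + Polynomial.C (-τ) * Polynomial.X + Polynomial.C 0)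
    (g := Polynomial.C (1 - s ^ 2 / 4) * Polynomial.X ^ 2 + Polynomial.C (τ * (1 - s / 2)) * Polynomial.X +
      Polynomial.C (-1)) (Polynomial.degree_quadratic one_ne_zero) (Polynomial.degree_quadratic h4) hodd
  simp only [Polynomial.eval_add, Polynomial.eval_mul, Polynomial.eval_C, Polynomial.eval_pow,
    Polynomial.eval_X] at hab
  refine ⟨a + s * b / 2, b, ?_⟩
  have h4 : (4 : F) = 2 * 2 := by norm_num
  rw [h4] at hab
  field_simp at hab ⊢
  linear_combination hab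

/-- the product of the two classes -/
theorem prod_two [Finite F] (τ : F) (A : GL (Fin 2) F) (hA : A.1.det = 1)
    (h : A = 1 ∨ (¬ (A.1 1 0 = 0 ∧ A.1 0 1 = 0 ∧ A.1 0 0 = A.1 1 1) ∧ A.1.trace ≠ 2)) :
    ∃ X Y : GL (Fin 2) F, A = X * Y ∧ X.1.det = -1 ∧ X.1.trace = τ ∧ Y.1.det = -1 ∧ Y.1.trace = -τ := by
  rcases h with rfl | ⟨h1, h2⟩
  · refine ⟨⟨!![0, 1; 1, τ], !![-τ, 1; 1, 0], by ext i j; fin_cases i <;> fin_cases j <;> simp,
      by ext i j; fin_cases i <;> fin_cases j <;> simp⟩, ⟨!![-τ, 1; 1, 0], !![0, 1; 1, τ],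
      by ext i j; fin_cases i <;> fin_cases j <;> simp, by ext i j; fin_cases i <;> fin_cases j <;> simp⟩,
      ?_, ?_, ?_, ?_, ?_⟩
    · ext i j; fin_cases i <;> fin_cases j <;> simp
    all_goals simp [det_fin_two, trace_fin_two]
  obtain ⟨P, hP⟩ := conj_nonscalar A h1
  let C : GL (Fin 2) F := GeneralLinearGroup.mkOfDetNeZero !![0, -1; 1, A.1.trace] (by simp [det_fin_two])
  obtain ⟨Q, hQ⟩ := conj_comp _ hP C (by rw [det_conj, trace_conj, hA]; rfl)
  obtain ⟨x, y, hxy⟩ := conic τ A.1.trace h2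
  set s := A.1.trace
  let X : GL (Fin 2) F := GeneralLinearGroup.mkOfDetNeZero !![x, y; τ + y - x * s, τ - x] (by
    rw [det_fin_two_of, show x * (τ - x) - y * (τ + y - x * s) = -1 by linear_combination -hxy]; simp)
  have hX : X.1.det = -1 := by
    simp only [X, GeneralLinearGroup.val_mkOfDetNeZero, det_fin_two_of]; linear_combination -hxy
  have hX' : X.1.trace = τ := by simp [X, trace_fin_two]
  let Y : GL (Fin 2) F := GeneralLinearGroup.mkOfDetNeZero !![y, τ - x + y * s; -x, -(τ + y - x * s) - x * s] (by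
    rw [det_fin_two_of, show y * (-(τ + y - x * s) - x * s) - (τ - x + y * s) * -x = -1 by linear_combination -hxy]
    simp)
  have hY : Y.1.det = -1 := by
    simp only [Y, GeneralLinearGroup.val_mkOfDetNeZero, det_fin_two_of]; linear_combination -hxy
  have hY' : Y.1.trace = -τ := by simp [Y, trace_fin_two]
  have hC : C = X * Y := by
    ext i j
    simp only [C, X, Y, Units.val_mul, GeneralLinearGroup.val_mkOfDetNeZero]
    fin_cases i <;> fin_cases j <;> simp [mul_apply, Fin.sum_univ_two]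
    · ring
    · linear_combination hxy
    · linear_combination -hxy
    · linear_combination -s * hxy
  refine ⟨(P⁻¹ * Q) * X * (P⁻¹ * Q)⁻¹, (P⁻¹ * Q) * Y * (P⁻¹ * Q)⁻¹, ?_, by rw [det_conj, hX], by rw [trace_conj, hX'],
    by rw [det_conj, hY], by rw [trace_conj, hY']⟩
  calc A = P⁻¹ * (P * A * P⁻¹) * P := by group
    _ = _ := by rw [hQ, hC]; group

/-- odd characteristic: every element of determinant one -/
theorem prod_odd [Finite F] (h2 : (2 : F) ≠ 0) (τ : F) (A : GL (Fin 2) F) (hA : A.1.det = 1) :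
    ∃ X Y : GL (Fin 2) F, A = X * Y ∧ X.1.det = -1 ∧ X.1.trace = τ ∧ Y.1.det = -1 ∧
      (Y.1.trace = -τ ∨ Y.1.trace = τ) := by
  by_cases h : A = 1 ∨ (¬ (A.1 1 0 = 0 ∧ A.1 0 1 = 0 ∧ A.1 0 0 = A.1 1 1) ∧ A.1.trace ≠ 2)
  · obtain ⟨X, Y, h1, h2, h3, h4, h5⟩ := prod_two τ A hA h
    exact ⟨X, Y, h1, h2, h3, h4, Or.inl h5⟩
  obtain ⟨X, Y, h1, h2, h3, h4, h5⟩ := prod_two τ (-A) (by simp [det_neg, hA]) (by
    push Not at h
    by_cases hs : (A.1 1 0 = 0 ∧ A.1 0 1 = 0 ∧ A.1 0 0 = A.1 1 1)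
    · left
      obtain ⟨a, b, c⟩ := hs
      rw [det_fin_two, a, ← c] at hA
      have : (A.1 0 0 - 1) * (A.1 0 0 + 1) = 0 := by linear_combination hA
      rcases mul_eq_zero.1 this with e | e
      · exfalso
        refine h.1 ?_
        ext i j
        fin_cases i <;> fin_cases j <;> simp [a, b, ← c] <;> linear_combination e
      · ext i j
        fin_cases i <;> fin_cases j <;> simp [a, b, ← c] <;> linear_combination -e
    · right
      refine ⟨by simpa using hs, ?_⟩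
      have := h.2 (by tauto)
      simp only [Units.val_neg, trace_neg, this]
      intro e
      have h4 : (2 : F) * 2 = 0 := by linear_combination -e
      exact h2 (by simpa using h4))
  refine ⟨X, -Y, ?_, h2, h3, by simp [det_neg, h4], Or.inr (by simp [h5])⟩
  rw [mul_neg, ← h1, neg_neg]

/-- even characteristic: after a transvection -/
theorem prod_even [Finite F] (h2 : (2 : F) = 0) (τ : F) (A : GL (Fin 2) F) (hA : A.1.det = 1) :
    ∃ r : F, ∀ T : GL (Fin 2) F, T.1 = !![1, r; 0, 1] → ∃ X Y : GL (Fin 2) F,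
      A * T = X * Y ∧ X.1.det = -1 ∧ X.1.trace = τ ∧ Y.1.det = -1 ∧ Y.1.trace = -τ := by
  suffices h : ∃ r : F, ∀ T : GL (Fin 2) F, T.1 = !![1, r; 0, 1] → A * T = 1 ∨ (A * T).1.trace ≠ 0 by
    obtain ⟨r, hr⟩ := h
    refine ⟨r, fun T hT => prod_two τ _ (by simp [hA, hT, det_fin_two]) ((hr T hT).imp id fun h => ⟨?_, h2 ▸ h⟩)⟩
    rintro ⟨-, -, h3⟩
    refine h ?_
    rw [trace_fin_two, h3]; linear_combination (A * T).1 1 1 * h2
  by_cases ht : A.1.trace = 0
  · by_cases hc : A.1 1 0 = 0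
    · refine ⟨-A.1 0 1, fun T hT => Or.inl ?_⟩
      rw [det_fin_two, hc] at hA
      rw [trace_fin_two] at ht
      have e1 : A.1 1 1 = A.1 0 0 := by linear_combination ht - A.1 0 0 * h2
      have e2 : A.1 0 0 = 1 := by
        have : (A.1 0 0 - 1) ^ 2 = 0 := by rw [e1] at hA; linear_combination hA + (1 - A.1 0 0) * h2
        simpa [sub_eq_zero] using this
      ext i j
      fin_cases i <;> fin_cases j <;> simp [hT, mul_apply, Fin.sum_univ_two, hc, e1, e2]
    · refine ⟨1, fun T hT => Or.inr ?_⟩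
      rw [trace_fin_two] at ht ⊢
      simp only [Units.val_mul, hT, mul_apply, Fin.sum_univ_two]
      simp
      intro e
      exact hc (by linear_combination e - ht)
  · refine ⟨0, fun T hT => Or.inr ?_⟩
    have : T = 1 := by ext i j; fin_cases i <;> fin_cases j <;> simp [hT]
    simpa [this] using ht

theorem exists_irr [Finite F] : ∃ τ : F, ∀ l : F, l ^ 2 - τ * l + -1 ≠ 0 := by
  classical
  have := Fintype.ofFinite F
  by_contra h
  push Not at h
  have hs : Function.Surjective fun l : Fˣ => (l : F) - (l : F)⁻¹ := fun τ => by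
    obtain ⟨l, hl⟩ := h τ
    have h0 : l ≠ 0 := by rintro rfl; simp at hl
    refine ⟨Units.mk0 l h0, ?_⟩
    simp only [Units.val_mk0]
    field_simp
    linear_combination hl
  have := Fintype.card_le_of_surjective _ hs
  rw [Fintype.card_units] at this
  have := Fintype.card_pos (α := F)
  omega

theorem exU (t : F) : ∃ M : GL (Fin 2) F, M.1 = !![1, t; 0, 1] :=
  ⟨GeneralLinearGroup.mkOfDetNeZero _ (by simp [det_fin_two]), rfl⟩

theorem exL (t : F) : ∃ M : GL (Fin 2) F, M.1 = !![1, 0; t, 1] :=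
  ⟨GeneralLinearGroup.mkOfDetNeZero _ (by simp [det_fin_two]), rfl⟩

theorem exD {s t : F} (hs : s ≠ 0) (ht : t ≠ 0) : ∃ M : GL (Fin 2) F, M.1 = !![s, 0; 0, t] :=
  ⟨GeneralLinearGroup.mkOfDetNeZero _ (by simp [det_fin_two, hs, ht]), rfl⟩

/-- generation of the general linear group -/
theorem gl2_decomp (N : Subgroup (GL (Fin 2) F)) (h1 : ∀ (M : GL (Fin 2) F) t, M.1 = !![1, t; 0, 1] → M ∈ N)
    (h2 : ∀ (M : GL (Fin 2) F) t, M.1 = !![1, 0; t, 1] → M ∈ N) (M : GL (Fin 2) F) :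
    ∃ A ∈ N, ∃ D : GL (Fin 2) F, D.1 = !![1, 0; 0, M.1.det] ∧ M = A * D := by
  have key : ∀ M : GL (Fin 2) F, M.1 1 0 ≠ 0 →
      ∃ A ∈ N, ∃ D : GL (Fin 2) F, D.1 = !![1, 0; 0, M.1.det] ∧ M = A * D := fun M hc => by
    have hd : M.1.det ≠ 0 := M.det_ne_zero
    obtain ⟨A, hA⟩ := exU ((M.1 0 0 - 1) / M.1 1 0)
    obtain ⟨B, hB⟩ := exL (M.1 1 0)
    obtain ⟨C, hC⟩ := exU ((M.1 1 1 / M.1.det - 1) / M.1 1 0)
    obtain ⟨D, hD⟩ := exD one_ne_zero hd
    refine ⟨A * B * C, mul_mem (mul_mem (h1 A _ hA) (h2 B _ hB)) (h1 C _ hC), D, hD, ?_⟩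
    ext i j
    simp only [Units.val_mul, hA, hB, hC, hD]
    have hd' := det_fin_two M.1
    generalize M.1.det = d at *
    fin_cases i <;> fin_cases j <;> simp [mul_apply, Fin.sum_univ_two] <;> field_simp
    all_goals first | ring1 | linear_combination -hd' | linear_combination hd'
  by_cases hc : M.1 1 0 = 0
  · obtain ⟨B, hB⟩ := exL (1 : F)
    have hd : M.1.det ≠ 0 := M.det_ne_zero
    obtain ⟨A, hA, D, hD, e⟩ := key (B * M) (by
      rw [det_fin_two, hc] at hd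
      simp only [Units.val_mul, hB, mul_apply, Fin.sum_univ_two]
      simp [hc]
      intro e; exact hd (by simp [e]))
    refine ⟨B⁻¹ * A, mul_mem (inv_mem (h2 B _ hB)) hA, D, ?_, by rw [mul_assoc, ← e]; group⟩
    rw [hD, Units.val_mul, det_mul, hB]; simp
  · exact key M hc

theorem gl2_mem (N : Subgroup (GL (Fin 2) F)) (h1 : ∀ (M : GL (Fin 2) F) t, M.1 = !![1, t; 0, 1] → M ∈ N)
    (h2 : ∀ (M : GL (Fin 2) F) t, M.1 = !![1, 0; t, 1] → M ∈ N)
    (h3 : ∀ (M : GL (Fin 2) F) t, t ≠ 0 → M.1 = !![1, 0; 0, t] → M ∈ N) (M : GL (Fin 2) F) : M ∈ N := by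
  obtain ⟨A, hA, D, hD, e⟩ := gl2_decomp N h1 h2 M
  exact e ▸ mul_mem hA (h3 D _ M.det_ne_zero hD)

theorem sl2_mem (N : Subgroup (GL (Fin 2) F)) (h1 : ∀ (M : GL (Fin 2) F) t, M.1 = !![1, t; 0, 1] → M ∈ N)
    (h2 : ∀ (M : GL (Fin 2) F) t, M.1 = !![1, 0; t, 1] → M ∈ N) {M : GL (Fin 2) F} (h : M.1.det = 1) : M ∈ N := by
  obtain ⟨A, hA, D, hD, e⟩ := gl2_decomp N h1 h2 M
  have : D = 1 := by ext i j; fin_cases i <;> fin_cases j <;> simp [hD, h]
  rw [e, this, mul_one]; exact hA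

theorem gl2_ext {G : Type*} [Group G] {f g : GL (Fin 2) F →* G}
    (h1 : ∀ (M : GL (Fin 2) F) t, M.1 = !![1, t; 0, 1] → f M = g M)
    (h2 : ∀ (M : GL (Fin 2) F) t, M.1 = !![1, 0; t, 1] → f M = g M)
    (h3 : ∀ (M : GL (Fin 2) F) t, t ≠ 0 → M.1 = !![1, 0; 0, t] → f M = g M) : f = g :=
  MonoidHom.ext fun M => gl2_mem (f.eqLocus g) h1 h2 h3 M

/-- diagonalisation -/
theorem diag_of_root (X : GL (Fin 2) F) {l m : F} (h1 : X.1.trace = l + m) (h2 : X.1.det = l * m) (h3 : l ≠ m)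
    (h4 : X.1 1 0 ≠ 0) : ∃ P D : GL (Fin 2) F, D.1 = !![l, 0; 0, m] ∧ X = P * D * P⁻¹ := by
  have hd : X.1.det ≠ 0 := X.det_ne_zero
  rw [h2] at hd
  obtain ⟨D, hD⟩ := exD (left_ne_zero_of_mul hd) (right_ne_zero_of_mul hd)
  refine ⟨GeneralLinearGroup.mkOfDetNeZero !![l - X.1 1 1, m - X.1 1 1; X.1 1 0, X.1 1 0] (by
    rw [det_fin_two_of, ← sub_mul]; exact mul_ne_zero (by simpa [sub_eq_zero] using h3) h4), D, hD, ?_⟩
  rw [eq_mul_inv_iff_mul_eq]
  rw [trace_fin_two] at h1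
  rw [det_fin_two] at h2
  ext i j
  simp only [Units.val_mul, hD, GeneralLinearGroup.val_mkOfDetNeZero]
  fin_cases i <;> fin_cases j <;> simp [mul_apply, Fin.sum_univ_two]
  · linear_combination l * h1 - h2
  · linear_combination m * h1 - h2
  · ring
  · ring

end H27.GT
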