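import Cfsg.Agent.H27.GT1
import Cfsg.Agent.H14.Fld
import Cfsg.Agent.H14.Tw4

/-!
Torus characters, Levi copies of `GL₂`, and negative unipotent elements in Bruhat cells.
-/

namespace H27.GT

open Matrix H14 H14.RootSys H14.PreSt H14.St MatrixGroups

variable {ι κ : Type*} [Fintype κ] [DecidableEq κ] [Fintype ι] [DecidableEq ι] {R : RootSys ι κ}
  {C : Chev R} {K G : Type*} [Field K] [Group G] {S : St C K G}

variable (S) in
/-- `k` scales the root groups by `c` -/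
def Acts (k : G) (c : ι → K) : Prop := ∀ s t, k * S.x s t = S.x s (c s * t) * k

theorem Acts.one : Acts S 1 1 := fun s t => by simp

theorem Acts.mul {k k' : G} {c c' : ι → K} (h : Acts S k c) (h' : Acts S k' c') : Acts S (k * k') (c * c') :=
  fun s t => by rw [mul_assoc, h', ← mul_assoc, h, mul_assoc, Pi.mul_apply, mul_assoc]

theorem Acts.h (r : ι) {t : K} (ht : t ≠ 0) : Acts S (S.h r t) fun s => t ^ R.pair r s :=
  fun s u => S.h_mul_x r s ht u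

theorem Acts.pow {k : G} {c : ι → K} (h : Acts S k c) (n : ℕ) : Acts S (k ^ n) (c ^ n) := by
  induction n with
  | zero => simpa using Acts.one
  | succ n ih => rw [pow_succ, pow_succ]; exact ih.mul h

theorem Acts.eq (hG : S.U Set.univ = ⊤) (hZ : Subgroup.center G = ⊥) {k k' : G} {c c' : ι → K} (h : Acts S k c)
    (h' : Acts S k' c') (e : ∀ s, c s = c' s) : k = k' := by
  have : k'⁻¹ * k ∈ Subgroup.center G := by
    rw [Subgroup.mem_center_iff]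
    intro g
    have hg : g ∈ S.U Set.univ := hG ▸ Subgroup.mem_top g
    refine U_induction (P := fun g => g * (k'⁻¹ * k) = k'⁻¹ * k * g) (by simp) (fun r _ t g _ ih => ?_) hg
    have e1 : S.x r t * (k'⁻¹ * k) = k'⁻¹ * k * S.x r t := by
      rw [mul_assoc, h, e, ← mul_assoc, ← mul_assoc, mul_left_inj, eq_inv_mul_iff_mul_eq, ← mul_assoc, h']; group
    rw [mul_assoc, ih, ← mul_assoc, e1, mul_assoc (k'⁻¹ * k)]
  rw [hZ, Subgroup.mem_bot, inv_mul_eq_one] at this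
  exact this.symm

theorem Acts.conj_mem {k : G} {c : ι → K} (h : Acts S k c) {A : Set ι} {u : G} (hu : u ∈ S.U A) :
    k * u * k⁻¹ ∈ S.U A :=
  conj_mem_U (fun r hr t => by rw [h, mul_inv_cancel_right]; exact x_mem_U hr _) hu

theorem Acts.fpf (hS : S.Sep) {k : G} {c : ι → K} (h : Acts S k c) {A : Set ι} (hA : R.Closed A)
    {f : (κ → ℤ) →+ ℤ} (hf : ∀ r ∈ A, 0 < f (R.cf r)) (hc : ∀ r ∈ A, c r ≠ 1) {u : G} (hu : u ∈ S.U A)
    (e : k * u = u * k) : u = 1 := by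
  classical
  obtain ⟨t, e2⟩ := exists_prod hA f hf (L := (Finset.univ.filter (· ∈ A)).toList) (Finset.nodup_toList _) (by simp) hu
  have e3 : ∀ L : List ι, k * (L.map fun r => S.x r (t r)).prod * k⁻¹ = (L.map fun r => S.x r (c r * t r)).prod := by
    intro L
    induction L with
    | nil => simp
    | cons a L ih => simp [← ih, ← mul_assoc, h a]
  have e1 : k * u * k⁻¹ = u := by rw [e]; group
  rw [e2, e3] at e1
  have e4 := hS.uniq f _ (Finset.nodup_toList _) (by simpa using hf) _ _ e1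
  refine e2.trans (List.prod_eq_one fun g hg => ?_)
  obtain ⟨r, hr, rfl⟩ := List.mem_map.1 hg
  have h0 : t r = 0 := by
    by_contra h0
    exact hc r (by simpa using hr) (mul_right_cancel₀ h0 (by simpa using e4 r hr))
  rw [h0, x_zero]

theorem Acts.eq_one_of_pow (hS : S.Sep) (hG : S.U Set.univ = ⊤) (hZ : Subgroup.center G = ⊥) (p : ℕ) [Fact p.Prime]
    [CharP K p] {k : G} {c : ι → K} (h : Acts S k c) (e : k ^ p = 1) : k = 1 := by
  refine h.eq hG hZ Acts.one fun s => ?_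
  have h1 := h.pow p s 1
  rw [e, one_mul, mul_one, mul_one, Pi.pow_apply] at h1
  have h2 := hS.x_inj h1
  have : (c s - 1) ^ p = 0 := by rw [sub_pow_char, ← h2]; simp
  simpa [sub_eq_zero] using pow_eq_zero_iff (Fact.out : p.Prime).ne_zero |>.1 this

theorem Acts.not_dvd (hS : S.Sep) (hG : S.U Set.univ = ⊤) (hZ : Subgroup.center G = ⊥) (p : ℕ) [Fact p.Prime]
    [CharP K p] {k : G} {c : ι → K} (h : Acts S k c) (h0 : 0 < orderOf k) : ¬ p ∣ orderOf k := by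
  rintro ⟨m, hm⟩
  have h1 : k ^ m = 1 := (h.pow m).eq_one_of_pow hS hG hZ p (by rw [← pow_mul, mul_comm, ← hm, pow_orderOf_eq_one])
  have h2 := Nat.le_of_dvd (Nat.pos_of_ne_zero (by rintro rfl; omega)) (orderOf_dvd_of_pow_eq_one h1)
  have h3 := (Fact.out : p.Prime).two_le
  have h4 : 0 < m := Nat.pos_of_ne_zero (by rintro rfl; omega)
  nlinarith

variable (S) in
/-- a copy of `GL₂` -/
structure IsGL (b d : ι) (Ψ : GL (Fin 2) K →* G) : Prop where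
  up : ∀ (M : GL (Fin 2) K) t, M.1 = !![1, t; 0, 1] → Ψ M = S.x b t
  lo : ∀ (M : GL (Fin 2) K) t, M.1 = !![1, 0; t, 1] → Ψ M = S.x (R.neg b) t
  dg : ∀ (M : GL (Fin 2) K) t, M.1 = !![1, 0; 0, t] → Ψ M = S.h d t

theorem exists_isGL (hh : S.HMul) {b d : ι} (hp : R.pair d b = -1) : ∃ Ψ, IsGL S b d Ψ := by
  obtain ⟨ψ, -, hψ⟩ := S.exists_SL2 b (hh b)
  let D : Kˣ →* GL (Fin 2) K := MonoidHom.mk' (fun t => ⟨!![1, 0; 0, t], !![1, 0; 0, t⁻¹],
      by ext i j; fin_cases i <;> fin_cases j <;> simp, by ext i j; fin_cases i <;> fin_cases j <;> simp⟩)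
    fun a b => by ext i j; fin_cases i <;> fin_cases j <;> simp
  have hD : ∀ t, (D t).1 = !![1, 0; 0, (t : K)] := fun _ => rfl
  have hD' : ∀ t, (D t)⁻¹.1 = !![1, 0; 0, (t : K)⁻¹] := fun t => by rw [← map_inv, hD]; simp
  let s : GL (Fin 2) K → SL(2, K) := fun M => ⟨(M * (D (GeneralLinearGroup.det M))⁻¹).1, by
    rw [Units.val_mul, det_mul, hD']; simp [M.det_ne_zero]⟩
  let c : Kˣ → SL(2, K) →* SL(2, K) := fun t => MonoidHom.mk' (fun A => ⟨(D t).1 * A.1 * (D t)⁻¹.1, by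
    rw [det_mul, det_mul, hD', hD]; simp⟩) fun A B => Subtype.ext (by
      change (D t).1 * (A.1 * B.1) * (D t)⁻¹.1 = (D t).1 * A.1 * (D t)⁻¹.1 * ((D t).1 * B.1 * (D t)⁻¹.1)
      simp only [mul_assoc, Units.inv_mul_cancel_left])
  have hc : ∀ (t : Kˣ) (A : SL(2, K)), S.h d t * ψ A * (S.h d t)⁻¹ = ψ (c t A) := fun t A => by
    let N : Subgroup SL(2, K) := ((MulAut.conj (S.h d t)).toMonoidHom.comp ψ).eqLocus (ψ.comp (c t))
    have h1 := sl2_mem (N.map SpecialLinearGroup.toGL) (fun M u hM => ?_) (fun M u hM => ?_)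
      (M := SpecialLinearGroup.toGL A) A.2
    · obtain ⟨B, hB, e⟩ := h1
      rw [SpecialLinearGroup.toGL_injective e] at hB
      exact hB
    · refine ⟨⟨M.1, by simp [hM]⟩, ?_, Units.ext rfl⟩
      change S.h d t * ψ ⟨M.1, _⟩ * (S.h d t)⁻¹ = ψ (c t _)
      rw [(hψ ⟨M.1, _⟩ u).1 hM, S.h_mul_x _ _ t.ne_zero, mul_inv_cancel_right, hp, eq_comm]
      refine (hψ _ _).1 ?_
      change (D t).1 * M.1 * (D t)⁻¹.1 = _
      rw [hD, hD', hM]; ext i j; fin_cases i <;> fin_cases j <;> simp [mul_comm]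
    · refine ⟨⟨M.1, by simp [hM]⟩, ?_, Units.ext rfl⟩
      change S.h d t * ψ ⟨M.1, _⟩ * (S.h d t)⁻¹ = ψ (c t _)
      rw [(hψ ⟨M.1, _⟩ u).2 hM, S.h_mul_x _ _ t.ne_zero, mul_inv_cancel_right, pair_neg_right, hp, eq_comm]
      refine (hψ _ _).2 ?_
      change (D t).1 * M.1 * (D t)⁻¹.1 = _
      rw [hD, hD', hM]; ext i j; fin_cases i <;> fin_cases j <;> simp
  refine ⟨MonoidHom.mk' (fun M => ψ (s M) * S.h d (GeneralLinearGroup.det M)) fun M N => ?_, fun M t hM => ?_,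
    fun M t hM => ?_, fun M t hM => ?_⟩
  · have e : s (M * N) = s M * c (GeneralLinearGroup.det M) (s N) := Subtype.ext (by
      change (M * N * (D _)⁻¹).1 = (M * (D _)⁻¹).1 * ((D _).1 * (N * (D _)⁻¹).1 * (D _)⁻¹.1)
      simp only [← Units.val_mul]
      rw [map_mul GeneralLinearGroup.det, map_mul D]
      congr 1
      group)
    rw [e, map_mul, ← hc, map_mul, Units.val_mul, ← hh d _ _ (Units.ne_zero _) (Units.ne_zero _)]
    group
  · have e : GeneralLinearGroup.det M = 1 := Units.ext (by simp [hM])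
    change ψ (s M) * S.h d _ = _
    rw [e, Units.val_one, h_one, mul_one]
    exact (hψ _ _).1 (by change (M * (D _)⁻¹).1 = _; rw [e, map_one]; simpa using hM)
  · have e : GeneralLinearGroup.det M = 1 := Units.ext (by simp [hM])
    change ψ (s M) * S.h d _ = _
    rw [e, Units.val_one, h_one, mul_one]
    exact (hψ _ _).2 (by change (M * (D _)⁻¹).1 = _; rw [e, map_one]; simpa using hM)
  · have e : (GeneralLinearGroup.det M : K) = t := by simp [hM]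
    change ψ (s M) * S.h d _ = _
    have : s M = 1 := Subtype.ext (by
      change (M * (D _)⁻¹).1 = _
      have ht : t ≠ 0 := e ▸ Units.ne_zero _
      rw [Units.val_mul, hD', hM, e]
      ext i j; fin_cases i <;> fin_cases j <;> simp [ht])
    rw [this, map_one, one_mul, e]

namespace IsGL

variable {b d : ι} {Ψ : GL (Fin 2) K →* G} (h : IsGL S b d Ψ)
include h

theorem diag {M : GL (Fin 2) K} {l m : K} (hM : M.1 = !![l, 0; 0, m]) : Ψ M = S.h b l * S.h d (l * m) := by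
  have hd : M.1.det ≠ 0 := M.det_ne_zero
  rw [hM, det_fin_two_of, mul_zero, sub_zero] at hd
  have hl := left_ne_zero_of_mul hd
  obtain ⟨A, hA⟩ := exU l
  obtain ⟨B, hB⟩ := exL (-l⁻¹)
  obtain ⟨A', hA'⟩ := exU (-1 : K)
  obtain ⟨B', hB'⟩ := exL (-(-1 : K)⁻¹)
  obtain ⟨D, hD⟩ := exD one_ne_zero hd
  have : M = A * B * A * (A' * B' * A') * D := by
    ext i j
    simp only [Units.val_mul, hA, hB, hA', hB', hD, hM]
    fin_cases i <;> fin_cases j <;> simp [mul_apply, Fin.sum_univ_two, hl]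
  rw [this]
  simp only [map_mul, h.up A _ hA, h.up A' _ hA', h.lo B _ hB, h.lo B' _ hB', h.dg D _ hD]
  rfl

theorem mem {N : Subgroup G} (h1 : ∀ t, S.x b t ∈ N) (h2 : ∀ t, S.x (R.neg b) t ∈ N) (h3 : ∀ t, t ≠ 0 → S.h d t ∈ N)
    (M : GL (Fin 2) K) : Ψ M ∈ N :=
  gl2_mem (N.comap Ψ) (fun M t e => by rw [Subgroup.mem_comap, h.up M t e]; exact h1 t)
    (fun M t e => by rw [Subgroup.mem_comap, h.lo M t e]; exact h2 t)
    (fun M t ht e => by rw [Subgroup.mem_comap, h.dg M t e]; exact h3 t ht) M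

theorem mem_sl {N : Subgroup G} (h1 : ∀ t, S.x b t ∈ N) (h2 : ∀ t, S.x (R.neg b) t ∈ N) {M : GL (Fin 2) K}
    (hM : M.1.det = 1) : Ψ M ∈ N :=
  sl2_mem (N.comap Ψ) (fun M t e => by rw [Subgroup.mem_comap, h.up M t e]; exact h1 t)
    (fun M t e => by rw [Subgroup.mem_comap, h.lo M t e]; exact h2 t) hM

theorem exists_of_mem {g : G} (hg : g ∈ S.U {b, R.neg b}) : ∃ M : GL (Fin 2) K, M.1.det = 1 ∧ Ψ M = g := by
  have : S.U {b, R.neg b} ≤ (GeneralLinearGroup.det (n := Fin 2) (R := K)).ker.map Ψ := by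
    refine U_le.2 ?_
    rintro _ (rfl | rfl) t
    · obtain ⟨M, hM⟩ := exU t
      exact ⟨M, Units.ext (by simp [hM]), h.up M t hM⟩
    · obtain ⟨M, hM⟩ := exL t
      exact ⟨M, Units.ext (by simp [hM]), h.lo M t hM⟩
  obtain ⟨M, hM, e⟩ := this hg
  exact ⟨M, congrArg Units.val hM, e⟩

end IsGL

theorem into_neg (J : Set κ) : R.Into {r | ¬ R.pos r ∨ R.InJ J r} {r | ¬ R.pos r ∧ ¬ R.InJ J r}
    {r | ¬ R.pos r ∧ ¬ R.InJ J r} := by
  rintro r hr s ⟨hs, hs'⟩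
  refine ⟨?_, fun k i j hi hj e => ?_⟩
  · rintro rfl
    rw [pos_neg_iff, not_not] at hs
    rw [inJ_neg] at hs'
    exact hr.elim (fun h => h hs) hs'
  · simp only [InJ, not_forall] at hs'
    obtain ⟨a, ha, h1⟩ := hs'
    have h2 : R.cf s a < 0 := lt_of_le_of_ne ((R.not_pos_iff s).1 hs a) h1
    have h3 : R.cf r a ≤ 0 := hr.elim (fun h => (R.not_pos_iff r).1 h a) fun h => (h a ha).le
    have h4 : R.cf k a < 0 := by
      rw [e]; simp only [Pi.add_apply, Pi.smul_apply, smul_eq_mul]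
      have : (0 : ℤ) < j := by exact_mod_cast hj
      have : (0 : ℤ) < i := by exact_mod_cast hi
      nlinarith
    exact ⟨R.not_pos_of_cf_neg h4, fun h => h4.ne (h a ha)⟩

theorem closed_nrad (J : Set κ) : R.Closed {r | ¬ R.pos r ∧ ¬ R.InJ J r} :=
  fun r hr s hs => (into_neg J r (Or.inl hr.1) s hs).2

variable (S) in
/-- the Levi subgroup -/
def Lev (J : Set κ) : Subgroup G := S.H ⊔ S.U {r | R.InJ J r}

variable (S) in
/-- the radical -/
def Rp (J : Set κ) : Subgroup G := S.U {r | R.pos r ∧ ¬ R.InJ J r}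

variable (S) in
/-- the opposite radical -/
def Rm (J : Set κ) : Subgroup G := S.U {r | ¬ R.pos r ∧ ¬ R.InJ J r}

theorem Lev.conj_Rp {J : Set κ} {l u : G} (hl : l ∈ Lev S J) (hu : u ∈ Rp S J) : l * u * l⁻¹ ∈ Rp S J := by
  have : Lev S J ≤ Subgroup.normalizer (Rp S J : Set G) :=
    sup_le (H_le_normalizer _) (U_le_normalizer ((into_radical J).mono (fun _ h => Or.inr h) le_rfl le_rfl))
  exact (Subgroup.mem_normalizer_iff.1 (this hl) u).1 hu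

theorem Lev.conj_Rm {J : Set κ} {l u : G} (hl : l ∈ Lev S J) (hu : u ∈ Rm S J) : l * u * l⁻¹ ∈ Rm S J := by
  have : Lev S J ≤ Subgroup.normalizer (Rm S J : Set G) :=
    sup_le (H_le_normalizer _) (U_le_normalizer ((into_neg J).mono (fun _ h => Or.inr h) le_rfl le_rfl))
  exact (Subgroup.mem_normalizer_iff.1 (this hl) u).1 hu

theorem Up_conj_Rp {J : Set κ} {l u : G} (hl : l ∈ S.U {r | R.pos r}) (hu : u ∈ Rp S J) : l * u * l⁻¹ ∈ Rp S J :=
  conj_mem_U_of_into ((into_radical J).mono (fun _ h => Or.inl h) le_rfl le_rfl) hl hu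

variable {T : S.Tw}

theorem split_pos {J : Set κ} (hJ : ∀ j, T.π j ∈ J ↔ j ∈ J) {u : G} (hu : u ∈ S.U {r | R.pos r} ⊓ T.fix) :
    ∃ a ∈ T.Up J, ∃ b ∈ Rp S J ⊓ T.fix, u = a * b := by
  obtain ⟨a, ha, b, hb, e⟩ := exists_mul R.closed_pos (htf κ) (fun _ h => htf_pos h) {r | R.InJ J r} hu.1
  have := Tw.fix_mul (T := T) (f := htf κ) (R.closed_pos.inter (R.closed_inJ J)) (Tw.closed_rad J)
    (fun _ h => htf_pos h.1) (fun _ h => htf_pos h.1) (Set.disjoint_left.2 fun _ h h' => h'.2 h.2)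
    (fun r h => ⟨(T.pos_ρ r).2 h.1, (Tw.inJ_ρ_iff hJ r).2 h.2⟩)
    (fun r h => ⟨(T.pos_ρ r).2 h.1, fun h' => h.2 ((Tw.inJ_ρ_iff hJ r).1 h')⟩) ha hb (e ▸ hu.2)
  exact ⟨a, ⟨ha, this.1⟩, b, ⟨hb, this.2⟩, e⟩

theorem split_neg {J : Set κ} (hJ : ∀ j, T.π j ∈ J ↔ j ∈ J) {u : G} (hu : u ∈ S.U {r | ¬ R.pos r} ⊓ T.fix) :
    ∃ a ∈ Rm S J ⊓ T.fix, ∃ b ∈ T.Um J, u = a * b := by
  obtain ⟨a, ha, b, hb, e⟩ := exists_mul' R.closed_neg (-htf κ) (fun _ h => htf_neg h) {r | R.InJ J r} hu.1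
  have := Tw.fix_mul (T := T) (f := -htf κ) (closed_nrad J) (R.closed_neg.inter (R.closed_inJ J))
    (fun _ h => htf_neg h.1) (fun _ h => htf_neg h.1) (Set.disjoint_left.2 fun _ h h' => h.2 h'.2)
    (fun r h => ⟨fun h' => h.1 ((T.pos_ρ r).1 h'), fun h' => h.2 ((Tw.inJ_ρ_iff hJ r).1 h')⟩)
    (fun r h => ⟨fun h' => h.1 ((T.pos_ρ r).1 h'), (Tw.inJ_ρ_iff hJ r).2 h.2⟩) ha hb (e ▸ hu.2)
  exact ⟨a, ⟨ha, this.1⟩, b, ⟨hb, this.2⟩, e⟩

variable (T) in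
/-- the double coset of `n` meets the negative unipotent group -/
def Q (n : G) : Prop := ∃ y ∈ S.U {r | ¬ R.pos r} ⊓ T.fix, ∃ k ∈ S.U {r | R.pos r} ⊓ T.fix,
  ∃ u ∈ S.U {r | R.pos r} ⊓ T.fix, y = k * n * u

theorem Q.step {n : G} {w : Equiv.Perm ι} (h : Q T n) (hn : (n, w) ∈ S.NW) (hn' : n ∈ T.fix) {i : κ}
    (hw : ∀ j ∈ T.orb i, R.pos (w (R.simple j))) {v u' s u'' : G} (hv : v ∈ T.Um (T.orb i))
    (hu' : u' ∈ T.Up (T.orb i)) (hs : (s, R.w0 (T.orb i)) ∈ S.NW) (hs' : s ∈ T.fix) (hu'' : u'' ∈ T.Up (T.orb i))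
    (e : v = u' * s * u'') : Q T (n * s) := by
  obtain ⟨y, hy, k, hk, u, hu, e1⟩ := h
  have m1 : ∀ {g}, g ∈ T.Up (T.orb i) → g ∈ S.U {r | R.pos r} ⊓ T.fix := fun hg =>
    ⟨U_mono (fun _ h => h.1) hg.1, hg.2⟩
  obtain ⟨a, ha, b, hb, e2⟩ := split_pos (J := T.orb i) (fun _ => Tw.π_mem_orb) (mul_mem hu (m1 hu'))
  refine ⟨y * v, mul_mem hy ⟨U_mono (fun _ h => h.1) hv.1, hv.2⟩, k * (n * a * n⁻¹), mul_mem hk
    ⟨NW.conj_mem_U hn (fun r hr => (pos_of_inJ (NW.mem_Aut hn) hw hr.2).2 hr.1) ha.1,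
      T.fix.mul_mem (T.fix.mul_mem hn' ha.2) (T.fix.inv_mem hn')⟩, s⁻¹ * b * s * u'', mul_mem
    ⟨NW.conj_mem_U' hs (fun r hr => by rw [w0_inv]; exact (R.pos_WJ_iff (R.w0_mem _) hr.2).2 hr.1) hb.1,
      T.fix.mul_mem (T.fix.mul_mem (T.fix.inv_mem hs') hb.2) hs'⟩ (m1 hu''), ?_⟩
  rw [e1, e]
  calc k * n * u * (u' * s * u'') = k * n * (u * u') * s * u'' := by group
    _ = _ := by rw [e2]; group

theorem exists_Q (hE : T.Ex) {w : Equiv.Perm ι} (hw : w ∈ T.W1) : ∃ n ∈ T.fix, (n, w) ∈ S.NW ∧ Q T n := by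
  refine Tw.W1_induction (P := fun w => ∃ n ∈ T.fix, (n, w) ∈ S.NW ∧ Q T n)
    ⟨1, one_mem _, one_mem _, 1, one_mem _, 1, one_mem _, 1, one_mem _, by simp⟩ ?_ hw
  rintro w - i hi ⟨n, hn, hn', hQ⟩
  obtain ⟨v, hv, h1⟩ := hE i
  obtain ⟨u', hu', s, hs, hs', u, hu, e⟩ := Tw.exists_n hv h1
  exact ⟨n * s, mul_mem hn hs, NW.mul hn' hs', hQ.step hn' hn hi hv hu' hs' hs hu e⟩

theorem Q.parab {n : G} (h : Q T n) {J : Set κ} (hJ : ∀ j, T.π j ∈ J ↔ j ∈ J) {M : Subgroup G} (h1 : T.Up J ≤ M)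
    (h2 : T.Um J ≤ M) : ∃ k ∈ Rp S J ⊓ T.fix, ∃ v ∈ Rm S J ⊓ T.fix, ∃ m ∈ M, ∃ u ∈ Rp S J ⊓ T.fix,
      k * n = v * m * u := by
  obtain ⟨y, hy, k, hk, u, hu, e⟩ := h
  obtain ⟨a, ha, k', hk', e1⟩ := split_pos hJ hk
  obtain ⟨v, hv, c, hc, e2⟩ := split_neg hJ hy
  obtain ⟨d, hd, u', hu', e3⟩ := split_pos hJ (inv_mem hu)
  have ha' : a⁻¹ ∈ Lev S J := inv_mem (Subgroup.mem_sup_right (U_mono (fun _ h => h.2) ha.1))
  refine ⟨k', hk', a⁻¹ * v * a⁻¹⁻¹, ⟨Lev.conj_Rm ha' hv.1, T.fix.mul_mem (T.fix.mul_mem (T.fix.inv_mem ha.2) hv.2)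
    (T.fix.inv_mem (T.fix.inv_mem ha.2))⟩, a⁻¹ * c * d, mul_mem (mul_mem (inv_mem (h1 ha)) (h2 hc)) (h1 hd), u', hu', ?_⟩
  calc k' * n = a⁻¹ * y * u⁻¹ := by rw [e, e1]; group
    _ = _ := by rw [e2, e3]; group

end H27.GT
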