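import Cfsg.Agent.H27.GT2
import Cfsg.Agent.H14.TwD4

/-!
The triality fixed points of `D₄`: distinguished elements.
-/

namespace H27.GT

open Matrix H14 H14.RootSys H14.PreSt H14.St H14.Good Cfsg.Lie MatrixGroups

section
variable {ι κ : Type*} [Fintype κ] [DecidableEq κ] [Fintype ι] [DecidableEq ι] {R : RootSys ι κ}
  {C : Chev R} {K G : Type*} [Field K] [Group G] {S : St C K G}

variable (R) in
/-- strongly orthogonal roots -/
def Orth (r s : ι) : Prop := ∀ a ∈ [r, R.neg r], ∀ b ∈ [s, R.neg s], b ≠ R.neg a ∧ ¬ ∃ k, R.cf k = R.cf a + R.cf b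

theorem Orth.comm {r s : ι} (h : Orth R r s) {u v : G} (hu : u ∈ S.U {r, R.neg r}) (hv : v ∈ S.U {s, R.neg s}) :
    Commute u v :=
  S.commute_U (fun a ha b hb t u => S.commute_of_not (h a (by simpa using ha) b (by simpa using hb)).1
    (h a (by simpa using ha) b (by simpa using hb)).2 t u) u hu v hv

theorem xU (r : ι) (t : K) : S.x r t ∈ S.U {r, R.neg r} := x_mem_U (by simp) t
theorem xU' (r : ι) (t : K) : S.x (R.neg r) t ∈ S.U {r, R.neg r} := x_mem_U (by simp) t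
theorem nU (r : ι) (t : K) : S.n r t ∈ S.U {r, R.neg r} := n_mem_U (by simp) (by simp) t
theorem hU (r : ι) (t : K) : S.h r t ∈ S.U {r, R.neg r} := h_mem_U (by simp) (by simp) t

theorem mul3 {a b c : ι} (h1 : Orth R a b) (h2 : Orth R a c) (h3 : Orth R b c) {a1 a2 b1 b2 c1 c2 : G}
    (ha2 : a2 ∈ S.U {a, R.neg a}) (hb1 : b1 ∈ S.U {b, R.neg b}) (hb2 : b2 ∈ S.U {b, R.neg b})
    (hc1 : c1 ∈ S.U {c, R.neg c}) : a1 * b1 * c1 * (a2 * b2 * c2) = a1 * a2 * (b1 * b2) * (c1 * c2) := by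
  have e1 := (h1.comm ha2 hb1).eq
  have e2 := (h2.comm ha2 hc1).eq
  have e3 := (h3.comm hb2 hc1).eq
  calc a1 * b1 * c1 * (a2 * b2 * c2) = a1 * b1 * (c1 * a2) * b2 * c2 := by group
    _ = a1 * (b1 * a2) * (c1 * b2) * c2 := by rw [← e2]; group
    _ = _ := by rw [← e1, ← e3]; group

theorem xneg3 {a b c : ι} (h1 : Orth R a b) (h2 : Orth R a c) (h3 : Orth R b c) (s t u : K) :
    S.x (R.neg a) s * S.x (R.neg b) t * S.x (R.neg c) u = S.x a s⁻¹ * S.x b t⁻¹ * S.x c u⁻¹ *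
      (S.n a (-s⁻¹) * S.n b (-t⁻¹) * S.n c (-u⁻¹)) * (S.x a s⁻¹ * S.x b t⁻¹ * S.x c u⁻¹) := by
  rw [mul3 h1 h2 h3 (nU _ _) (xU _ _) (nU _ _) (xU _ _), mul3 h1 h2 h3 (xU _ _) (mul_mem (xU _ _) (nU _ _)) (xU _ _)
    (mul_mem (xU _ _) (nU _ _)), x_neg_eq, x_neg_eq, x_neg_eq]

theorem n_mul_h (hh : S.HMul) (r : ι) {t u : K} (ht : t ≠ 0) (hu : u ≠ 0) : S.n r u * S.h r t = S.n r (u / t) := by
  have := S.h_mul_n r r ht (u / t ^ 2)
  rw [pair_self, zpow_ofNat, mul_div_cancel₀ _ (pow_ne_zero 2 ht)] at this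
  rw [← this, n_eq_h_mul _ _ (u / t ^ 2), ← mul_assoc, hh _ _ _ ht (by positivity), ← n_eq_h_mul]
  congr 1; field_simp

theorem Acts.conj_NW {k n : G} {c : ι → K} (h : Acts S k c) {w : Equiv.Perm ι} (hn : (n, w) ∈ S.NW) :
    Acts S (n * k * n⁻¹) fun s => c (w⁻¹ s) := fun s t => by
  obtain ⟨a, -, ha⟩ := NW.act (NW.inv hn) s
  have e : ∀ t, n * S.x (w⁻¹ s) (a * t) = S.x s t * n := fun t => by
    rw [← mul_inv_eq_iff_eq_mul, mul_assoc, ← ha]; group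
  rw [mul_assoc, ha, ← mul_assoc, mul_assoc n, h, ← mul_assoc, mul_left_comm, e]
  group

theorem h_inv (hh : S.HMul) (r : ι) {t : K} (ht : t ≠ 0) : (S.h r t)⁻¹ = S.h r t⁻¹ := by
  rw [inv_eq_iff_mul_eq_one, hh _ _ _ ht (inv_ne_zero ht), mul_inv_cancel₀ ht, h_one]

theorem refl_eq {r s k : ι} (h : R.cf k = R.cf s - R.pair r s • R.cf r) : R.refl r s = k :=
  R.cf_inj (by rw [cf_refl, h])

theorem fix_of_mul {T : S.Tw} {a b : G} (ha : a ∈ S.U {r | R.pos r}) (hb : b ∈ S.U {r | ¬ R.pos r})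
    (h : a * b ∈ T.fix) : a ∈ T.fix ∧ b ∈ T.fix := by
  have h1 : T.σ a * T.σ b = a * b := by rw [← map_mul]; exact h
  have h2 : a⁻¹ * T.σ a = b * (T.σ b)⁻¹ * 1 := by
    rw [mul_one, inv_mul_eq_iff_eq_mul, ← mul_assoc, ← h1]; group
  have h3 := T.sep.tri_pos (mul_mem (inv_mem ha) (T.σ_mem_Up ha))
    (mul_mem hb (inv_mem (T.σ_mem_U (A := {r | ¬ R.pos r}) (B := {r | ¬ R.pos r}) (fun r h h' => h ((T.pos_ρ r).1 h')) hb))) (one_mem _) h2
  rw [h3, mul_one, eq_comm, mul_inv_eq_one] at h2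
  exact ⟨(inv_mul_eq_one.1 h3).symm, h2.symm⟩

end

set_option maxRecDepth 100000

noncomputable instance instDecOrth (r s : Fin chevD4.nroots) : Decidable (Orth goodD4.R r s) := by unfold Orth; infer_instance

/-- the reflection in the highest short root of the folded system -/
noncomputable def wt : Equiv.Perm (Fin chevD4.nroots) := goodD4.R.refl 17 * goodD4.R.refl 20 * goodD4.R.refl 21

/-- its table -/
def wtab : Fin chevD4.nroots → Fin chevD4.nroots :=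
  vec 0 [22, 23, 21, 20, 18, 19, 17, 13, 12, 9, 16, 15, 8, 7, 14, 11, 10, 6, 4, 5, 3, 2, 0, 1]

theorem wt_apply (s : Fin chevD4.nroots) : wt s = wtab s := by
  have h1 : ∀ s, goodD4.R.refl 17 s = vec (0 : Fin chevD4.nroots) [4, 5, 2, 3, 0, 1, 17, 12, 13, 9, 15, 16, 7, 8, 14,
    10, 11, 6, 22, 23, 20, 21, 18, 19] s := fun s => refl_eq (by revert s; decide +kernel)
  have h2 : ∀ s, goodD4.R.refl 20 s = vec (0 : Fin chevD4.nroots) [7, 10, 2, 20, 12, 15, 6, 0, 18, 9, 1, 19, 4, 22, 14,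
    5, 23, 17, 8, 11, 3, 21, 13, 16] s := fun s => refl_eq (by revert s; decide +kernel)
  have h3 : ∀ s, goodD4.R.refl 21 s = vec (0 : Fin chevD4.nroots) [8, 11, 21, 3, 13, 16, 6, 18, 0, 9, 19, 1, 22, 4, 14,
    23, 5, 17, 7, 10, 20, 2, 12, 15] s := fun s => refl_eq (by revert s; decide +kernel)
  simp only [wt, Equiv.Perm.mul_apply, h1, h2, h3]
  revert s; decide +kernel

theorem wt_inv (s : Fin chevD4.nroots) : wt⁻¹ s = wtab s := by
  rw [Equiv.Perm.inv_eq_iff_eq, wt_apply]; revert s; decide +kernel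

theorem o1 : Orth goodD4.R 17 20 := by decide +kernel
theorem o2 : Orth goodD4.R 17 21 := by decide +kernel
theorem o3 : Orth goodD4.R 20 21 := by decide +kernel
theorem a1 : Orth goodD4.R 18 13 := by decide +kernel
theorem a2 : Orth goodD4.R 18 12 := by decide +kernel
theorem a3 : Orth goodD4.R 13 12 := by decide +kernel

variable {K : Type*} [Field K]

variable (K) in
/-- the system of root elements -/
noncomputable abbrev SS : St goodD4.C K (chevD4.group K) := goodD4.SG K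

theorem hm : (SS K).HMul := goodD4.SG_hmul K

theorem Acts.eq' {k k' : chevD4.group K} {c c' : Fin chevD4.nroots → K} (h : Acts (SS K) k c)
    (h' : Acts (SS K) k' c') (e : ∀ s, c s = c' s) : k = k' :=
  h.eq (goodD4.SG_top K) (goodD4.center_eq_bot K) h' e

variable (φ : K →+* K)

/-- the torus centralising the long root `SL₂` -/
noncomputable def zt (t : K) : chevD4.group K := (SS K).h 17 t * (SS K).h 20 (φ t) * (SS K).h 21 (φ (φ t))
/-- the short reflection -/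
noncomputable def nt (t : K) : chevD4.group K := (SS K).n 17 t * (SS K).n 20 (-φ t) * (SS K).n 21 (-φ (φ t))
/-- the simple short coroot -/
noncomputable def za (t : K) : chevD4.group K := (SS K).h 18 t * (SS K).h 13 (φ t) * (SS K).h 12 (φ (φ t))
/-- the simple short reflection -/
noncomputable def na (t : K) : chevD4.group K := (SS K).n 18 t * (SS K).n 13 (φ t) * (SS K).n 12 (φ (φ t))

theorem zt_acts {t : K} (ht : t ≠ 0) : Acts (SS K) (zt φ t) fun s =>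
    t ^ goodD4.R.pair 17 s * φ t ^ goodD4.R.pair 20 s * φ (φ t) ^ goodD4.R.pair 21 s :=
  ((Acts.h 17 ht).mul (Acts.h 20 (by simpa using ht))).mul (Acts.h 21 (by simpa using ht))

theorem za_acts {t : K} (ht : t ≠ 0) : Acts (SS K) (za φ t) fun s =>
    t ^ goodD4.R.pair 18 s * φ t ^ goodD4.R.pair 13 s * φ (φ t) ^ goodD4.R.pair 12 s :=
  ((Acts.h 18 ht).mul (Acts.h 13 (by simpa using ht))).mul (Acts.h 12 (by simpa using ht))

theorem zt_H {t : K} (ht : t ≠ 0) : zt φ t ∈ (SS K).H :=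
  mul_mem (mul_mem (h_mem_H _ ht) (h_mem_H _ (by simpa using ht))) (h_mem_H _ (by simpa using ht))

theorem nt_NW {t : K} (ht : t ≠ 0) : (nt φ t, wt) ∈ (SS K).NW :=
  NW.mul (NW.mul (n_mem_NW _ ht) (n_mem_NW _ (by simpa using ht))) (n_mem_NW _ (by simpa using ht))

theorem na_NW {t : K} (ht : t ≠ 0) : (na φ t, goodD4.R.w0 (D4.orb 0)) ∈ (SS K).NW := by
  rw [RootSys.w0_eq_wprod (L := [0, 2, 3]) (by decide +kernel) (by decide +kernel)]
  have := NW.mul (NW.mul (n_mem_NW (S := (SS K).toPreSt) 18 ht) (n_mem_NW 13 (t := φ t) (by simpa using ht)))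
    (n_mem_NW 12 (t := φ (φ t)) (by simpa using ht))
  rw [mul_assoc (goodD4.R.refl 18)] at this
  have e : goodD4.R.simple 0 = 18 ∧ goodD4.R.simple 2 = 13 ∧ goodD4.R.simple 3 = 12 := by decide +kernel
  simpa only [wprod_cons, wprod_nil, mul_one, RootSys.sr, e, na] using this

theorem nt_mul {t : K} (ht : t ≠ 0) : nt φ 1 * zt φ t = nt φ t⁻¹ := by
  rw [nt, zt, mul3 o1 o2 o3 (hU _ _) (nU _ _) (hU _ _) (nU _ _), n_mul_h hm _ ht one_ne_zero,
    n_mul_h hm _ (by simpa using ht) (by simp), n_mul_h hm _ (by simpa using ht) (by simp)]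
  simp [nt, neg_div]

theorem na_mul {t : K} (ht : t ≠ 0) : na φ 1 * za φ t = na φ t⁻¹ := by
  rw [na, za, mul3 a1 a2 a3 (hU _ _) (nU _ _) (hU _ _) (nU _ _), n_mul_h hm _ ht one_ne_zero,
    n_mul_h hm _ (by simpa using ht) (by simp), n_mul_h hm _ (by simpa using ht) (by simp)]
  simp [na]

theorem zt_inv {t : K} (ht : t ≠ 0) : (zt φ t)⁻¹ = zt φ t⁻¹ := by
  rw [inv_eq_iff_mul_eq_one]
  refine ((zt_acts φ ht).mul (zt_acts φ (inv_ne_zero ht))).eq' Acts.one fun s => ?_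
  have h1 : φ t ≠ 0 := by simpa using ht
  have h2 : φ (φ t) ≠ 0 := by simpa using ht
  simp only [Pi.mul_apply, map_inv₀, _root_.inv_zpow, Pi.one_apply]
  field_simp

theorem nt_comm (t : K) {u : chevD4.group K} (hu : u ∈ (SS K).U {14, goodD4.R.neg 14}) : Commute (nt φ t) u :=
  (((show Orth goodD4.R 17 14 by decide +kernel).comm (nU _ _) hu).mul_left
    ((show Orth goodD4.R 20 14 by decide +kernel).comm (nU _ _) hu)).mul_left
    ((show Orth goodD4.R 21 14 by decide +kernel).comm (nU _ _) hu)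

theorem zt_comm (t : K) {u : chevD4.group K} (hu : u ∈ (SS K).U {14, goodD4.R.neg 14}) : Commute (zt φ t) u :=
  (((show Orth goodD4.R 17 14 by decide +kernel).comm (hU _ _) hu).mul_left
    ((show Orth goodD4.R 20 14 by decide +kernel).comm (hU _ _) hu)).mul_left
    ((show Orth goodD4.R 21 14 by decide +kernel).comm (hU _ _) hu)

theorem nt_zt {t : K} (ht : t ≠ 0) : nt φ 1 * zt φ t * (nt φ 1)⁻¹ = zt φ t⁻¹ := by
  refine ((zt_acts φ ht).conj_NW (nt_NW φ one_ne_zero)).eq' (zt_acts φ (inv_ne_zero ht)) fun s => ?_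
  have : ∀ s, goodD4.R.pair 17 (wtab s) = -goodD4.R.pair 17 s ∧ goodD4.R.pair 20 (wtab s) = -goodD4.R.pair 20 s ∧
    goodD4.R.pair 21 (wtab s) = -goodD4.R.pair 21 s := by decide +kernel
  simp only [wt_inv, this s, map_inv₀, _root_.inv_zpow, _root_.zpow_neg]

theorem nt_eta : nt φ 1 * (SS K).h 22 (-1) * (nt φ 1)⁻¹ = (SS K).h 14 (-1) * (SS K).h 22 (-1) := by
  refine ((Acts.h 22 (by simp)).conj_NW (nt_NW φ one_ne_zero)).eq'
    ((Acts.h 14 (by simp)).mul (Acts.h 22 (by simp))) fun s => ?_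
  have : ∀ s, goodD4.R.pair 22 (wtab s) = -(goodD4.R.pair 14 s + goodD4.R.pair 22 s) := by decide +kernel
  simp only [wt_inv, this s, Pi.mul_apply, _root_.zpow_neg, ← zpow_add₀ (show (-1 : K) ≠ 0 by simp)]
  rw [← _root_.inv_zpow, inv_neg, inv_one]

theorem zt_eq (h3 : ∀ t, φ (φ (φ t)) = t) {t : K} (ht : t ≠ 0) :
    zt φ t = za φ (φ t * φ (φ t)) * (SS K).h 14 (t * φ t * φ (φ t)) := by
  have h1 : φ t ≠ 0 := by simpa using ht
  have h2 : φ (φ t) ≠ 0 := by simpa using ht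
  refine (zt_acts φ ht).eq' ((za_acts φ (mul_ne_zero h1 h2)).mul (Acts.h 14 (by positivity))) fun s => ?_
  have : ∀ s, goodD4.R.pair 17 s = goodD4.R.pair 14 s + goodD4.R.pair 13 s + goodD4.R.pair 12 s ∧
    goodD4.R.pair 20 s = goodD4.R.pair 14 s + goodD4.R.pair 18 s + goodD4.R.pair 12 s ∧
    goodD4.R.pair 21 s = goodD4.R.pair 14 s + goodD4.R.pair 18 s + goodD4.R.pair 13 s := by decide +kernel
  simp only [this s, Pi.mul_apply, map_mul, h3, mul_zpow, zpow_add₀ ht, zpow_add₀ h1, zpow_add₀ h2]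
  ring

variable {φ} {h3 : ∀ t, φ (φ (φ t)) = t}

theorem sx (r : Fin chevD4.nroots) (t : K) :
    (D4.T φ h3).σ ((SS K).x r t) = (SS K).x (okgrD4.rho r) (grD4.gam r * φ t) := by
  rw [(D4.T φ h3).σ_x]
  change (SS K).x _ (φ (_ * t ^ grD4.ex r)) = _
  rw [GrD.ex_eq_one rfl, pow_one, map_mul, map_intCast]; rfl

theorem sn (r : Fin chevD4.nroots) {t : K} (ht : t ≠ 0) :
    (D4.T φ h3).σ ((SS K).n r t) = (SS K).n (okgrD4.rho r) (grD4.gam r * φ t) := by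
  rw [(D4.T φ h3).σ_n _ ht]
  change (SS K).n _ (φ (_ * t ^ grD4.ex r)) = _
  rw [GrD.ex_eq_one rfl, pow_one, map_mul, map_intCast]; rfl

theorem sh (r : Fin chevD4.nroots) {t : K} (ht : t ≠ 0) :
    (D4.T φ h3).σ ((SS K).h r t) = (SS K).h (okgrD4.rho r) (φ t) := by
  have e : (grD4.gam r : K) * grD4.gam r = 1 := by exact_mod_cast congrArg (Int.cast : ℤ → K) (GrD.gam_sq r)
  have e0 : (grD4.gam r : K) ≠ 0 := left_ne_zero_of_mul_eq_one e
  rw [PreSt.h, map_mul, sn _ ht, sn _ (by simp), map_neg, map_one, mul_neg, mul_one, ← h_mul_h_inv, h_inv hm _ e0,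
    hm _ _ _ (by simpa [e0] using ht) (inv_ne_zero e0)]
  congr 1; field_simp

theorem rg : (okgrD4.rho 17 = 20 ∧ okgrD4.rho 20 = 21 ∧ okgrD4.rho 21 = 17 ∧ okgrD4.rho 18 = 13 ∧ okgrD4.rho 13 = 12 ∧
    okgrD4.rho 12 = 18 ∧ okgrD4.rho 14 = 14 ∧ okgrD4.rho 9 = 9 ∧ okgrD4.rho 22 = 22 ∧ okgrD4.rho 1 = 1 ∧
    okgrD4.rho 6 = 3 ∧ okgrD4.rho 3 = 2 ∧ okgrD4.rho 2 = 6) ∧
    (grD4.gam (17 : Fin chevD4.nroots) = -1 ∧ grD4.gam (20 : Fin chevD4.nroots) = 1 ∧
      grD4.gam (21 : Fin chevD4.nroots) = -1 ∧ grD4.gam (18 : Fin chevD4.nroots) = 1 ∧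
      grD4.gam (13 : Fin chevD4.nroots) = 1 ∧ grD4.gam (12 : Fin chevD4.nroots) = 1 ∧
      grD4.gam (14 : Fin chevD4.nroots) = 1 ∧ grD4.gam (9 : Fin chevD4.nroots) = 1 ∧
      grD4.gam (1 : Fin chevD4.nroots) = 1 ∧ grD4.gam (6 : Fin chevD4.nroots) = -1 ∧
      grD4.gam (3 : Fin chevD4.nroots) = 1 ∧ grD4.gam (2 : Fin chevD4.nroots) = -1) := by decide +kernel

theorem rot {a b c : Fin chevD4.nroots} (h1 : Orth goodD4.R a b) (h2 : Orth goodD4.R a c) {x y z : chevD4.group K}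
    (hx : x ∈ (SS K).U {a, goodD4.R.neg a}) (hy : y ∈ (SS K).U {b, goodD4.R.neg b})
    (hz : z ∈ (SS K).U {c, goodD4.R.neg c}) : y * z * x = x * y * z := by
  rw [mul_assoc, ← (h2.comm hx hz).eq, ← mul_assoc, ← (h1.comm hx hy).eq]

theorem zt_fix {t : K} (ht : t ≠ 0) : zt φ t ∈ (D4.T φ h3).fix := by
  rw [Tw.mem_fix, zt, map_mul, map_mul, sh _ ht, sh _ (by simpa using ht), sh _ (by simpa using ht), h3]
  simp only [rg]
  exact rot o1 o2 (hU _ _) (hU _ _) (hU _ _)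

theorem nt_fix {t : K} (ht : t ≠ 0) : nt φ t ∈ (D4.T φ h3).fix := by
  rw [Tw.mem_fix, nt, map_mul, map_mul, sn _ ht, sn _ (by simpa using ht), sn _ (by simpa using ht)]
  simp only [rg, map_neg, h3, Int.cast_neg, Int.cast_one, neg_mul, one_mul, mul_neg, _root_.neg_neg]
  exact rot o1 o2 (nU _ _) (nU _ _) (nU _ _)

theorem na_fix {t : K} (ht : t ≠ 0) : na φ t ∈ (D4.T φ h3).fix := by
  rw [Tw.mem_fix, na, map_mul, map_mul, sn _ ht, sn _ (by simpa using ht), sn _ (by simpa using ht)]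
  simp only [rg, h3, Int.cast_one, one_mul]
  exact rot a1 a2 (nU _ _) (nU _ _) (nU _ _)

theorem x14_fix {t : K} (ht : φ t = t) : (SS K).x 14 t ∈ (D4.T φ h3).fix := by
  rw [Tw.mem_fix, sx]; simp only [rg, ht, Int.cast_one, one_mul]

theorem x9_fix {t : K} (ht : φ t = t) : (SS K).x 9 t ∈ (D4.T φ h3).fix := by
  rw [Tw.mem_fix, sx]; simp only [rg, ht, Int.cast_one, one_mul]

theorem x1_fix {t : K} (ht : φ t = t) : (SS K).x 1 t ∈ (D4.T φ h3).fix := by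
  rw [Tw.mem_fix, sx]; simp only [rg, ht, Int.cast_one, one_mul]

theorem h22_fix {t : K} (h0 : t ≠ 0) (ht : φ t = t) : (SS K).h 22 t ∈ (D4.T φ h3).fix := by
  rw [Tw.mem_fix, sh _ h0]; simp only [rg, ht]

theorem ng : goodD4.R.neg 14 = 9 ∧ goodD4.R.neg 17 = 6 ∧ goodD4.R.neg 20 = 3 ∧ goodD4.R.neg 21 = 2 ∧
    goodD4.R.neg 18 = 5 ∧ goodD4.R.neg 13 = 10 ∧ goodD4.R.neg 12 = 11 := by decide +kernel

theorem xmt_fix (t : K) :
    (SS K).x 6 t * (SS K).x 3 (-φ t) * (SS K).x 2 (-φ (φ t)) ∈ (D4.T φ h3).fix := by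
  rw [Tw.mem_fix, map_mul, map_mul, sx, sx, sx]
  simp only [rg, map_neg, h3, Int.cast_neg, Int.cast_one, neg_mul, one_mul, mul_neg, _root_.neg_neg]
  refine rot o1 o2 ?_ ?_ ?_
  exacts [ng.2.1 ▸ xU' _ _, ng.2.2.1 ▸ xU' _ _, ng.2.2.2.1 ▸ xU' _ _]

theorem H_eq {k : chevD4.group K} (hk : k ∈ (SS K).H ⊓ (D4.T φ h3).fix) :
    ∃ t s : K, t ≠ 0 ∧ s ≠ 0 ∧ φ s = s ∧ k = za φ t * (SS K).h 14 s := by
  rw [D4.H_fix] at hk
  obtain ⟨c, hc, rfl⟩ := hk
  obtain ⟨h1, h2, h4, -⟩ := D4.mem_tor.1 hc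
  refine ⟨c 0, c 1, Units.ne_zero _, Units.ne_zero _, h2.symm, ?_⟩
  rw [HMul.tor_eq _ (L := [0, 2, 3, 1]) (by decide) (by decide)]
  simp only [List.map_cons, List.map_nil, List.prod_cons, List.prod_nil, mul_one, za, mul_assoc, ← h1, ← h4]
  rfl

end H27.GT
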