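import Cfsg.Agent.H27.GT3

/-!
The triality fixed points of `D₄`: a real semisimple element of a Levi subgroup acting freely on the radicals.
-/

namespace H27.GT

open Matrix H14 H14.RootSys H14.PreSt H14.St H14.Good Cfsg.Lie MatrixGroups

set_option maxRecDepth 100000

theorem inJ1 : ∀ r, goodD4.R.InJ (D4.orb 1) r ↔ r = 14 ∨ r = 9 := by unfold RootSys.InJ; decide +kernel

variable {K : Type*} [Field K] {φ : K →+* K} {h3 : ∀ t, φ (φ (φ t)) = t} {F : Type*} [Field F] {γ : F →+* K}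
  {Ψ : GL (Fin 2) F →* chevD4.group K}

theorem U14_le : (SS K).U {14, goodD4.R.neg 14} ≤ Lev (SS K) (D4.orb 1) :=
  (U_mono (by rintro _ (rfl | rfl) <;> simp [inJ1, ng])).trans le_sup_right

theorem psi_lev (hΨ : IsGL ((SS K).base γ) 14 22 Ψ) (M : GL (Fin 2) F) : Ψ M ∈ Lev (SS K) (D4.orb 1) :=
  hΨ.mem (fun _ => U14_le (xU _ _)) (fun _ => U14_le (xU' _ _))
    (fun t ht => by rw [base_h]; exact Subgroup.mem_sup_left (h_mem_H _ (by simpa using ht))) M

theorem psi_sl (hΨ : IsGL ((SS K).base γ) 14 22 Ψ) {M : GL (Fin 2) F} (h : M.1.det = 1) :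
    Ψ M ∈ (SS K).U {14, goodD4.R.neg 14} :=
  hΨ.mem_sl (fun t => xU (S := SS K) 14 (γ t)) (fun t => xU' (S := SS K) 14 (γ t)) h

theorem psi_fix (hγ : ∀ t, φ t = t ↔ t ∈ γ.range) (hΨ : IsGL ((SS K).base γ) 14 22 Ψ) (M : GL (Fin 2) F) :
    Ψ M ∈ (D4.T φ h3).fix :=
  hΨ.mem (fun t => x14_fix ((hγ _).2 ⟨t, rfl⟩)) (fun t => ng.1 ▸ x9_fix ((hγ _).2 ⟨t, rfl⟩))
    (fun t ht => by rw [base_h]; exact h22_fix (by simpa using ht) ((hγ _).2 ⟨t, rfl⟩)) M

theorem zt_psi (hΨ : IsGL ((SS K).base γ) 14 22 Ψ) {t : K} (ht : t ≠ 0) (M : GL (Fin 2) F) :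
    zt φ t * Ψ M = Ψ M * zt φ t := by
  have := hΨ.mem (N := Subgroup.centralizer {zt φ t})
    (fun u => Subgroup.mem_centralizer_singleton_iff.2 (zt_comm φ t (xU 14 (γ u))).eq.symm)
    (fun u => Subgroup.mem_centralizer_singleton_iff.2 (zt_comm φ t (xU' 14 (γ u))).eq.symm)
    (fun u hu => Subgroup.mem_centralizer_singleton_iff.2 (by
      rw [base_h]; exact hm.comm _ (h_mem_H _ (by simpa using hu)) _ (zt_H φ ht))) M
  exact (Subgroup.mem_centralizer_singleton_iff.1 this).symm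

theorem nt_psi (hΨ : IsGL ((SS K).base γ) 14 22 Ψ) {M : GL (Fin 2) F} (h : M.1.det = -1) :
    nt φ 1 * Ψ M * (nt φ 1)⁻¹ = Ψ (-M) := by
  obtain ⟨D, hD⟩ := exD (one_ne_zero (α := F)) (neg_ne_zero.2 one_ne_zero)
  have h1 : (M * D⁻¹).1.det = 1 := by
    have : D⁻¹ = D := by
      rw [inv_eq_iff_mul_eq_one]; ext i j; fin_cases i <;> fin_cases j <;> simp [hD]
    rw [this, Units.val_mul, det_mul, h, hD]; simp
  have h2 := hΨ.dg D _ hD
  have h4 := hΨ.diag (M := -D) (l := -1) (m := 1) (by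
    rw [Units.val_neg, hD]; ext i j; fin_cases i <;> fin_cases j <;> simp)
  simp only [base_h, mul_one, map_neg, map_one] at h2 h4
  calc nt φ 1 * Ψ M * (nt φ 1)⁻¹ = nt φ 1 * Ψ (M * D⁻¹) * Ψ D * (nt φ 1)⁻¹ := by
        rw [mul_assoc _ (Ψ _) (Ψ D), ← map_mul, inv_mul_cancel_right]
    _ = Ψ (M * D⁻¹) * (nt φ 1 * Ψ D * (nt φ 1)⁻¹) := by rw [(nt_comm φ 1 (psi_sl hΨ h1)).eq]; group
    _ = _ := by rw [h2, nt_eta, ← h4, ← map_mul, mul_neg, inv_mul_cancel_right]

theorem mapG_hom {L : Type*} [Field L] (e : K →+* L) :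
    (SS K).toPreSt.IsHom ((SS L).base e).toPreSt (goodD4.mapG e) := fun r t => goodD4.mapG_x e r t

theorem mapG_U {L : Type*} [Field L] (e : K →+* L) {A : Set (Fin chevD4.nroots)} {u : chevD4.group K}
    (hu : u ∈ (SS K).U A) : goodD4.mapG e u ∈ (SS L).U A :=
  base_U_le A ((mapG_hom e).map_U A ▸ Subgroup.mem_map_of_mem _ hu)

theorem root_val {L : Type*} [Field L] (e : K →+* L) {l : L} (hl : l ∉ e.range) {b1 b2 b3 : K}
    (h1 : b1 ^ 2 ≠ -1) (h2 : b2 ^ 2 ≠ -1) (h3 : b3 ^ 2 ≠ -1) {s : Fin chevD4.nroots}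
    (hs : ¬ goodD4.R.InJ (D4.orb 1) s) : e b1 ^ goodD4.R.pair 17 s * e b2 ^ goodD4.R.pair 20 s *
      e b3 ^ goodD4.R.pair 21 s * (l ^ goodD4.R.pair 14 s * (-1) ^ goodD4.R.pair 22 s) ≠ 1 := by
  have key : ∀ s, ¬ (s = 14 ∨ s = 9) → (goodD4.R.pair 14 s = 1 ∨ goodD4.R.pair 14 s = -1) ∨
      (goodD4.R.pair 14 s = 0 ∧ ∃ ε ∈ [(1 : ℤ), -1], goodD4.R.pair 22 s = ε ∧
        ((goodD4.R.pair 17 s = 2 * ε ∧ goodD4.R.pair 20 s = 0 ∧ goodD4.R.pair 21 s = 0) ∨
        (goodD4.R.pair 17 s = 0 ∧ goodD4.R.pair 20 s = 2 * ε ∧ goodD4.R.pair 21 s = 0) ∨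
        (goodD4.R.pair 17 s = 0 ∧ goodD4.R.pair 20 s = 0 ∧ goodD4.R.pair 21 s = 2 * ε))) := by decide +kernel
  have k2 : ∀ b : K, b ^ 2 ≠ -1 → ∀ ε ∈ [(1 : ℤ), -1], e b ^ (2 * ε) * (-1 : L) ^ ε ≠ 1 := fun b hb ε hε h => by
    apply hb
    apply e.injective
    simp only [List.mem_cons, List.not_mem_nil, or_false] at hε
    rcases hε with rfl | rfl
    · simp only [mul_one, zpow_ofNat, pow_one] at h
      rw [map_pow, map_neg, map_one]; linear_combination -h
    · simp only [mul_neg, mul_one, _root_.zpow_neg, zpow_ofNat, pow_one, inv_neg, inv_one] at h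
      rw [neg_eq_iff_eq_neg, inv_eq_iff_eq_inv, inv_neg, inv_one] at h
      rw [map_pow, map_neg, map_one, h]
  rw [inJ1] at hs
  rcases key s hs with h | ⟨h0, ε, hε, h4, h⟩
  · intro e1
    have e2 : l ^ goodD4.R.pair 14 s ∈ e.fieldRange := by
      have : l ^ goodD4.R.pair 14 s = (e (b1 ^ goodD4.R.pair 17 s * b2 ^ goodD4.R.pair 20 s *
          b3 ^ goodD4.R.pair 21 s * (-1) ^ goodD4.R.pair 22 s))⁻¹ := by
        refine eq_inv_of_mul_eq_one_right ?_
        simp only [map_mul, map_zpow₀, map_neg, map_one]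
        linear_combination e1
      rw [this]; exact inv_mem ⟨_, rfl⟩
    rcases h with h | h <;> rw [h] at e2
    · exact hl (by simpa using e2)
    · exact hl (by simpa using e2)
  · rw [h0, h4]
    rcases h with ⟨a, b, c⟩ | ⟨a, b, c⟩ | ⟨a, b, c⟩ <;> rw [a, b, c] <;> simp only [zpow_zero, mul_one, one_mul]
    exacts [k2 _ h1 _ hε, k2 _ h2 _ hε, k2 _ h3 _ hε]

theorem main_x [Finite K] (hΨ : IsGL ((SS K).base γ) 14 22 Ψ) {M : GL (Fin 2) F} (hd : M.1.det = -1)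
    (hr : ∀ l : K, l ^ 2 - γ M.1.trace * l + -1 ≠ 0) {β : K} (h0 : β ≠ 0) (hβ : β ^ 2 ≠ -1) :
    (∀ u ∈ Rp (SS K) (D4.orb 1), zt φ β * Ψ M * u = u * (zt φ β * Ψ M) → u = 1) ∧
    (∀ u ∈ Rm (SS K) (D4.orb 1), zt φ β * Ψ M * u = u * (zt φ β * Ψ M) → u = 1) ∧
    ∀ (p : ℕ) [Fact p.Prime] [CharP K p], ¬ p ∣ orderOf (zt φ β * Ψ M) := by
  let L := AlgebraicClosure K
  let e : K →+* L := algebraMap K L
  obtain ⟨Φ, hΦ⟩ := exists_isGL (S := SS L) hm (b := 14) (d := 22) (by decide +kernel)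
  have hΦ' : IsGL ((SS L).base (RingHom.id L)) 14 22 Φ := ⟨hΦ.up, hΦ.lo, fun M t h => by simpa using hΦ.dg M t h⟩
  have hc : (goodD4.mapG e).comp Ψ = Φ.comp (GeneralLinearGroup.map (e.comp γ)) := by
    refine gl2_ext (fun M t h => ?_) (fun M t h => ?_) (fun M t _ h => ?_) <;>
      simp only [MonoidHom.comp_apply]
    · rw [hΨ.up M t h, base_x, mapG_x, hΦ.up _ (e (γ t))]
      ext i j; fin_cases i <;> fin_cases j <;> simp [h]
    · rw [hΨ.lo M t h, base_x, mapG_x, hΦ.lo _ (e (γ t))]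
      ext i j; fin_cases i <;> fin_cases j <;> simp [h]
    · rw [hΨ.dg M t h, base_h, (mapG_hom e).h, base_h, hΦ.dg _ (e (γ t))]
      ext i j; fin_cases i <;> fin_cases j <;> simp [h]
  set τ := γ M.1.trace with hτ
  obtain ⟨l, hl⟩ : ∃ l : L, l ^ 2 - e τ * l + -1 = 0 := by
    obtain ⟨l, hl⟩ := IsAlgClosed.exists_root (Polynomial.C (1 : L) * Polynomial.X ^ 2 +
      Polynomial.C (-e τ) * Polynomial.X + Polynomial.C (-1)) (by rw [Polynomial.degree_quadratic one_ne_zero]; simp)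
    exact ⟨l, by simpa [sub_eq_add_neg] using hl⟩
  have hlr : l ∉ e.range := by
    rintro ⟨a, rfl⟩
    exact hr a (e.injective (by simpa using hl))
  have hlm : l ≠ e τ - l := fun h => by
    by_cases h2 : (2 : K) = 0
    · have h4 : (2 : L) = 0 := by rw [← map_ofNat e 2, h2, map_zero]
      have h5 : e τ = 0 := by linear_combination l * h4 - h
      have h6 : (l - 1) ^ 2 = 0 := by rw [h5] at hl; linear_combination hl + (1 - l) * h4
      exact hlr ⟨1, by rw [map_one]; exact (sub_eq_zero.1 (pow_eq_zero_iff two_ne_zero |>.1 h6)).symm⟩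
    · have h4 : (2 : L) ≠ 0 := by rw [← map_ofNat e 2]; exact (map_ne_zero e).2 h2
      exact hlr ⟨τ / 2, by rw [map_div₀, map_ofNat, div_eq_iff h4]; linear_combination -h⟩
  have hl0 : l ≠ 0 := by rintro rfl; exact hlr (zero_mem _)
  obtain ⟨P, D, hD, hP⟩ := diag_of_root (GeneralLinearGroup.map (e.comp γ) M) (l := l) (m := e τ - l)
    (by simp [hτ, trace_fin_two]) (by
      have : (GeneralLinearGroup.map (e.comp γ) M).1.det = e (γ M.1.det) := by simp [det_fin_two]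
      rw [this, hd, map_neg, map_one, map_neg, map_one]; linear_combination hl) hlm (by
      intro h
      have h1 : M.1 1 0 = 0 := by simpa using h
      refine hr (γ (M.1 0 0)) ?_
      rw [det_fin_two, h1] at hd
      rw [hτ, trace_fin_two, ← map_one γ, ← map_neg, ← hd]
      simp only [map_add, map_sub, map_mul, map_zero]; ring)
  have hφ : ∀ b : K, b ^ 2 ≠ -1 → φ b ^ 2 ≠ -1 := fun b hb h => hb (φ.injective (by simpa using h))
  let z : chevD4.group L := (SS L).h 17 (e β) * (SS L).h 20 (e (φ β)) * (SS L).h 21 (e (φ (φ β)))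
  have hz : goodD4.mapG e (zt φ β) = z := by simp only [zt, map_mul, (mapG_hom e).h, base_h, z]
  have hk : Acts (SS L) (z * Φ D) _ := (((Acts.h 17 (by simpa using h0)).mul (Acts.h 20 (by simpa using h0))).mul
    (Acts.h 21 (by simpa using h0))).mul (by
      rw [hΦ.diag hD, show l * (e τ - l) = -1 by linear_combination -hl]
      exact (Acts.h 14 hl0).mul (Acts.h 22 (by simp)))
  have hv := fun s => root_val e hlr hβ (hφ _ hβ) (hφ _ (hφ _ hβ)) (s := s)
  have hzP : z * Φ P = Φ P * z := by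
    have := hΦ.mem (N := Subgroup.centralizer {z}) (fun u => Subgroup.mem_centralizer_singleton_iff.2 ?_)
      (fun u => Subgroup.mem_centralizer_singleton_iff.2 ?_) (fun u hu => Subgroup.mem_centralizer_singleton_iff.2 ?_) P
    · exact (Subgroup.mem_centralizer_singleton_iff.1 this).symm
    · exact ((((show Orth goodD4.R 17 14 by decide +kernel).comm (hU _ _) (xU _ _)).mul_left
        ((show Orth goodD4.R 20 14 by decide +kernel).comm (hU _ _) (xU _ _))).mul_left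
        ((show Orth goodD4.R 21 14 by decide +kernel).comm (hU _ _) (xU _ _))).eq.symm
    · exact ((((show Orth goodD4.R 17 14 by decide +kernel).comm (hU _ _) (xU' _ _)).mul_left
        ((show Orth goodD4.R 20 14 by decide +kernel).comm (hU _ _) (xU' _ _))).mul_left
        ((show Orth goodD4.R 21 14 by decide +kernel).comm (hU _ _) (xU' _ _))).eq.symm
    · exact hm.comm _ (h_mem_H _ hu) _ (mul_mem (mul_mem (h_mem_H _ (by simpa using h0)) (h_mem_H _ (by simpa using h0)))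
        (h_mem_H _ (by simpa using h0)))
  have hx : goodD4.mapG e (zt φ β * Ψ M) = Φ P * (z * Φ D) * (Φ P)⁻¹ := by
    have := DFunLike.congr_fun hc M
    simp only [MonoidHom.comp_apply] at this
    rw [map_mul, hz, this, hP, map_mul, map_mul, map_inv, ← mul_assoc, ← mul_assoc, hzP]; group
  have hL := inv_mem (psi_lev hΦ' P)
  have fin : ∀ u, zt φ β * Ψ M * u = u * (zt φ β * Ψ M) →
      z * Φ D * ((Φ P)⁻¹ * goodD4.mapG e u * (Φ P)⁻¹⁻¹) = (Φ P)⁻¹ * goodD4.mapG e u * (Φ P)⁻¹⁻¹ * (z * Φ D) :=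
    fun u h => by
      have h1 := congrArg (goodD4.mapG e) h
      rw [map_mul _ _ u, map_mul _ u, hx] at h1
      calc _ = (Φ P)⁻¹ * (Φ P * (z * Φ D) * (Φ P)⁻¹ * goodD4.mapG e u) * Φ P := by group
        _ = _ := by rw [h1]; group
  have fin2 : ∀ u, (Φ P)⁻¹ * goodD4.mapG e u * (Φ P)⁻¹⁻¹ = 1 → u = 1 := fun u h =>
    goodD4.mapG_inj e (by rw [map_one]; exact conj_eq_one_iff.1 h)
  refine ⟨fun u hu h => fin2 u ?_, fun u hu h => fin2 u ?_, fun p _ _ => ?_⟩
  · exact hk.fpf (goodD4.SG_sep L) (Tw.closed_rad _) (f := htf _) (fun _ h => htf_pos h.1) (fun s hs => hv s hs.2)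
      (Lev.conj_Rp hL (mapG_U e hu)) (fin u h)
  · exact hk.fpf (goodD4.SG_sep L) (closed_nrad _) (f := -htf _) (fun _ h => htf_neg h.1) (fun s hs => hv s hs.2)
      (Lev.conj_Rm hL (mapG_U e hu)) (fin u h)
  · have h1 : orderOf (z * Φ D) = orderOf (zt φ β * Ψ M) := by
      rw [← orderOf_injective _ (goodD4.mapG_inj e), hx]
      exact (orderOf_injective (MulAut.conj (Φ P)).toMonoidHom (MulAut.conj (Φ P)).injective _).symm
    have : CharP L p := charP_of_injective_ringHom e.injective p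
    rw [← h1]
    exact hk.not_dvd (goodD4.SG_sep L) (goodD4.SG_top L) (goodD4.center_eq_bot L) p (h1 ▸ orderOf_pos _)

end H27.GT
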