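import Cfsg.Agent.H27.GT4

/-!
The triality fixed points of `D₄`: Gauss decomposition with respect to a maximal parabolic subgroup.
-/

namespace H27.GT

open Matrix H14 H14.RootSys H14.PreSt H14.St H14.Good Cfsg.Lie MatrixGroups

set_option maxRecDepth 100000

variable {K : Type*} [Field K] {φ : K →+* K} {h3 : ∀ t, φ (φ (φ t)) = t} {F : Type*} [Field F] {γ : F →+* K}

theorem xp {r : Fin chevD4.nroots} (h : goodD4.R.pos r ∧ ¬ (r = 14 ∨ r = 9)) (u : K) :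
    (SS K).x r u ∈ Rp (SS K) (D4.orb 1) :=
  x_mem_U (A := {r | goodD4.R.pos r ∧ ¬ goodD4.R.InJ (D4.orb 1) r}) ⟨h.1, by rw [inJ1]; exact h.2⟩ u

theorem xm {r : Fin chevD4.nroots} (h : ¬ goodD4.R.pos r ∧ ¬ (r = 14 ∨ r = 9)) (u : K) :
    (SS K).x r u ∈ Rm (SS K) (D4.orb 1) :=
  x_mem_U (A := {r | ¬ goodD4.R.pos r ∧ ¬ goodD4.R.InJ (D4.orb 1) r}) ⟨h.1, by rw [inJ1]; exact h.2⟩ u

theorem cm2 [CharP K 2] {θ ν k : Fin chevD4.nroots} (h : (chevD4.commTerms ν θ = [(k.val, 1, 1, 1)] ∨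
    chevD4.commTerms ν θ = [(k.val, -1, 1, 1)]) ∧ θ ≠ ν ∧ θ ≠ goodD4.R.neg ν ∧ k ≠ goodD4.R.neg θ ∧
      ¬ ∃ j, goodD4.R.cf j = goodD4.R.cf θ + goodD4.R.cf k) (s t : K) :
    (SS K).x θ s * (SS K).x ν t = (SS K).x ν t * (SS K).x k (t * s) * (SS K).x θ s := by
  obtain ⟨h1, h2, h3, h4, h5⟩ := h
  rw [(SS K).comm ν θ h2 h3, mul_assoc, mul_assoc, ← ((SS K).commute_of_not h4 h5 s (t * s)).eq]
  rcases h1 with h1 | h1
  · rw [goodD4.terms_eq (L := [(k, 1, 1, 1)]) h1]; simp [PreChev.tval, CharTwo.neg_eq]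
  · rw [goodD4.terms_eq (L := [(k, -1, 1, 1)]) h1]; simp [PreChev.tval, CharTwo.neg_eq]

theorem cm0 {θ ν : Fin chevD4.nroots} (h : ν ≠ goodD4.R.neg θ ∧ ¬ ∃ j, goodD4.R.cf j = goodD4.R.cf θ + goodD4.R.cf ν)
    (s t : K) : (SS K).x θ s * (SS K).x ν t = (SS K).x ν t * (SS K).x θ s :=
  ((SS K).commute_of_not h.1 h.2 s t).eq

theorem comp2 [CharP K 2] (a b c g : K) : (SS K).x 17 a * (SS K).x 20 b * (SS K).x 21 c * (SS K).x 1 g =
    (SS K).x 1 g * (SS K).x 5 (g * a) * (SS K).x 10 (g * b) * (SS K).x 11 (g * c) * (SS K).x 14 (g * c * (g * b * a)) *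
      ((SS K).x 15 (g * b * a) * (SS K).x 16 (g * c * a) * (SS K).x 19 (g * c * b) * (SS K).x 23 (g * c * b * a) *
        (SS K).x 17 a * (SS K).x 20 b * (SS K).x 21 c) := by
  have e1 := cm2 (K := K) (θ := 21) (ν := 1) (k := 11) (by decide +kernel) c g
  have e2 := cm2 (K := K) (θ := 20) (ν := 1) (k := 10) (by decide +kernel) b g
  have e3 := cm2 (K := K) (θ := 20) (ν := 11) (k := 19) (by decide +kernel) b (g * c)
  have e4 := cm2 (K := K) (θ := 17) (ν := 1) (k := 5) (by decide +kernel) a g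
  have e5 := cm2 (K := K) (θ := 17) (ν := 10) (k := 15) (by decide +kernel) a (g * b)
  have e6 := cm2 (K := K) (θ := 17) (ν := 11) (k := 16) (by decide +kernel) a (g * c)
  have e7 := cm2 (K := K) (θ := 17) (ν := 19) (k := 23) (by decide +kernel) a (g * c * b)
  have e8 := cm2 (K := K) (θ := 15) (ν := 11) (k := 14) (by decide +kernel) (g * b * a) (g * c)
  have f : ∀ {a b c : chevD4.group K}, a * b = c → ∀ d, a * (b * d) = c * d := fun h d => by rw [← mul_assoc, h]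
  simp only [mul_assoc (G := chevD4.group K)]
  rw [e1]
  simp only [mul_assoc (G := chevD4.group K)]
  rw [f e2]
  simp only [mul_assoc (G := chevD4.group K)]
  rw [f e3, f e4]
  simp only [mul_assoc (G := chevD4.group K)]
  rw [f e5]
  simp only [mul_assoc (G := chevD4.group K)]
  rw [f e6]
  simp only [mul_assoc (G := chevD4.group K)]
  rw [f e7, f e8]
  simp only [mul_assoc (G := chevD4.group K)]

variable (γ) in
/-- the long root `SL₂` over the fixed field -/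
noncomputable abbrev M0 : Subgroup (chevD4.group K) := ((SS K).base γ).U {14, goodD4.R.neg 14}

theorem M0_lev : M0 γ ≤ Lev (SS K) (D4.orb 1) := (base_U_le _).trans U14_le

variable (φ h3) in
/-- Gauss decomposition -/
def Dec (n m : chevD4.group K) : Prop := ∃ k ∈ Rp (SS K) (D4.orb 1) ⊓ (D4.T φ h3).fix,
  ∃ v ∈ Rm (SS K) (D4.orb 1) ⊓ (D4.T φ h3).fix, ∃ u ∈ Rp (SS K) (D4.orb 1) ⊓ (D4.T φ h3).fix, k * n = v * m * u

theorem cjp {l u : chevD4.group K} (hl : l ∈ Lev (SS K) (D4.orb 1)) (hl' : l ∈ (D4.T φ h3).fix)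
    (hu : u ∈ Rp (SS K) (D4.orb 1) ⊓ (D4.T φ h3).fix) : l * u * l⁻¹ ∈ Rp (SS K) (D4.orb 1) ⊓ (D4.T φ h3).fix :=
  ⟨Lev.conj_Rp hl hu.1, Subgroup.mul_mem _ (Subgroup.mul_mem _ hl' hu.2) (Subgroup.inv_mem _ hl')⟩

theorem cjm {l u : chevD4.group K} (hl : l ∈ Lev (SS K) (D4.orb 1)) (hl' : l ∈ (D4.T φ h3).fix)
    (hu : u ∈ Rm (SS K) (D4.orb 1) ⊓ (D4.T φ h3).fix) : l * u * l⁻¹ ∈ Rm (SS K) (D4.orb 1) ⊓ (D4.T φ h3).fix :=
  ⟨Lev.conj_Rm hl hu.1, Subgroup.mul_mem _ (Subgroup.mul_mem _ hl' hu.2) (Subgroup.inv_mem _ hl')⟩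

theorem Dec.mul {n m l : chevD4.group K} (h : Dec φ h3 n m) (hl : l ∈ Lev (SS K) (D4.orb 1))
    (hl' : l ∈ (D4.T φ h3).fix) : Dec φ h3 (n * l) (m * l) := by
  obtain ⟨k, hk, v, hv, u, hu, e⟩ := h
  exact ⟨k, hk, v, hv, _, cjp (inv_mem hl) (inv_mem hl') hu, by rw [← mul_assoc, e]; group⟩

theorem sm : goodD4.R.simple 0 = 18 ∧ goodD4.R.simple 1 = 14 := by decide +kernel

theorem eq_one_of {w : Equiv.Perm (Fin chevD4.nroots)} (hw : w ∈ (D4.T φ h3).W1) (h1 : goodD4.R.pos (w 14))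
    (h2 : goodD4.R.pos (w 18)) : w = 1 := by
  refine goodD4.R.eq_one_of_pos_simple (Tw.mem_W1.1 hw).1 fun i => ?_
  rcases (by decide +kernel : ∀ i, okgrD4.pi.SameCycle 0 i ∨ i = 1) i with h | rfl
  · exact Tw.pos_orb hw (i := 0) (sm.1 ▸ h2) i h
  · exact sm.2 ▸ h1

variable (hγ : ∀ t, φ t = t ↔ t ∈ γ.range)
include hγ

theorem M0_fix : M0 γ ≤ (D4.T φ h3).fix := U_le.2 (by
  rintro _ (rfl | rfl) t
  exacts [x14_fix ((hγ _).2 ⟨t, rfl⟩), ng.1 ▸ x9_fix ((hγ _).2 ⟨t, rfl⟩)])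

theorem Up_le : (D4.T φ h3).Up (D4.orb 1) ≤ M0 γ := fun x hx => by
  obtain ⟨t, ht, rfl⟩ := D4.p1.1 hx
  obtain ⟨s, rfl⟩ := (hγ t).1 ht.symm
  simpa using xU (S := (SS K).base γ) 14 s

theorem Um_le : (D4.T φ h3).Um (D4.orb 1) ≤ M0 γ := fun x hx => by
  obtain ⟨t, ht, rfl⟩ := D4.m1.1 hx
  obtain ⟨s, rfl⟩ := (hγ t).1 ht.symm
  simpa [← ng.1] using xU' (S := (SS K).base γ) 14 s

theorem h14_mem {s : K} (hs : φ s = s) : (SS K).h 14 s ∈ M0 γ := by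
  obtain ⟨s, rfl⟩ := (hγ s).1 hs
  simpa using hU (S := (SS K).base γ) 14 s

theorem dec1 {n : chevD4.group K} {w : Equiv.Perm (Fin chevD4.nroots)} (hn : (n, w) ∈ (SS K).NW)
    (hn' : n ∈ (D4.T φ h3).fix) (hw : ¬ goodD4.R.pos (w 18)) : ∃ m ∈ M0 γ, Dec φ h3 n m := by
  have hw1 := Tw.NW_W1 hn hn'
  have h1 := pos_mul_w0 (Tw.W1_Aut hw1) (Tw.neg_orb hw1 (i := 0) (sm.1 ▸ hw))
  obtain ⟨n1, hn1, hn2, hQ⟩ := exists_Q D4.ex (mul_mem hw1 ((D4.T φ h3).w0_orb_mem 0))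
  have h2 : (n1 * na φ 1, w) ∈ (SS K).NW := by
    have := NW.mul hn2 (na_NW φ one_ne_zero)
    rwa [mul_assoc w, show goodD4.R.w0 ((D4.T φ h3).orb 0) * goodD4.R.w0 (D4.orb 0) = 1 from w0_mul_self .., mul_one]
      at this
  obtain ⟨t, s, ht, hs0, hs, e⟩ := H_eq (h3 := h3) ⟨NW.inv_mul_mem_H h2 hn,
    Subgroup.mul_mem _ (Subgroup.inv_mem _ (Subgroup.mul_mem _ hn1 (na_fix one_ne_zero))) hn'⟩
  have e1 : n = n1 * na φ t⁻¹ * (SS K).h 14 s := by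
    rw [← na_mul φ ht, ← mul_assoc, mul_assoc _ (za φ t), ← e]; group
  have hp := (D4.p0 (h3 := h3)).2 ⟨(-t)⁻¹, rfl⟩
  have h4 : Q (D4.T φ h3) (n1 * na φ t⁻¹) := hQ.step hn2 hn1 h1 ((D4.m0 (h3 := h3)).2 ⟨-t, rfl⟩) hp
    (na_NW φ (inv_ne_zero ht)) (na_fix (inv_ne_zero ht)) hp (by
      have := xneg3 (S := SS K) a1 a2 a3 (-t) (φ (-t)) (φ (φ (-t)))
      simp only [ng, ← mul_assoc, map_neg, inv_neg, _root_.neg_neg] at this
      simpa only [wd_cons, wd_nil, mul_one, ← mul_assoc, na, map_inv₀, map_neg, inv_neg, _root_.neg_neg] using this)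
  obtain ⟨k, hk, v, hv, m, hm, u, hu, e2⟩ := h4.parab (J := D4.orb 1) (fun _ => Tw.π_mem_orb (T := D4.T φ h3) (i := 1)) (Up_le hγ) (Um_le hγ)
  have h5 := h14_mem hγ hs
  exact ⟨_, mul_mem hm h5, e1 ▸ Dec.mul ⟨k, hk, v, hv, u, hu, e2⟩ (M0_lev h5) (M0_fix hγ h5)⟩

theorem dec_nt [CharP K 2] [Finite F] {t : K} (ht : t ≠ 0) (r : F) : Dec φ h3 (nt φ t) ((SS K).x 14 (γ r)) := by
  have h1 : φ t ≠ 0 := by simpa using ht
  have h2 : φ (φ t) ≠ 0 := by simpa using ht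
  obtain ⟨ν, hν⟩ := (hγ (t * φ t * φ (φ t))).1 (by simp only [map_mul, h3]; ring)
  have hν0 : ν ≠ 0 := by rintro rfl; rw [map_zero] at hν; exact absurd hν.symm (by positivity)
  have : CharP F 2 := (RingHom.charP_iff_charP γ 2).2 inferInstance
  have := Fintype.ofFinite F
  obtain ⟨g, hg⟩ := FiniteField.isSquare_of_char_two (ringChar.eq F 2) (r / ν)
  have hc := comp2 t (φ t) (φ (φ t)) (γ g)
  have hr : γ g * φ (φ t) * (γ g * φ t * t) = γ r := by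
    rw [div_eq_iff hν0] at hg
    rw [hg, map_mul, map_mul, hν]; ring
  rw [hr] at hc
  have hx := xneg3 (S := SS K) o1 o2 o3 t⁻¹ (φ t⁻¹) (φ (φ t⁻¹))
  simp only [ng, map_inv₀, inv_inv, CharTwo.neg_eq] at hx
  have hf := xmt_fix (h3 := h3) t⁻¹
  simp only [map_inv₀, CharTwo.neg_eq] at hf
  have hn : nt φ t = (SS K).n 17 t * (SS K).n 20 (φ t) * (SS K).n 21 (φ (φ t)) := by simp only [nt, CharTwo.neg_eq]
  rw [← hn] at hx
  set X := (SS K).x 17 t * (SS K).x 20 (φ t) * (SS K).x 21 (φ (φ t)) with hX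
  set y := (SS K).x 1 (γ g) * (SS K).x 5 (γ g * t) * (SS K).x 10 (γ g * φ t) * (SS K).x 11 (γ g * φ (φ t)) with hy
  obtain ⟨u, hu, hc⟩ : ∃ u ∈ Rp (SS K) (D4.orb 1), X * (SS K).x 1 (γ g) = y * (SS K).x 14 (γ r) * u := by
    refine ⟨_, ?_, hc⟩
    repeat' apply mul_mem
    all_goals exact xp (by decide +kernel) _
  have hXm : X ∈ Rp (SS K) (D4.orb 1) := by
    repeat' apply mul_mem
    all_goals exact xp (by decide +kernel) _
  have hym : y ∈ Rm (SS K) (D4.orb 1) := by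
    repeat' apply mul_mem
    all_goals exact xm (by decide +kernel) _
  have hy2 : nt φ t * y * (nt φ t)⁻¹ ∈ Rp (SS K) (D4.orb 1) := NW.conj_mem_U (nt_NW φ ht) (fun r hr => by
    simp only [Set.mem_setOf_eq, inJ1, wt_apply] at hr ⊢
    revert r; decide +kernel) hym
  have hu2 : nt φ t * u * (nt φ t)⁻¹ ∈ Rm (SS K) (D4.orb 1) := NW.conj_mem_U (nt_NW φ ht) (fun r hr => by
    simp only [Set.mem_setOf_eq, inJ1, wt_apply] at hr ⊢
    revert r; decide +kernel) hu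
  set v := (SS K).x 6 t⁻¹ * (SS K).x 3 (φ t)⁻¹ * (SS K).x 2 (φ (φ t))⁻¹ * (SS K).x 1 (γ g) with hv
  have hvm : v ∈ Rm (SS K) (D4.orb 1) ⊓ (D4.T φ h3).fix := by
    refine ⟨?_, Subgroup.mul_mem _ hf (x1_fix ((hγ _).2 ⟨g, rfl⟩))⟩
    change v ∈ Rm (SS K) (D4.orb 1)
    repeat' apply mul_mem
    all_goals exact xm (by decide +kernel) _
  set c := (SS K).x 14 (γ r)
  have hcM : c ∈ M0 γ := xU (S := (SS K).base γ) 14 r
  have hcn : nt φ t * c = c * nt φ t := (nt_comm φ t (xU 14 _)).eq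
  have e1 : v * (nt φ t)⁻¹ = X * (nt φ t * y * (nt φ t)⁻¹) * c * (nt φ t * u * (nt φ t)⁻¹) := by
    rw [hv, hx, mul_assoc _ X, hc]
    calc X * nt φ t * (y * c * u) * (nt φ t)⁻¹ = X * nt φ t * y * (nt φ t)⁻¹ * (nt φ t * c) * u * (nt φ t)⁻¹ := by group
      _ = _ := by rw [hcn]; group
  have hnf := nt_fix (h3 := h3) ht
  have hcf := M0_fix (h3 := h3) hγ hcM
  have hp : ∀ {a}, a ∈ Rp (SS K) (D4.orb 1) → a ∈ (SS K).U {r | goodD4.R.pos r} := fun h => U_mono (fun _ h => h.1) h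
  obtain ⟨f1, f2⟩ := fix_of_mul (T := D4.T φ h3) (mul_mem (hp (mul_mem hXm hy2))
    (x_mem_U (show goodD4.R.pos 14 by decide +kernel) (γ r))) (U_mono (fun _ h => h.1) hu2)
    (e1 ▸ Subgroup.mul_mem _ hvm.2 (Subgroup.inv_mem _ hnf))
  have f3 : X * (nt φ t * y * (nt φ t)⁻¹) ∈ (D4.T φ h3).fix := (Subgroup.mul_mem_cancel_right _ hcf).1 f1
  have f4 : u ∈ (D4.T φ h3).fix := by
    have := Subgroup.mul_mem _ (Subgroup.mul_mem _ (Subgroup.inv_mem _ hnf) f2) hnf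
    simpa [mul_assoc] using this
  have hcc : c⁻¹ = c := by rw [x_inv, CharTwo.neg_eq]
  refine ⟨_, cjp (inv_mem (M0_lev hcM)) (inv_mem hcf) ⟨mul_mem hXm hy2, f3⟩, _,
    cjm (inv_mem (M0_lev hcM)) (inv_mem hcf) hvm, u⁻¹, inv_mem ⟨hu, f4⟩, ?_⟩
  have e2 : v = X * (nt φ t * y * (nt φ t)⁻¹) * c * nt φ t * u := by
    rw [← mul_inv_eq_iff_eq_mul, ← mul_inv_eq_iff_eq_mul]
    calc v * u⁻¹ * (nt φ t)⁻¹ = v * (nt φ t)⁻¹ * (nt φ t * u * (nt φ t)⁻¹)⁻¹ := by group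
      _ = _ := by rw [e1]; group
  calc _ = c⁻¹ * v * c⁻¹⁻¹ * c⁻¹ * u⁻¹ := by rw [e2]; group
    _ = _ := by rw [hcc]

theorem dec2 [CharP K 2] [Finite K] {n : chevD4.group K} {w : Equiv.Perm (Fin chevD4.nroots)}
    (hn : (n, w) ∈ (SS K).NW) (hn' : n ∈ (D4.T φ h3).fix) (h1 : goodD4.R.pos (w 14)) (h2 : w ≠ 1) :
    ∃ m ∈ M0 γ, ∀ r : F, Dec φ h3 n (m * (SS K).x 14 (γ r)) := by
  have hw1 := Tw.NW_W1 hn hn'
  have h4 : ¬ goodD4.R.pos (w 18) := fun h => h2 (eq_one_of hw1 h1 h)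
  by_cases h5 : w 14 = 14
  · have : Finite F := Finite.of_injective γ γ.injective
    have hA := Tw.W1_Aut hw1
    have h6 : w = wt := by
      rw [← mul_inv_eq_one]
      refine eq_one_of (mul_mem hw1 (inv_mem (Tw.NW_W1 (nt_NW φ one_ne_zero) (nt_fix (h3 := h3) one_ne_zero)))) ?_ ?_
      · rw [Equiv.Perm.mul_apply, wt_inv, show wtab 14 = 14 by decide +kernel]; exact h1
      · rw [Equiv.Perm.mul_apply, wt_inv, show wtab 18 = goodD4.R.neg 19 by decide +kernel, Aut.neg hA, pos_neg_iff]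
        have e1 := Aut.cf_add hA (r := 18) (s := 14) (k := 19) (by decide +kernel)
        rw [h5] at e1
        have : ∀ a b, ¬ goodD4.R.pos a → goodD4.R.cf b = goodD4.R.cf a + goodD4.R.cf 14 → ¬ goodD4.R.pos b := by
          decide +kernel
        exact this _ _ h4 e1
    subst h6
    obtain ⟨t, s, ht, hs0, hs, e⟩ := H_eq (h3 := h3) ⟨NW.inv_mul_mem_H (nt_NW φ one_ne_zero) hn,
      Subgroup.mul_mem _ (Subgroup.inv_mem _ (nt_fix one_ne_zero)) hn'⟩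
    have := Fintype.ofFinite K
    obtain ⟨β, hβ⟩ := FiniteField.isSquare_of_char_two (ringChar.eq K 2) (φ t * φ (φ t) / t)
    have t1 : φ t ≠ 0 := by simpa using ht
    have t2 : φ (φ t) ≠ 0 := by simpa using ht
    have hβ0 : β ≠ 0 := by rintro rfl; exact absurd hβ (by simp [ht])
    have e3 : φ β * φ (φ β) = t := by
      have b1 := congrArg φ hβ
      have b2 := congrArg φ b1
      simp only [map_mul, map_div₀, h3] at b1 b2
      have : (φ β * φ (φ β) - t) ^ 2 = 0 := by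
        rw [CharTwo.sub_eq_add, CharTwo.add_sq, mul_pow, sq, sq, ← b1, ← b2, CharTwo.add_eq_zero]; field_simp
      exact sub_eq_zero.1 (pow_eq_zero_iff two_ne_zero |>.1 this)
    have b1 : φ β ≠ 0 := by simpa using hβ0
    have b2 : φ (φ β) ≠ 0 := by simpa using hβ0
    have hN : β * φ β * φ (φ β) ≠ 0 := by positivity
    obtain ⟨σ, hσ⟩ := (hγ ((β * φ β * φ (φ β))⁻¹ * s)).1 (by simp only [map_mul, map_inv₀, h3, hs]; ring)
    have hσ0 : γ σ ≠ 0 := by rw [hσ]; positivity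
    have e4 : n = nt φ β⁻¹ * (SS K).h 14 (γ σ) := by
      rw [← nt_mul φ hβ0, zt_eq φ h3 hβ0, e3, mul_assoc, mul_assoc, hm _ _ _ hN hσ0, hσ, mul_inv_cancel_left₀ hN, ← e]
      group
    have h7 := h14_mem hγ ((hγ _).2 ⟨σ, rfl⟩)
    refine ⟨_, h7, fun r => ?_⟩
    have := (dec_nt (h3 := h3) hγ (inv_ne_zero hβ0) (σ ^ 2 * r)).mul (M0_lev h7) (M0_fix hγ h7)
    rw [e4, (SS K).h_mul_x _ _ hσ0, pair_self, zpow_ofNat]
    simpa only [map_mul, map_pow] using this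
  obtain ⟨m, hm, k, hk, v, hv, u, hu, e⟩ := dec1 hγ hn hn' h4
  refine ⟨m, hm, fun r => ?_⟩
  have hcM : (SS K).x 14 (γ r) ∈ M0 γ := xU (S := (SS K).base γ) 14 r
  have hcf := M0_fix (h3 := h3) hγ hcM
  refine ⟨k * (n * (SS K).x 14 (γ r) * n⁻¹), mul_mem hk ⟨?_, Subgroup.mul_mem _ (Subgroup.mul_mem _ hn' hcf)
    (Subgroup.inv_mem _ hn')⟩, v, hv, _, cjp (inv_mem (M0_lev hcM)) (inv_mem hcf) hu, ?_⟩
  · obtain ⟨a, ha⟩ := NW.conj_x hn 14 (γ r)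
    rw [ha]
    refine xp ⟨h1, ?_⟩ a
    rintro (h | h)
    · exact h5 h
    · rw [h] at h1; revert h1; decide +kernel
  · calc _ = k * n * (SS K).x 14 (γ r) := by group
      _ = _ := by rw [e]; group

theorem bruhat_P {g : chevD4.group K} (hg : g ∈ (D4.T φ h3).fix) (hP : g ∉ (SS K).P (D4.orb 1)) :
    ∃ n ∈ (D4.T φ h3).fix, ∃ w, (n, w) ∈ (SS K).NW ∧ goodD4.R.pos (w 14) ∧ w ≠ 1 ∧ ∃ m ∈ M0 γ,
      ∃ k ∈ Rp (SS K) (D4.orb 1) ⊓ (D4.T φ h3).fix, ∃ y ∈ (D4.T φ h3).fix, y * g * y⁻¹ = m * k * n := by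
  obtain ⟨w, hw⟩ := exists_cell ((D4.T φ h3).mem_top g)
  obtain ⟨u', hu', n, hn, hn', u, hu, e⟩ := Tw.bruhat hw hg
  obtain ⟨a, ha, k, hk, e1⟩ := split_pos (J := D4.orb 1) (fun _ => Tw.π_mem_orb (T := D4.T φ h3) (i := 1))
    (mul_mem (show u ∈ _ ⊓ _ from ⟨U_mono (fun _ h => h.1) hu.1, hu.2⟩) hu')
  by_cases h : goodD4.R.pos (w 14)
  · refine ⟨n, hn, w, hn', h, ?_, a, Up_le hγ ha, k, hk, u, hu.2, by rw [e, ← e1]; group⟩
    rintro rfl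
    exact hP (mem_P_iff.2 ⟨1, one_mem _, hw⟩)
  · have hb : (SS K).n 14 1 ∈ M0 γ := by simpa using nU (S := (SS K).base γ) 14 1
    have hbf := M0_fix (h3 := h3) hγ hb
    refine ⟨n * ((SS K).n 14 1)⁻¹, mul_mem hn (inv_mem hbf), _, NW.mul hn' (NW.inv (n_mem_NW 14 one_ne_zero)), ?_, ?_,
      _, mul_mem hb (Up_le hγ ha), k, hk, (SS K).n 14 1 * u, Subgroup.mul_mem _ hbf hu.2, ?_⟩
    · rw [refl_inv, Equiv.Perm.mul_apply, refl_self, Aut.neg (NW.mem_Aut hn'), pos_neg_iff]; exact h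
    · intro h1
      rw [mul_inv_eq_one] at h1
      exact hP (mem_P_iff.2 ⟨w, h1 ▸ goodD4.R.refl_mem_WJ ((inJ1 14).2 (Or.inl rfl)), hw⟩)
    · rw [e, mul_assoc _ a, ← e1]; group

theorem Dec.conj {n m m1 k1 : chevD4.group K} (h : Dec φ h3 n m) (h1 : m1 ∈ M0 γ)
    (h2 : k1 ∈ Rp (SS K) (D4.orb 1) ⊓ (D4.T φ h3).fix) : ∃ y ∈ (D4.T φ h3).fix,
      ∃ v ∈ Rm (SS K) (D4.orb 1) ⊓ (D4.T φ h3).fix, ∃ u ∈ Rp (SS K) (D4.orb 1) ⊓ (D4.T φ h3).fix,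
        y * (m1 * k1 * n) * y⁻¹ = v * (m1 * m) * u := by
  obtain ⟨k, hk, v, hv, u, hu, e⟩ := h
  have h4 := cjp (M0_lev h1) (M0_fix (h3 := h3) hγ h1) (mul_mem h2 (inv_mem hk))
  refine ⟨_, Subgroup.inv_mem _ h4.2, _, cjm (M0_lev h1) (M0_fix hγ h1) hv, _, mul_mem hu h4, ?_⟩
  calc _ = m1 * (k * n) * (m1 * (k1 * k⁻¹) * m1⁻¹) := by group
    _ = _ := by rw [e]; group

omit hγ in
theorem not_P {g : chevD4.group K} (hg : g ∈ (D4.T φ h3).fix) (h1 : g ≠ 1) :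
    ∃ y ∈ (D4.T φ h3).fix, y * g * y⁻¹ ∉ (SS K).P (D4.orb 1) := by
  by_contra h
  push Not at h
  have hE : (D4.T φ h3).Emb (D4.T φ h3).fix.subtype := ⟨Subtype.val_injective, Subgroup.range_subtype _, D4.ex⟩
  rcases hE.normal_cases goodD4.conn D4.supp hm (goodD4.center_eq_bot K)
    (((SS K).P (D4.orb 1)).comap (D4.T φ h3).fix.subtype).normalCore with h2 | h2
  · have : (⟨g, hg⟩ : (D4.T φ h3).fix) ∈ (((SS K).P (D4.orb 1)).comap (D4.T φ h3).fix.subtype).normalCore :=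
      fun y => h y y.2
    rw [h2, Subgroup.mem_bot] at this
    exact h1 (congrArg Subtype.val this)
  · have h4 : ((SS K).P (D4.orb 1)).comap (D4.T φ h3).fix.subtype = ⊤ :=
      top_le_iff.1 (h2 ▸ sup_le (Subgroup.comap_mono (B_le_P _)) (Subgroup.normalCore_le _))
    have h5 : (⟨_, na_fix (h3 := h3) one_ne_zero⟩ : (D4.T φ h3).fix) ∈
        ((SS K).P (D4.orb 1)).comap (D4.T φ h3).fix.subtype := h4 ▸ Subgroup.mem_top _
    obtain ⟨w, hw, h6⟩ := mem_P_iff.1 h5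
    obtain rfl := h6.unique (goodD4.SG_sep K) (cell_of_NW (na_NW φ one_ne_zero))
    have p18 : goodD4.R.pos 18 := by decide +kernel
    exact goodD4.R.w0_neg (J := D4.orb 0) (r := 18) (sm.1 ▸ goodD4.R.inJ_simple.2 (Equiv.Perm.SameCycle.refl _ _)) p18
      ((goodD4.R.pos_WJ_iff hw (by rw [inJ1]; decide)).2 p18)

end H27.GT
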