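import Cfsg.Agent.H27.GT5

/-!
The triality fixed points of `D₄`: the square of a semisimple class covers all nonidentity elements.
-/

namespace H27.GT

open Matrix H14 H14.RootSys H14.PreSt H14.St H14.Good Cfsg.Lie MatrixGroups

set_option maxRecDepth 100000

variable {K : Type*} [Field K] {φ : K →+* K} {h3 : ∀ t, φ (φ (φ t)) = t}

theorem no_root (h3 : ∀ t, φ (φ (φ t)) = t) {F : Type*} [Field F] {γ : F →+* K} (hγ : ∀ t, φ t = t ↔ t ∈ γ.range)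
    {τ : F} (h : ∀ l : F, l ^ 2 - τ * l + -1 ≠ 0) (l : K) : l ^ 2 - γ τ * l + -1 ≠ 0 := fun hl => by
  have hτ : φ (γ τ) = γ τ := (hγ _).2 ⟨τ, rfl⟩
  have h1 : φ l ≠ l := fun e => by
    obtain ⟨a, rfl⟩ := (hγ l).1 e
    exact h a (γ.injective (by simpa using hl))
  have h2 := congrArg φ hl
  simp only [map_add, map_sub, map_pow, map_mul, hτ, map_neg, map_one, map_zero] at h2
  have h4 : (φ l - l) * (φ l + l - γ τ) = 0 := by linear_combination h2 - hl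
  have h5 : φ l = γ τ - l := by linear_combination (mul_eq_zero.1 h4).resolve_left (sub_ne_zero.2 h1)
  have h6 : φ (φ l) = l := by rw [h5, map_sub, hτ, h5]; ring
  exact h1 (by simpa only [h6] using h3 l)

theorem main [Finite K] (p : ℕ) [Fact p.Prime] [CharP K p] (hK : ∃ a : K, a ≠ 0 ∧ a ≠ 1) :
    ∃ x ∈ (D4.T φ h3).fix, ¬ p ∣ orderOf x ∧ ∀ g ∈ (D4.T φ h3).fix, g ≠ 1 → ∃ u ∈ (D4.T φ h3).fix,
      ∃ v ∈ (D4.T φ h3).fix, g = u * x * u⁻¹ * (v * x * v⁻¹) := by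
  have := Fintype.ofFinite K
  obtain ⟨F, _, _, γ, hγ, -⟩ := exists_fixed_field (RingEquiv.ofBijective φ ⟨φ.injective, fun t => ⟨φ (φ t), h3 t⟩⟩)
  replace hγ : ∀ t, φ t = t ↔ t ∈ γ.range := hγ
  obtain ⟨Ψ, hΨ⟩ := exists_isGL (S := (SS K).base γ) (hm.base γ) (b := 14) (d := 22) (by decide +kernel)
  obtain ⟨τ, hτ⟩ := exists_irr (F := F)
  have hτ' : ∀ l : F, l ^ 2 - -τ * l + -1 ≠ 0 := fun l e => hτ (-l) (by linear_combination e)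
  obtain ⟨β, h0, hβ, hβ1⟩ : ∃ β : K, β ≠ 0 ∧ β ^ 2 ≠ -1 ∧ ((2 : K) ≠ 0 → β = 1) := by
    by_cases h2 : (2 : K) = 0
    · obtain ⟨a, h0, h1⟩ := hK
      refine ⟨a, h0, fun e => h1 ?_, fun h => (h h2).elim⟩
      have : (a - 1) ^ 2 = 0 := by linear_combination e - a * h2
      exact sub_eq_zero.1 (pow_eq_zero_iff two_ne_zero |>.1 this)
    · exact ⟨1, one_ne_zero, fun e => h2 (by linear_combination e), fun _ => rfl⟩
  have hβ' : β⁻¹ ^ 2 ≠ -1 := fun e => hβ (by rw [inv_pow, inv_eq_iff_eq_inv, inv_neg, inv_one] at e; exact e)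
  let M : GL (Fin 2) F := GeneralLinearGroup.mkOfDetNeZero !![0, 1; 1, τ] (by simp [det_fin_two])
  have hM : M.1.det = -1 := by simp [M, det_fin_two]
  have hM' : M.1.trace = τ := by simp [M, trace_fin_two]
  have pf := psi_fix (h3 := h3) hγ hΨ
  have c1 : ∀ X : GL (Fin 2) F, X.1.det = -1 → X.1.trace = τ →
      ∃ y ∈ (D4.T φ h3).fix, zt φ β * Ψ X = y * (zt φ β * Ψ M) * y⁻¹ := fun X h1 h2 => by
    obtain ⟨P, hP⟩ := conj_of_irr hτ h1 h2 hM hM'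
    exact ⟨Ψ P, pf P, by rw [hP, map_mul, map_mul, map_inv, ← mul_assoc, ← mul_assoc, zt_psi hΨ h0]; group⟩
  have c2 : ∀ Y : GL (Fin 2) F, Y.1.det = -1 → Y.1.trace = -τ →
      ∃ y ∈ (D4.T φ h3).fix, zt φ β⁻¹ * Ψ Y = y * (zt φ β * Ψ M) * y⁻¹ := fun Y h1 h2 => by
    obtain ⟨y, hy, e⟩ := c1 (-Y) (by simp [det_neg, h1]) (by simp [h2])
    refine ⟨nt φ 1 * y, Subgroup.mul_mem _ (nt_fix one_ne_zero) hy, ?_⟩
    have := nt_psi (φ := φ) hΨ (M := -Y) (by simp [det_neg, h1])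
    rw [_root_.neg_neg] at this
    rw [← this, ← nt_zt φ h0]
    calc _ = nt φ 1 * (zt φ β * Ψ (-Y)) * (nt φ 1)⁻¹ := by group
      _ = _ := by rw [e]; group
  refine ⟨zt φ β * Ψ M, Subgroup.mul_mem _ (zt_fix h0) (pf M),
    (main_x hΨ hM (no_root h3 hγ (hM' ▸ hτ)) h0 hβ).2.2 p, fun g hg h1 => ?_⟩
  obtain ⟨y1, hy1, hP⟩ := not_P hg h1
  obtain ⟨n, hn, w, hn', hw, hw1, m1, hm1, k1, hk1, y2, hy2, e2⟩ := bruhat_P hγ
    (Subgroup.mul_mem _ (Subgroup.mul_mem _ hy1 hg) (Subgroup.inv_mem _ hy1)) hP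
  obtain ⟨m, X, Y, hD, e, hX, hX', hY, hY'⟩ : ∃ m, ∃ X Y : GL (Fin 2) F, Dec φ h3 n m ∧ m1 * m = Ψ X * Ψ Y ∧
      X.1.det = -1 ∧ X.1.trace = τ ∧ Y.1.det = -1 ∧ (Y.1.trace = -τ ∨ β = 1 ∧ Y.1.trace = τ) := by
    by_cases h2 : (2 : K) = 0
    · have : CharP K 2 := (CharP.charP_iff_prime_eq_zero Nat.prime_two).2 (by exact_mod_cast h2)
      obtain ⟨m, hm, hD⟩ := dec2 hγ hn' hn hw hw1
      obtain ⟨A, hA, e⟩ := hΨ.exists_of_mem (mul_mem hm1 hm)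
      obtain ⟨r, hr⟩ := prod_even (γ.injective (by rw [map_ofNat, h2, map_zero])) τ A hA
      obtain ⟨T, hT⟩ := exU r
      obtain ⟨X, Y, e1, h⟩ := hr T hT
      exact ⟨_, X, Y, hD r, by rw [← map_mul, ← e1, map_mul, e, hΨ.up T r hT, mul_assoc]; rfl, h.1, h.2.1, h.2.2.1,
        Or.inl h.2.2.2⟩
    · obtain ⟨m, hm, hD⟩ := dec1 hγ hn' hn fun h => hw1 (eq_one_of (Tw.NW_W1 hn' hn) hw h)
      obtain ⟨A, hA, e⟩ := hΨ.exists_of_mem (mul_mem hm1 hm)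
      obtain ⟨X, Y, e1, h⟩ := prod_odd (fun e => h2 (by rw [← map_ofNat γ, e, map_zero])) τ A hA
      exact ⟨m, X, Y, hD, by rw [← map_mul, ← e1, e], h.1, h.2.1, h.2.2.1, h.2.2.2.imp id fun h => ⟨hβ1 h2, h⟩⟩
  obtain ⟨y3, hy3, v, hv, u, hu, e3⟩ := hD.conj hγ hm1 hk1
  obtain ⟨a, ha, ea⟩ := c1 X hX hX'
  obtain ⟨b, hb, eb⟩ : ∃ y ∈ (D4.T φ h3).fix, zt φ β⁻¹ * Ψ Y = y * (zt φ β * Ψ M) * y⁻¹ := by
    rcases hY' with h | ⟨rfl, h⟩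
    · exact c2 Y hY h
    · rw [inv_one]; exact c1 Y hY h
  have rY : ∀ l : F, l ^ 2 - Y.1.trace * l + -1 ≠ 0 := by
    rcases hY' with h | ⟨-, h⟩ <;> rw [h]
    exacts [hτ', hτ]
  have lv : ∀ {t : K}, t ≠ 0 → ∀ Z, zt φ t * Ψ Z ∈ Lev (SS K) (D4.orb 1) := fun ht Z =>
    mul_mem (Subgroup.mem_sup_left (zt_H φ ht)) (psi_lev hΨ Z)
  obtain ⟨c, hc, ec⟩ := conj_of_fpf (Rm (SS K) (D4.orb 1) ⊓ (D4.T φ h3).fix) (x := zt φ β * Ψ X)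
    (fun _ h => cjm (lv h0 X) (Subgroup.mul_mem _ (zt_fix h0) (pf X)) h)
    (fun v h => (main_x hΨ hX (no_root h3 hγ (hX' ▸ hτ)) h0 hβ).2.1 v h.1) hv
  obtain ⟨d, hd, ed⟩ := conj_of_fpf' (Rp (SS K) (D4.orb 1) ⊓ (D4.T φ h3).fix) (x := zt φ β⁻¹ * Ψ Y)
    (fun _ h => cjp (lv (inv_ne_zero h0) Y) (Subgroup.mul_mem _ (zt_fix (inv_ne_zero h0)) (pf Y)) h)
    (fun v h => (main_x hΨ hY (no_root h3 hγ rY) (inv_ne_zero h0) hβ').1 v h.1) hu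
  have hy := Subgroup.inv_mem _ (Subgroup.mul_mem _ (Subgroup.mul_mem _ hy3 hy2) hy1)
  refine ⟨_, Subgroup.mul_mem _ (Subgroup.mul_mem _ hy (Subgroup.inv_mem _ hc.2)) ha, _,
    Subgroup.mul_mem _ (Subgroup.mul_mem _ hy (Subgroup.inv_mem _ hd.2)) hb, ?_⟩
  have e4 : v * (m1 * m) * u = v * (zt φ β * Ψ X) * (zt φ β⁻¹ * Ψ Y * u) := by
    rw [e, zt_psi hΨ h0, ← zt_inv φ h0]; group
  calc g = (y3 * y2 * y1)⁻¹ * (y3 * (y2 * (y1 * g * y1⁻¹) * y2⁻¹) * y3⁻¹) * (y3 * y2 * y1) := by group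
    _ = _ := by rw [e2, e3, e4, ec, ed, ea, eb]; group

theorem transfer {Γ G : Type*} [Group Γ] [Group G] {f : Γ →* G} (hf : Function.Injective f) {M : Subgroup G}
    (hM : f.range = M) {p : ℕ} (h : ∃ x ∈ M, ¬ p ∣ orderOf x ∧ ∀ g ∈ M, g ≠ 1 → ∃ u ∈ M, ∃ v ∈ M,
      g = u * x * u⁻¹ * (v * x * v⁻¹)) :
    ∃ x : Γ, ¬ p ∣ orderOf x ∧ ∀ g : Γ, g ≠ 1 → ∃ u v : Γ, g = u * x * u⁻¹ * (v * x * v⁻¹) := by
  subst hM
  obtain ⟨_, ⟨x, rfl⟩, h1, h2⟩ := h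
  refine ⟨x, by rwa [orderOf_injective f hf] at h1, fun g hg => ?_⟩
  obtain ⟨_, ⟨u, rfl⟩, _, ⟨v, rfl⟩, e⟩ := h2 (f g) ⟨g, rfl⟩ (by rwa [Ne, map_eq_one_iff f hf])
  exact ⟨u, v, hf (by simpa using e)⟩

theorem exists_ne [Fintype K] (h : 3 ≤ Fintype.card K) : ∃ a : K, a ≠ 0 ∧ a ≠ 1 := by
  classical
  by_contra h1
  push Not at h1
  have : (Finset.univ : Finset K) ⊆ {0, 1} := fun a _ => by
    by_cases h0 : a = 0 <;> simp [h0, h1 a]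
  have := (Finset.card_le_card this).trans Finset.card_le_two
  rw [Finset.card_univ] at this
  omega

end H27.GT
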