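import Cfsg.Agent.H27.Spec17
import Cfsg.Agent.H11.OmegaOrder
import Cfsg.Agent.H11.LowDim
import Cfsg.Agent.H5.IS0

/-! S3535: spectra of `B_n` and `C_n` (chunks SC, SB) and the common kit. -/

set_option autoImplicit false

namespace H27.IS

open Module Function H11 H22 H12 H12.CForm H27.Sp

section kit
variable {K : Type*} [Field K] {p q : ℕ} {D : Multiset (K × ℕ)}

/-- the order of `a` is a multiple of `M` -/
def Od (M : ℕ) (a : K) : Prop := ∀ e : ℤ, a ^ e = 1 → (M : ℤ) ∣ e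

theorem ex_pow [Fact p.Prime] (h0 : ∀ y ∈ D, y.1 ≠ 0) {r m i : ℕ} (hr : r.Prime) (hrp : r ≠ p) (hi : r ^ i ∣ m)
    (h : Kill p D (r * m)) (h' : ¬ Kill p D m) : ∃ y ∈ D, Od (r ^ (i + 1)) y.1 := by
  by_contra! H
  have pr := Nat.prime_iff_prime_int.1 hr
  have H' : ∀ y ∈ D, ∃ e : ℤ, y.1 ^ ((r : ℤ) ^ i * e) = 1 ∧ ¬ (r : ℤ) ∣ e := fun y hy => by
    obtain ⟨e, e1⟩ := not_forall.1 (H y hy)
    obtain ⟨e1, e2⟩ := Classical.not_imp.1 e1
    obtain ⟨a, b, h1, rfl⟩ := WfDvdMonoid.max_power_factor (a₀ := e) (by rintro rfl; simp at e2) pr.irreducible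
    refine ⟨b, zpow_of_dvd e1 (mul_dvd_mul_right (pow_dvd_pow _ (not_lt.1 fun l => e2 ?_)) _), h1⟩
    push_cast; exact (pow_dvd_pow _ l).mul_right _
  refine h' ⟨fun y hy z hz => ?_, fun y hy => ((Nat.coprime_primes Fact.out hr).2 hrp.symm).pow_left _
    |>.dvd_of_dvd_mul_left (h.2 y hy)⟩
  obtain ⟨e, e1, e2⟩ := H' y hy
  obtain ⟨f, f1, f2⟩ := H' z hz
  obtain ⟨u, v, huv⟩ := pr.irreducible.coprime_iff_not_dvd.2 (pr.not_dvd_mul e2 f2)
  obtain ⟨m, rfl⟩ := hi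
  have key : ∀ a : K, a ≠ 0 → a ^ ((r : ℤ) ^ i * (e * f)) = 1 → a ^ (r ^ i * m) = (a ^ (r * (r ^ i * m))) ^ u :=
    fun a ha h => by
      rw [← zpow_natCast, ← zpow_natCast, ← zpow_mul, ← one_mul ((r ^ i * m : ℕ) : ℤ), ← huv, add_mul, zpow_add₀ ha,
        zpow_of_dvd h (w := v * (e * f) * (r ^ i * m : ℕ)) ⟨v * m, by push_cast; ring⟩, mul_one]
      congr 1; push_cast; ring
  rw [key _ (h0 y hy) (zpow_of_dvd e1 ⟨f, by ring⟩), key _ (h0 z hz) (zpow_of_dvd f1 ⟨e, by ring⟩), h.1 y hy z hz]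

theorem Od.sq {M : ℕ} {a : K} (h : Od M a) (h2 : 2 < M) : a ^ 2 ≠ 1 := fun e => by
  have := Int.le_of_dvd two_pos (h 2 (by simpa [zpow_ofNat] using e)); omega

theorem Od.dvd {M N k : ℕ} {a : K} {Q : ℤ} (h : Od M a) (o : Odd M) (hD : Sy Q D) (ha : (a, k) ∈ D)
    (hk : Kill p D (2 * N)) : M ∣ N := by
  have := Int.natCast_dvd_natCast.1 (h (2 * (2 * N) : ℕ) (by rw [zpow_natCast]; exact hk.sq hD ha))
  exact o.coprime_two_right.dvd_of_dvd_mul_left (o.coprime_two_right.dvd_of_dvd_mul_left this)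

theorem kill_two_mul {N : ℕ} (h : Kill p D N) : Kill p D (2 * N) :=
  ⟨fun x hx y hy => by rw [mul_comm, pow_mul, pow_mul, h.1 x hx y hy], fun x hx => (h.2 x hx).mul_left _⟩

theorem nat_sq (q0 : 0 < q) {M m : ℕ} {ε : ℤ} (hε : ε = 1 ∨ ε = -1) (h : (M : ℤ) ∣ (q : ℤ) ^ m - ε) :
    M ∣ q ^ (2 * m) - 1 := by
  rw [← Int.natCast_dvd_natCast, Nat.cast_sub (Nat.one_le_pow _ _ q0)]
  exact dvd_eq (h.mul_right ((q : ℤ) ^ m + ε)) (by rcases hε with rfl | rfl <;> push_cast <;> ring)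

theorem nat_pm (q0 : 0 < q) {M m : ℕ} {ε : ℤ} (hε : ε = 1 ∨ ε = -1) (h : (M : ℤ) ∣ (q : ℤ) ^ m - ε) :
    M ∣ q ^ m - 1 ∨ M ∣ q ^ m + 1 := by
  rw [← Int.natCast_dvd_natCast, ← Int.natCast_dvd_natCast, Nat.cast_sub (Nat.one_le_pow _ _ q0)]
  exact hε.imp (by rintro rfl; simpa using h) (by rintro rfl; simpa using h)

theorem kill_tb {Q : ℤ} (o : Odd Q) {m N : ℕ} {a c : K} (h : a ^ N = c) (h2 : c ^ 2 = 1) :
    ∀ y ∈ tb Q m a 1, y.1 ^ N = c ∧ p ^ Nat.clog p y.2 ∣ N := fun y hy => by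
  obtain ⟨e, i, e'⟩ := mem_tb hy
  refine ⟨?_, by simp [e]⟩
  rcases sq_eq_one_iff.1 h2 with rfl | rfl <;> rcases e' with e' | e' <;>
    simp [e', zpow_comm', h, (o.pow (n := i)).neg_one_zpow]

/-- upper data -/
def Ou (K G : Type*) [Field K] [Group G] (p q h : ℕ) : Prop := ∀ x : G, ∃ D : Multiset (K × ℕ), Sy (q : ℤ) D ∧
  dimD D ≤ 2 * h + 1 ∧ ∀ N, orderOf x ∣ N ↔ Kill p D N

variable [Fact p.Prime] [CharP K p] (hQ : Sp.QP p q)
include hQ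

theorem q_pos : 0 < q := by have := hQ.two_le; omega

theorem peel_le (hD : Sy (q : ℤ) D) {y : K × ℕ} (hy : y ∈ D) {M : ℕ} (h : Od M y.1) (h2 : 2 < M) :
    ∃ m ε, 0 < m ∧ (ε = 1 ∨ ε = -1) ∧ (M : ℤ) ∣ (q : ℤ) ^ m - ε ∧ 2 * m ≤ dimD D := by
  obtain ⟨m, ε, D', h1, h3, h4, e, -⟩ := hD.peel hQ hy (h.sq h2)
  have := Nat.le_mul_of_pos_right (2 * m) (hD.pos y hy)
  exact ⟨m, ε, h1, h3, h _ h4, by rw [e, dimD_add, dimD_tb]; omega⟩

theorem cm_of {G : Type*} [Group G] [Finite G] {lo hi c a X : ℕ} (hO : Ou K G p q hi) (hc : c ∣ 4) (ha : 3 ≤ a)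
    (hG : c * Nat.card G = q ^ a * X * ∏ i ∈ Finset.range lo, (q ^ (2 * (i + 1)) - 1)) :
    H5.IS.Cm (Sp.om G) p q lo hi := by
  have hp := (Fact.out : p.Prime)
  have q0 := q_pos hQ
  have t : ∀ {r}, r.Prime → r ≠ 2 → 2 < r := fun hr h => lt_of_le_of_ne hr.two_le h.symm
  refine ⟨exists_prime_orderOf_dvd_card' p (not_not.1 fun h => ?_), fun r m hr r2 m0 hm h => ?_,
    fun r j hr r2 rp j0 ⟨x, hx⟩ => ?_, fun r s hr hs r2 s2 rp sp rs ⟨x, hx⟩ => ?_, fun r hr r2 rp ⟨x, hx⟩ => ?_⟩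
  · have h1 : p ^ 3 ∣ c * Nat.card G := hG ▸ (((pow_dvd_pow_of_dvd (Int.natCast_dvd_natCast.1 hQ.dvd) 3).trans
      (pow_dvd_pow _ ha)).mul_right _).mul_right _
    have := Nat.le_of_dvd (by omega) ((((hp.coprime_iff_not_dvd.2 h).pow_left 3).dvd_of_dvd_mul_right h1).trans hc)
    have := Nat.pow_le_pow_left hp.two_le 3
    omega
  · have := Fact.mk hr
    obtain ⟨m, rfl⟩ := Nat.exists_eq_succ_of_ne_zero m0.ne'
    have h1 : r ∣ c * Nat.card G := hG ▸ (h.trans (Finset.dvd_prod_of_mem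
      (fun i => q ^ (2 * (i + 1)) - 1) (Finset.mem_range.2 hm))).mul_left _
    refine exists_prime_orderOf_dvd_card' r ((hr.dvd_mul.1 h1).resolve_left fun e => r2 ?_)
    exact (Nat.prime_dvd_prime_iff_eq hr Nat.prime_two).1 (hr.dvd_of_dvd_pow (n := 2) (e.trans hc))
  · obtain ⟨D, hD, hd, h⟩ := hO x
    obtain ⟨j, rfl⟩ := Nat.exists_eq_succ_of_ne_zero j0.ne'
    rw [hx] at h
    obtain ⟨y, hy, h1⟩ := ex_pow hD.ne hr rp (dvd_refl (r ^ j)) ((h _).1 (by rw [pow_succ'])) (mt (h _).2 fun e => by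
      have := (Nat.pow_dvd_pow_iff_le_right hr.one_lt).1 e; omega)
    obtain ⟨m, ε, h2, h3, h4, h5⟩ := peel_le hQ hD hy h1 ((t hr r2).trans_le (Nat.le_self_pow (by omega) _))
    exact ⟨m, by omega, h2, nat_sq q0 h3 h4⟩
  · obtain ⟨D, hD, hd, h⟩ := hO x
    rw [hx] at h
    obtain ⟨y, hy, h1⟩ := Kill.exists_ord hD.ne hr rp ((h _).1 dvd_rfl) (mt (h _).2 (ne_of_mul_dvd hr hs rs))
    obtain ⟨z, hz, h3⟩ := Kill.exists_ord hD.ne hs sp (m := r) ((h _).1 (by rw [mul_comm]))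
      (mt (h _).2 (mul_comm s r ▸ ne_of_mul_dvd hs hr rs.symm))
    obtain ⟨m, ε, m0, hε, h4, ⟨h5, h6⟩ | ⟨E, h5, h6, h7⟩⟩ := hD.two hQ hy (sq_ne_of hr r2 h1) hz
    · have := Nat.le_mul_of_pos_right (2 * m) (hD.pos z hz)
      exact .inr ⟨m, by omega, m0, nat_pm q0 hε (by
        push_cast; exact (Nat.isCoprime_iff_coprime.2 ((Nat.coprime_primes hr hs).2 rs)).mul_dvd (h1 _ h4) (h3 _ h5))⟩
    · obtain ⟨l, ε', l0, a1, a2, a3⟩ := peel_le hQ h5 h6 h3 (t hs s2)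
      exact .inl ⟨m, by omega, l, by omega, m0, l0, by omega, nat_sq q0 hε (h1 _ h4), nat_sq q0 a1 a2⟩
  · obtain ⟨D, hD, hd, h⟩ := hO x
    rw [hx] at h
    obtain ⟨y, hy, h1⟩ := Kill.exists_ord hD.ne hr rp ((h _).1 dvd_rfl) (mt (h _).2 (ne_of_mul_dvd hr hp rp))
    obtain ⟨z, hz, h2⟩ := Kill.exists_big ((h _).1 dvd_rfl) (mt (h _).2 (mul_comm p r ▸ ne_of_mul_dvd hp hr rp.symm))
    obtain ⟨m, ε, m0, hε, h4, H⟩ := hD.two hQ hy (sq_ne_of hr r2 h1) hz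
    refine ⟨m, ?_, m0, nat_sq q0 hε (h1 _ h4)⟩
    rcases H with ⟨-, H⟩ | ⟨E, -, h6, H⟩
    · have := Nat.mul_le_mul_left (2 * m) h2; omega
    · have := le_dimD h6; omega

omit [CharP K p] in
theorem ord_ne {r e : ℕ} (hr : r.Prime) (he : orderOf (q : ZMod r) = e) (h : 2 ≤ e) : r ≠ 2 ∧ r ≠ p := by
  have := Fact.mk hr
  have z : (q : ZMod r) ≠ 0 := fun z => by rw [z, orderOf_zero] at he; omega
  refine ⟨fun e => ?_, fun e => z ((ZMod.natCast_eq_zero_iff _ _).2 (e ▸ Int.natCast_dvd_natCast.1 hQ.dvd))⟩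
  have := Nat.le_of_dvd (by omega) (ZMod.orderOf_dvd_card_sub_one z)
  omega

/-- `η` is the half-rank of the torus attached to `e` -/
abbrev Et (e η : ℕ) : Prop := Odd e ∧ η = e ∨ Even e ∧ 2 * η = e

theorem tb_of [IsAlgClosed K] {r j e η : ℕ} (hr : r.Prime) (he : orderOf (q : ZMod r) = e) (h : 2 ≤ e) (hη : Et e η)
    (j0 : 0 < j) (hj : r ^ j ∣ q ^ e - 1) : ∃ a : K, Sy (q : ℤ) (tb q η a 1) ∧ (∀ y ∈ tb (q : ℤ) η a 1, y.1 ^ 2 ≠ 1) ∧
      Od (r ^ j) a ∧ Odd (r ^ j) ∧ (Odd e → a ^ ((q : ℤ) ^ η - 1) = 1) := by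
  obtain ⟨r2, rp⟩ := ord_ne hQ hr he h
  have hj' : ((r ^ j : ℕ) : ℤ) ∣ (q : ℤ) ^ e - 1 := by
    rwa [← Int.natCast_dvd_natCast, Nat.cast_sub (Nat.one_le_pow _ _ (q_pos hQ)), Nat.cast_pow q] at hj
  have h1 : ((r ^ j : ℕ) : ℤ) ∣ (q : ℤ) ^ η - if Odd e then 1 else -1 := by
    rcases hη with ⟨o, rfl⟩ | ⟨o, rfl⟩
    · rwa [if_pos o]
    rw [if_neg (Nat.not_odd_iff_even.2 o)]
    have : ¬ (r : ℤ) ∣ (q : ℤ) ^ η - 1 := by
      rw [dvd_iff_ord, Int.cast_natCast, he]; exact fun e => by have := Nat.le_of_dvd (by omega) e; omega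
    push_cast at hj' ⊢
    exact (((Nat.prime_iff_prime_int.1 hr).irreducible.coprime_iff_not_dvd.2 this).pow_left).dvd_of_dvd_mul_left
      (dvd_eq hj' (by ring))
  obtain ⟨a, c1, c2, c3⟩ := exists_tb (K := K) hQ (by omega : 0 < η) (ite_sign _) h1 fun e => not_dvd_two hr r2
    ((Int.natCast_dvd_natCast.2 (dvd_pow_self r j0.ne')).trans e)
  exact ⟨a, c1, c2, fun l => (c3 l).1, (hr.odd_of_ne_two r2).pow, fun o => (c3 _).2 (by rwa [if_pos o] at h1)⟩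

/-- the torus attached to `e` has order `2` modulo `4` -/
def T4 (q e η : ℕ) : Prop := 2 * η = e ∧ q ^ η % 4 = 1 ∨ (Odd e ∧ η = e) ∧ q ^ η % 4 = 3

omit hQ in
theorem T4.et {e η : ℕ} (h : T4 q e η) : Et e η := h.symm.imp And.left fun h => ⟨⟨η, by omega⟩, h.1⟩

omit hQ in
theorem T4.no {r e η : ℕ} (h : T4 q e η) (hr : r.Prime) (r2 : r ≠ 2) (he : orderOf (q : ZMod r) = e) (h0 : 0 < e) {ε : ℤ}
    (hε : ε = 1 ∨ ε = -1) (h1 : (r : ℤ) ∣ (q : ℤ) ^ η - ε) : ∃ c, (q : ℤ) ^ η - ε = 4 * c + 2 := by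
  have k : (r : ℤ) ∣ (q : ℤ) ^ η - 1 ↔ e ∣ η := by rw [dvd_iff_ord, Int.cast_natCast, he]
  refine ⟨((q : ℤ) ^ η - ε) / 4, ?_⟩
  rw [← Nat.cast_pow] at *
  rcases h with ⟨rfl, h⟩ | ⟨⟨-, rfl⟩, h⟩ <;> rcases hε with rfl | rfl
  · have := Nat.le_of_dvd (by omega) (k.1 h1); omega
  · omega
  · omega
  · exact absurd (dvd_eq (h1.sub (k.2 dvd_rfl)) (by ring)) (not_dvd_two hr r2)

omit hQ in
theorem pow4 {q n : ℕ} (o : q % 2 = 1) : q ^ n % 4 = if n % 2 = 0 ∨ q % 4 = 1 then 1 else 3 := by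
  obtain ⟨k, rfl | rfl⟩ := Nat.even_or_odd' n <;> rcases (by omega : q % 4 = 1 ∨ q % 4 = 3) with h | h <;>
    simp [pow_succ, pow_mul, Nat.pow_mod, Nat.mul_mod, h]

omit hQ in
theorem es0 {n q e : ℕ} (hn : 2 ≤ n) (h : e ∈ H5.IS.Es 0 n q) : 2 ≤ e ∧ Et e n ∧ (q % 2 = 1 → T4 q e n) := by
  have := pow4 (q := q) (n := n)
  simp only [H5.IS.Es, T4, Et, Nat.odd_iff, Nat.even_iff] at *
  split_ifs at h this <;> simp at h <;> omega
end kit

local notation "𝕂" F => AlgebraicClosure F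

section po
variable {F K : Type*} [Field F] [Field K] [Algebra F K] {V : Type*} [AddCommGroup V] [Module F V] {p : ℕ}
  [FiniteDimensional F V] [Finite F] [Algebra.IsAlgebraic F K] [Fact p.Prime] [CharP K p] {Q : QuadraticForm F V}

/-- `PΩ(Q)` -/
abbrev PO (Q : QuadraticForm F V) := commutator (orth Q) ⧸ Subgroup.center (commutator (orth Q))

variable (hQ : QNondeg Q) (h5 : 5 ≤ finrank F V)
include hQ h5

theorem po_ord (g : commutator (orth Q)) {D : Multiset (K × ℕ)} {c : ℕ} {u : orth Q} (e : g.1 = u ^ c)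
    (h : JD (u.1 : End F V) D) (N : ℕ) : orderOf (g : PO Q) ∣ N ↔ Kill p D (c * N) := by
  rw [orderOf_dvd_iff_pow_eq_one, ← QuotientGroup.mk_pow, QuotientGroup.eq_one_iff,
    mem_center_omega_iff hQ (.inr (by omega)) (by omega), ← h.kill (h.ne_zero (isUnit_of_isom hQ u.2)), pow_mul]
  simp [e, LinearMap.ext_iff, ← coe_pow']

theorem po_out [IsAlgClosed K] (x : PO Q) : ∃ g ∈ commutator (orth Q), ∃ D : Multiset (K × ℕ), JD (g.1 : End F V) D ∧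
    Sy (Nat.card F : ℕ) D ∧ dimD D = finrank F V ∧ ∀ N, orderOf x ∣ N ↔ Kill p D N := by
  obtain ⟨g, rfl⟩ := QuotientGroup.mk_surjective x
  obtain ⟨D, h⟩ := exists_jd (K := K) (g.1.1 : End F V)
  exact ⟨g.1, g.2, D, h, (Rl.of hQ g.1.2 h).sy', h.dim.symm, fun N => by
    rw [po_ord (p := p) hQ h5 g (pow_one _).symm h, one_mul]⟩

theorem po_ou [IsAlgClosed K] {h : ℕ} (hd : finrank F V ≤ 2 * h + 1) : Ou K (PO Q) p (Nat.card F) h := fun x =>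
  let ⟨_, _, D, _, a, b, c⟩ := po_out (K := K) (p := p) hQ h5 x; ⟨D, a, b ▸ hd, c⟩

theorem po_in [Finite V] {n m : ℕ} (hn : finrank F V = 2 * n) {D : Multiset (K × ℕ)} (h : Rt F D ((ofQuad Q).HasTS n))
    (hd : dimD D = 2 * n) (hm : ∀ N, Kill p D (2 * N) → m ∣ N) : m ∈ Sp.om (PO Q) := by
  obtain ⟨k, C, u, h1, h2, h3, h4⟩ := h
  obtain rfl : k = n := by have := h3.dim; simp at this; omega
  have i : C.Iso (ofQuad Q) := by
    by_cases t : C.HasTS k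
    · exact iso_of_hasTS k h1 hQ t (h4.1 t) (by simp) hn
    obtain ⟨a, b, hab⟩ := H12.exists_aniso F
    obtain ⟨k, rfl⟩ := Nat.exists_eq_succ_of_ne_zero (show k ≠ 0 by omega)
    exact (quad_iso_qMinus h1 (by simp) t hab).trans (quad_iso_qMinus hQ hn (mt h4.2 t) hab).symm
  obtain ⟨g, hg⟩ := exists_isom_sim hQ i h2
  have : Finite (orth Q) := Finite.of_injective (fun g => (g.1 : V → V)) fun _ _ e => Subtype.ext (DFunLike.coe_injective e)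
  exact om_dvd ⟨((⟨g ^ 2, sq_mem_om hQ (.inr (by omega)) g⟩ : commutator (orth Q)) : PO Q), rfl⟩
    (hm _ ((po_ord hQ h5 _ rfl (h3.of_sim hg) _).1 dvd_rfl))
end po

theorem om_eq {G H : Type*} [Group G] [Group H] (e : G ≃* H) : Sp.om G = Sp.om H :=
  (om_mono e.toMonoidHom e.injective).antisymm (om_mono e.symm.toMonoidHom e.symm.injective)

theorem sp_ou (F : Type*) [Field F] [Finite F] (p : ℕ) [Fact p.Prime] [CharP F p] {n : ℕ} (hn : 0 < n) :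
    Ou (𝕂 F) (Cfsg.PSp n F) p (Nat.card F) n := fun x =>
  let ⟨D, ⟨a, b⟩, c⟩ := (psp_spec (p := p) F (𝕂 F) hn).1 x; ⟨D, a.sy, by omega, c⟩

theorem two_of {F : Type*} [Field F] [Finite F] {p : ℕ} [Fact p.Prime] [CharP F p] (h : Nat.card F % 2 = 0) : p = 2 := by
  obtain ⟨a, -, e⟩ := qp_nat (F := F) (p := p)
  rw [Int.natAbs_natCast] at e
  exact ((Nat.prime_dvd_prime_iff_eq Nat.prime_two Fact.out).1
    (Nat.prime_two.dvd_of_dvd_pow (e ▸ Nat.dvd_of_mod_eq_zero h))).symm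

theorem sc : H5.IS.SC := fun F _ _ p _ _ n hn => by
  rw [← Nat.card_eq_fintype_card]
  have hQ := qp_nat (F := F) (p := p)
  have hS := psp_spec (p := p) F (𝕂 F) (n := n) (by omega)
  refine ⟨cm_of hQ (sp_ou F p (by omega)) (c := Nat.gcd 2 (Nat.card F - 1)) (a := n ^ 2) (X := 1)
    ((Nat.gcd_dvd_left _ _).trans (by decide)) (by nlinarith) (by
      rw [mul_one, Nat.card_eq_fintype_card (α := F)]; exact card_psp (by omega)), fun e he => ?_⟩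
  obtain ⟨e2, hη, h4⟩ := es0 hn he
  refine ⟨fun r hr ho h => ?_, fun r j hr ho h => ?_⟩
  · obtain ⟨r2, rp⟩ := ord_ne hQ hr ho e2
    rcases Nat.mod_two_eq_zero_or_one (Nat.card F) with o | o
    · obtain rfl := two_of (p := p) o
      have := (sp_rp hS hr r2 rp (by simpa using ho.symm) hη).1 (mul_comm 2 r ▸ h)
      omega
    · obtain h | ⟨ε, hε, h⟩ := (sp_two p (Nat.odd_iff.2 o) hr r2 rp (by simpa using ho.symm) hη (by omega)).1 h
      · omega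
      obtain ⟨c, hc⟩ := (h4 o).no hr r2 ho (by omega) hε (dvd_of_mul_left_dvd h)
      have := dvd_of_mul_right_dvd h
      omega
  · rcases j.eq_zero_or_pos with rfl | j0
    · exact ⟨1, by simp⟩
    obtain ⟨a, c1, c2, c3, c4, -⟩ := tb_of (K := 𝕂 F) hQ hr ho e2 hη j0 h
    exact hS.mem ⟨c1.alt c2, by simp⟩ fun N hN => c3.dvd c4 c1 (self_mem_tb (by omega) a 1) (kill_two_mul hN)

theorem sb : H5.IS.SB := fun F _ _ p _ _ n hn hq => by
  rw [← Nat.card_eq_fintype_card] at hq ⊢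
  have hQ := qp_nat (F := F) (p := p)
  have f2 := (odd_facts (K := 𝕂 F) (p := p) hq).1
  refine ⟨?_, fun e he => ?_⟩
  · rw [show H5.IS.om _ = Sp.om _ from om_eq (pomegaEquiv _ (coe_qOdd n))]
    exact cm_of hQ (po_ou (K := 𝕂 F) (p := p) (qOdd_nondeg f2 n) (by simp; omega) (by simp; omega)) (c := 2) (a := n ^ 2) (X := 1)
      (by decide) (by nlinarith) (by
        rw [mul_one, Nat.card_eq_fintype_card (α := F), ← Nat.card_congr (pomegaEquiv (F := F) _ (coe_qOdd n)).toEquiv]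
        exact card_pomegaOdd f2 (by omega))
  obtain ⟨e2, hη, h4⟩ := es0 (by omega) he
  rw [show H5.IS.om _ = Sp.om _ from om_pomega f2 (by omega)]
  refine ⟨fun r hr ho h => ?_, fun r j hr ho h => ?_⟩
  · obtain ⟨r2, rp⟩ := ord_ne hQ hr ho e2
    obtain h | ⟨ε, hε, h⟩ := (og_two p hq hr r2 rp (by simpa using ho.symm) hη (by omega)).1 h
    · omega
    obtain ⟨c, hc⟩ := (h4 (Nat.odd_iff.1 hq)).no hr r2 ho (by omega) hε (dvd_of_mul_left_dvd h)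
    have := dvd_of_mul_right_dvd h
    omega
  · rcases j.eq_zero_or_pos with rfl | j0
    · exact ⟨1, by simp⟩
    obtain ⟨a, c1, c2, c3, c4, -⟩ := tb_of (K := 𝕂 F) hQ hr ho e2 hη j0 h
    have hD := (c1.quad c2).add (rl_quad_ones f2 1)
    exact og_in (p := p) hq hD (by simp) fun N hN =>
      c3.dvd c4 hD.sy' (Multiset.mem_add.2 (.inl (self_mem_tb (by omega) a 1))) (kill_of 1 hN)

end H27.IS
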