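import Cfsg.Agent.H27.IS1

/-! S3535: spectra of `D_n^±` (chunks DC, DN, DE, DO). -/

set_option autoImplicit false

namespace H27.IS

open Module Function H11 H22 H12 H12.CForm H27.Sp H5.IS

local notation "𝕂" F => AlgebraicClosure F

section
variable {F K : Type*} [Field F] [Field K] [Algebra F K] {p : ℕ} {D : Multiset (K × ℕ)} [Finite F]
  [Algebra.IsAlgebraic F K] [IsAlgClosed K]

theorem rl_any (h : Rl (quadType F) D) {k : ℕ} (hk : dimD D = 2 * (k + 1)) (τ : Prop) :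
    Rt F (D + ({((1 : K), 1)} + {(1, 1)})) τ := by
  by_cases t : τ; swap
  · exact eq_false t ▸ h.minus ⟨k + 1, by omega⟩ rt_ones
  rw [eq_true t]
  obtain ⟨m, C, u, a, b, c⟩ := h
  have e : finrank F (Fin m → F) = 2 * (k + 1) := by rw [c.dim, hk]
  by_cases s : C.HasTS (k + 1)
  · exact (Rt.of e a b c (iff_true_intro s)).add (rt_ones _)
  obtain ⟨x, y, hab⟩ := H12.exists_aniso F
  obtain ⟨f, hf⟩ := (quad_iso_qMinus a e s hab).symm
  have nd := qNondeg_smul (qMinus_nondeg 0 (disc_ne_zero_of_aniso hab)) (neg_ne_zero.2 (one_ne_zero' F))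
  let φ : ((Fin k → F) × (Fin 2 → F)) →ₗ[F] (Fin m → F) × ((Fin 0 ⊕ Fin 0) ⊕ Fin 2 → F) :=
    { toFun := fun z => (f (Sum.elim (Sum.elim z.1 0) z.2), Sum.elim 0 z.2)
      map_add' := fun z w => Prod.ext ((congrArg f (by ext ((i | i) | i) <;> simp)).trans (map_add f _ _))
        (by ext (i | i) <;> simp)
      map_smul' := fun z w => Prod.ext ((congrArg f (by ext ((i | i) | i) <;> simp)).trans (map_smul f _ _))
        (by ext (i | i) <;> simp) }
  have hφ : Injective φ := fun z w e => by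
    have := f.injective (congrArg Prod.fst e)
    exact Prod.ext (funext fun i => congrFun this (.inl (.inl i))) (funext fun i => congrFun this (.inr i))
  refine .of (m := k + 2) (by simp at e ⊢; omega) (osum_nondeg a nd) (osum_isom b (v := 1) ⟨fun _ _ => rfl, fun _ => rfl⟩)
    (c.prod (by simpa using jd_one (F := F) (V := (Fin 0 ⊕ Fin 0) ⊕ Fin 2 → F) (K := K)))
    (iff_true_intro ⟨LinearMap.range φ, quad_ts_iff.2 ?_, by rw [LinearMap.finrank_range_of_inj hφ]; simp⟩)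
  rintro _ ⟨z, rfl⟩
  change C.N (f _) + _ = 0
  rw [hf.2]
  simp [φ, Cfsg.quadFormMinus]

omit [IsAlgClosed K] in
theorem rt_uniq {τ σ : Prop} (h : Rt F D τ) (h' : Rt F D σ) (h1 : ∀ x ∈ D, x.1 ^ 2 ≠ 1) : τ ↔ σ := by
  obtain ⟨m, C, u, a, b, c, d⟩ := h
  obtain ⟨l, C', u', a', b', c', d'⟩ := h'
  obtain rfl : m = l := by have := c.dim.trans c'.dim.symm; simp at this; omega
  have := LinearMap.ker_eq_bot.1 (c.inj (Polynomial.X_pow_sub_C_ne_zero two_pos 1) fun x hx => by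
    simpa [sub_eq_zero] using h1 x hx)
  rw [map_sub, map_pow, Polynomial.aeval_X, Polynomial.aeval_C, map_one, pow_two] at this
  obtain ⟨e, he, -⟩ := fsim_of_sim a a' b b' (c.sim c') (.inr this) (.inr (.inr ⟨rfl, this⟩))
  exact d.symm.trans ((Iso.hasTS_iff ⟨e, he⟩).trans d')

variable {V : Type*} [AddCommGroup V] [Module F V] [FiniteDimensional F V] {Q : QuadraticForm F V} {g : orth Q} {n : ℕ}

theorem de_core [CharP F 2] [CharP K 2] (hQ : QNondeg Q) (hn : finrank F V = 2 * n) (h3 : 3 ≤ n)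
    (hg : g ∈ commutator (orth Q)) (h : JD (g.1 : End F V) D) {y z : K × ℕ} (hy : y ∈ D) (hz : z ∈ D) {M : ℕ}
    (h1 : Od M y.1) (h2 : 2 < M) (h4 : 2 ≤ z.2) (hm : ∀ m ε, 0 < m → m ≤ n → ε = 1 ∨ ε = -1 →
      (M : ℤ) ∣ ((Nat.card F : ℕ) : ℤ) ^ m - ε → n ≤ m + 1) : False := by
  have hD := (Rl.of hQ g.2 h).sy'
  have hd := h.dim
  obtain ⟨m, ε, E, m0, hε, a1, rfl, a2⟩ := hD.peel (qp_nat (p := 2)) hy (h1.sq h2)
  have k0 := hD.pos _ hy
  rw [dimD_add, dimD_tb, hn] at hd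
  have := hm m ε m0 (by nlinarith) hε (h1 _ a1)
  have k1 : y.2 = 1 := by
    by_contra c
    have := Nat.mul_le_mul_left (2 * m) (show 2 ≤ y.2 by omega); omega
  have hz : z ∈ E := (Multiset.mem_add.1 hz).resolve_left fun e => by have := (mem_tb e).1; omega
  obtain ⟨E, rfl⟩ := Multiset.exists_cons_of_mem hz
  rw [k1, ← Multiset.singleton_add, dimD_add] at hd
  obtain rfl : E = 0 := Multiset.card_eq_zero.1 (by
    have := card_le_dimD (D := E) fun x hx => a2.pos x (by simp [hx]); obtain ⟨c, k⟩ := z; simp at hd h4; omega)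
  have z1 : z.1 = 1 := not_not.1 fun e => sq_ne e (by
    have := iter_mem a2.sym hz 1
    rw [pow_two, mul_eq_one_iff_eq_inv₀ (a2.ne z hz)]
    exact (congrArg Prod.fst (Multiset.mem_singleton.1 this)).symm)
  have := dickson_eq hQ (.inr (by omega)) g
  rw [((mem_commutator_iff hQ (.inr (by omega)) g).1 hg).1, h.fix, c1_add, c1_uni (D := z ::ₘ 0) (by simpa), hn,
    Odd.neg_one_pow (((c1_tb _ _ _ _).add_odd (by simp)).add_even (by simp))] at this
  exact absurd this (by decide)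
end

theorem ord_dvd {q r k : ℕ} (q0 : 0 < q) (h : r ∣ q ^ k - 1) : orderOf (q : ZMod r) ∣ k := by
  rw [← Int.natCast_dvd_natCast, Nat.cast_sub (Nat.one_le_pow _ _ q0)] at h
  simpa using (dvd_iff_ord (r := r) q k).1 (by simpa using h)

theorem plus_card {F : Type*} [Field F] [Fintype F] {n r : ℕ} (hn : 2 ≤ n) (h : r ∈ Sp.om (PO (qPlus (n + 1) F))) :
    r ∣ Nat.card F ^ ((n + 1) * n) * (Nat.card F ^ (n + 1) - 1) *
      ∏ i ∈ Finset.range n, (Nat.card F ^ (2 * (i + 1)) - 1) := by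
  obtain ⟨x, rfl⟩ := h
  rw [Nat.card_eq_fintype_card, ← card_pomegaPlus (by omega) (by omega),
    Nat.card_congr (pomegaEquiv (F := F) _ (coe_qPlus _)).toEquiv]
  exact (orderOf_dvd_natCard x).mul_left _

theorem sd_of {A : Set ℕ → ℕ → ℕ → ℕ → ℕ → Prop} (h : ∀ (F : Type) [Field F] [Fintype F] (p : ℕ) [Fact p.Prime] [CharP F p]
    (n : ℕ) (V : Type) [AddCommGroup V] [Module F V] [FiniteDimensional F V] [Finite V] (Q : QuadraticForm F V) (t : ℕ),
    4 ≤ n → QNondeg Q → finrank F V = 2 * n → t = 1 ∧ (ofQuad Q).HasTS n ∨ t = 2 ∧ ¬ (ofQuad Q).HasTS n →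
    (t = 1 ∧ Nat.card F ^ n % 4 = 1 ∨ t = 2 ∧ Nat.card F ^ n % 4 = 3 → H11.negOne Q ∈ commutator (orth Q)) →
    A (Sp.om (PO Q)) p (Nat.card F) t n) : SD A := fun F _ _ p _ _ n hn => by
  rw [← Nat.card_eq_fintype_card]
  refine ⟨?_, fun a b hab => ?_⟩
  · rw [show H5.IS.om _ = Sp.om _ from om_eq (pomegaEquiv _ (coe_qPlus n))]
    refine h F p n _ _ 1 hn (qPlus_nondeg n) (by simp; omega) (.inl ⟨rfl, qPlus_hasTS n⟩) fun e => ?_
    have := card_center_omegaPlus (F := F) (m := n) (by omega) (by omega)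
    rw [card_center_omega (qPlus_nondeg n) (.inr (by simp; omega)) (by simp; omega) (coe_qPlus n),
      ← Nat.card_eq_fintype_card, if_pos (show Nat.card F ^ n % 4 = 1 by omega)] at this
    by_contra c
    simp [c] at this
  · obtain ⟨n, rfl⟩ := Nat.exists_eq_succ_of_ne_zero (show n ≠ 0 by omega)
    have hd := disc_ne_zero_of_aniso hab
    rw [show H5.IS.om _ = Sp.om _ from om_eq (pomegaEquiv _ (coe_qMinus n a b))]
    refine h F p _ _ _ 2 hn (qMinus_nondeg n hd) (by simp; omega) (.inr ⟨rfl, qMinus_not_hasTS n hd hab⟩) fun e => ?_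
    have := card_center_omegaMinus (F := F) (m := n) (by omega) (by omega) hab
    rw [card_center_omega (qMinus_nondeg n hd) (.inr (by simp; omega)) (by simp; omega) (coe_qMinus n a b),
      ← Nat.card_eq_fintype_card, if_pos (show Nat.card F ^ (n + 1) % 4 = 3 from (e.resolve_left (by simp)).2)] at this
    by_contra c
    simp [c] at this

theorem dc : DC := fun F _ _ p _ _ n hn => by
  obtain ⟨n, rfl⟩ := Nat.exists_eq_succ_of_ne_zero (show n ≠ 0 by omega)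
  rw [← Nat.card_eq_fintype_card]
  have hQ := qp_nat (F := F) (p := p)
  refine ⟨?_, fun a b hab => ?_⟩
  · rw [show H5.IS.om _ = Sp.om _ from om_eq (pomegaEquiv _ (coe_qPlus _))]
    exact cm_of hQ (po_ou (K := 𝕂 F) (p := p) (qPlus_nondeg _) (by simp; omega) (by simp; omega))
      (Nat.gcd_dvd_left 4 _) (a := (n + 1) * n) (by nlinarith) (by
        rw [Nat.card_eq_fintype_card (α := F), ← Nat.card_congr (pomegaEquiv (F := F) _ (coe_qPlus _)).toEquiv]
        exact card_pomegaPlus (by omega) (by omega))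
  · rw [show H5.IS.om _ = Sp.om _ from om_eq (pomegaEquiv _ (coe_qMinus n a b))]
    exact cm_of hQ (po_ou (K := 𝕂 F) (p := p) (qMinus_nondeg n (disc_ne_zero_of_aniso hab)) (by simp; omega)
      (by simp; omega)) (Nat.gcd_dvd_left 4 _) (a := (n + 1) * n) (by nlinarith) (by
        rw [Nat.card_eq_fintype_card (α := F), ← Nat.card_congr (pomegaEquiv (F := F) _ (coe_qMinus n a b)).toEquiv]
        exact card_pomegaMinus (by omega) (by omega) hab)

theorem es1 {t n q e : ℕ} (ht : t = 1 ∨ t = 2) (hn : 4 ≤ n) (h : e ∈ Es t n q) : 2 ≤ e ∧ ∃ η, Et e η ∧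
    (η + 1 = n ∨ η = n ∧ (t = 1 ∧ Odd e ∨ t = 2 ∧ e = 2 * n)) ∧
      (q % 2 = 1 → T4 q e η ∧ (η + 1 = n → t = 1 ∧ q ^ n % 4 = 1 ∨ t = 2 ∧ q ^ n % 4 = 3)) := by
  have a := pow4 (q := q) (n := n)
  have b := pow4 (q := q) (n := n - 1)
  have a' : q % 2 = 1 → (n % 2 = 0 ∨ q % 4 = 1) ∧ q ^ n % 4 = 1 ∨ (n % 2 = 1 ∧ q % 4 = 3) ∧ q ^ n % 4 = 3 := fun o => by
    have := a o; split_ifs at this <;> omega
  have b' : q % 2 = 1 → (n % 2 = 1 ∨ q % 4 = 1) ∧ q ^ (n - 1) % 4 = 1 ∨ (n % 2 = 0 ∧ q % 4 = 3) ∧ q ^ (n - 1) % 4 = 3 :=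
    fun o => by have := b o; split_ifs at this <;> omega
  clear a b
  simp only [T4, Et, Nat.odd_iff, Nat.even_iff]
  have h' : (q % 2 = 0 ∨ (n % 2 = 0 ∨ q % 4 = 1)) ∧ t = 2 ∧ e = 2 * n ∨ (q % 2 = 0 ∨ q % 4 = 3) ∧ n % 2 = 1 ∧ t = 1 ∧ e = n ∨
      (q % 2 = 0 ∨ q % 4 = 3) ∧ n % 2 = 0 ∧ t = 1 ∧ e = n - 1 ∨
      (q % 2 = 0 ∨ t = 1 ∧ q % 4 = 1 ∨ t = 2 ∧ q % 4 = 3 ∧ n % 2 = 1) ∧ e = 2 * n - 2 := by
    clear a' b'
    rcases ht with ht | ht <;> simp only [Es] at h <;> split_ifs at h <;> simp at h <;> omega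
  rcases h' with h | h | h | h
  · exact ⟨by omega, n, by omega, by omega, fun o => by have := a' o; omega⟩
  · exact ⟨by omega, n, by omega, by omega, fun o => by have := a' o; omega⟩
  · exact ⟨by omega, n - 1, by omega, by omega, fun o => by have := a' o; have := b' o; omega⟩
  · exact ⟨by omega, n - 1, by omega, by omega, fun o => by have := a' o; have := b' o; omega⟩

theorem dn : DN := sd_of fun F _ _ p _ _ n V _ _ _ _ Q t hn hQ hd ht _ e he r j hr ho h => by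
  have hq := qp_nat (F := F) (p := p)
  obtain ⟨e2, η, hη, h1, -⟩ := es1 (by omega) hn he
  rcases j.eq_zero_or_pos with rfl | j0
  · exact ⟨1, by simp⟩
  obtain ⟨a, c1, c2, c3, c4, c5⟩ := tb_of (K := 𝕂 F) hq hr ho e2 hη j0 h
  have η0 : 0 < η := by omega
  have ha := self_mem_tb (Q := (Nat.card F : ℕ)) η0 a 1
  rcases h1 with rfl | ⟨rfl, ⟨rfl, o⟩ | ⟨rfl, rfl⟩⟩
  · exact po_in (p := p) hQ (by omega) hd (rl_any (c1.quad c2) (k := η - 1) (by simp; omega) _) (by simp; omega)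
      fun N hN => c3.dvd c4 ((c1.quad c2).add (let ⟨_, _, _, a, b, c, _⟩ := rt_ones (F := F) True; .of a b c)).sy'
        (Multiset.mem_add.2 (.inl ha)) hN
  · exact po_in (p := p) hQ (by omega) hd (eq_true (ht.resolve_right (by simp)).2 ▸ rt_plus (c1.ne _ ha) (c5 o) one_pos)
      (by simp) fun N hN => c3.dvd c4 c1 ha hN
  obtain ⟨m, C, u, a1, a2, a3⟩ := c1.quad c2
  have a4 : finrank F (Fin m → F) = 2 * η := by rw [a3.dim]; simp
  refine po_in (p := p) hQ (by omega) hd (.of a4 a1 a2 a3 (iff_of_false (fun s => ?_) (ht.resolve_left (by simp)).2))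
    (by simp) fun N hN => c3.dvd c4 c1 ha hN
  obtain ⟨n, rfl⟩ := Nat.exists_eq_succ_of_ne_zero η0.ne'
  have := (dvd_pow_self r j0.ne').trans (plus_card (by omega) (po_in (p := p) (n := n + 1) (qPlus_nondeg _) (by simp; omega)
    (by simp; omega) (.of a4 a1 a2 a3 (iff_of_true s (qPlus_hasTS _))) (by simp) fun N hN => c3.dvd c4 c1 ha hN))
  have q0 := q_pos hq
  have := Fact.mk hr
  simp only [Nat.succ_eq_add_one] at *
  obtain h | h := hr.dvd_mul.1 ‹r ∣ _›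
  · obtain h | h := hr.dvd_mul.1 h
    · rw [(ZMod.natCast_eq_zero_iff _ _).2 (hr.dvd_of_dvd_pow h), orderOf_zero] at ho; omega
    · have := ord_dvd q0 h; rw [ho] at this; have := Nat.le_of_dvd (by omega) this; omega
  · obtain ⟨i, hi, h⟩ := (Prime.dvd_finset_prod_iff hr.prime _).1 h
    have := ord_dvd q0 h
    rw [ho] at this
    have := Nat.le_of_dvd (by omega) this
    have := Finset.mem_range.1 hi
    omega

theorem de : DE := sd_of fun F _ _ p _ _ n V _ _ _ _ Q t hn hQ hd ht _ o e he r hr ho ⟨x, hx⟩ => by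
  obtain rfl := two_of (p := p) o
  have hq := qp_nat (F := F) (p := 2)
  obtain ⟨e2, η, hη, h1, -⟩ := es1 (by omega) hn he
  obtain ⟨r2, -⟩ := ord_ne hq hr ho e2
  obtain ⟨g, hg, D, hJ, hD, -, h⟩ := po_out (K := 𝕂 F) (p := 2) hQ (by omega) x
  rw [hx, mul_comm] at h
  obtain ⟨y, hy, a1⟩ := Kill.exists_ord hD.ne hr r2 ((h _).1 dvd_rfl) (mt (h _).2 (ne_of_mul_dvd hr Nat.prime_two r2))
  obtain ⟨z, hz, a2⟩ := Kill.exists_big ((h _).1 dvd_rfl)
    (mt (h _).2 (mul_comm 2 r ▸ ne_of_mul_dvd Nat.prime_two hr r2.symm))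
  exact de_core hQ hd (by omega) hg hJ hy hz a1 (lt_of_le_of_ne hr.two_le r2.symm) a2 fun m ε m0 _ hε h => by
    have := Nat.le_of_dvd m0 ((eta_spec hr (by simpa using ho.symm) (by omega) hη).2.2 m ε hε h).1
    omega

theorem tb_neg {K : Type*} [Field K] {Q : ℤ} (o : Odd Q) (m : ℕ) (a : K) (k : ℕ) :
    (tb Q m a k).map (pm (-1 * ·)) = tb Q m (-a) k := by
  have := orb_map (φ := pm (K := K) (· ^ Q)) (ψ := pm (· ^ Q)) (pm (-1 * ·))
    (fun x => Prod.ext (by simp [o.neg_zpow]) rfl) m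
  rw [tb, Multiset.map_add, this, this, tb]; simp [inv_neg]

theorem do_ : DO := sd_of fun F _ _ p _ _ n V _ _ _ _ Q t hn hQ hd ht hN o e he r hr ho ⟨x, hx⟩ => by
  have hq := qp_nat (F := F) (p := p)
  have o' := Nat.odd_iff.2 o
  have oz := (Int.odd_coe_nat _).2 o'
  obtain ⟨-, k2, p2⟩ := odd_facts (K := 𝕂 F) (p := p) o'
  obtain ⟨e2, η, hη, h1, h2⟩ := es1 (by omega) hn he
  obtain ⟨h2, h3⟩ := h2 o
  obtain ⟨r2, rp⟩ := ord_ne hq hr ho e2
  have ro := hr.odd_of_ne_two r2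
  obtain ⟨g, hg, D, hJ, hD, a0, h⟩ := po_out (K := 𝕂 F) (p := p) hQ (by omega) x
  rw [hx] at h
  have hK := (h _).1 dvd_rfl
  have nK := mt (h _).2 (ne_of_mul_dvd Nat.prime_two hr r2.symm)
  obtain ⟨⟨a, k⟩, hy, a1⟩ := Kill.exists_ord hD.ne hr rp (m := 2) (by rwa [mul_comm])
    (mt (h _).2 (mul_comm r 2 ▸ ne_of_mul_dvd hr Nat.prime_two r2))
  have a2 := sq_ne_of hr r2 a1
  obtain ⟨m, ε, E, m0, hε, a3, rfl, a4⟩ := hD.peel hq hy a2
  obtain ⟨c, rfl⟩ := ((eta_spec hr (by simpa using ho.symm) (by omega) hη).2.2 m ε hε (a1 _ a3)).1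
  have k0 := hD.pos _ hy
  have a5 := hK.sq hD hy
  have az := hD.ne _ hy
  have dt : detD E = 1 := by
    have := hJ.det
    rwa [det_of_mem_commutator hg, map_one, detD_add, detD_tb az, one_mul, eq_comm] at this
  simp only [dimD_add, dimD_tb, hd] at a0 k0 a1 a2 a3 a5 az hJ
  obtain ⟨rfl, rfl⟩ : c = 1 ∧ k = 1 := by
    have : c * k ≤ 1 := not_lt.1 fun l => by
      have := Nat.mul_le_mul_left η l; rw [mul_assoc 2, mul_assoc η] at a0; omega
    exact mul_eq_one.1 (le_antisymm this (Nat.mul_pos (Nat.pos_of_mul_pos_left m0) k0))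
  simp only [mul_one] at *
  obtain ⟨c, hc⟩ := h2.no hr r2 ho (by omega) hε (a1 _ a3)
  have a6 : (a ^ r) ^ 2 = 1 := by
    have := congrArg (· ^ (r : ℤ)) a3
    rw [← zpow_natCast] at a5
    simp only [hc, ← zpow_mul, one_zpow] at this
    rwa [show (4 * c + 2) * r = ((2 * (2 * r) : ℕ) : ℤ) * c + (r * 2 : ℕ) by push_cast; ring,
      zpow_add₀ az, zpow_mul, a5, one_zpow, one_mul, zpow_natCast, pow_mul] at this
  have a7 := kill_tb (p := p) (m := η) oz rfl a6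
  have b1 : ∀ y ∈ E, (y.1 ^ r) ^ 2 = 1 ∧ y.2 = 1 := fun y hy => by
    have hy' := Multiset.mem_add.2 (.inr hy : y ∈ tb (Nat.card F : ℕ) η a 1 ∨ _)
    refine ⟨by rw [← pow_mul, mul_comm, hK.1 y hy' (a, 1) (by simp [self_mem_tb m0]), mul_comm, pow_mul, a6],
      le_antisymm (not_lt.1 fun l => ?_) (a4.pos y hy)⟩
    have hp := (Fact.out : p.Prime)
    exact (hp.dvd_mul.1 ((dvd_pow_self p (Nat.clog_pos hp.one_lt l).ne').trans (hK.2 y hy'))).elim
      (fun e => p2 ((Nat.prime_dvd_prime_iff_eq hp Nat.prime_two).1 e))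
      fun e => rp ((Nat.prime_dvd_prime_iff_eq hp hr).1 e).symm
  obtain ⟨y, hy, b2⟩ : ∃ y ∈ E, y.1 ^ r ≠ a ^ r := by
    by_contra! H
    exact nK (kill_of (a ^ r) fun y hy => (Multiset.mem_add.1 hy).elim (a7 y) fun hy => ⟨H y hy, by simp [(b1 y hy).2]⟩)
  have b3 : η + 1 = n := by have := le_dimD hy; have := (b1 y hy).2; omega
  have b4 : ∀ z ∈ E, z.1 ^ r = y.1 ^ r := fun z hz => by
    obtain ⟨E, rfl⟩ := Multiset.exists_cons_of_mem hy
    obtain rfl | hz' := Multiset.mem_cons.1 hz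
    · rfl
    obtain ⟨E, rfl⟩ := Multiset.exists_cons_of_mem hz'
    have c1 := b1 y hy
    have c2 := b1 z hz
    obtain rfl : E = 0 := Multiset.card_eq_zero.1 (by
      have := card_le_dimD (D := E) fun x hx => a4.pos x (by simp [hx]); simp only [dimD, Multiset.map_cons, Multiset.sum_cons] at a0 this; omega)
    have : y.1 * z.1 = 1 := by simpa [detD, c1.2, c2.2] using dt
    rw [← one_mul (z.1 ^ r), ← c1.1, pow_two, mul_assoc, ← mul_pow, this, one_pow, mul_one]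
  have fin : ¬ 4 ∣ ((Nat.card F : ℕ) : ℤ) ^ η - ε := by omega
  rcases sq_eq_one_iff.1 a6 with c1 | c1 <;> rcases sq_eq_one_iff.1 (b1 y hy).1 with c2 | c2
  · exact b2 (c2.trans c1.symm)
  · have hJ' := hJ.smul (c := -1) (by simp)
    rw [show (-1 : F) • (g.1 : End F V) = ((H11.negOne Q * g).1 : End F V) by ext; simp, map_neg, map_one, Multiset.map_add, tb_neg oz] at hJ'
    refine fin (spin (p := p) (N := r) o' hQ _ hJ' m0 hε ?_ (by rwa [neg_sq]) (by rw [ro.neg_pow, c1]) (fun z hz => ?_)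
      (pow_mem (mul_mem (hN (h3 b3)) hg) _))
    · rw [Even.neg_zpow ⟨2 * c + 1, by omega⟩, a3]
    · obtain ⟨z, hw, rfl⟩ := Multiset.mem_map.1 hz
      simp [ro.neg_pow, b4 z hw, c2, (b1 z hw).2]
  · exact fin (spin (p := p) (N := r) o' hQ _ hJ m0 hε a3 a2 c1 (fun z hz => by simp [b4 z hz, c2, (b1 z hz).2])
      (pow_mem hg _))
  · exact b2 (c2.trans c1.symm)

end H27.IS
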