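import Cfsg.Agent.H27.IS2
import Cfsg.Agent.S1074

/-! S3535: small cases (chunks V8, V6, V5). -/

set_option autoImplicit false
set_option maxRecDepth 100000

namespace H27.IS

open Module Function H11 H22 H12 H12.CForm H27.Sp H5.IS

local notation "𝕂" F => AlgebraicClosure F

section
variable {K : Type*} [Field K] [CharP K 2] [IsAlgClosed K] {D : Multiset (K × ℕ)}

theorem qp2 : Sp.QP 2 ((2 : ℕ) : ℤ) := ⟨1, one_pos, rfl⟩

theorem pw {a : K} {e : ℤ} {N : ℕ} (h : a ^ e = 1) (d : e ∣ N) : a ^ N = 1 := pow_of_dvd h d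

theorem clog_le {k c N : ℕ} (h : k ≤ 2 ^ c) (d : 2 ^ c ∣ N) : 2 ^ Nat.clog 2 k ∣ N :=
  (pow_dvd_pow 2 ((Nat.clog_le_iff_le_pow (by decide)).2 h)).trans d

theorem dim2 (hD : Sy ((2 : ℕ) : ℤ) D) (hd : dimD D ≤ 2) : K1 2 D 2 ∨ K1 2 D 3 := by
  by_cases h : ∀ x ∈ D, x.1 = 1
  · exact .inl fun x hx => ⟨by simp [h x hx], clog_le (c := 1) ((le_dimD hx).trans hd) dvd_rfl⟩
  push Not at h
  obtain ⟨x, hx, h⟩ := h
  obtain ⟨m, ε, E, m0, hε, a1, rfl, a2⟩ := hD.peel qp2 hx (sq_ne h)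
  have := hD.pos _ hx
  rw [dimD_add, dimD_tb] at hd
  obtain rfl : m = 1 := by nlinarith
  obtain rfl := a2.toPre.eq_zero (by omega)
  rw [add_zero, show x.2 = 1 by omega]
  exact .inr (K1_tb (pw a1 (by rcases hε with rfl | rfl <;> decide)) (by simp))

theorem k1_dvd {M N : ℕ} (h : K1 2 D M) (d : M ∣ N) : K1 2 D N := fun x hx =>
  ⟨by obtain ⟨c, rfl⟩ := d; rw [pow_mul, (h x hx).1, one_pow], (h x hx).2.trans d⟩

theorem w8 (hD : Sy ((2 : ℕ) : ℤ) D) (hd : dimD D ≤ 8) : K1 2 D 14 ∨ K1 2 D 15 ∨ K1 2 D 17 ∨ K1 2 D 18 ∨ K1 2 D 20 ∨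
    K1 2 D 21 ∨ K1 2 D 24 ∨ K1 2 D 30 := by
  by_cases h : ∀ x ∈ D, x.1 ^ 15 = 1; swap
  · push Not at h
    obtain ⟨x, hx, h⟩ := h
    obtain ⟨m, ε, E, m0, hε, a1, rfl, a2⟩ := hD.peel qp2 hx (sq_ne fun e => h (by simp [e]))
    have := hD.pos _ hx
    rw [dimD_add, dimD_tb] at hd
    have : m ≤ 4 := by nlinarith
    interval_cases m <;> rcases hε with rfl | rfl <;> try exact absurd (pw a1 (by decide)) h
    all_goals rw [show x.2 = 1 by omega]
    · exact (dim2 a2 (by omega)).elim (fun k => .inl (K1_add.2 ⟨K1_tb (pw a1 (by decide)) (by simp), k1_dvd k (by decide)⟩))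
        fun k => .inr (.inr (.inr (.inr (.inr (.inl (K1_add.2 ⟨K1_tb (pw a1 (by decide)) (by simp), k1_dvd k (by decide)⟩))))))
    · have : K1 2 E 18 := (dim2 a2 (by omega)).elim (k1_dvd · (by decide)) (k1_dvd · (by decide))
      exact .inr (.inr (.inr (.inl (K1_add.2 ⟨K1_tb (pw a1 (by decide)) (by simp), this⟩))))
    · obtain rfl := a2.toPre.eq_zero (by omega)
      simp [K1_tb (p := 2) (N := 17) (k := 1) (pw a1 (by decide)) (by simp)]
  by_cases h1 : ∀ x ∈ D, x.2 ≤ 2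
  · have : K1 2 D 30 := fun x hx => ⟨by rw [show 30 = 15 * 2 from rfl, pow_mul, h x hx, one_pow],
      clog_le (c := 1) (h1 x hx) (by decide)⟩
    simp [this]
  by_cases h2 : ∀ x ∈ D, x.1 ^ 3 = 1
  · have : K1 2 D 24 := fun x hx => ⟨by rw [show 24 = 3 * 8 from rfl, pow_mul, h2 x hx, one_pow],
      clog_le (c := 3) ((le_dimD hx).trans hd) (by decide)⟩
    simp [this]
  push Not at h1 h2
  obtain ⟨x, hx, h2⟩ := h2
  obtain ⟨z, hz, h1⟩ := h1
  obtain ⟨m, ε, E, m0, hε, a1, rfl, a2⟩ := hD.peel qp2 hx (sq_ne fun e => h2 (by simp [e]))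
  have := hD.pos _ hx
  rw [dimD_add, dimD_tb] at hd
  have m2 : 2 ≤ m := not_lt.1 fun l => h2 (by
    obtain rfl : m = 1 := by omega
    exact pw a1 (by rcases hε with rfl | rfl <;> decide))
  have hw : z ∈ E := (Multiset.mem_add.1 hz).resolve_left fun e => by have := (mem_tb e).1; nlinarith
  have := le_dimD hw
  obtain rfl : m = 2 := by nlinarith
  obtain rfl | rfl := hε
  · exact absurd (pw a1 (by decide)) h2
  have : K1 2 E 20 := fun y hy => ⟨by
    by_contra c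
    obtain ⟨l, ε, l0, -, -, ⟨-, k⟩ | ⟨Z, -, k, k'⟩⟩ := a2.two qp2 hy (sq_ne fun e => c (by simp [e])) hw
    · nlinarith
    · have := le_dimD k; omega, clog_le (c := 2) (by have := le_dimD hy; omega) (by decide)⟩
  exact .inr (.inr (.inr (.inr (.inl (K1_add.2 ⟨K1_tb (pw a1 (by decide)) (clog_le (c := 0) (by omega) (by decide)), this⟩)))))

theorem w8_of {G : Type*} [Group G] (h : ∀ x : G, ∃ D : Multiset (K × ℕ), Sy ((2 : ℕ) : ℤ) D ∧ dimD D ≤ 8 ∧
    ∀ N, orderOf x ∣ N ↔ Kill 2 D N) : W8 (Sp.om G) := by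
  rintro _ ⟨x, rfl⟩
  obtain ⟨D, a, b, c⟩ := h x
  simp only [c]
  simpa only [← kill_two a] using w8 a b
end

theorem ch2 {F : Type*} [Field F] [Fintype F] (h : Fintype.card F = 2) : CharP F 2 := by
  obtain ⟨p, _, n, hp, e⟩ := FiniteField.card' F
  obtain rfl : p = 2 := (Nat.prime_dvd_prime_iff_eq hp Nat.prime_two).1 (h ▸ e ▸ dvd_pow_self p n.ne_zero)
  assumption

section
variable {F : Type*} [Field F] [Fintype F] [CharP F 2] (hF : Nat.card F = 2)
include hF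

theorem tb2 {M m : ℕ} {ε : ℤ} (hm : 0 < m) (hε : ε = 1 ∨ ε = -1) (h : (M : ℤ) = 2 ^ m - ε) (h2 : 2 < M) :
    ∃ a : 𝕂 F, Sy (Nat.card F : ℕ) (tb (Nat.card F : ℕ) m a 1) ∧ (∀ y ∈ tb (Nat.card F : ℕ) m a 1, y.1 ^ 2 ≠ 1) ∧
      Od M a ∧ a ≠ 0 ∧ ∀ l : ℤ, a ^ l = 1 ↔ ((Nat.card F : ℕ) : ℤ) ^ m - ε ∣ l := by
  obtain ⟨a, c1, c2, c3⟩ := exists_tb (K := 𝕂 F) (qp_nat (F := F) (p := 2)) (M := M) hm hε (by rw [hF, h]; rfl)
    fun e => by have := Int.le_of_dvd two_pos e; omega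
  exact ⟨a, c1, c2, fun l => (c3 l).1, c1.ne _ (self_mem_tb hm a 1), fun l => by rw [c3, hF, h]; rfl⟩

theorem sp_w8 {n : ℕ} (h : 0 < n) (h4 : n ≤ 4) : W8 (Sp.om (Cfsg.PSp n F)) := w8_of (K := 𝕂 F) fun x =>
  let ⟨D, ⟨a, b⟩, c⟩ := (psp_spec (p := 2) F (𝕂 F) h).1 x; ⟨D, hF ▸ a.sy, by omega, c⟩

theorem sp_nine {n : ℕ} (h : 3 ≤ n) : 9 ∈ Sp.om (Cfsg.PSp n F) := by
  obtain ⟨a, c1, c2, c3, -⟩ := tb2 hF (M := 9) (m := 3) (by decide) (.inr rfl) (by decide) (by decide)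
  have hD := (c1.alt c2).add (rl_alt_ones (n - 3))
  exact (psp_spec (p := 2) F (𝕂 F) (by omega)).mem ⟨hD, by simp; omega⟩ fun N hN =>
    c3.dvd (by decide) hD.sy (Multiset.mem_add.2 (.inl (self_mem_tb (by decide) a 1))) (kill_two_mul hN)

variable {V : Type*} [AddCommGroup V] [Module F V] [FiniteDimensional F V] [Finite V] {Q : QuadraticForm F V}
  (hQ : QNondeg Q) (hd : finrank F V = 2 * 4)
include hQ hd

omit [Finite V] in
theorem po_w8 : W8 (Sp.om (PO Q)) := w8_of (K := 𝕂 F) fun x =>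
  let ⟨_, _, D, _, a, b, c⟩ := po_out (K := 𝕂 F) (p := 2) hQ (by omega) x; ⟨D, hF ▸ a, by omega, c⟩

theorem po_nine : 9 ∈ Sp.om (PO Q) := by
  obtain ⟨a, c1, c2, c3, -⟩ := tb2 hF (M := 9) (m := 3) (by decide) (.inr rfl) (by decide) (by decide)
  exact po_in (p := 2) hQ (by omega) hd (rl_any (c1.quad c2) (k := 2) (by simp) _) (by simp)
    fun N hN => c3.dvd (by decide) ((c1.quad c2).add (let ⟨_, _, _, a, b, c, _⟩ := rt_ones (F := F) True; .of a b c)).sy'
      (Multiset.mem_add.2 (.inl (self_mem_tb (by decide) a 1))) hN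
end

theorem v8 : V8 := fun F _ _ h => by
  have := ch2 h
  rw [← Nat.card_eq_fintype_card] at h
  obtain ⟨a, c1, c2, c3, c4, c5⟩ := tb2 h (M := 7) (m := 3) (by decide) (.inl rfl) (by decide) (by decide)
  obtain ⟨b, d1, d2, d3, d4, d5⟩ := tb2 h (M := 3) (m := 1) (by decide) (.inr rfl) (by decide) (by decide)
  have k : ∀ N, Kill 2 (tb (Nat.card F : ℕ) 3 a 1 + tb (Nat.card F : ℕ) 1 b 1) (2 * N) → 21 ∣ N := fun N hN =>
    (show Nat.Coprime 7 3 by decide).mul_dvd_of_dvd_of_dvd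
      (c3.dvd (by decide) (c1.add d1) (Multiset.mem_add.2 (.inl (self_mem_tb (by decide) a 1))) hN)
      (d3.dvd (by decide) (c1.add d1) (Multiset.mem_add.2 (.inr (self_mem_tb (by decide) b 1))) hN)
  refine ⟨⟨sp_w8 h (by decide) le_rfl, sp_nine h (by decide), (psp_spec (p := 2) F (𝕂 F) (by decide)).mem
    ⟨(c1.alt c2).add (d1.alt d2), by simp⟩ fun N hN => k N (kill_two_mul hN)⟩, fun x y hab => ?_⟩
  have hd := disc_ne_zero_of_aniso hab
  have nd := qMinus_nondeg 3 hd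
  rw [show H5.IS.om _ = Sp.om _ from om_eq (pomegaEquiv _ (coe_qMinus 3 x y))]
  exact ⟨po_w8 h nd (by simp), po_nine h nd (by simp), po_in (p := 2) (n := 4) nd (by simp) (by simp)
    (eq_false (qMinus_not_hasTS 3 hd hab) ▸ (rt_plus c4 ((c5 _).2 dvd_rfl) one_pos).add
      (rt_minus (p := 2) (by rw [h]; decide) one_pos d4 (by simpa using d5))) (by simp) k⟩

theorem od2 {K : Type*} [Field K] {D : Multiset (K × ℕ)} (h0 : ∀ y ∈ D, y.1 ≠ 0) [CharP K 2] {M r i : ℕ} (hr : r.Prime)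
    (r2 : r ≠ 2) (e : M = r ^ (i + 1)) (h : ∀ N, M * 2 ∣ N ↔ Kill 2 D N) : (∃ y ∈ D, Od M y.1) ∧ ∃ z ∈ D, 2 ≤ z.2 := by
  subst e
  have := hr.pos
  refine ⟨ex_pow h0 hr r2 (m := r ^ i * 2) (dvd_mul_right _ _) ((h _).1 (by rw [pow_succ', mul_assoc])) (mt (h _).2 fun e => ?_),
    Kill.exists_big ((h _).1 dvd_rfl) (mt (h _).2 fun e => ?_)⟩
  · have := (Nat.pow_dvd_pow_iff_le_right hr.one_lt).1 (Nat.dvd_of_mul_dvd_mul_right two_pos e); omega
  · have := Nat.le_of_dvd (by positivity) e; have := pow_pos hr.pos (i + 1); omega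

theorem v6 : V6 := fun F _ _ h => by
  have := ch2 h
  have s := (sc F 2 3 (by decide)).1
  have e := (de F 2 4 le_rfl).1 (by simp [h]) 3 (by simp [h, Es]) 7 (by decide) (by
    rw [h]; exact (orderOf_eq_iff (by decide)).2 (by decide))
  rw [h] at s
  rw [← Nat.card_eq_fintype_card] at h
  have hq := qp_nat (F := F) (p := 2)
  have nd := qPlus_nondeg (F := F) 4
  rw [show H5.IS.om _ = Sp.om _ from om_eq (pomegaEquiv (F := F) _ (coe_qPlus 4))] at e ⊢
  refine ⟨⟨sp_w8 h (by decide) (by decide), fun k => ?_, fun k => ?_, fun ⟨x, hx⟩ => ?_, fun k => ?_, sp_nine h le_rfl⟩,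
    po_w8 h nd (by simp), e, fun k => ?_, fun ⟨x, hx⟩ => ?_, fun ⟨x, hx⟩ => ?_, po_nine h nd (by simp)⟩
  · exact absurd (s.rp 7 (by decide) (by decide) (by decide) k) (by decide)
  · exact absurd (s.pw 17 1 (by decide) (by decide) (by decide) one_pos k) (by decide)
  · obtain ⟨D, ⟨a, b⟩, c⟩ := (psp_spec (p := 2) F (𝕂 F) (n := 3) (by decide)).1 x
    obtain ⟨⟨y, hy, h1⟩, z, hz, h2⟩ := od2 (M := 9) (i := 1) a.pre.ne Nat.prime_three (by decide) rfl (hx ▸ c :)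
    obtain ⟨m, ε, m0, hε, h3, H⟩ := a.sy.two hq hy (h1.sq (by decide)) hz
    have h4 := h1 _ h3
    have : m ≤ 2 := by
      rcases H with ⟨-, H⟩ | ⟨E, -, k, H⟩
      · nlinarith
      · have := le_dimD k; omega
    rw [h] at h4
    interval_cases m <;> rcases hε with rfl | rfl <;> exact absurd h4 (by decide)
  · exact absurd (s.rs 3 7 (by decide) (by decide) (by decide) (by decide) (by decide) (by decide) (by decide) k)
      (by decide)
  · have := plus_card (n := 3) (by decide) k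
    rw [h] at this
    exact absurd this (by decide)
  · obtain ⟨g, hg, D, hJ, a, -, c⟩ := po_out (K := 𝕂 F) (p := 2) nd (by simp) x
    obtain ⟨⟨y, hy, h1⟩, z, hz, h2⟩ := od2 (M := 9) (i := 1) a.ne Nat.prime_three (by decide) rfl (hx ▸ c :)
    exact de_core (n := 4) nd (by simp) (by decide) hg hJ hy hz h1 (by decide) h2 fun m ε m0 m4 hε k => by
      rw [h] at k
      interval_cases m <;> rcases hε with rfl | rfl <;> first | exact absurd k (by decide) | decide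
  · obtain ⟨g, hg, D, hJ, a, b, c⟩ := po_out (K := 𝕂 F) (p := 2) nd (by simp) x
    rw [hx] at c
    obtain ⟨y, hy, h1⟩ := Kill.exists_ord a.ne (r := 7) (m := 3) (by decide) (by decide) ((c _).1 dvd_rfl)
      (mt (c _).2 (by decide))
    obtain ⟨z, hz, h2⟩ := Kill.exists_ord a.ne (r := 3) (m := 7) (by decide) (by decide) ((c _).1 dvd_rfl)
      (mt (c _).2 (by decide))
    have y2 := sq_ne_of (by decide) (by decide) h1
    have z2 := sq_ne_of Nat.prime_three (by decide) h2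
    obtain ⟨m, ε, E, m0, hε, a1, rfl, a2⟩ := a.peel hq hy y2
    have y0 := a.pos _ hy
    simp only [dimD_add, dimD_tb, finrank_fintype_fun_eq_card, Fintype.card_sum, Fintype.card_fin] at b
    obtain ⟨rfl, rfl⟩ : m = 3 ∧ ε = 1 := by
      have := h1 _ a1
      have : m ≤ 4 := by nlinarith
      rw [h] at *
      interval_cases m <;> rcases hε with rfl | rfl <;> first | exact absurd ‹_ ∣ _› (by decide) | decide
    have hz : z ∈ E := (Multiset.mem_add.1 hz).resolve_left fun e => by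
      have := h2 _ (tb_pow e a1); rw [h] at this; exact absurd this (by decide)
    obtain ⟨l, ε, Z, l0, hε, b1, rfl, b2⟩ := a2.peel hq hz z2
    have z0 := a2.pos _ hz
    rw [dimD_add, dimD_tb] at b
    obtain rfl : l = 1 := by nlinarith
    obtain rfl := b2.toPre.eq_zero (by omega)
    obtain rfl : ε = -1 := hε.resolve_left (by rintro rfl; have := h2 _ b1; rw [h] at this; exact absurd this (by decide))
    rw [add_zero, show z.2 = 1 by omega] at hJ
    exact (rt_uniq (.of (m := 4) (by simp) nd g.2 hJ (iff_true_intro (qPlus_hasTS 4)))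
      ((rt_plus (a.ne _ hy) a1 y0).add (rt_minus (p := 2) (by rw [h]; decide) one_pos (a2.ne _ hz) fun l =>
        ⟨fun e => by rw [h]; exact h2 _ e, zpow_of_dvd (by simpa using b1)⟩))
      fun w hw => (Multiset.mem_add.1 hw).elim (tb_sq hq y2 w) (tb_sq hq z2 w)).1 trivial

theorem tits8 : 8 ∈ Sp.om Cfsg.Lie.TitsGroup := by
  have := Nat.finite_of_card_ne_zero (Cfsg.Agent.S1074.result.2.2.2.trans_ne (by decide))
  have k := fun n => H15.Tits.act.itW (W := [0, 3, 4, 5]) (by decide) n (i := 0) (by decide)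
  refine om_dvd ⟨H16.LTits.equiv ⟨_, H16.evA_mem_gen _ (W := [0, 3, 4, 5]) (by decide)⟩, rfl⟩ ?_
  rw [MulEquiv.orderOf_eq, Subgroup.orderOf_mk]
  refine dvd_trans ?_ (MulAction.period_dvd_orderOf _ (H16.ptF 1755 0))
  have h := fun n => MulAction.pow_smul_eq_iff_period_dvd (n := n) (m := H16.evA H15.Tits.g [0, 3, 4, 5])
    (a := H16.ptF 1755 0)
  have h1 := (h 8).1 ((k 8).2.trans (congrArg _ (by decide +kernel)))
  have h2 := mt (h 4).2 fun e => absurd (H16.ptF_inj 1755 _ (k 4).1 _ (by decide) ((k 4).2.symm.trans e)) (by decide +kernel)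
  generalize MulAction.period (H16.evA H15.Tits.g [0, 3, 4, 5]) (H16.ptF 1755 0) = n at *
  have := Nat.le_of_dvd (by decide) h1
  interval_cases n <;> simp_all

theorem v5 : V5 := by
  refine ⟨fun F _ _ h ⟨x, hx⟩ => ?_, tits8, Cfsg.Agent.S1074.result.2.2.2⟩
  obtain ⟨p, _, n, hp, e⟩ := FiniteField.card' F
  obtain rfl : p = 5 := (Nat.prime_dvd_prime_iff_eq hp (by decide)).1 (h ▸ e ▸ dvd_pow_self p n.ne_zero)
  have := Fact.mk hp
  rw [← Nat.card_eq_fintype_card] at h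
  obtain ⟨D, ⟨a, b⟩, c⟩ := (psp_spec (p := 5) F (𝕂 F) (n := 2) (by decide)).1 x
  rw [hx] at c
  obtain ⟨y, hy, h1⟩ := ex_pow a.pre.ne (m := 4) (i := 2) Nat.prime_two (by decide) dvd_rfl ((c _).1 dvd_rfl)
    (mt (c _).2 (by decide))
  obtain ⟨m, ε, E, m0, hε, a1, rfl, a2⟩ := a.sy.peel (qp_nat (p := 5)) hy (h1.sq (by decide))
  have y0 := a.pre.pos _ hy
  have y1 := a.pre.ne _ hy
  have h2 := ((c _).1 dvd_rfl).sq a.sy hy
  rw [dimD_add, dimD_tb] at b
  rw [h] at *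
  obtain ⟨rfl, rfl⟩ : m = 2 ∧ ε = 1 := by
    have := h1 _ a1
    have : m ≤ 2 := by nlinarith
    interval_cases m <;> rcases hε with rfl | rfl <;> first | exact absurd ‹_ ∣ _› (by decide) | decide
  obtain rfl := a2.toPre.eq_zero (by omega)
  rw [add_zero, show y.2 = 1 by omega] at c
  refine absurd ((c 4).2 (kill_of _ (kill_tb (by decide) rfl ?_))) (by decide)
  have : y.1 ^ 24 = 1 := pow_of_dvd a1 (by decide)
  rwa [show 24 = 2 * 8 + 4 * 2 from rfl, pow_add, h2, one_mul, pow_mul] at this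

end H27.IS
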