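import Cfsg.Agent.H11.SpSimple

/-! Irreducible subgroups of `Sp_{2n}(2^a)` containing a large group of 2-transvections: calculus. -/

set_option autoImplicit false
set_option linter.unusedSectionVars false

namespace H27.Tx

open Module H11 H12

variable {F : Type*} [Field F] [CharP F 2] {V : Type*} [AddCommGroup V] [Module F V]
  {C : CForm (altType F) V}

theorem sy (x y : V) : C.B y x = C.B x y := by rw [alt_B_swap, CharTwo.neg_eq]
theorem sl (c : F) (x y : V) : C.B (c • x) y = c * C.B x y := C.B_smul_left c x y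
theorem sr (c : F) (x y : V) : C.B x (c • y) = c * C.B x y := C.B_smul_right c x y
theorem al (x y z : V) : C.B (x + y) z = C.B x z + C.B y z := C.B_add_left x y z
theorem ar (x y z : V) : C.B x (y + z) = C.B x y + C.B x z := map_add _ y z
theorem se (x : V) : C.B x x = 0 := alt_B_self x
theorem iso (g : C.isom) (x y : V) : C.B (g.1 x) (g.1 y) = C.B x y := g.2.1 x y

variable (F) in
include F in
theorem vv (x : V) : x + x = 0 := by rw [← two_smul F x, CharTwo.two_eq_zero, zero_smul]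

/-- vector identities in characteristic two -/
scoped macro "mod2" : tactic => `(tactic| (match_scalars <;> grind))

variable (C) in
/-- the 2-transvection -/
def tf (s x : V) (c : F) (v : V) : V := v + C.B s v • x + (C.B x v + c * C.B s v) • s

/-- the 2-transvection `tf s x c` lies in `L` -/
def P (L : Subgroup C.isom) (s x : V) (c : F) : Prop := C.B s x = 0 ∧ ∃ g ∈ L, ∀ v, g.1 v = tf C s x c v

variable {L : Subgroup C.isom} {s x y : V} {c d : F}

theorem P.cast {x' : V} {c' : F} (h : P L s x c) (e : x' = x) (e' : c' = c) : P L s x' c' := e ▸ e' ▸ h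

theorem P.add (h : P L s x c) (h' : P L s y d) : P L s (x + y) (c + d + C.B x y) := by
  obtain ⟨h1, g, hg, e⟩ := h
  obtain ⟨h2, g', hg', e'⟩ := h'
  refine ⟨by rw [ar, h1, h2, add_zero], g * g', mul_mem hg hg', fun v => ?_⟩
  simp only [isom_mul_apply, e, e', tf, ar, sr, al, se, h2, sy s x, h1]
  mod2

theorem P.conj (h : P L s x c) {g : C.isom} (hg : g ∈ L) : P L (g.1 s) (g.1 x) c := by
  obtain ⟨h1, k, hk, e⟩ := h
  refine ⟨by rw [iso, h1], g * k * g⁻¹, mul_mem (mul_mem hg hk) (inv_mem hg), fun v => ?_⟩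
  simp only [isom_mul_apply, e, tf, map_add, map_smul, isom_inv_apply, isom_B_inv]

theorem P.shift (h : P L s x c) (l : F) : P L s (x + l • s) c := by
  obtain ⟨h1, k, hk, e⟩ := h
  refine ⟨by rw [ar, sr, h1, se]; simp, k, hk, fun v => ?_⟩
  simp only [e, tf, al, sl]
  mod2

theorem P.zero : P L s 0 0 := ⟨by simp, 1, one_mem _, fun v => by simp [tf, isom_one_apply]⟩

theorem P.smul {l : F} (h : P L s (l • x) (l * l * c)) (hl : l ≠ 0) : P L (l • s) x c := by
  obtain ⟨h1, k, hk, e⟩ := h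
  refine ⟨by rw [sl, ← sr, h1], k, hk, fun v => ?_⟩
  simp only [e, tf, sl]
  mod2

theorem P.swap {l : F} (h : P L x (l • s) 0) : P L s (l • x) 0 := by
  obtain ⟨h1, k, hk, e⟩ := h
  refine ⟨by rw [sr, sy, ← sr, h1], k, hk, fun v => ?_⟩
  simp only [e, tf, sl]
  mod2

theorem P.act (h : P L s x c) {g : C.isom} (hg : g ∈ L) (e : g.1 s = s) : P L s (g.1 x) c := by
  have := h.conj hg; rwa [e] at this

theorem P.sub (h : P L s x c) (h' : P L s x d) : P L s 0 (c + d) :=
  (h.add h').cast (vv F x).symm (by rw [se, add_zero])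

/-- the basic consequence of a non-zero value on a perpendicular vector -/
theorem P.gam [FiniteDimensional F V] (hC : C.Nondeg) (hx : x ∉ Submodule.span F {s}) (hs : C.B s x = 0)
    (ex : ∀ z, C.B s z = 0 → ∃ d, P L s z d) {l : F} (h : P L x (l • s) c) (hc : c ≠ 0) (n : F) :
    P L s (n • x) (n * n / c) := by
  obtain ⟨z, hz, e⟩ := hC.exists_perp_eq hx (n / c)
  rw [C.mem_perp_singleton] at hz
  obtain ⟨d, hd⟩ := ex z hz
  obtain ⟨h1, k, hk, ek⟩ := h
  have := hd.act hk (by simp [ek, tf, sl, se, sy s x, hs])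
  refine ((hd.add this).shift ((n / c) * l)).cast ?_ ?_
  · simp only [ek, tf, sl, e, hz]; mod2
  · simp only [ek, tf, sl, ar, sr, se, sy s z, sy x z, e, hz]; grind

variable (L) in
/-- the configuration -/
structure Cf (S : Set V) : Prop where
  ex : ∀ s ∈ S, ∀ x, C.B s x = 0 → ∃ c, P L s x c
  smul : ∀ s ∈ S, ∀ l : F, l ≠ 0 → l • s ∈ S
  act : ∀ g ∈ L, ∀ s ∈ S, g.1 s ∈ S
  span : Submodule.span F S = ⊤
  nd : C.Nondeg
  ne : ∀ s ∈ S, s ≠ 0

variable {S : Set V} {a b : V}

theorem Cf.tf (K : Cf L S) (h : P L s x c) {v : V} (hv : v ∈ S) : tf C s x c v ∈ S :=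
  let ⟨_, g, hg, e⟩ := h; e v ▸ K.act g hg v hv

theorem Cf.exB (K : Cf L S) {v : V} (hv : v ≠ 0) (m : F) (hm : m ≠ 0) : ∃ s ∈ S, C.B v s = m := by
  have : ∃ s ∈ S, C.B v s ≠ 0 := by
    by_contra! H
    refine hv (K.nd v fun y => ?_)
    have : y ∈ LinearMap.ker (C.B v) := (Submodule.span_le.2 fun s hs => H s hs) (K.span.ge Submodule.mem_top)
    exact this
  obtain ⟨s, hs, h⟩ := this
  exact ⟨_, K.smul s hs (m / C.B v s) (div_ne_zero hm h), by rw [sr, div_mul_cancel₀ _ h]⟩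

theorem exW [FiniteDimensional F V] (hC : C.Nondeg) (h4 : 3 ≤ finrank F V) (hab : C.B a b = 1) :
    ∃ x y, C.B a x = 0 ∧ C.B b x = 0 ∧ C.B a y = 0 ∧ C.B b y = 0 ∧ C.B x y = 1 := by
  obtain ⟨v, hv⟩ : ∃ v, v ∉ Submodule.span F {a, b} := by
    classical
    by_contra! H
    have := finrank_span_finset_le_card (R := F) ({a, b} : Finset V)
    rw [Set.finrank, Finset.coe_pair, Submodule.eq_top_iff'.2 H, finrank_top] at this
    have := Finset.card_le_two (a := a) (b := b)
    omega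
  have hx : v + C.B b v • a + C.B a v • b ≠ 0 := fun h => hv (Submodule.mem_span_pair.2 ⟨C.B b v, C.B a v, by
    rw [← add_zero (_ + _), ← h]; mod2⟩)
  obtain ⟨z, hz⟩ := hC.exists_eq hx 1
  refine ⟨v + C.B b v • a + C.B a v • b, z + C.B b z • a + C.B a z • b, ?_, ?_, ?_, ?_, ?_⟩ <;>
    simp only [ar, sr, al, sl, se, sy a b, hab, sy a v, sy b v] at hz ⊢ <;> grind

variable [Finite F] [FiniteDimensional F V]

theorem sq (m : F) : ∃ n, n * n = m := let ⟨r, h⟩ := isSquare_of_charTwo' m; ⟨r, h.symm⟩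

/-- either all transvections with centre `s` occur or only one non-zero value -/
theorem Cf.dich (K : Cf L S) (hs : s ∈ S) (hx : x ∉ Submodule.span F {s}) (h0 : C.B s x = 0) {l l' : F}
    (h : P L x (l • s) c) (h' : P L x (l' • s) d) (hc : c ≠ 0) (hd : d ≠ 0) (hcd : c ≠ d) (m : F) : P L s 0 m := by
  obtain ⟨n, hn⟩ := sq (m * c * d / (c + d))
  have : c + d ≠ 0 := by grind
  exact ((h.gam K.nd hx h0 (K.ex s hs) hc n).sub (h'.gam K.nd hx h0 (K.ex s hs) hd n)).cast rfl (by grind)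

theorem Cf.full (K : Cf L S) (h4 : 3 ≤ finrank F V) (T : ∀ s ∈ S, ∃ c ≠ 0, P L s 0 c) (ha : a ∈ S) (m : F) :
    P L a 0 m := by
  obtain ⟨b, hb, hab⟩ := K.exB (K.ne a ha) 1 one_ne_zero
  obtain ⟨w, z, h1, h2, h3, h5, h6⟩ := exW K.nd h4 hab
  obtain ⟨l, hl, hp⟩ : ∃ l : F, l ≠ 0 ∧ P L b (l • w) 0 := by
    choose f hf using fun l : F => K.ex b hb (l • w) (by rw [sr, h2, mul_zero])
    obtain ⟨c, hc, hT⟩ := T b hb
    by_contra! H
    have inj : Function.Injective f := fun l l' e => by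
      by_contra ne
      exact H (l + l') (by grind) (((hf l).add (hf l')).cast (add_smul _ _ _) (by simp only [sl, sr, se]; grind))
    obtain ⟨l, e⟩ := Finite.injective_iff_surjective.1 inj (f 0 + c)
    exact H l (by grind) ((((hf l).add (hf 0)).add hT).cast (by simp) (by simp only [sl, sr, se, map_zero]; grind))
  have hx : a + l • w ∈ S := by simpa [Tx.tf, sy a b, hab, sl, sy a w, h1] using K.tf hp ha
  have hn : a + l • w ∉ Submodule.span F {a} := fun h => by
    obtain ⟨k, hk⟩ := Submodule.mem_span_singleton.1 h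
    have := congrArg (C.B · z) hk
    simp only [al, sl, h3, h6] at this
    grind
  have h0 : C.B a (a + l • w) = 0 := by simp [ar, sr, se, h1]
  obtain ⟨c, hc, hT⟩ := T _ hx
  have hT' : P L (a + l • w) ((0 : F) • a) c := hT.cast (by simp) rfl
  obtain ⟨n, hn'⟩ := sq (m * c)
  obtain ⟨d, hd⟩ := K.ex _ hx (n • a) (by rw [sr, sy, h0, mul_zero])
  have key : P L (a + l • w) (n • a) 0 → P L a 0 m := fun h =>
    (h.swap.sub (hT'.gam K.nd hn h0 (K.ex a ha) hc n)).cast rfl (by grind)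
  by_cases d0 : d = 0
  · exact key (d0 ▸ hd)
  by_cases dc : c = d
  · exact key ((hd.add hT).cast (by simp) (by simp only [map_zero]; grind))
  exact K.dich ha hn h0 hT' hd hc d0 dc m

theorem Cf.top (K : Cf L S) (h4 : 3 ≤ finrank F V) (T : ∀ s ∈ S, ∃ c ≠ 0, P L s 0 c) : L = ⊤ := by
  refine stv_induction K.nd L fun u c => ?_
  by_cases u0 : u = 0
  · rw [u0, stv_zero_left]; exact one_mem _
  obtain ⟨s, hs, h⟩ := K.exB u0 1 one_ne_zero
  obtain ⟨b, hb, hsb⟩ := K.exB (K.ne s hs) 1 one_ne_zero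
  obtain ⟨d, hd⟩ := K.ex s hs (u + b) (by rw [ar, sy u s, h, hsb]; grind)
  have := K.tf (hd.add (K.full h4 T hs (d + C.B u b))) hb
  have hu : u ∈ S := by
    convert this using 1
    simp only [Tx.tf, hsb, al, se, map_zero, add_zero]
    mod2
  obtain ⟨-, g, hg, e⟩ := K.full h4 T hu c
  rwa [show stv C u c = g from isom_ext fun v => by simp [e, stv_apply, Tx.tf]]

/-- the vanishing condition -/
def St (L : Subgroup C.isom) (S : Set V) : Prop := ∀ s ∈ S, ∀ x ∈ S, C.B s x = 0 → ∀ l : F, P L s (l • x) 0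

theorem Cf.uniq (T : ∀ s ∈ S, ∀ c, P L s 0 c → c = 0) (hs : s ∈ S) (h : P L s x c) (h' : P L s x d) : c = d := by
  have := T s hs _ (h.sub h'); grind

theorem st_prop (h : x ∈ Submodule.span F {s}) (l : F) : P L s (l • x) 0 := by
  obtain ⟨k, rfl⟩ := Submodule.mem_span_singleton.1 h
  exact (P.zero.shift (l * k)).cast (by simp [smul_smul]) rfl

theorem Cf.st_card (K : Cf L S) (T : ∀ s ∈ S, ∀ c, P L s 0 c → c = 0) (hq : ∃ m : F, m ≠ 0 ∧ m ≠ 1) : St L S := by
  intro s hs x hx h0 l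
  by_cases hn : x ∈ Submodule.span F {s}
  · exact st_prop hn l
  have hn' : s ∉ Submodule.span F {x} := fun h => hn (by
    obtain ⟨k, hk⟩ := Submodule.mem_span_singleton.1 h
    have : k ≠ 0 := fun e => K.ne s hs (by simp [← hk, e])
    exact Submodule.mem_span_singleton.2 ⟨k⁻¹, by simp [← hk, this]⟩)
  obtain ⟨c, hc⟩ := K.ex s hs (l • x) (by rw [sr, h0, mul_zero])
  by_cases c0 : c = 0
  · exact c0 ▸ hc
  obtain ⟨m, m0, m1⟩ := hq
  have g := hc.gam K.nd hn' (by rw [sy, h0]) (K.ex x hx) c0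
  exact absurd (T s hs 1 (K.dich hs hn h0 (g 1) (g m) (by grind) (by grind) (by grind) 1)) one_ne_zero

theorem Cf.st_dim (K : Cf L S) (T : ∀ s ∈ S, ∀ c, P L s 0 c → c = 0) (h5 : 5 ≤ finrank F V) : St L S := by
  classical
  intro s hs x hx h0 l
  let W := Submodule.span F {s, x}
  obtain ⟨z, hz, hz'⟩ : ∃ z ∈ C.perp W, z ∉ W := by
    by_contra! H
    have h1 := Submodule.finrank_mono (show C.perp W ≤ W from H)
    have h2 := K.nd.finrank_add_finrank_perp W
    have := finrank_span_finset_le_card (R := F) ({s, x} : Finset V)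
    rw [Set.finrank, Finset.coe_pair] at this
    have := Finset.card_le_two (a := s) (b := x)
    simp only [W] at h1 h2
    omega
  obtain ⟨v, hv, e⟩ := K.nd.exists_perp_eq hz' l
  rw [C.mem_perp_pair] at hz hv
  obtain ⟨c, -, g, hg, eg⟩ := K.ex x hx z hz.2
  obtain ⟨d, hd⟩ := K.ex s hs v hv.1
  have := hd.act hg (by simp [eg, Tx.tf, sy s x, h0, sy s z, hz.1])
  refine (hd.add this).cast ?_ ?_
  · simp only [eg, Tx.tf, hv.2, e]; mod2
  · simp only [eg, Tx.tf, hv.2, e, ar, sr, se, sy x v]; grind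

end H27.Tx
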