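import Cfsg.Agent.H27.Tx1

/-! The invariant quadratic form. -/

set_option autoImplicit false
set_option linter.unusedSectionVars false

namespace H27.Tx

open Module H11 H12

variable {F : Type*} [Field F] [CharP F 2] {V : Type*} [AddCommGroup V] [Module F V]
  {C : CForm (altType F) V} {L : Subgroup C.isom} {s x y a b : V} {c d : F} {S : Set V}
  [Finite F] [FiniteDimensional F V]

variable (L S) in
/-- the orthogonal case -/
structure Cq : Prop extends Cf L S where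
  T : ∀ s ∈ S, ∀ c, P L s 0 c → c = 0
  st : St L S
  dim : 3 ≤ finrank F V

theorem Cq.u (K : Cq L S) (hs : s ∈ S) (h : P L s x c) (h' : P L s x d) : c = d := Cf.uniq K.T hs h h'

theorem Cq.z (K : Cq L S) (ha : a ∈ S) (hab : C.B a b = 1) (h1 : C.B a y = 0) (h : P L b y 0) (l : F) :
    P L a (l • y) 0 := by
  have hx : a + y ∈ S := by simpa [Tx.tf, sy a b, hab, sy a y, h1] using K.tf h ha
  exact ((K.st a ha _ hx (by simp [ar, se, h1]) l).shift l).cast (by mod2) rfl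

theorem Cq.z1 (K : Cq L S) (ha : a ∈ S) (hab : C.B a b = 1) (h1 : C.B a y = 0) (h : P L b y 0) : P L a y 0 :=
  (K.z ha hab h1 h 1).cast (by simp) rfl

theorem Cq.z2 (K : Cq L S) (ha : a ∈ S) (hb : b ∈ S) (hab : C.B a b = 1) (h1 : C.B b y = 0) (h : P L a y 0) (l : F) :
    P L a (l • y) 0 := K.z ha hab h.1 (K.z1 hb (by rwa [sy]) h1 h) l

theorem Cq.surj (K : Cq L S) (ha : a ∈ S) (hb : b ∈ S) (hab : C.B a b = 1) (h0 : C.B a y = 0) (h1 : C.B b y = 0)
    (h : ¬ P L a y 0) (m : F) : ∃ l : F, P L a (l • y) m := by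
  choose f hf using fun l : F => K.ex a ha (l • y) (by rw [sr, h0, mul_zero])
  have inj : Function.Injective f := fun l l' e => by
    by_contra ne
    have n : l + l' ≠ 0 := by grind
    exact h ((K.z2 ha hb hab (by rw [sr, h1, mul_zero]) (((hf l).add (hf l')).cast (add_smul l l' y)
      (by simp only [sl, sr, se]; grind)) (l + l')⁻¹).cast (by simp [n]) rfl)
  obtain ⟨l, e⟩ := Finite.injective_iff_surjective.1 inj m
  exact ⟨l, e ▸ hf l⟩

theorem Cq.surj' (K : Cq L S) (ha : a ∈ S) (hb : b ∈ S) (hab : C.B a b = 1) (m : F) :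
    ∃ y, C.B b y = 0 ∧ P L a y m := by
  obtain ⟨w, z, h1, h2, h3, h5, h6⟩ := exW K.nd K.dim hab
  have : ∃ y, C.B a y = 0 ∧ C.B b y = 0 ∧ ¬ P L a y 0 := by
    by_contra! H
    have := K.u ha ((H w h1 h2).add (H z h3 h5)) (H (w + z) (by simp [h1, h3]) (by simp [h2, h5]))
    grind
  obtain ⟨y, h1, h2, h3⟩ := this
  obtain ⟨l, h⟩ := K.surj ha hb hab h1 h2 h3 m
  exact ⟨_, by rw [sr, h2, mul_zero], h⟩

theorem Cq.k (K : Cq L S) (ha : a ∈ S) (hb : b ∈ S) (hab : C.B a b = 1) (h : c • a + b ∈ S) : c = 0 := by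
  by_contra c0
  have e : C.B (c • a + b) a = 1 := by simp [al, sl, se, sy a b, hab]
  obtain ⟨y, h1, h2⟩ := K.surj' h ha e c⁻¹
  have h3 : C.B b y = 0 := by simpa [al, sl, h1] using h2.1
  have h4 : y + c⁻¹ • b ∈ S := by
    convert K.tf h2 ha using 1
    simp only [Tx.tf, e, sy a y, h1]; mod2
  have h5 := ((K.st b hb _ h4 (by simp [ar, sr, se, h3]) 1).shift c⁻¹).cast (x' := y) (by mod2) rfl
  exact inv_ne_zero c0 (K.u h h2 (K.z1 h e h2.1 (K.z1 ha hab h1 h5)))

theorem Cq.h (K : Cq L S) (ha : a ∈ S) (hb : b ∈ S) (hab : C.B a b = 1) (h1 : C.B a y = 0) (h : P L b y c)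
    (hc : c ≠ 0) : P L a (c⁻¹ • y) c⁻¹ := by
  obtain ⟨d, hd⟩ := K.ex a ha (c⁻¹ • y) (by rw [sr, h1, mul_zero])
  have := K.tf hd (K.smul _ (K.tf h ha) c⁻¹ (inv_ne_zero hc))
  have e := K.k (c := c⁻¹ + d) ha hb hab (by
    convert this using 1
    simp only [Tx.tf, sy a b, hab, sy a y, sy b y, h1, h.1, ar, sr, sl, se]; mod2)
  exact hd.cast rfl (by grind)

theorem Cq.sq1 (K : Cq L S) (ha : a ∈ S) (hb : b ∈ S) (hab : C.B a b = 1) (h1 : C.B a y = 0) (h : P L b y 1)
    (m : F) : P L b (m • y) (m * m) := by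
  by_cases m0 : m = 0
  · exact P.zero.cast (by simp [m0]) (by simp [m0])
  by_cases m1 : m = 1
  · exact h.cast (by simp [m1]) (by simp [m1])
  have hba : C.B b a = 1 := by rwa [sy]
  obtain ⟨l, hl⟩ := K.surj hb ha hba h.1 h1 (fun h' => one_ne_zero (K.u hb h h')) m
  have hl' : P L b ((l + 1) • y) (m + 1) := (hl.add h).cast (by mod2) (by simp [sl, se])
  have m2 : m + 1 ≠ 0 := by grind
  have := (K.h ha hb hab (by simp [h1]) hl m0).add (K.h ha hb hab (by simp [h1]) hl' m2)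
  have h3 := K.h hb ha hba (by simp [h.1]) (this.cast (c' := (m * (m + 1))⁻¹) rfl (by
    simp only [sl, sr, se]; grind)) (by simp [m0, m2])
  exact (h3.add hl).cast (by mod2) (by simp only [al, sl, sr, se]; grind)

theorem Cq.sq2 (K : Cq L S) (hb : b ∈ S) (h : P L b y c) (m : F) : P L b (m • y) (m * m * c) := by
  obtain ⟨a, ha, hba⟩ := K.exB (K.ne b hb) 1 one_ne_zero
  have hab : C.B a b = 1 := by rwa [sy]
  have h' := h.shift (C.B a y)
  have e : C.B a (y + C.B a y • b) = 0 := by simp only [ar, sr, hab]; grind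
  suffices P L b (m • (y + C.B a y • b)) (m * m * c) from (this.shift (m * C.B a y)).cast (by mod2) rfl
  generalize y + C.B a y • b = w at h' e
  by_cases c0 : c = 0
  · subst c0; exact (K.z2 hb ha hba e h' m).cast rfl (by simp)
  obtain ⟨l, hl⟩ := K.surj hb ha hba h'.1 e (fun h'' => c0 (K.u hb h' h'')) 1
  have l0 : l ≠ 0 := fun e => one_ne_zero (K.u hb hl (P.zero.cast (by simp [e]) rfl))
  have q := K.sq1 ha hb hab (by simp [e]) hl
  have := K.u hb h' ((q l⁻¹).cast (by simp [l0]) rfl)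
  exact (q (m / l)).cast (by mod2) (by grind)

theorem Cq.exQ (K : Cq L S) (ha : a ∈ S) : ∃ Q : QuadraticForm F V,
    (∀ u v, QuadraticMap.polar Q u v = C.B u v) ∧ ∀ s ∈ S, Q s = 0 := by
  obtain ⟨b, hb, hab⟩ := K.exB (K.ne a ha) 1 one_ne_zero
  choose f hf using fun v : V => K.ex a ha (v + C.B a v • b) (by simp only [ar, sr, hab]; grind)
  have add : ∀ u v, f (u + v) + C.B a (u + v) * C.B b (u + v) =
      f u + C.B a u * C.B b u + (f v + C.B a v * C.B b v) + C.B u v := fun u v => by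
    rw [K.u ha (hf (u + v)) (((hf u).add (hf v)).cast (by simp only [ar]; mod2) rfl)]
    simp only [al, ar, sl, sr, se, sy b u]; grind
  refine ⟨⟨fun v => f v + C.B a v * C.B b v, fun m v => ?_, ⟨C.B, add⟩⟩, fun u v => ?_, fun s hs => ?_⟩
  · rw [K.u ha (hf (m • v)) ((K.sq2 ha (hf v) m).cast (by simp only [sr]; mod2) rfl)]
    simp only [sr, smul_eq_mul]; ring
  · change f (u + v) + C.B a (u + v) * C.B b (u + v) - (f u + C.B a u * C.B b u) - (f v + C.B a v * C.B b v) = _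
    rw [add]; ring
  · change f s + C.B a s * C.B b s = 0
    by_cases h : C.B a s = 0
    · rw [K.u ha (hf s) ((K.st a ha s hs h 1).cast (by simp [h]) rfl), h]; simp
    have := K.smul _ (K.tf (K.sq2 ha (hf s) (C.B a s)⁻¹) (K.smul s hs _ (inv_ne_zero h))) 1 one_ne_zero
    have e := K.k (c := (C.B a s)⁻¹ * (C.B a s)⁻¹ * (f s + C.B a s * C.B b s)) ha hb hab (by
      convert this using 1
      simp only [Tx.tf, al, sr, sl, se]; mod2)
    simpa [h] using e

variable {Q : QuadraticForm F V}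

theorem Qa (hQ : ∀ u v, QuadraticMap.polar Q u v = C.B u v) (u v : V) : Q (u + v) = Q u + Q v + C.B u v := by
  rw [← hQ, QuadraticMap.polar]; ring

theorem Cf.inv (K : Cf L S) (hQ : ∀ u v, QuadraticMap.polar Q u v = C.B u v) (h0 : ∀ s ∈ S, Q s = 0) {g : C.isom}
    (hg : g ∈ L) (v : V) : Q (g.1 v) = Q v := by
  have : v ∈ Submodule.span F S := K.span.ge Submodule.mem_top
  induction this using Submodule.span_induction with
  | mem s hs => rw [h0 s hs, h0 _ (K.act g hg s hs)]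
  | zero => simp
  | add u v _ _ h1 h2 => rw [map_add, Qa hQ, Qa hQ, h1, h2, iso]
  | smul m v _ h => rw [map_smul, Q.map_smul, Q.map_smul, h]

theorem Cf.val (K : Cf L S) (hQ : ∀ u v, QuadraticMap.polar Q u v = C.B u v) (h0 : ∀ s ∈ S, Q s = 0) (hs : s ∈ S)
    (hx : C.B s x = 0) : P L s x (Q x) := by
  obtain ⟨c, h⟩ := K.ex s hs x hx
  obtain ⟨b, hb, e⟩ := K.exB (K.ne s hs) 1 one_ne_zero
  have := h0 _ (K.tf h hb)
  simp only [Tx.tf, Qa hQ, Q.map_smul, h0 s hs, h0 b hb, e, al, sr, sl, sy s b, sy s x, hx, sy x b, smul_eq_mul] at this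
  exact h.cast rfl (by grind)

theorem Cf.sing (K : Cf L S) (hQ : ∀ u v, QuadraticMap.polar Q u v = C.B u v) (h0 : ∀ s ∈ S, Q s = 0) {v : V}
    (hv : v ≠ 0) (h : Q v = 0) : v ∈ S := by
  obtain ⟨s, hs, e⟩ := K.exB hv 1 one_ne_zero
  obtain ⟨b, hb, e'⟩ := K.exB (K.ne s hs) 1 one_ne_zero
  convert K.tf (K.val hQ h0 hs (x := v + b) (by rw [ar, sy v s, e, e']; grind)) hb using 1
  simp only [Tx.tf, Qa hQ, h, h0 b hb, e', al, se]; mod2

end H27.Tx
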