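/-
Unbalancing triples: passing to the adjoint group.
-/
import Cfsg.Agent.H27.UA2

set_option autoImplicit false
set_option linter.unusedSectionVars false

namespace H27.UA

open Matrix H14 H14.RootSys H14.St H14.PreSt H14.St.Tw H11 Function H27.ID H27.BL H27.LB H11.AS Cfsg

section
variable {ι κ : Type*} [Fintype κ] [DecidableEq κ] [Fintype ι] [DecidableEq ι] {R : RootSys ι κ}
  {C : Chev R} {K G Γ : Type*} [Field K] [Group G] [Group Γ] {S : St C K G} {F : S.Fr} {p : ℕ} [IsAlgClosed K]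
  [hp : Fact p.Prime] [CharP K p] {e : Γ →* G} {β : MulAut Γ} {v : Γ}

theorem Oc.odd (h : Oc β v) : Odd (orderOf β) := h.elim fun _ c => (c.2.1 β c.1).2

variable (h : Sw F Set.univ p) (hZ : Subgroup.center G = ⊥) (h0 : p ≠ 2) (he : Em p F e)
include h hZ h0 he

theorem Oc.fix (c : Oc β v) (v2 : v ^ 2 = 1) : β v = v ∧ ∀ u k, Commute v u → u ^ p ^ k = 1 → β u = u := by
  obtain ⟨N, a1, a2, a3⟩ := c
  have a4 : ∀ x : Γ, In (MulAut.conj x) e (e x) id := fun x y => by simp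
  refine ⟨(a2 β a1).1, fun u k b1 b2 => ?_⟩
  obtain ⟨⟨m, d1, d2⟩, d3⟩ := oa h hZ h0 he (a4 v) (by rw [← map_pow, v2, map_one]) (s := β u * u⁻¹)
    ⟨N.comap MulAut.conj, by
      have := mul_mem a1 (a3 u b1 _ (inv_mem a1))
      rw [Subgroup.mem_comap]
      convert this using 1
      ext; simp [mul_assoc], fun x b => ⟨by
        have := (a2 _ b).1
        rw [MulAut.conj_apply, mul_inv_eq_iff_eq_mul] at this ⊢
        exact this.symm, _, (a2 _ b).2.not_two_dvd_nat, he.inj (by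
          rw [map_pow, map_one]; exact (h.in_one hZ he ((a4 x).pow _)).2 (pow_orderOf_eq_one _))⟩,
      fun w b x d => by simpa [Subgroup.mem_comap] using a3 w (mul_inv_eq_iff_eq_mul.1 b) _ d⟩
  have d4 := (d3 u k b1.mul_inv_cancel b2).mul_pow (p ^ k)
  rw [inv_mul_cancel_right, ← map_pow, b2, map_one, mul_one] at d4
  exact mul_inv_eq_one.1 (eq_one_of_pp d4.symm d2 d1)

theorem p2 {a b g : _} (c : In β e g id) (a2 : a ^ 2 = 1) (b2 : b ^ 2 = 1) (ab : Commute a b) (oa : Oc β a) (ob : Oc β b)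
    (oc : Oc β (a * b)) : β = 1 :=
  inn h hZ h0 he c oa.odd a2 b2 ab (by
    simpa only [List.mem_cons, List.not_mem_nil, or_false, forall_eq_or_imp, forall_eq] using ⟨oa.fix h hZ h0 he a2,
      ob.fix h hZ h0 he b2, oc.fix h hZ h0 he (by rw [ab.mul_pow, a2, b2, one_mul])⟩)
end

variable {ι κ : Type} [Fintype κ] [DecidableEq κ] [Fintype ι] [DecidableEq ι] {R : RootSys ι κ} {C : Chev R}
  {K G G0 Γ : Type} [Field K] [Group G] [Group G0] [Group Γ] {S : St C K G} {F : S.Fr} {p : ℕ} [IsAlgClosed K]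
  [hp : Fact p.Prime] [CharP K p] {e : G0 →* G} {π : G0 →* Γ} {β : MulAut Γ}

theorem Mo.quot (hm : Mo F p e π) : ∃ (Φ : (C.adG K).Fr) (θ : G →* (C.ad K).U Set.univ) (ε : Γ →* (C.ad K).U Set.univ),
    Sw Φ Set.univ p ∧ Em p Φ ε ∧ Φ.ρ = F.ρ ∧ (∀ s, q Φ s = q F s) ∧ S.toPreSt.IsHom (C.adG K).toPreSt θ ∧
      ∀ β a σ τ, (∀ g, τ (θ g) = θ (σ g)) → Iq π e β a σ → In β ε (θ a) τ := by
  obtain ⟨h, -, he, hs, hk⟩ := hm
  obtain ⟨θ, hθ⟩ := exists_isHom_of_center (S' := C.adG K) F.sep F.top fun z _ a =>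
    (C.adG_center K).le (Subgroup.mem_center_iff.2 fun g => a g ((C.adG_top K).ge trivial))
  have a := ker_eq_center (C.adG_sep K) F.top (C.adG_top K) (C.adG_center K) hθ
  have b := hθ.surjective (C.adG_top K)
  obtain ⟨τ, hτ⟩ := desc F.top hθ (Amb.surj F.top (σ := F.σ) fun r t => by
    obtain ⟨r, rfl⟩ := F.ρ.surjective r
    obtain ⟨u, hu⟩ := IsAlgClosed.exists_pow_nat_eq (t / F.c r) (q_pos F r)
    exact ⟨S.x r u, by rw [BL.σ_x, hu, mul_div_cancel₀ _ (F.c_ne r)]⟩)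
  let Φ : (C.adG K).Fr :=
    { F with
      σ := τ
      σ_x := fun r t => by rw [← hθ, hτ, F.σ_x, hθ]
      σ_n := fun r t ht => by rw [← hθ.n, hτ, F.σ_n r t ht, hθ.n]
      pow := by
        obtain ⟨m, E, a1, a2, x, a3, a4⟩ := F.pow
        refine ⟨m, E, a1, a2, θ x, hθ.map_N.le ⟨x, a3, rfl⟩, fun r t => ?_⟩
        rw [← hθ, ← hθ, ← (show Semiconj θ F.σ τ from fun g => (hτ g).symm).iterate_right m, a4, map_mul, map_mul, map_inv]
      sep := C.adG_sep K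
      top := C.adG_top K
      hmul := C.adG_hmul K }
  have d : ∀ z ∈ Subgroup.center G, z ∈ S.H := center_le_H F.sep F.top
  obtain ⟨ε, hε⟩ : ∃ ε : Γ →* (C.ad K).U Set.univ, ∀ y, ε (π y) = θ (e y) :=
    ⟨π.liftOfSurjective hs ⟨θ.comp e, fun z hz => a.ge (h.mem_center fun u hu => by
      obtain ⟨y, rfl⟩ := h.le_of_pel (fun u hu => he.mem u (L_le_fix hu)) hu
      exact (show Commute z y from (Subgroup.mem_center_iff.1 (hk.le hz) y).symm).map e)⟩, fun g =>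
        MonoidHom.liftOfRightInverse_comp_apply ..⟩
  refine ⟨Φ, θ, ε, Wk.sw ⟨⟨Φ.sep, Φ.top, Φ.hmul, h.alg.fin, fun φ => ?_, ker_pow Φ.hmul Φ.sep Φ.top⟩, h.ok⟩
    fun r => h.pos r trivial, ⟨(injective_iff_map_eq_one _).2 fun y => ?_, fun y => ?_, ?_⟩, rfl, fun _ => rfl, hθ,
      fun β x σ τ h1 hx y => ?_⟩
  · exact ⟨((Matrix.GeneralLinearGroup.map φ).comp (Subgroup.subtype _)).codRestrict _ fun g => C.adRep.map_mem φ g.2,
      fun r t => Subtype.ext (C.adRep.map_x φ r t)⟩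
  · obtain ⟨y, rfl⟩ := hs y
    exact fun hy => hk.ge (Subgroup.mem_center_iff.2 fun g => he.inj (by
      rw [map_mul, map_mul, Subgroup.mem_center_iff.1 (a.le ((hε y).symm.trans hy))]))
  · obtain ⟨y, rfl⟩ := hs y
    rw [hε]
    exact (hτ _).trans (congrArg θ (he.fix y))
  · intro g hg k hk
    obtain ⟨g, rfl⟩ := b g
    obtain ⟨m, a1, a2⟩ := h.pow_H (d _ (a.le (show θ (g ^ p ^ k) = 1 by rwa [map_pow])))
    obtain ⟨u, ⟨i, rfl⟩, v, ⟨j, rfl⟩, a3, a4, a5⟩ := exists_mul_of_coprime (s := g) (a := p ^ k) (b := m) (by rwa [pow_mul])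
      ((hp.1.coprime_iff_not_dvd.2 a1).pow_left k)
    have b1 : θ (g ^ j) = 1 := AS.eq_one_of_pp (a := k) (by
      rw [← map_pow, ← zpow_natCast, zpow_comm, zpow_natCast, map_zpow, map_pow, hk, _root_.one_zpow])
        (by rw [← map_pow, a4, map_one]) a1
    have b2 : θ (g ^ i) = θ g := by rw [a5, map_mul, b1, mul_one, ← a5]
    have b3 : F.σ (g ^ i) * (g ^ i)⁻¹ ∈ Subgroup.center G := a.le (by
      rw [MonoidHom.mem_ker, map_mul, ← hτ, b2, map_inv, b2, mul_inv_eq_one]; exact hg)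
    have b4 := (show Commute (F.σ (g ^ i) * (g ^ i)⁻¹) (g ^ i) from (Subgroup.mem_center_iff.1 b3 _).symm).mul_pow (p ^ k)
    rw [inv_mul_cancel_right, ← map_pow, a3, map_one, mul_one] at b4
    obtain ⟨y, hy⟩ := he.mem _ (mul_inv_eq_one.1 (h.eq_one (d _ b3) b4.symm)) k a3
    exact ⟨π y, (hε y).trans ((congrArg θ hy).trans b2)⟩
  · obtain ⟨y, rfl⟩ := hs y
    obtain ⟨y', c1, c2⟩ := hx y
    rw [c1, hε, hε, c2, map_mul, map_mul, map_inv, h1]

theorem g1 : G1 := by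
  rintro p _ Γ _ h0 ⟨ι, κ, _, _, _, _, R, C, K, G, G0, _, _, _, S, _, _, F, e, π, a, b⟩ β b1 b2
  obtain ⟨Φ, θ, ε, c1, c2, -, -, -, c3⟩ := a.quot
  obtain ⟨x, d⟩ | d := b β b1 b2
  · exact bq c1 (C.adG_center K) h0 c2 (c3 _ _ _ id (fun _ => rfl) d) b1
  · exact fun s hs _ _ _ _ _ => d s hs ▸ .one_left _

theorem g3 : G3 := by
  rintro p _ Γ _ I h0 ⟨ι, κ, _, _, _, _, R, C, K, G, G0, _, _, _, S, _, _, F, e, π, a, b⟩ β b1 x y x2 y2 - - - xy
  obtain ⟨Φ, θ, ε, c1, c2, -, -, -, c3⟩ := a.quot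
  obtain ⟨x, d⟩ := b β b1
  exact p2 c1 (C.adG_center K) h0 c2 (c3 _ _ _ id (fun _ => rfl) d) x2 y2 xy

end H27.UA
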