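/-
Unbalancing triples: comparing two endomorphisms on a subsystem.
-/
import Cfsg.Agent.H27.UA3

set_option autoImplicit false
set_option linter.unusedSectionVars false

namespace H27.UA

open Matrix H14 H14.RootSys H14.St H14.PreSt H14.St.Tw H11 Function H27.ID H27.BL H27.LB H11.AS Cfsg

variable {ι κ : Type*} [Fintype κ] [DecidableEq κ] [Fintype ι] [DecidableEq ι] {R : RootSys ι κ}
  {C : Chev R} {K G Γ : Type*} [Field K] [Group G] [Group Γ] {S : St C K G} {F F1 F2 : S.Fr} {A : Set ι} {p : ℕ}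
  {c : κ → Kˣ} {g z : G}

theorem memB (hS : S.Sep) (hG : S.U Set.univ = ⊤) (h : ∀ i, ∃ u ∈ S.U {r | R.pos r},
    u ∉ S.U ({r | R.pos r} \ {R.simple i}) ∧ g * u * g⁻¹ ∈ S.U {r | R.pos r}) : g ∈ S.B := by
  obtain ⟨w, hw⟩ := exists_cell (S := S) (g := g) (hG ▸ trivial)
  have h0 : C.Idl K {r | R.pos r} := PreChev.idl_of (fun _ h => h) fun s hs k _ hk =>
    (R.pos_iff_ht_pos k).2 (((R.pos_iff_ht_pos s).1 hs).trans hk)
  obtain rfl : w = 1 := R.eq_one_of_pos_simple hw.mem_W fun i => by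
    have h1 : C.Idl K ({r | R.pos r} \ {R.simple i}) := PreChev.idl_of (fun _ h => h.1) fun s hs k _ hk => by
      have := (R.pos_iff_ht_pos s).1 hs.1
      exact ⟨(R.pos_iff_ht_pos k).2 (this.trans hk), by rintro rfl; rw [R.ht_simple] at hk; omega⟩
    obtain ⟨u, ht, h2, h3⟩ := h i
    exact hw.map_mem hS h0 h0 h1 ht h2 h3
  exact cell_one_iff.1 hw

variable [IsAlgClosed K] [hp : Fact p.Prime] [CharP K p]

theorem borel (h1 : Sw F1 A p) (hz : z ∈ S.U A ⊔ S.H)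
    (hu : ∀ u ∈ S.U ({r | R.pos r} ∩ A) ⊓ F1.fix, z * u * z⁻¹ ∈ S.U ({r | R.pos r} ∩ A)) :
    ∃ y ∈ S.U ({r | R.pos r} ∩ A), ∃ k ∈ S.H, z = y * k := by
  obtain ⟨y, hy, k, hk, rfl⟩ := mem_U_sup_H_iff.1 hz
  obtain ⟨u, a1, l, a2, a3⟩ := mem_B_iff.1 (memB (S := h1.cl.st S h1.ok) (g := ⟨y, hy⟩) (Cl.st_sep F1.sep) Cl.st_top fun i => by
    obtain ⟨u, b1, b2⟩ := h1.supp h1.cp (fun r d => ⟨d.2, h1.mp r d⟩) ⟨i.2.2.1, i.2.1⟩ i.2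
    have b3 := H_conj_mem_U hk b1.1
    refine ⟨⟨_, U_mono Set.inter_subset_right b3⟩, Cl.mem_Up.2 b3, fun d => b2 1 (one_mem _) ?_,
      Cl.mem_Up.2 (by simpa [mul_assoc] using hu u b1)⟩
    simpa [mul_assoc] using U_mono (B := ({r | R.pos r} ∩ A) \ {i.1}) (by
      rintro _ ⟨r, f, rfl⟩
      exact ⟨⟨(h1.cl.sys_pos r).1 f.1, r.2⟩, fun e => f.2 (Subtype.ext e)⟩) (H_conj_mem_U (inv_mem hk) (Cl.mem_U.1 d)))
  exact ⟨u, Cl.mem_Up.1 a1, l * k, mul_mem (Cl.mem_H a2) hk, by rw [← mul_assoc]; exact congrArg (·.1 * k) a3⟩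

theorem syl (h : Sw F A p) {P : Subgroup G} (hP : ∀ u ∈ P, u ∈ L F A ∧ ∃ k, u ^ p ^ k = 1) :
    ∃ l ∈ L F A, ∀ u ∈ P, l⁻¹ * u * l ∈ S.U ({r | R.pos r} ∩ A) := by
  have := h.finite
  have b : ∀ x : L F A, x ∈ h.bn.U → x.1 ∈ S.U ({r | R.pos r} ∩ A) := fun x d =>
    (Cl.mem_Up (h := h.cl) (hC := h.ok) (g := Subgroup.inclusion L_le_U x)).1 d
  obtain ⟨l, a⟩ := H8.SB.exists_cin (S := h.bn) (P := P.subgroupOf (L F A)) fun x =>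
    (hP _ x.2).2.imp fun _ k => Subtype.ext (Subtype.ext k)
  exact ⟨l, l.2, fun u d => b _ (a ⟨u, (hP u d).1⟩ d)⟩

theorem lev (h1 : Sw F1 {r | R.chi c r = 1} p) (h2 : Sw F2 {r | R.chi c r = 1} p) (hz : z ∈ S.U {r | R.chi c r = 1} ⊔ S.H)
    (hu : ∀ u ∈ S.U ({r | R.pos r} ∩ {r | R.chi c r = 1}) ⊓ F1.fix, z⁻¹ * u * z ∈ F2.fix) {σ : ι → K}
    (hσ : ∀ a, σ (F1.ρ a) = σ a ^ q F1 a) {r : ι} (hr : Ind R {r | R.chi c r = 1} r) : σ (F2.ρ r) = σ r ^ q F2 r := by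
  obtain ⟨l, hl, a1⟩ := syl h2 (P := (S.U ({r | R.pos r} ∩ {r | R.chi c r = 1}) ⊓ F1.fix).map (MulAut.conj z⁻¹).toMonoidHom) (by
    rintro _ ⟨u, b, rfl⟩
    obtain ⟨k, hk⟩ := h1.pel (U_mono Set.inter_subset_left b.1)
    replace hk : (z⁻¹ * u * z) ^ p ^ k = 1 := by rw [← inv_inv z, inv_inv z⁻¹, conj_pow, hk]; simp
    simpa using And.intro (h2.pel' (hu u b) (mul_mem (mul_mem (inv_mem hz) (Subgroup.mem_sup_left
      (U_mono Set.inter_subset_right b.1))) hz) hk) ⟨k, hk⟩)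
  have a2 : ∀ u ∈ S.U ({r | R.pos r} ∩ {r | R.chi c r = 1}) ⊓ F1.fix,
      (z * l)⁻¹ * u * (z * l)⁻¹⁻¹ ∈ S.U ({r | R.pos r} ∩ {r | R.chi c r = 1}) ⊓ F2.fix := fun u b =>
    ⟨by simpa [mul_assoc] using a1 _ ⟨u, b, rfl⟩, by simpa [mul_assoc] using cfix' (L_le_fix hl) (hu u b)⟩
  obtain ⟨y, hy, k, hk, a3⟩ := borel h1 (inv_mem (mul_mem hz (Subgroup.mem_sup_left (L_le_U hl)))) fun u b => (a2 u b).1
  rw [a3] at a2
  generalize {r | R.chi c r = 1} = A at *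
  obtain ⟨f, m, hm, hf⟩ := exists_lev h1.cl
  have hD := h1.cp
  set D := {r | R.pos r} ∩ A
  have a0 : ∀ r ∈ D, 0 < f (R.cf r) := fun r c => hm.trans_le (hf r c.2 c.1).1
  have a4 : R.Lv D f m = D := Set.ext fun r => ⟨And.left, fun c => ⟨c, (hf r c.2 c.1).1⟩⟩
  have a5 : ∀ {F : S.Fr}, Sw F A p → (∀ r ∈ R.Lv D f m, R.pos r ∧ F.ρ r ∈ R.Lv D f m) ∧
      ∀ r ∈ R.Lv D f (m + 1), F.ρ r ∈ R.Lv D f (m + 1) := fun h => ⟨by rw [a4]; exact h.mp, fun r c => ⟨(h.mp r c.1).2, by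
    have d := (h.mp r c.1).2
    have d1 := hf _ d.2 d.1
    have d2 := hf _ c.1.2 c.1.1
    have := c.2
    rw [h.ind_ρ, ← d2.2] at d1
    omega⟩⟩
  have a6 : r ∈ D ∧ f (R.cf r) = m := ⟨⟨hr.2.1, hr.1⟩, (hf r hr.1 hr.2.1).2.2 hr⟩
  choose μ b1 b2 using NW.act (mem_NW_of_H hk)
  have a7 : ∀ s, s ∈ D ∧ f (R.cf s) = m → ∀ u ∈ S.U (R.Lv D f m), S.co D f m s (y * k * u * (y * k)⁻¹) = μ s * S.co D f m s u :=
    fun s e u b => by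
      have d1 : S.co D f m s (k * u * k⁻¹) = μ s * S.co D f m s u := co_eq hD a0 F1.sep e.2 (by
        convert H_conj_mem_U hk (co_spec hD a0 s b) using 1
        rw [show S.x s _ = _ from (mul_inv_eq_iff_eq_mul.2 (b2 s (S.co D f m s u))).symm]; simp [mul_assoc, -x_inv])
      have d2 := H_conj_mem_U hk b
      have d3 := co_mul hD a0 F1.sep e.2 e.1 (mul_mem (mul_mem (a4.symm ▸ hy) d2) (inv_mem (a4.symm ▸ hy))) (a4.symm ▸ hy)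
      rw [inv_mul_cancel_right, co_mul hD a0 F1.sep e.2 e.1 (a4.symm ▸ hy) d2, add_comm, add_left_inj] at d3
      rw [← d1, d3]; simp [mul_assoc]
  have a8 : ∀ u ∈ S.U (R.Lv D f m) ⊓ F1.fix, μ (F2.ρ r) * S.co D f m (F2.ρ r) u = F2.c r * (μ r * S.co D f m r u) ^ q F2 r :=
    fun u b => by
      have d := a2 u (a4 ▸ b)
      rw [← a7 _ a6 u b.1, ← a7 _ (lev_ρ F2 (a5 h2).1 (a5 h2).2 a6) u b.1, ← co_σ F2 hD a0 (a5 h2).1 (a5 h2).2 a6 (a4.symm ▸ d.1),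
        Fr.mem_fix.1 d.2]
  obtain ⟨u, d1, d2⟩ := BL.supp F1 hD a0 (a5 h1).1 (a5 h1).2 a6
  obtain ⟨v, d3, d4⟩ := BL.lift F1 hD a0 (a5 h1).1 (a5 h1).2 (t := fun s => S.co D f m s u * σ s) fun s e => by
    rw [mul_pow, ← mul_assoc, ← co_σ F1 hD a0 (a5 h1).1 (a5 h1).2 e d1.1, Fr.mem_fix.1 d1.2, hσ]
  have d5 := a8 v d3
  rw [d4 r a6, d4 _ (lev_ρ F2 (a5 h2).1 (a5 h2).2 a6), ← mul_assoc, a8 u d1, ← mul_assoc (μ r), mul_pow _ (σ r), ← mul_assoc] at d5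
  exact mul_left_cancel₀ (mul_ne_zero (F2.c_ne r) (pow_ne_zero _ (mul_ne_zero (b1 r) d2))) d5

/-- comparing the fixed points in the centralizer of an involution -/
theorem cmp {e : Γ →* G} {β : MulAut Γ} {v : Γ} (h : Wk F1 p) (h0 : p ≠ 2) (he : Em p F1 e) (Y : Wk F2 p) (c1 : In β e g F2.σ)
    (v2 : v ^ 2 = 1) (f : β v = v ∧ ∀ u k, Commute v u → u ^ p ^ k = 1 → β u = u) :
    ∃ (c : κ → Kˣ) (n : G) (w : _) (n' : G) (w' : _) (hn : (n, w) ∈ S.NW) (hn' : (n', w') ∈ S.NW), (∀ r, R.chi c r ^ 2 = 1) ∧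
      Sw (F1.tw hn) {r | R.chi c r = 1} p ∧ Sw (F2.tw hn') {r | R.chi c r = 1} p ∧ ∀ σ : ι → K,
        (∀ a, σ (w (F1.ρ a)) = σ a ^ q F1 a) → ∀ r, Ind R {r | R.chi c r = 1} r → σ (w' (F2.ρ r)) = σ r ^ q F2 r := by
  have a0 : e v ^ 2 = 1 := by rw [← map_pow, v2, map_one]
  obtain ⟨y, c, -, a1, -⟩ := h.exists_tor h0.symm a0
  obtain ⟨x, rfl⟩ := F2.lang_top g
  have a2 : ∀ u, β u = u → x⁻¹ * e u * x ∈ F2.fix := fun u b => by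
    have := c1 u
    rw [b] at this
    rw [Fr.mem_fix]; conv_rhs => rw [this]
    simp [mul_assoc]
  obtain ⟨z, b1, n, w, hn, b2, b3, b4⟩ := h.twist (a1 ▸ he.fix v)
  obtain ⟨z', d1, n', w', hn', d2, -, d4⟩ := Y.twist (c := c) (y := x⁻¹ * y) (by simpa [a1, mul_assoc] using a2 v f.1)
  refine ⟨c, n, w, n', w', hn, hn', F1.hmul.chi_pow F1.sep (by rwa [a1, conj_pow, conj_eq_one_iff] at a0), b4, d4,
    fun σ hσ r => lev b4 d4 (mul_mem (inv_mem b1) d1) (fun u b => ?_) hσ⟩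
  obtain ⟨k, hk⟩ := h.pel (U_mono Set.inter_subset_left b.1)
  obtain ⟨u', e1⟩ := he.mem _ ((mem_tw F1 hn b2 u).1 b.2) k (by rw [conj_pow, hk]; simp)
  have e2 := a2 u' (f.2 u' k (he.inj ?_) (he.inj (by rw [map_pow, e1, conj_pow, hk]; simp)))
  · exact (mem_tw F2 hn' d2 _).2 (by simpa [e1, mul_assoc] using e2)
  rw [map_mul, map_mul, e1, ← a1.symm]
  exact (cj_comm.2 (b3.symm ▸ F1.hmul.commute_U (fun _ => id) (Subgroup.mem_sup_left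
    (U_mono Set.inter_subset_right b.1))).symm).symm

end H27.UA
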