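/-
Unbalancing triples: automorphisms of odd order centralizing the unipotent elements of the centralizer of an involution.
-/
import Cfsg.Agent.H27.UA4

set_option autoImplicit false
set_option linter.unusedSectionVars false

namespace H27.UA

open Matrix H14 H14.RootSys H14.St H14.PreSt H14.St.Tw H11 Function H27.ID H27.BL H27.LB H11.AS Cfsg

variable {ι κ : Type*} [Fintype κ] [DecidableEq κ] [Fintype ι] [DecidableEq ι] {R : RootSys ι κ}
  {C : Chev R} {K G Γ : Type*} [Field K] [Group G] [Group Γ] {S : St C K G} {F : S.Fr} {p : ℕ} {c : κ → Kˣ}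

theorem chi_pm (hc : ∀ r, R.chi c r ^ 2 = 1) {r s : ι} (h1 : R.chi c r ≠ 1) (h2 : R.chi c s ≠ 1) (h3 : s ≠ r) (h4 : s ≠ R.neg r)
    (h5 : R.pair r s ≠ 0) : R.chi c (R.refl r s) = 1 ∨ R.chi c (R.refl s r) = 1 := by
  have b1 := eq_neg_one (hc r) h1
  have b2 := eq_neg_one (hc s) h2
  have b3 := R.pair_mul_pair_lt h3 h4
  have b4 := R.pair_mul_pair_nonneg r s
  have b5 := (R.pair_eq_zero_iff _ _).not.1 h5
  have b6 : (R.pair r s = 1 ∨ R.pair r s = -1) ∨ R.pair s r = 1 ∨ R.pair s r = -1 := by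
    by_contra! g
    have := mul_le_mul (le_abs.2 (show 2 ≤ R.pair r s ∨ _ by omega)) (le_abs.2 (show 2 ≤ R.pair s r ∨ _ by omega)) zero_le_two
      (abs_nonneg _)
    rw [← abs_mul, abs_of_nonneg b4] at this
    omega
  exact b6.imp (fun g => by rcases g with g | g <;> simp [chi_refl, g, b1, b2]) fun g => by
    rcases g with g | g <;> simp [chi_refl, g, b1, b2]

theorem ex_ind [Nontrivial κ] (hR : R.Conn) (hc : ∀ r, R.chi c r ^ 2 = 1) (h : Cl R {r | R.chi c r = 1}) :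
    ∃ r, Ind R {r | R.chi c r = 1} r := by
  obtain ⟨r, hr⟩ : ∃ r, R.chi c r = 1 := by
    by_contra! e
    obtain ⟨j, a1, a2⟩ := exists_adj hR (Classical.arbitrary κ)
    exact (chi_pm hc (e _) (e _) (R.simple_inj.ne a1) (fun d => (R.pos_neg_iff _).1 (d ▸ R.pos_simple j) (R.pos_simple _))
      (by rwa [pair_simple_simple])).elim (e _) (e _)
  obtain ⟨-, -, i, -⟩ := h.sys.exists_W_simple ⟨r, hr⟩
  exact ⟨i, i.2⟩

theorem sq_one (hR : R.Conn) (hd : ∀ s, R.d s = 1) (hc : ∀ r, R.chi c r ^ 2 = 1) {ω : Equiv.Perm ι}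
    (h1 : ∀ r s, R.pair (ω r) (ω s) = R.pair r s) (h2 : ∀ r, R.chi c r = 1 → ω r = r) : ω ^ 2 = 1 := by
  ext θ
  by_cases e : R.chi c θ = 1
  · simp [sq, h2 θ e]
  have a0 : ∀ s, R.pair (ω⁻¹ θ) s = R.pair θ (ω s) := fun s => by rw [← h1]; simp
  obtain ⟨f, hf⟩ : ∃ f : ι → ℤ, f = fun s => R.pair (ω θ) s - R.pair (ω⁻¹ θ) s := ⟨_, rfl⟩
  have a1 : ∀ a b, f (R.refl a b) = f b - R.pair a b * f a := fun a b => by
    simp only [hf, ← pq_cf, cf_refl, pq_sub, pq_smul]; ring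
  have a2 : ∀ s, R.chi c s = 1 → f s = 0 := fun s b => by
    rw [hf, sub_eq_zero, a0, h2 s b, ← h1 θ, h2 s b]
  have a3 : f θ = 0 := by rw [hf, sub_eq_zero, a0, R.pair_symm hd]
  have a4 : f (ω θ) = 0 := by_contra fun b => by
    obtain ⟨γ, b1, b2⟩ := exists_pair hR (P := fun s => f s ≠ 0) (fun a b d g => by rwa [a1, not_not.1 d, mul_zero, sub_zero]) b θ
    have b3 : f (R.neg θ) = 0 := by simp only [hf, pair_neg_right] at a3 ⊢; omega
    obtain g | g := chi_pm hc (mt (a2 γ) b1) e (by rintro rfl; exact b1 a3) (by rintro rfl; simp [b1] at b3) b2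
    · simpa [a1, a3, b1, b2] using a2 _ g
    · simpa [a1, a3, b1] using a2 _ g
  rw [hf, sub_eq_zero, pair_self] at a4
  have a5 : ω θ = ω⁻¹ θ := by_contra fun b => by
    have := R.pair_mul_pair_lt b (fun d => by simp [d, pair_neg_right] at a4)
    rw [R.pair_symm hd (ω θ), ← a4] at this
    omega
  simp [sq, a5]

theorem sq_mem_W {ρ τ w w' : Equiv.Perm ι} (h1 : ∀ v ∈ R.W, ρ * v * ρ⁻¹ ∈ R.W) (h2 : ∀ v ∈ R.W, τ * v * τ⁻¹ ∈ R.W) (hw : w ∈ R.W)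
    (hw' : w' ∈ R.W) {j : ℕ} (h : ((w' * τ)⁻¹ * (w * ρ) ^ j) ^ 2 = 1) : (τ⁻¹ * ρ ^ j) ^ 2 ∈ R.W := by
  let φ := QuotientGroup.mk' (R.W.subgroupOf (Subgroup.normalizer (R.W : Set (Equiv.Perm ι))))
  have a : ∀ v (b : v ∈ R.W), φ ⟨v, Subgroup.le_normalizer b⟩ = 1 := fun v b => (QuotientGroup.eq_one_iff _).2 b
  have b1 := Subgroup.mem_normalizer_fintype h1
  have b2 := Subgroup.mem_normalizer_fintype h2
  have := congrArg φ (show ((⟨w', Subgroup.le_normalizer hw'⟩ * ⟨τ, b2⟩)⁻¹ * (⟨w, Subgroup.le_normalizer hw⟩ * ⟨ρ, b1⟩) ^ j) ^ 2 = 1 from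
    Subtype.ext h)
  simp only [map_pow, map_mul, map_inv, a _ hw, a _ hw', one_mul, map_one] at this
  rw [← map_pow, ← map_inv, ← map_mul, ← map_pow] at this
  exact Subgroup.mem_subgroupOf.1 ((QuotientGroup.eq_one_iff _).1 this)

variable [IsAlgClosed K] [hp : Fact p.Prime] [CharP K p]

theorem sep_sol {ρ : Equiv.Perm ι} {f : ℕ} (hf : 0 < f) {a b : ι}
    (h : ∀ σ : ι → K, (∀ x, σ (ρ x) = σ x ^ p ^ f) → σ b = σ a) : b = a := by
  classical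
  have a0 : 0 < minimalPeriod ρ a := minimalPeriod_pos_of_mem_periodicPts (ρ.injective.mem_periodicPts a)
  have a1 : ∀ s : K, s ^ p ^ (f * minimalPeriod ρ a) = s → ∃ σ : ι → K, (∀ x, σ (ρ x) = σ x ^ p ^ f) ∧
      (∀ n, σ (ρ^[n] a) = s ^ p ^ (f * n)) ∧ ∀ x, (¬ ∃ n, ρ^[n] a = x) → σ x = 0 := fun s e => by
    have b1 : ∀ n, s ^ p ^ (f * n) = s ^ p ^ (f * (n % minimalPeriod ρ a)) := fun n => by
      conv_lhs => rw [← Nat.div_add_mod n (minimalPeriod ρ a), mul_add, pow_add, pow_mul, ← mul_assoc]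
      congr 1
      induction n / minimalPeriod ρ a with
      | zero => simp
      | succ i ih => rw [mul_add, mul_one, pow_add, pow_mul, ih, e]
    have b2 : ∀ n, (if h : ∃ m, ρ^[m] a = ρ^[n] a then s ^ p ^ (f * Nat.find h) else 0) = s ^ p ^ (f * n) := fun n => by
      rw [dif_pos ⟨n, rfl⟩, b1, b1 n, (iterate_eq_iterate_iff_of_lt_minimalPeriod (Nat.mod_lt _ a0) (Nat.mod_lt n a0)).1 (by
        rw [iterate_mod_minimalPeriod_eq, iterate_mod_minimalPeriod_eq]; exact Nat.find_spec (⟨n, rfl⟩ : ∃ m, ρ^[m] a = ρ^[n] a))]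
    refine ⟨fun x => if h : ∃ m, ρ^[m] a = x then s ^ p ^ (f * Nat.find h) else 0, fun x => ?_, b2, fun x d => dif_neg d⟩
    by_cases d : ∃ n, ρ^[n] a = x
    · obtain ⟨n, rfl⟩ := d
      simp only [← iterate_succ_apply' ρ, b2]
      rw [← pow_mul, ← pow_add]; rfl
    · beta_reduce
      rw [dif_neg d, zero_pow (pow_ne_zero _ hp.1.ne_zero), dif_neg]
      rintro ⟨n, g⟩
      refine d ⟨minimalPeriod ρ a - 1 + n, ρ.injective ?_⟩
      rw [← iterate_succ_apply' ρ, ← g, Nat.succ_eq_add_one, add_right_comm, Nat.sub_add_cancel a0, add_comm, iterate_add_apply,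
        iterate_minimalPeriod]
  obtain ⟨i, rfl⟩ : ∃ n, ρ^[n] a = b := by_contra fun e => by
    obtain ⟨σ, b1, b2, b3⟩ := a1 1 (one_pow _)
    simpa [b3 b e] using (h σ b1).trans (b2 0)
  refine (isPeriodicPt_iff_minimalPeriod_dvd.2 (Nat.dvd_of_mul_dvd_mul_left hf (LB.dvd_of_fix (k := K) (r := p) (mul_pos hf a0)
    fun s e => ?_))).eq
  obtain ⟨σ, b1, b2, -⟩ := a1 s e
  simpa using (b2 i).symm.trans ((h σ b1).trans (b2 0))

theorem smp (h : Sw F Set.univ p) (i : κ) : ∃ j, F.ρ (R.simple i) = R.simple j := by_contra fun e => by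
  have a := (ind_iff h.cl).1 ((h.ind_ρ _).2 (ind_simple i))
  have b := R.eq_one_of_pos_simple (R.refl_mem_W _) fun j => a.2.2 _ trivial (R.pos_simple j) fun d => e ⟨j, d.symm⟩
  exact (R.pos_neg_iff _).1 (R.refl_self _ ▸ b ▸ a.2.1) a.2.1

/-- an endomorphism preserving positive roots as a twist -/
noncomputable def tw (h : Sw F Set.univ p) : S.Tw where
  σ := F.σ
  ρ := F.ρ
  π := .ofBijective (fun i => (smp h i).choose) (Finite.injective_iff_bijective.1 fun i j e =>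
    R.simple_inj (F.ρ.injective (by rw [(smp h i).choose_spec, (smp h j).choose_spec]; exact congrArg _ e)))
  f r t := F.c r * t ^ q F r
  σ_x := F.σ_x
  f_eq_zero r _ e := by_contra fun a => F.f_ne r a e
  ρ_simple i := (smp h i).choose_spec
  ρ_neg := BL.ρ_neg F
  f_neg r t ht := by
    have := F.σ_n r t ht
    simp only [PreSt.n, map_mul, F.σ_x, mul_left_inj, mul_right_inj, BL.ρ_neg] at this
    exact F.sep.x_inj this
  sep := F.sep
  top := F.top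

theorem twPow_ρ (T : S.Tw) (n : ℕ) : (twPow T n).ρ = T.ρ ^ n := by
  induction n with
  | zero => rfl
  | succ n ih => rw [pow_succ', ← ih]; rfl

theorem un_eq (hA : S.Ad) {T T' : S.Tw} {m : ℕ} (h : T.ρ = T'.ρ) (h1 : Un p T m) (h2 : Un p T' m) :
    ∃ b ∈ S.H, ∀ a, T.σ a = b * T'.σ a * b⁻¹ :=
  tw_eq hA (Equiv.ext fun i => R.simple_inj (by rw [← T.ρ_simple, h, T'.ρ_simple])) fun i =>
    ⟨Units.mk0 _ (div_ne_zero (T.f_ne (r := R.simple i) one_ne_zero) (T'.f_ne (r := R.simple i) one_ne_zero)), fun t => by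
      have := T'.f_ne (r := R.simple i) one_ne_zero
      rw [h1, h2 _ t, Units.val_mk0]; field_simp⟩

theorem un_fr (hA : S.Ad) (Y : S.Alg p) {T : S.Tw} {m : ℕ} (h : Un p T m) (hm : 0 < m) :
    ∃ Φ : S.Fr, Φ.σ = T.σ ∧ Φ.ρ = T.ρ ∧ ∀ s, q Φ s = p ^ m := by
  obtain ⟨b, a1, a2⟩ := un_eq hA ((twPow_ρ T _).trans (pow_orderOf_eq_one _)) (h.pow _) (un_tw Y _)
  exact ⟨⟨p, T.σ, T.ρ, fun r => T.f r 1, fun _ => m, fun _ => T.f_ne one_ne_zero, fun r t => h r t ▸ T.σ_x r t,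
    fun r t ht => h r t ▸ T.σ_n r ht, ⟨_, _, orderOf_pos _, Nat.one_lt_pow (mul_pos hm (orderOf_pos T.ρ)).ne' hp.1.one_lt, b,
      H_le_N a1, fun r t => by rw [← twPow_σ, a2, Y.tw_x]⟩, inferInstance, T.sep, T.top, hA.hmul⟩, rfl, rfl, fun _ => rfl⟩

theorem fi {e : Γ →* G} {β : MulAut Γ} {v : Γ} {g : G} {f m : ℕ} {T : S.Tw} (h : Sw F Set.univ p) (hA : S.Ad) (h0 : p ≠ 2)
    (he : Em p F e) (hρ : F.ρ = 1 ∧ T.ρ = 1 ∨ ∀ s, R.d s = 1) (hq : ∀ s, q F s = p ^ f) (hT : Un p T m) (c1 : In β e g T.σ)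
    (v2 : v ^ 2 = 1) (oc : Oc β v) : ∃ a, In β e a id := by
  have := hA.nt
  have a0 : 0 < f := Nat.pos_of_ne_zero (by
    rintro rfl
    simpa [hq] using exists_lt F (M := Set.univ) ⟨R.simple (Classical.arbitrary κ), trivial⟩ fun _ _ => trivial)
  have a1 : Un p (tw h) f := fun s t => by simp [tw, hq]
  have a2 : ∀ k, Lift e 1 1 (twPow (tw h) k) := fun k y => by
    simpa [twPow_σ] using (iterate_fixed (f := (tw h).σ) (he.fix y) k).symm
  obtain ⟨Φ, b1, b2, b3⟩ := un_fr hA h.alg (hT.comp a1) (Nat.add_pos_right m a0)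
  have b4 : Lift e β g (T.comp (tw h)) := fun y => (c1 y).trans (congrArg (g * T.σ · * g⁻¹) (he.fix y).symm)
  obtain ⟨c, n, w, n', w', hn, hn', d1, d2, d3, d4⟩ := cmp h.toWk h0 he (F2 := Φ) ⟨h.alg, h.ok⟩ (g := g) (fun y => b1 ▸ b4 y) v2
    (oc.fix h hA.center h0 he v2)
  obtain ⟨r, hr⟩ := ex_ind hA.conn d1 d2.cl
  obtain ⟨j, hj⟩ := LB.dvd_of_fix (k := K) (r := p) (m := m + f) a0 fun s k => by
    simpa [b3] using (d4 (fun _ => s) (by simp [hq, k]) r hr).symm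
  have d5 : (Φ.ρ⁻¹ * F.ρ ^ j) ^ 2 = 1 := by
    obtain ⟨k, k'⟩ | k := hρ
    · simp [b2, Tw.comp, tw, k, k']
    have e1 : ∀ {Ψ : S.Fr} {a : ℕ}, (∀ s, q Ψ s = a) → ∀ r s, R.pair (Ψ.ρ r) (Ψ.ρ s) = R.pair r s := fun {Ψ} _ d r s =>
      mul_left_cancel₀ (Nat.cast_ne_zero.2 (q_pos Ψ r).ne') ((pair_ρ Ψ r s).trans (by rw [d, d]))
    have e2 : ∀ {Ψ : S.Fr}, ∀ v ∈ R.W, Ψ.ρ * v * Ψ.ρ⁻¹ ∈ R.W := fun v d =>
      WA_le_W Set.univ (conj_WA (A := Set.univ) _ (fun _ _ => trivial) (W_le_WA (fun _ => trivial) d))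
    have e3 : ∀ i a b, ((w * F.ρ) ^ i) (R.refl a b) = R.refl (((w * F.ρ) ^ i) a) (((w * F.ρ) ^ i) b) ∧
        R.pair (((w * F.ρ) ^ i) a) (((w * F.ρ) ^ i) b) = R.pair a b := fun i a b => by
      induction i with
      | zero => exact ⟨rfl, rfl⟩
      | succ i ih => exact pow_succ' (w * F.ρ) i ▸ ⟨(congrArg _ ih.1).trans ((F.tw hn).ρ_refl ..), (e1 (Ψ := F.tw hn) hq ..).trans ih.2⟩
    refine R.eq_one_of_pos (sq_mem_W e2 e2 (NW.mem_W hn) (NW.mem_W hn') (sq_one hA.conn k d1 (fun r s => ?_) fun r d => ?_)) ?_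
    · rw [← e1 (Ψ := Φ.tw hn') b3]
      simpa [Fr.tw] using (e3 j r s).2
    · have e4 : ∀ i, Ind R {r | R.chi c r = 1} i → (w' * Φ.ρ) i = ((w * F.ρ) ^ j) i := fun i b =>
        sep_sol (K := K) (ρ := w * F.ρ) a0 fun σ d => (d4 σ (by simpa [hq] using d) i b).trans (by
          rw [b3, hj]
          clear * - d
          induction j with
          | zero => simp
          | succ j ih => rw [pow_succ' (w * F.ρ), Equiv.Perm.mul_apply, d, ← ih, ← pow_mul, ← pow_add]; rfl)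
      exact (Equiv.Perm.inv_eq_iff_eq (f := w' * Φ.ρ)).2 (d2.cl.sys.root_induction
        (P := fun r => ((w * F.ρ) ^ j) r = (w' * Φ.ρ) r) (fun i => (e4 i i.2).symm) (fun i r ih => by
          rw [d2.cl.coe_refl, d2.cl.coe_simple, (e3 ..).1, ih, ← e4 i i.2]; exact ((Φ.tw hn').ρ_refl ..).symm) ⟨r, d⟩)
    · have : ∀ r, R.pos r → R.pos ((Φ.ρ⁻¹ * F.ρ ^ j) r) := fun r d => by
        rwa [← (T.comp (tw h)).pos_ρ, ← b2, ← Equiv.Perm.mul_apply, mul_inv_cancel_left, show F.ρ ^ j = _ from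
          (twPow_ρ (tw h) j).symm, Tw.pos_ρ]
      exact fun r d => sq (Φ.ρ⁻¹ * F.ρ ^ j) ▸ this _ (this r d)
  obtain ⟨o, ho⟩ : ∃ o, orderOf F.ρ = o + 1 := ⟨_, (Nat.succ_pred_eq_of_pos (orderOf_pos _)).symm⟩
  have d6 : F.ρ ^ (j * o) = (F.ρ ^ j)⁻¹ := eq_inv_of_mul_eq_one_left (by
    rw [← pow_add, ← mul_add_one, ← ho, mul_comm, pow_mul, pow_orderOf_eq_one, one_pow])
  obtain ⟨x, e1⟩ := (b4.mul (a2 (j * o))).pow 2
  obtain ⟨b, -, e2⟩ := un_eq hA (T' := twPow (tw h) ((o + 1) * j * 2)) (by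
    rw [twPow_ρ, twPow_ρ, mul_assoc, ← ho, pow_mul, show (tw h).ρ ^ _ = 1 from pow_orderOf_eq_one F.ρ, one_pow, ← inv_eq_one, ← inv_pow]
    rw [← conj_eq_one_iff (a := F.ρ ^ j), ← conj_pow, b2] at d5
    simpa [Tw.comp, twPow_ρ, tw, d6, mul_assoc] using d5)
      (((hT.comp a1).comp (a1.pow (j * o))).pow 2) (by convert a1.pow _ using 1; rw [hj]; ring)
  obtain ⟨k, hk⟩ := exists_pow_eq_self_of_coprime (x := β) (n := 2) oc.odd.coprime_two_left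
  have e3 : In (β ^ 2) e (x * b) id := fun y => by
    have := a2 ((o + 1) * j * 2) y
    simp only [MulAut.one_apply, one_mul, inv_one, mul_one] at this
    simpa [← this] using e1.conj e2 y
  exact ⟨_, hk ▸ e3.pow k⟩

theorem g2 : G2 := by
  rintro p _ Γ _ h0 ⟨ι, κ, _, _, _, _, R, C, K, G, G0, _, _, _, S, _, _, F, e, π, a, b0, b1, ⟨f, b2⟩, b⟩ β - x y x2 y2 - - - xy ox
  obtain ⟨Φ, θ, ε, c1, c2, c3, c4, c5, c6⟩ := a.quot
  obtain ⟨g, T, m, d1, d2, d3⟩ := b β ox.odd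
  obtain ⟨τ, hτ⟩ := desc F.top c5 (Amb.surj F.top (σ := T.σ) fun r t => by
    obtain ⟨r, rfl⟩ := T.ρ.surjective r
    obtain ⟨u, hu⟩ := IsAlgClosed.exists_pow_nat_eq (t / T.f r 1) (pow_pos (Fact.out : p.Prime).pos m)
    exact ⟨S.x r u, by rw [T.σ_x, d1, hu, mul_div_cancel₀ _ (T.f_ne one_ne_zero)]⟩)
  obtain ⟨_, d⟩ := fi (T := { T with σ := τ, σ_x := fun r t => by rw [← c5, hτ, T.σ_x, c5], sep := Φ.sep, top := Φ.top }) c1
    ⟨b0, a.conn, Φ.sep, Φ.top, C.adG_center K, Φ.hmul⟩ h0 c2 (by rw [c3]; tauto) (fun s => (c4 s).trans (b2 s)) d1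
      (c6 _ _ _ τ hτ d3) x2 ox
  exact p2 c1 (C.adG_center K) h0 c2 d x2 y2 xy ox

end H27.UA
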