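import Cfsg.Agent.H12.ClassifyQuad

/-! Unipotent isometries in characteristic two, I: basic calculus. -/

set_option autoImplicit false
set_option linter.unusedSectionVars false

namespace H27.UC

open Module Function Submodule Finset
open QuadraticMap hiding sq

theorem down {p : ℕ → Prop} (N : ℕ) (h0 : ∀ n, N ≤ n → p n) (h : ∀ n, p (n + 1) → p n) (n : ℕ) : p n :=
  (le_total N n).elim (h0 n) fun e => Nat.decreasingInduction (fun k _ => h k) (h0 N le_rfl) e

variable {F : Type*} [Field F] [CharP F 2] {V : Type*} [AddCommGroup V] [Module F V] {Q : QuadraticForm F V}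
  {t : End F V} {x y z : V} {d e i j k m n : ℕ}

theorem two0 : (2 : F) = 0 := CharTwo.two_eq_zero

variable (Q t) in
/-- `1 + t` is a unipotent isometry -/
structure Un : Prop where
  inv : ∀ x, Q (x + t x) = Q x
  nil : IsNilpotent t

variable (Q t) in
/-- vanishing of the pairing in degrees `≥ d` -/
def P (x y : V) (d : ℕ) : Prop := ∀ j, d ≤ j → polar Q x ((t ^ j) y) = 0

variable (t) in
/-- the cyclic submodule -/
def cy (y : V) : Submodule F V := span F (Set.range fun i => (t ^ i) y)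

theorem q_add (x y : V) : Q (x + y) = Q x + Q y + polar Q x y := by simp [polar]
theorem q_smul (c : F) (x : V) : Q (c • x) = c ^ 2 * Q x := by rw [QuadraticMap.map_smul, sq, smul_eq_mul]
theorem pol_self (x : V) : polar Q x x = 0 := by rw [polar_self, two_smul, CharTwo.add_self_eq_zero]
theorem pw_pw (i j : ℕ) (x : V) : (t ^ i) ((t ^ j) x) = (t ^ (i + j)) x := by rw [pow_add]; rfl
theorem pw_succ (i : ℕ) (x : V) : t ((t ^ i) x) = (t ^ (i + 1)) x := by rw [pow_succ']; rfl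
theorem pw_succ' (i : ℕ) (x : V) : (t ^ i) (t x) = (t ^ (i + 1)) x := by rw [pow_succ]; rfl
theorem pw_zero (h : (t ^ m) x = 0) (hi : m ≤ i) : (t ^ i) x = 0 := by
  rw [← Nat.sub_add_cancel hi, ← pw_pw, h, map_zero]

theorem pw_mem (i : ℕ) (y : V) : (t ^ i) y ∈ cy t y := subset_span ⟨i, rfl⟩
theorem self_mem (y : V) : y ∈ cy t y := pw_mem 0 y
theorem cy_le {S : Submodule F V} (h : ∀ i, (t ^ i) y ∈ S) : cy t y ≤ S := span_le.2 (Set.range_subset_iff.2 h)
theorem cy_lin {W : Type*} [AddCommGroup W] [Module F W] (φ : V →ₗ[F] W) (h : ∀ i, φ ((t ^ i) y) = 0)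
    (hz : z ∈ cy t y) : φ z = 0 := cy_le (S := LinearMap.ker φ) h hz
theorem cy_pw (hz : z ∈ cy t y) (j : ℕ) : (t ^ j) z ∈ cy t ((t ^ j) y) :=
  cy_le (S := (cy t _).comap (t ^ j)) (fun i => by
    rw [mem_comap, pw_pw, add_comm, ← pw_pw]; exact pw_mem _ _) hz
theorem cy_mono (h : i ≤ j) : cy t ((t ^ j) y) ≤ cy t ((t ^ i) y) := cy_le fun k => by
  rw [pw_pw, show k + j = k + j - i + i by omega, ← pw_pw]; exact pw_mem _ _
theorem cy_le' (j : ℕ) : cy t ((t ^ j) y) ≤ cy t y := cy_le fun k => by rw [pw_pw]; exact pw_mem _ _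
theorem cy_inv {S : Submodule F V} (h : ∀ v ∈ S, t v ∈ S) (hy : y ∈ S) : cy t y ≤ S := cy_le fun i => by
  induction i with
  | zero => exact hy
  | succ i ih => exact pw_succ (t := t) i y ▸ h _ ih
theorem cy_zero (hz : z ∈ cy t ((t ^ e) y)) (h : (t ^ m) y = 0) (hj : m ≤ j + e) : (t ^ j) z = 0 :=
  cy_lin _ (fun i => by rw [pw_pw, pw_pw, pw_zero h (by omega)]) hz
theorem cy_dec (hz : z ∈ cy t y) : ∃ c : F, z - c • y ∈ cy t (t y) := by
  obtain ⟨a, ha, b, hb, rfl⟩ := Submodule.mem_sup.1 (cy_le (S := (F ∙ y) ⊔ cy t (t y)) (fun i => by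
    rcases i with _ | i
    exacts [mem_sup_left (mem_span_singleton_self y), mem_sup_right (pw_mem i (t y))]) hz)
  obtain ⟨c, rfl⟩ := mem_span_singleton.1 ha
  exact ⟨c, by simpa⟩

theorem P.of (h : (t ^ m) y = 0) : P Q t x y m := fun j hj => by rw [pw_zero h hj, polar_zero_right]
theorem P.cy (h : P Q t x y 0) (hz : z ∈ cy t y) : P Q t x z 0 := fun j _ =>
  cy_lin (Q.polarBilin x) (fun i => h i i.zero_le) (cy_le' j (cy_pw hz j))

namespace Un
variable (h : Un Q t)
include h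

theorem qt (x : V) : Q (t x) = polar Q x (t x) := by
  have := h.inv x
  rw [q_add] at this; linear_combination this - polar Q x (t x) * two0 (F := F)

theorem ft (x y : V) : polar Q (t x) y = polar Q x (t y) + polar Q (t x) (t y) := by
  have := h.inv (x + y)
  rw [_root_.map_add t, add_add_add_comm, q_add, h.inv, h.inv, q_add] at this
  simp only [polar_add_left, polar_add_right] at this
  linear_combination this - (polar Q x (t y) + polar Q (t x) (t y)) * two0 (F := F)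

theorem p0 (hp : P Q t x y d) {a b : ℕ} (hd : d ≤ a + b) : polar Q ((t ^ a) x) ((t ^ b) y) = 0 := by
  obtain ⟨N, hN⟩ := h.nil
  induction a generalizing b with
  | zero => exact hp b (by omega)
  | succ a ih =>
    revert hd
    refine down (p := fun b => d ≤ a + 1 + b → polar Q ((t ^ (a + 1)) x) ((t ^ b) y) = 0) N
      (fun b hb _ => by rw [pow_eq_zero_of_le hb hN]; simp) (fun b ih' hd => ?_) b
    rw [← pw_succ, h.ft, pw_succ, pw_succ, ih (by omega), ih' (by omega), add_zero]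

theorem p1 (hp : P Q t x y (d + 1)) {a b : ℕ} (hd : a + b = d) :
    polar Q ((t ^ a) x) ((t ^ b) y) = polar Q x ((t ^ d) y) := by
  induction a generalizing b with
  | zero => rw [← hd]; simp
  | succ a ih => rw [← pw_succ, h.ft, pw_succ, pw_succ, ih (by omega), h.p0 hp (by omega), add_zero]

theorem symm (hp : P Q t x y d) : P Q t y x d := fun j hj => by
  rw [polar_comm]; exact h.p0 hp (b := 0) hj

theorem sw (hy : (t ^ (d + 1)) y = 0) : polar Q y ((t ^ d) x) = polar Q x ((t ^ d) y) := by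
  rw [polar_comm]; exact h.p1 (.of hy) (b := 0) rfl

theorem qs (i : ℕ) (x : V) : Q ((t ^ (i + 1)) x) = polar Q ((t ^ i) x) ((t ^ (i + 1)) x) := by
  rw [← pw_succ, h.qt]

theorem qz (hx : (t ^ m) x = 0) (hj : m < 2 * j) : Q ((t ^ j) x) = 0 := by
  obtain ⟨j, rfl⟩ : ∃ i, j = i + 1 := ⟨j - 1, by omega⟩
  rw [h.qs, h.p0 (.of hx) (by omega)]

theorem ev (hp : P Q t x x (2 * i + 1)) : polar Q x ((t ^ (2 * i)) x) = 0 := by
  rw [← h.p1 hp (two_mul i).symm, pol_self]

theorem od (hp : P Q t x x (2 * i + 2)) : polar Q x ((t ^ (2 * i + 1)) x) = Q ((t ^ (i + 1)) x) := by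
  rw [← h.p1 hp (a := i) (b := i + 1) (by omega), h.qs]

theorem iso (hq : ∀ j, Q ((t ^ (j + 1)) x) = 0) : P Q t x x 0 := by
  obtain ⟨N, hN⟩ := h.nil
  refine down (p := P Q t x x) N (fun n hn => .of (by rw [pow_eq_zero_of_le hn hN]; rfl)) (fun n ih j hj => ?_) 0
  rcases hj.lt_or_eq with hj | rfl
  · exact ih j hj
  obtain ⟨i, rfl | rfl⟩ := n.even_or_odd'
  exacts [h.ev ih, (h.od ih).trans (hq i)]

theorem pc (hp : P Q t x y 0) {v w : V} (hv : v ∈ cy t x) (hw : w ∈ cy t y) : polar Q v w = 0 :=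
  (h.symm (h.symm (hp.cy hw) |>.cy hv)) 0 le_rfl

theorem ts (hq : ∀ j, Q ((t ^ j) x) = 0) (hz : z ∈ cy t x) : Q z = 0 := by
  induction hz using span_induction with
  | mem _ h => obtain ⟨i, rfl⟩ := h; exact hq i
  | zero => simp
  | add a b ha hb h1 h2 => rw [q_add, h1, h2, h.pc (h.iso fun j => hq _) ha hb]; simp
  | smul c a _ h1 => rw [q_smul, h1, mul_zero]

theorem ts' (hq : ∀ j, m ≤ j → Q ((t ^ j) x) = 0) (hz : z ∈ cy t ((t ^ e) x)) (hm : m ≤ i + e) : Q ((t ^ i) z) = 0 :=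
  h.ts (x := (t ^ i) ((t ^ e) x)) (fun j => by rw [pw_pw, pw_pw, hq _ (by omega)]) (cy_pw hz i)

/-- adding an element of high filtration -/
theorem qadd (hy : (t ^ (2 * k + 1)) y = 0) (hz : z ∈ cy t ((t ^ 1) y)) (x : V) : Q ((t ^ k) (x + z)) = Q ((t ^ k) x) := by
  have := cy_pw hz k
  rw [pw_pw] at this
  rw [_root_.map_add, q_add, h.ts' (m := k + 1) (fun j hj => h.qz hy (by omega)) hz le_rfl, add_zero,
    show polar Q ((t ^ k) x) ((t ^ k) z) = 0 from cy_lin (Q.polarBilin _) (fun i => by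
      rw [pw_pw]; exact h.p0 (.of hy) (by omega)) this, add_zero]

theorem kill (hy : (t ^ (d + 1)) y = 0) (hq : ∀ i, d + 1 ≤ i + n → Q ((t ^ i) y) = 0) (he : e + 2 * n = d + 2)
    (hx : polar Q x ((t ^ d) y) = 1) : ∃ z ∈ cy t ((t ^ e) y), (∀ i < n, Q ((t ^ i) (x + z)) = 0) ∧
      (∀ i, n ≤ i → Q ((t ^ i) (x + z)) = Q ((t ^ i) x)) ∧ polar Q (x + z) ((t ^ d) y) = 1 := by
  induction n generalizing x e with
  | zero => exact ⟨0, zero_mem _, by simp, by simp, by simpa⟩
  | succ n ih =>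
    have h1 : ∀ i, n ≤ i → Q ((t ^ i) (x + Q ((t ^ n) x) • (t ^ e) y)) = Q ((t ^ i) x) +
        Q ((t ^ n) x) * polar Q ((t ^ i) x) ((t ^ (i + e)) y) := fun i hi => by
      rw [_root_.map_add, _root_.map_smul, q_add, q_smul, pw_pw, hq _ (by omega), polar_smul_right]; simp
    obtain ⟨z, a, b, c, k⟩ := ih (x := x + Q ((t ^ n) x) • (t ^ e) y) (e := e + 2) (fun i hi => hq i (by omega)) (by omega) (by
      rw [polar_add_left, polar_smul_left, hx, show polar Q ((t ^ e) y) ((t ^ d) y) = 0 from ?_]; simp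
      rcases e with _ | e
      · obtain rfl : d = 2 * n := by omega
        exact h.ev (.of hy)
      · exact h.p0 (.of hy) (by omega))
    refine ⟨_, add_mem (smul_mem _ (Q ((t ^ n) x)) (self_mem _)) (cy_mono (by omega) a), fun i hi => ?_, fun i hi => ?_,
      by rwa [← add_assoc]⟩ <;> rw [← add_assoc]
    · rcases (Nat.lt_succ_iff.1 hi).lt_or_eq with hi | rfl
      · exact b i hi
      · rw [c i le_rfl, h1 i le_rfl, h.p1 (d := d) (.of hy) (by omega), hx, mul_one, CharTwo.add_self_eq_zero]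
    · rw [c i (by omega), h1 i (by omega), h.p0 (.of hy) (by omega), mul_zero, add_zero]

end Un

theorem sol {ι : Type*} [Fintype ι] [DecidableEq ι] {x w : ι → V} (hw : ∀ i, (t ^ (d + 1)) (w i) = 0)
    (hx : ∀ i j, polar Q (x i) ((t ^ d) (w j)) = if i = j then 1 else 0) (he : n + e = d + 1) (a : ι → ℕ → F) :
    ∃ z ∈ ⨆ i, cy t ((t ^ e) (w i)), ∀ i, ∀ j < n, polar Q (x i) ((t ^ j) z) = a i j := by
  induction n generalizing a e with
  | zero => exact ⟨0, zero_mem _, by simp⟩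
  | succ n ih =>
    obtain ⟨z, h1, h2⟩ := ih (e := e + 1) (by omega) fun i j => a i j -
      polar Q (x i) ((t ^ j) (∑ k, a k n • (t ^ e) (w k)))
    refine ⟨∑ k, a k n • (t ^ e) (w k) + z, add_mem (sum_mem fun k _ => smul_mem _ _ (mem_iSup_of_mem k (self_mem _)))
      (iSup_mono (fun k => cy_mono (by omega)) h1), fun i j hj => ?_⟩
    rw [_root_.map_add, polar_add_right]
    rcases (Nat.lt_succ_iff.1 hj).lt_or_eq with hj | rfl
    · rw [h2 i j hj, add_sub_cancel]
    · rw [show (t ^ j) z = 0 from iSup_le (a := LinearMap.ker (t ^ j)) (fun k z hz => cy_zero hz (hw k) (by omega)) h1,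
        ← polarBilin_apply_apply, _root_.map_sum, _root_.map_sum]
      simp [pw_pw, show j + e = d by omega, hx]

theorem sol1 (hy : (t ^ (d + 1)) y = 0) (hx : polar Q x ((t ^ d) y) = 1) (he : n + e = d + 1) (a : ℕ → F) :
    ∃ z ∈ cy t ((t ^ e) y), ∀ j < n, polar Q x ((t ^ j) z) = a j := by
  simpa using sol (ι := Unit) (x := fun _ => x) (w := fun _ => y) (fun _ => hy) (fun _ _ => hx) he fun _ => a

end H27.UC
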