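import Cfsg.Agent.H27.UC1

/-! Unipotent isometries in characteristic two, II: blocks. -/

set_option autoImplicit false
set_option linter.unusedSectionVars false

namespace H27.UC

open Module Function Submodule Finset
open QuadraticMap hiding sq

variable {F : Type*} [Field F] [CharP F 2] {V : Type*} [AddCommGroup V] [Module F V] {Q : QuadraticForm F V}
  {t : End F V} {x y z : V} {d e i j k m n : ℕ} {β : F} {S S' : Submodule F V}

/-- block types -/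
abbrev Bl := Fin 4 × ℕ
/-- length of the first generator -/
def mx (b : Bl) : ℕ := ![2 * b.2 + 2, 2 * b.2 + 2, 2 * b.2 + 1, b.2 + 1] b.1
/-- length of the second generator -/
def my (b : Bl) : ℕ := ![0, 0, 2 * b.2 + 1, b.2 + 1] b.1
/-- dimension -/
def dm (b : Bl) : ℕ := mx b + my b
/-- values on the first generator -/
def dA (β : F) (b : Bl) (j : ℕ) : F := ![if j = b.2 + 1 then 1 else 0,
  if j = b.2 + 1 then 1 else if j = b.2 then β else 0, if j = b.2 then 1 else 0, 0] b.1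
/-- values on the second generator -/
def dB (β : F) (b : Bl) (j : ℕ) : F := ![0, 0, if j = b.2 then β else 0, 0] b.1
variable (F) in
/-- the pairing -/
def dC (b : Bl) (j : ℕ) : F := ![0, 0, if j = 2 * b.2 then 1 else 0, if j = b.2 then 1 else 0] b.1

variable (Q t β) in
/-- generators of a block -/
structure Dat (b : Bl) (x y : V) : Prop where
  nx : (t ^ mx b) x = 0
  ny : (t ^ my b) y = 0
  qx : ∀ j, Q ((t ^ j) x) = dA β b j
  qy : ∀ j, Q ((t ^ j) y) = dB β b j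
  c : ∀ j, polar Q x ((t ^ j) y) = dC F b j

variable (Q t) in
/-- good subspaces -/
structure Gd (S : Submodule F V) : Prop where
  nd : ∀ v ∈ S, (∀ w ∈ S, polar Q v w = 0) → v = 0
  inv : ∀ v ∈ S, t v ∈ S

variable {b : Bl} {M : Multiset Bl} [FiniteDimensional F V]

variable (Q t β) in
/-- realisation of a multiset of blocks -/
def Re (S : Submodule F V) (M : Multiset Bl) : Prop := ∃ (ι : Type) (_ : Fintype ι) (x y : ι → V) (b : ι → Bl),
  univ.val.map b = M ∧ (∀ i, Dat Q t β (b i) (x i) (y i)) ∧ (∀ i j, i ≠ j → ∀ v ∈ cy t (x i) ⊔ cy t (y i),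
    ∀ w ∈ cy t (x j) ⊔ cy t (y j), polar Q v w = 0) ∧ S = ⨆ i, cy t (x i) ⊔ cy t (y i) ∧ finrank F S = (M.map dm).sum

theorem Re.cons (h : Re Q t β S' M) (hb : Dat Q t β b x y) (ho : ∀ v ∈ cy t x ⊔ cy t y, ∀ w ∈ S', polar Q v w = 0)
    (hS : S = cy t x ⊔ cy t y ⊔ S') (hd : finrank F S = dm b + finrank F S') : Re Q t β S (b ::ₘ M) := by
  obtain ⟨ι, _, X, Y, B, rfl, h1, h2, rfl, h3⟩ := h
  refine ⟨Option ι, inferInstance, fun o => o.elim x X, fun o => o.elim y Y, fun o => o.elim b B, ?_, ?_, ?_,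
    by rw [hS, iSup_option]; rfl, by simp [hd, h3]⟩
  · simp [univ_option, insertNone]; rfl
  · rintro (_ | i)
    exacts [hb, h1 i]
  · rintro (_ | i) (_ | j) e v hv w hw
    · exact absurd rfl e
    · exact ho v hv w (mem_iSup_of_mem j hw)
    · rw [polar_comm]; exact ho w hw v (mem_iSup_of_mem i hv)
    · exact h2 i j (by simpa using e) v hv w hw

theorem Re.mem (h : Re Q t β S M) (hb : M.count b ≠ 0) : ∃ x ∈ S, ∃ y ∈ S, Dat Q t β b x y := by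
  obtain ⟨ι, _, X, Y, B, rfl, h1, -, rfl, -⟩ := h
  obtain ⟨i, -, rfl⟩ := Multiset.mem_map.1 (Multiset.count_ne_zero.1 hb)
  exact ⟨_, mem_iSup_of_mem i (mem_sup_left (self_mem _)), _, mem_iSup_of_mem i (mem_sup_right (self_mem _)), h1 i⟩

theorem Dat.v {a : Fin 4} (h : Dat Q t β (a, k) x y) (ha : a = 0 ∨ a = 1) :
    (t ^ (2 * k + 2)) x = 0 ∧ Q ((t ^ (k + 1)) x) = 1 := by
  rcases ha with rfl | rfl <;> exact ⟨h.nx, by simp [h.qx, dA]⟩

theorem Re.memV (h : Re Q t β S M) (hb : M.count (0, k) + M.count (1, k) ≠ 0) :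
    ∃ x ∈ S, (t ^ (2 * k + 2)) x = 0 ∧ Q ((t ^ (k + 1)) x) = 1 := by
  by_cases h0 : M.count (0, k) = 0
  · obtain ⟨x, a, y, -, c⟩ := h.mem (b := (1, k)) (by omega); exact ⟨x, a, c.v (.inr rfl)⟩
  · obtain ⟨x, a, y, -, c⟩ := h.mem h0; exact ⟨x, a, c.v (.inl rfl)⟩

theorem Re.two (h : Re Q t β S M) (hb : 2 ≤ M.count (0, k) + M.count (1, k)) :
    ∃ x ∈ S, ∃ y ∈ S, ((t ^ (2 * k + 2)) x = 0 ∧ Q ((t ^ (k + 1)) x) = 1) ∧
      ((t ^ (2 * k + 2)) y = 0 ∧ Q ((t ^ (k + 1)) y) = 1) ∧ ∀ i j, polar Q ((t ^ i) x) ((t ^ j) y) = 0 := by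
  classical
  obtain ⟨ι, _, X, Y, B, rfl, h1, h2, rfl, -⟩ := h
  obtain ⟨i, hi, j, hj, e⟩ := one_lt_card.1 (show 1 < #(univ.filter (fun i => (0, k) = B i) ∪ univ.filter fun i => (1, k) = B i) by
    rw [card_union_of_disjoint (disjoint_filter.2 fun _ _ a b => by simpa using a.trans b.symm)]
    simp only [Multiset.count_map] at hb; exact hb)
  have : ∀ i ∈ univ.filter (fun i => (0, k) = B i) ∪ univ.filter fun i => (1, k) = B i,
      (t ^ (2 * k + 2)) (X i) = 0 ∧ Q ((t ^ (k + 1)) (X i)) = 1 := fun i hi => by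
    simp only [Finset.mem_union, mem_filter_univ] at hi
    exact hi.elim (fun e => (e ▸ h1 i).v (.inl rfl)) fun e => (e ▸ h1 i).v (.inr rfl)
  exact ⟨_, mem_iSup_of_mem i (mem_sup_left (self_mem _)), _, mem_iSup_of_mem j (mem_sup_left (self_mem _)),
    this i hi, this j hj, fun _ _ => h2 i j e _ (mem_sup_left (pw_mem _ _)) _ (mem_sup_left (pw_mem _ _))⟩

namespace Un
variable (h : Un Q t) (hS : Gd Q t S)
include h hS

theorem split {ι : Type*} [Fintype ι] [DecidableEq ι] {x : ι → V} (σ : ι → ι) (h1 : ∀ i, x i ∈ S)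
    (h2 : ∀ i, (t ^ (d + 1)) (x i) = 0) (h3 : ∀ i j, polar Q (x i) ((t ^ d) (x (σ j))) = if i = j then 1 else 0) :
    ∃ S', Gd Q t S' ∧ (∀ v ∈ ⨆ i, cy t (x i), ∀ w ∈ S', polar Q v w = 0) ∧ S = (⨆ i, cy t (x i)) ⊔ S' ∧
      finrank F S = Fintype.card ι * (d + 1) + finrank F S' := by
  let φ : V →ₗ[F] ι → Fin (d + 1) → F := .pi fun i => .pi fun j => Q.polarBilin (x i) ∘ₗ t ^ j.1
  have a1 : ∀ w, w ∈ LinearMap.ker φ ↔ ∀ i, P Q t (x i) w 0 := fun w => ⟨fun e i j _ => if hj : j < d + 1 then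
    congrFun (congrFun e i) ⟨j, hj⟩ else h.symm (.of (h2 i)) j (by omega), fun e => funext fun i => funext fun j =>
      e i j j.1.zero_le⟩
  have a2 : ⨆ i, cy t (x i) ≤ S := iSup_le fun i => cy_inv hS.inv (h1 i)
  have a3 : ∀ a, ∃ z ∈ ⨆ i, cy t (x i), φ z = a := fun a => by
    obtain ⟨z, c1, c2⟩ := sol (n := d + 1) (e := 0) (fun i => h2 (σ i)) h3 rfl fun i j =>
      if hj : j < d + 1 then a i ⟨j, hj⟩ else 0
    exact ⟨z, iSup_le (fun i => (cy_le' 0).trans (le_iSup (fun i => cy t (x i)) _)) c1,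
      funext fun i => funext fun j => (c2 i j j.2).trans (dif_pos j.2)⟩
  have a4 : ∀ v ∈ ⨆ i, cy t (x i), ∀ w ∈ S ⊓ LinearMap.ker φ, polar Q v w = 0 := fun v hv w hw =>
    iSup_le (a := LinearMap.ker (Q.polarBilin.flip w)) (fun i v hv => h.pc ((a1 w).1 hw.2 i) hv (self_mem w)) hv
  have a5 : S = (⨆ i, cy t (x i)) ⊔ S ⊓ LinearMap.ker φ := le_antisymm (fun v hv => by
    obtain ⟨z, c1, c2⟩ := a3 (φ v)
    exact Submodule.mem_sup.2 ⟨z, c1, v - z, ⟨sub_mem hv (a2 c1), by simp [c2]⟩, by simp⟩) (sup_le a2 inf_le_left)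
  refine ⟨S ⊓ LinearMap.ker φ, ⟨fun v hv e => hS.nd v hv.1 fun w hw => ?_, fun v hv => ⟨hS.inv v hv.1, (a1 _).2 fun i j _ => ?_⟩⟩, a4, a5, ?_⟩
  · obtain ⟨a, ha, b, hb, rfl⟩ := Submodule.mem_sup.1 (a5.le hw)
    rw [polar_add_right, e b hb, polar_comm, a4 a ha v hv, add_zero]
  · rw [pw_succ']; exact (a1 v).1 hv.2 i _ (Nat.zero_le _)
  · rw [← (φ.domRestrict S).finrank_range_add_finrank_ker, LinearMap.range_eq_top.2 fun a =>
      let ⟨z, c1, c2⟩ := a3 a; ⟨⟨z, a2 c1⟩, c2⟩, LinearMap.ker_domRestrict, ← finrank_map_subtype_eq, map_comap_subtype]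
    simp [finrank_pi_fintype]

theorem split' (hb : Dat Q t β b x y) (hx : x ∈ S) (hy : y ∈ S) : ∃ S', Gd Q t S' ∧
    (∀ v ∈ cy t x ⊔ cy t y, ∀ w ∈ S', polar Q v w = 0) ∧ S = cy t x ⊔ cy t y ⊔ S' ∧ finrank F S = dm b + finrank F S' := by
  obtain ⟨a, k⟩ := b
  by_cases ha : a = 0 ∨ a = 1
  · obtain rfl : y = 0 := by rcases ha with rfl | rfl <;> exact hb.ny
    obtain ⟨S', c⟩ := h.split hS (ι := Unit) (x := fun _ => x) (d := 2 * k + 1) id (fun _ => hx) (fun _ => (hb.v ha).1)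
      fun _ _ => (h.od (.of (hb.v ha).1)).trans (hb.v ha).2
    refine ⟨S', ?_⟩
    rw [show cy t (0 : V) = ⊥ by simp [cy], sup_bot_eq, show dm (a, k) = 2 * k + 1 + 1 by rcases ha with rfl | rfl <;> rfl]
    simpa using c
  obtain ⟨d, c1, c2, c3, c4, c5, c6⟩ : ∃ d, (t ^ (d + 1)) x = 0 ∧ (t ^ (d + 1)) y = 0 ∧ polar Q x ((t ^ d) x) = 0 ∧
      polar Q y ((t ^ d) y) = 0 ∧ polar Q x ((t ^ d) y) = 1 ∧ dm (a, k) = 2 * (d + 1) := by
    obtain rfl | rfl : a = 2 ∨ a = 3 := by omega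
    · exact ⟨2 * k, hb.nx, hb.ny, h.ev (.of hb.nx), h.ev (.of hb.ny), by simp [hb.c, dC], (two_mul _).symm⟩
    · exact ⟨k, hb.nx, hb.ny, h.iso (fun _ => hb.qx _) _ k.zero_le, h.iso (fun _ => hb.qy _) _ k.zero_le,
        by simp [hb.c, dC], (two_mul _).symm⟩
  obtain ⟨S', c⟩ := h.split hS (ι := Bool) (x := fun i => cond i x y) (d := d) not (by simp [hx, hy]) (by simp [c1, c2])
    (by simp [c3, c4, c5, h.sw c2])
  exact ⟨S', by simpa [iSup_bool_eq, c6] using c⟩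

theorem normW (hx : x ∈ S) (hy : y ∈ S) (h1 : (t ^ (d + 1)) x = 0) (h2 : (t ^ (d + 1)) y = 0)
    (h3 : Q ((t ^ ((d + 1) / 2)) x) = 0) (h4 : Odd d → Q ((t ^ ((d + 1) / 2)) y) = 0) (h5 : polar Q x ((t ^ d) y) ≠ 0) :
    ∃ x ∈ S, ∃ y ∈ S, Dat Q t β (3, d) x y := by
  obtain ⟨y, hy, h2, h4, h5⟩ : ∃ y ∈ S, (t ^ (d + 1)) y = 0 ∧ (∀ i, d / 2 + 1 ≤ i → Q ((t ^ i) y) = 0) ∧
      polar Q x ((t ^ d) y) = 1 := ⟨(polar Q x ((t ^ d) y))⁻¹ • y, smul_mem _ _ hy, by simp [h2], fun i hi => by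
    rw [_root_.map_smul, q_smul, mul_eq_zero]; right
    by_cases e : d + 1 < 2 * i
    exacts [h.qz h2 e, (show (d + 1) / 2 = i by omega) ▸ h4 ⟨d / 2, by omega⟩], by simp [h5]⟩
  obtain ⟨z, a1, a2, a3, a4⟩ := h.kill (n := (d + 1) / 2) (e := d + 2 - 2 * ((d + 1) / 2)) h2
    (fun i hi => h4 i (by omega)) (by omega) h5
  have a5 : ∀ i, Q ((t ^ i) (x + z)) = 0 := fun i => (lt_trichotomy i _).elim (a2 i) fun e => e.elim
    (fun e => by rw [a3 i e.ge, e, h3]) fun e => by rw [a3 i e.le, h.qz h1 (by omega)]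
  have a6 : (t ^ (d + 1)) (x + z) = 0 := by rw [_root_.map_add, h1, cy_zero a1 h2 (by omega), add_zero]
  have a7 := add_mem hx (cy_inv hS.inv hy (cy_le' _ a1))
  obtain ⟨y', b1, b2⟩ := sol1 (n := d + 1) (e := 0) h2 a4 rfl (dC F (3, d))
  have b3 := cy_zero b1 h2 le_rfl
  obtain ⟨w, c1, c2, c3, -⟩ := h.kill (x := y') (n := d / 2 + 1) (e := d - 2 * (d / 2)) a6 (fun i _ => a5 i) (by omega)
    (by rw [h.sw b3, b2 d (by omega)]; simp [dC])
  have c4 : (t ^ (d + 1)) (y' + w) = 0 := by rw [_root_.map_add, b3, cy_zero c1 a6 (by omega), add_zero]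
  refine ⟨_, a7, _, add_mem (cy_inv hS.inv hy (cy_le' _ b1)) (cy_inv hS.inv a7 (cy_le' _ c1)), a6, c4, a5, fun j =>
    (lt_or_ge j _).elim (c2 j) fun e => (c3 j e).trans (h.ts' h4 b1 e), fun j => (lt_or_ge j (d + 1)).elim (fun e => ?_)
      fun e => by rw [P.of c4 j e]; simp [dC]; omega⟩
  rw [_root_.map_add, polar_add_right, b2 j e, (h.iso fun _ => a5 _).cy (cy_le' _ c1) j j.zero_le, add_zero]

theorem normV {a : Fin 4} (ha : a = 0 ∨ a = 1) (hx : x ∈ S) (h1 : (t ^ (2 * k + 2)) x = 0)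
    (h2 : Q ((t ^ (k + 1)) x) = 1) (h3 : Q ((t ^ k) x) = dA β (a, k) k) : ∃ x ∈ S, Dat Q t β (a, k) x 0 := by
  obtain ⟨z, a1, a2, a3, -⟩ := h.kill (d := 2 * k + 1) (n := k) (e := 3) h1 (fun i hi => h.qz h1 (by omega)) (by omega)
    ((h.od (.of h1)).trans h2)
  have a6 : (t ^ (2 * k + 2)) (x + z) = 0 := by rw [_root_.map_add, h1, cy_zero a1 h1 (by omega), add_zero]
  have : ∀ j, Q ((t ^ j) (x + z)) = dA β (a, k) j := fun j => by
    rcases lt_trichotomy j k with e | rfl | e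
    · rw [a2 j e]; rcases ha with rfl | rfl <;> simp [dA, e.ne, (e.trans k.lt_succ_self).ne]
    · rw [a3 j le_rfl, h3]
    rcases (Nat.succ_le_of_lt e).lt_or_eq with e' | rfl
    · rw [h.qz a6 (by omega)]; rcases ha with rfl | rfl <;> simp [dA, e.ne', e'.ne']
    · rw [a3 _ e.le, h2]; rcases ha with rfl | rfl <;> simp [dA]
  rcases ha with rfl | rfl <;> exact ⟨_, add_mem hx (cy_inv hS.inv hx (cy_le' _ a1)), a6, rfl, this, by simp [dB],
    by simp [dC]⟩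

theorem normT (hx : x ∈ S) (hy : y ∈ S) (h1 : (t ^ (2 * k + 1)) x = 0) (h2 : (t ^ (2 * k + 1)) y = 0)
    (h3 : Q ((t ^ k) x) = 1) (h4 : Q ((t ^ k) y) = β) (h5 : polar Q x ((t ^ (2 * k)) y) = 1) :
    ∃ x ∈ S, ∃ y ∈ S, Dat Q t β (2, k) x y := by
  have hq : ∀ {v} {c : F}, (t ^ (2 * k + 1)) v = 0 → (∀ i < k, Q ((t ^ i) v) = 0) → Q ((t ^ k) v) = c → ∀ j,
      Q ((t ^ j) v) = if j = k then c else 0 := fun a b c j => by
    rcases lt_trichotomy j k with e | rfl | e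
    exacts [by rw [b j e, if_neg e.ne], by rw [c, if_pos rfl], by rw [h.qz a (by omega), if_neg e.ne']]
  have hm : ∀ {v z e}, v ∈ S → z ∈ cy t ((t ^ e) v) → z ∈ S := fun a b => cy_inv hS.inv a (cy_le' _ b)
  have hn : ∀ {u v z e}, (t ^ (2 * k + 1)) u = 0 → (t ^ (2 * k + 1)) v = 0 → z ∈ cy t ((t ^ e) v) →
    (t ^ (2 * k + 1)) (u + z) = 0 := fun a b c => by rw [_root_.map_add, a, cy_zero c b (by omega), add_zero]
  obtain ⟨z, a1, a2, a3, a4⟩ := h.kill (n := k) (e := 2) h2 (fun i hi => h.qz h2 (by omega)) (by omega) h5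
  have a5 := hn h1 h2 a1
  have a6 := add_mem hx (hm hy a1)
  replace a3 := (a3 k le_rfl).trans h3
  generalize x + z = x at a2 a3 a4 a5 a6
  have key : ∀ v, ∃ z ∈ cy t ((t ^ 1) y), ∀ j < 2 * k, polar Q x ((t ^ j) (v + z)) = 0 := fun v =>
    (sol1 (n := 2 * k) (e := 1) h2 a4 rfl fun j => -polar Q x ((t ^ j) v)).imp fun z hz =>
      ⟨hz.1, fun j hj => by rw [_root_.map_add, polar_add_right, hz.2 j hj, add_neg_cancel]⟩
  obtain ⟨y', b1, b2⟩ := key y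
  obtain ⟨w, c1, c2⟩ := key x
  have b3 := hn h2 h2 b1
  have b4 : polar Q x ((t ^ (2 * k)) (y + y')) = 1 := by rw [_root_.map_add, cy_zero b1 h2 le_rfl, add_zero, a4]
  have c3 := hn a5 h2 c1
  have c4 : (t ^ (2 * k)) (x + w) = (t ^ (2 * k)) x := by rw [_root_.map_add, cy_zero c1 h2 le_rfl, add_zero]
  have c5 : P Q t x (x + w) 0 := fun j _ => by
    rcases lt_trichotomy j (2 * k) with e | rfl | e
    exacts [c2 j e, by rw [c4, h.ev (.of a5)], P.of c3 j e]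
  obtain ⟨u, d1, d2, d3, -⟩ := h.kill (x := y + y') (n := k) (e := 2) c3 (fun i hi => h.qz c3 (by omega)) (by omega)
    (by rw [c4, h.sw b3, b4])
  have d4 := hn b3 c3 d1
  refine ⟨x, a6, _, add_mem (add_mem hy (hm hy b1)) (hm (add_mem a6 (hm hy c1)) d1), a5, d4, hq a5 a2 a3,
    hq d4 d2 (by rw [d3 k le_rfl, h.qadd h2 b1, h4]), fun j => ?_⟩
  rw [_root_.map_add, polar_add_right, c5.cy (cy_le' _ d1) j j.zero_le, add_zero]
  rcases lt_trichotomy j (2 * k) with e | rfl | e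
  exacts [by rw [b2 j e]; simp [dC, e.ne], by rw [b4]; simp [dC], by rw [P.of b3 j e]; simp [dC, e.ne']]

end Un

end H27.UC
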