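import Cfsg.Agent.H27.UC2

/-! Unipotent isometries in characteristic two, III: normal forms. -/

set_option autoImplicit false
set_option linter.unusedSectionVars false

namespace H27.UC

open Module Function Submodule Finset
open QuadraticMap hiding sq

variable {F : Type*} [Field F] [CharP F 2] {V : Type*} [AddCommGroup V] [Module F V] {Q : QuadraticForm F V}
  {t : End F V} {x y z : V} {d e i j k m n : ℕ} {β : F} {S S' : Submodule F V} {b : Bl} {M : Multiset Bl}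

/-- admissible multisets of blocks -/
def Val (M : Multiset Bl) : Prop := ∀ k, M.count (0, k) + M.count (1, k) ≤ 2 ∧ M.count (1, k) ≤ 1 ∧ M.count (2, k) ≤ 1 ∧
  (M.count (2, k) = 0 ∨ M.count (0, k) + M.count (1, k) = 0) ∧
  (M.count (1, k + 1) + M.count (2, k + 1) = 0 ∨ M.count (0, k) + M.count (1, k) = 0)

theorem Val.cons (h : Val M) {a : Fin 4} (h1 : a = 0 ∨ a = 1 → M.count (0, k) + M.count (1, k) ≤ 1 ∧ M.count (2, k) = 0 ∧
    M.count (1, k + 1) + M.count (2, k + 1) = 0) (h2 : a = 1 → M.count (1, k) = 0)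
    (h3 : a = 2 → M.count (0, k) + M.count (1, k) = 0 ∧ M.count (2, k) = 0)
    (h4 : a = 1 ∨ a = 2 → ∀ j, k = j + 1 → M.count (0, j) + M.count (1, j) = 0) : Val ((a, k) ::ₘ M) := fun j => by
  have := h j
  have := fun h => h4 h j
  simp only [Multiset.count_cons, Prod.mk.injEq]
  obtain rfl | rfl | rfl | rfl : a = 0 ∨ a = 1 ∨ a = 2 ∨ a = 3 := by omega
  all_goals simp only [Fin.reduceEq, false_and, true_and, if_false, true_or, or_true, forall_true_left] at *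
  all_goals (try split_ifs) <;> (try subst_vars) <;> omega

variable [Finite F] [FiniteDimensional F V] (hβ : ∀ s, s ^ 2 + s ≠ β)

theorem sqrt (c : F) : ∃ r, r ^ 2 = c := let ⟨r, h⟩ := isSquare_of_charTwo' c; ⟨r, by rw [h, sq]⟩

include hβ in
theorem dich (a : F) : ∃ c, a + c ^ 2 + c = 0 ∨ a + c ^ 2 + c = β := by
  by_cases h : ∃ s, s * s + s = a
  · exact h.imp fun s e => .inl (by linear_combination e + a * two0 (F := F))
  · exact (H12.exists_sq_add_self two0 (not_exists.1 h) fun s => sq s ▸ hβ s).imp fun s e =>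
      .inr (by linear_combination e + a * two0 (F := F))

include hβ in
theorem Un.exists_re (h : Un Q t) (hS : Gd Q t S) : ∃ M, Re Q t β S M ∧ Val M := by
  classical
  induction hn : finrank F S using Nat.strong_induction_on generalizing S with | _ n ih =>
  have step : ∀ {b x y}, x ∈ S → y ∈ S → Dat Q t β b x y → ∃ S' M, S' ≤ S ∧ (∀ w ∈ S', ∀ i j,
      polar Q ((t ^ i) x) ((t ^ j) w) = 0 ∧ polar Q w ((t ^ i) y) = 0) ∧ Re Q t β S' M ∧ Val M ∧ Re Q t β S (b ::ₘ M) :=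
    fun {b x y} hx hy hb => by
      obtain ⟨S', a1, a2, a3, a4⟩ := h.split' hS hb hx hy
      obtain ⟨M, a5, a6⟩ := ih _ (by
        have : 0 < dm b := by obtain ⟨a, k⟩ := b; fin_cases a <;> simp [dm, mx]
        omega) a1 rfl
      exact ⟨S', M, a3 ▸ le_sup_right, fun w hw i j => ⟨a2 _ (mem_sup_left (pw_mem _ _)) _ (cy_inv a1.inv hw (pw_mem _ _)),
        (polar_comm _ _ _).trans (a2 _ (mem_sup_right (pw_mem _ _)) _ hw)⟩, a5, a6, a5.cons hb a2 a3 a4⟩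
  by_cases W : ∀ d, ∀ x ∈ S, ∀ y ∈ S, (t ^ (d + 1)) x = 0 → (t ^ (d + 1)) y = 0 → Q ((t ^ ((d + 1) / 2)) x) = 0 →
    (Odd d → Q ((t ^ ((d + 1) / 2)) y) = 0) → polar Q x ((t ^ d) y) = 0
  swap
  · push Not at W
    obtain ⟨d, x, hx, y, hy, a1, a2, a3, a4, a5⟩ := W
    obtain ⟨x, hx, y, hy, hb⟩ := h.normW (β := β) hS hx hy a1 a2 a3 a4 a5
    obtain ⟨-, M, -, -, -, c1, c2⟩ := step hx hy hb
    exact ⟨_, c2, c1.cons (by simp) (by simp) (by simp) (by simp)⟩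
  have We : ∀ k, ∀ x ∈ S, ∀ y ∈ S, (t ^ (2 * k + 1)) x = 0 → (t ^ (2 * k + 1)) y = 0 → Q ((t ^ k) x) = 0 →
      polar Q x ((t ^ (2 * k)) y) = 0 := fun k x a y b c d e =>
    W _ x a y b c d (by rwa [show (2 * k + 1) / 2 = k by omega]) (by simp)
  have Wo : ∀ k, ∀ x ∈ S, ∀ y ∈ S, (t ^ (2 * k + 2)) x = 0 → (t ^ (2 * k + 2)) y = 0 → Q ((t ^ (k + 1)) x) = 0 →
      Q ((t ^ (k + 1)) y) = 0 → polar Q x ((t ^ (2 * k + 1)) y) = 0 := fun k x a y b c d e f =>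
    W _ x a y b c d (by rwa [show (2 * k + 1 + 1) / 2 = k + 1 by omega])
      fun _ => by rwa [show (2 * k + 1 + 1) / 2 = k + 1 by omega]
  have hex : ∃ m, ∀ v ∈ S, (t ^ m) v = 0 := h.nil.imp fun m e v _ => by rw [e]; rfl
  have h1 := Nat.find_spec hex
  rcases hm : Nat.find hex with _ | d
  · obtain rfl : S = ⊥ := eq_bot_iff.2 fun v hv => by simpa [hm] using h1 v hv
    exact ⟨0, ⟨Empty, inferInstance, Empty.elim, Empty.elim, Empty.elim, by simp [iSup_of_empty]⟩, by simp [Val]⟩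
  have h2 := Nat.find_min hex (d.lt_succ_self.trans_eq hm.symm)
  rw [hm] at h1
  push Not at h2
  obtain ⟨y, hy, h2⟩ := h2
  obtain ⟨x, hx, h3⟩ : ∃ x ∈ S, polar Q x ((t ^ d) y) ≠ 0 := by
    by_contra! e
    exact h2 (hS.nd _ (cy_inv hS.inv hy (pw_mem _ _)) fun w hw => (polar_comm _ _ _).trans (e w hw))
  have scale : ∀ j, ∀ x ∈ S, Q ((t ^ j) x) ≠ 0 → ∃ c : F, c ≠ 0 ∧ Q ((t ^ j) (c • x)) = 1 := fun j x _ e => by
    obtain ⟨r, hr⟩ := sqrt (Q ((t ^ j) x))⁻¹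
    exact ⟨r, fun e' => e (by simpa [e'] using hr.symm), by rw [_root_.map_smul, q_smul, hr, inv_mul_cancel₀ e]⟩
  obtain ⟨k, rfl | rfl⟩ := d.even_or_odd'
  · obtain ⟨x, hx, y, hy, a1, a2⟩ : ∃ x ∈ S, ∃ y ∈ S, Q ((t ^ k) x) = 1 ∧ polar Q x ((t ^ (2 * k)) y) = 1 := by
      obtain ⟨c, c0, hc⟩ := scale k x hx fun e => h3 (We k x hx y hy (h1 _ hx) (h1 _ hy) e)
      exact ⟨_, smul_mem _ _ hx, (c * polar Q x ((t ^ (2 * k)) y))⁻¹ • y, smul_mem _ _ hy, hc, by simp; field_simp⟩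
    obtain ⟨c, hc⟩ := dich hβ (Q ((t ^ k) y))
    have a3 := add_mem hy (smul_mem _ c hx)
    have a4 : polar Q x ((t ^ (2 * k)) (y + c • x)) = 1 := by simp [a2, h.ev (.of (h1 _ hx))]
    rw [show Q ((t ^ k) y) + c ^ 2 + c = Q ((t ^ k) (y + c • x)) by
      rw [_root_.map_add, _root_.map_smul, q_add, q_smul, polar_smul_right, polar_comm, a1,
        h.p1 (.of (h1 _ hy)) (two_mul k).symm, a2]; simp] at hc
    obtain ⟨x, hx, y, hy, hb⟩ := h.normT hS hx a3 (h1 _ hx) (h1 _ a3) a1 (hc.resolve_left fun e => zero_ne_one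
      ((We k _ a3 x hx (h1 _ a3) (h1 _ hx) e).symm.trans ((h.sw (h1 _ a3)).trans a4))) a4
    obtain ⟨S', M, c1, c2, c3, c4, c5⟩ := step hx hy hb
    have c6 : ∀ w ∈ S', Q ((t ^ k) w) ≠ 1 := fun w hw e => by
      have := We k _ (add_mem hx (c1 hw)) y hy (h1 _ (add_mem hx (c1 hw))) (h1 _ hy) (by
        rw [_root_.map_add, q_add, hb.qx, e, (c2 w hw _ _).1]; simp [dA, CharTwo.add_self_eq_zero])
      simp [(c2 w hw _ 0).2, hb.c, dC] at this
    refine ⟨_, c5, c4.cons (by simp) (by simp) (fun _ => ⟨by_contra fun e => ?_, by_contra fun e => ?_⟩)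
      fun _ j e => by_contra fun e' => ?_⟩
    · obtain ⟨w, hw, -, e⟩ := c3.memV e
      exact zero_ne_one ((h.qz (h1 _ (c1 hw)) (by omega)).symm.trans e)
    · obtain ⟨w, hw, _, -, e⟩ := c3.mem e
      exact c6 w hw (by simp [e.qx, dA])
    · obtain ⟨w, hw, -, e'⟩ := c3.memV e'
      exact c6 w hw (e ▸ e')
  obtain ⟨a, x, ha, hx, hb, H⟩ : ∃ (a : Fin 4) (x : V), (a = 0 ∨ a = 1) ∧ x ∈ S ∧ Dat Q t β (a, k) x 0 ∧
      (a = 1 → ∀ x ∈ S, Q ((t ^ (k + 1)) x) = 1 → Q ((t ^ k) x) ≠ 0) := by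
    by_cases H : ∀ x ∈ S, Q ((t ^ (k + 1)) x) = 1 → Q ((t ^ k) x) ≠ 0
    swap
    · push Not at H
      obtain ⟨x, hx, a1, a2⟩ := H
      obtain ⟨x, hx, hb⟩ := h.normV (β := β) hS (.inl rfl) hx (h1 _ hx) a1 (by simp [a2, dA])
      exact ⟨0, x, .inl rfl, hx, hb, by simp⟩
    obtain ⟨x, hx, a1⟩ : ∃ x ∈ S, Q ((t ^ (k + 1)) x) = 1 := by
      obtain ⟨x, hx, e⟩ : ∃ x ∈ S, Q ((t ^ (k + 1)) x) ≠ 0 := by
        by_contra! e
        exact h3 (Wo k x hx y hy (h1 _ hx) (h1 _ hy) (e _ hx) (e _ hy))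
      obtain ⟨c, -, hc⟩ := scale _ x hx e
      exact ⟨_, smul_mem _ _ hx, hc⟩
    obtain ⟨c, hc⟩ := dich hβ (Q ((t ^ k) x))
    have a3 := add_mem hx (smul_mem _ c (hS.inv _ hx))
    have a4 : Q ((t ^ (k + 1)) (x + c • t x)) = 1 := by
      rw [_root_.map_add, _root_.map_smul, q_add, q_smul, polar_smul_right, pw_succ', a1, h.qz (h1 _ hx) (by omega),
        h.p0 (.of (h1 _ hx)) (by omega)]; simp
    rw [show Q ((t ^ k) x) + c ^ 2 + c = Q ((t ^ k) (x + c • t x)) by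
      rw [_root_.map_add, _root_.map_smul, q_add, q_smul, polar_smul_right, pw_succ', ← h.qs, a1]; simp] at hc
    obtain ⟨x, hx, hb⟩ := h.normV (β := β) hS (.inr rfl) a3 (h1 _ a3) a4 (by rw [hc.resolve_left (H _ a3 a4)]; simp [dA])
    exact ⟨1, x, .inr rfl, hx, hb, fun _ => H⟩
  obtain ⟨S', M, c1, c2, c3, c4, c5⟩ := step hx (zero_mem _) hb
  have d1 := (hb.v ha).2
  have c6 : a = 1 → ∀ w ∈ S, (∀ j, polar Q ((t ^ j) x) ((t ^ j) w) = 0) → Q ((t ^ (k + 1)) w) = 0 →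
      Q ((t ^ k) w) ≠ 1 := fun e w hw e0 e1 e2 => by
    obtain ⟨r, hr⟩ := sqrt β
    refine H e _ (add_mem hx (smul_mem _ r hw)) ?_ ?_ <;>
      rw [_root_.map_add, _root_.map_smul, q_add, q_smul, polar_smul_right, e0]
    · simp [e1, d1]
    · simp [e2, hb.qx, hr, dA, e, CharTwo.add_self_eq_zero]
  refine ⟨_, c5, c4.cons (fun _ => ⟨by_contra fun e => ?_, by_contra fun e => ?_, by_contra fun e => ?_⟩)
    (fun e => by_contra fun e' => ?_) (by omega) fun e j e' => by_contra fun e'' => ?_⟩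
  · obtain ⟨u, hu, v, hv, ⟨u1, u2⟩, ⟨v1, v2⟩, e⟩ := c3.two (k := k) (by omega)
    have := Wo k _ (add_mem hx (c1 hu)) _ (add_mem (c1 hu) (c1 hv)) (by simp [h1 _ hx, u1]) (by simp [u1, v1])
      (by rw [_root_.map_add, q_add, d1, u2, (c2 u hu _ _).1]; simp [CharTwo.add_self_eq_zero])
      (by rw [_root_.map_add, q_add, v2, u2, e]; simp [CharTwo.add_self_eq_zero])
    rw [_root_.map_add, polar_add_left, polar_add_right, polar_add_right, h.od (.of u1), u2] at this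
    simpa [show polar Q u _ = 0 from e 0 _, show polar Q x _ = 0 from (c2 u hu 0 _).1,
      show polar Q x _ = 0 from (c2 v hv 0 _).1] using this
  · obtain ⟨u, hu, v, hv, e⟩ := c3.mem e
    have := We k _ (add_mem (c1 hu) (hS.inv _ hx)) v (c1 hv) (by rw [_root_.map_add, pw_succ', h1 _ hx, add_zero]; exact e.nx)
      e.ny (by rw [_root_.map_add, q_add, pw_succ', d1, e.qx, polar_comm, (c2 u hu _ _).1]; simp [dA, CharTwo.add_self_eq_zero])
    simp [e.c, dC, show polar Q (t x) _ = 0 from (c2 v hv 1 _).1] at this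
  · by_cases e1 : M.count (1, k + 1) = 0
    · obtain ⟨u, hu, v, hv, e⟩ := c3.mem (b := (2, k + 1)) (by omega)
      simpa [dC, show (t ^ (2 * (k + 1))) v = 0 from h1 _ (c1 hv)] using e.c (2 * (k + 1))
    · obtain ⟨u, hu, v, hv, e⟩ := c3.mem e1
      exact zero_ne_one ((h.qz (h1 _ (c1 hu)) (by omega)).symm.trans (e.v (.inr rfl)).2)
  · obtain ⟨u, hu, u1, u2⟩ := c3.memV (k := k) (by omega)
    exact c6 e _ (hS.inv _ (c1 hu)) (fun j => by rw [pw_succ', (c2 u hu _ _).1]) (by rw [pw_succ', h.qz u1 (by omega)])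
      (by rw [pw_succ', u2])
  · obtain ⟨u, hu, u1, u2⟩ := c3.memV e''
    exact c6 (by omega) _ (c1 hu) (fun j => (c2 u hu _ _).1) (h.qz u1 (by omega)) (e' ▸ u2)

end H27.UC
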