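import Cfsg.Agent.H27.UC3
import Cfsg.Agent.H27.Spec18

/-! Unipotent isometries in characteristic two, IV: uniqueness and types. -/

set_option autoImplicit false
set_option linter.unusedSectionVars false

namespace H27.UC

open Module Function Submodule Finset H12 H12.CForm
open QuadraticMap hiding sq

theorem exists_equiv {ι κ α : Type*} [Fintype ι] [Fintype κ] {f : ι → α} {g : κ → α}
    (h : univ.val.map f = univ.val.map g) : ∃ σ : ι ≃ κ, ∀ i, g (σ i) = f i := by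
  classical
  refine ⟨_, Equiv.ofFiberEquiv_map fun c => Fintype.equivOfCardEq ?_⟩
  simpa [Multiset.count_map, Fintype.card_subtype, eq_comm, ← filter_val] using congrArg (Multiset.count c) h

variable {F : Type*} [Field F] [CharP F 2] {V W : Type*} [AddCommGroup V] [Module F V] [AddCommGroup W] [Module F W]
  {Q : QuadraticForm F V} {Q' : QuadraticForm F W} {t : End F V} {t' : End F W} {k : ℕ} {β : F} {b b' : Bl}
  {M M' : Multiset Bl} {o : Prop}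

theorem cy_t {y z : V} (h : z ∈ cy t y) : t z ∈ cy t y := by simpa using cy_le' 1 (cy_pw h 1)

theorem inv_sup {ι : Type*} (x y : ι → V) {v : V} (hv : v ∈ ⨆ i, cy t (x i) ⊔ cy t (y i)) :
    t v ∈ ⨆ i, cy t (x i) ⊔ cy t (y i) := by
  refine mem_comap.1 (iSup_le (a := comap t _) (fun i => sup_le (fun _ hv => ?_) fun _ hv => ?_) hv)
  exacts [mem_comap.2 (mem_iSup_of_mem i (mem_sup_left (cy_t hv))), mem_comap.2 (mem_iSup_of_mem i (mem_sup_right (cy_t hv)))]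

theorem pw_prod (j : ℕ) (x : V × W) : ((t.prodMap t') ^ j) x = ((t ^ j) x.1, (t' ^ j) x.2) := by
  induction j with
  | zero => rfl
  | succ j ih => rw [← pw_succ, ih, ← pw_succ, ← pw_succ]; rfl

theorem Un.prod (h : Un Q t) (h' : Un Q' t') : Un (Q.prod Q') (t.prodMap t') :=
  ⟨fun x => congrArg₂ (· + ·) (h.inv x.1) (h'.inv x.2), let ⟨m, a⟩ := h.nil; let ⟨n, b⟩ := h'.nil
    ⟨m + n, LinearMap.ext fun x => by simp [pw_prod, pow_eq_zero_of_le (m.le_add_right n) a, pow_eq_zero_of_le (n.le_add_left m) b]⟩⟩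

theorem cy_fst (x : V × W) : (cy (t.prodMap t') x).map (.fst F V W) = cy t x.1 := by
  simp [cy, map_span, ← Set.range_comp, Function.comp_def, pw_prod]
theorem cy_snd (x : V × W) : (cy (t.prodMap t') x).map (.snd F V W) = cy t' x.2 := by
  simp [cy, map_span, ← Set.range_comp, Function.comp_def, pw_prod]

variable (β o) in
/-- agreement of the data of two blocks -/
def Ag (b b' : Bl) : Prop := (∀ j, o ∨ 0 < j → dA β b j = dA β b' j ∧ dB β b j = dB β b' j) ∧ ∀ j, dC F b j = dC F b' j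

theorem sup_pol {ι : Type*} {S : ι → Submodule F V} {v w : V} (hv : v ∈ ⨆ i, S i) (h : ∀ i, ∀ v ∈ S i, polar Q v w = 0) :
    polar Q v w = 0 := iSup_le (a := LinearMap.ker (Q.polarBilin.flip w)) h hv

theorem ts_sup {ι : Type*} {S : ι → Submodule F V} (h : ∀ i j, ∀ v ∈ S i, ∀ w ∈ S j, polar Q v w = 0) :
    (∀ v ∈ ⨆ i, S i, ∀ w ∈ ⨆ i, S i, polar Q v w = 0) ∧ ((∀ i, ∀ v ∈ S i, Q v = 0) → ∀ v ∈ ⨆ i, S i, Q v = 0) := by
  have a : ∀ v ∈ ⨆ i, S i, ∀ w ∈ ⨆ i, S i, polar Q v w = 0 := fun v hv w hw =>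
    iSup_le (a := LinearMap.ker (Q.polarBilin v)) (fun j w hw =>
      sup_pol hv fun i v hv => h i j v hv w hw) hw
  exact ⟨a, fun e v hv => iSup_induction' S (motive := fun v _ => Q v = 0) e (by simp)
    (fun x y hx hy c d => by rw [q_add, c, d, a x hx y hy]; simp) hv⟩

theorem glue (h : Un Q t) (h' : Un Q' t') {ι : Type*} {x y : ι → V} {x' y' : ι → W} {b b' : ι → Bl}
    (d : ∀ i, Dat Q t β (b i) (x i) (y i)) (d' : ∀ i, Dat Q' t' β (b' i) (x' i) (y' i))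
    (c : ∀ i j, i ≠ j → ∀ v ∈ cy t (x i) ⊔ cy t (y i), ∀ w ∈ cy t (x j) ⊔ cy t (y j), polar Q v w = 0)
    (c' : ∀ i j, i ≠ j → ∀ v ∈ cy t' (x' i) ⊔ cy t' (y' i), ∀ w ∈ cy t' (x' j) ⊔ cy t' (y' j), polar Q' v w = 0)
    (a : ∀ i, Ag β o (b i) (b' i)) : ∃ Γ : Submodule F (V × W), (∀ v ∈ Γ, ∀ w ∈ Γ, polar (Q.prod Q') v w = 0) ∧
      (o → ∀ v ∈ Γ, Q.prod Q' v = 0) ∧ (∀ v ∈ Γ, t.prodMap t' v ∈ Γ) ∧ Γ.map (.fst F V W) = ⨆ i, cy t (x i) ⊔ cy t (y i) ∧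
        Γ.map (.snd F V W) = ⨆ i, cy t' (x' i) ⊔ cy t' (y' i) := by
  have H := h.prod h'
  have q1 : ∀ i j, o ∨ 0 < j → Q.prod Q' ((t.prodMap t' ^ j) (x i, x' i)) = 0 ∧
      Q.prod Q' ((t.prodMap t' ^ j) (y i, y' i)) = 0 := fun i j e => by
    simp [pw_prod, (d i).qx, (d' i).qx, (d i).qy, (d' i).qy, (a i).1 j e, CharTwo.add_self_eq_zero]
  have q2 : ∀ i, P (Q.prod Q') (t.prodMap t') (x i, x' i) (y i, y' i) 0 := fun i j _ => by
    simp [pw_prod, (d i).c, (d' i).c, (a i).2 j, CharTwo.add_self_eq_zero]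
  have q3 := fun i => ts_sup (Q := Q.prod Q') (S := fun s => cy (t.prodMap t') (cond s (x i, x' i) (y i, y' i))) (by
    rintro (_ | _) (_ | _) v hv w hw
    exacts [H.pc (H.iso fun j => (q1 i _ (.inr j.succ_pos)).2) hv hw, H.pc (H.symm (q2 i)) hv hw, H.pc (q2 i) hv hw,
      H.pc (H.iso fun j => (q1 i _ (.inr j.succ_pos)).1) hv hw])
  simp only [iSup_bool_eq, cond_true, cond_false, Bool.forall_bool] at q3
  have q4 := ts_sup (Q := Q.prod Q') (S := fun i => cy (t.prodMap t') (x i, x' i) ⊔ cy (t.prodMap t') (y i, y' i))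
    fun i j v hv w hw => by
      rcases eq_or_ne i j with rfl | e
      · exact (q3 i).1 v hv w hw
      have f1 := fun i => (Submodule.map_sup (cy (t.prodMap t') (x i, x' i)) (cy (t.prodMap t') (y i, y' i)) (.fst F V W)).trans
        (congrArg₂ _ (cy_fst _) (cy_fst _))
      have f2 := fun i => (Submodule.map_sup (cy (t.prodMap t') (x i, x' i)) (cy (t.prodMap t') (y i, y' i)) (.snd F V W)).trans
        (congrArg₂ _ (cy_snd _) (cy_snd _))
      rw [polar_prod, c i j e v.1 ((f1 i).le ⟨v, hv, rfl⟩) w.1 ((f1 j).le ⟨w, hw, rfl⟩),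
        c' i j e v.2 ((f2 i).le ⟨v, hv, rfl⟩) w.2 ((f2 j).le ⟨w, hw, rfl⟩), add_zero]
  refine ⟨_, q4.1, fun e => q4.2 fun i => (q3 i).2 ⟨fun v => H.ts fun j => (q1 i j (.inl e)).2,
    fun v => H.ts fun j => (q1 i j (.inl e)).1⟩, fun v hv => ?_, by simp only [Submodule.map_iSup, Submodule.map_sup, cy_fst],
      by simp only [Submodule.map_iSup, Submodule.map_sup, cy_snd]⟩
  exact inv_sup _ _ hv

variable [Finite F] [FiniteDimensional F V] [FiniteDimensional F W] (hQ : QNondeg Q) (hQ' : QNondeg Q') (h : Un Q t) (h' : Un Q' t')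
include hQ hQ'

theorem no_ts (e : V ≃ₗ[F] W) (he : ∀ x, Q' (e x) = Q x) {Γ : Submodule F (V × W)} (h1 : ∀ v ∈ Γ, Q.prod Q' v = 0)
    {p : V × W} (h2 : p ∈ (ofQuad (Q.prod Q')).perp Γ) (h3 : Q.prod Q' p ≠ 0) :
    ∃ v ∈ (ofQuad (Q.prod Q')).perp Γ, Q.prod Q' v = 0 ∧ v ∉ Γ := by
  have n := Sp.prod_nd hQ hQ'
  have a : (ofQuad (Q.prod Q')).TS Γ := quad_ts_iff.2 h1
  have b : (ofQuad (Q.prod Q')).TS (LinearMap.range ((LinearMap.id).prod e.toLinearMap)) := quad_ts_iff.2 (by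
    rintro _ ⟨x, rfl⟩; exact (congrArg _ (he x)).trans (CharTwo.add_self_eq_zero _))
  have c := finrank_lt_finrank_of_lt (a.le_perp.lt_of_ne fun e => h3 (h1 p (e ▸ h2)))
  have d := n.finrank_add_finrank_perp Γ
  rw [finrank_prod, ← e.finrank_eq] at d
  have f := LinearMap.finrank_range_of_inj (f := (LinearMap.id).prod e.toLinearMap) fun _ _ => congrArg Prod.fst
  obtain ⟨X, x1, x2, x3⟩ := a.exists_le n b (by omega)
  obtain ⟨v, v1, v2⟩ := SetLike.exists_of_lt (x2.lt_of_ne fun e => by rw [e] at c d; omega)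
  exact ⟨v, perp_anti _ x2 (x1.le_perp v1), quad_ts_iff.1 x1 v v1, v2⟩

include h h'

theorem Re.iso (r : Re Q t β ⊤ M) (r' : Re Q' t' β ⊤ M') {φ : Bl → Bl} (hφ : ∀ b b', φ b = φ b' → Ag β o b b')
    (e : M.map φ = M'.map φ) : ∃ e : V ≃ₗ[F] W, (∀ x y, polar Q' (e x) (e y) = polar Q x y) ∧ (o → ∀ x, Q' (e x) = Q x) ∧
      ∀ x, e (t x) = t' (e x) := by
  obtain ⟨ι, _, x, y, b, rfl, d, c, s, -⟩ := r
  obtain ⟨κ, _, x', y', b', rfl, d', c', s', -⟩ := r'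
  simp only [Multiset.map_map] at e
  obtain ⟨σ, hσ⟩ := exists_equiv e
  obtain ⟨Γ, a1, a2, a3, a4, a5⟩ := glue h h' d (fun i => d' (σ i)) c (fun i j e => c' _ _ (σ.injective.ne e))
    fun i => hφ _ _ (hσ i).symm
  rw [σ.iSup_comp (g := fun i => cy t' (x' i) ⊔ cy t' (y' i)), ← s', eq_top_iff'] at a5
  rw [← s, eq_top_iff'] at a4
  obtain ⟨e, rfl⟩ := Γ.exists_equiv_eq_graph ⟨(injective_iff_map_eq_zero (LinearMap.fst F V W ∘ₗ Γ.subtype)).2 fun v hv =>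
    Subtype.ext (Prod.ext hv (hQ' _ fun w => by
      obtain ⟨w, hw, rfl⟩ := a5 w
      simpa [show v.1.1 = 0 from hv] using a1 _ v.2 w hw)), fun v => let ⟨w, a, b⟩ := a4 v; ⟨⟨w, a⟩, b⟩⟩
    ⟨(injective_iff_map_eq_zero (LinearMap.snd F V W ∘ₗ Γ.subtype)).2 fun v hv => Subtype.ext (Prod.ext (hQ _ fun w => by
      obtain ⟨w, hw, rfl⟩ := a4 w
      simpa [show v.1.2 = 0 from hv] using a1 _ v.2 w hw) hv), fun v => let ⟨w, a, b⟩ := a5 v; ⟨⟨w, a⟩, b⟩⟩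
  exact ⟨e, fun x y => (CharTwo.add_eq_zero.1 ((polar_prod _ _ _ _).symm.trans (a1 (x, e x) rfl (y, e y) rfl))).symm,
    fun ho x => (CharTwo.add_eq_zero.1 (a2 ho (x, e x) rfl)).symm, fun x => (a3 (x, e x) rfl).symm⟩

omit hQ hQ' h' in
theorem Dat.pn {x y : V} {a : Fin 4} {α : F} (d : Dat Q t β (a, k) x y) (ha : a = 0 ∧ α = 0 ∨ a = 1 ∧ α = β ∨
    k = 0 ∧ (a = 3 ∧ α = 0 ∨ a = 2 ∧ α = β)) : ∃ (N : Submodule F V) (u v : V), N ≤ cy t x ⊔ cy t y ∧ u ∈ cy t x ⊔ cy t y ∧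
      (∀ n ∈ N, Q n = 0 ∧ polar Q n u = 0 ∧ polar Q n v = 0) ∧ Q u = 1 ∧ Q v = α ∧ polar Q u v = 1 ∧
        ∀ w ∈ cy t x ⊔ cy t y, (∀ n ∈ N, polar Q n w = 0) → ∃ n ∈ N, ∃ l m : F, w = n + l • u + m • v := by
  rw [← or_assoc] at ha
  rcases ha with ha | ⟨rfl, ha⟩
  · have h1 := d.v (ha.imp And.left And.left)
    obtain rfl : y = 0 := by rcases ha with ⟨rfl, -⟩ | ⟨rfl, -⟩ <;> exact d.ny
    have h2 : ∀ i, ∀ n ∈ cy t ((t ^ (k + 2)) x), k ≤ i → polar Q n ((t ^ i) x) = 0 := fun i n hn hi =>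
      cy_lin (Q.polarBilin.flip _) (fun j => by rw [pw_pw]; exact h.p0 (.of h1.1) (by omega)) hn
    refine ⟨cy t ((t ^ (k + 2)) x), (t ^ (k + 1)) x, (t ^ k) x, le_sup_of_le_left (cy_le' _), mem_sup_left (pw_mem _ _),
      fun n hn => ⟨h.ts' (i := 0) (m := k + 2) (fun j hj => h.qz h1.1 (by omega)) hn (by omega), h2 _ n hn (by omega),
        h2 _ n hn le_rfl⟩, h1.2, by rcases ha with ⟨rfl, rfl⟩ | ⟨rfl, rfl⟩ <;> simp [d.qx, dA],
      by rw [polar_comm, ← h.qs, h1.2], fun w hw e => ?_⟩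
    have h3 : ∀ i ≤ k, w ∈ cy t ((t ^ i) x) := fun i hi => by
      induction i with
      | zero => simpa [cy] using hw
      | succ i ih =>
        obtain ⟨c, hc⟩ := cy_dec (ih (by omega))
        have := cy_lin (Q.polarBilin ((t ^ (2 * k + 1 - i)) x)) (fun j => by
          rw [pw_succ, pw_pw]; exact h.p0 (.of h1.1) (by omega)) hc
        rw [polarBilin_apply_apply, polar_sub_right, e _ (cy_mono (by omega) (self_mem _)), polar_smul_right,
          h.p1 (d := 2 * k + 1) (.of h1.1) (by omega), h.od (.of h1.1), h1.2] at this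
        simpa [show c = 0 by simpa using this, pw_succ] using hc
    obtain ⟨m, hm⟩ := cy_dec (h3 k le_rfl)
    obtain ⟨l, hl⟩ := cy_dec hm
    simp only [pw_succ] at hl
    exact ⟨_, hl, l, m, by abel⟩
  have h1 : t x = 0 ∧ t y = 0 ∧ polar Q x y = 1 := by
    rcases ha with ⟨rfl, -⟩ | ⟨rfl, -⟩ <;> exact ⟨d.nx, d.ny, by simpa [dC] using d.c 0⟩
  have h2 : ∀ w ∈ cy t x ⊔ cy t y, ∃ l m : F, w = l • x + m • y := fun w hw => by
    obtain ⟨u, hu, v, hv, rfl⟩ := Submodule.mem_sup.1 hw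
    obtain ⟨l, hl⟩ := cy_dec hu
    obtain ⟨m, hm⟩ := cy_dec hv
    simp only [h1, cy, map_zero, Set.range_const, span_zero_singleton, mem_bot, sub_eq_zero] at hl hm
    exact ⟨l, m, by rw [hl, hm]⟩
  have h3 := d.qx 0
  have h4 := d.qy 0
  rcases ha with ⟨rfl, rfl⟩ | ⟨rfl, rfl⟩ <;> simp [dA, dB] at h3 h4
  · refine ⟨⊥, x + y, y, bot_le, add_mem_sup (self_mem _) (self_mem _), by simp, by simp [q_add, *], h4,
      by rw [polar_add_left, pol_self, h1.2.2, add_zero], fun w hw _ => ?_⟩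
    obtain ⟨l, m, rfl⟩ := h2 w hw
    exact ⟨0, zero_mem _, l, m - l, by module⟩
  · exact ⟨⊥, x, y, bot_le, mem_sup_left (self_mem _), by simp, h3, h4, h1.2.2, fun w hw _ => by simpa using h2 w hw⟩

theorem Re.tw (hβ : ∀ s, s ^ 2 + s ≠ β) {a a' : Fin 4} (r : Re Q t β ⊤ ((a, k) ::ₘ M)) (r' : Re Q' t' β ⊤ ((a', k) ::ₘ M))
    (ha : a = 0 ∧ a' = 1 ∨ k = 0 ∧ a = 3 ∧ a' = 2) (e : V ≃ₗ[F] W) : ¬ ∀ x, Q' (e x) = Q x := fun he => by
  classical
  obtain ⟨ι, _, x, y, b, m, d, c, s, -⟩ := r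
  obtain ⟨κ, _, x', y', b', m', d', c', s', -⟩ := r'
  obtain ⟨i, -, hi⟩ := Multiset.mem_map.1 (m ▸ Multiset.mem_cons_self _ _)
  obtain ⟨σ, hσ⟩ := exists_equiv (f := update b i (a', k)) (g := b') (by
    rw [← insert_erase (mem_univ i), insert_val_of_notMem (notMem_erase _ _), Multiset.map_cons] at m ⊢
    rw [hi, Multiset.cons_inj_right] at m
    rw [m', update_self, ← m]
    exact congrArg _ (Multiset.map_congr rfl fun j hj => update_of_ne (ne_of_mem_erase hj) _ _))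
  obtain ⟨Γ, a1, a2, -, a4, a5⟩ := glue (o := True) (ι := {j // j ≠ i}) h h' (fun j => d j) (fun j => d' (σ j))
    (fun _ _ e => c _ _ (Subtype.coe_ne_coe.2 e)) (fun _ _ e => c' _ _ (σ.injective.ne (Subtype.coe_ne_coe.2 e)))
    fun j => by rw [hσ, update_of_ne j.2]; exact ⟨fun _ _ => ⟨rfl, rfl⟩, fun _ => rfl⟩
  rw [← σ.iSup_comp, iSup_split_single _ i, iSup_subtype', ← a5] at s'
  rw [iSup_split_single _ i, iSup_subtype', ← a4] at s
  obtain ⟨N, u, v, n1, n2, n3, n4, n5, n6, n7⟩ := (hi ▸ d i).pn h (α := 0) (by tauto)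
  obtain ⟨N', u', v', n1', n2', n3', n4', n5', n6', n7'⟩ := ((hσ i).trans (update_self ..) ▸ d' (σ i)).pn h' (α := β) (by tauto)
  have o1 : ∀ g ∈ Γ, ∀ w ∈ cy t (x i) ⊔ cy t (y i), polar Q g.1 w = 0 := fun g hg w hw =>
    sup_pol (a4.le (mem_map_of_mem hg)) fun j v hv => c _ _ j.2 v hv w hw
  have o2 : ∀ g ∈ Γ, ∀ w ∈ cy t' (x' (σ i)) ⊔ cy t' (y' (σ i)), polar Q' g.2 w = 0 := fun g hg w hw =>
    sup_pol (a5.le (mem_map_of_mem hg)) fun j v hv => c' _ _ (σ.injective.ne j.2) v hv w hw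
  have p1 : ∀ {p}, p ∈ (ofQuad (Q.prod Q')).perp (Γ ⊔ N.prod N' ⊔ F ∙ (u, u')) ↔ (∀ g ∈ Γ, polar (Q.prod Q') g p = 0) ∧
      (∀ g ∈ N.prod N', polar (Q.prod Q') g p = 0) ∧ polar (Q.prod Q') (u, u') p = 0 := by
    intro p; rw [perp_sup, perp_sup, Submodule.mem_inf, Submodule.mem_inf, mem_perp_singleton, and_assoc, mem_perp, mem_perp]
    simp only [ofQuad_B]
  have t1 : (ofQuad (Q.prod Q')).TS Γ := quad_ts_iff.2 (a2 trivial)
  have t2 : (ofQuad (Q.prod Q')).TS (N.prod N') := quad_ts_iff.2 fun n hn => by simp [n3 _ hn.1, n3' _ hn.2]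
  have t3 : (ofQuad (Q.prod Q')).TS (F ∙ (u, u')) := ts_singleton (by simp [n4, n4', CharTwo.add_self_eq_zero])
  obtain ⟨p, p2, p3, p4⟩ := no_ts hQ hQ' e he (Γ := Γ ⊔ N.prod N' ⊔ F ∙ (u, u')) (p := (u, 0)) (quad_ts_iff.1
    ((t1.sup t2 fun n hn => (mem_perp _).2 fun g hg => by simp [o1 g hg _ (n1 hn.1), o2 g hg _ (n1' hn.2)]).sup t3
      ((span_singleton_le_iff_mem _ _).2 (by
        rw [perp_sup, Submodule.mem_inf, mem_perp, mem_perp]
        exact ⟨fun g hg => by simp [o1 g hg _ n2, o2 g hg _ n2'], fun n hn => by simp [n3 _ hn.1, n3' _ hn.2]⟩))))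
    (p1.2 ⟨fun g hg => by simp [o1 g hg _ n2], fun n hn => by simp [n3 _ hn.1], by simp [two0]⟩) (by simp [n4])
  obtain ⟨q1, q2, q3⟩ := p1.1 p2
  obtain ⟨w, hw, _, ⟨g, hg, rfl⟩, e1⟩ := Submodule.mem_sup.1 (s.le (mem_top (x := p.1)))
  obtain ⟨w', hw', _, ⟨g', hg', rfl⟩, e2⟩ := Submodule.mem_sup.1 (s'.le (mem_top (x := p.2 - g.2)))
  simp only [LinearMap.fst_apply, LinearMap.snd_apply] at e1 e2
  have e3 : g'.2 = 0 := hQ' _ fun z => by
    obtain ⟨z, hz, _, ⟨f, hf, rfl⟩, rfl⟩ := Submodule.mem_sup.1 (s'.le (mem_top (x := z)))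
    have z1 := q1 f hf
    have z2 := a1 f hf g hg
    rw [polar_prod] at z1 z2
    rw [← e1, ← sub_add_cancel p.2 g.2, ← e2] at z1
    simp only [polar_add_right, o1 f hf w hw, o2 f hf w' hw', LinearMap.snd_apply, ofQuad_B, o2 g' hg' z hz,
      polar_comm _ g'.2 f.2] at z1 ⊢
    linear_combination z1 - z2
  obtain rfl : p = g + (w, w') := Prod.ext (by simp [← e1, add_comm]) (by simpa [e3, eq_sub_iff_add_eq, add_comm, eq_comm] using e2)
  obtain ⟨n, hn, l, m, rfl⟩ := n7 w hw fun n hn => by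
    simpa [polar_comm _ n g.1, o1 g hg _ (n1 hn)] using q2 (n, 0) ⟨hn, zero_mem _⟩
  obtain ⟨n', hn', l', m', rfl⟩ := n7' w' hw' fun n hn => by
    simpa [polar_comm _ n g.2, o2 g hg _ (n1' hn)] using q2 (0, n) ⟨zero_mem _, hn⟩
  rw [q_add, a2 trivial g hg, polar_prod, o1 g hg _ hw, o2 g hg _ hw'] at p3
  simp [polar_comm _ u g.1, polar_comm _ u' g.2, o1 g hg _ n2, o2 g hg _ n2', polar_comm _ u n, polar_comm _ u' n', n3 _ hn,
    n3' _ hn', pol_self, n6, n6', -polar_self] at q3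
  obtain rfl : m = m' := by simpa [two0, CharTwo.add_eq_zero] using q3
  simp [q_add, q_smul, n3 _ hn, n3' _ hn', n4, n4', n5, n5', n6, n6'] at p3
  obtain rfl : m = 0 := by_contra fun e => hβ ((l + l') / m) (by
    field_simp; linear_combination p3 + (l * l' - m ^ 2 * β) * two0 (F := F))
  obtain rfl : l = l' := CharTwo.add_eq_zero.1 (pow_eq_zero_iff two_ne_zero |>.1 (by
    linear_combination p3 + l * l' * two0 (F := F)))
  exact p4 (by
    convert add_mem_sup (add_mem_sup hg (show (n, n') ∈ N.prod N' from ⟨hn, hn'⟩))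
      (smul_mem _ l (mem_span_singleton_self (u, u'))) using 1
    simp [add_assoc])

end H27.UC
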