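import Cfsg.Agent.H27.UC3
import Cfsg.Agent.H27.CN6

/-! Unipotent isometries in characteristic two, V: counting normal forms. -/

set_option autoImplicit false
set_option linter.unusedSectionVars false

namespace H27.UC

open Finset H27.CN H27.Sp PowerSeries

variable {M M' : Multiset Bl} {k N : ℕ} {s : Bool} {r : ℝ}

theorem Val.mono (h : Val M) (e : M' ≤ M) : Val M' := fun k => by
  have := h k
  have := fun b => Multiset.count_le_of_le b e
  grind

/-- the admissible letters -/
def lets (s : Bool) : Multiset (Multiset (Fin 4)) := cond s {0, {0}, {0, 0}} {0, {2}, {0}, {1}, {0, 0}, {0, 1}}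
/-- adding a level -/
def stp (L : Multiset (Multiset (Fin 4))) (k : ℕ) (R : Multiset (Fin 4) → Multiset (Multiset Bl)) :
    Multiset (Multiset Bl) := L.bind fun E => (R E).map (E.map (·, k) + ·)
/-- the new state -/
def hv (E : Multiset (Fin 4)) : Bool := E.count 0 + E.count 1 ≠ 0
/-- all admissible words -/
def cf : ℕ → ℕ → Bool → Multiset (Multiset Bl)
  | 0, _, _ => {0}
  | N + 1, k, s => stp (lets s) k fun E => cf N (k + 1) (hv E)
/-- the words for orthogonal groups -/
def cfO (N : ℕ) : Multiset (Multiset Bl) := stp {0, {2}, {0}, {0, 0}} 0 fun E => if hv E then cf (N + 1) 1 true else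
  stp (if E = 0 then {0, {2}, {0}, {0, 0}} else {{0}, {0, 0}}) 1 fun E => cf N 2 (hv E)

theorem mem_stp {L R} (h : lv k M ∈ L) (h' : M.filter (·.2 ≠ k) ∈ R (lv k M)) : M ∈ stp L k R :=
  Multiset.mem_bind.2 ⟨_, h, Multiset.mem_map.2 ⟨_, h', lv_split k M⟩⟩

theorem count_lv (a : Fin 4) : (lv k M).count a = M.count (a, k) := by
  conv_rhs => rw [← lv_split k M]
  rw [Multiset.count_add, Multiset.count_filter_of_neg (by simp), add_zero]
  exact (Multiset.count_map_eq_count' (·, k) _ (fun _ _ h => congrArg Prod.fst h) a).symm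

theorem lv_eq (h : M.count (3, k) = 0) : lv k M = .replicate (M.count (0, k)) 0 + .replicate (M.count (1, k)) 1 +
    .replicate (M.count (2, k)) 2 := Multiset.ext' fun a => by
  rw [count_lv]; fin_cases a <;> simp [Multiset.count_replicate, h]

theorem Val.lv (h : Val M) (h3 : M.count (3, k) = 0) : lv k M ∈ lets false ∧ (M.count (1, k) = 0 →
    lv k M ∈ ({0, {2}, {0}, {0, 0}} : Multiset _) ∧ (M.count (2, k) = 0 → lv k M ∈ lets true) ∧
      (M.count (0, k) ≠ 0 → lv k M ∈ ({{0}, {0, 0}} : Multiset _))) := by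
  obtain ⟨a, b, c, d, -⟩ := h k
  rw [lv_eq h3]
  generalize M.count (0, k) = x, M.count (1, k) = y, M.count (2, k) = z at *
  have : x ≤ 2 := by omega
  interval_cases x <;> interval_cases y <;> interval_cases z <;> first | omega | decide

theorem mem_cf (h : Val M) (h3 : ∀ k, M.count (3, k) = 0) (hk : ∀ x ∈ M, k ≤ x.2 ∧ x.2 < k + N)
    (hs : s → M.count (1, k) + M.count (2, k) = 0) : M ∈ cf N k s := by
  induction N generalizing M k s with
  | zero => exact Multiset.mem_singleton.2 (Multiset.eq_zero_of_forall_notMem fun x hx => by have := hk x hx; omega)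
  | succ N ih =>
    refine mem_stp ?_ (ih (h.mono (M.filter_le _)) (fun k => by simp [Multiset.count_filter, h3]) (fun x hx => by
      have := hk x (Multiset.mem_of_mem_filter hx); have := (Multiset.mem_filter.1 hx).2; omega) fun e => ?_)
    · cases s
      exacts [(h.lv (h3 k)).1, (((h.lv (h3 k)).2 (by have := hs rfl; omega)).2.1 (by have := hs rfl; omega))]
    · simp only [hv, count_lv, decide_eq_true_eq] at e
      simpa [Multiset.count_filter] using (h k).2.2.2.2.resolve_right e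

theorem mem_cfO (h : Val M) (h3 : ∀ k, M.count (3, k) = 0) (hk : ∀ x ∈ M, x.2 < N) (h0 : M.count (1, 0) = 0)
    (h1 : M.count (0, 0) = 0 → M.count (1, 1) = 0 ∧ (M.count (0, 1) = 0 → M.count (2, 0) = 0)) : M ∈ cfO N := by
  refine mem_stp ((h.lv (h3 0)).2 h0).1 ?_
  have v := h.mono (M.filter_le (·.2 ≠ 0))
  have v3 : ∀ k, (M.filter (·.2 ≠ 0)).count (3, k) = 0 := fun k => by simp [Multiset.count_filter, h3]
  split_ifs with a b
  · refine mem_cf v v3 (fun x hx => ?_) fun _ => ?_
    · have := hk x (Multiset.mem_of_mem_filter hx); have := (Multiset.mem_filter.1 hx).2; omega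
    · simp only [hv, count_lv, decide_eq_true_eq] at a
      simpa [Multiset.count_filter] using (h 0).2.2.2.2.resolve_right a
  all_goals
    simp only [hv, count_lv, decide_eq_true_eq] at a
    have c := (v.lv (v3 1)).2 (by simpa [Multiset.count_filter] using (h1 (by omega)).1)
    refine mem_stp ?_ (mem_cf (v.mono (Multiset.filter_le _ _)) (fun k => by simp [Multiset.count_filter, h3])
      (fun x hx => ?_) fun e => ?_)
    rotate_left
    · simp only [Multiset.mem_filter] at hx; have := hk x hx.1.1; omega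
    · simp only [hv, count_lv, decide_eq_true_eq] at e
      simpa [Multiset.count_filter] using (v 1).2.2.2.2.resolve_right e
  · exact c.1
  · refine c.2.2 fun e => b ?_
    simp [lv_eq (h3 0), h0, show M.count (0, 0) = 0 by omega, (h1 (by omega)).2 (by simpa [Multiset.count_filter] using e)]

variable (r) in
/-- the weighted count -/
noncomputable def zs (C : Multiset (Multiset Bl)) : ℝ := (C.map fun M => r ^ (M.map dm).sum).sum

theorem zs_stp (L R) : zs r (stp L k R) = (L.map fun E => r ^ (E.map fun a => dm (a, k)).sum * zs r (R E)).sum := by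
  simp [zs, stp, Multiset.map_bind, pow_add, Multiset.sum_map_mul_left]

variable (hr : r ^ 2 = 1 / 2)
include hr

theorem zs_cf : zs r (cf (N + 1) k false) = (1 + (1 / 2) ^ (2 * k + 1)) * zs r (cf N (k + 1) false) +
    2 * ((1 / 2) ^ (k + 1) + (1 / 2) ^ (2 * k + 2)) * zs r (cf N (k + 1) true) ∧ zs r (cf (N + 1) k true) =
      zs r (cf N (k + 1) false) + ((1 / 2) ^ (k + 1) + (1 / 2) ^ (2 * k + 2)) * zs r (cf N (k + 1) true) := by
  simp [cf, zs_stp, lets, hv, dm, mx, my, ← hr]
  constructor <;> ring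

theorem zs_step {a b : ℝ} (ha : 1 ≤ a) (hb : 0 ≤ b) (h : ∀ N, zs r (cf N (k + 1) false) ≤ a ∧ zs r (cf N (k + 1) true) ≤ b)
    (N : ℕ) : zs r (cf N k false) ≤ (1 + (1 / 2) ^ (2 * k + 1)) * a + 2 * ((1 / 2) ^ (k + 1) + (1 / 2) ^ (2 * k + 2)) * b ∧
      zs r (cf N k true) ≤ a + ((1 / 2) ^ (k + 1) + (1 / 2) ^ (2 * k + 2)) * b := by
  rcases N with _ | N
  · simp only [cf, zs, Multiset.map_singleton, Multiset.map_zero, Multiset.sum_zero, pow_zero, Multiset.sum_singleton]
    exact ⟨by rw [add_mul, one_mul, add_assoc]; exact ha.trans (le_add_of_nonneg_right (by positivity)),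
      ha.trans (le_add_of_nonneg_right (by positivity))⟩
  rw [(zs_cf hr).1, (zs_cf hr).2]
  obtain ⟨h1, h2⟩ := h N
  constructor <;> gcongr

theorem zs_tail (hk : 4 ≤ k) : zs r (cf N k false) ≤ 1 + 5 * (1 / 2) ^ (k + 1) ∧
    zs r (cf N k true) ≤ 1 + 5 * (1 / 2) ^ (k + 1) := by
  induction N generalizing k with
  | zero => simp [cf, zs]
  | succ N ih =>
    obtain ⟨a, b⟩ := ih (k := k + 1) (by omega)
    have h1 : (1 / 2 : ℝ) ^ (k + 1) ≤ (1 / 2) ^ 5 := pow_le_pow_of_le_one (by norm_num) (by norm_num) (by omega)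
    have h2 : (0 : ℝ) ≤ (1 / 2) ^ (k + 1) := by positivity
    rw [(zs_cf hr).1, (zs_cf hr).2, show (1 / 2 : ℝ) ^ (2 * k + 1) = 2 * ((1 / 2) ^ (k + 1)) ^ 2 by ring,
      show (1 / 2 : ℝ) ^ (2 * k + 2) = ((1 / 2) ^ (k + 1)) ^ 2 by ring]
    rw [pow_succ _ (k + 1)] at a b
    generalize (1 / 2 : ℝ) ^ (k + 1) = y at *
    constructor
    · refine (add_le_add (mul_le_mul_of_nonneg_left a (by positivity)) (mul_le_mul_of_nonneg_left b (by positivity))).trans ?_
      nlinarith [mul_nonneg h2 h2]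
    · refine (add_le_add a (mul_le_mul_of_nonneg_left b (by positivity))).trans ?_
      nlinarith [mul_nonneg h2 h2]

theorem zs_two (N : ℕ) : zs r (cf N 2 false) ≤ 1.67 ∧ zs r (cf N 2 true) ≤ 1.46 := by
  have h := fun N => zs_tail hr (N := N) (k := 12) (by omega)
  iterate 10 replace h := zs_step hr (by norm_num) (by norm_num) h; norm_num at h
  exact (h N).imp (·.trans (by norm_num)) (·.trans (by norm_num))

theorem zs_le (N : ℕ) : zs r (cf N 0 true) ≤ 4.389 ∧ zs r (cfO N) ≤ 4.3 := by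
  have h := zs_step hr (by norm_num) (by norm_num) (zs_two hr)
  refine ⟨(zs_step hr (by norm_num) (by norm_num) h N).2.trans (by norm_num), ?_⟩
  obtain ⟨a, b⟩ := zs_two hr N
  have c := (h (N + 1)).2
  have e : ∀ k, r ^ (2 * k) = (1 / 2) ^ k := fun k => by rw [pow_mul, hr]
  have e1 := e 1; have e2 := e 2; have e3 := e 3; have e4 := e 4
  simp [cfO, zs_stp, hv, dm, mx, my] at *
  simp only [e1, e2, e3, e4]
  norm_num at *
  linarith

omit hr

theorem bd_fin {A : Type*} [Fintype A] (d : A → ℕ) {x : ℝ} (hx : 0 ≤ x) : Bd (gf d) x (∑ a, x ^ d a) := fun M => by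
  classical
  simp only [coeff_gf, Nat.card_eq_fintype_card, Fintype.card_subtype]
  refine le_trans (le_of_eq ?_) (sum_le_sum_of_subset_of_nonneg (filter_subset (d · ∈ range M) _) fun _ _ _ => by positivity)
  rw [← sum_fiberwise_eq_sum_filter]
  exact sum_congr rfl fun j _ => by rw [sum_congr rfl fun a ha => by rw [(mem_filter.1 ha).2], sum_const, nsmul_eq_mul]

theorem count_le {F K G : Type*} [Field F] [Field K] [Algebra F K] [Finite F] [Algebra.IsAlgebraic F K] [IsAlgClosed K]
    {C : Multiset (Multiset Bl)} {c : ℝ} (hc : ∀ r, r ^ 2 = 1 / 2 → zs r C ≤ c) {n : ℕ} (D : G → Multiset (K × ℕ))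
    (M : G → Multiset Bl) (h1 : ∀ g k, Pal F (lv k (D g))) (h2 : ∀ g, ∀ x ∈ D g, 0 < x.2) (h3 : ∀ g, M g ∈ C)
    (h4 : ∀ g, dimD (D g) + ((M g).map dm).sum = 2 * n) (h5 : ∀ g g', D g = D g' → M g = M g' → g = g') :
    (Nat.card G : ℝ) ≤ 3.463 * c * Nat.card F ^ n := by
  classical
  have hp := gf_pal (F := F) (K := K)
  have h6 := gf_lv (c := fun _ => Pal (K := K) F) (by simp [Pal]) Prod.snd (Icc 1 (2 * n + 8))
    fun k hk => by simpa [mul_comm] using (gf_mul hp.1 (show k ≠ 0 by simp at hk; omega)).1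
  have h8 := gf_prod h6.1 (d' := fun a : C => (a.1.map dm).sum) fun _ => inferInstance
  rw [h6.2] at h8
  simp only [Multiset.map_const', Multiset.sum_replicate, smul_eq_mul, mul_comm (Multiset.card _)] at h8
  have := h8.1 (2 * n)
  refine le_trans (le_of_le_of_eq ?_ ((coeff_gf _ (2 * n)).symm.trans (congrArg _ h8.2))) ?_
  · exact Nat.cast_le.2 (Nat.card_le_card_of_injective (fun g => ⟨(⟨D g, h1 g, fun x hx => mem_Icc.2 ⟨h2 g x hx, by
    have := le_dimD hx; have := h4 g; omega⟩⟩, C.mkToType (M g) ⟨0, Multiset.count_pos.2 (h3 g)⟩), h4 g⟩)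
    fun g g' e => h5 _ _ (congrArg (·.1.1.1) e) (congrArg (·.1.2.1) e))
  have hE : ∀ k, 0 < k → (1 - .C (Nat.card F : ℝ) * X ^ (2 * k)) *
      gf (fun E : {E : Multiset K // Pal F E} => k * E.1.card) = 1 := fun k hk => by
    rw [(gf_mul hp.1 hk.ne').2]
    simpa [PowerSeries.expand_C, ← pow_mul, mul_comm k] using congrArg (PowerSeries.expand k hk.ne') hp.2
  have hq : (2 : ℝ) ≤ Nat.card F := by exact_mod_cast Finite.one_lt_card
  generalize (Nat.card F : ℝ) = q at *
  obtain ⟨s, s0, rfl⟩ : ∃ s, 0 < s ∧ q = s ^ 2 := ⟨√q, by positivity, (Real.sq_sqrt (by linarith)).symm⟩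
  obtain ⟨x, hx⟩ : ∃ x, x = s⁻¹ := ⟨_, rfl⟩
  have x0 : 0 < x := hx ▸ by positivity
  have z1 : s ^ 2 * x ^ 2 = 1 := by rw [hx]; field_simp
  have z2 : x ^ 2 ≤ 1 / 2 := by nlinarith
  have a1 : ∀ m, coeff m (gf fun E : {E : Multiset K // Pal F E} => 1 * E.1.card) ≤ 1 * s ^ m := fun m => by
    induction m using Nat.strong_induction_on with
    | _ m ih =>
      have := (coeff_rec (s ^ 2) (2 * 1) m _).symm.trans (congrArg _ (hE 1 one_pos))
      rcases m with _ | _ | m
      · simpa using this.le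
      · simpa using this.le.trans (by simp [s0.le])
      · have h := mul_le_mul_of_nonneg_left (ih m (by omega)) (sq_nonneg s)
        simp [coeff_one] at this h ⊢; rw [pow_succ, pow_succ]; linarith
  have a2 := bd_prod (S := Icc 2 (2 * n + 8)) (c := fun k => (1 + (x ^ 2) ^ 0) ^ 0 / (1 - (x ^ 2) ^ (k - 1)))
    (E := fun k => gf fun E : {E : Multiset K // Pal F E} => k * E.1.card) (fun k _ => nn_gf _) (fun k hk => by
      obtain ⟨j, rfl⟩ : ∃ j, k = j + 2 := ⟨k - 2, by simp at hk; omega⟩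
      have e : s ^ 2 * x ^ (2 * (j + 2)) = (x ^ 2) ^ (j + 1) := by
        rw [pow_mul, pow_succ' _ (j + 1), ← mul_assoc, z1, one_mul]
      have := bd_div (R := 1) (by rw [hE _ (by omega)]; simp) (nn_gf _) x0.le (by linarith)
        (e ▸ pow_lt_one₀ (sq_nonneg x) (by linarith) (by omega))
      rw [e] at this
      simpa using this) x0.le
  have a3 := fun k (hk : k ∈ Icc 2 (2 * n + 8)) => fac_le (sq_nonneg x) z2 (by norm_num) 0 0 (c := k - 1) (by simp at hk; omega)
  have a4 := tele (F := fun k => (1 + (1 / 2 : ℝ) ^ 0) ^ 0 / (1 - (1 / 2) ^ (k - 1))) (a := 2) (N₀ := 8)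
    (b := fun N => 3.463 * (1 - 2 * (1 / 2) ^ N)) (by omega) (by norm_num [prod_Icc_succ_top]) (fun N h => by
      have := pow_lt_one₀ (a := (1 / 2 : ℝ)) (by norm_num) (by norm_num) (show N ≠ 0 by omega)
      refine ⟨div_nonneg (by positivity) (by simpa using this.le), ?_⟩
      rw [Nat.add_sub_cancel, ← mul_div_assoc, div_le_iff₀ (by linarith), pow_zero, pow_succ]
      generalize (1 / _ : ℝ) ^ N = y; nlinarith [sq_nonneg y]) (show 8 ≤ 2 * n + 8 by omega)
  have a5 := (bd_fin (fun a : C => (a.1.map dm).sum) x0.le).mono (c' := c) (le_trans (by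
    conv_rhs => rw [zs, ← Multiset.map_univ_coe C, Multiset.map_map]
    exact sum_le_sum (s := univ) fun (a : C) _ => pow_le_pow_left₀ x0.le (Real.le_sqrt_of_sq_le z2) (a.1.map dm).sum) (hc _ (Real.sq_sqrt (by norm_num))))
  rw [← insert_Icc_add_one_left_eq_Icc (by omega), prod_insert (by simp), mul_assoc, ← pow_mul]
  have a6 : (0 : ℝ) ≤ (1 / 2) ^ (2 * n + 8) := by positivity
  exact (le_of_bd s0 zero_le_one a1 ((nn_prod fun k _ => nn_gf _).mul (nn_gf _)) (((a2.mono (c' := 3.463)
    (((prod_le_prod (fun k hk => (a3 k hk).1) fun k hk => (a3 k hk).2).trans a4).trans (by linarith))).mul a5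
      (nn_prod fun k _ => nn_gf _) (nn_gf _) x0.le).congr hx)).trans_eq (by rw [one_mul])

end H27.UC
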