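import Cfsg.Agent.H27.UC5

/-! Unipotent isometries in characteristic two, VI: merging normal forms. -/

set_option autoImplicit false
set_option linter.unusedSectionVars false

namespace H27.UC

open Finset H27.CN H27.Sp

variable {b b' : Bl} {M M' : Multiset Bl} {n N : ℕ}

/-- replacing a block -/
def rp (b b' x : Bl) : Bl := if x = b then b' else x

theorem count_rp (h : b ≠ b') (x : Bl) : (M.map (rp b b')).count x =
    if x = b then 0 else if x = b' then M.count b' + M.count b else M.count x := by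
  induction M using Multiset.induction_on with
  | empty => simp
  | cons y M ih => simp only [Multiset.map_cons, Multiset.count_cons, ih, rp]; grind

theorem dm_rp (h : dm b = dm b') : ((M.map (rp b b')).map dm).sum = (M.map dm).sum := by
  rw [Multiset.map_map]
  exact congrArg Multiset.sum (Multiset.map_congr rfl fun x _ => show dm (rp b b' x) = dm x by unfold rp; grind)

theorem eq_of_rp (h : M.count b ≤ 1) (h' : M'.count b ≤ 1) (e : M.map (rp b b') = M'.map (rp b b')) :
    M = M' ∨ ∃ R, M = b' ::ₘ R ∧ M' = b ::ₘ R ∨ M = b ::ₘ R ∧ M' = b' ::ₘ R := by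
  have a : ∀ {M : Multiset Bl}, b ∉ M → M.map (rp b b') = M := fun hb =>
    (Multiset.map_congr rfl fun x hx => if_neg fun (e : x = b) => hb (e ▸ hx)).trans (Multiset.map_id _)
  have c : ∀ {M : Multiset Bl}, M.count b ≤ 1 → b ∈ M → ∃ R, M = b ::ₘ R ∧ M.map (rp b b') = b' ::ₘ R := fun h hb => by
    obtain ⟨R, rfl⟩ := Multiset.exists_cons_of_mem hb
    exact ⟨R, rfl, by rw [Multiset.map_cons, a (by simpa using h), rp, if_pos rfl]⟩
  by_cases h1 : b ∈ M <;> by_cases h2 : b ∈ M'
  · obtain ⟨R, rfl, d⟩ := c h h1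
    obtain ⟨R', rfl, d'⟩ := c h' h2
    exact .inl (congrArg _ ((Multiset.cons_inj_right _).1 (d.symm.trans (e.trans d'))))
  · obtain ⟨R, rfl, d⟩ := c h h1
    exact .inr ⟨R, .inr ⟨rfl, (a h2).symm.trans (e.symm.trans d)⟩⟩
  · obtain ⟨R, rfl, d⟩ := c h' h2
    exact .inr ⟨R, .inl ⟨(a h1).symm.trans (e.trans d), rfl⟩⟩
  · exact .inl ((a h1).symm.trans (e.trans (a h2)))

theorem lev_lt {x : Bl} (hx : x ∈ M) : x.2 < (M.map dm).sum := by
  refine lt_of_lt_of_le ?_ (Multiset.single_le_sum (by simp) _ (Multiset.mem_map_of_mem dm hx))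
  obtain ⟨a, k⟩ := x
  fin_cases a <;> simp [dm, mx, my] <;> omega

theorem Val.rp (h : Val M) {k : ℕ} : Val (M.map (rp (1, k) (0, k))) ∧ Val (M.map (rp (2, k) (3, k))) := by
  have a : ∀ {M' : Multiset Bl}, (∀ j, M'.count (0, j) + M'.count (1, j) ≤ M.count (0, j) + M.count (1, j) ∧
      M'.count (1, j) ≤ M.count (1, j) ∧ M'.count (2, j) ≤ M.count (2, j)) → Val M' := fun e j => by
    have := h j
    have := e j
    have := e (j + 1)
    omega
  refine ⟨a fun j => ?_, a fun j => ?_⟩
  all_goals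
    simp (disch := simp) only [count_rp, Prod.mk.injEq, Fin.reduceEq, false_and, true_and, if_false]
    split_ifs <;> (try subst_vars) <;> omega

theorem dm_sp : (((M.map (rp (2, 0) (3, 0))).map (rp (1, 0) (0, 0))).map dm).sum = (M.map dm).sum :=
  (dm_rp (b := (1, 0)) (b' := (0, 0)) rfl).trans (dm_rp (b := (2, 0)) (b' := (3, 0)) rfl)

theorem cnt_f {a : Fin 4} {k : ℕ} : (M.filter (·.1 ≠ 3)).count (a, k) = if a = 3 then 0 else M.count (a, k) := by
  simp [Multiset.count_filter]

theorem mem_sp (h : Val M) (hN : (M.map dm).sum ≤ N) :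
    ((M.map (rp (2, 0) (3, 0))).map (rp (1, 0) (0, 0))).filter (·.1 ≠ 3) ∈ cf N 0 true := by
  refine mem_cf (h.rp.2.rp.1.mono (Multiset.filter_le _ _)) (fun _ => cnt_f) (fun x hx => ?_) fun _ => ?_
  · have := lev_lt (Multiset.mem_of_mem_filter hx)
    rw [dm_sp] at this; omega
  · simp (disch := simp) only [cnt_f, count_rp, Prod.mk.injEq, Fin.reduceEq, false_and, true_and, if_false, if_true]

/-- the block to be replaced -/
def tb (M : Multiset Bl) : Bl × Bl := if M.count (0, 0) + M.count (1, 0) ≠ 0 then ((1, 0), (0, 0)) else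
  if M.count (0, 1) + M.count (1, 1) ≠ 0 then ((1, 1), (0, 1)) else ((2, 0), (3, 0))

theorem dm_tb : ((M.map (rp (tb M).1 (tb M).2)).map dm).sum = (M.map dm).sum :=
  dm_rp (by unfold tb; split_ifs <;> rfl)

theorem tb_tb : tb (M.map (rp (tb M).1 (tb M).2)) = tb M := by
  rw [tb.eq_def M]; split_ifs
  all_goals
    simp (disch := simp) only [tb, count_rp, Prod.mk.injEq, Fin.reduceEq, false_and, true_and, if_false, if_true,
      Nat.reduceEqDiff, and_false]
    split_ifs <;> first | rfl | omega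

theorem Val.tb (h : Val M) : M.count (tb M).1 ≤ 1 := by
  have := h 0
  have := h 1
  unfold UC.tb; split_ifs <;> dsimp only <;> omega

theorem mem_o (h : Val M) (hN : (M.map dm).sum ≤ N) : (M.map (rp (tb M).1 (tb M).2)).filter (·.1 ≠ 3) ∈ cfO N := by
  have := h 0
  refine mem_cfO (Val.mono ?_ (Multiset.filter_le _ _)) (fun _ => cnt_f) (fun x hx => ?_) ?_ ?_
  · unfold tb; split_ifs
    exacts [h.rp.1, h.rp.1, h.rp.2]
  · have := lev_lt (Multiset.mem_of_mem_filter hx)
    rw [dm_tb] at this; omega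
  all_goals
    unfold tb; split_ifs
    all_goals
      simp (disch := simp) only [cnt_f, count_rp, Prod.mk.injEq, Fin.reduceEq, false_and, true_and, if_false, if_true,
        Nat.reduceEqDiff, and_false, implies_true, and_true]
      try omega

theorem tb_cases : ∃ k a a', tb M = ((a', k), (a, k)) ∧ (a = 0 ∧ a' = 1 ∨ k = 0 ∧ a = 3 ∧ a' = 2) := by
  unfold tb; split_ifs <;> exact ⟨_, _, _, rfl, by simp⟩

open Classical in
theorem bound {F K : Type*} [Field F] [Field K] [Algebra F K] [Finite F] [Algebra.IsAlgebraic F K] [IsAlgClosed K]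
    {G : Type*} {C : Multiset (Multiset Bl)} {c : ℝ} (hc : ∀ r, r ^ 2 = 1 / 2 → zs r C ≤ c) {D : G → Multiset (K × ℕ)}
    (M : G → Multiset Bl) (h1 : ∀ g k, Pal F (lv k (D g))) (h2 : ∀ g, ∀ x ∈ D g, 0 < x.2 ∧ x.1 ≠ 1)
    (h3 : ∀ g, (M g).filter (·.1 ≠ 3) ∈ C) (h4 : ∀ g, dimD (D g) + ((M g).map dm).sum = 2 * n)
    (h5 : ∀ g g', D g = D g' → M g = M g' → g = g') : (Nat.card G : ℝ) ≤ 3.463 * c * Nat.card F ^ n := by
  obtain ⟨ν, hν⟩ : ∃ ν : G → Multiset ℕ, ∀ g, M g = (ν g).map (3, ·) + (M g).filter (·.1 ≠ 3) :=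
    ⟨fun g => ((M g).filter (·.1 = 3)).map Prod.snd, fun g => by
      rw [Multiset.map_map, Multiset.map_congr (g := id) rfl fun x hx => ?_, Multiset.map_id, Multiset.filter_add_not]
      exact Prod.ext (Multiset.mem_filter.1 hx).2.symm rfl⟩
  refine count_le hc (fun g => D g + ((ν g).map (· + 1) + (ν g).map (· + 1)).map (1, ·)) _ (fun g k => by
    rw [lv_add]; exact (h1 g k).add (by
      simpa only [map_one] using pal_two (K := K) (1 : F) (by simp) ((ν g).map (· + 1)) k)) (fun g x hx => ?_) h3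
    (fun g => ?_) fun g g' e e' => ?_
  · simp only [Multiset.mem_add, Multiset.mem_map] at hx
    rcases hx with hx | ⟨_, ⟨k, -, rfl⟩ | ⟨k, -, rfl⟩, rfl⟩
    exacts [(h2 g x hx).1, k.succ_pos, k.succ_pos]
  · rw [← h4 g]
    conv_rhs => rw [hν g]
    simp only [dimD, Multiset.map_add, Multiset.sum_add, Multiset.map_map, Function.comp_def, add_assoc]
    rw [← add_assoc (Multiset.sum (Multiset.map _ (ν g))), ← Multiset.sum_map_add]; rfl
  have a : D g = D g' := by
    have := congrArg (·.filter (·.1 ≠ 1)) e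
    simpa [Multiset.filter_map, Multiset.filter_eq_self.2 fun x hx => (h2 _ x hx).2] using this
  rw [a, add_right_inj, (Multiset.map_injective (Prod.mk_right_injective 1)).eq_iff, ← two_nsmul, ← two_nsmul,
    (nsmul_right_injective two_ne_zero).eq_iff, (Multiset.map_injective (add_left_injective 1)).eq_iff] at e
  exact h5 _ _ a (by rw [hν g, hν g', e, e'])

end H27.UC
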