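import Cfsg.Agent.H27.UC4
import Cfsg.Agent.H27.UC6
import Cfsg.Agent.H27.Cov4
import Cfsg.Agent.H27.CN9

/-! Class numbers of symplectic and orthogonal groups in characteristic two: upper bounds. -/

set_option autoImplicit false
set_option linter.unusedSectionVars false

namespace H27.UC

open Module Function Finset H22 H12 H12.CForm H27.CN H27.Sp
open QuadraticMap hiding sq

variable {F K : Type*} [Field F] [CharP F 2] [Field K] [Algebra F K] {V W : Type*} [AddCommGroup V] [Module F V]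
  [AddCommGroup W] [Module F W] {Q : QuadraticForm F V} {Q' : QuadraticForm F W} {u : End F V} {u' : End F W} {β : F}
  {M M' : Multiset Bl} {D : Multiset (K × ℕ)} {n : ℕ}

/-- the alternating form -/
def pA (Q : QuadraticForm F V) : CForm (altType F) V := .ofAlt Q.polarBilin pol_self

variable (Q u β D M) in
/-- class invariants -/
def Dt : Prop := ∃ (U : Submodule F V) (h1 : ∀ x ∈ U, u x ∈ U) (h2 : ∀ x ∈ (ofQuad Q).perp U, u x ∈ (ofQuad Q).perp U),
  (ofQuad Q).NondegOn U ∧ Un (Q.comp U.subtype) (u.restrict h1 - 1) ∧ Re (Q.comp U.subtype) (u.restrict h1 - 1) β ⊤ M ∧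
    JD (u.restrict h2 : End F _) D ∧ Injective (u.restrict h2 * u.restrict h2 - 1 : End F _)

theorem nd_res {U : Submodule F V} (h : (ofQuad Q).NondegOn U) : QNondeg (Q.comp U.subtype) :=
  (restrict_nondeg_iff _).2 h

theorem isq (hu : ∀ x, Q (u x) = Q x) : (ofQuad Q).IsIsomTo (ofQuad Q) u := quad_isIsomTo u hu

theorem Ag.sp (b : Bl) : Ag β False b (rp (1, 0) (0, 0) (rp (2, 0) (3, 0) b)) := by
  by_cases h1 : b = (2, 0)
  · subst h1; exact ⟨fun j hj => by obtain _ | j := j <;> simp [rp, dA, dB] at *, fun j => by simp [rp, dC]⟩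
  by_cases h2 : b = (1, 0)
  · subst h2; exact ⟨fun j hj => by obtain _ | j := j <;> simp [rp, dA, dB] at *, fun j => by simp [rp, dC]⟩
  rw [rp, rp, if_neg h1, if_neg h2]; exact ⟨fun _ _ => ⟨rfl, rfl⟩, fun _ => rfl⟩

variable [Finite F] [FiniteDimensional F V] [FiniteDimensional F W] [Algebra.IsAlgebraic F K] (hQ : QNondeg Q)
  (hQ' : QNondeg Q') (hu : ∀ x, Q (u x) = Q x) (hu' : ∀ x, Q' (u' x) = Q' x)

section
include hQ hu

theorem exists_dt [IsAlgClosed K] (hβ : ∀ s, s ^ 2 + s ≠ β) : ∃ (D : Multiset (K × ℕ)) (M : Multiset Bl), Dt Q u β M D ∧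
    Val M ∧ (∀ k, Pal F (lv k D)) ∧ (∀ x ∈ D, 0 < x.2 ∧ x.1 ≠ 1) ∧ dimD D + (M.map dm).sum = finrank F V := by
  obtain ⟨U, a1, a2, a3, a4, a5⟩ := exists_fit hQ (isq hu)
  have c1 : Un (Q.comp U.subtype) (u.restrict a1 - 1) := ⟨fun x => by simpa using hu x, a4⟩
  obtain ⟨M, c2, c3⟩ := c1.exists_re hβ (S := ⊤) ⟨fun v _ h => nd_res a3 v fun w => h w trivial, fun _ _ => trivial⟩
  obtain ⟨D, hD⟩ := exists_jd (K := K) (u.restrict a2 : End F _)
  have g1 : Injective (u.restrict a2 * u.restrict a2 - 1 : End F _) :=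
    inj_sq (fun x e => Subtype.ext (a5 x x.2 (congrArg Subtype.val e))) fun x e => Subtype.ext (a5 x x.2 (by
      rw [← neg_one_smul F, CharTwo.neg_eq, one_smul] at e; exact congrArg Subtype.val e))
  have g2 := sq_ne hD g1
  refine ⟨D, M, ⟨U, a1, a2, a3, c1, c2, hD, g1⟩, c3, pal_lv (Rl.of ((restrict_nondeg_iff _).2 (hQ.nondegOn_perp a3))
    (isom_res (isq hu) a2) hD).sy' g2, fun x hx => ⟨hD.pos x hx, fun e => g2 x hx (by simp [e])⟩, ?_⟩
  obtain ⟨_, _, _, _, _, _, _, _, _, e⟩ := c2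
  have := hQ.finrank_add_finrank_perp U
  have := hD.dim
  rw [finrank_top] at e; omega

include hQ' hu'

theorem Dt.fs (h : Dt Q u β M D) (h' : Dt Q' u' β M D) : FSim (ofQuad Q) u (ofQuad Q') u' := by
  obtain ⟨U, a1, a2, a3, a4, a5, a6, a7⟩ := h
  obtain ⟨U', b1, b2, b3, b4, b5, b6, -⟩ := h'
  obtain ⟨e, e1, e2, e3⟩ := a5.iso (o := True) (nd_res a3) (nd_res b3) a4 b4 b5
    (φ := id) (fun _ _ e => by cases e; exact ⟨fun _ _ => ⟨rfl, rfl⟩, fun _ => rfl⟩) rfl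
  exact fsim_glue hQ hQ' a3 b3 ⟨e, ⟨e1, e2 trivial⟩, fun x => by simpa using e3 x⟩ (fsim_of_sim
    ((restrict_nondeg_iff _).2 (hQ.nondegOn_perp a3)) ((restrict_nondeg_iff _).2 (hQ'.nondegOn_perp b3))
    (isom_res (isq hu) a2) (isom_res (isq hu') b2) (a6.sim b6) (.inr a7) (.inr (.inr ⟨rfl, a7⟩)))

theorem Dt.fa (h : Dt Q u β M D) (h' : Dt Q' u' β M' D) (e : (M.map (rp (2, 0) (3, 0))).map (rp (1, 0) (0, 0)) =
    (M'.map (rp (2, 0) (3, 0))).map (rp (1, 0) (0, 0))) : FSim (pA Q) u (pA Q') u' := by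
  obtain ⟨U, a1, a2, a3, a4, a5, a6, a7⟩ := h
  obtain ⟨U', b1, b2, b3, b4, b5, b6, -⟩ := h'
  simp only [Multiset.map_map] at e
  obtain ⟨e, e1, -, e3⟩ := a5.iso (o := False) (nd_res a3) (nd_res b3) a4 b4 b5 (fun b b' e => by
      have h := Ag.sp (β := β) b
      have h' := Ag.sp (β := β) b'
      rw [show rp _ _ (rp _ _ b) = _ from e] at h
      exact ⟨fun j hj => ⟨(h.1 j hj).1.trans (h'.1 j hj).1.symm, (h.1 j hj).2.trans (h'.1 j hj).2.symm⟩,
        fun j => (h.2 j).trans (h'.2 j).symm⟩) e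
  have i1 : (pA Q).IsIsomTo (pA Q) u := ⟨(isq hu).1, fun _ => rfl⟩
  have i2 : (pA Q').IsIsomTo (pA Q') u' := ⟨(isq hu').1, fun _ => rfl⟩
  have n1 : (pA Q).Nondeg := hQ
  have n2 : (pA Q').Nondeg := hQ'
  exact fsim_glue (C := pA Q) (C' := pA Q') (h2 := a2) (h2' := b2) n1 n2 a3 b3 ⟨e, ⟨e1, fun _ => rfl⟩,
    fun x => by simpa using e3 x⟩ (fsim_of_sim ((restrict_nondeg_iff _).2 (n1.nondegOn_perp a3))
      ((restrict_nondeg_iff _).2 (n2.nondegOn_perp b3)) (isom_res i1 a2) (isom_res i2 b2) (a6.sim b6)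
      (.inr a7) (.inl rfl))

omit hQ' hu' in
theorem Dt.tw (hβ : ∀ s, s ^ 2 + s ≠ β) {u' : End F V} (hu' : ∀ x, Q (u' x) = Q x) {a a' : Fin 4} {k : ℕ}
    (h : Dt Q u β ((a, k) ::ₘ M) D) (h' : Dt Q u' β ((a', k) ::ₘ M) D) : ¬ (a = 0 ∧ a' = 1 ∨ k = 0 ∧ a = 3 ∧ a' = 2) := by
  obtain ⟨U, a1, a2, a3, a4, a5, a6, a7⟩ := h
  obtain ⟨U', b1, b2, b3, b4, b5, b6, -⟩ := h'
  obtain ⟨e, e1, -⟩ := fsim_of_sim ((restrict_nondeg_iff _).2 (hQ.nondegOn_perp a3))
    ((restrict_nondeg_iff _).2 (hQ.nondegOn_perp b3)) (isom_res (isq hu) a2)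
    (isom_res (isq hu') b2) (a6.sim b6) (.inr a7) (.inr (.inr ⟨rfl, a7⟩))
  have := iso_perp_of_iso hQ Iso.refl ⟨e, e1⟩
  rw [hQ.perp_perp, hQ.perp_perp] at this
  obtain ⟨f, hf⟩ := this
  exact fun ha => a5.tw (nd_res a3) (nd_res b3) a4 b4 hβ b5 ha f hf.2

end

theorem sp_bound (F : Type*) [Field F] [Fintype F] [CharP F 2] (n : ℕ) :
    Fintype.card F ^ n ≤ Nat.card (ConjClasses (Matrix.symplecticGroup (Fin n) F)) ∧
      5 * Nat.card (ConjClasses (Matrix.symplecticGroup (Fin n) F)) ≤ 76 * Fintype.card F ^ n := by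
  rw [← Nat.card_eq_fintype_card]
  refine ⟨(sp_card (p := 2) F n).ge.trans (card_sub_le _), ?_⟩
  obtain ⟨β, hβ⟩ := Cov.exists_as2 (F := F)
  have R := spRep (Fin n) F
  have h0 : ∀ x y, polar (H11.qPlus n F) x y = (H11.spForm (Fin n) F).B x y := fun x y => by
    simp [H11.polar_quadFormPlus, H11.spForm_B, H11.J_form_apply, CharTwo.sub_eq_add, add_comm]
  have : ∀ g, ∃ Q : QuadraticForm F _, pA Q = H11.spForm (Fin n) F ∧ ∀ x, Q (R.ρ g x) = Q x := fun g => by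
    obtain ⟨v, hv⟩ := Cov.fix_q R.nd (fun x y => h0 x y ▸ q_add x y) q_smul (R.e g).2
    refine ⟨H11.qPlus n F + QuadraticMap.sq.comp ((H11.spForm (Fin n) F).B v), ext' (LinearMap.ext₂ fun x y => ?_) rfl,
      fun x => ?_⟩
    · change polar _ x y = _
      rw [← h0]
      simp only [polar, QuadraticMap.add_apply, QuadraticMap.comp_apply, sq_apply, _root_.map_add]
      linear_combination ((H11.spForm (Fin n) F).B v x * (H11.spForm (Fin n) F).B v y) * two0 (F := F)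
    · simp only [QuadraticMap.add_apply, QuadraticMap.comp_apply, sq_apply, ← sq]
      exact hv x
  choose Q q1 q2 using this
  have q3 : ∀ g, QNondeg (Q g) := fun g => show (pA (Q g)).Nondeg from q1 g ▸ R.nd
  choose D M k1 k2 k3 k4 k5 using fun g : ConjClasses _ => exists_dt (K := AlgebraicClosure F) (q3 _) (q2 g.out) hβ
  have := bound (n := n) (fun r hr => (zs_le hr (2 * n)).1) (fun g => ((M g).map (rp (2, 0) (3, 0))).map (rp (1, 0) (0, 0)))
    k3 k4 (fun g => mem_sp (k2 g) (by have := k5 g; simp at this; omega)) (fun g => by rw [dm_sp, k5]; simp [two_mul])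
    fun g g' e e' => Quotient.out_equiv_out.1 (R.isConj (by
      simpa only [q1] using (k1 g).fa (q3 _) (q3 _) (q2 _) (q2 _) (e ▸ k1 g') e'))
  exact_mod_cast (show (5 * Nat.card _ : ℝ) ≤ 76 * Nat.card F ^ n by
    linarith [show (0 : ℝ) ≤ Nat.card F ^ n by positivity])

include hQ in
theorem o_up (hd : finrank F V = 2 * n) : Nat.card (ConjClasses (orth Q)) ≤ 15 * Nat.card F ^ n := by
  obtain ⟨β, hβ⟩ := Cov.exists_as2 (F := F)
  choose D M k1 k2 k3 k4 k5 using fun g : ConjClasses (orth Q) =>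
    exists_dt (K := AlgebraicClosure F) (u := g.out.1.toLinearMap) hQ (orth_Q g.out) hβ
  have := bound (n := n) (fun r hr => (zs_le hr (2 * n)).2) (fun g => (M g).map (rp (tb (M g)).1 (tb (M g)).2))
    k3 k4 (fun g => mem_o (k2 g) (by have := k5 g; omega)) (fun g => by rw [dm_tb, k5, hd]) fun g g' e e' => ?_
  · exact_mod_cast (show (Nat.card _ : ℝ) ≤ 15 * Nat.card F ^ n by linarith [show (0 : ℝ) ≤ Nat.card F ^ n by positivity])
  have c := tb_tb.symm.trans ((congrArg tb e').trans tb_tb)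
  have f := e ▸ k1 g'
  have f' := k1 g
  rw [← c] at e'
  obtain ⟨k, a, a', h1, h2⟩ := tb_cases (M := M g)
  obtain h | ⟨R, ⟨h, h'⟩ | ⟨h, h'⟩⟩ := eq_of_rp (k2 g).tb (c ▸ (k2 g').tb) e'
  · exact Quotient.out_equiv_out.1 (isConj_of_fsim (f'.fs hQ hQ (orth_Q _) (orth_Q _) (h ▸ f)))
  all_goals rw [h1] at h h'; rw [h] at f'; rw [h'] at f
  exacts [absurd h2 (Dt.tw hQ (orth_Q _) hβ (orth_Q _) f' f), absurd h2 (Dt.tw hQ (orth_Q _) hβ (orth_Q _) f f')]

end H27.UC
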