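import Cfsg.Agent.H27.UC7

/-! Class numbers of orthogonal groups in characteristic two: the lower bound. -/

set_option autoImplicit false
set_option linter.unusedSectionVars false

namespace H27.UC

open Module Function Polynomial H22 H12 H12.CForm H27.CN H27.Sp
open LinearMap hiding polar
open QuadraticMap hiding sq

variable {F : Type*} [Field F] [CharP F 2] [Finite F] {V W : Type*} [AddCommGroup V] [Module F V] [AddCommGroup W]
  [Module F W] [FiniteDimensional F V] [FiniteDimensional F W] {Q : QuadraticForm F V} {u : End F V} {u' : End F W}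
  {g g' : F[X]} {n : ℕ} {β : F}

theorem flip {Q' : QuadraticForm F V} (hQ : QNondeg Q) (hQ' : QNondeg Q') {v : V} (h : ∀ x, Q' x = Q x + polar Q v x ^ 2)
    (hv : ∀ s, s ^ 2 + s ≠ Q v) : ¬ (ofQuad Q).Iso (ofQuad Q') := fun ⟨e, he⟩ => by
  have hp : ∀ x y, polar Q' x y = polar Q x y := fun x y => by
    rw [polar, polar, h, h, h, polar_add_right]; linear_combination (polar Q v x * polar Q v y) * two0 (F := F)
  obtain ⟨⟨a, b⟩, h1, h2, h3⟩ := no_ts hQ hQ' e he.2 (Γ := (ker (Q.polarBilin v)).map (LinearMap.id.prod LinearMap.id))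
    (p := (v, 0)) (by
      rintro _ ⟨x, hx : polar Q v x = 0, rfl⟩
      simp [h, hx, CharTwo.add_self_eq_zero]) (by
      rintro _ ⟨x, hx : polar Q v x = 0, rfl⟩
      simpa [polar_comm Q x] using hx) (by simpa using (hv 0).symm)
  obtain ⟨s, hs⟩ := Submodule.mem_span_singleton.1 ((hQ.perp_perp _).le fun x hx => by
    simpa [hp] using h1 (x, x) ⟨x, (mem_perp_singleton _).1 hx, rfl⟩ : a + b ∈ F ∙ v)
  obtain rfl : a = s • v - b := eq_sub_of_add_eq hs.symm
  simp only [QuadraticMap.prod_apply, h, sub_eq_add_neg, q_add, q_smul, QuadraticMap.map_neg, polar_neg_right,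
    polar_smul_left, smul_eq_mul, CharTwo.neg_eq] at h2
  rcases eq_or_ne s 0 with rfl | h0
  · refine h3 ⟨b, show polar Q v b = 0 from pow_eq_zero_iff two_ne_zero |>.1
      (by linear_combination h2 - Q b * two0 (F := F)), Prod.ext ?_ rfl⟩
    simp [← neg_one_smul F b, CharTwo.neg_eq]
  exact hv (polar Q v b / s) (by field_simp; linear_combination h2 - (Q b + s ^ 2 * Q v) * two0 (F := F))

variable (u g) in
/-- the class invariant -/
def Cp : Prop := ∃ Y : End F V, Y * u = u * u + 1 ∧ Y.charpoly = g ^ 2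

theorem Cp.sim (h : Cp u g) (e : Sim u u') : Cp u' g := by
  obtain ⟨Y, a, b⟩ := h
  obtain ⟨e, he⟩ := e
  refine ⟨e.conj Y, LinearMap.ext fun x => ?_, (e.charpoly_conj Y).trans b⟩
  obtain ⟨x, rfl⟩ := e.surjective x
  simpa [← he] using congr(e ($a x))

theorem Cp.uniq (hu : Surjective u) (h : Cp u g) (h' : Cp u g') : g = g' := by
  obtain ⟨Y, a, b⟩ := h
  obtain ⟨Y', a', b'⟩ := h'
  obtain rfl : Y = Y' := LinearMap.ext (hu.forall.2 fun x => congr($(a.trans a'.symm) x))
  simpa [sq_eq_sq_iff_eq_or_eq_neg, CharTwo.neg_eq] using b.symm.trans b'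

/-- the model form -/
def mQ (ψ ρ : W →ₗ[F] W →ₗ[F] F) : QuadraticForm F (W × W) := BilinMap.toQuadraticMap
  (ψ.compl₁₂ (fst _ _ _) (fst _ _ _) + ψ.compl₁₂ (fst _ _ _) (snd _ _ _) + ρ.compl₁₂ (snd _ _ _) (snd _ _ _))

section
variable {ψ ρ : W →ₗ[F] W →ₗ[F] F} (hψ : ∀ a b, ψ a b = ψ b a) (hρ : ∀ a b, ρ a b = ρ b a) {w : End F W}

theorem mQ_apply (x : W × W) : mQ ψ ρ x = ψ x.1 x.1 + ψ x.1 x.2 + ρ x.2 x.2 := rfl

include hψ hρ

theorem mQ_pol (x y : W × W) : polar (mQ ψ ρ) x y = ψ x.1 y.2 + ψ y.1 x.2 := by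
  simp [polar, mQ_apply, hψ y.1 x.1, hρ y.2 x.2]
  linear_combination (ψ x.1 y.1 + ρ x.2 y.2) * two0 (F := F)

variable (nd : ∀ a, (∀ b, ψ a b = 0) → a = 0) (hw : ∀ c, ρ (w c) (w c) = ψ c (w c))
include nd

theorem mQ_nd : QNondeg (mQ ψ ρ) := fun x hx => Prod.ext
  (nd _ fun b => by simpa [mQ_pol hψ hρ] using hx (0, b)) (nd _ fun b => by simpa [mQ_pol hψ hρ, hψ b] using hx (b, 0))

include hw

theorem mQ_cp (hg : w.charpoly = g) : ∃ γ : orth (mQ ψ ρ), Cp (γ.1 : End F (W × W)) g := by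
  have z : ∀ x : W, x + x = 0 := fun x => by rw [← two_smul F, two0, zero_smul]
  let u : End F (W × W) := (fst _ _ _ + snd _ _ _ + w ∘ₗ fst _ _ _).prod (snd _ _ _ + w ∘ₗ fst _ _ _)
  have a : ∀ x, mQ ψ ρ (u x) = mQ ψ ρ x := fun x => by
    simp [u, mQ_apply, hw, hψ x.2 x.1, hψ (w _) x.1, hψ (w _) x.2, hρ (w _) x.2]
    linear_combination (ψ x.1 x.2 + ψ x.2 x.2 + 2 * ψ x.1 (w x.1) + 2 * ψ x.2 (w x.1) + ψ (w x.1) (w x.1) +
      ρ x.2 (w x.1)) * two0 (F := F)
  refine ⟨⟨.ofInjectiveEndo u ((injective_iff_map_eq_zero _).2 fun x e => mQ_nd hψ hρ nd x fun y =>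
    ((isq a).1 x y).symm.trans (by simp [e])), mem_orth.2 a⟩, w.prodMap w, LinearMap.ext fun x => ?_, by
      rw [charpoly_prodMap, hg, sq]⟩
  refine Prod.ext ?_ ?_ <;> simp [u]
  · linear_combination (norm := abel) -z x.1 - z x.2 - z (w x.1)
  · linear_combination (norm := abel) -z x.2 - z (w x.1)

theorem pick (hβ : ∀ s, s ^ 2 + s ≠ β) (hQ : QNondeg Q) (hd : finrank F V = 2 * n) (hd' : finrank F W = n) {e : W}
    (e1 : ψ e e = 1) (e2 : ψ e (w e) = 0) (e3 : ∀ c, ψ e (w c) = ψ (w e) c) (hg : w.charpoly = g)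
    (hg' : (w + β • (ψ (w e)).smulRight (w e)).charpoly = g') :
    ∃ γ : orth Q, Cp (γ.1 : End F V) g ∨ Cp (γ.1 : End F V) g' := by
  obtain ⟨r, rfl⟩ := sqrt β
  let ρ' := ρ + r ^ 2 • (ψ e).smulRight (ψ e)
  have hρ' : ∀ a b, ρ' a b = ρ' b a := fun a b => by simp [ρ', hρ a, mul_comm]
  have n1 := mQ_nd hψ hρ nd
  have n2 := mQ_nd hψ hρ' nd
  obtain ⟨a, ha⟩ := mQ_cp hψ hρ nd hw hg
  obtain ⟨b, hb⟩ := mQ_cp hψ hρ' nd (fun c => by
    simp [ρ', hw, e2, e3, hρ (w e) (w c), hψ c (w e), ← e3 e]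
    linear_combination (r ^ 2 * ψ (w e) c * ρ (w c) (w e)) * two0 (F := F)) hg'
  have k := flip n1 n2 (v := (r • e, 0)) (fun x => by simp [mQ_apply, mQ_pol hψ hρ, ρ']; ring)
    (by simpa [mQ_apply, e1, ← sq] using hβ)
  have d : finrank F (W × W) = 2 * n := by simp [hd', two_mul]
  by_cases h : (ofQuad (mQ ψ ρ)).HasTS n ↔ (ofQuad Q).HasTS n
  · obtain ⟨c, hc⟩ := exists_fsim hQ (quad_even_iso n1 hQ d hd h) a
    exact ⟨c, .inl (ha.sim (fsim_sim hc))⟩
  · obtain ⟨c, hc⟩ := exists_fsim hQ (quad_even_iso n2 hQ d hd (by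
      have := mt (quad_even_iso n1 n2 d d) k; tauto)) b
    exact ⟨c, .inr (hb.sim (fsim_sim hc))⟩

end

open AdjoinRoot

theorem main (hβ : ∀ s, s ^ 2 + s ≠ β) (hQ : QNondeg Q) (hd : finrank F V = 2 * (n + 2)) (hg : g.Monic)
    (hn : g.natDegree = n + 2) (h : g.coeff 0 ≠ 0 ∨ g.coeff 1 ≠ 0) :
    ∃ γ : orth Q, Cp (γ.1 : End F V) g ∨ Cp (γ.1 : End F V) (g + C (β * g.coeff 0) * X) := by
  have := (powerBasis' hg).finite
  have hr : finrank F (AdjoinRoot g) = n + 2 := (powerBasis' hg).finrank.trans hn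
  obtain ⟨μ, hμ⟩ : ∃ μ : AdjoinRoot g →ₗ[F] F, ∀ p : F[X], p.natDegree < n + 2 → μ (mk g p) = p.coeff (n + 1) :=
    ⟨lcoeff F (n + 1) ∘ₗ modByMonicHom hg, fun p hp => by
      simp [(modByMonic_eq_self_iff hg).2 (degree_lt_degree (hn ▸ hp))]⟩
  have m1 : ∀ i < n + 1, μ (root g ^ i) = 0 := fun i hi => by simpa [coeff_X_pow, hi.ne'] using hμ (X ^ i) (by simp; omega)
  have m2 : μ (root g ^ (n + 1)) = 1 := by simpa using hμ (X ^ (n + 1)) (by simp)
  have nd : ∀ a, (∀ b, μ (a * b) = 0) → a = 0 := fun a ha => by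
    by_contra h0
    have := nontrivial_of_ne _ _ h0
    obtain ⟨p, hp, rfl⟩ := (powerBasis' hg).exists_eq_aeval (S := AdjoinRoot g) a
    have p0 : p ≠ 0 := fun e => h0 (by simp [e])
    have k := hμ (p * X ^ (n + 1 - p.natDegree)) (by rw [natDegree_mul_X_pow _ p0]; simp at hp; omega)
    rw [coeff_mul_X_pow', if_pos (by omega), show n + 1 - (n + 1 - p.natDegree) = p.natDegree by simp at hp; omega] at k
    exact leadingCoeff_ne_zero.2 p0 (k.symm.trans (by simpa using ha (root g ^ (n + 1 - p.natDegree))))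
  have ch : ∀ t : F, (mulLeft F (root g) + t • μ.smulRight (root g)).charpoly = g + C t * X := fun t => by
    set w := mulLeft F (root g) + t • μ.smulRight (root g)
    have a : ∀ i ≤ n + 1, (w ^ i) 1 = root g ^ i := fun i hi => by
      induction i with
      | zero => simp
      | succ i ih => rw [← pw_succ, ih (by omega)]; simp [w, m1 i hi, pow_succ']
    have b := w.charpoly_monic
    have c := (w.charpoly_natDegree).trans hr
    have d := congr($(w.aeval_self_charpoly) 1)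
    rw [aeval_eq_sum_range, c, LinearMap.sum_apply, Finset.sum_range_succ, Finset.sum_congr rfl fun i hi =>
      (LinearMap.smul_apply _ _ _).trans (congrArg _ (a i (by simp at hi; omega))), ← c, b.coeff_natDegree, c, one_smul, ← pw_succ,
      a _ le_rfl] at d
    have f : (C t * X).degree < w.charpoly.degree := degree_lt_degree (c ▸ lt_of_le_of_lt (by compute_degree) (by omega : 1 < _))
    exact eq_sub_of_add_eq (eq_of_monic_of_dvd_of_natDegree_le hg (b.add_of_left f) (mk_eq_zero.1 (by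
      rw [← aeval_eq, map_add, aeval_eq_sum_range, c, Finset.sum_range_succ, ← c, b.coeff_natDegree, c]
      simpa [w, m2, ← pow_succ', add_assoc, Algebra.smul_def t (root g)] using d))
      (by rw [natDegree_add_eq_left_of_degree_lt f, c, hn])) |>.trans (CharTwo.sub_eq_add _ _)
  have k : ∀ p : F[X], root g * mk g p.divX = mk g p - p.coeff 0 • 1 := fun p => by
    simpa [Algebra.smul_def, eq_sub_iff_add_eq, -X_mul_divX_add] using congrArg (mk g) p.X_mul_divX_add
  have k1 : μ (mk g g.divX) = 1 := by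
    rw [hμ _ (by rw [natDegree_divX_eq_natDegree_tsub_one]; omega), coeff_divX, ← hn, hg.coeff_natDegree]
  have k2 := k g
  rw [mk_self, zero_sub, ← neg_smul, CharTwo.neg_eq] at k2
  obtain ⟨c, c', p, e, a1, a2, a3, a4, a5⟩ : ∃ c c' p e : AdjoinRoot g, c * c' = 1 ∧ root g * root g * p = root g ∧
      μ (c * e * e) = 1 ∧ μ (c * e * (root g * e)) = 0 ∧
      ∀ x, μ (c * (root g * e) * x) • (root g * e) = (g.coeff 0 * μ x) • root g := by
    by_cases h0 : g.coeff 0 = 0
    · have h1 := h.resolve_left (not_not.2 h0)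
      have k3 := k g.divX
      rw [h0, zero_smul] at k2
      rw [coeff_divX, zero_add] at k3
      have k4 : mk g g.divX * mk g g.divX = g.coeff 1 • mk g g.divX := by
        rw [Algebra.smul_def] at k3 ⊢
        linear_combination mk g g.divX.divX * k2 - mk g g.divX * k3
      refine ⟨(g.coeff 1)⁻¹ • 1, g.coeff 1 • 1, (g.coeff 1)⁻¹ • mk g g.divX.divX, mk g g.divX, by simp [smul_smul, h1], ?_,
        by simp [k4, k1, h1, -smul_mk], by simp [k2], by simp [k2, h0]⟩
      rw [mul_smul_comm, mul_assoc, k3, mul_sub, k2, zero_sub, ← neg_one_smul F, CharTwo.neg_eq]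
      simp [smul_smul, h1]
    · refine ⟨mk g g.divX, (g.coeff 0)⁻¹ • root g, (g.coeff 0)⁻¹ • mk g g.divX, 1, ?_, ?_, by simp [k1], ?_, fun x => ?_⟩
      · simp [mul_comm _ (root g), k2, smul_smul, h0]
      · simp [mul_assoc, k2, smul_smul, h0, -smul_mk]
      · simpa [mul_comm _ (root g), k2, h0] using m1 0 n.succ_pos
      · simp [mul_comm _ (root g), k2]
  exact pick (ψ := ((mul F _).compl₁₂ (mulLeft F c) .id).compr₂ μ) (ρ := ((mul F _).compl₁₂ (mulLeft F (c * p)) .id).compr₂ μ)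
    (w := mulLeft F (root g)) (fun a b => congrArg μ (mul_right_comm _ _ _)) (fun a b => congrArg μ (mul_right_comm _ _ _))
    (fun a ha => by linear_combination c' * nd (c * a) ha - a * a1)
    (fun x => congrArg μ (by simp; linear_combination (c * x * x) * a2)) hβ hQ hd hr a3 a4
    (fun x => congrArg μ (by simp; ring)) (by simpa using ch 0) ((congrArg _ (LinearMap.ext fun x => by
      simp [a5, mul_smul])).trans (ch _))

theorem o_low (hQ : QNondeg Q) (hd : finrank F V = 2 * (n + 2)) :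
    Nat.card F ^ (n + 2) ≤ 2 * Nat.card (ConjClasses (orth Q)) := by
  classical
  have : Finite V := Module.finite_of_finite F
  obtain ⟨β, hβ⟩ := Cov.exists_as2 (F := F)
  let T : F[X] → F[X] := fun g => g + C (if g.coeff 0 = 0 then 1 else β * g.coeff 0) * X
  choose γ hγ using fun g : {g : F[X] // (g.Monic ∧ g.natDegree = n + 2) ∧ True} =>
    show ∃ γ : orth Q, Cp (γ.1 : End F V) g.1 ∨ Cp (γ.1 : End F V) (T g.1) from by
      obtain ⟨g, ⟨h1, h2⟩, -⟩ := g
      by_cases h0 : g.coeff 0 = 0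
      swap; · simpa only [T, if_neg h0] using main hβ hQ hd h1 h2 (.inl h0)
      by_cases h3 : g.coeff 1 = 0
      swap; · exact (main hβ hQ hd h1 h2 (.inr h3)).imp fun _ h => .inl (by simpa [h0] using h)
      have f : (X : F[X]).degree < g.degree := degree_lt_degree (by simp [h2])
      exact (main hβ hQ hd (h1.add_of_left f) ((natDegree_add_eq_left_of_degree_lt f).trans h2)
        (.inr (by simp [h3]))).imp fun _ h => .inr (by simpa [T, h0] using h)
  have k : ∀ g g' a a', ConjClasses.mk (γ g) = .mk (γ g') → Cp ((γ g).1 : End F V) a → Cp ((γ g').1 : End F V) a' → a = a' :=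
    fun g g' a a' e h h' => (h.sim (sim_of_isConj (ConjClasses.mk_eq_mk_iff_isConj.1 e))).uniq (γ g').1.surjective h'
  refine le_of_eq_of_le ?_ ((Nat.card_le_card_of_injective (β := ConjClasses (orth Q) × Bool) (fun g => (.mk (γ g),
    decide (Cp ((γ g).1 : End F V) g.1))) fun g g' e => Subtype.ext ?_).trans_eq (by simp [mul_comm]))
  · exact ((card_monic (n + 2) fun _ => True).trans (by simp [Nat.card_pi])).symm
  simp only [Prod.mk.injEq, decide_eq_decide] at e
  by_cases h : Cp ((γ g).1 : End F V) g.1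
  · exact k _ _ _ _ e.1 h (e.2.1 h)
  have a := k _ _ _ _ e.1 ((hγ g).resolve_left h) ((hγ g').resolve_left (mt e.2.2 h))
  have b : g.1.coeff 0 = g'.1.coeff 0 := by simpa [T] using congr(coeff $a 0)
  simpa [T, b] using a

theorem o_bound (hQ : QNondeg Q) {G : Type*} [Group G] (R : IsoRep (ofQuad Q) G) (hn : 2 ≤ n) (hd : finrank F V = 2 * n) :
    Nat.card F ^ n ≤ 2 * Nat.card (ConjClasses G) ∧ Nat.card (ConjClasses G) ≤ 15 * Nat.card F ^ n := by
  obtain ⟨n, rfl⟩ := Nat.exists_eq_add_of_le' hn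
  rw [card_cc R.e]
  exact ⟨o_low hQ hd, o_up hQ hd⟩

end H27.UC
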