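/-
Standard subgroups of type `Sp₄(2ⁿ)`: the positive relations.
-/
import Cfsg.Agent.H27.W6

set_option autoImplicit false
set_option linter.unusedSectionVars false

namespace H27.S4
open Cfsg Subgroup
open H28.CY hiding aa h2
open H19 hiding PG
open H1.YG (Big h2 aa ng add0 sqadd ex_n four_le ex_sqrt sq_inj)

universe u
variable {F : Type} [Field F] [Big F] {G : Type u} [Group G] [Finite G] {ι : Γ F →* G} {g k t y y' b : G} {x : Γ F}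
  {c d u v w κ s κ' s' : F} {l m : Fˣ} {B : Subgroup G} {β δ : F → G}

namespace Dl
variable (E : Dl ι t δ κ s)
include E
theorem zero : δ 0 = 1 := by simpa [X_zero] using E.mul 0 0
theorem comm (c d : F) : δ c * δ d = δ d * δ c := by rw [E.mul, E.mul, add_comm, mul_right_comm]
theorem sq (c : F) : δ c * δ c = ι (X 7 (s ^ 2 * c ^ 2)) := by rw [E.mul, aa, E.zero, one_mul, pow_two c, mul_assoc]
theorem inv (c : F) : (δ c)⁻¹ = δ c * ι (X 7 (s ^ 2 * c ^ 2)) := inv_eq_of_mul_eq_one_right (by rw [← mul_assoc, E.sq, ix2])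
theorem dt (c : F) : δ c ⋆ t = t * ι (X 7 (c ^ 2)) := E.ct c
theorem d5 (c u : F) : δ c ⋆ ι (X 5 u) = ι (X 5 u) := cjc (E.c5 ..)
theorem d6 (c u : F) : δ c ⋆ ι (X 6 u) = ι (X 6 u) := cjc (E.c6 ..)
theorem d7 (c u : F) : δ c ⋆ ι (X 7 u) = ι (X 7 u) := cjc (E.c7 ..)
theorem d4 (c u : F) : δ c ⋆ ι (X 4 (u ^ 2)) = ι (X 4 (u ^ 2)) * ι (X 6 (κ * c * u)) := E.c4 ..
theorem it (c : F) : (δ c)⁻¹ ⋆ t = t * ι (X 7 (c ^ 2)) := cji (E.ct c) (E.c7 ..) (ix2 ..)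
theorem i5 (c u : F) : (δ c)⁻¹ ⋆ ι (X 5 u) = ι (X 5 u) := cic (E.c5 ..)
theorem i6 (c u : F) : (δ c)⁻¹ ⋆ ι (X 6 u) = ι (X 6 u) := cic (E.c6 ..)
theorem i7 (c u : F) : (δ c)⁻¹ ⋆ ι (X 7 u) = ι (X 7 u) := cic (E.c7 ..)
theorem i4 (c u : F) : (δ c)⁻¹ ⋆ ι (X 4 (u ^ 2)) = ι (X 4 (u ^ 2)) * ι (X 6 (κ * c * u)) := cji (E.c4 ..) (E.c6 ..) (ix2 ..)
theorem hd (l m : Fˣ) (c : F) : ι (hh l m) ⋆ δ c = δ (l * c) := E.tor ..
theorem td (H : Hyp ι t) (c : F) : t ⋆ δ c = δ c * ι (X 7 (c ^ 2)) := swp (E.ct c) H.tt (E.c7 ..)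
theorem x5 (u c : F) : ι (X 5 u) ⋆ δ c = δ c := cjc (E.c5 ..).symm
theorem x6 (u c : F) : ι (X 6 u) ⋆ δ c = δ c := cjc (E.c6 ..).symm
theorem x7 (u c : F) : ι (X 7 u) ⋆ δ c = δ c := cjc (E.c7 ..).symm
theorem x4 (u c : F) : ι (X 4 (u ^ 2)) ⋆ δ c = δ c * ι (X 6 (κ * c * u)) := swp (E.c4 c u) (ix2 ..) (E.c6 ..)
/-- the doubled long root group -/
def B7 : Subgroup G where
  carrier := {g | ∃ c w, g = δ c * ι (X 7 w)}
  one_mem' := ⟨0, 0, by rw [E.zero, ix0, mul_one]⟩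
  mul_mem' := by
    rintro _ _ ⟨c, w, rfl⟩ ⟨c', w', rfl⟩
    exact ⟨_, _, by rw [mul_assoc, ← mul_assoc (ι _), ← E.c7, ← mul_assoc, ← mul_assoc, E.mul, mul_assoc, mul_assoc, ixa, ixa]⟩
  inv_mem' := by rintro _ ⟨c, w, rfl⟩; exact ⟨c, _, by rw [mul_inv_rev, ixi, E.inv, ← mul_assoc, ← E.c7, mul_assoc, ixa]⟩
theorem dB (c : F) : δ c ∈ E.B7 := ⟨c, 0, by rw [ix0, mul_one]⟩
theorem zB (c : F) : ι (X 7 c) ∈ E.B7 := ⟨0, c, by rw [E.zero, one_mul]⟩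
theorem hB (l m : Fˣ) : ι (hh l m) ∈ N(E.B7) := mem_norm_of (by
  rintro _ ⟨c, w, rfl⟩; exact ⟨_, _, (cnm ..).trans (by rw [E.hd, h7])⟩)
theorem bd (H : Hyp ι t) {κ' s' : F} (D : Db ι t β κ' s') (c d : F) : β c * δ d = δ d * β c := by
  obtain ⟨l, hl, hl2⟩ := exl (F := F)
  have A : ∀ c, β c ⋆ δ d ∈ E.B7 := fun c => by
    have e : δ d = δ (d / (l + 1)) * ι (hh l l⁻¹) ⋆ (δ (d / (l + 1)))⁻¹ * ι (X 7 (s ^ 2 * (l * (d / (l + 1))) ^ 2 + s ^ 2 * (d / (l + 1)) * (l * (d / (l + 1))))) := by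
      rw [cni, E.hd, E.inv, ← mul_assoc, E.mul, mul_assoc, mul_assoc, ixa, ixa, ← one_add_mul, add_comm 1, mul_div_cancel₀ _ hl]
      ring_nf; simp [show (2 : F) = 0 from h2, X_zero]
    rw [e, cnm, D.b7, mul_mem_cancel_right (E.zB _)]
    generalize d / (l + 1) = d'
    have f : ∀ x, ((δ d')⁻¹ * β c ⋆ δ d') ⋆ x = (δ d')⁻¹ ⋆ β c ⋆ δ d' ⋆ (β c)⁻¹ ⋆ x := fun x => by simp only [cn]; group
    obtain ⟨v, w, k, hk, r⟩ := H.cU (g := (δ d')⁻¹ * β c ⋆ δ d') (cjc' (by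
        simp only [f, cnm, D.it, E.dt, E.d6, D.bt, D.b6, D.b7, E.it, E.i6, E.i7]
        simp [-map_mul, mul_assoc, ← map_mul, el6, el7, el_mul, aa, el0]))
      (fun u => cjc' ((f _).trans (by simp only [cnm, D.i5, E.d5, E.d7, D.b5, D.b7, E.i5, E.i7, mul_assoc, ix2, mul_one])))
      (fun u => cjc' ((f _).trans (by
        obtain ⟨u, rfl⟩ := ex_sqrt u
        simp only [cnm, D.i4, E.d4, D.b4, D.b6, E.i4, E.i6, mul_assoc, ix2, mul_one])))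
      (fun u => cjc' ((f _).trans (by rw [D.i6, E.d6, D.b6, E.i6]))) fun u => cjc' ((f _).trans (by rw [D.i7, E.d7, D.b7, E.i7]))
    have q := ht' (h := ι (hh l l⁻¹)) (inv_mul_eq_iff_eq_mul.1 r |>.trans (mul_assoc ..).symm) (mem_cent.1 hk _ ⟨_, rfl⟩).symm
    have hc : β c ⋆ ι (hh l l⁻¹) = ι (hh l l⁻¹) := cjc (cjc' (by simpa using D.hb l l⁻¹ c)).symm
    rw [← cni, ← hc, ← cnn, ← cnm, hc] at q
    rw [q, mul_inv_rev, cnm, mul_assoc (δ d'), ← mul_assoc (ι (el _ _ _ _)), ← map_inv, ιn, ← map_mul _ (el _ _ _ _),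
      show el 0 0 v w * (hh l l⁻¹ * (el 0 0 v w)⁻¹ * (hh l l⁻¹)⁻¹) = X 7 (w + l ^ 2 * w) by simp [el_inv, hh_el, el_mul, aa, el7]]
    exact mul_mem (E.dB _) (mul_mem (E.zB _) (conj_mem_of_norm (E.hB _ _) (inv_mem (E.dB _))))
  have A' : ∀ c, ∃ w, β c ⋆ δ d = δ d * ι (X 7 w) := fun c => by
    obtain ⟨e, w, p⟩ := A c
    have : (β c ⋆ δ d) ⋆ t = t * ι (X 7 (d ^ 2)) := by
      rw [show (β c ⋆ δ d) ⋆ t = β c ⋆ δ d ⋆ (β c)⁻¹ ⋆ t by simp only [cn]; group]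
      simp only [D.it, cnm, E.dt, E.d6, D.bt, D.b7, D.b6]
      rw [mul_assoc, mul_assoc, ixc (r := 7) (s := 6), ← mul_assoc (ι _), ix2, one_mul]
    rw [p, mcn, H.xt, E.dt, mul_right_inj] at this
    exact ⟨w, by rw [p, sq_inj (X_inj (H.inj this))]⟩
  choose w A' using A'
  have un : ∀ {a b}, δ d * ι (X 7 a) = δ d * ι (X 7 b) → a = b := fun e => X_inj (H.inj (mul_left_cancel e))
  have := wt0 (f := w) (l := l) (fun a b => by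
    obtain ⟨e, p⟩ := D.mul' a b
    exact un ((A' _).symm.trans (by simp only [← mul_inv_eq_iff_eq_mul.2 p, ixi, mcn, cnm, E.x6, A', D.b7, mul_assoc, ixa]))) hl
    (fun c => un ((A' _).symm.trans (by
      simpa only [cnm, cnn (ι _), D.hb, E.hd, h7, Units.val_one, one_mul, one_pow] using congrArg (ι (hh 1 l) ⋆ ·) (A' c)))) fun _ => aa _
  exact cjc' (by rw [A', this, ix0, mul_one])
theorem shift (H : Hyp ι t) (ε : F) : Dl ι t (fun c => δ c * ι (X 7 (ε * c ^ 2))) κ s where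
  ct c := (mcn ..).trans (by rw [H.xt, E.dt])
  mul c d := by
    rw [mul_assoc, ← mul_assoc (ι _), ← E.c7, ← mul_assoc, ← mul_assoc, E.mul, mul_assoc (δ _), mul_assoc (δ _), mul_assoc (δ _), ixa, ixa, ixa, sqadd]
    congr 3; ring
  c5 c u := Commute.mul_left (E.c5 ..) (ixc (by decide +kernel) ..)
  c6 c u := Commute.mul_left (E.c6 ..) (ixc (by decide +kernel) ..)
  c7 c u := Commute.mul_left (E.c7 ..) (ixc (by decide +kernel) ..)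
  c4 c u := (mcn ..).trans (by rw [xx', E.d4])
  c3 c u := (mcn ..).trans (by rw [xx']; exact E.c3 ..)
  tor l m c := (cnm ..).trans (by rw [E.hd, h7, mul_pow, mul_left_comm])
  hO o ho c := Commute.mul_right (E.hO o ho c) (H.hO _ o ho)
end Dl

/-- the common properties of `X₇` and of its doubling -/
structure L7 (ι : Γ F →* G) (t : G) (β : F → G) (B : Subgroup G) : Prop where
  z : ∀ w, ι (X 7 w) ∈ B
  c5 : ∀ b ∈ B, ∀ u, b * ι (X 5 u) = ι (X 5 u) * b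
  c6 : ∀ b ∈ B, ∀ u, b * ι (X 6 u) = ι (X 6 u) * b
  c7 : ∀ b ∈ B, ∀ u, b * ι (X 7 u) = ι (X 7 u) * b
  c4 : ∀ b ∈ B, ∀ u, ∃ v, ι (X 4 u) ⋆ b = b * ι (X 6 v)
  ct : ∀ b ∈ B, ∃ d, b ⋆ t = t * ι (X 7 d)
  cov : ∀ g d, g ⋆ t = t * ι (X 7 d) → ∃ b ∈ B, b ⋆ t = t * ι (X 7 d)
  tor : ∀ l m, ι (hh l m) ∈ N(B)
  bd : ∀ b ∈ B, ∀ c, β c * b = b * β c

theorem Dl.l7 (E : Dl ι t δ κ' s') (H : Hyp ι t) (D : Db ι t β κ s) : L7 ι t β E.B7 where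
  z := E.zB
  c5 := by rintro _ ⟨c, w, rfl⟩ u; exact Commute.mul_left (E.c5 ..) (ixc (by decide +kernel) ..)
  c6 := by rintro _ ⟨c, w, rfl⟩ u; exact Commute.mul_left (E.c6 ..) (ixc (by decide +kernel) ..)
  c7 := by rintro _ ⟨c, w, rfl⟩ u; exact Commute.mul_left (E.c7 ..) (ixc (by decide +kernel) ..)
  c4 := by
    rintro _ ⟨c, w, rfl⟩ u
    obtain ⟨u, rfl⟩ := ex_sqrt u
    exact ⟨_, by rw [cnm, E.x4, xx', mul_assoc, ixc (r := 6), ← mul_assoc]⟩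
  ct := by rintro _ ⟨c, w, rfl⟩; exact ⟨_, by rw [mcn, H.xt, E.dt]⟩
  cov _ d _ := let ⟨e, p⟩ := ex_sqrt d; ⟨_, E.dB e, p ▸ E.dt e⟩
  tor := E.hB
  bd := by rintro _ ⟨c, w, rfl⟩ d; exact Commute.mul_right (E.bd H D ..) (D.c7 ..)
/-- the long root group -/
noncomputable def Z2 (ι : Γ F →* G) : Subgroup G where
  carrier := {g | ∃ w, g = ι (X 7 w)}
  one_mem' := ⟨0, (ix0 _).symm⟩
  mul_mem' := by rintro _ _ ⟨_, rfl⟩ ⟨_, rfl⟩; exact ⟨_, ixa ..⟩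
  inv_mem' := by rintro _ ⟨_, rfl⟩; exact ⟨_, ixi ..⟩
theorem N2.l7 (E : N2 ι t) (H : Hyp ι t) (D : Db ι t β κ s) : L7 ι t β (Z2 ι) where
  z w := ⟨w, rfl⟩
  c5 := by rintro _ ⟨w, rfl⟩ u; exact ixc (by decide +kernel) ..
  c6 := by rintro _ ⟨w, rfl⟩ u; exact ixc (by decide +kernel) ..
  c7 := by rintro _ ⟨w, rfl⟩ u; exact ixc (by decide +kernel) ..
  c4 := by rintro _ ⟨w, rfl⟩ u; exact ⟨0, by rw [xx', ix0, mul_one]⟩
  ct := by rintro _ ⟨w, rfl⟩; exact ⟨0, by rw [H.xt, ix0, mul_one]⟩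
  cov g d p := ⟨1, one_mem _, by rw [E g d p, ix0, mul_one, cn0]⟩
  tor l m := mem_norm_of (by rintro _ ⟨w, rfl⟩; exact ⟨_, h7 ..⟩)
  bd := by rintro _ ⟨w, rfl⟩ d; exact D.c7 ..

namespace L7
variable (L : L7 ι t β B) (H : Hyp ι t) (D : Db ι t β κ s)
include L H D
/-- the product of the groups belonging to `X₆` and `X₇` -/
def Zt : Subgroup G where
  carrier := {g | ∃ c v, ∃ b ∈ B, g = β c * ι (X 6 v) * b}
  one_mem' := ⟨0, 0, 1, one_mem _, by rw [D.zero, ix0]; simp⟩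
  mul_mem' := by
    rintro _ _ ⟨c, v, b, hb, rfl⟩ ⟨c', v', b', hb', rfl⟩
    obtain ⟨e, p⟩ := D.mul' c c'
    refine ⟨c + c', e + (v + v'), _, mul_mem hb hb', ?_⟩
    rw [← ixa, ← ixa, ← mul_assoc (β _), ← p, mul_assoc _ b, ← mul_assoc b, ← mul_assoc b, ← L.bd b hb, mul_assoc _ b, L.c6 b hb,
      mul_assoc (β c) _ (_ * b'), ← mul_assoc (ι _), ← mul_assoc (ι _), ← D.c6]; simp only [mul_assoc]
  inv_mem' := by
    rintro _ ⟨c, v, b, hb, rfl⟩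
    refine ⟨c, s * c + v, _, inv_mem hb, ?_⟩
    rw [← ixa, ← mul_assoc, ← D.inv, mul_inv_rev, mul_inv_rev, ixi, ← (Commute.inv_left (D.c6 c v)).eq]
    exact ((Commute.inv_left_iff.2 (Commute.inv_right (L.bd b hb c))).mul_left (Commute.inv_right (L.c6 b hb v).symm)).eq.symm
theorem star (u c : F) : ∃ v, ∃ b ∈ B, ι (X 4 u) ⋆ Nb ι (β c) = Nb ι (β c) * β (c * u) * ι (X 6 v) * b ∧
    b ⋆ t = t * ι (X 7 ((1 + κ) * c ^ 2 * u)) := by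
  obtain ⟨l, -, hl⟩ := exl (F := F)
  have βZ : ∀ c, β c ∈ L.Zt D := fun c => ⟨c, 0, 1, one_mem _, by rw [ix0]; simp⟩
  have BZ : ∀ b ∈ B, b ∈ L.Zt D := fun b hb => ⟨0, 0, b, hb, by rw [D.zero, ix0]; simp⟩
  have xZ : ∀ c, ι (X 6 c) ∈ L.Zt D := fun c => ⟨0, c, 1, one_mem _, by rw [D.zero]; simp⟩
  have n4 : ∀ u, ι (X 4 u) ∈ N(L.Zt D) := fun u => mem_norm_of (by
    rintro _ ⟨c, v, b, hb, rfl⟩
    obtain ⟨e, p⟩ := L.c4 b hb u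
    show ι (X 4 u) ⋆ _ ∈ _
    simp only [cnm, D.x4, xx' (r := 4) (s := 6), p]
    exact mul_mem (mul_mem (βZ _) (xZ _)) (mul_mem (BZ b hb) (xZ _)))
  have nh : ι (hh l l) ∈ N(L.Zt D) := mem_norm_of (by
    rintro _ ⟨c, v, b, hb, rfl⟩
    exact ⟨_, _, _, conj_mem_of_norm (L.tor l l) hb, (cnm ..).trans (by rw [cnm, D.hb, h6]; rfl)⟩)
  have e1 : ∀ u, (ι (X 4 u) ⋆ Nb ι (β c)) ⋆ t = t * ι (X 5 c) * ι (X 6 (c * u)) * ι (X 7 (c ^ 2 * u)) := fun u => by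
    rw [← H.xt (X 4 u), ← cnn, D.nt H, cnm, H.xt, ι45]; simp only [mul_assoc]
  have A : (Nb ι (β c))⁻¹ * ι (X 4 u) ⋆ Nb ι (β c) ∈ L.Zt D := by
    rw [← mul_div_cancel₀ u hl]
    generalize u / (l ^ 2 + 1) = u
    have e2 : ((Nb ι (β c) * β (c * u))⁻¹ * ι (X 4 u) ⋆ Nb ι (β c)) ⋆ t = t * ι (X 7 ((1 + κ) * c ^ 2 * u)) := by
      simp only [mul_inv_rev, mcn, e1, cnm, D.jt H, D.j5, D.j6, D.j7, D.it, D.i5, D.i6, D.i7]
      simp [-map_mul, mul_assoc, ← map_mul, el5, el6, el7, el_mul, aa]; congr 2; ring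
    obtain ⟨b, hb, e3⟩ := L.cov _ _ e2
    have f : ∀ x, (b⁻¹ * ((Nb ι (β c) * β (c * u))⁻¹ * ι (X 4 u) ⋆ Nb ι (β c))) ⋆ x =
        b⁻¹ ⋆ (β (c * u))⁻¹ ⋆ (Nb ι (β c))⁻¹ ⋆ ι (X 4 u) ⋆ Nb ι (β c) ⋆ ι (X 4 u) ⋆ x := fun x => by
      nth_rw 3 [← ixi 4 u]; simp only [cn]; group
    obtain ⟨p, v, w, k, hk, r⟩ := H.cQ2 (g := b⁻¹ * ((Nb ι (β c) * β (c * u))⁻¹ * ι (X 4 u) ⋆ Nb ι (β c)))
      (cjc' (by rw [mcn, e2, ← e3, icn]))
      (fun a => ⟨_, (f _).trans (by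
        simp only [cnm, ι45, D.n5, D.n6, D.n7, xx' (r := 4) (s := 6), xx' (r := 4) (s := 7), D.j5, D.j6, D.j7, D.i5, D.i6, D.i7,
          cic (L.c5 b hb _), cic (L.c6 b hb _), cic (L.c7 b hb _)]
        simp only [mul_assoc, ← map_mul, el5, el6, el7, el_mul, add_zero, zero_add, mul_zero, zero_mul, zero_pow two_ne_zero, aa]; rfl)⟩)
      (fun a => ⟨_, (f _).trans (by
        simp only [cnm, D.n6, xx' (r := 4) (s := 6), xx' (r := 4) (s := 7), D.j6, D.j7, D.i6, D.i7, cic (L.c6 b hb _), cic (L.c7 b hb _)]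
        rw [mul_assoc, ixa])⟩)
      fun a => cjc' ((f _).trans (by simp only [D.n7, xx' (r := 4) (s := 7), D.j7, D.i7, cic (L.c7 b hb _)]))
    have r' : (Nb ι (β c))⁻¹ ⋆ ι (X 4 u) = β (c * u) * b * ι (el p 0 v w * X 4 u) * k := by
      rw [map_mul, mul_assoc _ _ k, mul_assoc _ _ k, mem_cent.1 hk _ ⟨_, rfl⟩, ← mul_assoc (ι _), ← r]; simp only [cn]; group
    have q := ht' (h := ι (hh l l)) r' (mem_cent.1 hk _ ⟨_, rfl⟩).symm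
    rw [← cni, ← cic (cjc' (D.nh l c)), ← cnn, ← cnm, cic (cjc' (D.nh l c)), ixi, h4, ixa, mul_inv_rev, cnm, mul_assoc (_ * b),
      ← mul_assoc (ι _), ← map_inv, ιn, ← map_mul, show el p 0 v w * X 4 u * (hh l l * (el p 0 v w * X 4 u)⁻¹ * (hh l l)⁻¹) =
        el 0 0 (v + l ^ 2 * (v + p * u) + p * u) (w + l ^ 2 * (w + p ^ 2 * u) + p ^ 2 * u) * X 4 (u + l ^ 2 * u) by
        simp [el4, el_inv, hh_el, el_mul, aa, pow_two], map_mul, ιZ] at q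
    rw [add_one_mul, add_comm, show (Nb ι (β c))⁻¹ * ι (X 4 (u + l ^ 2 * u)) ⋆ Nb ι (β c) =
      (Nb ι (β c))⁻¹ ⋆ ι (X 4 (u + l ^ 2 * u)) * (ι (X 4 (u + l ^ 2 * u)))⁻¹ by simp only [cn]; group, q, mul_assoc, mul_assoc _ (ι (X 4 _)),
      mul_assoc (_ * ι (X 7 _))]
    have m := mul_mem (βZ (c * u)) (BZ b hb)
    exact mul_mem m (mul_mem (mul_mem (xZ _) (BZ _ (L.z _))) (conj_mem_of_norm (n4 _) (conj_mem_of_norm nh (inv_mem m))))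
  obtain ⟨d, v, b, hb, p⟩ := A
  obtain ⟨e, q⟩ := L.ct b hb
  rw [inv_mul_eq_iff_eq_mul] at p
  have := e1 u
  simp only [p, mcn, q, cnm, H.xt, xx' (r := 6) (s := 7), D.bt, D.b7, D.nt H, D.n6, D.n7, mul_assoc, mul_right_inj, ixa] at this
  rw [← ιZ, ← ιZ] at this
  obtain ⟨-, -, rfl, k⟩ := el_inj (H.inj this)
  exact ⟨v, b, hb, by rw [p]; simp only [mul_assoc], by rw [q, eq_sub_of_add_eq' k, sub_eq_add_neg, ng]; congr 3; ring⟩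
theorem braid (h4 : ∀ b ∈ B, ∀ u, b * ι (X 4 u) = ι (X 4 u) * b) (h3 : ∀ b ∈ B, ∀ u, b * ι (X 3 u) = ι (X 3 u) * b)
    (sq : ∀ b ∈ B, ∃ w, b * b = ι (X 7 w)) : s = 0 ∧ (∀ c d, Nb ι (β c) * β d = β d * Nb ι (β c)) ∧
      ∃ b ∈ B, b * b = 1 ∧ ι (X 4 1) ⋆ Nb ι (β 1) = Nb ι (β 1) * β 1 * b ∧ b ⋆ t = t * ι (X 7 (1 + κ)) := by
  obtain ⟨v, b, hb, p, q⟩ := L.star H D 1 1
  obtain ⟨ρ, n⟩ := D.n56 H
  obtain ⟨w, bb⟩ := sq b hb
  simp only [mul_one, one_pow] at p q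
  have e4 := cjc (h4 b hb 1).symm
  have e3 := cjc (h3 b hb 1).symm
  have nb' : Nb ι b = b := by rw [Nb_eq, nb_def, map_mul, map_mul, mcn, mcn, e4, e3, e4]
  have p3 := congrArg (Nb ι) p
  simp only [Nb_cn, Nb_mul, Nb_X, sab, Nb_Nb, nb'] at p3
  have br : ι (X 3 1) ⋆ ι (X 4 1) ⋆ Nb ι (β 1) = β 1 := by
    rw [← icn (ι (X 4 1)) (_ ⋆ _), ← mcn (ι (X 4 1)), ← mcn (_ * _), ← map_mul, ← map_mul, ← nb_def, ← Nb_eq, Nb_Nb, ixi, D.x4]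
  have NN : Nb ι (β 1) * Nb ι (β 1) = ι (X 5 s) := by rw [← Nb_mul, D.sq, Nb_X, mul_one]; rfl
  simp only [p, cnm, p3, e3, ι36, cjc (D.c3' 1 1).symm, ← mul_assoc, mul_one] at br
  rw [mul_inv_eq_iff_eq_mul.1 (n 1 1), mul_assoc _ _ (Nb ι _), NN, mul_assoc _ b, L.c6 b hb, ← mul_assoc, mul_assoc _ b, L.c5 b hb, ← mul_assoc, mul_assoc _ b, L.c7 b hb,
    ← mul_assoc, mul_assoc _ b, bb] at br
  simp only [mul_assoc, mul_eq_left, ← map_mul, el5, el6, el7, el_mul, map_eq_one_iff _ H.inj, el_one] at br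
  obtain ⟨a1, -, a2, a3⟩ := br
  obtain rfl : v = 0 := by simpa using a2
  obtain rfl : s = 0 := by simpa using a1
  obtain rfl : ρ = w := by simpa [add0] using a3
  rw [ix0, mul_one] at p
  have : ι (X 4 1) ⋆ _ = _ := congrArg (ι (X 4 1) ⋆ ·) p
  rw [← mcn, ix2, cn0, cnm, cnm, p, D.x4, e4, mul_assoc, mul_assoc, mul_assoc, left_eq_mul, ← mul_assoc b, ← L.bd b hb, mul_assoc, ← mul_assoc, D.sq, zero_mul, ix0, one_mul] at this
  obtain rfl := X_eq1 (H.inj ((bb.symm.trans this).trans (map_one ι).symm))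
  exact ⟨rfl, fun c d => cjc' (by rw [n, zero_mul, zero_mul, ix0, mul_one]), b, hb, this, p, q⟩
end L7

theorem Db.b45 (D : Db ι t β κ s) {f : F → G} (f0 : f 0 = 1) (hf : ∀ l m : Fˣ, ι (hh l m) ⋆ f 1 = f l)
    (p : ι (X 4 1) ⋆ Nb ι (β 1) = Nb ι (β 1) * β 1 * f 1) (u c : F) : ι (X 4 (u ^ 2)) ⋆ Nb ι (β c) = Nb ι (β c) * β (c * u ^ 2) * f (c * u) := by
  by_cases c0 : c = 0
  · simp [c0, D.zero, Nb_one, f0, cn1]
  by_cases u0 : u = 0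
  · simp [u0, D.zero, X_zero, f0, cn0]
  have := congrArg (ι (hh (Units.mk0 c c0 * Units.mk0 u u0) (Units.mk0 u u0)) ⋆ ·) p
  simp only [cnn (ι (hh _ _)), cnm, h4, D.hn, D.hb, hf] at this
  simpa [u0, pow_two, mul_assoc] using this
theorem N2.p4 (E : N2 ι t) (H : Hyp ι t) (D : Db ι t β κ s) : ∃ ρ, P4 ι t β ρ := by
  obtain ⟨rfl, n, _, ⟨ρ, rfl⟩, -, p, q⟩ := (E.l7 H D).braid H D (by rintro _ ⟨w, rfl⟩ u; exact ixc (by decide +kernel) ..)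
    (by rintro _ ⟨w, rfl⟩ u; exact ixc (by decide +kernel) ..) (by rintro _ ⟨w, rfl⟩; exact ⟨_, ixa ..⟩)
  obtain rfl : 1 = κ := add0.1 (E _ _ q)
  refine ⟨ρ, D, n, fun u c => ?_⟩
  obtain ⟨u, rfl⟩ := ex_sqrt u
  have := D.b45 (f := fun c => ι (X 7 (ρ * c ^ 2))) (by simp [X_zero]) (fun l m => by rw [h7]; congr 2; ring) (by simpa using p) u c
  rwa [mul_pow, ← mul_assoc] at this
theorem Nb_tw (y : G) : Nb (tw ι (γ F)) y = Na ι y := by rw [Nb, tw_ap, γ_nb]; rfl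
theorem kk (H : Hyp ι t) (D : Db ι t β κ s) (E : Dl ι t δ κ' s') : κ = 0 ∨ κ' = 0 := by
  obtain ⟨v, b, hb, p, -⟩ := (E.l7 H D).star H D (1 ^ 2) 1
  have L := E.l7 H D
  have nd : Nb ι (δ 1) ∈ E.B7 := by
    have x3 : ∀ u c, ι (X 3 (u ^ 2)) ⋆ δ c = δ c * ι (X 5 (κ' * c * u)) := fun u c => swp (E.c3 c u) (ix2 ..) (E.c5 ..)
    have := x3 1 1
    have x4 := E.x4 1 1
    simp only [one_pow, mul_one] at this x4
    simp only [Nb_eq, nb_def, map_mul, mcn, cnm, this, x4, ι36, ι45, xx' (r := 4) (s := 6), xx' (r := 4) (s := 7)]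
    simp only [mul_assoc, ← map_mul, el5, el6, el7, el_mul]
    simpa [aa, ← el7] using mul_mem (E.dB _) (E.zB _)
  have c : Nb ι (β 1) * δ 1 = δ 1 * Nb ι (β 1) := by simpa only [Nb_mul, Nb_Nb] using congrArg (Nb ι) (L.bd _ nd 1)
  have : ι (X 4 (1 ^ 2)) ⋆ _ = _ := congrArg (ι (X 4 (1 ^ 2)) ⋆ ·) (cjc c)
  rw [cnn, p, E.x4] at this
  simp only [mcn, cnm, cjc (L.c6 b hb _), xx' (r := 6) (s := 6), D.b6, D.n6, E.x6, cjc c, cjc (L.bd _ (E.dB _) _),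
    mul_right_inj, mul_eq_left, show b ⋆ δ 1 = δ 1 by obtain ⟨_, _, rfl⟩ := hb; rw [mcn, E.x7, cjc (E.comm ..)]] at this
  simpa using X_eq1 (H.inj (this.trans (map_one ι).symm))
theorem G2_le {β' δ' : F → G} {ι' : Γ F →* G} (h : ι'.range = ι.range) (h1 : ∀ c, β' c ∈ G2 ι β δ) (h2 : ∀ c, δ' c ∈ G2 ι β δ) :
    G2 ι' β' δ' ≤ G2 ι β δ := sup_le (sup_le (h.le.trans (le_sup_left.trans le_sup_left)) ((closure_le _).2 (Set.range_subset_iff.2 h1)))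
      ((closure_le _).2 (Set.range_subset_iff.2 h2))
theorem LG2 (x : Γ F) : ι x ∈ G2 ι β δ := mem_sup_left (mem_sup_left ⟨x, rfl⟩)
theorem βG2 (c : F) : β c ∈ G2 ι β δ := mem_sup_left (mem_sup_right (subset_closure ⟨c, rfl⟩))
theorem δG2 (c : F) : δ c ∈ G2 ι β δ := mem_sup_right (subset_closure ⟨c, rfl⟩)
theorem two (H : Hyp ι t) (D : Db ι t β κ s) (E' : Db (tw ι (γ F)) t δ 0 s') :
    ∃ δ' ρ, G2 ι β δ' = G2 ι β δ ∧ (P5 ι t β δ' ρ ∨ Pd ι t β δ' ρ) := by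
  have E := E'.dl
  have c4 : ∀ c u, δ c * ι (X 4 u) = ι (X 4 u) * δ c := fun c u => by
    obtain ⟨u, rfl⟩ := ex_sqrt u
    exact cjc' (by simpa [X_zero] using E.d4 c u)
  have c3 : ∀ c u, δ c * ι (X 3 u) = ι (X 3 u) * δ c := fun c u => by
    obtain ⟨u, rfl⟩ := ex_sqrt u
    exact mul_inv_eq_iff_eq_mul.1 (by simpa [X_zero] using E.c3 c u)
  obtain ⟨rfl, n, _, ⟨θ, ρ, rfl⟩, bb, p, q⟩ := (E.l7 H D).braid H D
    (by rintro _ ⟨c, w, rfl⟩ u; exact Commute.mul_left (c4 ..) (ixc (by decide +kernel) ..))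
    (by rintro _ ⟨c, w, rfl⟩ u; exact Commute.mul_left (c3 ..) (ixc (by decide +kernel) ..))
    (by rintro _ ⟨c, w, rfl⟩; exact ⟨_, by rw [mul_assoc, ← mul_assoc (ι _), ← E.c7, mul_assoc, ix2, mul_one, E.sq]⟩)
  rw [mcn, H.xt, E.dt, mul_right_inj] at q
  rw [mul_assoc, ← mul_assoc (ι _), ← E.c7, mul_assoc, ix2, mul_one, E.sq] at bb
  replace q := X_inj (H.inj q)
  replace bb := X_eq1 (H.inj (bb.trans (map_one ι).symm))
  have H' := H.tw (γ F)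
  obtain ⟨r, _, ⟨e, f, rfl⟩, p', q'⟩ := (D.gg.dl.l7 H' E').star H' E' 1 1
  obtain ⟨ρ', n'⟩ := E'.n56 H'
  simp only [Nb_tw, tw_ap, γ4, γ6, γ7, mul_one, one_pow, add_zero, mcn, H.xt, D.bt, mul_right_inj] at p' q' n'
  rw [X_inj (H.inj q')] at p'
  have p2 := congrArg (Na ι) p'
  simp only [Na_cn, Na_mul, Na_X, sab, Na_Na, D.na, mul_one] at p2
  have br : ι (X 2 1) ⋆ ι (X 5 1) ⋆ Na ι (δ 1) = δ 1 := by
    rw [← icn (ι (X 5 1)) (_ ⋆ _), ← mcn (ι (X 5 1)), ← mcn (_ * _), ← map_mul, ← map_mul, ← na_def, ← Na_eq, Na_Na, ixi, E.x5]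
  have NN : Na ι (δ 1) * Na ι (δ 1) = ι (X 4 (s' ^ 2)) := by rw [← Na_mul, E.sq, Na_X, one_pow, mul_one]; rfl
  have x2 : ι (X 2 1) ⋆ Na ι (δ 1) = Na ι (δ 1) := by simpa only [Na_cn, Na_X, sab] using congrArg (Na ι) (E.x5 1 1)
  have ββ : β 1 * β 1 = 1 := by rw [D.sq, zero_mul, ix0]
  simp only [p', cnm, p2, x2, ι27, D.x2, xx' (r := 2) (s := 6), ← mul_assoc, mul_one, one_mul, one_pow] at br
  rw [mul_inv_eq_iff_eq_mul.1 (n' 1 1), mul_assoc _ _ (Na ι _), NN] at br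
  have k4' : ∀ u c x, ι (X 4 u) * (β c * x) = β c * (ι (X 4 u) * x) := fun u c x => by rw [← mul_assoc, ← D.c4, mul_assoc]
  have k4 : ∀ u x, β 1 * (ι (X 4 u) * x) = ι (X 4 u) * (β 1 * x) := fun u x => by rw [← mul_assoc, D.c4, mul_assoc]
  have k6 : ∀ u x, β 1 * (ι (X 6 u) * x) = ι (X 6 u) * (β 1 * x) := fun u x => by rw [← mul_assoc, D.c6, mul_assoc]
  have k7 : ∀ u x, β 1 * (ι (X 7 u) * x) = ι (X 7 u) * (β 1 * x) := fun u x => by rw [← mul_assoc, D.c7, mul_assoc]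
  simp only [mul_assoc, k4, k6, k7, D.c6, ββ, mul_one, mul_eq_left] at br
  simp only [← map_mul, el4, el6, el7, el_mul, map_eq_one_iff _ H.inj, el_one] at br
  obtain ⟨-, a1, a2, a3⟩ := br
  obtain rfl : r = 0 := by simpa using a3
  have a1 : s' ^ 2 = κ := by simpa [aa, add0] using a1
  have a2 : ρ' = κ := by
    rw [← add0]; linear_combination a2 - f * (h2 : (2 : F) = 0)
  have E2 := E.shift H f
  have d54 : ∀ u c, ι (X 5 u) ⋆ Na ι (δ c * ι (X 7 (f * c ^ 2))) =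
      Na ι (δ c * ι (X 7 (f * c ^ 2))) * (δ (u * c) * ι (X 7 (f * (u * c) ^ 2))) * β (u * c ^ 2) := fun u c => by
    have := E'.b45 (f := fun c => β (c ^ 2) * ι (X 6 (f * c ^ 2))) (by simp [X_zero, D.zero]) (fun l m => by
      rw [tw_ap, γ_hh, cnm, D.hb, h6]; congr 3 <;> (push_cast; field_simp)) (by simpa [Nb_tw, tw_ap, γ4, X_zero] using p')
    obtain ⟨u, rfl⟩ := ex_sqrt u
    replace := this u c
    simp only [Nb_tw, tw_ap, γ4] at this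
    have k : ∀ a b x, ι (X 4 a) * (δ b * x) = δ b * (ι (X 4 a) * x) := fun a b x => by rw [← mul_assoc, ← c4, mul_assoc]
    simp only [Na_mul, Na_X, sab, cnm, this, ι54, mul_assoc, k, k4', mul_comm c, mul_pow, mul_right_inj]
    simp only [← mul_assoc, ← D.c4, ← D.c6, ← D.c7]
    simp only [mul_assoc, mul_right_inj, ← map_mul, el4, el6, el7, el_mul]
    congr 2 <;> ring_nf
    simp [show (2 : F) = 0 from h2]
  have gG : G2 ι β (fun c => δ c * ι (X 7 (f * c ^ 2))) = G2 ι β δ := le_antisymm (G2_le rfl βG2 fun c => mul_mem (δG2 c) (LG2 _))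
    (G2_le rfl βG2 fun c => (mul_mem_cancel_right (LG2 _)).1 (δG2 (δ := fun c => δ c * ι (X 7 (f * c ^ 2))) c))
  have bd : ∀ c d, β c * (δ d * ι (X 7 (f * d ^ 2))) = δ d * ι (X 7 (f * d ^ 2)) * β c := E2.bd H D
  have dd : ∀ c d, Na ι (δ c * ι (X 7 (f * c ^ 2))) * (δ d * ι (X 7 (f * d ^ 2))) =
      δ d * ι (X 7 (f * d ^ 2)) * Na ι (δ c * ι (X 7 (f * c ^ 2))) * ι (X 6 (κ * c * d)) := fun c d => by
    have n6 : ∀ u, Na ι (δ c) * ι (X 6 u) = ι (X 6 u) * Na ι (δ c) := fun u => by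
      simpa only [Na_mul, Na_X, sab] using congrArg (Na ι) (E.c6 c u)
    have n7 : ∀ u, Na ι (δ c) ⋆ ι (X 7 u) = ι (X 7 u) := fun u => by simpa only [Na_cn, Na_X, sab] using congrArg (Na ι) (cjc (c4 c u))
    have : Na ι (δ c * ι (X 7 (f * c ^ 2))) ⋆ (δ d * ι (X 7 (f * d ^ 2))) = δ d * ι (X 7 (f * d ^ 2)) * ι (X 6 (κ * c * d)) := by
      rw [Na_mul, Na_X, sab.2.2.2.1, mcn, cnm, cjc (c4 ..).symm, xx', cnm, n', n7, a2, mul_assoc, ixc (r := 6), ← mul_assoc]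
    rw [mul_inv_eq_iff_eq_mul.1 this, mul_assoc, mul_assoc (_ * _), Na_mul, Na_X]
    exact congrArg _ (Commute.mul_right (n6 _).symm (ixc (by decide +kernel) ..))
  have b45 := D.b45 (f := fun c => δ (θ * c) * ι (X 7 (ρ * c ^ 2))) (by simp [X_zero, E.zero])
    (fun l m => by rw [cnm, E.hd, h7, mul_one, one_pow, mul_one, mul_comm θ, mul_comm ρ]) (by simpa using p)
  refine ⟨_, (ρ + f * θ ^ 2), gG, ?_⟩
  rw [a1, q] at bb
  rcases mul_eq_zero.1 bb with rfl | k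
  · obtain rfl : s' = 0 := by simpa using a1
    obtain rfl : θ = 1 := sq_inj (by simpa using q)
    exact .inr ⟨D, E2, bd, n, fun c d => by simpa [X_zero] using dd c d, fun u c => (b45 u c).trans (by
      simp only [mul_assoc, ixa, one_mul]; congr 5; linear_combination (-f * c ^ 2 * u ^ 2) * (h2 : (2 : F) = 0)), d54⟩
  · obtain rfl : θ = 0 := by simpa [k] using q
    obtain rfl := add0.1 k
    obtain rfl : s' = 1 := sq_inj (by simpa using a1)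
    refine .inl ⟨⟨D, n, fun u c => ?_⟩, E2, bd, fun c d => by simpa using dd c d, d54⟩
    obtain ⟨u, rfl⟩ := ex_sqrt u
    simpa [E.zero, mul_pow, mul_assoc, cn] using b45 u c

theorem d0 : D0.{u} := fun {F} _ _ _ _ _ ι t H β κ s D => ⟨fun E => E.p4 H D, fun δ κ' s' E => by
  by_cases k : κ' = 0
  · obtain ⟨δ', ρ, e, p⟩ := two H D (k ▸ E)
    exact ⟨ι, β, δ', ρ, H, e, p⟩
  obtain rfl := (kk H D E.dl).resolve_right k
  obtain ⟨δ', ρ, e, p⟩ := two (H.tw _) E (map_zero (fr F).symm ▸ D.gg)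
  refine ⟨_, δ, δ', ρ, H.tw _, e.trans (le_antisymm (G2_le (tw_range ..) δG2 fun c => βG2 _) (G2_le (tw_range ..).symm (fun c => ?_) βG2)), p⟩
  obtain ⟨c, rfl⟩ := ex_sqrt c
  exact δG2 (δ := fun c => β (c ^ 2)) c⟩

end H27.S4
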