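/-
Standard subgroups of type `Sp₄(2ⁿ)`: transport of relations under the Weyl group; the relations of `L₄(q)` and `U₄(q)`.
-/
import Cfsg.Agent.H27.W7

set_option autoImplicit false
set_option linter.unusedSectionVars false

namespace H27.S4
open Cfsg Subgroup QuadraticAlgebra
open H28.CY hiding aa h2
open H19 hiding PG
open H1.YG (Big h2 aa ng add0 sqadd ex_n four_le ex_sqrt sq_inj)

universe u
variable {F : Type} [Field F] [Big F] {G : Type u} [Group G] [Finite G] {ι : Γ F →* G} {t : G} {ρ : F} {β δ : F → G} {r s k m : I}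

theorem nab (y : G) : Na ι (Nb ι (Na ι (Nb ι y))) = Nb ι (Na ι (Nb ι (Na ι y))) := by
  have : na F * nb F * na F * nb F = nb F * na F * nb F * na F := ext_conj fun r => by
    simp only [cj2, na_conj, nb_conj]; rw [(by decide : ∀ r, sa (sb (sa (sb r))) = sb (sa (sb (sa r))))]
  simp only [Na_eq, Nb_eq, ← mcn, ← map_mul, ← mul_assoc, this]
theorem Sh.ind {P : I → Prop} (h0 : P 6) (ha : ∀ r, Sh r → P r → P (sa r)) (hb : ∀ r, Sh r → P r → P (sb r)) : ∀ r, Sh r → P r := by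
  have h5 := hb 6 (by decide) h0
  have h2 := ha 5 (by decide) h5
  intro r h
  rcases (by decide : ∀ r : I, Sh r → r = 6 ∨ r = 5 ∨ r = 2 ∨ r = 1) r h with rfl | rfl | rfl | rfl
  exacts [h0, h5, h2, hb 2 (by decide) h2]
theorem Lg.ind {P : I → Prop} (h0 : P 7) (ha : ∀ r, ¬ Sh r → P r → P (sa r)) (hb : ∀ r, ¬ Sh r → P r → P (sb r)) : ∀ r, ¬ Sh r → P r := by
  have h4 := ha 7 (by decide) h0
  have h3 := hb 4 (by decide) h4
  intro r h
  rcases (by decide : ∀ r : I, ¬ Sh r → r = 7 ∨ r = 4 ∨ r = 3 ∨ r = 0) r h with rfl | rfl | rfl | rfl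
  exacts [h0, h4, h3, ha 3 (by decide) h3]
theorem Tri.ind {P : I → I → I → I → Prop} (h0 : P 4 5 6 7) (ha : ∀ r s k m, Tri r s k m → P r s k m → P (sa r) (sa s) (sa k) (sa m))
    (hb : ∀ r s k m, Tri r s k m → P r s k m → P (sb r) (sb s) (sb k) (sb m)) : ∀ r s k m, Tri r s k m → P r s k m := by
  have h1 := ha 4 5 6 7 (by decide) h0
  have h2 := hb 7 2 6 4 (by decide) h1
  have h3 := ha 7 1 5 3 (by decide) h2
  have h4 := hb 4 1 2 0 (by decide) h3
  have h5 := ha 3 2 1 0 (by decide) h4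
  have h6 := hb 0 5 1 3 (by decide) h5
  have h7 := ha 0 6 2 4 (by decide) h6
  intro r s k m h
  simp only [Tri, List.mem_cons, Prod.mk.injEq, List.not_mem_nil, or_false] at h
  have e : ∀ {r : I} (n : I), r.val = n.val → r = n := fun _ => Fin.ext
  rcases h with ⟨a, b, c, d⟩ | ⟨a, b, c, d⟩ | ⟨a, b, c, d⟩ | ⟨a, b, c, d⟩ | ⟨a, b, c, d⟩ | ⟨a, b, c, d⟩ | ⟨a, b, c, d⟩ | ⟨a, b, c, d⟩
  exacts [by rwa [e 4 a, e 5 b, e 6 c, e 7 d], by rwa [e 4 a, e 1 b, e 2 c, e 0 d], by rwa [e 7 a, e 2 b, e 6 c, e 4 d],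
    by rwa [e 7 a, e 1 b, e 5 c, e 3 d], by rwa [e 3 a, e 6 b, e 5 c, e 7 d], by rwa [e 3 a, e 2 b, e 1 c, e 0 d],
    by rwa [e 0 a, e 5 b, e 1 c, e 3 d], by rwa [e 0 a, e 6 b, e 2 c, e 4 d]]
theorem shab : (∀ r, Sh (sa r) ↔ Sh r) ∧ ∀ r, Sh (sb r) ↔ Sh r := by decide
theorem Tri.sh (h : Tri r s k m) : ¬ Sh r ∧ Sh s ∧ Sh k ∧ ¬ Sh m := 
  Tri.ind (P := fun r s k m => ¬ Sh r ∧ Sh s ∧ Sh k ∧ ¬ Sh m) (by decide) (fun r s k m _ p => by simpa only [shab.1] using p)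
    (fun r s k m _ p => by simpa only [shab.2] using p) r s k m h
theorem cab (r : I) : ca (sa r) = cb r ∧ cb (sa r) = ca r ∧ ca (sb r) = ca r ∧ cb (sb r) = -cb r := by revert r; decide
theorem t4567 : Tri 4 5 6 7 := by decide
theorem t7264 : Tri 7 2 6 4 := by decide
theorem t3657 : Tri 3 6 5 7 := by decide
theorem ee (x : E ρ) : x + x = 0 := by ext <;> simp [aa]
theorem st_mk (a b : F) : star (⟨a, b⟩ : E ρ) = ⟨a + b, b⟩ := by ext <;> simp [ng]
theorem st_im (x : E ρ) : (star x).im = x.im := by simp [ng]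
theorem st_sm (a : F) (x : E ρ) : star (a • x) = a • star x := by ext <;> simp [mul_add]
theorem im_st (x y : E ρ) : (star x * star (star y)).im = (x * star y).im := by rw [← star_mul', st_im]

theorem d4 : D4.{u} := fun {F} _ _ G _ _ ι t H β ρ P => by
  have D := P.toDb
  let f : E ρ → G := fun x => ι (X 6 x.re) * β x.im
  let ξ : I → E ρ → G := fun r x => (![1, Nb ι (Na ι (Nb ι (f (star x)))), Na ι (Nb ι (f (star x))), 1, 1, Nb ι (f x), f x, 1] : Fin 8 → G) r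
  have fa : ∀ x, Na ι (f x) = f (star x) := fun x => by
    simp only [f, Na_mul, Na_X, sab, D.na, one_mul, D.c6, ← mul_assoc, ixa, st_im, re_star]
  have wa : ∀ r, Sh r → ∀ x, Na ι (ξ r x) = ξ (sa r) (star x) := fun r h x => by
    rcases (by decide : ∀ r : I, Sh r → r = 6 ∨ r = 5 ∨ r = 2 ∨ r = 1) r h with rfl | rfl | rfl | rfl
    exacts [fa x, show _ = Na ι (Nb ι (f (star (star x)))) by rw [star_star]; rfl, Na_Na _, (nab _).trans (by rw [fa]; rfl)]
  have wb : ∀ r, Sh r → ∀ x, Nb ι (ξ r x) = ξ (sb r) x := fun r h x => by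
    rcases (by decide : ∀ r : I, Sh r → r = 6 ∨ r = 5 ∨ r = 2 ∨ r = 1) r h with rfl | rfl | rfl | rfl
    exacts [rfl, Nb_Nb _, rfl, Nb_Nb _]
  have wa' : ∀ r, Sh r → ∀ x, ξ (sa r) x = Na ι (ξ r (star x)) := fun r h x => by rw [wa r h, star_star]
  have e5 : ∀ x, ξ 5 x = ι (X 5 x.re) * Nb ι (β x.im) := fun x => (Nb_mul ..).trans (by rw [Nb_X]; rfl)
  have e6 : ∀ x, ξ 6 x = ι (X 6 x.re) * β x.im := fun _ => rfl
  have ad : ∀ c d, β (c + d) = β c * β d := fun c d => by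
    obtain ⟨c, rfl⟩ := ex_sqrt c
    obtain ⟨d, rfl⟩ := ex_sqrt d
    simp [D.mul, X_zero]
  have em : ∀ r, Sh r → ∀ c, ξ r ⟨c, 0⟩ = ι (X r c) := Sh.ind (fun c => by rw [e6, D.zero, mul_one])
    (fun r h p c => by rw [wa' r h, st_mk, add_zero, p, Na_X]) fun r h p c => by rw [← wb r h, p, Nb_X]
  have gl : ∀ r, Sh r → ∀ x, ξ r x ∈ G1 ι β :=
    have n : ∀ x, ι x ∈ N(G1 ι β) := fun x => le_normalizer (mem_sup_left ⟨x, rfl⟩)
    Sh.ind (fun x => mul_mem (mem_sup_left ⟨_, rfl⟩) (mem_sup_right (subset_closure ⟨_, rfl⟩)))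
      (fun r h p c => wa' r h c ▸ conj_mem_of_norm (n _) (p _)) fun r h p c => wb r h c ▸ conj_mem_of_norm (n _) (p _)
  refine ⟨ξ, ⟨H.inj, H.cen, em, Sh.ind (fun x y => ?_) (fun r h p x y => by rw [wa' r h, wa' r h, wa' r h, star_add, p, Na_mul])
    fun r h p x y => by rw [← wb r h, ← wb r h, ← wb r h, p, Nb_mul],
    Sh.ind (P := fun r => ∀ x, t ⋆ ξ r x = ξ r (star x)) (fun x => ?_) (fun r h p x => by
      simpa only [wa' r h, Na_cn, H.Na_t] using congrArg (Na ι) (p (star x)))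
      fun r h p x => by simpa only [wb r h, Nb_cn, H.Nb_t] using congrArg (Nb ι) (p x), wa, wb,
    Sh.ind (P := fun r => ∀ l m x, ι (hh l m) ⋆ ξ r x = ξ r (((l ^ ca r * m ^ cb r : Fˣ) : F) • x)) (fun l m x => ?_)
      (fun r h p l m x => by rw [wa' r h, wa' r h, st_sm, (cab r).1, (cab r).2.1, mul_comm, ← p, Na_cn, Na_h])
      fun r h p l m x => by rw [← wb r h, ← wb r h, (cab r).2.2.1, (cab r).2.2.2, ← inv_zpow', ← p, Nb_cn, Nb_h, inv_inv],
    Tri.ind (fun u x => ?_) (fun r s k m h p u x => by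
      simpa only [wa' s h.sh.2.1, wa' k h.sh.2.2.1, Na_mul, Na_X, QuadraticAlgebra.norm_star, st_sm] using congrArg (Na ι) (p u (star x)))
      fun r s k m h p u x => by simpa only [wb s h.sh.2.1, wb k h.sh.2.2.1, Nb_mul, Nb_X] using congrArg (Nb ι) (p u x),
    Tri.ind (fun x y => ?_) (fun r s k m h p x y => by
      simpa only [wa' s h.sh.2.1, wa' k h.sh.2.2.1, Na_mul, Na_X, im_st] using congrArg (Na ι) (p (star x) (star y)))
      fun r s k m h p x y => by simpa only [wb s h.sh.2.1, wb k h.sh.2.2.1, Nb_mul, Nb_X] using congrArg (Nb ι) (p x y),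
    Tri.ind (fun x u => ⟨Commute.mul_left (ixc (by decide +kernel) ..) (D.c7 ..), Commute.mul_left (ixc (by decide +kernel) ..) (D.c4 ..)⟩)
      (fun r s k m h p x u => by
        simpa only [wa' k h.sh.2.2.1, Na_mul, Na_X] using And.intro (congrArg (Na ι) (p (star x) u).1) (congrArg (Na ι) (p (star x) u).2))
      fun r s k m h p x u => by
        simpa only [wb k h.sh.2.2.1, Nb_mul, Nb_X] using And.intro (congrArg (Nb ι) (p x u).1) (congrArg (Nb ι) (p x u).2)⟩,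
    fun _ _ => rfl, le_antisymm (sup_le le_sup_left ((closure_le _).2 (by rintro _ ⟨r, x, h, rfl⟩; exact gl r h x)))
      (sup_le le_sup_left ((closure_le _).2 (by
        rintro _ ⟨c, rfl⟩; exact mem_sup_right (subset_closure ⟨6, ⟨0, c⟩, by decide, by rw [e6, ix0, one_mul]⟩))))⟩
  · rw [e6, e6, e6, re_add, im_add, ad, ← ixa, mul_assoc, mul_assoc, ← mul_assoc (β _), D.c6, mul_assoc]
  · rw [e6, e6, cnm, H.tx, D.tb H, D.c6, ← mul_assoc, ixa, st_im, re_star, one_mul]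
  · simp [e6, cnm, h6, D.hb, ca, cb]
  · have c6 : ι (X 4 u) * ξ 6 (u • x) = ξ 6 (u • x) * ι (X 4 u) := Commute.mul_right (ixc (by decide +kernel) ..) (D.c4 ..).symm
    rw [mul_assoc, ← mul_assoc (ι _), c6, mul_assoc, ixc (r := 4) (s := 7), ← mul_assoc, ← mul_assoc, ← mul_inv_eq_iff_eq_mul, e5, e6,
      ← conj_mul, P.b45]
    have := ι45 (ι := ι) u x.re
    have n6 : ∀ a, ι (X 6 a) * Nb ι (β x.im) = Nb ι (β x.im) * (ι (X 6 a) * ι (X 7 (x.im * a))) := fun a => by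
      have := D.n6 x.im a
      rw [one_mul] at this
      rw [← ixc (r := 7), ← mul_assoc, D.c7', mul_assoc, mul_inv_eq_iff_eq_mul.1 this, ixc (r := 6), ← mul_assoc, ← mul_assoc, ix2, one_mul]
    rw [cn] at this
    rw [this, mul_assoc _ (ι (X 7 _)), ← mul_assoc (ι (X 7 _)), ← mul_assoc (ι (X 7 _)), ← D.c7', mul_assoc _ (ι (X 6 _)), ← mul_assoc (ι (X 6 _)),
      ← mul_assoc (ι (X 6 _)), ← mul_assoc (ι (X 6 _)), n6]
    simp only [mul_assoc, mul_right_inj, re_smul, im_smul, smul_eq_mul, mul_comm u]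
    simp only [← mul_assoc, ← D.c7]
    simp only [mul_assoc, ixa, norm_def]
    congr 3; rw [sub_eq_add_neg, ng]; ring
  · have : ξ 5 x ⋆ ξ 6 y = ξ 6 y * ι (X 7 (x * star y).im) := by
      rw [e5, e6, mcn, cnm, D.n6, cjc (P.b56 ..), cnm, cnm, D.x5, xx', xx', mul_assoc, ← mul_assoc (ι (X 7 _)), ← D.c7, mul_assoc, mul_assoc, ixa]
      rw [← mul_assoc]; congr 3; simp [ng]; linear_combination (-x.im * y.im) * (h2 : (2 : F) = 0)
    rw [mul_inv_eq_iff_eq_mul.1 this, mul_assoc, mul_assoc, e5]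
    exact congrArg _ (Commute.mul_right (ixc (by decide +kernel) ..) (D.c7' ..).symm)

end H27.S4
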