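/-
Standard subgroups of type `Sp₄(2ⁿ)`: the unipotent radical of the parabolic subgroup of type `A₁(q²)` of `L₅(q)`, `U₅(q)`.
-/
import Cfsg.Agent.H27.W8

set_option autoImplicit false
set_option linter.unusedSectionVars false

namespace H27.S4
open Cfsg Subgroup QuadraticAlgebra
open H28.CY hiding aa h2
open H19 hiding PG
open H1.YG (Big h2 aa ng add0 sqadd ex_n four_le ex_sqrt sq_inj)

universe u
variable {F : Type} [Field F] [Big F] {G : Type u} [Group G] [Finite G] {ι : Γ F →* G} {t g x x' : G} {ρ a b c d u w a' b' u' w' : F}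
  {β δ : F → G} {ξ : I → E ρ → G} {y y' : E ρ} {l m : Fˣ}

/-- the data of the step `D5` -/
structure S5 (ι : Γ F →* G) (t : G) (β δ : F → G) (ρ : F) (ξ : I → E ρ → G) : Prop where
  H : Hyp ι t
  P : P5 ι t β δ ρ
  R : R4 ι t ρ ξ
  e6 : ∀ v c, ξ 6 ⟨v, c⟩ = ι (X 6 v) * β c

/-- the elements of the centre -/
noncomputable def e0 (ι : Γ F →* G) (ξ : I → E ρ → G) (u : F) (y : E ρ) (w : F) : G := ι (X 4 u) * ξ 6 y * ι (X 7 w)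
/-- the elements of the second term -/
noncomputable def q1 (ι : Γ F →* G) (δ : F → G) (ξ : I → E ρ → G) (a b u : F) (y : E ρ) (w : F) : G := Na ι (δ a) * δ b * e0 ι ξ u y w

theorem mk_add (a b c d : F) : (⟨a, b⟩ + ⟨c, d⟩ : E ρ) = ⟨a + c, b + d⟩ := rfl
theorem fixE (h : (l : F) • y = y) (hl : (l : F) + 1 ≠ 0) : y = 0 :=
  QuadraticAlgebra.ext (fix0 (congrArg re h) hl) (fix0 (congrArg im h) hl)
theorem st_add (y : E ρ) : star y = y + ⟨y.im, 0⟩ := by ext <;> simp [ng]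

namespace S5
variable (S : S5 ι t β δ ρ ξ)
include S
local notation "e" => e0 ι ξ
local notation "q" => q1 ι δ ξ
theorem D : Db ι t β 1 0 := S.P.toDb
theorem ξ0 {r : I} (h : Sh r) : ξ r 0 = 1 := (S.R.em r h 0).trans (ix0 r)
theorem ξ2 {r : I} (h : Sh r) (y : E ρ) : ξ r y * ξ r y = 1 := by rw [← S.R.add r h, ee, S.ξ0 h]
theorem ξi {r : I} (h : Sh r) (y : E ρ) : (ξ r y)⁻¹ = ξ r y := inv_eq_of_mul_eq_one_right (S.ξ2 h y)
theorem em (u y w u' y' w') : e u y w * e u' y' w' = e (u + u') (y + y') (w + w') := by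
  simp only [e0, ← ixa, S.R.add 6 (by decide), mul_assoc, mul_right_inj]
  rw [← mul_assoc (ι (X 7 w)), ixc (r := 7), mul_assoc, ← mul_assoc (ξ 6 y), (S.R.cm _ _ _ _ t4567 ..).2, mul_assoc, mul_right_inj, mul_right_inj,
    ← mul_assoc, ← (S.R.cm _ _ _ _ t4567 ..).1, mul_assoc]
theorem e4 (u : F) : ι (X 4 u) = e u 0 0 := by rw [e0, S.ξ0 (by decide), ix0, mul_one, mul_one]
theorem e7 (u : F) : ι (X 7 u) = e 0 0 u := by rw [e0, S.ξ0 (by decide), ix0, mul_one, one_mul]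
theorem eξ (y : E ρ) : ξ 6 y = e 0 y 0 := by rw [e0, ix0, ix0, mul_one, one_mul]
theorem ex6 (u : F) : ι (X 6 u) = e 0 ⟨u, 0⟩ 0 := by rw [← S.eξ, S.R.em 6 (by decide)]
theorem eβ (u : F) : β u = e 0 ⟨0, u⟩ 0 := by rw [← S.eξ, S.e6, ix0, one_mul]
theorem e1 : e 0 0 0 = 1 := by rw [← S.e4, ix0]
theorem e2 (u y w) : e u y w * e u y w = 1 := by rw [S.em, aa, aa, ee, S.e1]
theorem ei (u y w) : (e u y w)⁻¹ = e u y w := inv_eq_of_mul_eq_one_right (S.e2 ..)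
theorem ec (u y w u' y' w') : e u y w * e u' y' w' = e u' y' w' * e u y w := by rw [S.em, S.em, add_comm u, add_comm y, add_comm w]
theorem eL (u v w : F) : ι (el 0 u v w) = e u ⟨v, 0⟩ w := by rw [elA, map_mul, map_mul, e0, S.R.em 6 (by decide)]
theorem te (u y w) : t ⋆ e u y w = e u (star y) w := by rw [e0, cnm, cnm, S.H.tx, S.H.tx, e0, ← S.R.tc 6 (by decide)]; rfl
theorem e_one (h : e u y w = 1) : u = 0 ∧ y = 0 ∧ w = 0 := by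
  have := S.te u y w
  rw [st_add, ← add_zero w, ← add_zero u, ← S.em, add_zero, add_zero, h, cn1, one_mul, ← S.ex6] at this
  have k := X_eq1 (S.H.inj (this.symm.trans (map_one ι).symm))
  obtain ⟨v, c⟩ := y
  obtain rfl : c = 0 := k
  obtain ⟨-, a, rfl, b⟩ := el_one.1 (S.H.inj (((S.eL ..).trans h).trans (map_one ι).symm))
  exact ⟨a, rfl, b⟩
theorem e_iff : e u y w = e u' y' w' ↔ u = u' ∧ y = y' ∧ w = w' := ⟨fun h => by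
  obtain ⟨a, b, c⟩ := S.e_one (u := u + u') (y := y + y') (w := w + w') (by rw [← S.em, h, S.e2])
  exact ⟨add0.1 a, by rw [← add_zero y, ← ee y', ← add_assoc, b, zero_add], add0.1 c⟩, fun ⟨a, b, c⟩ => by rw [a, b, c]⟩
theorem et (u y w) : e u y w ⋆ t = t * e 0 ⟨y.im, 0⟩ 0 :=
  swp (by rw [S.te, S.em, add_zero, add_zero, st_add]) (S.e2 ..) (by rw [← S.ex6, S.H.cen])
theorem he (l m : Fˣ) (u y w) : ι (hh l m) ⋆ e u y w = e (m ^ 2 * u) (((l : F) * m) • y) (l ^ 2 * w) := by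
  rw [e0, cnm, cnm, h4, h7, cn, S.R.tor 6 (by decide)]; simp [ca, cb, e0]
theorem h5 (l m : Fˣ) (y) : ι (hh l m) ⋆ ξ 5 y = ξ 5 (((l : F) * m⁻¹) • y) := by rw [cn, S.R.tor 5 (by decide)]; simp [ca, cb]
theorem Ne (u y w) : Na ι (e u y w) = e w (star y) u := by
  rw [e0, Na_mul, Na_mul, Na_X, Na_X, Na, S.R.wa 6 (by decide), sab.2.2.1, sab.2.2.2.1, sab.2.2.2.2.1, S.e4, S.e7, S.eξ, S.em, S.em]; simp
theorem ξe (x : E ρ) (u y w) : ξ 5 x ⋆ e u y w = e u (y + u • x) (w + x.norm * u + (x * star y).im) := by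
  have c7 : ∀ w, ξ 5 x * ι (X 7 w) = ι (X 7 w) * ξ 5 x := fun w => (S.R.cm _ _ _ _ t3657 ..).1
  have p : ξ 5 x ⋆ ι (X 4 u) = e u (u • x) (x.norm * u) := by
    rw [← S.ξi (by decide) x, cn, inv_inv, mul_assoc, S.R.cy _ _ _ _ t4567, mul_assoc, inv_mul_cancel_left, e0, mul_assoc]
  have r : ξ 5 x ⋆ ξ 6 y = e 0 y (x * star y).im := by
    rw [cn, S.R.cs _ _ _ _ t4567, mul_assoc _ (ξ 5 x), c7, mul_assoc, mul_assoc, mul_inv_cancel, mul_one, S.eξ, S.e7, S.em]; simp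
  rw [e0, cnm, cnm, p, r, cjc (c7 w), S.e7, S.em, S.em, add_zero, add_zero, add_zero, add_comm y, add_comm _ w, add_assoc]
/-- the centre -/
def E0 : Subgroup G where
  carrier := {g | ∃ u y w, g = e u y w}
  one_mem' := ⟨_, _, _, S.e1.symm⟩
  mul_mem' := by rintro _ _ ⟨_, _, _, rfl⟩ ⟨_, _, _, rfl⟩; exact ⟨_, _, _, S.em ..⟩
  inv_mem' := by rintro _ ⟨_, _, _, rfl⟩; exact ⟨_, _, _, S.ei ..⟩
theorem cE (h : x ∈ C(S.E0)) (u y w) : x * e u y w = e u y w * x := (mem_cent.1 h _ ⟨_, _, _, rfl⟩).symm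
theorem cE' (h : x ∈ C(S.E0)) (u y w) : x ⋆ e u y w = e u y w := cjc (S.cE h ..)
theorem cE_of (h4 : ∀ u, x * ι (X 4 u) = ι (X 4 u) * x) (h6 : ∀ y, x * ξ 6 y = ξ 6 y * x) (h7 : ∀ u, x * ι (X 7 u) = ι (X 7 u) * x) :
    x ∈ C(S.E0) := mem_cent.2 (by
  rintro _ ⟨_, _, _, rfl⟩; exact (Commute.mul_right (Commute.mul_right (h4 _) (h6 _)) (h7 _)).symm)
theorem nE (h : ∀ u y w, ∃ u' y' w', g ⋆ e u y w = e u' y' w') (hx : x ∈ C(S.E0)) : g ⋆ x ∈ C(S.E0) :=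
  conj_mem_of_norm (norm_le_norm_cent _ (mem_norm_of (by rintro _ ⟨_, _, _, rfl⟩; exact h ..))) hx
theorem eC (u y w) : e u y w ∈ C(S.E0) := mem_cent.2 (by rintro _ ⟨_, _, _, rfl⟩; exact S.ec ..)
theorem δ4 (c u : F) : δ c * ι (X 4 u) = ι (X 4 u) * δ c := by
  obtain ⟨u, rfl⟩ := ex_sqrt u
  exact cjc' (by simpa [X_zero] using S.P.dl.d4 c u)
theorem δ3 (c u : F) : δ c * ι (X 3 u) = ι (X 3 u) * δ c := by
  obtain ⟨u, rfl⟩ := ex_sqrt u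
  exact mul_inv_eq_iff_eq_mul.1 (by simpa [X_zero] using S.P.dl.c3 c u)
theorem δC (c : F) : δ c ∈ C(S.E0) :=
  S.cE_of (S.δ4 c) (fun y => (S.e6 y.re y.im).symm ▸ Commute.mul_right (S.P.dl.c6 ..) (S.P.bd ..).symm) (S.P.dl.c7 c)
theorem NC (hx : x ∈ C(S.E0)) : Na ι x ∈ C(S.E0) := S.nE (fun _ _ _ => ⟨_, _, _, S.Ne ..⟩) hx
theorem qC (a b u y w) : q a b u y w ∈ C(S.E0) := mul_mem (mul_mem (S.NC (S.δC a)) (S.δC b)) (S.eC _ _ _)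
theorem δm (a b : F) : δ a * δ b = δ (a + b) * e 0 0 (a * b) := by rw [S.P.dl.mul, one_pow, one_mul, S.e7]
theorem δm' (a b : F) : Na ι (δ a) * Na ι (δ b) = Na ι (δ (a + b)) * e (a * b) 0 0 := by rw [← Na_mul, S.δm, Na_mul, S.Ne, star_zero]
theorem qe (a b u y w u' y' w') : q a b u y w * e u' y' w' = q a b (u + u') (y + y') (w + w') := by rw [q1, mul_assoc, S.em, q1]
theorem eq' (a b u y w u' y' w') : e u' y' w' * q a b u y w = q a b (u + u') (y + y') (w + w') := by rw [← S.cE (S.qC _ _ _ _ _), S.qe]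
theorem q0 (u y w) : q 0 0 u y w = e u y w := by rw [q1, S.P.dl.zero, Na_one, one_mul, one_mul]
theorem q4 (a : F) : Na ι (δ a) = q a 0 0 0 0 := by rw [q1, S.P.dl.zero, S.e1, mul_one, mul_one]
theorem q7 (a : F) : δ a = q 0 a 0 0 0 := by rw [q1, S.P.dl.zero, S.e1, mul_one, Na_one, one_mul]
theorem qm (a b u y w a' b' u' y' w') :
    q a b u y w * q a' b' u' y' w' = q (a + a') (b + b') (u + u' + a * a') (y + y' + ⟨a' * b, 0⟩) (w + w' + b * b') := by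
  have : δ b * Na ι (δ a') = Na ι (δ a') * δ b * e 0 ⟨a' * b, 0⟩ 0 := by rw [S.P.dd, S.ex6, mul_assoc, S.e2, mul_one]
  have k : ∀ u y w c x, e u y w * (δ c * x) = δ c * (e u y w * x) := fun u y w c x => by rw [← mul_assoc, ← S.cE (S.δC _), mul_assoc]
  rw [q1, mul_assoc, S.eq', q1, mul_assoc, mul_assoc, ← mul_assoc (δ b), this, ← mul_assoc, ← mul_assoc, ← mul_assoc, ← mul_assoc, S.δm']
  simp only [mul_assoc, k, S.em]
  rw [← mul_assoc (δ b), S.δm, mul_assoc, S.em, q1, mul_assoc]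
  congr 3 <;> ring
theorem qi (a b u y w) : (q a b u y w)⁻¹ = q a b (u + a * a) (y + ⟨a * b, 0⟩) (w + b * b) := inv_eq_of_mul_eq_one_right (by
  rw [S.qm, aa, aa, S.q0, ← add_assoc, ← add_assoc, ← add_assoc, aa, aa, ee, zero_add, zero_add, zero_add, aa, aa, ee, S.e1])
theorem qt (a b u y w) : q a b u y w ⋆ t = t * e (a * a) ⟨y.im, 0⟩ (b * b) := by
  have : Na ι (δ a) ⋆ t = t * e (a * a) 0 0 := by
    simpa only [Na_cn, S.H.Na_t, Na_mul, Na_X, sab, S.e4, pow_two] using congrArg (Na ι) (S.P.dl.dt a)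
  rw [q1, mcn, mcn, S.et, cnm, S.P.dl.dt, S.cE' (S.δC _), S.e7, mul_assoc, S.em, cnm, this, S.cE' (S.NC (S.δC _)), mul_assoc, S.em]
  simp [pow_two]
theorem tq (a b u y w) : t ⋆ q a b u y w = q a b (u + a * a) (star y) (w + b * b) := by
  rw [swp (S.qt ..) S.H.tt (S.cE (S.qC _ _ _ _ _) ..), S.qe, st_add]
theorem q_iff : q a b u y w = q a' b' u' y' w' ↔ a = a' ∧ b = b' ∧ u = u' ∧ y = y' ∧ w = w' := ⟨fun h => by
  have := S.qt a b u y w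
  rw [h, S.qt, mul_right_inj, S.e_iff, ← pow_two, ← pow_two, ← pow_two, ← pow_two] at this
  obtain rfl := sq_inj this.1
  obtain rfl := sq_inj this.2.2
  exact ⟨rfl, rfl, S.e_iff.1 (mul_left_cancel h)⟩, fun ⟨a, b, c, d, f⟩ => by rw [a, b, c, d, f]⟩
theorem hq (l m : Fˣ) (a b u y w) : ι (hh l m) ⋆ q a b u y w = q (m * a) (l * b) (m ^ 2 * u) (((l : F) * m) • y) (l ^ 2 * w) := by
  rw [q1, cnm, cnm, S.he, S.P.dl.hd, ← Na_h, ← Na_cn, S.P.dl.hd, q1]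
theorem Nq (a b u y w) : Na ι (q a b u y w) = q b a w (star y + ⟨a * b, 0⟩) u := by
  rw [q1, Na_mul, Na_mul, Na_Na, S.Ne, S.q4, S.q7, S.qm, S.qe]; simp [mul_comm, add_comm]
theorem Nbδ (c : F) : Nb ι (δ c) = δ c := by rw [Nb_eq, nb_def, map_mul, map_mul, mcn, mcn, cjc (S.δ4 ..).symm, cjc (S.δ3 ..).symm, cjc (S.δ4 ..).symm]
theorem N5 (hx : Nb ι x ∈ C(S.E0)) (y) : ξ 5 y * x = x * ξ 5 y := by
  simpa only [Nb_mul, Nb_Nb, ← S.eξ, show Nb ι (ξ 6 y) = ξ 5 y from S.R.wb 6 (by decide) y] using congrArg (Nb ι) (S.cE hx 0 y 0).symm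
theorem ξδ (y c) : ξ 5 y ⋆ δ c = δ c := cjc (S.N5 ((S.Nbδ c).symm ▸ S.δC c) y)
theorem x5q (c a b u y w) : ∃ u' y' w', ι (X 5 c) ⋆ q a b u y w = q a (b + c * a) u' y' w' := by
  have := S.ξe ⟨c, 0⟩ u y w
  rw [S.R.em 5 (by decide)] at this
  exact ⟨_, _, _, by rw [q1, cnm, cnm, this, S.P.dl.x5, cn, S.P.d54, S.q4, S.eβ, S.q7 b, S.q7, S.qm, S.qe, S.qm, S.qe, add_zero, add_zero, zero_add,
    add_comm b]⟩
/-- the second term -/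
def Q1 : Subgroup G where
  carrier := {g | ∃ a b u y w, g = q a b u y w}
  one_mem' := ⟨_, _, _, _, _, (S.q0 ..).trans S.e1 |>.symm⟩
  mul_mem' := by rintro _ _ ⟨_, _, _, _, _, rfl⟩ ⟨_, _, _, _, _, rfl⟩; exact ⟨_, _, _, _, _, S.qm ..⟩
  inv_mem' := by rintro _ ⟨_, _, _, _, _, rfl⟩; exact ⟨_, _, _, _, _, S.qi ..⟩
theorem q4' (a b u y w) : q a b u y w ^ 2 ^ 2 = 1 := by
  rw [pow_two, pow_mul, pow_two, pow_two, S.qm, aa, aa, S.q0, S.e2]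
theorem qO (a b u y w) : q a b u y w ∈ centralizer (O1 ι t) := by
  have d : ∀ c, δ c ∈ centralizer (O1 ι t) := fun c o ho => S.P.dl.hO o ho c
  have h := S.H.hO
  exact mul_mem (mul_mem (mul_mem (mul_mem (h _) (d _)) (inv_mem (h _))) (d _))
    (mul_mem (mul_mem (h _) ((S.e6 y.re y.im).symm ▸ mul_mem (h _) fun o ho => S.D.hO o ho _)) (h _))
theorem cJ (hx : x ∈ C(S.E0)) (p : x ⋆ t = t * e u y w) : ∃ a b u y w, ∃ o ∈ O1 ι t, x = q a b u y w * o := by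
  have : t * e u y w * (t * e u y w) = 1 := by rw [← p, ← cnm, S.H.tt, cn1]
  rw [← mul_assoc, show t * e u y w * t = t ⋆ e u y w by rw [cn, S.H.tinv], S.te, S.em, st_add, add_right_comm, ee, zero_add] at this
  have k := congrArg re (S.e_one this).2.1
  obtain ⟨a, rfl⟩ := ex_sqrt u
  obtain ⟨b, rfl⟩ := ex_sqrt w
  obtain ⟨v, c⟩ := y
  obtain rfl : c = 0 := k
  have m := mul_mem (inv_mem (S.qC a b 0 ⟨0, v⟩ 0)) hx
  have c : (q a b 0 ⟨0, v⟩ 0)⁻¹ * x * t = _ := cjc' (by rw [mcn, p, pow_two, pow_two, ← S.qt a b 0 ⟨0, v⟩ 0, icn])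
  obtain ⟨u, v', w, k, hk, r⟩ := S.H.cA1 c
    (fun u => S.e4 u ▸ S.cE m ..) (fun u => S.ex6 u ▸ S.cE m ..) fun u => S.e7 u ▸ S.cE m ..
  have kt : k * t = t * k := S.H.Kt (mem_cent1.2 (r ▸ c))
  rw [r, S.eL, mul_mem_cancel_left (S.eC _ _ _)] at m
  rw [inv_mul_eq_iff_eq_mul, S.eL, ← mul_assoc, S.qe] at r
  refine ⟨_, _, _, _, _, k, (S.D.hk k hk kt).resolve_right fun h => ?_, r⟩
  have := S.te 0 ⟨0, 1⟩ 0
  rw [← S.cE' m, ← mcn, ← S.eβ, cjc (S.D.hO _ h _), S.eβ, S.e_iff] at this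
  simpa using congrArg re this.2.1
theorem cJ2 (hx : x ∈ C(S.E0)) (p : x ⋆ t = t * e u y w) (h : PiE {2} x) : x ∈ S.Q1 := by
  obtain ⟨a, b, u, y, w, o, ho, rfl⟩ := S.cJ hx p
  rw [odd_eq_one (two_of_pow (S.q4' ..)) ho.2.2 (S.qO a b u y w o ho).symm h, mul_one]
  exact ⟨_, _, _, _, _, rfl⟩
/-- the image in the quotient by the second term -/
def Ph (x : G) (a b : F) : Prop := x ∈ C(S.E0) ∧ ∃ u y w, x ⋆ t = t * q a b u y w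
theorem cR (h : S.Ph x⁻¹ a' b') (a b u y w) : ∃ u' y' w', x ⋆ q a b u y w = q a b u' y' w' := by
  obtain ⟨h, u', y', w', p⟩ := h
  have k : (x ⋆ q a b u y w) ⋆ t = t * e (a * a) ⟨y.im + (a * b' + a' * b), 0⟩ (b * b) := by
    have : q a b u y w ⋆ q a' b' u' y' w' = q a' b' u' y' w' * e 0 ⟨a * b' + a' * b, 0⟩ 0 := by
      rw [cn, mul_inv_eq_iff_eq_mul, S.qe, S.qm, S.qm, S.q_iff]
      refine ⟨add_comm .., add_comm .., by ring, ?_, by ring⟩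
      ext <;> simp [add_comm y.im]; linear_combination (-a * b') * (h2 : (2 : F) = 0)
    rw [← cnci x t, ← cnn, p, cnm, this, S.qt, mul_assoc, ← mul_assoc (e _ _ _), ← S.cE (S.qC _ _ _ _ _), mul_assoc, S.em, ← mul_assoc, ← p, cnm, cnci,
      S.cE' (inv_mem_iff.1 h), mk_add]
    simp
  obtain ⟨a1, b1, u, y, w, r⟩ := S.cJ2 (conj_mem_of_norm (le_normalizer (inv_mem_iff.1 h)) (S.qC _ _ _ _ _)) k (PiN.e_conj (two_of_pow (S.q4' ..)) _)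
  rw [show x ⋆ _ = _ from r, S.qt, mul_right_inj, S.e_iff, ← pow_two, ← pow_two, ← pow_two, ← pow_two] at k
  exact ⟨u, y, w, r.trans (by rw [sq_inj k.1, sq_inj k.2.2])⟩
variable {S}
theorem Ph.inv (h : S.Ph x a b) : S.Ph x⁻¹ a b := by
  obtain ⟨u, y, w, p⟩ := h.2
  obtain ⟨u', y', w', r⟩ := S.cR (x := x⁻¹) (by rwa [inv_inv]) a b u y w
  exact ⟨inv_mem h.1, _, _, _, by rw [← S.qi, eq_mul_inv_iff_mul_eq, ← r, ← cnm, ← p, icn]⟩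
theorem Ph.cr (h : S.Ph x a' b') (a b u y w) : ∃ u' y' w', x ⋆ q a b u y w = q a b u' y' w' := S.cR h.inv ..
theorem Ph.mul (h : S.Ph x a b) (h' : S.Ph x' a' b') : S.Ph (x * x') (a + a') (b + b') := by
  obtain ⟨u, y, w, p⟩ := h.2
  obtain ⟨u', y', w', p'⟩ := h'.2
  obtain ⟨_, _, _, r⟩ := h.cr a' b' u' y' w'
  exact ⟨mul_mem h.1 h'.1, _, _, _, by rw [mcn, p', cnm, p, r, mul_assoc, S.qm]⟩
theorem Ph.un (h : S.Ph x a b) (h' : S.Ph x a' b') : a = a' ∧ b = b' := by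
  obtain ⟨_, _, _, p⟩ := h.2
  obtain ⟨_, _, _, p'⟩ := h'.2
  have := S.q_iff.1 (mul_left_cancel (p.symm.trans p'))
  exact ⟨this.1, this.2.1⟩
theorem Ph.ker (h : S.Ph x 0 0) (p : PiE {2} x) : x ∈ S.Q1 := let ⟨_, _, _, r⟩ := h.2; S.cJ2 h.1 (S.q0 .. ▸ r) p
theorem Ph.cj (h : S.Ph x a b) (c : g ⋆ t = t) (n : ∀ u y w, ∃ u' y' w', g ⋆ e u y w = e u' y' w')
    (n' : ∀ u y w, ∃ u' y' w', g ⋆ q a b u y w = q a' b' u' y' w') : S.Ph (g ⋆ x) a' b' := by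
  obtain ⟨u, y, w, p⟩ := h.2
  obtain ⟨_, _, _, r⟩ := n' u y w
  exact ⟨S.nE n h.1, _, _, _, by rw [← r, ← c, ← cnn, p, cnm, c]⟩
theorem Ph.h (h : S.Ph x a b) (l m : Fˣ) : S.Ph (ι (hh l m) ⋆ x) (m * a) (l * b) :=
  h.cj (S.H.xt _) (fun _ _ _ => ⟨_, _, _, S.he ..⟩) fun _ _ _ => ⟨_, _, _, S.hq ..⟩
theorem Ph.N (h : S.Ph x a b) : S.Ph (Na ι x) b a := h.cj (S.H.xt _) (fun _ _ _ => ⟨_, _, _, S.Ne ..⟩) fun _ _ _ => ⟨_, _, _, S.Nq ..⟩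
theorem Ph.t' (h : S.Ph x a b) : S.Ph (t ⋆ x) a b := h.cj (cjc rfl) (fun _ _ _ => ⟨_, _, _, S.te ..⟩) fun _ _ _ => ⟨_, _, _, S.tq ..⟩
theorem Ph.x5 (h : S.Ph x a b) (c : F) : S.Ph (ι (X 5 c) ⋆ x) a (b + c * a) :=
  h.cj (S.H.xt _) (fun _ _ _ => ⟨_, _, _, S.R.em 5 (by decide) c ▸ S.ξe ..⟩) (S.x5q c a b)
theorem Ph.of (h : x ∈ C(S.E0)) (p : t ⋆ x = x * q a b u y w) : S.Ph x a b := by
  have : S.Ph x⁻¹ a b := ⟨inv_mem h, _, _, _, by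
    rw [← S.tq a b u y w, ← inv_mul_cancel_left x (q _ _ _ _ _), ← p, cnm, ← mcn, S.H.tt, cn0, cn, cn, S.H.tinv, ← mul_assoc, ← mul_assoc, ← mul_assoc, S.H.tt]
    group⟩
  simpa using this.inv
variable (S)
theorem Phq (a b u y w) : S.Ph (q a b u y w) 0 0 := ⟨S.qC _ _ _ _ _, _, _, _, by rw [S.qt, S.q0]⟩
/-- the preimage of the fixed points -/
def Rs : Subgroup G where
  carrier := {g | ∃ a b, S.Ph g a b}
  one_mem' := ⟨_, _, (S.q0 ..).trans S.e1 ▸ S.Phq ..⟩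
  mul_mem' := fun ⟨_, _, p⟩ ⟨_, _, r⟩ => ⟨_, _, p.mul r⟩
  inv_mem' := fun ⟨_, _, p⟩ => ⟨_, _, p.inv⟩
/-- the unipotent radical -/
noncomputable def RR : Subgroup G := Oc {2} (S.Rs ⊓ centralizer (O1 ι t))
theorem memR : x ∈ S.RR ↔ ((∃ a b, S.Ph x a b) ∧ x ∈ centralizer (O1 ι t)) ∧ PiE {2} x := mem_Oc2 (nil_of_pow (j := 3) fun x ⟨⟨_, _, p⟩, _⟩ => by
  obtain ⟨h, _, _, _, r⟩ := p.mul p
  rw [aa, aa, S.q0] at r
  obtain ⟨a, b, u, y, w, o, ho, k⟩ := S.cJ h r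
  rw [pow_succ' 2, pow_mul, pow_two x, k, Commute.mul_pow (S.qO a b u y w o ho).symm, S.q4', one_mul]
  exact pow_mem (mem_cent.2 fun z hz => (hz.2 o ho).symm) _)
theorem qR (a b u y w) : q a b u y w ∈ S.RR := S.memR.2 ⟨⟨⟨_, _, S.Phq ..⟩, S.qO _ _ _ _ _⟩, two_of_pow (S.q4' ..)⟩
theorem cjR (hx : x ∈ S.RR) (hg : g ∈ centralizer (O1 ι t)) (p : ∀ {a b}, S.Ph x a b → ∃ a' b', S.Ph (g ⋆ x) a' b') : g ⋆ x ∈ S.RR :=
  let ⟨⟨⟨_, _, h⟩, o⟩, r⟩ := S.memR.1 hx; S.memR.2 ⟨⟨p h, mul_mem (mul_mem hg o) (inv_mem hg)⟩, r.e_conj _⟩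
theorem hR (hx : x ∈ S.RR) (l m : Fˣ) : ι (hh l m) ⋆ x ∈ S.RR := S.cjR hx (S.H.hO _) fun p => ⟨_, _, p.h ..⟩
theorem NR' (hx : x ∈ S.RR) : Na ι x ∈ S.RR := S.cjR hx (S.H.hO _) fun p => ⟨_, _, p.N⟩
theorem tR (hx : x ∈ S.RR) : t ⋆ x ∈ S.RR := S.cjR hx (fun _ ho => ho.2.1) fun p => ⟨_, _, p.t'⟩
theorem xR (hx : x ∈ S.RR) (c : F) : ι (X 5 c) ⋆ x ∈ S.RR := S.cjR hx (S.H.hO _) fun p => ⟨_, _, p.x5 c⟩
theorem RP (hx : x ∈ S.RR) : ∃ a b, S.Ph x a b := (S.memR.1 hx).1.1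
theorem RC (hx : x ∈ S.RR) : x ∈ C(S.E0) := let ⟨_, _, p⟩ := S.RP hx; p.1
theorem RQ (hx : x ∈ S.RR) (p : S.Ph x 0 0) : ∃ a b u y w, x = q a b u y w := p.ker (S.memR.1 hx).2
theorem ξO (y) : ξ 5 y ∈ centralizer (O1 ι t) := by
  have := S.qO 0 0 0 y 0
  rw [S.q0, ← S.eξ] at this
  exact S.R.wb 6 (by decide) y ▸ mul_mem (mul_mem (S.H.hO _) this) (inv_mem (S.H.hO _))
theorem tξ (y) : t ⋆ ξ 5 y = ξ 5 y * ι (X 5 y.im) := by rw [cn, S.R.tc 5 (by decide), st_add, S.R.add 5 (by decide), S.R.em 5 (by decide)]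
theorem ξδ4 (y a) : S.Ph (ξ 5 y ⋆ Na ι (δ a)) 0 (y.im * a) ∧ ξ 5 y ⋆ Na ι (δ a) ∈ S.RR := by
  have : S.Ph (ξ 5 y ⋆ Na ι (δ a)) 0 (y.im * a) := by
    obtain ⟨u, v, w, p⟩ := S.x5q y.im a 0 (0 + a * a) (star 0) (0 + 0 * 0)
    exact .of (S.nE (fun _ _ _ => ⟨_, _, _, S.ξe ..⟩) (S.NC (S.δC a))) (by
      rw [cnn, S.tξ, mcn, S.q4, S.tq, p, ← S.q4, q1, cnm, cnm, S.ξδ, S.ξe, mul_assoc, S.q7 (0 + _), S.qe, zero_add])
  exact ⟨this, S.memR.2 ⟨⟨⟨_, _, this⟩, mul_mem (mul_mem (S.ξO _) (S.q4 a ▸ S.qO _ _ _ _ _)) (inv_mem (S.ξO _))⟩,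
    PiN.e_conj (S.q4 a ▸ two_of_pow (S.q4' ..)) _⟩⟩
end S5

end H27.S4
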