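/-
Standard subgroups of type `Sp₄(2ⁿ)`: the extended long root groups of `L₅(q)`, `U₅(q)`.
-/
import Cfsg.Agent.H27.W9

set_option autoImplicit false
set_option linter.unusedSectionVars false

namespace H27.S4
open Cfsg Subgroup QuadraticAlgebra
open H28.CY hiding aa h2
open H19 hiding PG
open H1.YG (Big h2 aa ng add0 sqadd ex_n four_le ex_sqrt sq_inj)

universe u
variable {F : Type} [Field F] [Big F] {G : Type u} [Group G] [Finite G] {ι : Γ F →* G} {t g x x' v v' k : G} {ρ a b c d u f : F}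
  {β δ : F → G} {ξ : I → E ρ → G} {y y' r r' s η η' : E ρ} {l m : Fˣ}

theorem genE {Z : E ρ → Prop} (ad : ∀ x y, Z x → Z y → Z (x + y)) (sm : ∀ (l : Fˣ) x, Z x → Z ((l : F) • x)) (z1 : Z 1) (zg : Z ⟨c, 1⟩) (x) :
    Z x := by
  have sm' : ∀ (a : F) x, Z x → Z (a • x) := fun a x h => by
    by_cases a0 : a = 0
    · rw [a0, zero_smul, ← ee x]; exact ad _ _ h h
    · exact sm (Units.mk0 a a0) x h
  have : x = (x.re + x.im * c) • 1 + x.im • ⟨c, 1⟩ := by ext <;> simp [add_assoc, aa]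
  exact this ▸ ad _ _ (sm' _ _ z1) (sm' _ _ zg)
theorem exE (hl : (l : F) + 1 ≠ 0) (x : E ρ) : ∃ y, x = y + (l : F) • y :=
  ⟨(l + 1 : F)⁻¹ • x, by rw [smul_smul, ← add_smul, ← one_add_mul, add_comm 1, mul_inv_cancel₀ hl, one_smul]⟩
theorem mk0 : (⟨0, 0⟩ : E ρ) = 0 := rfl
/-- the cocycle -/
def τ (x y : E ρ) : F := (x * star y * star ω).im
/-- the extended root elements -/
noncomputable def w7 (ι : Γ F →* G) (δ : F → G) (ξ : I → E ρ → G) (x : E ρ) : G := (Na ι (δ 1))⁻¹ * ξ 5 x ⋆ Na ι (δ 1) * ξ 6 (x * ω)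

namespace S5
variable (S : S5 ι t β δ ρ ξ)
include S
local notation "e" => e0 ι ξ
local notation "q" => q1 ι δ ξ
local notation "w" => w7 ι δ ξ
/-- the extended long root group -/
noncomputable def W : Subgroup G := S.RR ⊓ (C(S.E0)).comap (MulAut.conj (ι (nb F))).toMonoidHom
theorem W5 (hx : x ∈ S.W) (y) : ξ 5 y ⋆ x = x := cjc (S.N5 hx.2 y)
theorem W3 (hx : x ∈ S.W) (u) : x * ι (X 3 u) = ι (X 3 u) * x := by
  simpa only [Nb_mul, Nb_Nb, ← S.e4, Nb_X, sab] using congrArg (Nb ι) (S.cE (x := Nb ι x) hx.2 u 0 0)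
theorem WC (hx : x ∈ S.W) : x ∈ C(S.E0) := S.RC hx.1
theorem N3 (hx : x ∈ C(S.E0)) (h : x * ι (X 3 1) = ι (X 3 1) * x) : Nb ι x = x := by
  have := cjc (S.e4 1 ▸ S.cE hx ..).symm
  rw [Nb_eq, nb_def, map_mul, map_mul, mcn, mcn, this, cjc h.symm, this]
theorem WN (hx : x ∈ S.W) : Nb ι x = x := S.N3 (S.WC hx) (S.W3 hx 1)
theorem W_of (hx : x ∈ S.RR) (h : Nb ι x = x) : x ∈ S.W := ⟨hx, show Nb ι x ∈ C(S.E0) from h.symm ▸ S.RC hx⟩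
theorem Wh (hx : x ∈ S.W) (m : Fˣ) : ι (hh 1 m) ⋆ x = x :=
  cjc (mem_cent1.1 (Y2_le (H := (C[x]).comap ι) (fun r hr u => mem_cent1.2 (by
    rcases (by decide : ∀ r : I, 4 ≤ r.val → r = 4 ∨ r = 5 ∨ r = 6 ∨ r = 7) r hr with rfl | rfl | rfl | rfl
    exacts [S.e4 u ▸ (S.cE (S.WC hx) ..).symm, S.R.em 5 (by decide) u ▸ cjc' (S.W5 hx _), S.ex6 u ▸ (S.cE (S.WC hx) ..).symm,
      S.e7 u ▸ (S.cE (S.WC hx) ..).symm])) (fun u => mem_cent1.2 (S.W3 hx u).symm) (hT2 m)))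
theorem hW (hx : x ∈ S.W) (l m : Fˣ) : ι (hh l m) ⋆ x ∈ S.W :=
  ⟨S.hR hx.1 .., show Nb ι _ ∈ C(S.E0) by rw [Nb_cn, Nb_h]; exact S.nE (fun _ _ _ => ⟨_, _, _, S.he ..⟩) hx.2⟩
theorem δW (b f : F) : q 0 b 0 0 f ∈ S.W := S.W_of (S.qR ..) (by
  rw [show q 0 b 0 0 f = δ b * ι (X 7 f) by rw [S.q7, S.e7, S.qe]; simp, Nb_mul, S.Nbδ, Nb_X]; rfl)
theorem zW (f : F) : e 0 0 f ∈ S.W := S.q0 .. ▸ S.δW 0 f
theorem WQ (h : q a b u y f ∈ S.W) : a = 0 ∧ u = 0 ∧ y = 0 := by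
  obtain ⟨l, h1, h2⟩ := exl (F := F)
  have := S.Wh h l
  rw [S.hq, S.q_iff, Units.val_one, one_mul (l : F)] at this
  exact ⟨fix0 this.1 h1, fix0 this.2.2.1 h2, fixE this.2.2.2.1 h1⟩
theorem WP (hx : x ∈ S.W) : ∃ d, S.Ph x 0 d := by
  obtain ⟨l, h1, -⟩ := exl (F := F)
  obtain ⟨a, b, p⟩ := S.RP hx.1
  exact ⟨b, fix0 ((S.Wh hx l ▸ p.h 1 l).un p).1 h1 ▸ p⟩
theorem lift (d : F) : ∃ x ∈ S.W, S.Ph x 0 d := by
  obtain ⟨l, h1, h2⟩ := exl (F := F)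
  obtain ⟨p, r⟩ := S.ξδ4 ω (d / (l + 1))
  rw [omega_im, one_mul] at p
  rw [← mul_div_cancel₀ d h1]
  generalize d / (l + 1) = d at p r
  generalize ξ 5 ω ⋆ _ = v at p r
  have T : ∀ a ∈ zpowers (ι (hh 1 l)), ∃ m, a = ι (hh 1 m) := fun a ha => by
    obtain ⟨n, rfl⟩ := mem_powers_iff_mem_zpowers.2 ha
    exact ⟨l ^ n, by simp only [← map_pow, hh_pow, one_pow]⟩
  have pQ : H19.PG 2 S.Q1 := PiN.of_elt (by rintro _ ⟨_, _, _, _, _, rfl⟩; exact two_of_pow (S.q4' ..))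
  obtain ⟨_, ⟨a, b, u, y, f, rfl⟩, c⟩ := exists_mul_mem_cent (H := S.Q1) (A := zpowers (ι (hh 1 l))) (k := v)
    (zpowers_le.2 (mem_norm_of (by rintro _ ⟨_, _, _, _, _, rfl⟩; exact ⟨_, _, _, _, _, S.hq ..⟩)))
    (pQ.coprime (MonoidHom.map_zpowers ι _ ▸ pmap (piG_zpowers.2 (hh_odd _ _)))) (.inr pQ.sol) fun a ha => by
      obtain ⟨m, rfl⟩ := T a ha
      exact S.RQ (mul_mem (S.hR r ..) (inv_mem r)) (by simpa [aa, cn] using (p.h 1 m).mul p.inv)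
  replace p := (S.Phq a b u y f).mul p
  replace r := mul_mem (S.qR a b u y f) r
  replace c := mem_cent.1 c _ (mem_zpowers _)
  rw [add_zero, zero_add] at p
  generalize q a b u y f * v = v at p r c
  obtain ⟨u, y, f, k⟩ := p.2
  have := congrArg (cn (ι (hh 1 l))) k
  rw [cnn, cjc c, S.H.xt, k, cnm, S.H.xt, mul_right_inj, S.hq, S.q_iff, Units.val_one, one_mul (l : F), one_mul d, one_pow, one_mul f] at this
  rw [fix0 this.2.2.1.symm h2, fixE this.2.2.2.1.symm h1] at k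
  have kN := congrArg (Nb ι) k
  rw [Nb_cn, Nb_mul, S.H.Nb_t, S.WN (S.δW ..)] at kN
  have z : ∀ u, v * ι (X 7 u) = ι (X 7 u) * v := fun u => S.e7 u ▸ S.cE p.1 ..
  obtain ⟨f', m, k', hk, n⟩ := S.H.cZT (g := v⁻¹ * Nb ι v) (cjc' (by rw [mcn, kN, ← k, icn])) (fun u => Commute.mul_left (Commute.inv_left (z u))
    (by simpa only [Nb_mul, Nb_X, sab, Commute, SemiconjBy] using congrArg (Nb ι) (z u))) h1 (Commute.mul_left (Commute.inv_left c.symm) (by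
      simpa only [Nb_mul, Nb_inv, Nb_h, hh_inv, ← map_inv, inv_one, inv_inv, Commute, SemiconjBy] using congrArg (Nb ι) (Commute.inv_right c.symm).eq))
  have := ht' (h := ι (hh l 1)) (y := v * ι (X 7 f')) (k := ι (hh 1 m) * k') (g := Nb ι v) (by rw [mul_assoc, ← mul_assoc (ι _), ← map_mul, ← n]; group)
    (Commute.mul_left (by rw [Commute, SemiconjBy, ← map_mul, hh_comm, map_mul]) (mem_cent.1 hk _ ⟨_, rfl⟩).symm)
  have R := mul_mem r (S.hR (inv_mem r) l 1)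
  rw [mul_inv_rev, cnm, ixi, h7, mul_assoc, ← mul_assoc (ι _), ixa, S.e7, ← S.cE (S.RC (S.hR (inv_mem r) l 1)), ← mul_assoc, ← Nb_inv] at this
  nth_rw 1 [← inv_one, ← Nb_h, ← Nb_cn, ← Nb_mul] at this
  exact ⟨_, ⟨R, show Nb ι _ ∈ C(S.E0) from this ▸ mul_mem (S.RC R) (S.eC _ _ _)⟩, by simpa [add_mul, add_comm] using p.mul (p.inv.h l 1)⟩
theorem dec (hx : x ∈ S.RR) (p : S.Ph x 0 d) : ∃ a, ∃ v ∈ S.W, ∃ u y, x = Na ι (δ a) * v * e u y 0 := by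
  obtain ⟨v, hv, r⟩ := S.lift d
  obtain ⟨a, b, u, y, f, k⟩ := S.RQ (mul_mem hx (inv_mem hv.1)) (by simpa [aa] using p.mul r.inv)
  exact ⟨a, _, mul_mem (S.δW b f) hv, u, y, by
    rw [mul_assoc, mul_assoc, S.cE (S.WC hv), ← mul_assoc, ← mul_assoc, S.q4, S.qm, S.qe, ← mul_inv_eq_iff_eq_mul, k]; simp [mk0]⟩
theorem Wδ (hx : x ∈ S.W) (b : F) : ∃ f, x ⋆ δ b = δ b * e 0 0 f := by
  obtain ⟨d, p⟩ := S.WP hx
  obtain ⟨u, y, f, r⟩ := p.cr 0 b 0 0 0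
  obtain ⟨-, rfl, rfl⟩ := S.WQ (r ▸ show x ⋆ _ ∈ _ from conj_mem_of_norm (le_normalizer hx) (S.δW ..))
  exact ⟨f, by rw [S.q7, r, S.qe]; simp⟩
theorem WT (hx : x ∈ S.W) (a : F) : ∃ u y, Na ι (δ a) ⋆ x = x * e u y 0 := by
  obtain ⟨l, h1, -⟩ := exl (F := F)
  obtain ⟨d, p⟩ := S.WP hx
  rw [← mul_div_cancel₀ a h1]
  generalize a / (l + 1) = a
  obtain ⟨u, y, f, r⟩ := p.inv.cr a 0 0 0 0
  obtain ⟨u, y, f, k⟩ : ∃ u y f, Na ι (δ a) ⋆ x = x * e u y f := ⟨_, _, _, by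
    rw [show Na ι (δ a) ⋆ x = x * (x⁻¹ ⋆ Na ι (δ a) * (Na ι (δ a))⁻¹) by simp only [cn]; group, S.q4, r, S.qi, S.qm, aa, add_zero, S.q0]⟩
  have k' := congrArg (cn (ι (hh 1 l))) k
  rw [cnn, cnm, S.Wh hx, S.he, S.q4, S.hq, mul_zero, mul_zero, mul_zero, smul_zero, ← S.q4] at k'
  exact ⟨_, _, by
    rw [add_one_mul, ← mul_inv_eq_iff_eq_mul.2 (S.δm' ..), mcn, S.ei, cjc (S.cE (S.WC hx) ..).symm, mcn, k, cnm, S.cE' (S.NC (S.δC _)), k', mul_assoc,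
      S.em, Units.val_one, one_pow, one_mul f, aa]⟩
theorem esp (u y f) : e u y f = e 0 0 f * e u y 0 := by rw [S.em, zero_add, zero_add, add_zero]
/-- the basic relation -/
def V (x : E ρ) (v : G) (r : E ρ) : Prop := v ∈ S.W ∧ ξ 5 x ⋆ Na ι (δ 1) = Na ι (δ 1) * v * e 0 r 0
variable {S}
theorem V.add (h : S.V y v r) (h' : S.V y' v' r') : S.V (y + y') (v * v' * e 0 0 (y * star r').im) (r + r') :=
  ⟨mul_mem (mul_mem h.1 h'.1) (S.zW _), by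
    rw [S.R.add 5 (by decide), mcn, h'.2, cnm, cnm, h.2, S.W5 h'.1, S.ξe, mul_assoc _ _ v', ← S.cE (S.WC h'.1)]
    simp [mul_assoc, S.em]⟩
theorem V.sm (h : S.V y v r) (l : Fˣ) : S.V ((l : F) • y) (ι (hh l 1) ⋆ v) ((l : F) • r) := ⟨S.hW h.1 .., by
  simpa [cnn (ι _), cnm, S.he, S.h5, S.q4, S.hq] using congrArg (ι (hh l 1) ⋆ ·) h.2⟩
theorem V.un (h : S.V y v r) (h' : S.V y v' r') : r = r' ∧ v = v' := by
  have := h.2.symm.trans h'.2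
  rw [mul_assoc, mul_assoc, mul_right_inj] at this
  have k : v'⁻¹ * v = q 0 0 0 (r' + r) 0 := by
    rw [S.q0, inv_mul_eq_iff_eq_mul, ← mul_left_inj (e 0 r 0), this, mul_assoc, S.em]; simp [add_assoc, ee]
  obtain rfl : r = r' := by rw [← add_zero r, ← (S.WQ (k ▸ mul_mem (inv_mem h'.1) h.1)).2.2, add_left_comm, ee, add_zero]
  exact ⟨rfl, mul_right_cancel this⟩
theorem V.sq (h : S.V y v r) : (y * star r).im = y.norm ∧ Na ι (δ 1) ⋆ v = v * e 0 y 0 := by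
  have c := S.NC (S.δC 1)
  have p := congrArg (cn (ξ 5 y)) h.2
  rw [← mcn, S.ξ2 (by decide), cn0, cnm, cnm, h.2, S.W5 h.1, S.ξe, mul_assoc _ _ v, ← S.cE (S.WC h.1), mul_assoc, mul_assoc, mul_assoc, S.em, left_eq_mul, ← mul_assoc, mul_eq_one_iff_eq_inv, S.ei] at p
  have r := congrArg (cn (ξ 5 y)) (S.δm' 1 1)
  rw [cnm, h.2, aa, S.P.dl.zero, Na_one, one_mul, S.ξe] at r
  obtain ⟨u, y', k⟩ := S.WT h.1 1
  rw [mul_assoc _ (e _ _ _), ← S.cE (mul_mem (mul_mem c (S.WC h.1)) (S.eC _ _ _)), mul_assoc _ (e _ _ _), S.e2, mul_one, ← mul_assoc,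
    show ∀ a x : G, a * x * a * x = a ⋆ x * (a * a) * x by intros; simp only [cn]; group, k, S.δm', aa, S.P.dl.zero, Na_one, one_mul,
    mul_assoc v, S.em, mul_assoc, ← S.cE (S.WC h.1), ← mul_assoc, p, S.em, S.e_iff] at r
  simp only [zero_smul, zero_add, add_zero, mul_zero, mul_one, one_smul, ee, star_zero, im_zero, add_eq_right] at r
  exact ⟨r.2.2, by rw [k, r.1, r.2.1]⟩
variable (S)
theorem Vr (c : F) : S.V ⟨c, 0⟩ (δ c) ⟨0, c⟩ := ⟨S.q7 c ▸ S.δW .., by rw [S.R.em 5 (by decide), cn, S.P.d54, S.eβ, one_pow, mul_one]⟩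
theorem Vex (y : E ρ) : ∃ v r, S.V y v r := by
  obtain ⟨l, h1, -⟩ := exl (F := F)
  obtain ⟨y, rfl⟩ := exE h1 y
  obtain ⟨a, v, hv, u, r, p⟩ := S.dec (S.ξδ4 y 1).2 (S.ξδ4 y 1).1
  obtain ⟨f, k⟩ := S.Wδ hv 1
  have n : ∀ a, Na ι (δ a) ⋆ δ 1 = δ 1 * e 0 ⟨a, 0⟩ 0 := fun a => by
    rw [cn, S.P.dd, mul_one, S.ex6, mul_assoc, ← S.cE (inv_mem (S.NC (S.δC _))), mul_assoc, mul_inv_cancel_left]
  have := congrArg (· ⋆ δ 1) p
  simp only [mcn, cjc (S.cE (S.δC _) ..).symm, k, cnm, S.cE' (S.NC (S.δC _)), n, mul_assoc, S.em] at this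
  nth_rw 2 [← S.ξδ y 1] at this
  rw [← cnn, n, cnm, S.ξδ, S.ξe, mul_right_inj, S.e_iff] at this
  obtain rfl : 1 = a := by simpa using congrArg re this.2.1
  have p' := congrArg (ι (hh l 1) ⋆ ·) p
  simp only [cnn (ι _), cnm, S.he, S.h5, S.q4, S.hq, Units.val_one, mul_one, mul_zero, smul_zero, one_pow, one_mul, inv_one] at p'
  rw [← S.q4] at p'
  have h := S.hW hv l 1
  exact ⟨_, _, mul_mem (mul_mem hv h) (S.zW _), by
    rw [S.R.add 5 (by decide), mcn, p', cnm, cnm, p, S.W5 h, S.ξe, mul_assoc _ _ (_ ⋆ v), ← S.cE (S.WC h), ← mul_assoc, mul_assoc, S.em, aa,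
      S.esp, ← mul_assoc, mul_assoc _ v, mul_assoc (Na ι _)]⟩
theorem Vw (y : E ρ) : S.V y (w y) (y * ω) := by
  obtain ⟨v, r, p⟩ := S.Vex ω
  have a := p.sq.1
  have b := ((S.Vr 1).add p).sq.1
  obtain ⟨v, k⟩ : ∃ v, S.V y v (y * ω) := genE (c := 0) (Z := fun y => ∃ v, S.V y v (y * ω)) (fun _ _ ⟨_, a⟩ ⟨_, b⟩ => ⟨_, by rw [add_mul]; exact a.add b⟩)
    (fun l _ ⟨_, a⟩ => ⟨_, by rw [smul_mul_assoc]; exact a.sm l⟩) ⟨_, by rw [one_mul]; exact S.Vr 1⟩ ⟨v, by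
      rw [show (⟨0, 1⟩ * ω : E ρ) = r by
        simp [norm_def, ng] at a b
        ext <;> simp
        · linear_combination a + (ρ - r.re - r.im) * (h2 : (2 : F) = 0)
        · linear_combination b - a - (ρ + r.im) * (h2 : (2 : F) = 0)]
      exact p⟩ y
  rwa [w7, k.2, mul_assoc, mul_assoc, mul_assoc, inv_mul_cancel_left, S.eξ, S.e2, mul_one]
end S5

end H27.S4
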