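/-
Standard subgroups of type `Sp₄(2ⁿ)`: the relations of `L₅(q)`, `U₅(q)`.
-/
import Cfsg.Agent.H27.W10

set_option autoImplicit false
set_option linter.unusedSectionVars false

namespace H27.S4
open Cfsg Subgroup QuadraticAlgebra
open H28.CY hiding aa h2
open H19 hiding PG
open H1.YG (Big h2 aa ng add0 sqadd ex_n four_le ex_sqrt sq_inj)

universe u
variable {F : Type} [Field F] [Big F] {G : Type u} [Group G] [Finite G] {ι : Γ F →* G} {t g k : G} {ρ a b c d u f u' f' : F}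
  {β δ : F → G} {ξ : I → E ρ → G} {x x' y y' r r' s η η' ε ε' : E ρ} {l m : Fˣ} {i j n o : I}

theorem w1' : ∃ w : F, w ≠ 0 ∧ w + 1 ≠ 0 ∧ w ^ 2 + 1 ≠ 0 := w1
theorem addE : x + y = 0 ↔ x = y := ⟨fun h => by rw [← add_zero x, ← ee y, ← add_assoc, h, zero_add], fun h => h ▸ ee x⟩

namespace S5
variable (S : S5 ι t β δ ρ ξ)
include S
local notation "e" => e0 ι ξ
local notation "q" => q1 ι δ ξ
local notation "w" => w7 ι δ ξ
theorem wW (x) : w x ∈ S.W := (S.Vw x).1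
theorem wC (x) : w x ∈ C(S.E0) := S.WC (S.wW x)
theorem vC (x) : Na ι (w x) ∈ C(S.E0) := S.NC (S.wC x)
theorem vR (x) : Na ι (w x) ∈ S.RR := S.NR' (S.wW x).1
theorem wr (c : F) : w ⟨c, 0⟩ = δ c := ((S.Vw _).un (S.Vr c)).2
theorem w0 : w 0 = 1 := (S.wr 0).trans S.P.dl.zero
theorem w1 : w 1 = δ 1 := S.wr 1
theorem wm (x y) : w x * w y = w (x + y) * e 0 0 (τ x y) := by
  rw [← (((S.Vw x).add (S.Vw y)).un (S.Vw _)).2, star_mul', ← mul_assoc, mul_assoc _ (e _ _ _), τ, S.e2, mul_one]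
theorem vm (x y) : Na ι (w x) * Na ι (w y) = Na ι (w (x + y)) * e (τ x y) 0 0 := by rw [← Na_mul, S.wm, Na_mul, S.Ne, star_zero]
theorem wa (x y) : w (x + y) = w x * w y * e 0 0 (τ x y) := by rw [S.wm, mul_assoc, S.e2, mul_one]
theorem va (x y) : Na ι (w (x + y)) = Na ι (w x) * Na ι (w y) * e (τ x y) 0 0 := by rw [S.vm, mul_assoc, S.e2, mul_one]
theorem hw (l m : Fˣ) (x) : ι (hh l m) ⋆ w x = w ((l : F) • x) := by
  rw [← (((S.Vw x).sm l).un (S.Vw _)).2, show hh l m = hh l 1 * hh 1 m by rw [hh_mul, mul_one, one_mul], map_mul, mcn, S.Wh (S.wW x) m]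
theorem hv (l m : Fˣ) (x) : ι (hh l m) ⋆ Na ι (w x) = Na ι (w ((m : F) • x)) := by rw [← Na_h, ← Na_cn, S.hw]
theorem wP (x) : S.Ph (w x) 0 x.im := by
  have := ((S.q4 1 ▸ S.Phq ..).inv.mul (S.ξδ4 x 1).1).mul (S.eξ (x * ω) ▸ S.q0 .. ▸ S.Phq ..)
  rwa [add_zero, add_zero, add_zero, zero_add, mul_one] at this
theorem w_e (h : w x = e u y f) : x = 0 := by
  have a := ((S.wP x).un (h ▸ S.q0 .. ▸ S.Phq ..)).2
  obtain ⟨c, d⟩ := x
  obtain rfl : d = 0 := a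
  rw [S.wr, S.q7, ← S.q0, S.q_iff] at h
  rw [h.2.1, mk0]
theorem we_iff : w x * e u y f = w x' * e u' y' f' ↔ x = x' ∧ u = u' ∧ y = y' ∧ f = f' := ⟨fun h => by
  obtain rfl : x = x' := addE.1 (S.w_e (by
    rw [S.wa, eq_mul_inv_of_mul_eq h.symm, ← mul_assoc, ← mul_assoc, S.wm, ee, S.w0, one_mul, S.ei, S.em, S.em, S.em]))
  exact ⟨rfl, S.e_iff.1 (mul_left_cancel h)⟩, fun ⟨a, b, c, d⟩ => by rw [a, b, c, d]⟩
theorem Ww (hv : g ∈ S.W) : ∃ x f, g = w x * e 0 0 f := by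
  obtain ⟨d, p⟩ := S.WP hv
  have m := mul_mem (inv_mem (S.wW ⟨0, d⟩)) hv
  obtain ⟨a, b, u, y, f, k⟩ := S.RQ m.1 (by simpa [aa] using (S.wP ⟨0, d⟩).inv.mul p)
  obtain ⟨rfl, rfl, rfl⟩ := S.WQ (k ▸ m)
  exact ⟨_, _, by rw [inv_mul_eq_iff_eq_mul.1 k, q1, S.P.dl.zero, Na_one, one_mul, ← S.wr, ← mul_assoc, S.wm, mul_assoc, S.em, add_zero, add_zero]⟩
theorem decR (h : g ∈ S.RR) : ∃ ε x u y f, g = Na ι (w ε) * w x * e u y f := by
  obtain ⟨a, b, p⟩ := S.RP h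
  obtain ⟨c, v, hv, u, y, k⟩ := S.dec (mul_mem (inv_mem (S.vR ⟨0, a⟩)) h) (d := b) (by simpa [aa] using (S.wP ⟨0, a⟩).N.inv.mul p)
  obtain ⟨x, f, rfl⟩ := S.Ww hv
  exact ⟨_, x, _, _, _, by
    rw [inv_mul_eq_iff_eq_mul.1 k, ← S.wr, ← mul_assoc, ← mul_assoc, S.vm, mul_assoc _ (e _ _ _), ← mul_assoc (e _ _ _), ← S.cE (S.wC _), mul_assoc (w x), S.em,
      ← mul_assoc, mul_assoc, S.em]⟩
theorem vW (h : Na ι (w x) * e u y f ∈ S.W) : x = 0 ∧ u = 0 ∧ y = 0 := by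
  obtain ⟨l, h1, h2⟩ := exl (F := F)
  have := congrArg (Na ι) (S.Wh h l)
  rw [cnm, S.hv, S.he, Na_mul, Na_mul, Na_Na, Na_Na, S.Ne, S.Ne, S.we_iff, star_inj, Units.val_one, one_mul (l : F)] at this
  exact ⟨fixE this.1 h1, fix0 this.2.2.2 h2, fixE this.2.2.1 h1⟩
theorem tw (x) : t ⋆ w x = w (star x) * e 0 0 x.norm := by
  have p := congrArg (cn t) (S.Vw x).2
  have b : t ⋆ Na ι (δ 1) = Na ι (δ 1) * e 1 0 0 := by rw [S.q4, S.tq, S.qe]; simp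
  rw [cnn, cnm, cnm, b, S.te, show t ⋆ ξ 5 x = _ from S.R.tc 5 (by decide) x, cnm, (S.Vw _).2, S.ξe, mul_assoc, mul_assoc, mul_assoc, mul_assoc, mul_right_inj, S.em,
    ← mul_assoc, ← S.cE (S.RC (S.tR (S.wW x).1)), mul_assoc, S.em, ← mul_inv_eq_iff_eq_mul, S.ei, mul_assoc, S.em] at p
  rw [← p]
  congr 2
  · simp [aa]
  · ext <;> simp <;> grind
  · simp [QuadraticAlgebra.norm_star]
theorem tr (l : Fˣ) (p : Na ι (w ε) ⋆ w x = w x * k) :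
    Na ι (w ε) ⋆ w (x + (l : F) • x) = w (x + (l : F) • x) * ((w ((l : F) • x))⁻¹ ⋆ k * ι (hh l 1) ⋆ k) := by
  have p' := congrArg (cn (ι (hh l 1))) p
  rw [cnn, cnm, S.hv, S.hw, Units.val_one, one_smul] at p'
  have : (w ((l : F) • x))⁻¹ ⋆ k * ι (hh l 1) ⋆ k = (w ((l : F) • x))⁻¹ * (w x)⁻¹ * Na ι (w ε) ⋆ (w x * w ((l : F) • x)) := by
    rw [cnm, p, p']; simp only [cn]; group
  rw [this, S.wa, cnm, S.cE' (S.vC _), S.cE (mul_mem (S.wC _) (S.wC _)),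
    S.cE (x := _ ⋆ _) (conj_mem_of_norm (le_normalizer (S.vC ε)) (mul_mem (S.wC _) (S.wC _)))]
  group
theorem sy (p : Na ι (w ε) ⋆ w x = w x * k) : Na ι (w x) ⋆ w ε = w ε * (w ε)⁻¹ ⋆ Na ι k := by
  have p' := congrArg (Na ι) p
  rw [Na_cn, Na_Na, Na_mul] at p'
  have : (Na ι (w x))⁻¹ ⋆ w ε = w ε * (w ε)⁻¹ ⋆ Na ι k := by rw [← inv_mul_cancel_left (Na ι (w x)) (Na ι k), ← p']; simp only [cn]; group
  rw [← this]
  nth_rw 1 [← mul_inv_cancel_right (Na ι (w x)) (Na ι (w x))]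
  rw [mcn, S.vm, ee, S.w0, Na_one, one_mul]
  exact cjc (S.cE (conj_mem_of_norm (le_normalizer (inv_mem (S.vC _))) (S.wC _)) ..).symm
/-- the commutator relation -/
def WW (_ : S5 ι t β δ ρ ξ) (ε x η : E ρ) : Prop := Na ι (w ε) ⋆ w x = w x * e 0 η 0
theorem exW (ε x) : ∃ η, S.WW ε x η := by
  obtain ⟨l, h1, h2⟩ := exl (F := F)
  have A : ∀ ε x, ∃ b u y f, Na ι (w ε) ⋆ w x = w x * q 0 b u y f := fun ε x => by
    obtain ⟨x, rfl⟩ := exE h1 x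
    obtain ⟨a, b, u, y, f, p⟩ := S.RQ (mul_mem (inv_mem (S.wW x).1) (mul_mem (mul_mem (S.vR ε) (S.wW x).1) (inv_mem (S.vR ε))))
      (by simpa [aa] using (S.wP x).inv.mul (((S.wP ε).N.mul (S.wP x)).mul (S.wP ε).N.inv))
    obtain ⟨_, _, _, r⟩ := (S.wP ((l : F) • x)).inv.cr a b u y f
    exact ⟨_, _, _, _, by rw [S.tr l (inv_mul_eq_iff_eq_mul.1 p), r, S.hq, S.qm, Units.val_one, one_mul, aa]⟩
  have B : ∀ ε x, ∃ y f, Na ι (w ε) ⋆ w x = w x * e 0 y f := fun ε x => by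
    obtain ⟨x, rfl⟩ := exE h1 x
    obtain ⟨b, u, y, f, p⟩ := A ε x
    obtain ⟨b', u', y', f', p'⟩ := A x ε
    obtain ⟨_, _, _, r⟩ := (S.wP x).inv.cr b' 0 f' (star y' + ⟨0 * b', 0⟩) u'
    obtain rfl := (S.q_iff.1 (mul_left_cancel (p.symm.trans ((S.sy p').trans (by rw [S.Nq, r]))))).2.1
    exact ⟨_, _, by rw [S.tr l p, S.q0, S.cE' (inv_mem (S.wC _)), S.he, S.em, Units.val_one, one_pow, one_mul, aa]⟩
  obtain ⟨y, f, p⟩ := B ε x
  obtain ⟨y', f', p'⟩ := B x ε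
  obtain rfl := (S.we_iff.1 (p.symm.trans ((S.sy p').trans (by rw [S.Ne, S.cE' (inv_mem (S.wC _))])))).2.2.2
  exact ⟨y, p⟩
variable {S}
theorem WW.sy (p : S.WW ε x η) : S.WW x ε (star η) := (S.sy p).trans (by rw [S.Ne, S.cE' (inv_mem (S.wC _))])
theorem WW.add (p : S.WW ε x η) (p' : S.WW ε x' η') : S.WW ε (x + x') (η + η') := by
  rw [WW, S.wa, cnm, cnm, p, p', S.cE' (S.vC _), mul_assoc _ _ (_ * _), ← mul_assoc (e _ _ _), ← S.cE (S.wC _)]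
  simp [mul_assoc, S.em]
theorem WW.sm (p : S.WW ε x η) (l : Fˣ) : S.WW ε ((l : F) • x) ((l : F) • η) := by
  simpa [WW, cnn (ι _), cnm, S.hv, S.hw, S.he] using congrArg (cn (ι (hh l 1))) p
theorem WW.un (p : S.WW ε x η) (p' : S.WW ε x η') : η = η' := (S.we_iff.1 (p.symm.trans p')).2.2.1
variable (S)
theorem WW1 (x) : S.WW 1 x x := (S.w1 ▸ (S.Vw x).sq.2 :)
theorem nrm (h : ξ 5 x ⋆ Na ι (w ε) ∈ S.RR) : ∃ π u y f, ξ 5 x ⋆ Na ι (w ε) = Na ι (w ε) * w π * e u y f := by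
  obtain ⟨ε', π, u, y, f, p⟩ := S.decR h
  obtain ⟨f', k⟩ := S.Wδ (S.wW π) 1
  have : (ξ 5 x ⋆ Na ι (w ε)) ⋆ w 1 = _ := congrArg (· ⋆ w 1) p
  rw [← S.W5 (S.wW 1) x, ← cnn, (S.WW1 ε).sy, cnm, S.W5 (S.wW 1), S.ξe, mcn, mcn, cjc (S.cE (S.wC _) ..).symm, S.w1, k, ← S.w1, cnm, (S.WW1 ε').sy,
    S.cE' (S.vC _), mul_assoc, S.em, S.we_iff] at this
  obtain rfl : ε = ε' := by simpa using this.2.2.1
  exact ⟨π, u, y, f, p⟩
theorem ξR (x ε) : ξ 5 x ⋆ Na ι (w ε) ∈ S.RR := by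
  obtain ⟨π, u, y, f, p⟩ := S.nrm (x := ⟨x.im, 0⟩) (ε := star ε) (S.R.em 5 (by decide) _ ▸ S.xR (S.vR _) _)
  rw [S.R.em 5 (by decide)] at p
  have a := (((S.wP (star ε)).N.x5 x.im).un (p ▸ ((S.wP _).N.mul (S.wP π)).mul (S.q0 .. ▸ S.Phq ..))).2
  have tv : t ⋆ Na ι (w ε) = Na ι (w (star ε)) * e ε.norm 0 0 := by
    simpa only [Na_cn, S.H.Na_t, Na_mul, S.Ne, star_zero] using congrArg (Na ι) (S.tw ε)
  obtain ⟨P, R⟩ := S.ξδ4 x ε.im
  obtain ⟨u, y, f, k⟩ : ∃ u y f, t ⋆ ξ 5 x ⋆ Na ι (w ε) = ξ 5 x ⋆ Na ι (w ε) * (ξ 5 x ⋆ Na ι (δ ε.im) * w π * e u y f) := ⟨_, _, _, by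
    rw [cnn, S.tξ, mcn, tv, cnm, p, ← S.R.em 5 (by decide), S.ξe, mul_assoc, S.em, st_add, S.va, S.wr, mul_assoc _ (e _ _ _), ← S.cE (S.wC _), ← mul_assoc,
      mul_assoc, S.em, cnm, cnm, cnm, S.W5 (S.wW _), S.ξe, mul_assoc, mul_assoc, mul_assoc]⟩
  obtain ⟨_, _, _, _, _, r⟩ := S.RQ (mul_mem (mul_mem R (S.wW π).1) (S.q0 .. ▸ S.qR 0 0 u y f)) (by
    have := (P.mul (S.wP π)).mul (S.q0 .. ▸ S.Phq 0 0 u y f)
    rwa [add_zero, add_zero, add_zero, ← show _ = π.im by simpa using a, ng, aa] at this)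
  have o := S.memR.1 (S.vR ε)
  exact S.memR.2 ⟨⟨⟨_, _, .of (S.nE (fun _ _ _ => ⟨_, _, _, S.ξe ..⟩) (S.vC ε)) (r ▸ k)⟩, mul_mem (mul_mem (S.ξO _) o.1.2) (inv_mem (S.ξO _))⟩, o.2.e_conj _⟩
theorem ex0 (x ε) : ∃ π y f, ξ 5 x ⋆ Na ι (w ε) = Na ι (w ε) * w π * e 0 y f := by
  obtain ⟨l, h1, -⟩ := exl (F := F)
  obtain ⟨x, rfl⟩ := exE h1 x
  obtain ⟨π, u, y, f, p⟩ := S.nrm (S.ξR x ε)
  have p' := congrArg (cn (ι (hh l 1))) p
  simp only [cnn (ι _), cnm, S.he, S.h5, S.hv, S.hw, Units.val_one, mul_one, one_pow, one_mul, inv_one, one_smul] at p'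
  exact ⟨_, _, _, by
    rw [S.R.add 5 (by decide), mcn, p', cnm, cnm, p, S.W5 (S.wW _), S.ξe, mul_assoc _ (e _ _ _), ← S.cE (S.wC _), ← mul_assoc, mul_assoc _ (w π), S.wm,
      ← mul_assoc, mul_assoc, mul_assoc, S.em, S.em, aa, add_zero]⟩
theorem cy' (h : Tri i j n o) (u x) : ξ j x ⋆ ι (X i u) = ι (X i u) * (ξ n (u • x) * ι (X o (x.norm * u))) := by
  rw [← S.ξi h.sh.2.1 x, cn, inv_inv, mul_assoc, S.R.cy _ _ _ _ h, mul_assoc, inv_mul_cancel_left]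
theorem cs' (h : Tri i j n o) (x y) : ξ j x ⋆ ξ n y = ξ n y * ι (X o (x * star y).im) := by
  rw [← S.ξi h.sh.2.1 x, cn, inv_inv, mul_assoc, ← mul_inv_eq_iff_eq_mul.2 (S.R.cs _ _ _ _ h x y), mul_assoc, inv_mul_cancel_left, ixi]
/-- the conjugation relation -/
def WY (_ : S5 ι t β δ ρ ξ) (x ε : E ρ) : Prop := ξ 5 x ⋆ Na ι (w ε) = Na ι (w ε) * w (x * ε) * e 0 (ε.norm • (x * ω)) 0
theorem WYi (h : x * s = 1) : S.WY x s := by
  obtain ⟨π, y, f, p⟩ := S.ex0 x s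
  have n : x.norm * s.norm = 1 := by rw [← map_mul, h, map_one]
  have c : (ξ 2 (star x) * ξ 5 s) ⋆ ι (X 0 x.norm) = ι (X 3 1) := by
    have c1 := S.R.cm 0 5 1 3 (by decide)
    rw [mcn, S.cy' (i := 0) (n := 1) (o := 3) (by decide), cnm, cnm, cjc (S.R.cm 4 1 2 0 (by decide) ..).1, S.cs' (i := 3) (o := 0) (by decide),
      S.cy' (i := 3) (n := 1) (o := 0) (by decide), mul_comm s.norm, n, one_smul, QuadraticAlgebra.norm_star, mul_one, ← star_mul', st_im, mul_smul_comm, h,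
      show x.norm • s = star x by rw [Algebra.smul_def, algebraMap_norm_eq_mul_star, mul_right_comm, h, one_mul], im_smul, im_one, smul_zero, ix0, mul_one,
      ← mul_assoc (ξ 1 _), (c1 ..).1, mul_assoc, ← mul_assoc (ξ 1 _), S.ξ2 (by decide), one_mul, ← mul_assoc, ixc, mul_assoc, ix2, mul_one]
  have N0 : ∀ {g}, g ∈ S.W → Na ι g * ι (X 0 x.norm) = ι (X 0 x.norm) * Na ι g := fun hg => by
    simpa only [Na_mul, Na_X, show sa 3 = 0 by decide] using congrArg (Na ι) (S.W3 hg x.norm)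
  have k := congrArg (cn (ξ 2 (star x) * ξ 5 s)) (N0 (S.wW 1))
  have r : (ξ 2 (star x) * ξ 5 s) ⋆ Na ι (w 1) = w s * (Na ι (w (1 + π)) * e (τ 1 π + f + 1) (s + star y + s * ω) 0) := by
    rw [mcn, ← show Na ι (ξ 5 x) = ξ 2 (star x) from S.R.wa 5 (by decide) x, ← Na_Na (ι := ι) (ξ 5 s ⋆ _), ← Na_cn, S.w1, (S.Vw s).2, ← S.w1, Na_mul, Na_mul, Na_Na,
      S.Ne, cnm, cnm, S.W5 (S.wW 1), p, S.ξe, star_star, ← mul_assoc x, h, Na_mul, Na_mul, Na_mul, Na_mul, Na_Na, S.Ne, S.Ne, ← mul_assoc, ← mul_assoc,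
      mul_inv_eq_iff_eq_mul.1 (S.WW1 s), mul_assoc (w s), ← S.cE (S.vC _), mul_assoc (w s), mul_assoc (Na ι _), ← S.cE (S.vC _), ← mul_assoc (Na ι _), S.vm]
    simp [mul_assoc, S.em]
  rw [cnm, cnm, c, r, mul_assoc, ← mul_assoc (ι _), ← S.W3 (S.wW s), mul_assoc (w s), mul_right_inj] at k
  have m := mul_mem (S.vR (1 + π)) (S.q0 .. ▸ S.qR 0 0 (τ 1 π + f + 1) (s + star y + s * ω) 0)
  obtain ⟨a, b, c⟩ := S.vW (S.W_of m (S.N3 (S.RC m) k))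
  obtain rfl := addE.1 a
  rw [WY, p, h, show f = 0 by simp [τ] at b; grind, show y = s.norm • (x * ω) by
    rw [← star_star y, ← addE.1 ((add_right_comm s _ _).trans c), ← smul_mul_assoc, Algebra.smul_def, algebraMap_norm_eq_mul_star, mul_right_comm s, mul_comm s x, h]
    ext <;> simp <;> grind]
variable {S}
theorem WY.ad (p : S.WY x ε) (p' : S.WY x' ε) : S.WY (x + x') ε := by
  rw [WY, S.R.add 5 (by decide), mcn, p', cnm, cnm, p, S.W5 (S.wW _), S.ξe, mul_assoc _ (e _ _ _), ← S.cE (S.wC _), ← mul_assoc, mul_assoc _ (w (x * ε)), S.wm,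
    ← mul_assoc, mul_assoc, mul_assoc, S.em, S.em, ← add_mul]
  congr 3
  · simp
  · simp [add_mul]
  · simp [τ, norm_def]; grind
theorem WY.sm (p : S.WY x ε) (l m : Fˣ) : S.WY ((l : F) • x) ((m : F) • ε) := by
  have := congrArg (cn (ι (hh (l * m) m))) p
  rw [cnn, cnm, cnm, S.h5, S.hv, S.hw, S.he, smul_smul] at this
  simpa [WY, smul_smul, norm_def, mul_comm, mul_left_comm, mul_sub, mul_add, pow_two] using this
variable (S)
theorem WY1 (x) : S.WY x 1 := by rw [WY, mul_one, map_one, one_smul, S.w1]; exact (S.Vw x).2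
theorem exg : ∃ c : F, (⟨c, 1⟩ : E ρ).norm ≠ 0 := by
  obtain ⟨c, a, b, -⟩ := w1' (F := F)
  by_contra! k
  have := k c
  rw [← sub_eq_zero.2 (k 0)] at this
  exact mul_ne_zero a b (by simp [norm_def] at this; linear_combination this)
theorem WYg (h : x.norm ≠ 0) : S.WY x (star x) := by
  simpa [smul_smul, h] using (S.WYi (x := x) (s := x.norm⁻¹ • star x) (by
    rw [mul_smul_comm, ← algebraMap_norm_eq_mul_star, Algebra.algebraMap_eq_smul_one, smul_smul, inv_mul_cancel₀ h, one_smul])).sm 1 (Units.mk0 _ h)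
theorem ww (ε x) : S.WW ε x (star ε * x) := by
  have A : ∀ ε, S.WW ε ⟨0, 1⟩ (star ε * ⟨0, 1⟩) → ∀ x, S.WW ε x (star ε * x) := fun ε => genE (Z := fun x => S.WW ε x (star ε * x))
    (fun _ _ a b => by rw [mul_add]; exact a.add b) (fun l _ a => by rw [mul_smul_comm]; exact a.sm l) (by rw [mul_one]; exact (S.WW1 ε).sy)
  suffices h : _ from A ε (by simpa [mul_comm] using (A ⟨0, 1⟩ h ε).sy) x
  obtain ⟨θ, p⟩ := S.exW ⟨0, 1⟩ ⟨0, 1⟩
  obtain ⟨c, hc⟩ := S.exg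
  have a := congrArg re (p.un p.sy)
  have r := genE (c := 0) (Z := fun ε => S.WW ε ⟨0, 1⟩ (ε.re • ⟨0, 1⟩ + ε.im • θ))
    (fun _ _ a b => by simpa [add_smul, add_add_add_comm] using (a.sy.add b.sy).sy)
    (fun l _ a => by simpa [smul_smul, st_sm] using (a.sy.sm l).sy) (by simpa using S.WW1 _) (by simpa using p) (star ⟨c, 1⟩)
  have k := congrArg (cn (ξ 5 ⟨c, 1⟩)) r
  rw [cnn, S.WYg hc, cnm, S.W5 (S.wW _), S.ξe, mcn, mcn, cjc (S.cE (S.wC _) ..).symm, show w _ ⋆ w _ = _ * _ * _ from rfl, S.wm, add_comm, S.wa, mul_assoc _ (e _ _ _) (e _ _ _), S.em,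
    mul_assoc, ← S.cE (inv_mem (S.wC _)), ← mul_assoc, mul_inv_cancel_right, cnm, r, S.cE' (S.vC _), mul_assoc, S.em, S.we_iff] at k
  have b := k.2.2.2
  simp [τ] at a b
  rw [show star ⟨0, 1⟩ * ⟨0, 1⟩ = θ by ext <;> simp <;> grind]
  exact p
theorem wv (ε x) : w x * Na ι (w ε) = Na ι (w ε) * w x * e 0 (star ε * x) 0 := by
  rw [mul_inv_eq_iff_eq_mul.1 (S.ww ε x), mul_assoc (w x) (e _ _ _), ← S.cE (S.vC _), ← mul_assoc, mul_assoc, S.e2, mul_one]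
theorem wy (x ε) : S.WY x ε := by
  obtain ⟨c, hc⟩ := S.exg
  have A : ∀ {x c}, S.WY x ⟨c, 1⟩ → S.WY x ε := fun {x c} h => genE (fun ε ε' p p' => by
    have k : ∀ {g}, g ∈ C(S.E0) → ∀ u y f z, e u y f * (g * z) = g * (e u y f * z) := fun h u y f z => by rw [← mul_assoc, ← S.cE h, mul_assoc]
    rw [WY, S.va, cnm, cnm, p, p', S.ξe]
    simp only [mul_assoc, k (S.vC _), k (S.wC _), S.em]
    rw [← mul_assoc (w _), S.wv, mul_assoc, mul_assoc, k (S.wC _), ← mul_assoc (w _), S.wm, mul_assoc, S.em, S.em, ← mul_add]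
    congr 4
    · simp
    · ext <;> simp [τ, norm_def] <;> grind
    · simp [τ, norm_def]; grind) (fun m _ p => by simpa using p.sm 1 m) (S.WY1 x) h ε
  have a := A (st_mk (ρ := ρ) c 1 ▸ S.WYg hc)
  have b := A (star_star (⟨c, 1⟩ : E ρ) ▸ S.WYg (x := star ⟨c, 1⟩) (by rwa [QuadraticAlgebra.norm_star]))
  exact genE (Z := fun x => S.WY x ε) (fun _ _ => .ad) (fun l _ p => by simpa using p.sm l 1)
    (by have := a.ad b; rwa [st_mk, mk_add, ← add_assoc, aa, aa, zero_add] at this) a x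
end S5

theorem epab (r : I) (h : ¬ Sh r) (x : E ρ) : ep (sa r) x = star (ep r x) ∧ ep (sb r) x = ep r x ∧ ep r (star x) = star (ep r x) := by
  rcases (by decide : ∀ r : I, ¬ Sh r → r = 7 ∨ r = 4 ∨ r = 3 ∨ r = 0) r h with rfl | rfl | rfl | rfl
  exacts [⟨(star_star x).symm, rfl, rfl⟩, ⟨rfl, rfl, rfl⟩, ⟨rfl, rfl, rfl⟩, ⟨(star_star x).symm, rfl, rfl⟩]
theorem cab2 : ∀ r, ¬ Sh r → cb (sb r) / 2 = -(cb r / 2) := by decide

theorem d5 : D5.{u} := fun {F} _ _ G _ _ ι t H β δ ρ ξ P R e6 g4 => by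
  have S : S5 ι t β δ ρ ξ := ⟨H, P, R, e6⟩
  let w : I → E ρ → G := fun r x => (![Na ι (Nb ι (Na ι (w7 ι δ ξ x))), 1, 1, Nb ι (Na ι (w7 ι δ ξ x)), Na ι (w7 ι δ ξ x), 1, 1, w7 ι δ ξ x] : Fin 8 → G) r
  have va : ∀ r, ¬ Sh r → ∀ x, Na ι (w r x) = w (sa r) x := fun r h x => by
    rcases (by decide : ∀ r : I, ¬ Sh r → r = 7 ∨ r = 4 ∨ r = 3 ∨ r = 0) r h with rfl | rfl | rfl | rfl
    exacts [rfl, Na_Na _, rfl, Na_Na _]
  have vb : ∀ r, ¬ Sh r → ∀ x, Nb ι (w r x) = w (sb r) x := fun r h x => by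
    rcases (by decide : ∀ r : I, ¬ Sh r → r = 7 ∨ r = 4 ∨ r = 3 ∨ r = 0) r h with rfl | rfl | rfl | rfl
    exacts [S.WN (S.wW x), rfl, Nb_Nb _, (nab _).symm.trans (by rw [S.WN (S.wW x)]; rfl)]
  have wa : ∀ r, Sh r → ∀ x, Na ι (ξ r x) = ξ (sa r) (star x) := R.wa
  have wb : ∀ r, Sh r → ∀ x, Nb ι (ξ r x) = ξ (sb r) x := R.wb
  have e7 : ∀ x, w 7 x = w7 ι δ ξ x := fun _ => rfl
  have e4 : ∀ x, w 4 x = Na ι (w7 ι δ ξ x) := fun _ => rfl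
  have n : ∀ x, ι x ∈ N(G2 ι β δ) := fun x => le_normalizer (LG2 x)
  have gx : ∀ r, Sh r → ∀ x, ξ r x ∈ G2 ι β δ := fun r h x => mem_sup_left (g4 ▸ mem_sup_right (subset_closure ⟨r, x, h, rfl⟩))
  have gb := conj_mem_of_norm (n (na F)) (δG2 1)
  have gl : ∀ r, ¬ Sh r → ∀ x, w r x ∈ G2 ι β δ := Lg.ind
    (fun x => mul_mem (mul_mem (inv_mem gb) (conj_mem_of_norm (le_normalizer (gx 5 (by decide) _)) gb)) (gx 6 (by decide) _))
    (fun r h p c => va r h c ▸ conj_mem_of_norm (n _) (p _)) fun r h p c => vb r h c ▸ conj_mem_of_norm (n _) (p _)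
  refine ⟨w, ⟨R, Lg.ind (fun x y => by rw [e7, e7, e7, S.wa, S.e7]; rfl)
      (fun r h p x y => by simpa only [va r h, Na_mul, Na_X] using congrArg (Na ι) (p x y))
      fun r h p x y => by simpa only [vb r h, Nb_mul, Nb_X] using congrArg (Nb ι) (p x y),
    Lg.ind (fun x u => S.e7 u ▸ S.cE (S.wC x) ..) (fun r h p x y => by simpa only [va r h, Na_mul, Na_X] using congrArg (Na ι) (p x y))
      fun r h p x y => by simpa only [vb r h, Nb_mul, Nb_X] using congrArg (Nb ι) (p x y),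
    Lg.ind (P := fun r => ∀ x, t ⋆ w r x = w r (star x) * ι (X r x.norm)) (fun x => S.e7 _ ▸ S.tw x)
      (fun r h p x => by simpa only [va r h, Na_mul, Na_X, Na_cn, H.Na_t] using congrArg (Na ι) (p x))
      fun r h p x => by simpa only [vb r h, Nb_mul, Nb_X, Nb_cn, H.Nb_t] using congrArg (Nb ι) (p x), va, vb,
    Lg.ind (P := fun r => ∀ l m x, ι (hh l m) ⋆ w r x = w r (((l ^ (ca r / 2) * m ^ (cb r / 2) : Fˣ) : F) • x))
      (fun l m x => by rw [e7, e7, S.hw]; simp [ca, cb])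
      (fun r h p l m x => by rw [← va r h, ← va r h, (cab r).1, (cab r).2.1, mul_comm, ← p, Na_cn, Na_h])
      fun r h p l m x => by rw [← vb r h, ← vb r h, (cab r).2.2.1, cab2 r h, ← inv_zpow', ← p, Nb_cn, Nb_h, inv_inv],
    Tri.ind (P := fun r s k m => ∀ x e, ξ s x ⋆ w r e = w r e * w m (ep r x * e) * ξ k (e.norm • (x * ep r ω))) (fun x e => S.eξ _ ▸ S.wy x e)
      (fun r s k m h p x e => by
        simpa only [va r h.sh.1, va m h.sh.2.2.2, wa s h.sh.2.1, wa k h.sh.2.2.1, Na_mul, Na_cn, star_star, st_sm, star_mul', epab r h.sh.1]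
          using congrArg (Na ι) (p (star x) e))
      fun r s k m h p x e => by
        simpa only [vb r h.sh.1, vb m h.sh.2.2.2, wb s h.sh.2.1, wb k h.sh.2.2.1, Nb_mul, Nb_cn, epab r h.sh.1] using congrArg (Nb ι) (p x e),
    Tri.ind (fun x y => by rw [e4, e7, mul_inv_eq_iff_eq_mul.1 (S.ww x y), mul_assoc, ← S.cE (S.vC _), S.eξ, mul_assoc]; rfl)
      (fun r s k m h p x e => by
        simpa only [va r h.sh.1, va m h.sh.2.2.2, wa k h.sh.2.2.1, Na_mul, epab r h.sh.1] using congrArg (Na ι) (p x e))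
      fun r s k m h p x e => by
        simpa only [vb r h.sh.1, vb m h.sh.2.2.2, wb k h.sh.2.2.1, Nb_mul, epab r h.sh.1] using congrArg (Nb ι) (p x e),
    Tri.ind (fun e => ⟨fun x => S.eξ x ▸ S.cE (S.wC e) .., fun u => S.e4 u ▸ S.cE (S.wC e) ..⟩)
      (fun r s k m h p e => ⟨fun x => by simpa only [va m h.sh.2.2.2, wa k h.sh.2.2.1, Na_mul, star_star] using congrArg (Na ι) ((p e).1 (star x)),
        fun u => by simpa only [va m h.sh.2.2.2, Na_mul, Na_X] using congrArg (Na ι) ((p e).2 u)⟩)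
      fun r s k m h p e => ⟨fun x => by simpa only [vb m h.sh.2.2.2, wb k h.sh.2.2.1, Nb_mul] using congrArg (Nb ι) ((p e).1 x),
        fun u => by simpa only [vb m h.sh.2.2.2, Nb_mul, Nb_X] using congrArg (Nb ι) ((p e).2 u)⟩⟩,
    le_antisymm (sup_le (g4.le.trans le_sup_left) ((closure_le _).2 (by rintro _ ⟨r, x, h, rfl⟩; exact gl r h x)))
      (sup_le (g4.ge.trans le_sup_left) ((closure_le _).2 (by
        rintro _ ⟨c, rfl⟩; exact mem_sup_right (subset_closure ⟨7, ⟨c, 0⟩, by decide, (S.wr c).symm⟩))))⟩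

end H27.S4
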